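import Cfsg.Agent.Lib.FT.BG3f
import Cfsg.Agent.Lib.Fusion2.Theta
import Cfsg.Agent.Lib.Fusion2.StrongRes
import Cfsg.Agent.Lib.OddLocal.CoprimeFix
import Cfsg.Agent.Lib.Coprime.PLen

/-!
S1444 from the Main Lemma of BG section 3.
-/

set_option autoImplicit false
set_option linter.unusedSectionVars false
set_option linter.style.haveILetI false

namespace Cfsg.Agent.Lib.FT

open Module Subgroup Cfsg
open scoped commutatorElement

universe u

section General

variable {X : Type*} [Group X] [Finite X]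

/-- Centralizers of elements of coprime order map onto the centralizers in the quotient: Z-groups. -/
theorem zgroup_map {Y : Type*} [Group Y] (π : X →* Y) (hπ : Function.Surjective π) (H : Subgroup X)
    (hker : π.ker ≤ H) (x : X) {r : ℕ} (hr : r.Prime) (hxr : x ^ r = 1) (hrH : ¬ r ∣ Nat.card H) (hZ : IsZGroup ↥(H ⊓ centralizer ({x} : Set X))) :
    IsZGroup ↥(H.map π ⊓ centralizer ({π x} : Set Y)) := by
  classical
  let g : ↥(H ⊓ centralizer ({x} : Set X)) →* ↥(H.map π ⊓ centralizer ({π x} : Set Y)) :=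
    MonoidHom.codRestrict (π.comp (H ⊓ centralizer ({x} : Set X)).subtype) _ (by
      rintro ⟨u, hu, huc⟩
      refine ⟨⟨u, hu, rfl⟩, ?_⟩
      have h1 : u * x = x * u := Subgroup.mem_centralizer_singleton_iff.mp huc
      refine Subgroup.mem_centralizer_singleton_iff.mpr ?_
      change π u * π x = π x * π u
      rw [← map_mul, ← map_mul, h1])
  refine IsZGroup.of_surjective (f := g) ?_
  rintro ⟨b, ⟨u, hu, rfl⟩, hb⟩
  have hb' : π u * π x = π x * π u := Subgroup.mem_centralizer_singleton_iff.mp hb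
  have hcard : (Nat.card π.ker).Coprime (Nat.card (zpowers x)) := by
    have h1 : Nat.card (zpowers x) ∣ r := by
      rw [Nat.card_zpowers]
      exact orderOf_dvd_of_pow_eq_one hxr
    refine Nat.Coprime.coprime_dvd_right h1 ?_
    rw [Nat.coprime_comm, Nat.Prime.coprime_iff_not_dvd hr]
    exact fun hd => hrH (hd.trans (Subgroup.card_dvd_of_le hker))
  obtain ⟨n, hn, hnu⟩ := Cfsg.Agent.Lib.OddLocal.exists_mul_mem_centralizer (N := π.ker) (A := zpowers x)
    (by rw [Subgroup.normalizer_eq_top_iff.mpr inferInstance]; exact le_top) hcard (Or.inr inferInstance) u (by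
      rintro a ha
      obtain ⟨k, rfl⟩ := Subgroup.mem_zpowers_iff.mp ha
      rw [MonoidHom.mem_ker]
      have h2 : Commute (π u) (π x) := hb'
      have h3 : π u * π (x ^ k) = π (x ^ k) * π u := by
        rw [map_zpow]
        exact (h2.zpow_right k)
      rw [map_mul, map_mul, map_mul, h3, map_inv, map_inv]
      group)
  have hmemH : n * u ∈ H := mul_mem (hker hn) hu
  have hc : n * u ∈ centralizer ({x} : Set X) := by
    rw [Subgroup.mem_centralizer_singleton_iff]
    exact (Subgroup.mem_centralizer_iff.mp hnu x (mem_zpowers x)).symm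
  refine ⟨⟨n * u, hmemH, hc⟩, ?_⟩
  apply Subtype.ext
  change π (n * u) = π u
  rw [map_mul, MonoidHom.mem_ker.mp hn, one_mul]

theorem pCore_eq_bot_of_surjective {A B : Type*} [Group A] [Group B] [Finite A] {p : ℕ} [hpf : Fact p.Prime]
    (f : A →* B) (hf : Function.Surjective f) (hker : f.ker = pCore p A) : pCore p B = ⊥ := by
  classical
  haveI : Finite B := Finite.of_surjective f hf
  set N : Subgroup B := pCore p B with hN
  have hNp : IsPGroup p N := Cfsg.Agent.Lib.Basic.pCore_isPGroup p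
  have hOp : IsPGroup p (pCore p A) := Cfsg.Agent.Lib.Basic.pCore_isPGroup p
  have hNn : N.Normal := Cfsg.Agent.Lib.Basic.pCore_normal p
  have hN' : N.comap f ≤ pCore p A := by
    apply Cfsg.Agent.Lib.Basic.le_pCore (Subgroup.Normal.comap hNn f)
    rintro ⟨a, ha⟩
    obtain ⟨k, hk⟩ := hNp ⟨f a, ha⟩
    have h1 : f a ^ p ^ k = 1 := congrArg Subtype.val hk
    have h2 : a ^ p ^ k ∈ pCore p A := by
      rw [← hker, MonoidHom.mem_ker, map_pow, h1]
    obtain ⟨m, hm⟩ := hOp ⟨_, h2⟩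
    have h3 : (a ^ p ^ k) ^ p ^ m = 1 := congrArg Subtype.val hm
    refine ⟨k + m, ?_⟩
    apply Subtype.ext
    change a ^ p ^ (k + m) = 1
    rw [pow_add, pow_mul, h3]
  rw [eq_bot_iff]
  intro b hb
  obtain ⟨a, rfl⟩ := hf b
  have h1 : a ∈ pCore p A := hN' hb
  rw [← hker, MonoidHom.mem_ker] at h1
  rw [h1]
  exact one_mem _

end General

section TheoremC

open Cfsg.Agent.Lib.Fusion2

variable {X : Type u} [Group X] [Finite X] [Group.IsSolvable X] {p : ℕ} [hpf : Fact p.Prime]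

/-- The action on the Frattini quotient. -/
noncomputable def fratAct (V : Subgroup X) [V.Normal] : X →* MulAut (↥V ⧸ frattini ↥V) :=
  barAut.comp (MulAut.conjNormal (H := V))

theorem fratAct_mk (V : Subgroup X) [V.Normal] (g : X) (v : ↥V) :
    fratAct V g (v : ↥V ⧸ frattini ↥V) = ((MulAut.conjNormal g v : ↥V) : ↥V ⧸ frattini ↥V) := rfl

theorem fratAct_faithful (H : Subgroup X) [hHn : H.Normal] (hO : pPrimeCore p ↥H = ⊥) (V : Subgroup X) [hVn : V.Normal]
    (hV : V = (pCore p ↥H).map H.subtype) {u : X} (hu : u ∈ H) (hker : fratAct V u = 1) : u ∈ V := by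
  classical
  have hVp : IsPGroup p ↥V := by
    rw [hV]
    exact (Cfsg.Agent.Lib.Basic.pCore_isPGroup p).map _
  set K : Subgroup X := H ⊓ (fratAct V).ker with hK
  have hKp : ∀ a ∈ K, ∃ j : ℕ, a ^ p ^ j = 1 := by
    rintro u ⟨huH, huK⟩
    have hn0 : orderOf u ≠ 0 := (isOfFinOrder_of_finite u).orderOf_pos.ne'
    obtain ⟨e, m, hm, hn⟩ := Nat.exists_eq_pow_mul_and_not_dvd hn0 p hpf.out.ne_one
    refine ⟨e, ?_⟩
    set w : X := u ^ p ^ e with hw
    have hwm : w ^ m = 1 := by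
      rw [hw, ← pow_mul, ← hn, pow_orderOf_eq_one]
    have hwH : w ∈ H := pow_mem huH _
    have hwker : fratAct V w = 1 := by
      rw [hw, map_pow, MonoidHom.mem_ker.mp huK, one_pow]
    set α' : MulAut ↥V := MulAut.conjNormal (H := V) w with hα'
    have hα'm : α' ^ m = 1 := by
      rw [hα', ← map_pow, hwm, map_one]
    have hα'c : (orderOf α').Coprime p := by
      refine Nat.Coprime.coprime_dvd_left (orderOf_dvd_of_pow_eq_one hα'm) ?_
      rw [Nat.coprime_comm, Nat.Prime.coprime_iff_not_dvd hpf.out]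
      exact hm
    have hα'1 : α' = 1 := by
      refine aut_eq_one_of_frattini hVp hα'c fun v => ?_
      have h1 : fratAct V w (v : ↥V ⧸ frattini ↥V) = (v : ↥V ⧸ frattini ↥V) := by
        rw [hwker]
        rfl
      rw [fratAct_mk] at h1
      rw [← QuotientGroup.eq_one_iff, QuotientGroup.mk_mul, QuotientGroup.mk_inv, h1, mul_inv_cancel]
    have hwc : (⟨w, hwH⟩ : ↥H) ∈ centralizer (pCore p ↥H : Set ↥H) := by
      rw [Subgroup.mem_centralizer_iff]
      intro b hb
      apply Subtype.ext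
      have hbV : (b : X) ∈ V := by
        rw [hV]
        exact ⟨b, hb, rfl⟩
      have h2 : ((α' ⟨b, hbV⟩ : ↥V) : X) = b := by
        rw [hα'1]
        rfl
      rw [hα', MulAut.conjNormal_apply] at h2
      change (b : X) * w = w * b
      calc (b : X) * w = (w * b * w⁻¹) * w := by rw [h2]
        _ = w * b := by group
    have hwP := Cfsg.Agent.Lib.OddLocal.centralizer_pCore_le hO hwc
    obtain ⟨j, hj⟩ := (Cfsg.Agent.Lib.Basic.pCore_isPGroup (G := ↥H) p) ⟨_, hwP⟩
    have hwj : w ^ p ^ j = 1 := by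
      have := congrArg (fun z : ↥(pCore p ↥H) => ((z : ↥H) : X)) hj
      simpa using this
    have h1 : orderOf w ∣ p ^ j := orderOf_dvd_of_pow_eq_one hwj
    have h2 : orderOf w ∣ m := orderOf_dvd_of_pow_eq_one hwm
    have h3 : Nat.Coprime (p ^ j) m :=
      Nat.Coprime.pow_left _ ((Nat.Prime.coprime_iff_not_dvd hpf.out).mpr hm)
    exact orderOf_eq_one_iff.mp (Nat.eq_one_of_dvd_coprimes h3 h1 h2)
  have hKn : K.Normal := by
    rw [hK]
    infer_instance
  have hle : K.subgroupOf H ≤ pCore p ↥H := by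
    apply Cfsg.Agent.Lib.Basic.le_pCore
    · exact Subgroup.Normal.subgroupOf hKn H
    · rintro ⟨a, ha⟩
      obtain ⟨j, hj⟩ := hKp a ha
      exact ⟨j, Subtype.ext (Subtype.ext hj)⟩
  have hmem : (⟨u, hu⟩ : ↥H) ∈ K.subgroupOf H := by
    rw [Subgroup.mem_subgroupOf]
    exact ⟨hu, hker⟩
  rw [hV]
  exact ⟨_, hle hmem, rfl⟩

/-- **Theorem C**, with an abstract module. -/
theorem theoremC_aux {A : Type u} [CommGroup A] [Finite A] [Module (ZMod p) (Additive A)] (hm : BG3Main.{u})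
    (hodd : Odd (Nat.card X)) (H R : Subgroup X) [hHn : H.Normal]
    (hcop : (Nat.card H).Coprime (Nat.card R)) (x : X) (hxR : x ∈ R) (r : ℕ) (hr : r.Prime) (hxr : x ^ r = 1) (hx1 : x ≠ 1)
    (hZ : IsZGroup ↥(H ⊓ centralizer ({x} : Set X))) (hcomm : ⁅H, R⁆ = H)
    (V : Subgroup X) [hVn : V.Normal] (hVH : V ≤ H) (hpc : pCore p ↥(H.map (QuotientGroup.mk' V)) = ⊥)
    (α : X →* MulAut A) (hV1 : ∀ v ∈ V, α v = 1) (hfa : ∀ u ∈ H, α u = 1 → u ∈ V) (b₀ : A)
    (hb₀ : ∀ a : A, (∀ t ∈ zpowers x, α t a = a) → a ∈ zpowers b₀) :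
    ¬ p ∣ Nat.card ↥(H.map (QuotientGroup.mk' V)) := by
  classical
  let π : X →* X ⧸ V := QuotientGroup.mk' V
  have hπ : Function.Surjective π := QuotientGroup.mk'_surjective V
  have hker : π.ker = V := QuotientGroup.ker_mk' V
  have hrx : orderOf x = r := by
    haveI : Fact r.Prime := ⟨hr⟩
    exact orderOf_eq_prime hxr hx1
  have hrR : r ∣ Nat.card R := by
    have h1 := orderOf_dvd_natCard (⟨x, hxR⟩ : ↥R)
    rwa [Subgroup.orderOf_mk, hrx] at h1
  have hrH : ¬ r ∣ Nat.card H := fun hd =>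
    hr.one_lt.ne' (Nat.eq_one_of_dvd_coprimes hcop hd hrR)
  have hact₀ : Cfsg.Agent.Lib.Coprime.CoprimeAction R H :=
    ⟨by rw [Subgroup.normalizer_eq_top_iff.mpr hHn]; exact le_top, hcop.symm, Or.inl inferInstance⟩
  have hact : Cfsg.Agent.Lib.Coprime.CoprimeAction (R.map π) (H.map π) := hact₀.map π
  haveI hTn : (H.map π).Normal := hHn.map π hπ
  haveI hFinA : Finite (Additive A) := inferInstanceAs (Finite A)
  haveI hFD : FiniteDimensional (ZMod p) (Additive A) := Module.Finite.of_finite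
  let f : X → End (ZMod p) (Additive A) := fun g =>
    (MulEquiv.toAdditive (α g) : Additive A ≃+ Additive A).toAddMonoidHom.toZModLinearMap p
  have hf : ∀ (g : X) (a : Additive A), f g a = Additive.ofMul (α g (Additive.toMul a)) := fun _ _ => rfl
  let ρ₀ : X →* End (ZMod p) (Additive A) :=
    { toFun := f
      map_one' := LinearMap.ext fun x => by
        rw [hf, Module.End.one_apply]
        simp
      map_mul' := fun a b => LinearMap.ext fun x => by
        rw [Module.End.mul_apply, hf, hf, hf]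
        simp }
  have hρ₀ : ∀ (g : X) (a : A), ρ₀ g (Additive.ofMul a) = Additive.ofMul (α g a) := fun _ _ => rfl
  let ρ : X ⧸ V →* End (ZMod p) (Additive A) := QuotientGroup.lift V ρ₀ (fun v hv => by
    apply LinearMap.ext
    intro a
    change Additive.ofMul (α v (Additive.toMul a)) = a
    rw [hV1 v hv]
    rfl)
  have hρ : ∀ g : X, ρ (π g) = ρ₀ g := fun _ => rfl
  have hodd' : Odd (Nat.card (X ⧸ V)) := Odd.of_dvd_nat hodd (by
    rw [Subgroup.card_eq_card_quotient_mul_card_subgroup V]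
    exact Dvd.intro _ rfl)
  -- faithfulness
  have hfaith : ∀ a ∈ H.map π, ρ a = 1 → a = 1 := by
    rintro _ ⟨u, hu, rfl⟩ h1
    have h2 : α u = 1 := by
      ext a
      have h3 : ρ₀ u (Additive.ofMul a) = Additive.ofMul a := by
        rw [← hρ, h1]
        rfl
      rw [hρ₀] at h3
      exact Additive.ofMul.injective h3
    have h3 := hfa u hu h2
    rw [← hker] at h3
    exact h3
  -- the dimension
  have hfx : finrank (ZMod p) (fx ρ (zpowers (π x))) ≤ 1 := by
    have hle : fx ρ (zpowers (π x)) ≤ Submodule.span (ZMod p) {Additive.ofMul b₀} := by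
      intro b hb
      obtain ⟨a, rfl⟩ : ∃ a : A, Additive.ofMul a = b := ⟨Additive.toMul b, rfl⟩
      have h0 : a ∈ zpowers b₀ := by
        refine hb₀ a ?_
        intro t ht
        have h1 : π t ∈ zpowers (π x) := by
          obtain ⟨k, rfl⟩ := Subgroup.mem_zpowers_iff.mp ht
          rw [map_zpow]
          exact zpow_mem (mem_zpowers _) k
        have h2 := hb _ h1
        rw [hρ, hρ₀] at h2
        exact Additive.ofMul.injective h2
      obtain ⟨k, rfl⟩ := Subgroup.mem_zpowers_iff.mp h0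
      rw [ofMul_zpow]
      exact zsmul_mem (Submodule.mem_span_singleton_self _) k
    refine (Submodule.finrank_mono hle).trans ?_
    exact (finrank_span_le_card ({Additive.ofMul b₀} : Set (Additive A))).trans (by simp)
  refine hm (X ⧸ V) hodd' p (Additive A) ρ (H.map π) (R.map π) hact.coprime.symm (π x) ⟨x, hxR, rfl⟩ r hr
    (by rw [← map_pow, hxr, map_one]) ?_ hfaith hpc hfx ?_ ?_
  · intro h1
    rw [← MonoidHom.mem_ker, hker] at h1
    apply hx1
    have h2 : r ∣ Nat.card H := by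
      have h3 := orderOf_dvd_natCard (⟨x, hVH h1⟩ : ↥H)
      rwa [Subgroup.orderOf_mk, hrx] at h3
    exact absurd h2 hrH
  · exact zgroup_map π hπ H (by rw [hker]; exact hVH) x hr hxr hrH hZ
  · rw [← Subgroup.map_commutator, hcomm]

/-- **Theorem C**, with a commutative exponent `p` group. -/
theorem theoremC_aux' {A : Type u} [Group A] [Finite A] (hAc : ∀ a b : A, a * b = b * a) (hAe : ∀ a : A, a ^ p = 1)
    (hm : BG3Main.{u}) (hodd : Odd (Nat.card X)) (H R : Subgroup X) [hHn : H.Normal]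
    (hcop : (Nat.card H).Coprime (Nat.card R)) (x : X) (hxR : x ∈ R) (r : ℕ) (hr : r.Prime) (hxr : x ^ r = 1) (hx1 : x ≠ 1)
    (hZ : IsZGroup ↥(H ⊓ centralizer ({x} : Set X))) (hcomm : ⁅H, R⁆ = H)
    (V : Subgroup X) [hVn : V.Normal] (hVH : V ≤ H) (hpc : pCore p ↥(H.map (QuotientGroup.mk' V)) = ⊥)
    (α : X →* MulAut A) (hV1 : ∀ v ∈ V, α v = 1) (hfa : ∀ u ∈ H, α u = 1 → u ∈ V) (b₀ : A)
    (hb₀ : ∀ a : A, (∀ t ∈ zpowers x, α t a = a) → a ∈ zpowers b₀) :
    ¬ p ∣ Nat.card ↥(H.map (QuotientGroup.mk' V)) := by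
  letI : CommGroup A := { (inferInstance : Group A) with mul_comm := hAc }
  letI : Module (ZMod p) (Additive A) := AddCommGroup.zmodModule (n := p) (fun x => by
    change Additive.ofMul ((Additive.toMul x) ^ p) = 0
    rw [hAe]
    rfl)
  exact theoremC_aux hm hodd H R hcop x hxR r hr hxr hx1 hZ hcomm V hVH hpc α hV1 hfa b₀ hb₀

/-- **Theorem C**. -/
theorem theoremC (hm : BG3Main.{u}) (hodd : Odd (Nat.card X)) (H R : Subgroup X) [hHn : H.Normal]
    (hcop : (Nat.card H).Coprime (Nat.card R)) (x : X) (hxR : x ∈ R) (r : ℕ) (hr : r.Prime) (hxr : x ^ r = 1) (hx1 : x ≠ 1)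
    (hO : pPrimeCore p ↥H = ⊥) (hZ : IsZGroup ↥(H ⊓ centralizer ({x} : Set X))) (hcomm : ⁅H, R⁆ = H)
    (V : Subgroup X) [hVn : V.Normal] (hV : V = (pCore p ↥H).map H.subtype) :
    ¬ p ∣ Nat.card ↥(H.map (QuotientGroup.mk' V)) := by
  classical
  let π : X →* X ⧸ V := QuotientGroup.mk' V
  have hπ : Function.Surjective π := QuotientGroup.mk'_surjective V
  have hker : π.ker = V := QuotientGroup.ker_mk' V
  have hVH : V ≤ H := by
    rw [hV]
    exact Subgroup.map_subtype_le _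
  have hVp : IsPGroup p ↥V := by
    rw [hV]
    exact (Cfsg.Agent.Lib.Basic.pCore_isPGroup p).map _
  have hrx : orderOf x = r := by
    haveI : Fact r.Prime := ⟨hr⟩
    exact orderOf_eq_prime hxr hx1
  have hrR : r ∣ Nat.card R := by
    have h1 := orderOf_dvd_natCard (⟨x, hxR⟩ : ↥R)
    rwa [Subgroup.orderOf_mk, hrx] at h1
  have hrH : ¬ r ∣ Nat.card H := fun hd =>
    hr.one_lt.ne' (Nat.eq_one_of_dvd_coprimes hcop hd hrR)
  have hAc : ∀ a b : ↥V ⧸ frattini ↥V, a * b = b * a := bar_comm hVp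
  have hV1 : ∀ v ∈ V, fratAct V v = 1 := by
    intro v hv
    ext a
    induction a using QuotientGroup.induction_on with
    | H b =>
      have h1 : ((MulAut.conjNormal v b : ↥V) : X) = v * b * v⁻¹ := MulAut.conjNormal_apply v b
      have h2 : (MulAut.conjNormal v b : ↥V) = ⟨v, hv⟩ * b * (⟨v, hv⟩ : ↥V)⁻¹ := Subtype.ext h1
      change ((MulAut.conjNormal v b : ↥V) : ↥V ⧸ frattini ↥V) = (b : ↥V ⧸ frattini ↥V)
      rw [h2, QuotientGroup.mk_mul, QuotientGroup.mk_mul, QuotientGroup.mk_inv, hAc (((⟨v, hv⟩ : ↥V) : ↥V ⧸ frattini ↥V))]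
      simp
  have hpc : pCore p ↥(H.map π) = ⊥ := by
    let g : ↥H →* ↥(H.map π) := π.subgroupMap H
    refine pCore_eq_bot_of_surjective g (π.subgroupMap_surjective H) ?_
    ext a
    rw [MonoidHom.mem_ker]
    constructor
    · intro h1
      have h2 : π (a : X) = 1 := congrArg Subtype.val h1
      rw [← MonoidHom.mem_ker, hker, hV] at h2
      obtain ⟨b, hb, hab⟩ := h2
      have : b = a := Subtype.ext hab
      rwa [← this]
    · intro h1
      apply Subtype.ext
      change π (a : X) = 1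
      rw [← MonoidHom.mem_ker, hker, hV]
      exact ⟨a, h1, rfl⟩
  have hCV : V ⊓ centralizer ({x} : Set X) ≤ H ⊓ centralizer ({x} : Set X) := inf_le_inf_right _ hVH
  have hCp : IsPGroup p ↥(V ⊓ centralizer ({x} : Set X)) := hVp.to_le inf_le_left
  haveI := hZ
  have hcyc : IsCyclic ↥(V ⊓ centralizer ({x} : Set X)) := isCyclic_of_le_zgroup hCV hCp
  obtain ⟨c₀, hc₀⟩ := hcyc.exists_generator
  have hc₀V : (c₀ : X) ∈ V := c₀.2.1
  refine theoremC_aux' (bar_comm hVp) (bar_exp hVp) hm hodd H R hcop x hxR r hr hxr hx1 hZ hcomm V hVH hpc (fratAct V) hV1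
    (fun u hu h1 => fratAct_faithful H hO V hV hu h1) ((⟨c₀, hc₀V⟩ : ↥V) : ↥V ⧸ frattini ↥V) ?_
  intro a hfix
  induction a using QuotientGroup.induction_on with
  | H v =>
    set N : Subgroup X := (frattini ↥V).map V.subtype with hN
    haveI hNc : (frattini ↥V).Characteristic := inferInstance
    haveI hNn : N.Normal := Cfsg.Agent.Lib.Coprime.PLen.normal_map_of_characteristic _
    have hNV : N ≤ V := Subgroup.map_subtype_le _
    have hcard : (Nat.card N).Coprime (Nat.card (zpowers x)) := by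
      have h1 : Nat.card (zpowers x) ∣ r := by
        rw [Nat.card_zpowers]
        exact orderOf_dvd_of_pow_eq_one hxr
      refine Nat.Coprime.coprime_dvd_right h1 ?_
      rw [Nat.coprime_comm, Nat.Prime.coprime_iff_not_dvd hr]
      exact fun hd => hrH (hd.trans (Subgroup.card_dvd_of_le (hNV.trans hVH)))
    obtain ⟨n, hn, hnv⟩ := Cfsg.Agent.Lib.OddLocal.exists_mul_mem_centralizer (N := N) (A := zpowers x)
      (by rw [Subgroup.normalizer_eq_top_iff.mpr hNn]; exact le_top) hcard (Or.inr inferInstance) (v : X) (by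
        intro t ht
        have h2 := hfix t ht
        rw [fratAct_mk] at h2
        -- `mk (t v t⁻¹) = mk v`
        have h3 : ((v * (MulAut.conjNormal t v)⁻¹ : ↥V) : ↥V ⧸ frattini ↥V) = 1 := by
          rw [QuotientGroup.mk_mul, QuotientGroup.mk_inv, h2, mul_inv_cancel]
        have h4 := (QuotientGroup.eq_one_iff _).mp h3
        have h5 : (v : X) * t * (v : X)⁻¹ * t⁻¹ = ((v * (MulAut.conjNormal t v)⁻¹ : ↥V) : X) := by
          rw [Subgroup.coe_mul, Subgroup.coe_inv, MulAut.conjNormal_apply]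
          group
        rw [h5]
        exact ⟨_, h4, rfl⟩)
    have hnV : n ∈ V := hNV hn
    have hw : n * (v : X) ∈ V ⊓ centralizer ({x} : Set X) := by
      refine Subgroup.mem_inf.mpr ⟨mul_mem hnV v.2, ?_⟩
      rw [Subgroup.mem_centralizer_singleton_iff]
      exact (Subgroup.mem_centralizer_iff.mp hnv x (mem_zpowers x)).symm
    obtain ⟨k, hk⟩ := Subgroup.mem_zpowers_iff.mp (hc₀ ⟨_, hw⟩)
    have hkv : (⟨c₀, hc₀V⟩ : ↥V) ^ k = ⟨n, hnV⟩ * v := by
      apply Subtype.ext
      have := congrArg Subtype.val hk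
      simpa using this
    have hnΦ : (⟨n, hnV⟩ : ↥V) ∈ frattini ↥V := by
      obtain ⟨n', hn', hn'n⟩ := hn
      have : n' = ⟨n, hnV⟩ := Subtype.ext hn'n
      rwa [← this]
    refine Subgroup.mem_zpowers_iff.mpr ⟨k, ?_⟩
    rw [← QuotientGroup.mk_zpow, hkv, QuotientGroup.mk_mul, (QuotientGroup.eq_one_iff _).mpr hnΦ, one_mul]

end TheoremC

section Final

variable {G : Type u} [Group G] [Finite G] [Group.IsSolvable G]

/-- **S1444** from the Main Lemma. -/
theorem s1444_of_main (hm : BG3Main.{u}) (hodd : Odd (Nat.card G)) (H R R₀ : Subgroup G) [hHn : H.Normal]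
    (hHall : (Nat.card H).Coprime H.index) (hR : Subgroup.IsComplement' H R) (hR₀ : R₀ ≤ R)
    (hR₀p : (Nat.card R₀).Prime) (hZ : IsZGroup ↥(H ⊓ Subgroup.centralizer (R₀ : Set G))) (p : ℕ) [hpf : Fact p.Prime] :
    Cfsg.PLengthLE p 1 ↥⁅H, R⁆ := by
  classical
  -- the group `R₀`
  set r : ℕ := Nat.card R₀ with hrdef
  haveI hrf : Fact r.Prime := ⟨hR₀p⟩
  haveI hR₀c : IsCyclic ↥R₀ := isCyclic_of_prime_card hrdef.symm
  obtain ⟨x₀, hx₀⟩ := hR₀c.exists_generator
  have hx₀1 : x₀ ≠ 1 := by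
    rintro rfl
    have h1 : (⊤ : Subgroup ↥R₀) = ⊥ := by
      rw [eq_bot_iff]
      intro g _
      have := hx₀ g
      rwa [Subgroup.zpowers_one_eq_bot] at this
    have h2 : Nat.card ↥R₀ = 1 := by
      rw [← Nat.card_congr (Subgroup.topEquiv (G := ↥R₀)).toEquiv, h1]
      simp
    rw [← hrdef] at h2
    exact hrf.out.one_lt.ne' h2
  set x : G := (x₀ : G) with hxdef
  have hxR₀ : x ∈ R₀ := x₀.2
  have hxR : x ∈ R := hR₀ hxR₀
  have hx1 : x ≠ 1 := fun h => hx₀1 (Subtype.ext h)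
  have hxr : x ^ r = 1 := by
    have h1 : x₀ ^ r = 1 := by
      rw [hrdef]
      exact pow_card_eq_one'
    exact congrArg Subtype.val h1
  have hR₀z : R₀ = zpowers x := by
    apply le_antisymm
    · intro a ha
      obtain ⟨k, hk⟩ := Subgroup.mem_zpowers_iff.mp (hx₀ ⟨a, ha⟩)
      refine Subgroup.mem_zpowers_iff.mpr ⟨k, ?_⟩
      have := congrArg Subtype.val hk
      simpa using this
    · exact Subgroup.zpowers_le.mpr hxR₀
  -- the commutator subgroup
  have hcop : (Nat.card H).Coprime (Nat.card R) := by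
    have h1 := hR.card_mul
    rw [← Subgroup.card_mul_index H] at h1
    have h2 : Nat.card R = H.index := Nat.eq_of_mul_eq_mul_left Nat.card_pos h1.symm ▸ rfl
    rw [h2]
    exact hHall
  have hact : Cfsg.Agent.Lib.Coprime.CoprimeAction R H :=
    ⟨by rw [Subgroup.normalizer_eq_top_iff.mpr hHn]; exact le_top, hcop.symm, Or.inl inferInstance⟩
  set H₁ : Subgroup G := ⁅H, R⁆ with hH₁
  have hH₁H : H₁ ≤ H := hact.commutator_le_self
  have hH₁n : H₁.Normal := by
    rw [← Subgroup.normalizer_eq_top_iff, eq_top_iff, ← hR.sup_eq_top]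
    exact sup_le hact.le_normalizer_commutator' hact.le_normalizer_commutator
  have hH₁comm : ⁅H₁, R⁆ = H₁ := hact.commutator_commutator_eq
  have hcop₁ : (Nat.card H₁).Coprime (Nat.card R) :=
    Nat.Coprime.coprime_dvd_left (Subgroup.card_dvd_of_le hH₁H) hcop
  have hZ₁ : IsZGroup ↥(H₁ ⊓ centralizer ({x} : Set G)) := by
    have hle : H₁ ⊓ centralizer ({x} : Set G) ≤ H ⊓ Subgroup.centralizer (R₀ : Set G) := by
      rintro a ⟨ha, hac⟩
      refine Subgroup.mem_inf.mpr ⟨hH₁H ha, ?_⟩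
      have hac' : a * x = x * a := Subgroup.mem_centralizer_singleton_iff.mp hac
      rw [hR₀z, Subgroup.mem_centralizer_iff]
      intro b hb
      obtain ⟨k, rfl⟩ := Subgroup.mem_zpowers_iff.mp hb
      exact ((Commute.zpow_left (show Commute x a from hac'.symm) k))
    exact IsZGroup.of_injective (f := Subgroup.inclusion hle) (Subgroup.inclusion_injective hle)
  -- the quotient by the `p'`-core
  haveI hOc : (pPrimeCore p ↥H₁).Characteristic := Cfsg.Agent.Lib.Basic.pPrimeCore_characteristic p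
  set N : Subgroup G := (pPrimeCore p ↥H₁).map H₁.subtype with hN
  haveI hNn : N.Normal := Cfsg.Agent.Lib.Coprime.PLen.normal_map_of_characteristic _
  have hNH₁ : N ≤ H₁ := Subgroup.map_subtype_le _
  let π : G →* G ⧸ N := QuotientGroup.mk' N
  have hπ : Function.Surjective π := QuotientGroup.mk'_surjective N
  have hker : π.ker = N := QuotientGroup.ker_mk' N
  set Hb : Subgroup (G ⧸ N) := H₁.map π with hHb
  set Rb : Subgroup (G ⧸ N) := R.map π with hRb
  haveI hHbn : Hb.Normal := hH₁n.map π hπ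
  let f : ↥H₁ →* ↥Hb := π.subgroupMap H₁
  have hf : Function.Surjective f := π.subgroupMap_surjective H₁
  have hfker : f.ker = pPrimeCore p ↥H₁ := by
    ext a
    rw [MonoidHom.mem_ker]
    constructor
    · intro h1
      have h2 : π (a : G) = 1 := congrArg Subtype.val h1
      rw [← MonoidHom.mem_ker, hker] at h2
      obtain ⟨b, hb, hab⟩ := h2
      have : b = a := Subtype.ext hab
      rwa [← this]
    · intro h1
      apply Subtype.ext
      change π (a : G) = 1
      rw [← MonoidHom.mem_ker, hker]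
      exact ⟨a, h1, rfl⟩
  have hO : pPrimeCore p ↥Hb = ⊥ := pPrimeCore_eq_bot_of_surjective f hf hfker
  have hrR : r ∣ Nat.card R := by
    rw [hrdef]
    exact Subgroup.card_dvd_of_le hR₀
  have hact₁ : Cfsg.Agent.Lib.Coprime.CoprimeAction R H₁ :=
    ⟨by rw [Subgroup.normalizer_eq_top_iff.mpr hH₁n]; exact le_top, hcop₁.symm, Or.inl inferInstance⟩
  have hactb : Cfsg.Agent.Lib.Coprime.CoprimeAction Rb Hb := hact₁.map π
  have hrH₁ : ¬ r ∣ Nat.card H₁ := fun hd =>
    hrf.out.one_lt.ne' (Nat.eq_one_of_dvd_coprimes hcop₁ hd hrR)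
  have hZb : IsZGroup ↥(Hb ⊓ centralizer ({π x} : Set (G ⧸ N))) :=
    zgroup_map π hπ H₁ (by rw [hker]; exact hNH₁) x hrf.out hxr hrH₁ hZ₁
  have hoddb : Odd (Nat.card (G ⧸ N)) := Odd.of_dvd_nat hodd (by
    rw [Subgroup.card_eq_card_quotient_mul_card_subgroup N]
    exact Dvd.intro _ rfl)
  have hπx1 : π x ≠ 1 := by
    intro h1
    rw [← MonoidHom.mem_ker, hker] at h1
    apply hrH₁
    have h2 : orderOf x = r := orderOf_eq_prime hxr hx1
    have h3 := orderOf_dvd_natCard (⟨x, hNH₁ h1⟩ : ↥H₁)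
    rwa [Subgroup.orderOf_mk, h2] at h3
  have hcommb : ⁅Hb, Rb⁆ = Hb := by
    rw [hHb, hRb, ← Subgroup.map_commutator, hH₁comm]
  -- Theorem C
  haveI hPc : (pCore p ↥Hb).Characteristic := Cfsg.Agent.Lib.Basic.pCore_characteristic p
  set V : Subgroup (G ⧸ N) := (pCore p ↥Hb).map Hb.subtype with hV
  haveI hVn : V.Normal := Cfsg.Agent.Lib.Coprime.PLen.normal_map_of_characteristic _
  have hC := theoremC hm hoddb Hb Rb hactb.coprime.symm (π x) ⟨x, hxR, rfl⟩ r hrf.out (by rw [← map_pow, hxr, map_one]) hπx1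
    hO hZb hcommb V hV
  -- the chain
  let S := fun k => (upperPSeries p ↥H₁ k).1
  have hs1 : pPrimeCore p ↥H₁ ≤ S 1 := by
    refine Cfsg.Agent.Lib.Coprime.PLen.step_even (k := 0) (by decide) (Y := ⊥) bot_le ?_
    intro a ha
    refine ⟨Nat.card (pPrimeCore p ↥H₁), Cfsg.Agent.Lib.Basic.pPrimeCore_coprime p, ?_⟩
    have h1 : (⟨a, ha⟩ : ↥(pPrimeCore p ↥H₁)) ^ Nat.card (pPrimeCore p ↥H₁) = 1 := pow_card_eq_one'
    have h2 : a ^ Nat.card (pPrimeCore p ↥H₁) = 1 := congrArg Subtype.val h1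
    rw [h2]
    exact one_mem _
  set W : Subgroup ↥H₁ := (pCore p ↥Hb).comap f with hW
  haveI hWn : W.Normal := Subgroup.Normal.comap (Cfsg.Agent.Lib.Basic.pCore_normal p) f
  have hs2 : W ≤ S 2 := by
    refine Cfsg.Agent.Lib.Coprime.PLen.step_odd (k := 1) (by decide) hs1 ?_
    intro a ha
    obtain ⟨j, hj⟩ := (Cfsg.Agent.Lib.Basic.pCore_isPGroup (G := ↥Hb) p) ⟨f a, ha⟩
    have h1 : f a ^ p ^ j = 1 := congrArg Subtype.val hj
    refine ⟨j, ?_⟩
    rw [← hfker, MonoidHom.mem_ker, map_pow, h1]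
  have hs3 : (⊤ : Subgroup ↥H₁) ≤ S 3 := by
    refine Cfsg.Agent.Lib.Coprime.PLen.step_even (k := 2) (by decide) hs2 ?_
    intro a _
    set m : ℕ := Nat.card ↥(Hb.map (QuotientGroup.mk' V)) with hm'
    refine ⟨m, (Nat.Prime.coprime_iff_not_dvd hpf.out).mpr hC |>.symm, ?_⟩
    have h1 : QuotientGroup.mk' V ((f a : ↥Hb) : G ⧸ N) ∈ Hb.map (QuotientGroup.mk' V) := ⟨_, (f a).2, rfl⟩
    have h2 : (⟨_, h1⟩ : ↥(Hb.map (QuotientGroup.mk' V))) ^ m = 1 := pow_card_eq_one'
    have h3 : (QuotientGroup.mk' V ((f a : ↥Hb) : G ⧸ N)) ^ m = 1 := congrArg Subtype.val h2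
    rw [← map_pow, ← MonoidHom.mem_ker, QuotientGroup.ker_mk', hV] at h3
    obtain ⟨b, hb, hab⟩ := h3
    have h4 : b = f (a ^ m) := by
      apply Subtype.ext
      have hab' : (b : G ⧸ N) = ((f a : ↥Hb) : G ⧸ N) ^ m := hab
      rw [hab', map_pow]
      rfl
    change f (a ^ m) ∈ pCore p ↥Hb
    rw [← h4]
    exact hb
  exact top_le_iff.mp hs3

/-- **S1444**. -/
theorem s1444_core (hodd : Odd (Nat.card G)) (H R R₀ : Subgroup G) [hHn : H.Normal]
    (hHall : (Nat.card H).Coprime H.index) (hR : Subgroup.IsComplement' H R) (hR₀ : R₀ ≤ R)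
    (hR₀p : (Nat.card R₀).Prime) (hZ : IsZGroup ↥(H ⊓ Subgroup.centralizer (R₀ : Set G))) (p : ℕ) [hpf : Fact p.Prime] :
    Cfsg.PLengthLE p 1 ↥⁅H, R⁆ :=
  s1444_of_main bg3_main hodd H R R₀ hHall hR hR₀ hR₀p hZ p

end Final

end Cfsg.Agent.Lib.FT
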