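import Cfsg.Agent.S1403
import Cfsg.Agent.S1444
import Cfsg.Agent.Lib.FT.BG10e

/-!
S1410 unconditionally, for use in S1411 to S1413 and later sections.
-/

set_option autoImplicit false

namespace Cfsg.Agent.Lib.FT

open Subgroup Cfsg

universe u

/-- The hypothesis `S1444Hyp` holds. -/
theorem s1444Hyp : S1444Hyp.{u} := by
  intro X _ _ _ hodd H R R₀ _ hHall hR hR₀ hR₀p hZ p _
  exact Cfsg.Agent.S1444.result hodd H R R₀ hHall hR hR₀ hR₀p hZ p

/-- **S1410**: proper subgroups of a minimal simple group of odd order have `p`-length at most one. -/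
theorem s1410_final {G : Type u} [Group G] [Finite G] (hG : IsMinSimpleOddOrder G) (p : ℕ) [Fact p.Prime]
    (H : Subgroup G) (hH : H ≠ ⊤) : PLengthLE p 1 ↥H :=
  s1410_core hG (fun K hK h2 h3 => Cfsg.Agent.S1403.result hG K hK h2 h3) s1444Hyp p H hH

end Cfsg.Agent.Lib.FT
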