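import Cfsg.Agent.Lib.FT.BG9U3
import Cfsg.Agent.S1450
import Cfsg.Agent.Lib.FT.FrobFix
import Cfsg.Agent.Lib.Basic.KW6

/-!
BG section 9: the heart of the Uniqueness Theorem, the case of a large `O_v(H)`: second part.
-/

set_option autoImplicit false
set_option linter.unusedSectionVars false
set_option linter.style.haveILetI false

namespace Cfsg.Agent.Lib.FT

open Subgroup Cfsg Cfsg.Agent.Lib.OddLocal
open scoped commutatorElement

open Cfsg.Agent.Lib.Coprime (mem_conj_map conj_mem_conj_map conj_map_conj_map conj_map_one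
  conj_map_mono mem_normalizer_of_conj_le conj_map_eq_iff_mem_normalizer isPGroup_conj_map CoprimeAction
  IsSylowOf)
open Cfsg.Agent.Lib.PGroups (exists_orderOf_of_mem_isPGroup mem_of_primary_powers)

universe u

variable {G : Type u} [Group G] [Finite G]

section Gen

/-- A subgroup `Ñ` of the nilpotent group `N = [N, C]`, with `N = ⟨Ñ, C_N(C)⟩`, is `N`. -/
theorem frat_like {N Ñ C : Subgroup G} (hnil : Group.IsNilpotent N) (hCN : C ≤ normalizer (N : Set G)) (hÑ : Ñ ≤ N)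
    (hCÑ : C ≤ normalizer (Ñ : Set G)) (hcomm : ⁅N, C⁆ = N) (hgen : N ≤ Ñ ⊔ (N ⊓ centralizer (C : Set G))) : Ñ = N := by
  by_contra hne
  have hD : Ñ.subgroupOf N ≠ ⊤ := by
    intro h
    apply hne
    apply le_antisymm hÑ
    intro x hx
    have : (⟨x, hx⟩ : N) ∈ Ñ.subgroupOf N := by rw [h]; trivial
    exact Subgroup.mem_subgroupOf.1 this
  obtain ⟨M, hMn, hMt, hDM⟩ := Cfsg.Agent.Lib.Basic.exists_normal_ge_of_isNilpotent hnil hD
  set M₀ : Subgroup G := ⨆ n : ↥N, Ñ.map (MulAut.conj (n : G)).toMonoidHom with hM₀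
  have hM₀M : M₀ ≤ M.map N.subtype := by
    refine iSup_le fun n => ?_
    rintro _ ⟨x, hx, rfl⟩
    have h1 : (⟨x, hÑ hx⟩ : N) ∈ M := hDM (Subgroup.mem_subgroupOf.2 hx)
    exact ⟨_, hMn.conj_mem _ h1 n, rfl⟩
  have hÑM₀ : Ñ ≤ M₀ := by
    have := le_iSup (fun n : ↥N => Ñ.map (MulAut.conj (n : G)).toMonoidHom) 1
    rw [show (((1 : ↥N) : G)) = 1 from rfl, conj_map_one] at this
    exact this
  have hNM₀ : N ≤ normalizer (M₀ : Set G) := by
    intro g hg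
    apply mem_normalizer_of_conj_le
    intro x hx
    have hle : M₀ ≤ M₀.comap (MulAut.conj g).toMonoidHom := by
      refine iSup_le fun n => ?_
      rw [← Subgroup.map_le_iff_le_comap, conj_map_conj_map]
      exact le_iSup (fun n : ↥N => Ñ.map (MulAut.conj (n : G)).toMonoidHom) (⟨g, hg⟩ * n)
    exact hle hx
  have hCM₀ : C ≤ normalizer (M₀ : Set G) := by
    intro c hc
    apply mem_normalizer_of_conj_le
    intro x hx
    have hle : M₀ ≤ M₀.comap (MulAut.conj c).toMonoidHom := by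
      refine iSup_le fun n => ?_
      rw [← Subgroup.map_le_iff_le_comap, conj_map_conj_map]
      have h1 : c * n * c⁻¹ ∈ N := (Subgroup.mem_normalizer_iff.1 (hCN hc) n).1 n.2
      have h2 : Ñ.map (MulAut.conj (c * n)).toMonoidHom =
          Ñ.map (MulAut.conj (c * n * c⁻¹ * c)).toMonoidHom := by simp
      rw [h2, ← conj_map_conj_map, (conj_map_eq_iff_mem_normalizer Ñ c).2 (hCÑ hc)]
      exact le_iSup (fun n : ↥N => Ñ.map (MulAut.conj (n : G)).toMonoidHom) ⟨_, h1⟩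
    exact hle hx
  have hcommle : ⁅N, C⁆ ≤ M₀ := by
    rw [Subgroup.commutator_le]
    intro x hx a ha
    have hx2 : x ∈ M₀ ⊔ (N ⊓ centralizer (C : Set G)) := (sup_le_sup_right hÑM₀ _) (hgen hx)
    obtain ⟨m, hm, c₀, hc₀, rfl⟩ := (Cfsg.Agent.Lib.Coprime.mem_sup_iff_of_le_normalizer
      (inf_le_left.trans hNM₀) x).1 hx2
    have hca : c₀ * a = a * c₀ := (Subgroup.mem_centralizer_iff.1 hc₀.2 a ha).symm
    have h1 : ⁅m * c₀, a⁆ = m * (a * m⁻¹ * a⁻¹) := by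
      rw [commutatorElement_def]
      calc m * c₀ * a * (m * c₀)⁻¹ * a⁻¹ = m * (c₀ * a) * c₀⁻¹ * m⁻¹ * a⁻¹ := by group
        _ = m * (a * c₀) * c₀⁻¹ * m⁻¹ * a⁻¹ := by rw [hca]
        _ = m * (a * m⁻¹ * a⁻¹) := by group
    rw [h1]
    exact mul_mem hm ((Subgroup.mem_normalizer_iff.1 (hCM₀ ha) m⁻¹).1 (inv_mem hm))
  apply hMt
  rw [eq_top_iff]
  rintro ⟨y, hy⟩ -
  have h2 : y ∈ M.map N.subtype := by
    apply hM₀M
    apply hcommle
    rw [hcomm]
    exact hy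
  obtain ⟨z, hz, e⟩ := h2
  have : z = ⟨y, hy⟩ := Subtype.ext e
  rw [← this]
  exact hz

/-- If `E` acts trivially on `I₀` then `[I₀, E ⊔ C] ≤ [I₀, C]`. -/
theorem comm_absorb {I₀ C E A₀ : Subgroup G} (hact : CoprimeAction A₀ I₀) (hAc : IsMulCommutative A₀) (hCA : C ≤ A₀)
    (hEC : E ⊔ C = A₀) (hI : I₀ ≤ centralizer (E : Set G)) : ⁅I₀, A₀⁆ ≤ ⁅I₀, C⁆ := by
  rw [Subgroup.commutator_le]
  intro i hi a ha
  obtain ⟨n, hn, c, hc, rfl⟩ := (hact.mono_left hCA).exists_commutator_mul_centralizer hi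
  have hc1 : c ∈ centralizer (A₀ : Set G) := by
    rw [← hEC]
    exact mem_centralizer_sup (hI hc.1) hc.2
  have hca : c * a = a * c := (Subgroup.mem_centralizer_iff.1 hc1 a ha).symm
  have h1 : ⁅n * c, a⁆ = n * (a * n⁻¹ * a⁻¹) := by
    rw [commutatorElement_def]
    calc n * c * a * (n * c)⁻¹ * a⁻¹ = n * (c * a) * c⁻¹ * n⁻¹ * a⁻¹ := by group
      _ = n * (a * c) * c⁻¹ * n⁻¹ * a⁻¹ := by rw [hca]
      _ = n * (a * n⁻¹ * a⁻¹) := by group
  rw [h1]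
  have haC : a ∈ centralizer (C : Set G) := by
    rw [Subgroup.mem_centralizer_iff]
    intro u hu
    exact congrArg Subtype.val (hAc.is_comm.comm ⟨u, hCA hu⟩ ⟨a, ha⟩)
  have haN : a ∈ normalizer ((⁅I₀, C⁆ : Subgroup G) : Set G) :=
    mem_normalizer_commutator (hact.normalizes ha) (centralizer_le_normalizer' C haC)
  exact mul_mem hn ((Subgroup.mem_normalizer_iff.1 haN n⁻¹).1 (inv_mem hn))

/-- Rank is not increased by a `v'`-group acting. -/
theorem prank_sup {v : ℕ} [hv : Fact v.Prime] {L B : Subgroup G} (hB : B ≤ normalizer (L : Set G))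
    (hBc : (Nat.card B).Coprime v) (hr : PRankLE v 2 L) : PRankLE v 2 ↥(L ⊔ B) := by
  intro E hEc hEe
  by_contra hlt
  push Not at hlt
  have hE' : IsElementaryAbelian v (E.map (L ⊔ B).subtype) := ea_map_subtype hEc hEe
  have hle : E.map (L ⊔ B).subtype ≤ L := by
    rintro _ ⟨e, he, rfl⟩
    have hΓN : L ⊔ B ≤ normalizer (L : Set G) := sup_le Subgroup.le_normalizer hB
    haveI hn : (L.subgroupOf (L ⊔ B)).Normal := Subgroup.normal_subgroupOf_of_le_normalizer hΓN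
    have h1 : e ^ (L.subgroupOf (L ⊔ B)).index ∈ L.subgroupOf (L ⊔ B) := Subgroup.pow_index_mem _ e
    have h2 : (L.subgroupOf (L ⊔ B)).index = L.relIndex (L ⊔ B) := rfl
    have h3 : L.relIndex (L ⊔ B) = L.relIndex B := Cfsg.Agent.Lib.Coprime.relIndex_sup_of_le_normalizer L B hB
    have h4 : L.relIndex B ∣ Nat.card B := Subgroup.relIndex_dvd_card L B
    have hcop : (L.subgroupOf (L ⊔ B)).index.Coprime v := by
      rw [h2, h3]
      exact Nat.Coprime.coprime_dvd_left h4 hBc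
    have hev : e ^ v = 1 := hEe e he
    have hord : orderOf e ∣ v := orderOf_dvd_of_pow_eq_one hev
    obtain ⟨m, hm⟩ := exists_pow_eq_self_of_coprime (Nat.Coprime.coprime_dvd_right hord hcop)
    have h5 : (e : G) = ((e ^ (L.subgroupOf (L ⊔ B)).index) ^ m : ↥(L ⊔ B)) := by rw [hm]
    show (e : G) ∈ L
    rw [h5, Subgroup.coe_pow]
    exact pow_mem (Subgroup.mem_subgroupOf.1 h1) m
  exact Cfsg.Agent.Lib.Components.not_rank_of_le hle hE' (by rw [card_map_subtype]; exact hlt) hr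

theorem le_Qc_of_normal {v : ℕ} [hv : Fact v.Prime] {L Y : Subgroup G} (hYL : Y ≤ L) (hn : L ≤ normalizer (Y : Set G))
    (hc : (Nat.card Y).Coprime v) : Y ≤ Qc v L := by
  apply le_Qc_of_subgroupOf hYL
  apply Cfsg.Agent.Lib.Basic.le_pPrimeCore (Subgroup.normal_subgroupOf_of_le_normalizer hn)
  rw [card_subgroupOf_le hYL]
  exact hc

theorem mem_normalizer_Qc {v : ℕ} [hv : Fact v.Prime] {L : Subgroup G} {g : G} (hg : g ∈ normalizer (L : Set G)) :
    g ∈ normalizer (Qc v L : Set G) := by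
  apply mem_normalizer_of_conj_map_le
  apply le_Qc_of_normal
  · rintro _ ⟨x, hx, rfl⟩
    exact (Subgroup.mem_normalizer_iff.1 hg x).1 (Qc_le L hx)
  · exact le_normalizer_conj (T := L) (le_normalizer_Qc L) hg
  · rw [Cfsg.Agent.Lib.Coprime.card_conj_map]
    exact Qc_coprime L

/-- The consequence of S1450 used in the Uniqueness Theorem. -/
theorem comm_le_Qc {v : ℕ} [hv : Fact v.Prime] {L B D : Subgroup G} (hs : Group.IsSolvable ↥(L ⊔ B))
    (hodd : Odd (Nat.card ↥(L ⊔ B))) (hB : B ≤ normalizer (L : Set G)) (hr : PRankLE v 2 L)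
    (hBc : (Nat.card B).Coprime v) (hDL : D ≤ L) (hDc : (Nat.card D).Coprime v) (hD : D ≤ ⁅L ⊔ B, L ⊔ B⁆) :
    D ≤ Qc v L := by
  set Γ := L ⊔ B with hΓ
  haveI := hs
  have hLΓ : L ≤ Γ := le_sup_left
  have hrX : PRankLE v 2 ↥Γ := prank_sup hB hBc hr
  by_cases hvX : v ∣ Nat.card Γ
  · have h := (Cfsg.Agent.S1450.result (G := ↥Γ) hodd v hvX hrX).2.2.2.1
    set C₁ := commutator ↥Γ with hC₁
    have hC₁map : C₁.map Γ.subtype = ⁅Γ, Γ⁆ := Subgroup.map_subtype_commutator Γ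
    set D₁ := D.subgroupOf Γ with hD₁
    have hD₁C : ∀ x : ↥Γ, x ∈ D₁ → x ∈ C₁ := by
      intro x hx
      have h1 : (x : G) ∈ ⁅Γ, Γ⁆ := hD (Subgroup.mem_subgroupOf.1 hx)
      rw [← hC₁map] at h1
      obtain ⟨y, hy, e⟩ := h1
      have : y = x := Subtype.ext e
      rwa [← this]
    have hcD₁ : Nat.card D₁ = Nat.card D := card_subgroupOf_le (hDL.trans hLΓ)
    have hcD₂ : Nat.card (D₁.subgroupOf C₁) = Nat.card D₁ := card_subgroupOf_le (fun x hx => hD₁C x hx)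
    have hO := h (D₁.subgroupOf C₁) (by rw [hcD₂, hcD₁]; exact hDc)
    set O := Cfsg.pPrimeCore v ↥C₁ with hOdef
    haveI hO1n : (O.map C₁.subtype).Normal := by
      haveI : C₁.Normal := inferInstance
      haveI : O.Characteristic := Cfsg.Agent.Lib.Basic.pPrimeCore_characteristic v
      exact ConjAct.normal_of_characteristic_of_normal
    set O₂ := (O.map C₁.subtype).map Γ.subtype with hO₂
    have hcO₂ : (Nat.card O₂).Coprime v := by
      rw [card_map_subtype, card_map_subtype]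
      exact Cfsg.Agent.Lib.Basic.pPrimeCore_coprime v
    have hDO₂ : D ≤ O₂ := by
      intro x hx
      have hxΓ : x ∈ Γ := hLΓ (hDL hx)
      have h1 : (⟨x, hxΓ⟩ : Γ) ∈ D₁ := Subgroup.mem_subgroupOf.2 hx
      have h2 := hD₁C _ h1
      have h3 : (⟨⟨x, hxΓ⟩, h2⟩ : C₁) ∈ D₁.subgroupOf C₁ := Subgroup.mem_subgroupOf.2 h1
      exact ⟨_, ⟨_, hO h3, rfl⟩, rfl⟩
    have hΓO₂ : Γ ≤ normalizer (O₂ : Set G) := by
      intro g hg
      apply mem_normalizer_of_conj_le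
      rintro _ ⟨y, hy, rfl⟩
      exact ⟨⟨g, hg⟩ * y * ⟨g, hg⟩⁻¹, hO1n.conj_mem y hy _, by simp⟩
    have hY : O₂ ⊓ L ≤ Qc v L := by
      apply le_Qc_of_normal inf_le_right
      · intro l hl
        exact mem_normalizer_inf (hΓO₂ (hLΓ hl)) (Subgroup.le_normalizer hl)
      · exact Nat.Coprime.coprime_dvd_left (Subgroup.card_dvd_of_le inf_le_left) hcO₂
    exact (le_inf hDO₂ hDL).trans hY
  · have hcΓ : (Nat.card Γ).Coprime v := by
      rw [Nat.coprime_comm, Nat.Prime.coprime_iff_not_dvd hv.out]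
      exact hvX
    have hL : L ≤ Qc v L := le_Qc_of_normal le_rfl Subgroup.le_normalizer
      (Nat.Coprime.coprime_dvd_left (Subgroup.card_dvd_of_le hLΓ) hcΓ)
    exact hDL.trans hL

end Gen

section Lat

variable {p r : ℕ} [hpf : Fact p.Prime] [hrf : Fact r.Prime] {A₀ : Subgroup G}

theorem hyp_sup_zpowers (hA₀ : Nat.card A₀ = p ^ 3) {C : Subgroup G} (hC : C ∈ Hyp p A₀) {f : G} (hf : f ∈ A₀)
    (hfC : f ∉ C) : C ⊔ zpowers f = A₀ := by
  have hp : p.Prime := hpf.out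
  have hle : C ⊔ zpowers f ≤ A₀ := sup_le hC.1 (zpowers_le.2 hf)
  have hlt : C < C ⊔ zpowers f := by
    refine lt_of_le_of_ne le_sup_left fun h => hfC ?_
    rw [h]
    exact (le_sup_right : zpowers f ≤ C ⊔ zpowers f) (mem_zpowers f)
  have h1 := Cfsg.Agent.Lib.OddLocal.card_lt_of_subgroup_lt hlt
  rw [hC.2] at h1
  have h2 : Nat.card ↥(C ⊔ zpowers f) ∣ p ^ 3 := by rw [← hA₀]; exact Subgroup.card_dvd_of_le hle
  obtain ⟨k, hk, hk2⟩ := (Nat.dvd_prime_pow hp).1 h2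
  rw [hk2] at h1
  have h3 : 2 < k := (Nat.pow_lt_pow_iff_right hp.one_lt).1 h1
  have h4 : k = 3 := by omega
  subst h4
  exact Subgroup.eq_of_le_of_card_ge hle (by rw [hk2, hA₀])

theorem mem_zpowers_of_card_prime {X : Subgroup G} (hX : Nat.card X = p) {x y : G} (hx : x ∈ X) (hy : y ∈ X) (hy1 : y ≠ 1) :
    x ∈ zpowers y := by
  have hp : p.Prime := hpf.out
  have h1 : zpowers y ≤ X := zpowers_le.2 hy
  have h2 : Nat.card (zpowers y) ∣ p := by rw [← hX]; exact Subgroup.card_dvd_of_le h1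
  have h3 : Nat.card (zpowers y) ≠ 1 := by
    rw [Nat.card_zpowers]
    intro h
    exact hy1 (orderOf_eq_one_iff.1 h)
  have h4 : Nat.card (zpowers y) = p := ((Nat.dvd_prime hp).1 h2).resolve_left h3
  have h5 : zpowers y = X := Subgroup.eq_of_le_of_card_ge h1 (by rw [h4, hX])
  rw [h5]
  exact hx

/-- An action on a `r`-group. -/
theorem action_A₀ (hA₀c : Nat.card A₀ = p ^ 3) (hrp : r ≠ p) {X : Subgroup G} (hX : IsPGroup r X)
    (hA₀ : A₀ ≤ normalizer (X : Set G)) : CoprimeAction A₀ X where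
  normalizes := hA₀
  coprime := by
    rw [hA₀c]
    obtain ⟨k, hk⟩ := IsPGroup.iff_card.1 hX
    rw [hk]
    exact Nat.Coprime.pow 3 k ((Nat.coprime_primes hpf.out hrf.out).2 hrp.symm)
  solvable := by
    right
    haveI := hX.isNilpotent
    infer_instance

/-- The generators of Step 4. -/
noncomputable def XGen (p : ℕ) (R A₀ C C' : Subgroup G) : Subgroup G :=
  ⨆ E ∈ {E : Subgroup G | E ∈ Hyp p A₀ ∧ E ⊓ (C ⊓ C') = ⊥}, ⁅R ⊓ centralizer (E : Set G), A₀⁆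

theorem inf_centr_inv {R E : Subgroup G} (hA₀R : A₀ ≤ normalizer (R : Set G)) (hA₀ab : IsMulCommutative A₀) (hE : E ≤ A₀) :
    A₀ ≤ normalizer ((R ⊓ centralizer (E : Set G) : Subgroup G) : Set G) := by
  intro a ha
  refine mem_normalizer_inf (hA₀R ha) (Subgroup.le_normalizer ?_)
  rw [Subgroup.mem_centralizer_iff]
  intro u hu
  exact congrArg Subtype.val (hA₀ab.is_comm.comm ⟨u, hE hu⟩ ⟨a, ha⟩)

theorem A₀_cent {E : Subgroup G} {a : G} (hA₀ab : IsMulCommutative A₀) (hE : E ≤ A₀) (ha : a ∈ A₀) :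
    a ∈ centralizer (E : Set G) := by
  rw [Subgroup.mem_centralizer_iff]
  intro u hu
  exact congrArg Subtype.val (hA₀ab.is_comm.comm ⟨u, hE hu⟩ ⟨a, ha⟩)

theorem XGen_inv {R C C' : Subgroup G} (hA₀R : A₀ ≤ normalizer (R : Set G)) (hA₀ab : IsMulCommutative A₀) :
    A₀ ≤ normalizer (XGen p R A₀ C C' : Set G) := by
  intro a ha
  refine mem_normalizer_iSup fun E => mem_normalizer_iSup fun hE => ?_
  exact mem_normalizer_commutator (inf_centr_inv hA₀R hA₀ab hE.1.1 ha) (Subgroup.le_normalizer ha)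

theorem XGen_le_R {R C C' : Subgroup G} (hRr : IsPGroup r R) (hrp : r ≠ p) (hA₀c : Nat.card A₀ = p ^ 3)
    (hA₀R : A₀ ≤ normalizer (R : Set G)) (hA₀ab : IsMulCommutative A₀) : XGen p R A₀ C C' ≤ R := by
  refine iSup₂_le fun E hE => ?_
  have hact := action_A₀ (r := r) hA₀c hrp (hRr.to_le inf_le_left) (inf_centr_inv hA₀R hA₀ab hE.1.1)
  exact hact.commutator_le_self.trans inf_le_left

/-- Step 4: the generators lie in the subgroups `[W_d, C]`. -/
theorem XGen_le (hA₀e : IsElementaryAbelian p A₀) (hA₀c : Nat.card A₀ = p ^ 3) (hrp : r ≠ p) {R C C' : Subgroup G}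
    {W : G → Subgroup G} (hRr : IsPGroup r R) (hA₀R : A₀ ≤ normalizer (R : Set G)) (hC : C ∈ Hyp p A₀) (hC' : C' ∈ Hyp p A₀)
    (hW : ∀ E ∈ Hyp p A₀, E ⊓ (C ⊓ C') = ⊥ → ∀ d ∈ E, d ∈ C → d ≠ 1 → ⁅R ⊓ centralizer (E : Set G), A₀⁆ ≤ W d) :
    XGen p R A₀ C C' ≤ ⨆ d ∈ {d : G | d ∈ C ∧ d ∉ C'}, ⁅W d, C⁆ := by
  refine iSup₂_le ?_
  rintro E ⟨hE, hEb⟩
  obtain ⟨d, hd, hd1⟩ := (E ⊓ C).bot_or_exists_ne_one.resolve_left (hyp_inf_ne_bot hA₀c hE hC)
  have hdC' : d ∉ C' := by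
    intro h
    have : d ∈ E ⊓ (C ⊓ C') := ⟨hd.1, hd.2, h⟩
    rw [hEb] at this
    exact hd1 (Subgroup.mem_bot.1 this)
  refine le_trans ?_ (le_iSup₂ (f := fun d (_ : d ∈ {d : G | d ∈ C ∧ d ∉ C'}) => ⁅W d, C⁆) d ⟨hd.2, hdC'⟩)
  have hY := inf_centr_inv (E := E) hA₀R hA₀e.1 hE.1
  have hact := action_A₀ (r := r) hA₀c hrp (hRr.to_le inf_le_left) hY
  have hIW := hW E hE hEb d hd.1 hd.2 hd1
  have hact₂ := hact.mono hact.commutator_le_self hact.le_normalizer_commutator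
  have hEC : E ≠ C := by
    rintro rfl
    apply hyp_inf_ne_bot hA₀c hC hC'
    rw [← inf_idem E, inf_assoc]
    exact hEb
  have hEsup : E ⊔ C = A₀ := hyp_sup_eq hA₀c hE hC hEC
  have hIE : ⁅R ⊓ centralizer (E : Set G), A₀⁆ ≤ centralizer (E : Set G) :=
    hact.commutator_le_self.trans inf_le_right
  have h1 := comm_absorb hact₂ hA₀e.1 hC.1 hEsup hIE
  rw [hact.commutator_commutator_eq] at h1
  exact h1.trans (Subgroup.commutator_mono hIW le_rfl)

/-- Step 4: the subgroups `[W_d, C]` lie in the group generated by the generators. -/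
theorem le_XGen (hA₀e : IsElementaryAbelian p A₀) (hA₀c : Nat.card A₀ = p ^ 3) (hrp : r ≠ p) {R W₀ C C' : Subgroup G}
    (hC : C ∈ Hyp p A₀) (hC' : C' ∈ Hyp p A₀) {d : G} (hdC : d ∈ C) (hdC' : d ∉ C') (hd1 : d ≠ 1)
    (hW₀r : IsPGroup r W₀) (hA₀W₀ : A₀ ≤ normalizer (W₀ : Set G)) (hW₀R : W₀ ≤ R) (hA₀R : A₀ ≤ normalizer (R : Set G))
    (hW₀d : W₀ ≤ centralizer ({d} : Set G)) : ⁅W₀, C⁆ ≤ XGen p R A₀ C C' := by
  have hact₀ := action_A₀ (r := r) hA₀c hrp hW₀r hA₀W₀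
  have hactC := hact₀.mono_left hC.1
  set N := ⁅W₀, C⁆ with hN
  have hNW : N ≤ W₀ := hactC.commutator_le_self
  have hcomm : ⁅N, C⁆ = N := hactC.commutator_commutator_eq
  have hA₀N : A₀ ≤ normalizer (N : Set G) := fun a ha =>
    mem_normalizer_commutator (hA₀W₀ ha) (centralizer_le_normalizer' C (A₀_cent hA₀e.1 hC.1 ha))
  set X := XGen p R A₀ C C' with hX
  have hXinv : A₀ ≤ normalizer (X : Set G) := XGen_inv hA₀R hA₀e.1
  have hNr : IsPGroup r N := hW₀r.to_le hNW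
  have hcopN : (Nat.card N).Coprime p := by
    obtain ⟨k, hk⟩ := IsPGroup.iff_card.1 hNr
    rw [hk]
    exact Nat.Coprime.pow_left k ((Nat.coprime_primes hrf.out hpf.out).2 hrp)
  have hgen : N ≤ (N ⊓ X) ⊔ (N ⊓ centralizer (C : Set G)) := by
    refine (le_iSup_hyp hA₀e hA₀c hcopN hA₀N).trans (iSup₂_le fun E' hE' => ?_)
    by_cases hdE : d ∈ E'
    · by_cases hEC : E' = C
      · rw [hEC]
        exact le_sup_right
      · have hcond : E' ⊓ (C ⊓ C') = ⊥ := by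
          by_contra hne
          obtain ⟨y, hy, hy1⟩ := (E' ⊓ (C ⊓ C')).bot_or_exists_ne_one.resolve_left hne
          have hc := hyp_inf_card hA₀c hE' hC hEC
          have h2 := mem_zpowers_of_card_prime hc ⟨hdE, hdC⟩ ⟨hy.1, hy.2.1⟩ hy1
          exact hdC' ((zpowers_le.2 hy.2.2) h2)
        have hY : A₀ ≤ normalizer ((N ⊓ centralizer (E' : Set G) : Subgroup G) : Set G) :=
          inf_centr_inv hA₀N hA₀e.1 hE'.1
        have hactY := (action_A₀ (r := r) hA₀c hrp (hNr.to_le inf_le_left) hY).mono_left hC.1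
        intro x hx
        obtain ⟨n, hn, c, hc, rfl⟩ := hactY.exists_commutator_mul_centralizer hx
        refine Subgroup.mul_mem_sup ?_ ⟨hc.1.1, hc.2⟩
        have hnY := hactY.commutator_le_self hn
        refine ⟨hnY.1, ?_⟩
        have h3 : ⁅N ⊓ centralizer (E' : Set G), C⁆ ≤ ⁅R ⊓ centralizer (E' : Set G), A₀⁆ :=
          Subgroup.commutator_mono (inf_le_inf_right _ (hNW.trans hW₀R)) hC.1
        exact (le_iSup₂ (f := fun E (_ : E ∈ {E : Subgroup G | E ∈ Hyp p A₀ ∧ E ⊓ (C ⊓ C') = ⊥}) =>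
          ⁅R ⊓ centralizer (E : Set G), A₀⁆) E' ⟨hE', hcond⟩) (h3 hn)
    · intro x hx
      refine (le_sup_right : N ⊓ centralizer (C : Set G) ≤ _) ⟨hx.1, ?_⟩
      have hxd : x ∈ centralizer ((zpowers d : Subgroup G) : Set G) := by
        have h5 : zpowers d ≤ centralizer ({x} : Set G) := by
          rw [zpowers_le, Subgroup.mem_centralizer_iff]
          intro u hu
          rw [Set.mem_singleton_iff] at hu
          subst hu
          exact (Subgroup.mem_centralizer_iff.1 (hW₀d (hNW hx.1)) d rfl).symm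
        rw [Subgroup.mem_centralizer_iff]
        intro u hu
        exact (Subgroup.mem_centralizer_iff.1 (h5 hu) x rfl).symm
      have hsup := hyp_sup_zpowers hA₀c hE' (hC.1 hdC) hdE
      have h6 : x ∈ centralizer (A₀ : Set G) := by
        rw [← hsup]
        exact mem_centralizer_sup hx.2 hxd
      exact Subgroup.centralizer_le hC.1 h6
  have hfin := frat_like hNr.isNilpotent (hC.1.trans hA₀N) (inf_le_left : N ⊓ X ≤ N)
    (fun c hc => mem_normalizer_inf (hA₀N (hC.1 hc)) (hXinv (hC.1 hc))) hcomm hgen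
  rw [← hfin]
  exact inf_le_right

end Lat

theorem card_coprime_of_isPGroup {r q : ℕ} [hrf : Fact r.Prime] (hq : q.Prime) (hrq : r ≠ q) {X : Subgroup G}
    (hX : IsPGroup r X) : (Nat.card X).Coprime q := by
  obtain ⟨k, hk⟩ := IsPGroup.iff_card.1 hX
  rw [hk]
  exact Nat.Coprime.pow_left k ((Nat.coprime_primes hrf.out hq).2 hrq)

theorem isSylowOf_conj_of_normalizer {r : ℕ} [hrf : Fact r.Prime] {P N : Subgroup G} (h : IsSylowOf r P N) {g : G}
    (hg : g ∈ normalizer (N : Set G)) : IsSylowOf r (P.map (MulAut.conj g).toMonoidHom) N := by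
  have hle : P.map (MulAut.conj g).toMonoidHom ≤ N := by
    rintro _ ⟨x, hx, rfl⟩
    exact (Subgroup.mem_normalizer_iff.1 hg x).1 (h.le hx)
  refine ⟨hle, isPGroup_conj_map h.isP g, ?_⟩
  have h1 := Cfsg.Agent.Lib.Coprime.card_mul_relIndex hle
  have h2 := Cfsg.Agent.Lib.Coprime.card_mul_relIndex h.le
  rw [Cfsg.Agent.Lib.Coprime.card_conj_map, ← h2] at h1
  have h3 : (P.map (MulAut.conj g).toMonoidHom).relIndex N = P.relIndex N :=
    Nat.eq_of_mul_eq_mul_left Nat.card_pos h1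
  rw [h3]
  exact h.not_dvd

namespace C1Setup

variable {p v r : ℕ} [hpf : Fact p.Prime] [hvf : Fact v.Prime] [hrf : Fact r.Prime] {A A₀ H E₀ Θ R : Subgroup G}
  (T : C1Setup p v A A₀ H E₀ Θ)

local notation "𝐊" => piCoreOf (primesNotDvd (Nat.card A)) (centralizer (A : Set G))
local notation "𝐋" d => piCoreOf (primesNotDvd (Nat.card A)) (centralizer ({d} : Set G))

include T

/-- `V` normalizes `R ∩ T₀`. -/
theorem norm_of_trans (hrp : r ≠ p) (hrv : r ≠ v) (hR : R ∈ maxInvSubgroups ⊤ A {r}) {T₀ V : Subgroup G}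
    (hT₀s : Group.IsSolvable T₀) (hT₀v : (Nat.card T₀).Coprime v) (hT₀p : (Nat.card T₀).Coprime p)
    (hAT : A ≤ normalizer (T₀ : Set G)) (hKT : 𝐊 ≤ normalizer (T₀ : Set G)) (hVT : V ≤ normalizer (T₀ : Set G))
    (hVp : IsPGroup v V) (hAV : A ≤ normalizer (V : Set G)) (hKV : 𝐊 ≤ normalizer (V : Set G)) :
    V ≤ normalizer ((R ⊓ T₀ : Subgroup G) : Set G) := by
  have hrpp : r.Prime := hrf.out
  have hcop : (Nat.card ↥(V ⊔ A)).Coprime (Nat.card T₀) := by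
    have h1 := card_sup_mul_card_inf hAV
    have h2 : Nat.card ↥(V ⊔ A) ∣ Nat.card V * Nat.card A := ⟨_, h1.symm⟩
    refine Nat.Coprime.coprime_dvd_left h2 (Nat.Coprime.mul_left ?_ ?_)
    · obtain ⟨k, hk⟩ := IsPGroup.iff_card.1 hVp
      rw [hk]
      exact Nat.Coprime.pow_left k hT₀v.symm
    · obtain ⟨k, hk⟩ := IsPGroup.iff_card.1 T.S.hAp
      rw [hk]
      exact Nat.Coprime.pow_left k hT₀p.symm
  have hact : CoprimeAction (V ⊔ A) T₀ := ⟨sup_le hVT hAT, hcop, Or.inr hT₀s⟩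
  obtain ⟨P₀, hP₀, hnP₀⟩ := hact.exists_invariant_sylow r
  have hAP₀ : A ≤ normalizer (P₀ : Set G) := le_sup_right.trans hnP₀
  have hVP₀ : V ≤ normalizer (P₀ : Set G) := le_sup_left.trans hnP₀
  obtain ⟨Q', hQ', hP₀Q'⟩ := exists_maxInv_ge (T.S.mem_inv hrpp hP₀.isP hAP₀)
  obtain ⟨k, hk, e⟩ := T.S.trans_K hrpp hrp hQ' hR
  have hsyl := isSylowOf_conj_of_normalizer hP₀ (hKT hk)
  have hle : P₀.map (MulAut.conj k).toMonoidHom ≤ R ⊓ T₀ := le_inf (by
    rw [e]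
    exact conj_map_mono hP₀Q' k) hsyl.le
  have hRr : IsPGroup r R := T.S.isPGroup_of_maxInv hrpp hR
  have heq : R ⊓ T₀ = P₀.map (MulAut.conj k).toMonoidHom :=
    Cfsg.Agent.Lib.Coprime.eq_of_isPGroup_of_not_dvd_relIndex hle inf_le_right (hRr.to_le inf_le_left) hsyl.not_dvd
  rw [heq]
  intro y hy
  rw [← conj_map_eq_iff_mem_normalizer, conj_map_conj_map]
  have h1 : k⁻¹ * y * k ∈ V := by
    have := (Subgroup.mem_normalizer_iff.1 (hKV (inv_mem hk)) y).1 hy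
    simpa using this
  have h2 := (conj_map_eq_iff_mem_normalizer P₀ _).2 (hVP₀ h1)
  calc P₀.map (MulAut.conj (y * k)).toMonoidHom = P₀.map (MulAut.conj (k * (k⁻¹ * y * k))).toMonoidHom := by
        congr 3
        group
    _ = (P₀.map (MulAut.conj (k⁻¹ * y * k)).toMonoidHom).map (MulAut.conj k).toMonoidHom :=
        (conj_map_conj_map P₀ _ _).symm
    _ = P₀.map (MulAut.conj k).toMonoidHom := by rw [h2]

theorem A_le_cent_elt {d : G} (hd : d ∈ A₀) : A ≤ centralizer ({d} : Set G) :=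
  T.S.hAC.trans (centralizer_le_of_mem (T.S.hA₀A hd))

theorem L_ne_top {d : G} (hd1 : d ≠ 1) : (𝐋 d) ≠ ⊤ := by
  intro h
  apply centralizer_singleton_ne_top T.S.hG hd1
  rw [eq_top_iff, ← h]
  exact piCoreOf_le _ _

/-- `R_d = C_R(d)` lies in `L_d`. -/
theorem Rd_le_L (hrp : r ≠ p) (hR : R ∈ maxInvSubgroups ⊤ A {r}) {d : G} (hd : d ∈ A₀) (hd1 : d ≠ 1) :
    R ⊓ centralizer ({d} : Set G) ≤ 𝐋 d := by
  have hRr : IsPGroup r R := T.S.isPGroup_of_maxInv hrf.out hR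
  have hcd := T.A_le_cent_elt hd
  refine T.S.star (centralizer_singleton_ne_top T.S.hG hd1) hcd inf_le_right
    (card_coprime_of_isPGroup hpf.out hrp (hRr.to_le inf_le_left)) ?_
  intro a ha
  exact mem_normalizer_inf (hR.1.2.2 ha) (Subgroup.le_normalizer (hcd ha))

/-- **(a′)**. -/
theorem a_prime (hrp : r ≠ p) (hrv : r ≠ v) (hR : R ∈ maxInvSubgroups ⊤ A {r}) {d : G} (hd : d ∈ A₀) (hd1 : d ≠ 1)
    (hL : ¬ (𝐋 d) ≤ H) : ⁅R ⊓ centralizer ({d} : Set G), A⁆ ≤ R ⊓ Qc v (𝐋 d) := by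
  have hRr : IsPGroup r R := T.S.isPGroup_of_maxInv hrf.out hR
  have hcd := T.A_le_cent_elt hd
  have hAL : A ≤ normalizer ((𝐋 d) : Set G) := T.S.A_inv_core hcd
  have hrank : PRankLE v 2 ↥(𝐋 d) := by
    by_contra h
    exact hL (T.rank3_le (T.L_ne_top hd1) hAL (T.S.theta_coprime _) h)
  have hARd : A ≤ normalizer ((R ⊓ centralizer ({d} : Set G) : Subgroup G) : Set G) := fun a ha =>
    mem_normalizer_inf (hR.1.2.2 ha) (Subgroup.le_normalizer (hcd ha))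
  have hRdc : (Nat.card ↥(R ⊓ centralizer ({d} : Set G))).Coprime p :=
    card_coprime_of_isPGroup hpf.out hrp (hRr.to_le inf_le_left)
  have hact := T.S.action hARd hRdc
  have hD1 := hact.commutator_le_self
  have hRdL := T.Rd_le_L hrp hR hd hd1
  refine le_inf (hD1.trans inf_le_left) ?_
  refine comm_le_Qc (L := 𝐋 d) (B := A) ?_ (T.S.hodd _) hAL hrank ?_ (hD1.trans hRdL) ?_
    (Subgroup.commutator_mono (hRdL.trans le_sup_left) le_sup_right)
  · exact solv_of_le (sup_le (piCoreOf_le _ _) hcd)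
      (T.S.hsolv (centralizer_singleton_ne_top T.S.hG hd1))
  · exact card_coprime_of_isPGroup hvf.out T.hvp.symm T.S.hAp
  · exact card_coprime_of_isPGroup hvf.out hrv ((hRr.to_le inf_le_left).to_le hD1)

/-- `V` normalizes `W_d`. -/
theorem W_norm (hrp : r ≠ p) (hrv : r ≠ v) (hR : R ∈ maxInvSubgroups ⊤ A {r}) {d : G} (hd : d ∈ A₀) (hd1 : d ≠ 1)
    {V : Subgroup G} (hV : V ≤ Θ) (hVd : V ≤ centralizer ({d} : Set G)) (hAV : A ≤ normalizer (V : Set G))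
    (hKV : 𝐊 ≤ normalizer (V : Set G)) : V ≤ normalizer ((R ⊓ Qc v (𝐋 d) : Subgroup G) : Set G) := by
  have hcd := T.A_le_cent_elt hd
  have hN : centralizer ({d} : Set G) ≤ normalizer ((Qc v (𝐋 d)) : Set G) := fun g hg =>
    mem_normalizer_Qc (le_normalizer_piCoreOf _ _ hg)
  refine T.norm_of_trans hrp hrv hR ?_ (Qc_coprime _) ?_ (hcd.trans hN) ?_ (hVd.trans hN)
    (T.D.hΘp.to_le hV) hAV hKV
  · exact solv_of_le ((Qc_le _).trans (piCoreOf_le _ _)) (T.S.hsolv (centralizer_singleton_ne_top T.S.hG hd1))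
  · exact Nat.Coprime.coprime_dvd_left (Subgroup.card_dvd_of_le (Qc_le _)) (T.S.theta_coprime _)
  · exact (T.S.K_le_cent.trans (Subgroup.centralizer_le (Set.singleton_subset_iff.2 (T.S.hA₀A hd)))).trans hN

/-- **Step 3**. -/
theorem step3 (hrp : r ≠ p) (hrv : r ≠ v) (hbot : Θ ⊓ centralizer (A₀ : Set G) = ⊥) {C : Subgroup G}
    (hC : C ∈ Hyp p A₀) (hV : Θ ⊓ centralizer (C : Set G) ≠ ⊥) {W : Subgroup G} (hWr : IsPGroup r W)
    (hAW : A ≤ normalizer (W : Set G)) (hVW : Θ ⊓ centralizer (C : Set G) ≤ normalizer (W : Set G))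
    (hWH : ¬ W ≤ H) {f : G} (hf : f ∈ A₀) (hfC : f ∉ C) : ¬ W ⊓ centralizer ({f} : Set G) ≤ H := by
  intro hcon
  have hp : p.Prime := hpf.out
  set U := Θ ⊓ centralizer (C : Set G) with hU
  set E := zpowers f with hE
  have hf1 : f ≠ 1 := fun h => hfC (h ▸ one_mem C)
  have hE1 : E ≠ ⊥ := by
    rw [hE, Ne, zpowers_eq_bot]
    exact hf1
  have hCA : C ≤ A := hC.1.trans T.S.hA₀A
  have hUA : A ≤ normalizer (U : Set G) := fun a ha =>
    mem_normalizer_inf (T.A_le_N ha) (Subgroup.le_normalizer (T.S.A_le_cent hCA ha))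
  have hfA : f ∈ A := T.S.hA₀A hf
  have hEN : E ≤ normalizer (U : Set G) := zpowers_le.2 (hUA hfA)
  have hUn : ∀ e ∈ E, ∀ u ∈ U, e * u * e⁻¹ ∈ U := fun e he u hu =>
    (Subgroup.mem_normalizer_iff.1 (hEN he) u).1 hu
  have hsup := hyp_sup_zpowers T.S.hA₀c hC hf hfC
  have hfo : orderOf f = p := orderOf_eq_prime (T.S.hA₀e.2 f hf) hf1
  have hfpf : ∀ e ∈ E, e ≠ 1 → ∀ u ∈ U, e * u = u * e → u = 1 := by
    intro e he he1 u hu hcomm
    have hfe : f ∈ zpowers e := by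
      refine mem_zpowers_of_card_prime (p := p) (X := E) ?_ (mem_zpowers f) he he1
      rw [hE, Nat.card_zpowers, hfo]
    have h1 : zpowers e ≤ centralizer ({u} : Set G) := by
      rw [zpowers_le, Subgroup.mem_centralizer_iff]
      intro x hx
      rw [Set.mem_singleton_iff] at hx
      subst hx
      exact hcomm.symm
    have h2 : E ≤ centralizer ({u} : Set G) := zpowers_le.2 (h1 hfe)
    have h3 : u ∈ centralizer ((E : Subgroup G) : Set G) := by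
      rw [Subgroup.mem_centralizer_iff]
      intro x hx
      exact (Subgroup.mem_centralizer_iff.1 (h2 hx) u rfl).symm
    have h4 : u ∈ centralizer (A₀ : Set G) := by
      rw [← hsup]
      exact mem_centralizer_sup hu.2 h3
    have h5 : u ∈ Θ ⊓ centralizer (A₀ : Set G) := ⟨hu.1, h4⟩
    rw [hbot] at h5
    exact Subgroup.mem_bot.1 h5
  have hsupN : U ⊔ E ≤ normalizer (W : Set G) := sup_le hVW (zpowers_le.2 (hAW hfA))
  have hUH : U ≤ H := inf_le_left.trans T.D.hΘH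
  have hsupH : U ⊔ E ≤ H := sup_le hUH (zpowers_le.2 (T.hAH hfA))
  set D₀ := W ⊓ H with hD₀
  have hD₀N : U ⊔ E ≤ normalizer (D₀ : Set G) := fun x hx =>
    mem_normalizer_inf (hsupN hx) (Subgroup.le_normalizer (hsupH hx))
  have hUp : IsPGroup v U := T.D.hΘp.to_le inf_le_left
  have hcopsup : ∀ X : Subgroup G, IsPGroup r X → Nat.Coprime (Nat.card X) (Nat.card ↥(U ⊔ E)) := by
    intro X hX
    have hE2 : ↑E ≤ normalizer (U : Set G) := hEN
    have h1 := card_sup_mul_card_inf hE2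
    have h2 : Nat.card ↥(U ⊔ E) ∣ Nat.card U * Nat.card E := ⟨_, h1.symm⟩
    refine Nat.Coprime.coprime_dvd_right h2 (Nat.Coprime.mul_right ?_ ?_)
    · obtain ⟨k, hk⟩ := IsPGroup.iff_card.1 hUp
      rw [hk]
      exact Nat.Coprime.pow_right k (card_coprime_of_isPGroup hvf.out hrv hX)
    · rw [hE, Nat.card_zpowers, hfo]
      exact card_coprime_of_isPGroup hp hrp hX
  have hsolvW : Group.IsSolvable W := by
    haveI := hWr.isNilpotent
    infer_instance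
  have hD₀r : IsPGroup r D₀ := hWr.to_le inf_le_left
  have hsolvD : Group.IsSolvable D₀ := by
    haveI := hD₀r.isNilpotent
    infer_instance
  have F1 := frobenius_fix_formula U E W hE1 hUn hfpf
    (fun x hx h hh => (Subgroup.mem_normalizer_iff.1 (hsupN hx) h).1 hh) hsolvW (hcopsup W hWr)
  have F2 := frobenius_fix_formula U E D₀ hE1 hUn hfpf
    (fun x hx h hh => (Subgroup.mem_normalizer_iff.1 (hD₀N hx) h).1 hh) hsolvD (hcopsup D₀ hD₀r)
  have hCU : ∀ x, x ∈ centralizer (U : Set G) → x ∈ H := by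
    intro x hx
    obtain ⟨u, hu, hu1⟩ := U.bot_or_exists_ne_one.resolve_left hV
    exact T.D.hcent u hu.1 hu1 (centralizer_le_of_mem hu hx)
  have eU : W ⊓ centralizer (U : Set G) = D₀ ⊓ centralizer (U : Set G) := by
    apply le_antisymm
    · exact fun x hx => ⟨⟨hx.1, hCU x hx.2⟩, hx.2⟩
    · exact inf_le_inf_right _ inf_le_left
  have eS : W ⊓ centralizer ((U ⊔ E : Subgroup G) : Set G) = D₀ ⊓ centralizer ((U ⊔ E : Subgroup G) : Set G) := by
    apply le_antisymm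
    · exact fun x hx => ⟨⟨hx.1, hCU x (Subgroup.centralizer_le (SetLike.coe_subset_coe.2 (le_sup_left : U ≤ U ⊔ E)) hx.2)⟩, hx.2⟩
    · exact inf_le_inf_right _ inf_le_left
  have eE : W ⊓ centralizer (E : Set G) = D₀ ⊓ centralizer (E : Set G) := by
    apply le_antisymm
    · exact fun x hx => ⟨⟨hx.1, hcon ⟨hx.1, centralizer_le_of_mem (mem_zpowers f) hx.2⟩⟩, hx.2⟩
    · exact inf_le_inf_right _ inf_le_left
  rw [eU, eS, eE] at F1
  have hcard : Nat.card W = Nat.card D₀ := by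
    have hpos : 0 < Nat.card ↥(D₀ ⊓ centralizer ((U ⊔ E : Subgroup G) : Set G)) ^ Nat.card E :=
      pow_pos Nat.card_pos _
    exact Nat.eq_of_mul_eq_mul_left hpos (F1.trans F2.symm)
  apply hWH
  have h5 : D₀ = W := Subgroup.eq_of_le_of_card_ge inf_le_left hcard.le
  rw [← h5]
  exact inf_le_right

/-- **Steps 2-4**: the maximal `A`-invariant `r`-subgroups lie in `H`. -/
theorem R_le (hrp : r ≠ p) (hrv : r ≠ v) (hR : R ∈ maxInvSubgroups ⊤ A {r}) : R ≤ H := by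
  by_contra hRH
  have hp : p.Prime := hpf.out
  have hRr : IsPGroup r R := T.S.isPGroup_of_maxInv hrf.out hR
  have hA₀R : A₀ ≤ normalizer (R : Set G) := T.S.hA₀A.trans hR.1.2.2
  have hRc : (Nat.card R).Coprime p := card_coprime_of_isPGroup hp hrp hRr
  obtain ⟨B, hB, hRB⟩ : ∃ B ∈ Hyp p A₀, ¬ R ⊓ centralizer (B : Set G) ≤ H := by
    by_contra h
    push Not at h
    exact hRH ((le_iSup_hyp T.S.hA₀e T.S.hA₀c hRc hA₀R).trans (iSup₂_le h))
  have hcyc : ∀ b ∈ B, b ≠ 1 → IsCyclic ↥(Θ ⊓ centralizer ({b} : Set G)) := by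
    intro b hb hb1
    by_contra hnc
    have h1 : centralizer ({b} : Set G) ≤ H :=
      T.D.noncyc_le inf_le_left hnc (centralizer_singleton_ne_top T.S.hG hb1) inf_le_right
    exact hRB (inf_le_right.trans ((centralizer_le_of_mem hb).trans h1))
  set 𝓔 : Set G := {b | b ∈ B ∧ b ≠ 1} with h𝓔
  have he : ∀ e ∈ 𝓔, e ∈ A₀ ∧ e ≠ 1 ∧ IsCyclic ↥(Θ ⊓ centralizer ({e} : Set G)) := fun e he =>
    ⟨hB.1 he.1, he.2, hcyc e he.1 he.2⟩
  have heC : ∀ C ∈ Hyp p A₀, ∃ e ∈ 𝓔, e ∈ C := by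
    intro C hC
    obtain ⟨e, he1, he2⟩ := (B ⊓ C).bot_or_exists_ne_one.resolve_left (hyp_inf_ne_bot T.S.hA₀c hB hC)
    exact ⟨e, ⟨he1.1, he2⟩, he1.2⟩
  have hbot := T.fix_bot he heC
  obtain ⟨C, hC, C', hC', hne, hV, hV'⟩ := T.two_hyp he heC
  have hdisj : B ⊓ (C ⊓ C') = ⊥ := by
    by_contra h
    obtain ⟨b, hb, hb1⟩ := (B ⊓ (C ⊓ C')).bot_or_exists_ne_one.resolve_left h
    exact T.no_common hbot hC hC' hne hV hV' hb.2.1 hb.2.2 (hcyc b hb.1 hb1)
  obtain ⟨e₀, he₀, he₀1⟩ := (C ⊓ C').bot_or_exists_ne_one.resolve_left (hyp_inf_ne_bot T.S.hA₀c hC hC')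
  have hnc₀ := T.no_common hbot hC hC' hne hV hV' he₀.1 he₀.2
  have hCe₀ : centralizer ({e₀} : Set G) ≤ H :=
    T.D.noncyc_le inf_le_left hnc₀ (centralizer_singleton_ne_top T.S.hG he₀1) inf_le_right
  have hfixH : R ⊓ centralizer (A₀ : Set G) ≤ H :=
    inf_le_right.trans ((centralizer_le_of_mem (hC.1 he₀.1)).trans hCe₀)
  have hYB := inf_centr_inv (E := B) hA₀R T.S.hA₀e.1 hB.1
  have hactB := action_A₀ (r := r) T.S.hA₀c hrp (hRr.to_le inf_le_left) hYB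
  have hIH : ¬ ⁅R ⊓ centralizer (B : Set G), A₀⁆ ≤ H := by
    intro h
    apply hRB
    have h2 := hactB.commutator_sup_centralizer
    refine (le_of_eq h2.symm).trans (sup_le h ?_)
    exact (inf_le_inf_right _ inf_le_left).trans hfixH
  have hLB : ∀ b ∈ B, b ≠ 1 → ¬ (𝐋 b) ≤ H := by
    intro b hb hb1 h
    apply hRB
    exact (inf_le_inf_left _ (centralizer_le_of_mem hb)).trans ((T.Rd_le_L hrp hR (hB.1 hb) hb1).trans h)
  have hWB : ∀ b ∈ B, b ≠ 1 → ¬ (R ⊓ Qc v (𝐋 b)) ≤ H := by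
    intro b hb hb1 h
    apply hIH
    have h1 := T.a_prime hrp hrv hR (hB.1 hb) hb1 (hLB b hb hb1)
    exact (Subgroup.commutator_mono (inf_le_inf_left _ (centralizer_le_of_mem hb)) T.S.hA₀A).trans (h1.trans h)
  have hKV₁ : ∀ C₁ ∈ Hyp p A₀, 𝐊 ≤ normalizer ((Θ ⊓ centralizer (C₁ : Set G) : Subgroup G) : Set G) := fun C₁ hC₁ k hk =>
    mem_normalizer_inf (T.D.hHΘ (T.K_le_H hk)) (Subgroup.le_normalizer
      (Subgroup.centralizer_le (hC₁.1.trans T.S.hA₀A) (T.S.K_le_cent hk)))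
  have hAV₁ : ∀ C₁ ∈ Hyp p A₀, A ≤ normalizer ((Θ ⊓ centralizer (C₁ : Set G) : Subgroup G) : Set G) := fun C₁ hC₁ a ha =>
    mem_normalizer_inf (T.A_le_N ha) (Subgroup.le_normalizer (T.S.A_le_cent (hC₁.1.trans T.S.hA₀A) ha))
  have hWr : ∀ d : G, IsPGroup r ↥(R ⊓ Qc v (𝐋 d)) := fun d => hRr.to_le inf_le_left
  have hAW : ∀ d ∈ A₀, A ≤ normalizer ((R ⊓ Qc v (𝐋 d) : Subgroup G) : Set G) := fun d hd a ha =>
    mem_normalizer_inf (hR.1.2.2 ha) (mem_normalizer_Qc (le_normalizer_piCoreOf _ _ (T.A_le_cent_elt hd ha)))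
  have hstep : ∀ C₁ ∈ Hyp p A₀, Θ ⊓ centralizer (C₁ : Set G) ≠ ⊥ → ∀ e₁ ∈ C₁, e₁ ∈ B → e₁ ≠ 1 → ∀ f ∈ A₀, f ∉ C₁ →
      ¬ (𝐋 f) ≤ H := by
    intro C₁ hC₁ hV₁ e₁ he₁ he₁B he₁1 f hf hfC₁ hLf
    have hVW := T.W_norm hrp hrv hR (hC₁.1 he₁) he₁1 inf_le_left (inf_le_right.trans (centralizer_le_of_mem he₁))
      (hAV₁ C₁ hC₁) (hKV₁ C₁ hC₁)
    have h3 := T.step3 hrp hrv hbot hC₁ hV₁ (hWr e₁) (hAW e₁ (hC₁.1 he₁)) hVW (hWB e₁ he₁B he₁1) hf hfC₁
    apply h3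
    have hf1 : f ≠ 1 := fun h => hfC₁ (h ▸ one_mem C₁)
    exact (inf_le_inf_right _ inf_le_left).trans ((T.Rd_le_L hrp hR hf hf1).trans hLf)
  obtain ⟨e, he', he1⟩ := (B ⊓ C).bot_or_exists_ne_one.resolve_left (hyp_inf_ne_bot T.S.hA₀c hB hC)
  obtain ⟨e', he'', he'1⟩ := (B ⊓ C').bot_or_exists_ne_one.resolve_left (hyp_inf_ne_bot T.S.hA₀c hB hC')
  have hL₁ : ∀ d ∈ A₀, d ∉ C → ¬ (𝐋 d) ≤ H := hstep C hC hV e he'.2 he'.1 he1
  have hL₂ : ∀ d ∈ A₀, d ∉ C' → ¬ (𝐋 d) ≤ H := hstep C' hC' hV' e' he''.2 he''.1 he'1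
  -- both descriptions of the group generated
  have hside : ∀ C₁ ∈ Hyp p A₀, ∀ C₂ ∈ Hyp p A₀, (∀ d ∈ A₀, d ∉ C₂ → ¬ (𝐋 d) ≤ H) →
      XGen p R A₀ C₁ C₂ = ⨆ d ∈ {d : G | d ∈ C₁ ∧ d ∉ C₂}, ⁅R ⊓ Qc v (𝐋 d), C₁⁆ := by
    intro C₁ hC₁ C₂ hC₂ hL
    apply le_antisymm
    · refine XGen_le T.S.hA₀e T.S.hA₀c hrp hRr hA₀R hC₁ hC₂ ?_
      intro E hE hEb d hdE hdC₁ hd1
      have hdC₂ : d ∉ C₂ := by
        intro h
        have : d ∈ E ⊓ (C₁ ⊓ C₂) := ⟨hdE, hdC₁, h⟩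
        rw [hEb] at this
        exact hd1 (Subgroup.mem_bot.1 this)
      have h1 := T.a_prime hrp hrv hR (hC₁.1 hdC₁) hd1 (hL d (hC₁.1 hdC₁) hdC₂)
      exact (Subgroup.commutator_mono (inf_le_inf_left _ (centralizer_le_of_mem hdE)) T.S.hA₀A).trans h1
    · refine iSup₂_le ?_
      rintro d ⟨hd₁, hd₂⟩
      have hd1 : d ≠ 1 := fun h => hd₂ (h ▸ one_mem C₂)
      refine le_XGen T.S.hA₀e T.S.hA₀c hrp hC₁ hC₂ hd₁ hd₂ hd1 (hWr d) (T.S.hA₀A.trans (hAW d (hC₁.1 hd₁))) inf_le_left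
        hA₀R ?_
      exact inf_le_right.trans ((Qc_le _).trans (piCoreOf_le _ _))
  have hnorm : ∀ C₁ ∈ Hyp p A₀, ∀ C₂ ∈ Hyp p A₀, (∀ d ∈ A₀, d ∉ C₂ → ¬ (𝐋 d) ≤ H) →
      Θ ⊓ centralizer (C₁ : Set G) ≤ normalizer (XGen p R A₀ C₁ C₂ : Set G) := by
    intro C₁ hC₁ C₂ hC₂ hL y hy
    rw [hside C₁ hC₁ C₂ hC₂ hL]
    refine mem_normalizer_iSup fun d => mem_normalizer_iSup fun hd => ?_
    have hd1 : d ≠ 1 := fun h => hd.2 (h ▸ one_mem C₂)
    have h1 := T.W_norm hrp hrv hR (hC₁.1 hd.1) hd1 (V := Θ ⊓ centralizer (C₁ : Set G)) inf_le_left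
      (inf_le_right.trans (centralizer_le_of_mem hd.1)) (hAV₁ C₁ hC₁) (hKV₁ C₁ hC₁)
    exact mem_normalizer_commutator (h1 hy) (centralizer_le_normalizer' C₁ hy.2)
  have hsymm : XGen p R A₀ C' C = XGen p R A₀ C C' := by
    unfold XGen
    rw [inf_comm C' C]
  have hVX := hnorm C hC C' hC' hL₂
  have hV'X := hnorm C' hC' C hC hL₁
  rw [hsymm] at hV'X
  have hVV : ¬ IsCyclic ↥((Θ ⊓ centralizer (C : Set G)) ⊔ (Θ ⊓ centralizer (C' : Set G))) := by
    intro hcyc'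
    refine cyc_inf_ne_bot hcyc' (T.D.hΘp.to_le (sup_le inf_le_left inf_le_left)) le_sup_left le_sup_right hV hV' ?_
    rw [eq_bot_iff, ← hbot]
    exact T.inf_le_fix hC hC' hne
  have hXR : XGen p R A₀ C C' ≤ R := XGen_le_R hRr hrp T.S.hA₀c hA₀R T.S.hA₀e.1
  have hXH : XGen p R A₀ C C' ≤ H :=
    T.D.noncyc_inv (sup_le inf_le_left inf_le_left) hVV (card_coprime_of_isPGroup hvf.out hrv (hRr.to_le hXR))
      (sup_le hVX hV'X)
  have hBX : ⁅R ⊓ centralizer (B : Set G), A₀⁆ ≤ XGen p R A₀ C C' :=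
    le_iSup₂ (f := fun E (_ : E ∈ {E : Subgroup G | E ∈ Hyp p A₀ ∧ E ⊓ (C ⊓ C') = ⊥}) =>
      ⁅R ⊓ centralizer (E : Set G), A₀⁆) B ⟨hB, hdisj⟩
  exact hIH (hBX.trans hXH)

/-- All `A`-invariant `p'`-subgroups lie in `H`. -/
theorem le_H {Y : Subgroup G} (hY : (Nat.card Y).Coprime p) (hAY : A ≤ normalizer (Y : Set G)) : Y ≤ H := by
  refine le_of_inv_sylows T.S.hAp hAY hY ?_
  intro q hqf hqp Q hQ hAQ
  obtain ⟨Q', hQ', hQQ'⟩ := exists_maxInv_ge (T.S.mem_inv hqf.out hQ hAQ)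
  refine hQQ'.trans ?_
  by_cases hqv : q = v
  · subst hqv
    exact T.maxInv_v_le hQ'
  · exact T.R_le hqp hqv hQ'

theorem uniq : InUniqueMaximal A :=
  uniq_of_inv T.S.hG T.D.hH T.hAH T.S.hA1 T.S.hAp fun _ hY hAY => T.le_H hY hAY

end C1Setup

/-- The heart of the Uniqueness Theorem, from S1401. -/
theorem u3_core {p : ℕ} [hpf : Fact p.Prime] {A A₀ : Subgroup G} (S : U3Setup p A A₀)
    (h1401 : ∀ (M : Subgroup G) (v : ℕ) [Fact v.Prime], IsCoatom M → ¬ PRankLE v 2 ↥(fittingOf M) →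
      ∀ A₁ : Subgroup G, IsPGroup v A₁ → IsMulCommutative A₁ → ¬ PRankLE v 2 ↥A₁ → InUniqueMaximal A₁) :
    InUniqueMaximal A := by
  by_cases hlow : ∀ H : Subgroup G, IsCoatom H → A ≤ H → ∀ (t : ℕ) [Fact t.Prime],
      PRankLE t 2 ↥(Oq t (fittingOf (piCoreOf (primesNotDvd (Nat.card A)) H)))
  · exact S.case2 hlow
  · push Not at hlow
    obtain ⟨H, hH, hAH, v, hv, hr⟩ := hlow
    haveI := hv
    have hvp' : v.Prime := hv.out
    set Y := piCoreOf (primesNotDvd (Nat.card A)) H with hY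
    set E₀ := Oq v (fittingOf Y) with hE₀
    have hE₀p : IsPGroup v E₀ := Oq_isPGroup v _
    have hE₀Y : E₀ ≤ Y := (Oq_le v _).trans (fittingOf_le Y)
    have hE₀H : E₀ ≤ H := hE₀Y.trans (piCoreOf_le _ _)
    have hFn : Group.IsNilpotent (fittingOf Y) := fittingOf_isNilpotent Y
    have hHN : H ≤ normalizer (fittingOf Y : Set G) :=
      (le_normalizer_piCoreOf _ H).trans (normalizer_le_normalizer_fittingOf Y)
    have hE₀N : H ≤ normalizer (E₀ : Set G) := fun h hh => mem_normalizer_Oq hFn (hHN hh)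
    obtain ⟨E₃, hE₃, hE₃e, hE₃c⟩ := exists_E3 hr
    have hlt : v ^ 2 < v ^ 3 := Nat.pow_lt_pow_right hvp'.one_lt (by norm_num)
    have hvp : v ≠ p := by
      rintro rfl
      have h1 : Nat.card E₃ ∣ Nat.card Y := Subgroup.card_dvd_of_le (hE₃.trans hE₀Y)
      have h2 : (Nat.card Y).Coprime v := S.theta_coprime H
      have h3 : (Nat.card E₃).Coprime v := Nat.Coprime.coprime_dvd_left h1 h2
      rw [hE₃c] at h3
      have h4 : v ∣ v ^ 3 := dvd_pow_self v (by norm_num)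
      exact hvp'.one_lt.ne' (Nat.eq_one_of_dvd_coprimes h3 h4 (dvd_refl v))
    have hFH : fittingOf Y ≤ fittingOf H :=
      le_fittingOf ((fittingOf_le Y).trans (piCoreOf_le _ _)) hHN hFn
    have hF : ¬ PRankLE v 2 ↥(fittingOf H) :=
      Cfsg.Agent.Lib.Components.not_rank_of_le ((hE₃.trans (Oq_le v _)).trans hFH) hE₃e (by rw [hE₃c]; exact hlt)
    have huq : ∀ E : Subgroup G, IsElementaryAbelian v E → Nat.card E = v ^ 3 → InUniqueMaximal E := by
      intro E hEe hEc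
      refine h1401 H v hH hF E (isPGroup_of_ea hEe) hEe.1 ?_
      exact Cfsg.Agent.Lib.Components.not_rank_of_le le_rfl hEe (by rw [hEc]; exact hlt)
    obtain ⟨Θ, D⟩ := exists_VData S.hG hH huq hE₀p hE₀H hE₀N hr
    exact (⟨S, D, hAH, hvp⟩ : C1Setup p v A A₀ H E₀ Θ).uniq

/-- **S1402**, from S1401. -/
theorem s1402_core (hG : IsMinSimpleOddOrder G) {p : ℕ} [hpf : Fact p.Prime] (P : Sylow p G) {A : Subgroup G}
    (hA : IsSCN (P : Subgroup G) A) (hA3 : ¬ PRankLE p 2 ↥A)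
    (h1401 : ∀ (M : Subgroup G) (v : ℕ) [Fact v.Prime], IsCoatom M → ¬ PRankLE v 2 ↥(fittingOf M) →
      ∀ A₁ : Subgroup G, IsPGroup v A₁ → IsMulCommutative A₁ → ¬ PRankLE v 2 ↥A₁ → InUniqueMaximal A₁) :
    InUniqueMaximal A := by
  have hp : p.Prime := hpf.out
  obtain ⟨A₀, hA₀A, hA₀e, hA₀c⟩ := exists_E3 hA3
  have hAp : IsPGroup p A := P.isPGroup'.to_le hA.1
  have hpG : p ∣ Nat.card G := by
    have h1 : Nat.card A₀ ∣ Nat.card G := Subgroup.card_subgroup_dvd_card A₀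
    rw [hA₀c] at h1
    exact (dvd_pow_self p (by norm_num)).trans h1
  have hr1 : ¬ PRankLE p 1 A := fun h => hA3 (prank_mono hp.pos (by norm_num) h)
  have hTH := th2_of_dvd hG hpG P A hA hr1
  exact u3_core ⟨hG, hTH, scn_comm hA, hAp, hA₀A, hA₀e, hA₀c⟩ h1401

end Cfsg.Agent.Lib.FT
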