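import Cfsg.Agent.Lib.FT.BG8b
import Cfsg.Agent.S1395

/-!
BG section 9: S1397, S1401.
-/

set_option autoImplicit false
set_option linter.unusedSectionVars false
set_option linter.style.haveILetI false

namespace Cfsg.Agent.Lib.FT

open Subgroup Cfsg Cfsg.Agent.Lib.OddLocal

open Cfsg.Agent.Lib.Coprime (mem_conj_map conj_mem_conj_map conj_map_conj_map conj_map_one
  conj_map_mono mem_normalizer_of_conj_le conj_map_eq_iff_mem_normalizer isPGroup_conj_map)

open scoped commutatorElement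

universe u

variable {G : Type u} [Group G] [Finite G]

/-- An elementary abelian subgroup of large order bounds the rank from below. -/
theorem not_prank_of_ea {p k : ℕ} {X E : Subgroup G} (hEX : E ≤ X) (hE : IsElementaryAbelian p E)
    (hc : p ^ k < Nat.card E) : ¬ PRankLE p k X := by
  intro h
  have h1 := h (E.subgroupOf X) (by
    refine ⟨⟨?_⟩⟩
    rintro ⟨a, ha⟩ ⟨b, hb⟩
    apply Subtype.ext
    apply Subtype.ext
    have := hE.1.is_comm.comm (⟨a, Subgroup.mem_subgroupOf.1 ha⟩ : E) ⟨b, Subgroup.mem_subgroupOf.1 hb⟩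
    show ((a : X) : G) * (b : X) = (b : X) * (a : X)
    exact congrArg Subtype.val this) (by
    rintro ⟨a, ha⟩ h2
    apply Subtype.ext
    exact hE.2 a (Subgroup.mem_subgroupOf.1 h2))
  have h2 : Nat.card (E.subgroupOf X) = Nat.card E := Nat.card_congr (subgroupOfEquivOfLe hEX).toEquiv
  rw [h2] at h1
  omega

/-- Rank three in a coatom's Fitting subgroup: the centralizer of `F` lies in `F`. -/
theorem centralizer_fitting_le (hG : IsMinSimpleOddOrder G) {M : Subgroup G} (hM : IsCoatom M)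
    (hF : fittingOf M ≠ ⊥) : centralizer (fittingOf M : Set G) ≤ fittingOf M := by
  have hF1 : Nat.card (fittingOf M) ≠ 1 := fun h => hF ((Subgroup.card_eq_one).1 h)
  obtain ⟨t, ht, htF⟩ := Nat.exists_prime_and_dvd hF1
  haveI : Fact t.Prime := ⟨ht⟩
  have h1 : centralizer (fittingOf M : Set G) ≤ M :=
    (Subgroup.centralizer_le ((Zt_le t M).trans inf_le_left)).trans
      ((maxLoc_of_coatom hG hM).centralizer_le ht (Zt_isPGroup t M) (Zt_ne_bot htF) (Zt_normalized t M))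
  exact (le_inf h1 le_rfl).trans (inf_centralizer_fittingOf_le (IsMinSimpleOddOrder.isSolvable hG hM.1))

/-- No invariant `q`-subgroups. -/
theorem no_inv_of_TH (hG : IsMinSimpleOddOrder G) {M A : Subgroup G} (hM : IsCoatom M)
    (hA : TransitivityHypothesis A) (hZ : ¬ RankLE 2 ↥(A ⊓ centralizer (A : Set G)))
    (hAF : A ≤ fittingOf M) (hFA : ∀ r : ℕ, r.Prime → r ∣ Nat.card (fittingOf M) → r ∣ Nat.card A)
    {q : ℕ} (hq : q.Prime) (hqA : ¬ q ∣ Nat.card A) : ∀ T ∈ invSubgroups ⊤ A {q}, T = ⊥ := by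
  haveI : Fact q.Prime := ⟨hq⟩
  set F := fittingOf M with hF
  have hF1 : F ≠ ⊥ := fun h => hA.1 (le_bot_iff.1 (h ▸ hAF))
  have hFn : Group.IsNilpotent F := fittingOf_isNilpotent M
  have hFne : F ≠ ⊤ := fun h => hM.1 (top_le_iff.1 (h ▸ fittingOf_le M))
  have hsn : (A.subgroupOf F).IsSubnormal := by
    haveI := hFn
    exact (Cfsg.Agent.Lib.Basic.isNilpotent_iff_forall_isSubnormal.1 inferInstance) _
  have htr : ∀ Q₁ ∈ maxInvSubgroups ⊤ A {q}, ∀ Q₂ ∈ maxInvSubgroups ⊤ A {q},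
      ∃ k ∈ piCoreOf (primesNotDvd (Nat.card A)) (centralizer (A : Set G)),
        Q₂ = Q₁.map (MulAut.conj k).toMonoidHom :=
    fun Q₁ h₁ Q₂ h₂ => transitivity_rank_three hG hA hZ q hq hqA Q₁ Q₂ h₁ h₂
  obtain ⟨-, hb, hc, -⟩ := Cfsg.Agent.S1395.result hG A hA q hq hqA F hFne hFA hAF hsn htr
  have hCF := centralizer_fitting_le hG hM hF1
  have hKF : piCoreOf (primesNotDvd (Nat.card A)) (centralizer (F : Set G)) = ⊥ := by
    apply (Subgroup.card_eq_one).1
    by_contra hne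
    obtain ⟨t, ht, htd⟩ := Nat.exists_prime_and_dvd hne
    have h1 := piCoreOf_isPi _ _ t ht htd
    apply h1.2
    apply hFA t ht
    exact htd.trans (Subgroup.card_dvd_of_le ((piCoreOf_le _ _).trans hCF))
  obtain ⟨Q, hQ, -⟩ := exists_maxInv_ge (T := ⊥) (A := F) (X := ⊤) (q := q)
    ⟨le_top, isPiSub_bot _, fun a _ => by
      rw [Subgroup.mem_normalizer_iff]
      intro h
      simp⟩
  have hQM : M ≤ normalizer (Q : Set G) := by
    intro m hm
    have h3 := maxInv_conj_normalizer (fittingOf_normalized M hm) hQ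
    obtain ⟨k, hk, e⟩ := hb Q hQ _ h3
    rw [hKF, Subgroup.mem_bot] at hk
    subst hk
    apply mem_normalizer_of_conj_map_le
    rw [e, conj_map_one]
  have hQp : IsPGroup q Q := (isPiSub_singleton_iff hq).1 hQ.1.2.1
  have hQ1 : Q = ⊥ := by
    by_contra hne
    have hQtop := IsMinSimpleOddOrder.ne_top_of_isPGroup hG hq hQp
    have hN := coatom_normalizer_eq hG hM hne hQtop hQM
    have hQM' : Q ≤ M := hN ▸ Subgroup.le_normalizer
    have hQF : Q ≤ F := le_fittingOf hQM' hQM hQp.isNilpotent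
    exact hqA (hFA q hq (dvd_card_of_ne_bot hQp hQF hne))
  have hbotA : (⊥ : Subgroup G) ∈ maxInvSubgroups ⊤ A {q} := hQ1 ▸ hc hQ
  intro T hT
  obtain ⟨Y, hY, hTY⟩ := exists_maxInv_ge hT
  obtain ⟨k, -, e⟩ := htr ⊥ hbotA Y hY
  rw [e, Subgroup.map_bot] at hTY
  exact le_bot_iff.1 hTY

/-- Trivial invariant Sylow subgroups force a trivial invariant subgroup. -/
theorem bot_of_inv {A Y : Subgroup G} (hAY : A ≤ normalizer (Y : Set G))
    (hcop : (Nat.card A).Coprime (Nat.card Y)) (hAs : Group.IsSolvable A)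
    (h : ∀ q : ℕ, q.Prime → q ∣ Nat.card Y → ∀ T ∈ invSubgroups ⊤ A {q}, T = ⊥) : Y = ⊥ := by
  by_contra hne
  have h1 : Nat.card Y ≠ 1 := fun h => hne ((Subgroup.card_eq_one).1 h)
  obtain ⟨q, hq, hd⟩ := Nat.exists_prime_and_dvd h1
  haveI : Fact q.Prime := ⟨hq⟩
  obtain ⟨P, hP⟩ := Cfsg.Agent.Lib.Basic.exists_invariant_sylow hAY hcop (Or.inl hAs) q
  have h2 := h q hq hd ((P : Subgroup Y).map Y.subtype)
    ⟨le_top, (isPiSub_singleton_iff hq).2 (P.isPGroup'.map _), hP⟩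
  have h3 : q ∣ Nat.card P := P.dvd_card_of_dvd_card hd
  have h4 : Nat.card ((P : Subgroup Y).map Y.subtype) = Nat.card P := OddLocal.card_map_subtype _
  rw [h2, Subgroup.card_bot] at h4
  rw [← h4] at h3
  exact hq.one_lt.ne' (Nat.dvd_one.1 h3)

/-- Some prime other than `p` divides the order of a subgroup which is not a `p`-group. -/
theorem two_primes_of_not_pgroup {p : ℕ} [hp : Fact p.Prime] {F : Subgroup G} (hpF : p ∣ Nat.card F)
    (hnp : ¬ IsPGroup p F) : 2 ≤ (Nat.card F).primeFactors.card := by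
  have hF0 : Nat.card F ≠ 0 := Nat.card_pos.ne'
  have hex : ∃ r : ℕ, r.Prime ∧ r ∣ Nat.card F ∧ r ≠ p := by
    by_contra hcon
    push Not at hcon
    apply hnp
    exact IsPGroup.of_card (Nat.eq_prime_pow_of_unique_prime_dvd hF0 fun {d} hd hdd => hcon d hd hdd)
  obtain ⟨r, hr, hrF, hrp⟩ := hex
  exact Finset.one_lt_card.2 ⟨r, Nat.mem_primeFactors.2 ⟨hr, hrF, hF0⟩, p,
    Nat.mem_primeFactors.2 ⟨hp.out, hpF, hF0⟩, hrp⟩

/-- **S1397(a)**. -/
theorem s1397a (hG : IsMinSimpleOddOrder G) {M A₀ : Subgroup G} (hM : IsCoatom M) {p : ℕ} [hp : Fact p.Prime]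
    (hA₀ : A₀ ≤ fittingOf M) (hA₀e : IsElementaryAbelian p A₀) (hA₀3 : p ^ 3 ≤ Nat.card A₀)
    (hnp : ¬ IsPGroup p (fittingOf M)) : InUniqueMaximal (fittingOf M ⊓ centralizer (A₀ : Set G)) := by
  set F := fittingOf M with hF
  set M₀ := F ⊓ centralizer (A₀ : Set G) with hM₀
  have hA₀p := isPGroup_of_ea hA₀e
  have hlt : p ^ 2 < Nat.card A₀ := lt_of_lt_of_le
    (Nat.pow_lt_pow_right hp.out.one_lt (by norm_num)) hA₀3
  have hA₀1 : A₀ ≠ ⊥ := by
    rintro rfl
    rw [Subgroup.card_bot] at hlt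
    exact absurd hlt (not_lt.2 (Nat.one_le_pow _ _ hp.out.pos))
  have hpF : p ∣ Nat.card F := dvd_card_of_ne_bot hA₀p hA₀ hA₀1
  have hF2 := two_primes_of_not_pgroup hpF hnp
  have hA₀M₀ : A₀ ≤ M₀ := le_inf hA₀ (le_centralizer_of_comm hA₀e.1)
  have hCM₀ : F ⊓ centralizer (M₀ : Set G) ≤ M₀ := fun x hx =>
    Subgroup.mem_inf.2 ⟨hx.1, (Subgroup.centralizer_le hA₀M₀) hx.2⟩
  have hZ₀ : F ⊓ centralizer (F : Set G) ≤ M₀ := fun x hx =>
    Subgroup.mem_inf.2 ⟨hx.1, (Subgroup.centralizer_le hA₀) hx.2⟩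
  have hMm := maxLoc_of_coatom hG hM
  have hprimes : ∀ r : ℕ, r.Prime → r ∣ Nat.card F → r ∣ Nat.card M₀ := by
    intro r hr hd
    haveI : Fact r.Prime := ⟨hr⟩
    exact dvd_card_of_ne_bot (Zt_isPGroup r M) ((Zt_le r M).trans hZ₀) (Zt_ne_bot hd)
  have hσ : primesNotDvd (Nat.card M₀) = primesNotDvd (Nat.card F) := by
    ext t
    constructor
    · rintro ⟨ht, hnd⟩
      exact ⟨ht, fun hd => hnd (hprimes t ht hd)⟩
    · rintro ⟨ht, hnd⟩
      exact ⟨ht, fun hd => hnd (hd.trans (Subgroup.card_dvd_of_le inf_le_left))⟩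
  have hM₀1 : M₀ ≠ ⊥ := fun h => hA₀1 (le_bot_iff.1 (h ▸ hA₀M₀))
  have hM₀M : M₀ ≤ M := inf_le_left.trans (fittingOf_le M)
  have hTH : TransitivityHypothesis M₀ := by
    refine ⟨hM₀1, fun h => hM.1 (top_le_iff.1 (h ▸ hM₀M)), fun X hX hM₀X => ?_⟩
    rw [hσ]
    have hXR : M ⊓ centralizer (F : Set G) ≤ normalizer (X : Set G) := by
      have h1 : M ⊓ centralizer (F : Set G) ≤ F :=
        inf_centralizer_fittingOf_le (IsMinSimpleOddOrder.isSolvable hG hM.1)
      intro x hx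
      exact Subgroup.le_normalizer (hM₀X (hZ₀ (Subgroup.mem_inf.2 ⟨h1 hx, hx.2⟩)))
    apply le_antisymm
    · apply sSup_le
      intro Y hY
      exact le_core_of_inv hMm hF2 inf_le_left hCM₀ (IsMinSimpleOddOrder.isSolvable hG hX)
        (hM₀X.trans Subgroup.le_normalizer) hXR hY.1 hY.2.1 hY.2.2
    · exact le_sSup ⟨piCoreOf_le _ _, piCoreOf_isPi _ _, hM₀X.trans (le_normalizer_piCoreOf _ X)⟩
  have hZ : ¬ RankLE 2 ↥(M₀ ⊓ centralizer (M₀ : Set G)) := by
    intro h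
    refine not_prank_of_ea (le_inf hA₀M₀ ?_) hA₀e hlt (h p hp.out)
    exact le_centralizer_symm inf_le_right
  have hinv : ∀ Y ∈ invSubgroups ⊤ M₀ (primesNotDvd (Nat.card F)), Y = ⊥ := by
    rintro Y ⟨-, hYπ, hYM⟩
    have hcop : (Nat.card M₀).Coprime (Nat.card Y) :=
      Nat.Coprime.coprime_dvd_left (Subgroup.card_dvd_of_le inf_le_left)
        (coprime_of_isPi_primesNotDvd hYπ)
    have hs : Group.IsSolvable M₀ := by
      haveI := nilp_of_le (inf_le_left : M₀ ≤ F) (fittingOf_isNilpotent M)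
      infer_instance
    refine bot_of_inv hYM hcop hs fun q hq hd => ?_
    have hqF := (hYπ q hq hd).2
    exact no_inv_of_TH hG hM hTH hZ inf_le_left hprimes hq
      (fun h => hqF (h.trans (Subgroup.card_dvd_of_le inf_le_left)))
  exact ⟨M, ⟨hM, hM₀M⟩, fun L hL => s1482_core hG hM hF2 hZ₀ hinv L hL.1 hL.2⟩

/-- A cyclic subgroup has `p`-rank at most two. -/
theorem prank_of_cyclic {p : ℕ} [hp : Fact p.Prime] {X : Subgroup G} (hc : IsCyclic X) : PRankLE p 2 X := by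
  intro A _ hAe
  haveI : IsCyclic A := Subgroup.isCyclic A
  obtain ⟨g, hg⟩ := IsCyclic.exists_generator (α := A)
  have h1 : Nat.card A = orderOf g := (orderOf_eq_card_of_forall_mem_zpowers hg).symm
  have h2 : orderOf g ∣ p := orderOf_dvd_of_pow_eq_one (Subtype.ext (hAe g g.2))
  rw [h1]
  exact (Nat.le_of_dvd hp.out.pos h2).trans (Nat.le_self_pow (by norm_num) p)

/-- An SCN-subgroup of rank at least three containing a given normal `E(p²)`. -/
theorem exists_scn3_ge {p : ℕ} [hp : Fact p.Prime] (hp2 : p ≠ 2) {P E : Subgroup G} (hPp : IsPGroup p P)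
    (hrank : ¬ PRankLE p 2 P) (hEP : E ≤ P) (hPE : P ≤ normalizer (E : Set G))
    (hEe : IsElementaryAbelian p E) (hE2 : Nat.card E = p ^ 2) :
    ∃ A₀ : Subgroup G, E ≤ A₀ ∧ IsSCN P A₀ ∧ ¬ PRankLE p 2 A₀ := by
  have hE'n : (E.subgroupOf P).Normal := by
    constructor
    intro x hx g
    rw [Subgroup.mem_subgroupOf] at hx ⊢
    exact (Subgroup.mem_normalizer_iff.1 (hPE g.2) _).1 hx
  have hE'e : IsElementaryAbelian p (E.subgroupOf P) := by
    refine ⟨⟨⟨?_⟩⟩, ?_⟩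
    · rintro ⟨a, ha⟩ ⟨b, hb⟩
      apply Subtype.ext
      apply Subtype.ext
      have := hEe.1.is_comm.comm (⟨a, Subgroup.mem_subgroupOf.1 ha⟩ : E) ⟨b, Subgroup.mem_subgroupOf.1 hb⟩
      show ((a : P) : G) * (b : P) = (b : P) * (a : P)
      exact congrArg Subtype.val this
    · rintro ⟨a, ha⟩ h2
      apply Subtype.ext
      exact hEe.2 a (Subgroup.mem_subgroupOf.1 h2)
  have hE'c : Nat.card (E.subgroupOf P) = p ^ 2 := by
    rw [← hE2]
    exact Nat.card_congr (subgroupOfEquivOfLe hEP).toEquiv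
  obtain ⟨A, hEA, hAn, hAC, hAr⟩ := Cfsg.Agent.S1452.result p hp2 hPp hrank (E.subgroupOf P) hE'e hE'c
  set A₀ : Subgroup G := A.map P.subtype with hA₀
  have hA₀P : A₀ ≤ P := Subgroup.map_subtype_le _
  have hPA₀ : P ≤ normalizer (A₀ : Set G) := by
    intro s hs
    apply mem_normalizer_of_conj_le
    rintro _ ⟨a, ha, rfl⟩
    exact ⟨⟨s, hs⟩ * a * ⟨s, hs⟩⁻¹, hAn.conj_mem a ha _, by simp⟩
  have hA₀C : A₀ ≤ centralizer (A₀ : Set G) := by
    rintro _ ⟨a, ha, rfl⟩
    rw [Subgroup.mem_centralizer_iff]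
    rintro _ ⟨b, hb, rfl⟩
    have h1 : a ∈ centralizer (A : Set P) := by rw [hAC]; exact ha
    exact congrArg Subtype.val (Subgroup.mem_centralizer_iff.1 h1 b hb)
  have hscn : IsSCN P A₀ := by
    refine ⟨hA₀P, hPA₀, le_antisymm ?_ (le_inf hA₀P hA₀C)⟩
    rintro x ⟨hxP, hxC⟩
    have h1 : (⟨x, hxP⟩ : P) ∈ centralizer (A : Set P) := by
      rw [Subgroup.mem_centralizer_iff]
      intro b hb
      exact Subtype.ext (Subgroup.mem_centralizer_iff.1 hxC _ ⟨b, hb, rfl⟩)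
    rw [hAC] at h1
    exact ⟨_, h1, rfl⟩
  refine ⟨A₀, ?_, hscn, not_prank_map_subtype A hAr⟩
  intro e he
  exact ⟨⟨e, hEP he⟩, hEA (Subgroup.mem_subgroupOf.2 he), rfl⟩

/-- An SCN-subgroup of rank at least three. -/
theorem exists_scn3 {p : ℕ} [hp : Fact p.Prime] (hp2 : p ≠ 2) {P : Subgroup G} (hPp : IsPGroup p P)
    (hrank : ¬ PRankLE p 2 P) : ∃ A₀ : Subgroup G, IsSCN P A₀ ∧ ¬ PRankLE p 2 A₀ := by
  have hnc : ¬ IsCyclic P := fun hc => hrank (prank_of_cyclic hc)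
  obtain ⟨E, hEn, hEe, hEc⟩ := Cfsg.Agent.Lib.Transfer.exists_normal_elementary_sq hp2 hPp hnc
  have hPE : P ≤ normalizer ((E.map P.subtype : Subgroup G) : Set G) := by
    intro s hs
    apply mem_normalizer_of_conj_le
    rintro _ ⟨a, ha, rfl⟩
    exact ⟨⟨s, hs⟩ * a * ⟨s, hs⟩⁻¹, hEn.conj_mem a ha _, by simp⟩
  obtain ⟨A₀, -, h1, h2⟩ := exists_scn3_ge hp2 hPp hrank (Subgroup.map_subtype_le E) hPE
    (ea_map_subtype hEe.1 hEe.2) (by rw [OddLocal.card_map_subtype]; exact hEc)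
  exact ⟨A₀, h1, h2⟩

/-- **S1397(b)**. -/
theorem s1397b (hG : IsMinSimpleOddOrder G) {M : Subgroup G} (hM : IsCoatom M) {p : ℕ} [hp : Fact p.Prime]
    (hF1 : fittingOf M ≠ ⊥) (hFp : IsPGroup p (fittingOf M)) (P : Sylow p M) :
    ¬ p ∣ ((P : Subgroup M).map M.subtype).index ∧
      ∀ A : Subgroup G, IsSCN ((P : Subgroup M).map M.subtype) A → ¬ PRankLE p 2 ↥A →
        A ≤ fittingOf M ∧ InUniqueMaximal A := by
  set F := fittingOf M with hF
  set X := (P : Subgroup M).map M.subtype with hXdef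
  have hX : IsMaxP p X M := isMaxP_of_sylow P
  have hMs := IsMinSimpleOddOrder.isSolvable hG hM.1
  have hModd := odd_card_subgroup hG M
  have hFM : F ≤ M := fittingOf_le M
  have hMF : M ≤ normalizer (F : Set G) := fittingOf_normalized M
  have hpG : p ∣ Nat.card G := (dvd_card_of_ne_bot hFp le_rfl hF1).trans (Subgroup.card_subgroup_dvd_card F)
  -- `O_{p'}(M) = 1`
  have hV : Oq' p M = ⊥ := by
    have hd : Disjoint (Oq' p M) F := by
      apply Subgroup.disjoint_of_coprime_natCard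
      obtain ⟨k, hk⟩ := IsPGroup.iff_card.1 hFp
      rw [hk]
      exact Nat.Coprime.pow_right _ (Oq'_card_coprime p M)
    have hVC : Oq' p M ≤ centralizer (F : Set G) := by
      intro v hv
      rw [Subgroup.mem_centralizer_iff]
      intro f hf
      have h1 : ⁅v, f⁆ = 1 := by
        apply Subgroup.disjoint_def.1 hd
        · rw [commutatorElement_def, mul_assoc, mul_assoc, ← mul_assoc f]
          exact mul_mem hv ((Subgroup.mem_normalizer_iff.1 (le_normalizer_Oq' p M (hFM hf)) _).1 (inv_mem hv))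
        · rw [commutatorElement_def]
          exact mul_mem ((Subgroup.mem_normalizer_iff.1 (hMF (Oq'_le p M hv)) _).1 hf) (inv_mem hf)
      exact (commutatorElement_eq_one_iff_mul_comm.1 h1).symm
    have hVF : Oq' p M ≤ F := (le_inf (Oq'_le p M) hVC).trans (inf_centralizer_fittingOf_le hMs)
    rw [eq_bot_iff]
    intro v hv
    exact Subgroup.disjoint_def.1 hd hv (hVF hv)
  set C := centerThompsonOf p X with hC
  have hX1 : X ≠ ⊥ := by
    intro h
    have h1 : F ≤ X := by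
      obtain ⟨n, hn, hFn⟩ := hX.exists_conj_le hFM hFp
      rwa [(conj_map_eq_iff_mem_normalizer F n).2 (hMF hn)] at hFn
    exact hF1 (le_bot_iff.1 (h ▸ h1))
  have hC1 : C ≠ ⊥ := Cfsg.Agent.Lib.PLocal.centerThompsonOf_ne_bot hX.isP hX1
  have hCne : C ≠ ⊤ := IsMinSimpleOddOrder.ne_top_of_isPGroup hG hp.out (hX.isP.to_le (centerThompsonOf_le X))
  have hMC : M ≤ normalizer (C : Set G) := by
    intro h hh
    obtain ⟨o, ho, hoh⟩ := zj_factor hX hMs hModd h hh
    rw [hV, Subgroup.mem_bot] at ho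
    rw [ho] at hoh
    simpa using hoh
  have hNM : normalizer (X : Set G) ≤ M := by
    rw [← coatom_normalizer_eq hG hM hC1 hCne hMC]
    exact normalizer_le_normalizer_cJ X
  have hXmaxG : ∀ D' : Subgroup G, IsPGroup p D' → X ≤ D' → D' = X := by
    intro D' h2 h3
    by_contra hne
    have hlt' : X < D' := lt_of_le_of_ne h3 (Ne.symm hne)
    have h4 := lt_inf_normalizer h2 hlt'
    have h5 := hX.max (D' ⊓ normalizer (X : Set G)) (inf_le_right.trans hNM) (h2.to_le inf_le_left) h4.le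
    exact h4.ne h5.symm
  let S : Sylow p G :=
    { toSubgroup := X
      isPGroup' := hX.isP
      is_maximal' := fun {Q} hQ hle => hXmaxG Q hQ hle }
  refine ⟨S.not_dvd_index, ?_⟩
  intro A hscn hA3
  obtain ⟨T, hTX, hXT, hfac, hAT, -⟩ := exists_T_factor hX hMs hModd
  have hMT : M ≤ normalizer (T : Set G) := by
    intro h hh
    obtain ⟨o, ho, hoh⟩ := hfac h hh
    rw [hV, Subgroup.mem_bot] at ho
    rw [ho] at hoh
    simpa using hoh
  have hTF : T ≤ F := le_fittingOf (hTX.trans hX.le) hMT ((hX.isP.to_le hTX).isNilpotent)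
  have hAc := scn_comm hscn
  have hAF : A ≤ F := (hAT A hscn.1 hAc hscn.2.1).trans hTF
  have hAp : IsPGroup p A := hFp.to_le hAF
  refine ⟨hAF, ?_⟩
  have hTHA := th2_of_dvd hG hpG S A hscn (fun h => hA3 (prank_mono hp.out.pos (by norm_num) h))
  have hA1 : A ≠ ⊥ := hTHA.1
  have hpA : p ∣ Nat.card A := dvd_card_of_ne_bot hAp le_rfl hA1
  have hZ : ¬ RankLE 2 ↥(A ⊓ centralizer (A : Set G)) := by
    rw [inf_eq_left.2 (le_centralizer_of_comm hAc)]
    exact fun h => hA3 (h p hp.out)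
  have hFA : ∀ r : ℕ, r.Prime → r ∣ Nat.card F → r ∣ Nat.card A := by
    intro r hr hd
    obtain ⟨k, hk⟩ := IsPGroup.iff_card.1 hFp
    rw [hk] at hd
    rw [(Nat.prime_dvd_prime_iff_eq hr hp.out).1 (hr.dvd_of_dvd_pow hd)]
    exact hpA
  have hAM : A ≤ M := hAF.trans hFM
  refine uniq_of_inv hG hM hAM hA1 hAp fun Y hYc hAY => ?_
  have hY1 : Y = ⊥ := by
    have hcop : (Nat.card A).Coprime (Nat.card Y) := by
      obtain ⟨k, hk⟩ := IsPGroup.iff_card.1 hAp
      rw [hk]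
      exact (Nat.Coprime.pow_right _ hYc).symm
    have hs : Group.IsSolvable A := by
      haveI := hAp.isNilpotent
      infer_instance
    refine bot_of_inv hAY hcop hs fun q hq hd => ?_
    refine no_inv_of_TH hG hM hTHA hZ hAF hFA hq fun hqA => ?_
    obtain ⟨k, hk⟩ := IsPGroup.iff_card.1 hAp
    rw [hk] at hqA
    have := (Nat.prime_dvd_prime_iff_eq hq hp.out).1 (hq.dvd_of_dvd_pow hqA)
    subst this
    exact hq.one_lt.ne' (Nat.eq_one_of_dvd_coprimes hYc hd (dvd_refl q))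
  rw [hY1]
  exact bot_le

/-- From uniqueness of one abelian subgroup of rank at least three, to all such subgroups. -/
theorem uniq_of_abelian_rank3 (hG : IsMinSimpleOddOrder G) {p : ℕ} [hp : Fact p.Prime] {A B : Subgroup G}
    (hAc : IsMulCommutative A) (hA3 : ¬ PRankLE p 2 ↥A) (hAU : InUniqueMaximal A)
    (hBp : IsPGroup p B) (hBc : IsMulCommutative B) (hB3 : ¬ PRankLE p 2 ↥B) : InUniqueMaximal B := by
  refine s1400_core hG hAc hA3 hAU hBp (fun hc => hB3 (prank_of_cyclic hc)) ?_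
  obtain ⟨E, hEB, hEe, hEc⟩ := exists_E3 hB3
  refine not_prank_of_ea (hEB.trans (le_centralizer_of_comm hBc)) hEe ?_
  rw [hEc]
  exact Nat.pow_lt_pow_right hp.out.one_lt (by norm_num)

/-- **S1401**. -/
theorem s1401_core (hG : IsMinSimpleOddOrder G) {M : Subgroup G} (hM : IsCoatom M) {p : ℕ} [hp : Fact p.Prime]
    (hF : ¬ PRankLE p 2 ↥(fittingOf M)) {A : Subgroup G} (hAp : IsPGroup p A) (hAc : IsMulCommutative A)
    (hA3 : ¬ PRankLE p 2 ↥A) : InUniqueMaximal A := by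
  obtain ⟨E, hEF, hEe, hEc⟩ := exists_E3 hF
  have h23 : p ^ 2 < p ^ 3 := Nat.pow_lt_pow_right hp.out.one_lt (by norm_num)
  have h13 : p < p ^ 3 := by
    calc p = p ^ 1 := (pow_one p).symm
      _ < p ^ 3 := Nat.pow_lt_pow_right hp.out.one_lt (by norm_num)
  have hEp := isPGroup_of_ea hEe
  have hE1 : E ≠ ⊥ := by
    rintro rfl
    rw [Subgroup.card_bot] at hEc
    have : 1 < p ^ 3 := Nat.one_lt_pow (by norm_num) hp.out.one_lt
    omega
  have hF1 : fittingOf M ≠ ⊥ := fun h => hE1 (le_bot_iff.1 (h ▸ hEF))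
  by_cases hFp : IsPGroup p (fittingOf M)
  · -- the Fitting subgroup is a `p`-group
    obtain ⟨P⟩ : Nonempty (Sylow p M) := inferInstance
    have hX : IsMaxP p ((P : Subgroup M).map M.subtype) M := isMaxP_of_sylow P
    have hpG : p ∣ Nat.card G := (dvd_card_of_ne_bot hEp hEF hE1).trans (Subgroup.card_subgroup_dvd_card _)
    have hp2 : p ≠ 2 := by
      rintro rfl
      exact (Nat.not_even_iff_odd.2 hG.1) (even_iff_two_dvd.2 hpG)
    have hrank : ¬ PRankLE p 2 ↥((P : Subgroup M).map M.subtype) := by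
      intro h
      have h1 := hX.prank_of h
      refine not_prank_of_ea (hEF.trans (fittingOf_le M)) hEe ?_ h1
      rw [hEc]
      exact h23
    obtain ⟨A', hscn, hA'3⟩ := exists_scn3 hp2 hX.isP hrank
    obtain ⟨-, h2⟩ := s1397b hG hM hF1 hFp P
    exact uniq_of_abelian_rank3 hG (scn_comm hscn) hA'3 (h2 A' hscn hA'3).2 hAp hAc hA3
  · -- the Fitting subgroup is not a `p`-group
    have hU := s1397a hG hM hEF hEe (by rw [hEc]) hFp
    have hE' : E ≤ centralizer (((fittingOf M ⊓ centralizer (E : Set G) : Subgroup G)) : Set G) :=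
      le_centralizer_symm inf_le_right
    have hEU := uniq_of_centralizer hG hU hE' (not_rankLE_one_of_ea hEe (by rw [hEc]; exact h13))
    refine uniq_of_abelian_rank3 hG hEe.1 ?_ hEU hAp hAc hA3
    refine not_prank_of_ea le_rfl hEe ?_
    rw [hEc]
    exact h23

/-- S1403, assuming S1402. -/
theorem s1403_of_s1402 (hG : IsMinSimpleOddOrder G)
    (h : ∀ (p : ℕ) [Fact p.Prime] (P : Sylow p G) (A : Subgroup G), IsSCN (P : Subgroup G) A →
      ¬ PRankLE p 2 ↥A → InUniqueMaximal A)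
    {K : Subgroup G} (hK : K ≠ ⊤) (hK2 : ¬ RankLE 1 K)
    (hK3 : ¬ RankLE 2 K ∨ ¬ RankLE 2 (centralizer (K : Set G))) : InUniqueMaximal K := by
  -- a subgroup `E(q³)` lies in a unique maximal subgroup
  have key : ∀ (q : ℕ) [hq : Fact q.Prime] (X : Subgroup G), IsElementaryAbelian q X → Nat.card X = q ^ 3 →
      InUniqueMaximal X := by
    intro q hq X hXe hXc
    have hX1 : X ≠ ⊥ := by
      rintro rfl
      rw [Subgroup.card_bot] at hXc
      have : 1 < q ^ 3 := Nat.one_lt_pow (by norm_num) hq.out.one_lt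
      omega
    have hq2 : q ≠ 2 := by
      rintro rfl
      have hd := dvd_card_of_ne_bot (isPGroup_of_ea hXe) le_rfl hX1
      exact (Nat.not_even_iff_odd.2 (odd_card_subgroup hG X)) (even_iff_two_dvd.2 hd)
    have h23 : q ^ 2 < q ^ 3 := Nat.pow_lt_pow_right hq.out.one_lt (by norm_num)
    obtain ⟨S, hS⟩ := (isPGroup_of_ea hXe).exists_le_sylow
    have hrank : ¬ PRankLE q 2 ↥(S : Subgroup G) := not_prank_of_ea hS hXe (by rw [hXc]; exact h23)
    obtain ⟨A, hscn, hA3⟩ := exists_scn3 hq2 S.isPGroup' hrank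
    have hAU := h q S A hscn hA3
    refine uniq_of_abelian_rank3 hG (scn_comm hscn) hA3 hAU (isPGroup_of_ea hXe) hXe.1 ?_
    exact not_prank_of_ea le_rfl hXe (by rw [hXc]; exact h23)
  rcases hK3 with hK3 | hK3
  · simp only [RankLE] at hK3
    push Not at hK3
    obtain ⟨q, hq, hr⟩ := hK3
    haveI : Fact q.Prime := ⟨hq⟩
    obtain ⟨X, hXK, hXe, hXc⟩ := exists_E3 hr
    exact uniq_of_le (key q X hXe hXc) hXK hK
  · simp only [RankLE] at hK3
    push Not at hK3
    obtain ⟨q, hq, hr⟩ := hK3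
    haveI : Fact q.Prime := ⟨hq⟩
    obtain ⟨X, hXK, hXe, hXc⟩ := exists_E3 hr
    exact uniq_of_centralizer hG (key q X hXe hXc) (le_centralizer_symm hXK) hK2

end Cfsg.Agent.Lib.FT
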