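import Cfsg.Agent.Lib.FT.BG10e
import Cfsg.Agent.S1405

/-!
BG section 11: complements of `M_σ`: cyclic Sylow subgroups and the derived group (`S1415`).
-/

set_option autoImplicit false
set_option linter.unusedSectionVars false
set_option linter.style.haveILetI false

namespace Cfsg.Agent.Lib.FT

open Subgroup Cfsg Cfsg.Agent.Lib.OddLocal

open scoped commutatorElement

/-- A cyclic Sylow `p`-subgroup lies in `X'` as soon as `p` divides `|X'|`. -/
theorem cyc_sylow_le_commutator {X : Type*} [Group X] [Finite X] {p : ℕ} [Fact p.Prime] (P : Sylow p X)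
    (hc : IsCyclic (P : Subgroup X)) (hd : p ∣ Nat.card (commutator X)) :
    (P : Subgroup X) ≤ commutator X := by
  haveI : IsCyclic P := hc
  rcases Sylow.not_dvd_card_commutator_or_not_dvd_index_commutator P with h | h
  · exact absurd hd h
  · haveI : (commutator X).Normal := inferInstance
    refine isPGroup_le_of_index_coprime ?_ P.isPGroup'
    rw [Nat.coprime_comm, Nat.Prime.coprime_iff_not_dvd Fact.out]
    exact h

variable {G : Type*} [Group G] [Finite G]

/-- Subgroups all of whose primes have rank one, in an odd order group, are Z-groups. -/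
theorem isZGroup_of_prank_one {H K : Subgroup G} (hodd : Odd (Nat.card H)) (hHK : H ≤ K)
    (h : ∀ q : ℕ, q.Prime → q ∣ Nat.card H → PRankLE q 1 ↥K) : IsZGroup ↥H := by
  rw [isZGroup_iff]
  intro q hq S
  haveI : Fact q.Prime := ⟨hq⟩
  by_cases hd : q ∣ Nat.card H
  · have hq2 : q ≠ 2 := by
      rintro rfl
      exact absurd (Odd.of_dvd_nat hodd hd) (by decide)
    by_contra hnc
    apply not_prank_one_of_not_cyclic hq2 S.isPGroup' hnc
    have h1 := prank_of_subgroup (h q hq hd) (H.subgroupOf K)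
    have h2 := prank_of_subgroup (prank_of_injective (subgroupOfEquivOfLe hHK).symm.toMonoidHom
      (subgroupOfEquivOfLe hHK).symm.injective h1) (S : Subgroup ↥H)
    exact h2
  · have h0 : Nat.card S = 1 := by
      obtain ⟨k, hk⟩ := S.isPGroup'.exists_card_eq
      rcases k with _ | k
      · simpa using hk
      · exfalso
        apply hd
        have h1 : q ∣ Nat.card S := by
          rw [hk, pow_succ]
          exact dvd_mul_left _ _
        exact h1.trans (Subgroup.card_subgroup_dvd_card _)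
    haveI : Subsingleton S := (Nat.card_eq_one_iff_unique.mp h0).1
    infer_instance

/-- A subgroup containing all `q`-subgroups of `H` for all primes `q` contains `H`. -/
theorem le_of_isPGroup_le {H K : Subgroup G}
    (h : ∀ (q : ℕ) [Fact q.Prime], q ∣ Nat.card H → ∀ Q : Subgroup G, IsPGroup q Q → Q ≤ H → Q ≤ K) : H ≤ K := by
  have hi : (K.subgroupOf H).index = 1 := by
    by_contra hne
    obtain ⟨r, hr, hrd⟩ := Nat.exists_prime_and_dvd hne
    haveI : Fact r.Prime := ⟨hr⟩
    have hrH : r ∣ Nat.card H := hrd.trans (Subgroup.index_dvd_card _)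
    obtain ⟨S⟩ : Nonempty (Sylow r ↥H) := inferInstance
    have h1 := h r hrH ((S : Subgroup ↥H).map H.subtype) (S.isPGroup'.map _) (Subgroup.map_subtype_le _)
    have h2 : (S : Subgroup ↥H) ≤ K.subgroupOf H := by
      intro x hx
      exact Subgroup.mem_subgroupOf.mpr (h1 ⟨x, hx, rfl⟩)
    exact S.not_dvd_index (hrd.trans (Subgroup.index_dvd_of_le h2))
  rw [Subgroup.index_eq_one, Subgroup.subgroupOf_eq_top] at hi
  exact hi

section Compl

variable {A S M : Subgroup G}

/-- For a complement `E` to the normal subgroup `S` in `M`: `M' ≤ E'S`. -/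
theorem commutator_le_sup_of_compl {E : Subgroup G} (hE : IsComplIn E S M) (hn : M ≤ normalizer (S : Set G)) :
    ⁅M, M⁆ ≤ ⁅E, E⁆ ⊔ S := by
  obtain ⟨hEM, hSM, -, hf⟩ := hE
  rw [Subgroup.commutator_le]
  intro a ha b hb
  obtain ⟨a₁, ha₁, s, hs, rfl⟩ := hf a ha
  obtain ⟨b₁, hb₁, t, ht, rfl⟩ := hf b hb
  -- work in the quotient by `S`
  have hSnorm : (S.subgroupOf M).Normal := by
    constructor
    intro n hn' g
    rw [Subgroup.mem_subgroupOf] at hn' ⊢
    exact (Subgroup.mem_normalizer_iff.1 (hn g.2) _).1 hn'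
  set f := QuotientGroup.mk' (S.subgroupOf M) with hf'
  have hker : ∀ x : ↥M, f x = 1 ↔ (x : G) ∈ S := by
    intro x
    rw [hf', QuotientGroup.mk'_apply, QuotientGroup.eq_one_iff, Subgroup.mem_subgroupOf]
  have ea : f ⟨a₁ * s, M.mul_mem (hEM ha₁) (hSM hs)⟩ = f ⟨a₁, hEM ha₁⟩ := by
    have : (⟨a₁ * s, M.mul_mem (hEM ha₁) (hSM hs)⟩ : ↥M) = ⟨a₁, hEM ha₁⟩ * ⟨s, hSM hs⟩ := rfl
    rw [this, map_mul, (hker ⟨s, hSM hs⟩).2 hs, mul_one]
  have eb : f ⟨b₁ * t, M.mul_mem (hEM hb₁) (hSM ht)⟩ = f ⟨b₁, hEM hb₁⟩ := by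
    have : (⟨b₁ * t, M.mul_mem (hEM hb₁) (hSM ht)⟩ : ↥M) = ⟨b₁, hEM hb₁⟩ * ⟨t, hSM ht⟩ := rfl
    rw [this, map_mul, (hker ⟨t, hSM ht⟩).2 ht, mul_one]
  set a' : ↥M := ⟨a₁ * s, M.mul_mem (hEM ha₁) (hSM hs)⟩ with ha'
  set b' : ↥M := ⟨b₁ * t, M.mul_mem (hEM hb₁) (hSM ht)⟩ with hb'
  set c' : ↥M := ⟨a₁, hEM ha₁⟩ with hc'
  set d' : ↥M := ⟨b₁, hEM hb₁⟩ with hd'
  have h1 : f (⁅c', d'⁆⁻¹ * ⁅a', b'⁆) = 1 := by
    rw [map_mul, map_inv, commutatorElement_def, commutatorElement_def]
    simp only [map_mul, map_inv, ea, eb]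
    group
  have h2 := (hker _).1 h1
  have h3 : (⁅a₁ * s, b₁ * t⁆ : G) = ⁅a₁, b₁⁆ * (((⁅c', d'⁆⁻¹ * ⁅a', b'⁆ : ↥M) : G)) := by
    have e1 : ((⁅c', d'⁆⁻¹ * ⁅a', b'⁆ : ↥M) : G) = (⁅a₁, b₁⁆ : G)⁻¹ * ⁅a₁ * s, b₁ * t⁆ := rfl
    rw [e1]
    group
  rw [h3]
  exact Subgroup.mul_mem_sup (Subgroup.commutator_mem_commutator ha₁ hb₁) h2

end Compl

section Main

variable {M : Subgroup G}

/-- The derived group of a complement of `M_σ` embeds in the nilpotent `M'M_α/M_α`. -/
theorem complement_commutator_nilpotent (hG : IsMinSimpleOddOrder G) (huniq : UniquenessThm G)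
    (hM : IsCoatom M) {E : Subgroup G} (hE : IsComplIn E (sigmaCore M) M) : Group.IsNilpotent ↥⁅E, E⁆ := by
  obtain ⟨-, -, h3, -, hnil⟩ := s1405_core hG huniq hM
  have hEM := hE.1
  have hinf : E ⊓ sigmaCore M = ⊥ := hE.2.2.1
  have hle : ⁅E, E⁆ ≤ ⁅M, M⁆ := Subgroup.commutator_mono hEM hEM
  have hleM : ⁅E, E⁆ ≤ M := hle.trans (Subgroup.commutator_le_self M)
  set f := QuotientGroup.mk' (piCore (alpha M) ↥M) with hf
  let φ : ↥⁅E, E⁆ →* ↥((commutator ↥M).map f) :=
    (f.comp (Subgroup.inclusion hleM)).codRestrict _ (by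
      intro x
      refine ⟨Subgroup.inclusion hleM x, ?_, rfl⟩
      have h1 : (x : G) ∈ ⁅M, M⁆ := hle x.2
      rw [← Subgroup.map_subtype_commutator] at h1
      obtain ⟨y, hy, hyx⟩ := h1
      have : y = Subgroup.inclusion hleM x := Subtype.ext hyx
      rwa [← this])
  have hφ : Function.Injective φ := by
    rw [injective_iff_map_eq_one]
    intro x hx
    have h1 : f (Subgroup.inclusion hleM x) = 1 := congrArg Subtype.val hx
    rw [hf, QuotientGroup.mk'_apply, QuotientGroup.eq_one_iff] at h1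
    have h2 : (x : G) ∈ alphaCore M := ⟨_, h1, rfl⟩
    have h3' : (x : G) ∈ E ⊓ sigmaCore M :=
      Subgroup.mem_inf.2 ⟨Subgroup.commutator_le_self E x.2, h3 h2⟩
    rw [hinf, Subgroup.mem_bot] at h3'
    exact Subtype.ext h3'
  haveI := hnil
  refine _root_.isNilpotent_of_ker_le_center φ ?_
  rw [(MonoidHom.ker_eq_bot_iff φ).2 hφ]
  exact bot_le

/-- **S1415**. -/
theorem s1415_core (hG : IsMinSimpleOddOrder G) (huniq : UniquenessThm G)
    (hM : IsCoatom M) (E : Subgroup G) (hE : IsComplIn E (sigmaCore M) M) :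
    Group.IsNilpotent ↥⁅E, E⁆ ∧
      (∀ E₁ : Subgroup G, IsPiHallOf (tau1 M) E₁ E → IsCyclic E₁) ∧
      ∀ E₃ : Subgroup G, IsPiHallOf (tau3 M) E₃ E → IsCyclic E₃ ∧ E₃ ≤ ⁅E, E⁆ ∧ E ≤ normalizer (E₃ : Set G) := by
  have hnil := complement_commutator_nilpotent hG huniq hM hE
  have hEM := hE.1
  refine ⟨hnil, ?_, ?_⟩
  · -- `τ₁`
    rintro E₁ ⟨h1, h2, -⟩
    have hodd : Odd (Nat.card E₁) := subgroup_odd hG E₁
    have hZ : IsZGroup ↥E₁ := isZGroup_of_prank_one hodd (h1.trans hEM) (fun q hq hd => (h2 q hq hd).2.2.2.2)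
    have hinf : E₁ ⊓ ⁅M, M⁆ = ⊥ := by
      rw [eq_bot_iff]
      intro x hx
      by_contra hx1
      have hx1' : orderOf x ≠ 1 := fun h => hx1 (by simpa using orderOf_eq_one_iff.1 h)
      obtain ⟨q, hq, hqd⟩ := Nat.exists_prime_and_dvd hx1'
      have hq1 : q ∣ Nat.card E₁ := hqd.trans (Subgroup.orderOf_dvd_natCard _ (Subgroup.mem_inf.1 hx).1)
      have hq2 : q ∣ Nat.card ↥⁅M, M⁆ := hqd.trans (Subgroup.orderOf_dvd_natCard _ (Subgroup.mem_inf.1 hx).2)
      exact (h2 q hq hq1).2.2.2.1 hq2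
    have hcomm : ⁅E₁, E₁⁆ = ⊥ := by
      rw [eq_bot_iff, ← hinf]
      exact le_inf (Subgroup.commutator_le_self E₁)
        (Subgroup.commutator_mono (h1.trans hEM) (h1.trans hEM))
    have hcomm' : IsMulCommutative ↥E₁ := by
      constructor
      constructor
      rintro ⟨a, ha⟩ ⟨b, hb⟩
      apply Subtype.ext
      have h3 : ⁅a, b⁆ = 1 := by
        have := Subgroup.commutator_mem_commutator ha hb
        rwa [hcomm, Subgroup.mem_bot] at this
      exact commutatorElement_eq_one_iff_mul_comm.1 h3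
    haveI : Group.IsNilpotent ↥E₁ := by
      letI : CommGroup ↥E₁ := { (inferInstance : Group ↥E₁) with mul_comm := hcomm'.is_comm.comm }
      infer_instance
    infer_instance
  · rintro E₃ ⟨h1, h2, h3⟩
    have hodd : Odd (Nat.card E₃) := subgroup_odd hG E₃
    have hZ : IsZGroup ↥E₃ := isZGroup_of_prank_one hodd (h1.trans hEM) (fun q hq hd => (h2 q hq hd).2.2.2)
    -- every `τ₃`-Sylow subgroup of `E` lies in `E'`
    have hkey : ∀ (q : ℕ) [Fact q.Prime], q ∈ tau3 M → ∀ Q : Subgroup G, IsPGroup q Q → Q ≤ E → Q ≤ ⁅E, E⁆ := by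
      intro q _ hq Q hQ hQE
      have hqp : q.Prime := Fact.out
      have hq2 : q ≠ 2 := by
        rintro rfl
        have : 2 ∣ Nat.card ↥⁅M, M⁆ := hq.2.2.1
        exact absurd (Odd.of_dvd_nat (subgroup_odd hG _) this) (by decide)
      -- `q` divides `|E'|`
      have hd : q ∣ Nat.card ↥⁅E, E⁆ := by
        by_contra hnd
        have hn : M ≤ normalizer (sigmaCore M : Set G) := le_normalizer_piCoreOf (sigma M) M
        have hle := commutator_le_sup_of_compl hE hn
        have hnE : ⁅E, E⁆ ≤ normalizer (sigmaCore M : Set G) :=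
          (Subgroup.commutator_le_self E).trans (hEM.trans hn)
        have hcard := card_sup_mul_card_inf (A := sigmaCore M) (B := ⁅E, E⁆) hnE
        have hq3 : q ∣ Nat.card ↥(⁅E, E⁆ ⊔ sigmaCore M) :=
          hq.2.2.1.trans (Subgroup.card_dvd_of_le hle)
        have hsig : ¬ q ∣ Nat.card (sigmaCore M) := fun h => hq.2.1 (piCoreOf_isPi (sigma M) M q hqp h)
        have hcomm' : ⁅E, E⁆ ⊔ sigmaCore M = sigmaCore M ⊔ ⁅E, E⁆ := sup_comm _ _
        rw [hcomm'] at hq3
        have h5 : q ∣ Nat.card (sigmaCore M) * Nat.card ↥⁅E, E⁆ := by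
          rw [← hcard]
          exact hq3.trans (dvd_mul_right _ _)
        rcases (Nat.Prime.dvd_mul hqp).1 h5 with h6 | h6
        · exact hsig h6
        · exact hnd h6
      -- transport to the group `E`
      have hQ' : IsPGroup q (Q.subgroupOf E) := by
        intro x
        obtain ⟨k, hk⟩ := hQ ⟨((x : ↥E) : G), x.2⟩
        exact ⟨k, by
          apply Subtype.ext
          apply Subtype.ext
          simpa using congrArg Subtype.val hk⟩
      obtain ⟨P, hP⟩ := hQ'.exists_le_sylow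
      have hPc : IsCyclic (P : Subgroup ↥E) := by
        by_contra hnc
        apply not_prank_one_of_not_cyclic hq2 P.isPGroup' hnc
        have h6 := prank_of_subgroup hq.2.2.2 (E.subgroupOf M)
        have h7 := prank_of_injective (subgroupOfEquivOfLe hEM).symm.toMonoidHom
          (subgroupOfEquivOfLe hEM).symm.injective h6
        exact prank_of_subgroup h7 (P : Subgroup ↥E)
      have hd' : q ∣ Nat.card (commutator ↥E) := by
        have e : Nat.card (commutator ↥E) = Nat.card ↥⁅E, E⁆ := by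
          rw [← Subgroup.map_subtype_commutator]
          exact (Subgroup.card_map_of_injective E.subtype_injective).symm
        rw [e]
        exact hd
      have hle := cyc_sylow_le_commutator P hPc hd'
      intro x hx
      have hxE := hQE hx
      have h8 := hle (hP (Subgroup.mem_subgroupOf.mpr hx) : (⟨x, hxE⟩ : ↥E) ∈ (P : Subgroup ↥E))
      rw [← Subgroup.map_subtype_commutator]
      exact ⟨_, h8, rfl⟩
    -- so `E₃ ≤ E'`
    haveI : Group.IsNilpotent ↥⁅E, E⁆ := hnil
    have hE₃le : E₃ ≤ ⁅E, E⁆ := by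
      apply le_of_isPGroup_le
      intro q _ hq Q hQ hQE
      exact hkey q (h2 q Fact.out hq) Q hQ (hQE.trans h1)
    -- cyclic
    have hnilE₃ : Group.IsNilpotent ↥E₃ := by
      refine _root_.isNilpotent_of_ker_le_center (Subgroup.inclusion hE₃le) ?_
      rw [(MonoidHom.ker_eq_bot_iff _).2 (Subgroup.inclusion_injective hE₃le)]
      exact bot_le
    -- normality
    set π := tau3 M with hπ
    have hEn : E ≤ normalizer ((⁅E, E⁆ : Subgroup G) : Set G) := Subgroup.normalizer_commutator_ge_left E E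
    have hnE : E ≤ normalizer (piCoreOf π ⁅E, E⁆ : Set G) := fun e he =>
      le_normalizer_piCoreOf_of_normalizer π (hEn he)
    have hle : E₃ ≤ piCoreOf π ⁅E, E⁆ := by
      apply le_of_isPGroup_le
      intro q _ hq Q hQ hQE
      have hqτ := h2 q Fact.out hq
      have hQE' := hQE.trans hE₃le
      -- inside the nilpotent group `E'`
      have hQ' : IsPGroup q (Q.subgroupOf ⁅E, E⁆) := by
        intro x
        obtain ⟨k, hk⟩ := hQ ⟨((x : ↥⁅E, E⁆) : G), x.2⟩
        exact ⟨k, by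
          apply Subtype.ext
          apply Subtype.ext
          simpa using congrArg Subtype.val hk⟩
      have h4 := le_pCore_of_nilpotent_normal (X := ↥⁅E, E⁆) (N := ⊤) (E := Q.subgroupOf ⁅E, E⁆) inferInstance
        (Group.isNilpotent_top.2 inferInstance) le_top hQ'
      have h5 := h4.trans (pCore_le_piCore (X := ↥⁅E, E⁆) hqτ)
      intro x hx
      exact ⟨⟨x, hQE' hx⟩, h5 (Subgroup.mem_subgroupOf.mpr hx), rfl⟩
    have hNE : piCoreOf π ⁅E, E⁆ ≤ E := (piCoreOf_le π _).trans (Subgroup.commutator_le_self E)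
    have heq : E₃ = piCoreOf π ⁅E, E⁆ := by
      apply le_antisymm hle
      have h5 := Subgroup.relIndex_mul_relIndex E₃ (piCoreOf π ⁅E, E⁆) E hle hNE
      have h6 : E₃.relIndex (piCoreOf π ⁅E, E⁆) = 1 := by
        by_contra hne
        obtain ⟨r, hr, hrd⟩ := Nat.exists_prime_and_dvd hne
        have h7 : r ∣ Nat.card (piCoreOf π ⁅E, E⁆) := by
          refine hrd.trans ?_
          rw [Subgroup.relIndex]
          exact Subgroup.index_dvd_card _
        have hrσ := piCoreOf_isPi π _ r hr h7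
        apply h3 r hr hrσ
        rw [← h5]
        exact hrd.trans (dvd_mul_right _ _)
      exact Subgroup.relIndex_eq_one.mp h6
    refine ⟨inferInstance, hE₃le, ?_⟩
    rw [heq]
    exact hnE

end Main

end Cfsg.Agent.Lib.FT
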