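import Cfsg.Agent.Lib.FT.BG11a
import Cfsg.Agent.Lib.LocalEven2.GT1
import Cfsg.Agent.S1453
import Cfsg.Agent.S1455

/-!
BG section 11: narrow Sylow subgroups for non-ideal primes, normal `p`-complements and the Hall
subgroup `M_β` (`S1414`).
-/

set_option autoImplicit false
set_option linter.unusedSectionVars false
set_option linter.style.haveILetI false

namespace Cfsg.Agent.Lib.FT

open Subgroup Cfsg Cfsg.Agent.Lib.OddLocal

open scoped commutatorElement

/-- A `p`-group with an elementary abelian subgroup of order `p³` and a maximal elementary abelian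
subgroup of order `p²` is narrow. -/
theorem narrow_of_max_elem {R : Type*} [Group R] [Finite R] {p : ℕ} [Fact p.Prime] (hp : p ≠ 2)
    (hR : IsPGroup p R) (hr : ¬ PRankLE p 2 R) (E : Subgroup R) (hE : IsElementaryAbelian p E)
    (hE2 : Nat.card E = p ^ 2) (hEmax : ∀ B : Subgroup R, IsElementaryAbelian p B → E ≤ B → B = E) :
    IsNarrow p R := by
  have hpp : p.Prime := Fact.out
  obtain ⟨h1, h2, -, h4, h5⟩ := Cfsg.Agent.S1453.result p hp hR hr E hE hE2 hEmax
  set W := closure {x : R | x ∈ Subgroup.upperCentralSeries R 2 ∧ x ^ p = 1} with hW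
  set T := centralizer (W : Set R) with hT
  set Z₀ := closure {x : R | x ∈ center R ∧ x ^ p = 1} with hZ₀
  haveI hTn : T.Normal := by
    haveI := h4
    infer_instance
  obtain ⟨e, heE, heT⟩ := SetLike.not_le_iff_exists.mp h1
  have he1 : e ≠ 1 := by
    rintro rfl
    exact heT T.one_mem
  have hep : e ^ p = 1 := hE.2 e heE
  have heo : orderOf e = p := orderOf_eq_prime hep he1
  have hZc : Z₀ ≤ center R := by
    rw [hZ₀, closure_le]
    exact fun x hx => hx.1
  have hZT : Z₀ ≤ T := hZc.trans (Subgroup.center_le_centralizer _)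
  have hZp : ∀ z ∈ Z₀, z ^ p = 1 := by
    intro z hz
    have := Subgroup.orderOf_dvd_natCard Z₀ hz
    rw [h2] at this
    exact orderOf_dvd_iff_pow_eq_one.1 this
  have hZE : Z₀ ≤ E := by
    intro z hz
    have hc : ∀ a ∈ E, z * a = a * z := fun a _ => (Subgroup.mem_center_iff.1 (hZc hz) a).symm
    have h3 := isElementaryAbelian_sup_zpowers hE (hZp z hz) hc
    have h6 := hEmax _ h3 le_sup_left
    rw [← h6]
    exact (le_sup_right : zpowers z ≤ E ⊔ zpowers z) (mem_zpowers z)
  have hEc : ∀ a ∈ E, ∀ b ∈ E, a * b = b * a := fun a ha b hb =>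
    congrArg Subtype.val (hE.1.is_comm.comm ⟨a, ha⟩ ⟨b, hb⟩)
  have hET : E ⊓ T = Z₀ := by
    apply (Subgroup.eq_of_le_of_card_ge (le_inf hZE hZT) _).symm
    rw [h2]
    have hd : Nat.card ↥(E ⊓ T) ∣ p ^ 2 := by
      rw [← hE2]
      exact Subgroup.card_dvd_of_le inf_le_left
    obtain ⟨k, hk, hke⟩ := (Nat.dvd_prime_pow hpp).1 hd
    rw [hke]
    have hk2 : k ≠ 2 := by
      rintro rfl
      have heq : E ⊓ T = E := Subgroup.eq_of_le_of_card_ge inf_le_left (by rw [hE2, hke])
      exact heT ((inf_eq_left.1 heq) heE)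
    have : k ≤ 1 := by omega
    calc p ^ k ≤ p ^ 1 := Nat.pow_le_pow_right hpp.pos this
      _ = p := pow_one p
  have hzc : Nat.card (zpowers e) = p := by
    rw [Nat.card_zpowers, heo]
  have hEgen : E ≤ zpowers e ⊔ Z₀ := by
    have hle : zpowers e ⊔ Z₀ ≤ E := sup_le (zpowers_le.mpr heE) hZE
    have hlt : Z₀ < zpowers e ⊔ Z₀ := by
      refine lt_of_le_of_ne le_sup_right fun h => heT ?_
      have : e ∈ Z₀ := by
        rw [h]
        exact (le_sup_left : zpowers e ≤ zpowers e ⊔ Z₀) (mem_zpowers e)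
      exact hZT this
    have h6 : Nat.card E ≤ Nat.card ↥(zpowers e ⊔ Z₀) := by
      have hd : Nat.card ↥(zpowers e ⊔ Z₀) ∣ p ^ 2 := by
        rw [← hE2]
        exact Subgroup.card_dvd_of_le hle
      obtain ⟨k, hk, hke⟩ := (Nat.dvd_prime_pow hpp).1 hd
      have h7 := card_lt_of_lt hlt
      rw [h2, hke] at h7
      have hk2 : k = 2 := by
        have : 1 < k := (Nat.pow_lt_pow_iff_right hpp.one_lt).1 (by simpa using h7)
        omega
      rw [hE2, hke, hk2]
    exact (Subgroup.eq_of_le_of_card_ge hle h6).ge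
  have hsup : T ⊔ zpowers e = ⊤ := by
    have hc : IsCoatom T := by
      exact Cfsg.Agent.Lib.Basic.isCoatom_of_index_prime (by rw [h5]; exact hpp)
    apply hc.2
    refine lt_of_le_of_ne le_sup_left fun h => heT ?_
    rw [h]
    exact (le_sup_right : zpowers e ≤ T ⊔ zpowers e) (mem_zpowers e)
  refine Or.inr ⟨(zpowers e : Subgroup R), T ⊓ centralizer ((zpowers e : Subgroup R) : Set R), hzc, ?_, ?_, ?_, ?_⟩
  · -- cyclic
    set R₁ := T ⊓ centralizer ((zpowers e : Subgroup R) : Set R) with hR₁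
    apply isCyclic_of_uniqueP_odd hp _ ↥R₁ rfl (hR.to_subgroup R₁)
    have key : ∀ H : Subgroup ↥R₁, Nat.card H = p → H.map R₁.subtype = Z₀ := by
      intro H hH
      have hHp : ∀ y ∈ H, (y : R) ^ p = 1 := by
        intro y hy
        have := Subgroup.orderOf_dvd_natCard H hy
        rw [hH] at this
        have h7 := orderOf_dvd_iff_pow_eq_one.1 this
        exact congrArg Subtype.val h7
      apply Subgroup.eq_of_le_of_card_ge
      · rintro _ ⟨y, hy, rfl⟩
        rw [← hET]
        refine Subgroup.mem_inf.2 ⟨?_, (Subgroup.mem_inf.1 y.2).1⟩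
        have hc : ∀ a ∈ E, (y : R) * a = a * y := by
          intro a ha
          have h8 : E ≤ centralizer ({(y : R)} : Set R) := by
            refine hEgen.trans (sup_le ?_ ?_)
            · rintro _ ⟨k, rfl⟩
              rw [Subgroup.mem_centralizer_iff]
              intro b hb
              simp only [Set.mem_singleton_iff] at hb
              rw [hb]
              have h9 := Subgroup.mem_centralizer_iff.1 (Subgroup.mem_inf.1 y.2).2 e (mem_zpowers e)
              have h10 : Commute e (y : R) := h9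
              exact (h10.zpow_left k).symm.eq
            · intro z hz
              rw [Subgroup.mem_centralizer_iff]
              intro b hb
              simp only [Set.mem_singleton_iff] at hb
              rw [hb]
              exact (Subgroup.mem_center_iff.1 (hZc hz) _)
          exact (Subgroup.mem_centralizer_iff.1 (h8 ha) _ rfl)
        have h3 := isElementaryAbelian_sup_zpowers hE (hHp y hy) hc
        have h6 := hEmax _ h3 le_sup_left
        rw [← h6]
        exact (le_sup_right : zpowers (y : R) ≤ E ⊔ zpowers (y : R)) (mem_zpowers _)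
      · rw [h2, Subgroup.card_map_of_injective R₁.subtype_injective, hH]
    intro H K hH hK
    exact Subgroup.map_injective R₁.subtype_injective ((key H hH).trans (key K hK).symm)
  · -- trivial intersection
    rw [eq_bot_iff]
    intro x hx
    obtain ⟨hx1, hx2⟩ := Subgroup.mem_inf.1 hx
    by_contra hxne
    have hxne' : x ≠ 1 := by simpa using hxne
    have h6 : zpowers x = zpowers e := by
      apply Subgroup.eq_of_le_of_card_ge ((zpowers_le).mpr hx1)
      rw [hzc]
      have h7 : orderOf x ∣ p := by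
        have := Subgroup.orderOf_dvd_natCard (zpowers e) hx1
        rwa [hzc] at this
      rw [Nat.card_zpowers]
      rcases (Nat.dvd_prime hpp).1 h7 with h8 | h8
      · exact absurd (orderOf_eq_one_iff.1 h8) hxne'
      · rw [h8]
    have h7 : e ∈ zpowers x := by
      rw [h6]
      exact mem_zpowers e
    exact heT ((zpowers_le.mpr (Subgroup.mem_inf.1 hx2).1) h7)
  · -- commuting
    intro a ha b hb
    exact (Subgroup.mem_centralizer_iff.1 (Subgroup.mem_inf.1 hb).2 a ha).symm ▸ rfl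
  · -- generation
    apply le_antisymm
    · apply sup_le
      · intro a ha
        rw [Subgroup.mem_centralizer_iff]
        intro b hb
        obtain ⟨i, rfl⟩ := ha
        obtain ⟨j, rfl⟩ := hb
        exact ((Commute.refl e).zpow_zpow j i).eq
      · exact inf_le_right
    · intro y hy
      have hyt : y ∈ T ⊔ zpowers e := by
        rw [hsup]
        trivial
      rw [Subgroup.mem_sup_of_normal_left] at hyt
      obtain ⟨t, ht, z, hz, rfl⟩ := hyt
      have htc : t ∈ centralizer ((zpowers e : Subgroup R) : Set R) := by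
        have hzC : z ∈ centralizer ((zpowers e : Subgroup R) : Set R) := by
          rw [Subgroup.mem_centralizer_iff]
          intro b hb
          obtain ⟨i, rfl⟩ := hz
          obtain ⟨j, rfl⟩ := hb
          exact ((Commute.refl e).zpow_zpow j i).eq
        have := (centralizer ((zpowers e : Subgroup R) : Set R)).mul_mem hy
          ((centralizer ((zpowers e : Subgroup R) : Set R)).inv_mem hzC)
        simpa using this
      have hz' := (Subgroup.mem_centralizer_iff.1 htc z hz)
      rw [show t * z = z * t from hz'.symm]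
      exact Subgroup.mul_mem_sup hz (Subgroup.mem_inf.2 ⟨ht, htc⟩)

/-- A finite group with normal `q`-complements for all `q` (of prime-power index) is nilpotent. -/
theorem nilpotent_of_normal_complements {H : Type*} [Group H] [Finite H]
    (h : ∀ q : ℕ, q.Prime → ∃ K : Subgroup H, K.Normal ∧ (Nat.card K).Coprime q ∧ ∃ k : ℕ, K.index = q ^ k) :
    Group.IsNilpotent H := by
  refine ((Group.isNilpotent_of_finite_tfae (G := H)).out 0 3).mpr fun p hp P => ?_
  haveI := hp
  have hpp : p.Prime := hp.out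
  choose! f hfn hfc hfi using h
  -- all `q`-complements for `q ≠ p`
  set T : Subgroup H := ⨅ q : {q : ℕ // q.Prime ∧ q ≠ p}, f q with hT
  haveI hTn : T.Normal := normal_iInf_normal fun q => hfn q q.2.1
  have hTle : ∀ q : ℕ, q.Prime → q ≠ p → T ≤ f q := fun q h1 h2 =>
    iInf_le (fun q : {q : ℕ // q.Prime ∧ q ≠ p} => f q) ⟨q, h1, h2⟩
  have hTp : IsPGroup p T := by
    rw [IsPGroup.iff_orderOf]
    intro x
    refine ⟨_, Nat.eq_prime_pow_of_unique_prime_dvd (orderOf_pos x).ne' fun {d} hd hdx => ?_⟩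
    by_contra hne
    have h1 : d ∣ Nat.card (f d) := by
      refine hdx.trans ?_
      have h2 : orderOf (x : H) ∣ Nat.card (f d) := Subgroup.orderOf_dvd_natCard _ (hTle d hd hne x.2)
      rwa [Subgroup.orderOf_coe] at h2
    exact hd.one_lt.ne' (Nat.eq_one_of_dvd_coprimes (hfc d hd) h1 (dvd_refl d))
  have hPT : (P : Subgroup H) ≤ T := by
    refine le_iInf fun q => ?_
    haveI := hfn q q.2.1
    refine isPGroup_le_of_index_coprime ?_ P.isPGroup'
    obtain ⟨k, hk⟩ := hfi q q.2.1
    rw [hk]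
    exact Nat.Coprime.pow_left _ ((Nat.coprime_primes q.2.1 hpp).2 q.2.2)
  have heq : (P : Subgroup H) = T := P.is_maximal' hTp hPT |>.symm
  rw [heq]
  exact hTn

/-- A group with normal `q`-complements for all `q ∉ β`: its Hall `β`-structure. -/
theorem hall_of_npc {Y : Type*} [Group Y] [Finite Y] (β : Set ℕ)
    (hY : ∀ q : ℕ, q.Prime → q ∉ β → q ∣ Nat.card Y → HasNormalPComplement q Y) :
    (∀ (p : ℕ) [Fact p.Prime], p ∈ β → ∀ T : Subgroup Y, IsPGroup p T → T ≤ piCore β Y) ∧
    ∃ H : Subgroup Y, (∀ r : ℕ, r.Prime → r ∣ Nat.card H → r ∉ β) ∧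
      (∀ r : ℕ, r.Prime → r ∉ β → ¬ r ∣ H.index) ∧ Group.IsNilpotent H := by
  -- the normal complements, uniformly
  have hK : ∀ q : ℕ, q.Prime → q ∉ β → ∃ K : Subgroup Y, K.Normal ∧ (Nat.card K).Coprime q ∧
      ∃ k : ℕ, K.index = q ^ k := by
    intro q hq hqβ
    haveI : Fact q.Prime := ⟨hq⟩
    by_cases hd : q ∣ Nat.card Y
    · exact Cfsg.Agent.Lib.Transfer.exists_hall_of_hasNormalPComplement (hY q hq hqβ hd)
    · refine ⟨⊤, inferInstance, ?_, 0, by simp⟩
      rw [Subgroup.card_top, Nat.coprime_comm, Nat.Prime.coprime_iff_not_dvd hq]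
      exact hd
  choose! f hfn hfc hfi using hK
  set N : Subgroup Y := ⨅ q : {q : ℕ // q.Prime ∧ q ∉ β}, f q with hN
  haveI hNn : N.Normal := normal_iInf_normal fun q => hfn q q.2.1 q.2.2
  have hNle : ∀ q : ℕ, q.Prime → q ∉ β → N ≤ f q := fun q h1 h2 =>
    iInf_le (fun q : {q : ℕ // q.Prime ∧ q ∉ β} => f q) ⟨q, h1, h2⟩
  have hNβ : N ≤ piCore β Y := by
    apply le_sSup
    refine ⟨hNn, ?_⟩
    intro r hr hd
    by_contra hrβ
    have h1 := (Subgroup.card_dvd_of_le (hNle r hr hrβ))
    exact hr.one_lt.ne' (Nat.eq_one_of_dvd_coprimes (hfc r hr hrβ) (hd.trans h1) (dvd_refl r))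
  have h1 : ∀ (p : ℕ) [Fact p.Prime], p ∈ β → ∀ T : Subgroup Y, IsPGroup p T → T ≤ piCore β Y := by
    intro p _ hp T hT
    refine le_trans (le_iInf fun q => ?_) hNβ
    haveI := hfn q q.2.1 q.2.2
    refine isPGroup_le_of_index_coprime ?_ hT
    obtain ⟨k, hk⟩ := hfi q q.2.1 q.2.2
    rw [hk]
    refine Nat.Coprime.pow_left _ ((Nat.coprime_primes q.2.1 Fact.out).2 ?_)
    rintro rfl
    exact q.2.2 hp
  refine ⟨h1, ?_⟩
  -- a complement to `O_β(Y)`
  set O := piCore β Y with hO
  have hOidx : ∀ r : ℕ, r.Prime → r ∈ β → ¬ r ∣ O.index := by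
    intro r hr hrβ hd
    haveI : Fact r.Prime := ⟨hr⟩
    obtain ⟨S⟩ : Nonempty (Sylow r Y) := inferInstance
    exact S.not_dvd_index (hd.trans (Subgroup.index_dvd_of_le (h1 r hrβ _ S.isPGroup')))
  have hcop : (Nat.card O).Coprime O.index := by
    apply Nat.coprime_of_dvd
    intro r hr h2 h3
    exact hOidx r hr (piCore_isPi β Y r hr h2) h3
  obtain ⟨H, hH⟩ := Subgroup.exists_right_complement'_of_coprime hcop
  have hcH : Nat.card H = O.index := hH.symm.index_eq_card.symm
  have hiH : H.index = Nat.card O := hH.index_eq_card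
  refine ⟨H, ?_, ?_, ?_⟩
  · intro r hr hd hrβ
    rw [hcH] at hd
    exact hOidx r hr hrβ hd
  · intro r hr hrβ hd
    rw [hiH] at hd
    exact hrβ (piCore_isPi β Y r hr hd)
  · apply nilpotent_of_normal_complements
    intro q hq
    by_cases hqβ : q ∈ β
    · refine ⟨⊤, inferInstance, ?_, 0, by simp⟩
      rw [Subgroup.card_top, Nat.coprime_comm, Nat.Prime.coprime_iff_not_dvd hq, hcH]
      exact hOidx q hq hqβ
    · refine ⟨(f q).subgroupOf H, ?_, ?_, ?_⟩
      · haveI := hfn q hq hqβ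
        infer_instance
      · have hd : Nat.card ↥((f q).subgroupOf H) ∣ Nat.card (f q) := by
          rw [← Subgroup.card_map_of_injective H.subtype_injective]
          apply Subgroup.card_dvd_of_le
          rintro _ ⟨x, hx, rfl⟩
          exact hx
        exact Nat.Coprime.coprime_dvd_left hd (hfc q hq hqβ)
      · obtain ⟨k, hk⟩ := hfi q hq hqβ
        haveI := hfn q hq hqβ
        have hd : ((f q).subgroupOf H).index ∣ q ^ k := by
          rw [← hk]
          exact Subgroup.relIndex_dvd_index_of_normal (f q) H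
        obtain ⟨j, -, hj⟩ := (Nat.dvd_prime_pow hq).1 hd
        exact ⟨j, hj⟩

theorem narrow_of_hom {R X : Type*} [Group R] [Group X] [Finite R] {p : ℕ} [Fact p.Prime] (hp : p ≠ 2) (f : R →* X)
    (hf : Function.Injective f) (hR : IsPGroup p R) (hr : ¬ PRankLE p 2 R) (A : Subgroup X) (hAr : A ≤ f.range)
    (hA : IsElementaryAbelian p A) (hc : Nat.card A = p ^ 2)
    (hmax : ∀ B : Subgroup X, B ≤ f.range → IsElementaryAbelian p B → A ≤ B → B = A) : IsNarrow p R := by
  have hmapc : (A.comap f).map f = A := Subgroup.map_comap_eq_self hAr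
  have hel : IsElementaryAbelian p (A.comap f) := by
    refine ⟨⟨⟨?_⟩⟩, ?_⟩
    · rintro ⟨a, ha⟩ ⟨b, hb⟩
      apply Subtype.ext
      apply hf
      have := hA.1.is_comm.comm ⟨f a, ha⟩ ⟨f b, hb⟩
      simpa using congrArg Subtype.val this
    · intro a ha
      apply hf
      rw [map_pow, hA.2 _ ha, map_one]
  apply narrow_of_max_elem hp hR hr (A.comap f) hel
  · rw [← Subgroup.card_map_of_injective hf, hmapc, hc]
  · intro B hB hAB
    have h1 : B.map f = A := by
      apply hmax _ (by rintro _ ⟨b, -, rfl⟩; exact ⟨b, rfl⟩)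
      · refine ⟨⟨⟨?_⟩⟩, ?_⟩
        · rintro ⟨_, a, ha, rfl⟩ ⟨_, b, hb, rfl⟩
          apply Subtype.ext
          have := hB.1.is_comm.comm ⟨a, ha⟩ ⟨b, hb⟩
          have h2 : a * b = b * a := congrArg Subtype.val this
          simp only [Subgroup.coe_mul, ← map_mul, h2]
        · rintro _ ⟨a, ha, rfl⟩
          rw [← map_pow, hB.2 a ha, map_one]
      · rw [← hmapc]
        exact Subgroup.map_mono hAB
    rw [← h1, Subgroup.comap_map_eq_self_of_injective hf]

variable {G : Type*} [Group G] [Finite G]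

section Main

variable {M : Subgroup G}

/-- For `p ∉ β(M)`, Sylow `p`-subgroups of `M` are narrow. -/
theorem sylow_narrow_of_not_beta (hG : IsMinSimpleOddOrder G) (huniq : UniquenessThm G) (hM : IsCoatom M)
    {p : ℕ} [Fact p.Prime] (hp : p ∉ beta M) (hpM : p ∣ Nat.card M) (S : Sylow p ↥M) :
    IsNarrow p ↥(S : Subgroup ↥M) := by
  have hpp : p.Prime := Fact.out
  by_cases hr : PRankLE p 2 ↥M
  · exact Or.inl (prank_of_subgroup hr _)
  have hα : p ∈ alpha M := ⟨hpp, hr⟩
  have hσ := alpha_sub_sigma hG huniq hM hα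
  have hp2 : p ≠ 2 := prime_odd hG hpp (hpM.trans (Subgroup.card_subgroup_dvd_card M))
  have hnot : ¬ IsIdealPrime p G := fun h => hp ⟨hα, h⟩
  have hrG : ¬ PRankLE p 2 G := fun h => hr (prank_of_subgroup h M)
  unfold IsIdealPrime at hnot
  push Not at hnot
  obtain ⟨P, A, hAP, hAe, hAc, hAm⟩ := hnot hpp hrG
  obtain ⟨S', hS', -⟩ := sigma_sylow hσ S
  obtain ⟨g, hg⟩ := MulAction.exists_smul_eq G P S'
  have hg' : (S' : Subgroup G) = (P : Subgroup G).map (MulAut.conj g).toMonoidHom := by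
    rw [← hg, Sylow.smul_def, Sylow.pointwise_smul_def]
    rfl
  set f : ↥(S : Subgroup ↥M) →* G :=
    (MulAut.conj g⁻¹).toMonoidHom.comp (M.subtype.comp (S : Subgroup ↥M).subtype) with hf
  have hfi : Function.Injective f := by
    intro a b hab
    apply Subtype.ext
    apply Subtype.ext
    exact (MulAut.conj g⁻¹).injective hab
  have hrange : f.range = P := by
    ext a
    constructor
    · rintro ⟨s, rfl⟩
      have h1 : ((s : ↥M) : G) ∈ (S' : Subgroup G) := by
        rw [hS']
        exact ⟨_, s.2, rfl⟩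
      rw [hg'] at h1
      obtain ⟨b, hb, hb2⟩ := h1
      have : f s = b := by
        rw [hf]
        change (MulAut.conj g⁻¹) ((s : ↥M) : G) = b
        rw [← hb2]
        simp [MulAut.conj_apply]
        group
      rw [this]
      exact hb
    · intro ha
      have h1 : g * a * g⁻¹ ∈ (S' : Subgroup G) := by
        rw [hg']
        exact ⟨a, ha, rfl⟩
      rw [hS'] at h1
      obtain ⟨s, hs, hs2⟩ := h1
      refine ⟨⟨s, hs⟩, ?_⟩
      change (MulAut.conj g⁻¹) ((s : ↥M) : G) = a
      have hs3 : (s : G) = g * a * g⁻¹ := hs2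
      rw [hs3]
      simp [MulAut.conj_apply]
      group
  have hr' : ¬ PRankLE p 2 ↥(S : Subgroup ↥M) := fun h => hα.2 (prank_of_sylow S h)
  refine narrow_of_hom hp2 f hfi S.isPGroup' hr' A (by rw [hrange]; exact hAP) hAe hAc ?_
  intro B hB hBe hAB
  rw [hrange] at hB
  by_contra hne
  exact hAm B hB hBe (lt_of_le_of_ne hAB (Ne.symm hne))

/-- The `S1455` conclusions for a prime outside `β(M)`. -/
theorem s1455_of_not_beta (hG : IsMinSimpleOddOrder G) (huniq : UniquenessThm G) (hM : IsCoatom M)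
    (hpl : ∀ (p : ℕ) [Fact p.Prime], p ∈ alpha M → PLengthLE p 1 ↥M) {p : ℕ} [Fact p.Prime]
    (hp : p ∉ beta M) (hpM : p ∣ Nat.card M) :
    (∀ q : ℕ, q.Prime → q ∣ (pPrimeCore p ↥M).index → q ≤ p) ∧ HasNormalPComplement p ↥⁅M, M⁆ := by
  have hpp : p.Prime := Fact.out
  haveI := coatom_isSolvable hG hM
  obtain ⟨S⟩ : Nonempty (Sylow p ↥M) := inferInstance
  obtain ⟨h1, -, h3, -⟩ := Cfsg.Agent.S1455.result (subgroup_odd hG M) p hpM S
    (sylow_narrow_of_not_beta hG huniq hM hp hpM S) (by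
      intro hr
      exact hpl p ⟨hpp, fun h => hr (prank_of_subgroup h _)⟩)
  refine ⟨h1, ?_⟩
  have e : (commutator ↥M).map M.subtype = ⁅M, M⁆ := Subgroup.map_subtype_commutator M
  have φ : ↥⁅M, M⁆ ≃* ↥(commutator ↥M) :=
    (((commutator ↥M).equivMapOfInjective M.subtype M.subtype_injective).trans (MulEquiv.subgroupCongr e)).symm
  exact Cfsg.Agent.Lib.LocalEven2.npc_of_injective φ.toMonoidHom φ.injective h3

/-- `M_σ ≤ M'`. -/
theorem sigmaCore_le_commutator (hG : IsMinSimpleOddOrder G) (huniq : UniquenessThm G) (hM : IsCoatom M) :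
    sigmaCore M ≤ ⁅M, M⁆ := by
  apply le_of_isPGroup_le
  intro q _ hq Q hQ hQle
  have hσ : q ∈ sigma M := piCoreOf_isPi (sigma M) M q Fact.out hq
  obtain ⟨S, hS, -⟩ := sigma_exists_sylow hσ
  have hQM : Q ≤ M := hQle.trans (piCoreOf_le _ M)
  obtain ⟨m, hm, hle⟩ := exists_conj_sylow_ge S hS hQ hQM
  have hc := sylow_le_commutator hG huniq hM hσ S hS
  intro x hx
  obtain ⟨s, hs, rfl⟩ := hle hx
  have hn : M ≤ normalizer ((⁅M, M⁆ : Subgroup G) : Set G) := Subgroup.normalizer_commutator_ge_left M M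
  exact (Subgroup.mem_normalizer_iff.1 (hn hm) _).1 (hc hs)

theorem isPiHallOf_map {π : Set ℕ} {Y : Subgroup G} (H : Subgroup ↥Y) (h1 : ∀ r : ℕ, r.Prime → r ∣ Nat.card H → r ∈ π)
    (h2 : ∀ r : ℕ, r.Prime → r ∈ π → ¬ r ∣ H.index) : IsPiHallOf π (H.map Y.subtype) Y := by
  refine ⟨Subgroup.map_subtype_le _, ?_, ?_⟩
  · intro r hr hd
    rw [Subgroup.card_map_of_injective Y.subtype_injective] at hd
    exact h1 r hr hd
  · intro r hr hrπ hd
    have e : (H.map Y.subtype).subgroupOf Y = H := by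
      ext x
      rw [Subgroup.mem_subgroupOf]
      constructor
      · rintro ⟨y, hy, hyx⟩
        rwa [← Subtype.ext hyx]
      · intro hx
        exact ⟨x, hx, rfl⟩
    rw [Subgroup.relIndex, e] at hd
    exact h2 r hr hrπ hd

/-- **S1414**, given `p`-length one for `p ∈ α(M) ∖ β(M)`. -/
theorem s1414_core (hG : IsMinSimpleOddOrder G) (huniq : UniquenessThm G) (hM : IsCoatom M)
    (hpl : ∀ (p : ℕ) [Fact p.Prime], p ∈ alpha M → PLengthLE p 1 ↥M) :
    IsPiHallOf (beta M) (piCoreOf (beta M) M) M ∧ IsPiHall (beta M) (piCoreOf (beta M) M) ∧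
      (∃ H : Subgroup G, IsPiHallOf {q | q.Prime ∧ q ∉ beta M} H ⁅M, M⁆ ∧ Group.IsNilpotent H) ∧
      (∃ H : Subgroup G, IsPiHallOf {q | q.Prime ∧ q ∉ beta M} H (sigmaCore M) ∧ Group.IsNilpotent H) ∧
      ∀ p : ℕ, p.Prime → p ∣ Nat.card M → p ∉ beta M →
        HasNormalPComplement p ↥⁅M, M⁆ ∧ HasNormalPComplement p ↥(sigmaCore M) ∧
        ∀ q : ℕ, q.Prime → q ∣ (pPrimeCore p ↥M).index → q ≤ p := by
  have hcM : ⁅M, M⁆ ≤ M := Subgroup.commutator_le_self M
  have hσc := sigmaCore_le_commutator hG huniq hM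
  have hn1 : ∀ q : ℕ, q.Prime → q ∉ beta M → q ∣ Nat.card ↥⁅M, M⁆ → HasNormalPComplement q ↥⁅M, M⁆ := by
    intro q hq hqβ hd
    haveI : Fact q.Prime := ⟨hq⟩
    exact (s1455_of_not_beta hG huniq hM hpl hqβ (hd.trans (Subgroup.card_dvd_of_le hcM))).2
  have hn2 : ∀ q : ℕ, q.Prime → q ∉ beta M → q ∣ Nat.card ↥(sigmaCore M) → HasNormalPComplement q ↥(sigmaCore M) := by
    intro q hq hqβ hd
    haveI : Fact q.Prime := ⟨hq⟩
    exact Cfsg.Agent.Lib.LocalEven2.npc_of_le hσc
      (hn1 q hq hqβ ((dvd_trans hd (Subgroup.card_dvd_of_le hσc))))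
  obtain ⟨h1, H, hH1, hH2, hH3⟩ := hall_of_npc (beta M) hn1
  obtain ⟨-, H', hH'1, hH'2, hH'3⟩ := hall_of_npc (beta M) hn2
  -- the Sylow subgroups for primes in `β`
  have hSle : ∀ p ∈ beta M, ¬ p ∣ (piCoreOf (beta M) M).index := by
    intro p hp
    haveI : Fact p.Prime := ⟨hp.1.1⟩
    have hσ := alpha_sub_sigma hG huniq hM hp.1
    obtain ⟨S, hS, -⟩ := sigma_exists_sylow hσ
    have hc := sylow_le_commutator hG huniq hM hσ S hS
    have hT : IsPGroup p ((S : Subgroup G).subgroupOf ⁅M, M⁆) := by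
      intro x
      obtain ⟨k, hk⟩ := S.isPGroup' ⟨((x : ↥⁅M, M⁆) : G), x.2⟩
      exact ⟨k, by
        apply Subtype.ext
        apply Subtype.ext
        simpa using congrArg Subtype.val hk⟩
    have h2 := h1 p hp _ hT
    have h3 : (S : Subgroup G) ≤ piCoreOf (beta M) ⁅M, M⁆ := by
      intro x hx
      exact ⟨⟨x, hc hx⟩, h2 (Subgroup.mem_subgroupOf.mpr hx), rfl⟩
    have h4 : piCoreOf (beta M) ⁅M, M⁆ ≤ piCoreOf (beta M) M := by
      apply le_piCoreOf ((piCoreOf_le _ _).trans hcM)
      · intro m hm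
        exact le_normalizer_piCoreOf_of_normalizer _ (Subgroup.normalizer_commutator_ge_left M M hm)
      · exact piCoreOf_isPi _ _
    intro hd
    exact S.not_dvd_index (hd.trans (Subgroup.index_dvd_of_le (h3.trans h4)))
  have hle : piCoreOf (beta M) M ≤ M := piCoreOf_le _ M
  have hrel : ∀ p ∈ beta M, ¬ p ∣ (piCoreOf (beta M) M).relIndex M := by
    intro p hp hd
    apply hSle p hp
    rw [← Subgroup.relIndex_mul_index hle]
    exact hd.trans (dvd_mul_right _ _)
  refine ⟨⟨hle, piCoreOf_isPi _ M, fun p _ hp => hrel p hp⟩,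
    ⟨piCoreOf_isPi _ M, fun p _ hp => hSle p hp⟩, ?_, ?_, ?_⟩
  · refine ⟨H.map (⁅M, M⁆ : Subgroup G).subtype, isPiHallOf_map H (fun r hr hd => ⟨hr, hH1 r hr hd⟩)
      (fun r hr hrπ => hH2 r hr hrπ.2), ?_⟩
    exact (Group.isNilpotent_congr (H.equivMapOfInjective _ (Subgroup.subtype_injective _))).1 hH3
  · refine ⟨H'.map (sigmaCore M).subtype, isPiHallOf_map H' (fun r hr hd => ⟨hr, hH'1 r hr hd⟩)
      (fun r hr hrπ => hH'2 r hr hrπ.2), ?_⟩
    exact (Group.isNilpotent_congr (H'.equivMapOfInjective _ (Subgroup.subtype_injective _))).1 hH'3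
  · intro p hp hpM hpβ
    haveI : Fact p.Prime := ⟨hp⟩
    obtain ⟨h5, h6⟩ := s1455_of_not_beta hG huniq hM hpl hpβ hpM
    exact ⟨h6, Cfsg.Agent.Lib.LocalEven2.npc_of_le hσc h6, h5⟩

end Main

end Cfsg.Agent.Lib.FT
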