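import Cfsg.Agent.Lib.FT.BG11b
import Cfsg.Agent.Lib.FT.FrobFix
import Cfsg.Agent.Lib.FT.BG10e
import Cfsg.Agent.S1452
import Cfsg.Agent.S1453

/-!
BG section 12: generic lemmas on coprime action (fixed points of Frobenius groups, ranks,
the good characteristic subgroup).
-/

set_option autoImplicit false
set_option linter.unusedSectionVars false
set_option linter.style.haveILetI false

namespace Cfsg.Agent.Lib.FT

open Subgroup Cfsg Cfsg.Agent.Lib.OddLocal Cfsg.Agent.Lib.Basic

open scoped commutatorElement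

variable {G : Type*} [Group G] [Finite G]

/-- If a Frobenius-type group `V⟨b⟩` acts coprimely on `H` and `C_H(b)` centralises `V` then `V` centralises `H`. -/
theorem frob_fixed (V H : Subgroup G) (b : G) (hb : (orderOf b).Prime)
    (hbV : b ∈ normalizer (V : Set G)) (hfpf : V ⊓ centralizer ({b} : Set G) = ⊥)
    (hVH : V ≤ normalizer (H : Set G)) (hbH : b ∈ normalizer (H : Set G))
    (hsolv : Group.IsSolvable H) (hcop : Nat.Coprime (Nat.card H) (Nat.card ↥(V ⊔ zpowers b)))
    (hfix : H ⊓ centralizer ({b} : Set G) ≤ centralizer (V : Set G)) : H ≤ centralizer (V : Set G) := by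
  classical
  set E := zpowers b with hE
  have hb1 : b ≠ 1 := by
    rintro rfl
    simp at hb
    exact Nat.not_prime_one hb
  have hcE : centralizer (E : Set G) = centralizer ({b} : Set G) := centralizer_zpowers_eq b
  have hEb : E ≠ ⊥ := by
    intro h
    apply hb1
    have : b ∈ E := mem_zpowers b
    rw [h] at this
    exact (Subgroup.mem_bot).1 this
  have hEN : E ≤ normalizer (V : Set G) := zpowers_le.mpr hbV
  have hEH : E ≤ normalizer (H : Set G) := zpowers_le.mpr hbH
  have hUn : ∀ e ∈ E, ∀ u ∈ V, e * u * e⁻¹ ∈ V := fun e he u hu =>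
    (Subgroup.mem_normalizer_iff.1 (hEN he) u).1 hu
  haveI : Fact (orderOf b).Prime := ⟨hb⟩
  have hcardE : Nat.card E = orderOf b := Nat.card_zpowers b
  have hfpf' : ∀ e ∈ E, e ≠ 1 → ∀ u ∈ V, e * u = u * e → u = 1 := by
    intro e he he1 u hu hc
    have hbe : (⟨b, mem_zpowers b⟩ : E) ∈ zpowers (⟨e, he⟩ : E) :=
      mem_zpowers_of_prime_card hcardE (fun h => he1 (congrArg Subtype.val h))
    obtain ⟨k, hk⟩ := hbe
    have hk' : e ^ k = b := by simpa using congrArg Subtype.val hk
    have hcb : Commute u b := by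
      rw [← hk']
      exact Commute.zpow_right (Commute.symm hc) k
    have : u ∈ V ⊓ centralizer ({b} : Set G) := by
      refine ⟨hu, ?_⟩
      show u ∈ centralizer ({b} : Set G)
      rw [mem_centralizer_singleton_iff]
      exact hcb
    rw [hfpf] at this
    exact (Subgroup.mem_bot).1 this
  have hHn : ∀ x ∈ V ⊔ E, ∀ h ∈ H, x * h * x⁻¹ ∈ H := fun x hx h hh =>
    (Subgroup.mem_normalizer_iff.1 ((sup_le hVH hEH) hx) h).1 hh
  have hform := frobenius_fix_formula V E H hEb hUn hfpf' hHn hsolv hcop
  have hle : H ⊓ centralizer (E : Set G) ≤ H ⊓ centralizer ((V ⊔ E : Subgroup G) : Set G) := by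
    refine le_inf inf_le_left ?_
    rw [Subgroup.le_centralizer_iff]
    refine sup_le ?_ ?_
    · rw [← Subgroup.le_centralizer_iff, hcE]
      exact hfix
    · rw [← Subgroup.le_centralizer_iff]
      exact inf_le_right
  have hle' : H ⊓ centralizer ((V ⊔ E : Subgroup G) : Set G) ≤ H ⊓ centralizer (E : Set G) :=
    inf_le_inf_left _ (Subgroup.centralizer_le (le_sup_right : E ≤ V ⊔ E))
  have heq := le_antisymm hle hle'
  rw [← heq] at hform
  have hpos : 0 < Nat.card ↥(H ⊓ centralizer (E : Set G)) ^ Nat.card E :=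
    pow_pos Nat.card_pos _
  have hcard := Nat.eq_of_mul_eq_mul_left hpos hform
  have := Subgroup.eq_of_le_of_card_ge (inf_le_left : H ⊓ centralizer (V : Set G) ≤ H) (by rw [hcard])
  exact inf_eq_left.1 this

/-- A coprime action with `C_V(b) = 1` and `V` acting nontrivially on an `s`-group forces `s`-rank at least 3. -/
theorem not_prank_of_act {s q : ℕ} [Fact s.Prime] [Fact q.Prime] (hs2 : s ≠ 2) (hsq : s ≠ q)
    (U V : Subgroup G) (b : G) (hU : IsPGroup s U) (hV : IsPGroup q V)
    (hVU : V ≤ normalizer (U : Set G)) (hbU : b ∈ normalizer (U : Set G))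
    (hbV : b ∈ normalizer (V : Set G)) (hfpf : V ⊓ centralizer ({b} : Set G) = ⊥)
    (hbq : (orderOf b).Coprime q) (hFs : Group.IsSolvable ↥(V ⊔ zpowers b))
    (hFo : Odd (Nat.card ↥(V ⊔ zpowers b))) (hnc : ¬ V ≤ centralizer (U : Set G)) : ¬ PRankLE s 2 U := by
  intro hr
  apply hnc
  have hqp : q.Prime := Fact.out
  have hF : V ⊔ zpowers b ≤ normalizer (U : Set G) := sup_le hVU (zpowers_le.mpr hbU)
  have h1 := s1449_general s hs2 U (V ⊔ zpowers b) hU hr hF hFs hFo
  have hcE : centralizer ((zpowers b : Subgroup G) : Set G) = centralizer ({b} : Set G) :=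
    centralizer_zpowers_eq b
  have hcop : (Nat.card (zpowers b)).Coprime (Nat.card V) := by
    rw [Nat.card_zpowers]
    obtain ⟨k, hk⟩ := IsPGroup.iff_card.1 hV
    rw [hk]
    exact Nat.Coprime.pow_right _ hbq
  have h2 := coprime_commutator_sup_centralizer (A := zpowers b) (K := V) (zpowers_le.mpr hbV) hcop
    (Or.inl inferInstance)
  rw [hcE, hfpf, sup_bot_eq] at h2
  have hVF : V ≤ ⁅V ⊔ zpowers b, V ⊔ zpowers b⁆ := by
    conv_lhs => rw [← h2]
    exact Subgroup.commutator_mono le_sup_left le_sup_right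
  intro v hv
  obtain ⟨n, hn⟩ := h1 v (hVF hv)
  obtain ⟨k, hk⟩ := (IsPGroup.iff_orderOf.1 hV) ⟨v, hv⟩
  have hov : orderOf v = q ^ k := by
    rw [← hk, Subgroup.orderOf_mk]
  have hcop2 : (orderOf v).Coprime (s ^ n) := by
    rw [hov]
    exact Nat.Coprime.pow _ _ ((Nat.coprime_primes hqp Fact.out).2 (Ne.symm hsq))
  obtain ⟨m, hm⟩ := exists_pow_eq_self_of_coprime hcop2.symm
  rw [← hm]
  exact Subgroup.pow_mem _ hn m

/-- The good characteristic subgroup of a `q`-group of rank at least three. -/
theorem exists_good_char {R : Type*} [Group R] [Finite R] {q : ℕ} [Fact q.Prime] (hq2 : q ≠ 2) (hR : IsPGroup q R)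
    (hr : ¬ PRankLE q 2 R) :
    ∃ T : Subgroup R, T.Characteristic ∧ ¬ PRankLE q 2 T ∧
      (∀ y ∈ T, y ^ q = 1 → ¬ PRankLE q 2 ↥(centralizer ({y} : Set R))) ∧ (T = ⊤ ∨ T.index = q) := by
  classical
  have hqp : q.Prime := Fact.out
  by_cases hE : ∃ E : Subgroup R, IsElementaryAbelian q E ∧ Nat.card E = q ^ 2 ∧
      ∀ B : Subgroup R, IsElementaryAbelian q B → E ≤ B → B = E
  · obtain ⟨E, hEe, hE2, hEmax⟩ := hE
    obtain ⟨-, -, ⟨hWe, hWc⟩, h4, h5⟩ := Cfsg.Agent.S1453.result q hq2 hR hr E hEe hE2 hEmax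
    set W := closure {x : R | x ∈ Subgroup.upperCentralSeries R 2 ∧ x ^ q = 1} with hW
    have hWom : W = omegaZ2 R q hq2 := by
      rw [hW]
      have : {x : R | x ∈ Subgroup.upperCentralSeries R 2 ∧ x ^ q = 1} = ((omegaZ2 R q hq2 : Subgroup R) : Set R) := by
        ext x
        exact Iff.rfl
      rw [this, Subgroup.closure_eq]
    haveI hWn : W.Normal := by
      rw [hWom]
      infer_instance
    obtain ⟨B, hWB, -, hBc, hBr⟩ := Cfsg.Agent.S1452.result q hq2 hR hr W hWe hWc
    have hBcomm : ∀ a ∈ B, ∀ b ∈ B, a * b = b * a := by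
      intro a ha b hb
      have : b ∈ centralizer (B : Set R) := by
        rw [hBc]
        exact hb
      exact (Subgroup.mem_centralizer_iff.1 this a ha)
    refine ⟨centralizer (W : Set R), h4, ?_, ?_, Or.inr h5⟩
    · intro hrT
      have hBT : B ≤ centralizer (W : Set R) := by
        intro b hb
        rw [Subgroup.mem_centralizer_iff]
        intro w hw
        exact hBcomm w (hWB hw) b hb
      apply hBr
      intro C hC1 hC2
      have hinj : Function.Injective (Subgroup.inclusion hBT) := Subgroup.inclusion_injective hBT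
      exact prank_of_injective (Subgroup.inclusion hBT) hinj hrT C hC1 hC2
    · intro y hy hyq
      by_cases hyW : y ∈ W
      · intro hrC
        apply hBr
        have hBC : B ≤ centralizer ({y} : Set R) := by
          intro b hb
          rw [mem_centralizer_singleton_iff]
          exact hBcomm y (hWB hyW) b hb |>.symm
        exact prank_of_injective (Subgroup.inclusion hBC) (Subgroup.inclusion_injective hBC) hrC
      · have hc : ∀ e ∈ W, y * e = e * y := fun e he =>
          (Subgroup.mem_centralizer_iff.1 hy e he).symm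
        have hF := isElementaryAbelian_sup_zpowers hWe hyq hc
        have hFC : W ⊔ zpowers y ≤ centralizer ({y} : Set R) := by
          refine sup_le ?_ ?_
          · intro e he
            rw [mem_centralizer_singleton_iff]
            exact (hc e he).symm
          · rw [zpowers_le, mem_centralizer_singleton_iff]
        have hlt : W < W ⊔ zpowers y := by
          refine lt_of_le_of_ne le_sup_left fun h => hyW ?_
          rw [h]
          exact (le_sup_right : zpowers y ≤ W ⊔ zpowers y) (mem_zpowers y)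
        have hcard : q ^ 2 < Nat.card ↥(W ⊔ zpowers y) := by
          rw [← hWc]
          exact card_lt_of_subgroup_lt hlt
        exact not_prank_of_card hF hFC hcard
  · push Not at hE
    refine ⟨⊤, inferInstance, ?_, ?_, Or.inl rfl⟩
    · intro h
      apply hr
      exact prank_of_injective (Subgroup.topEquiv (G := R)).symm.toMonoidHom
        (MulEquiv.injective _) h
    · have : Nontrivial R := by
        by_contra hn
        rw [not_nontrivial_iff_subsingleton] at hn
        apply hr
        intro A _ _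
        have : Nat.card A = 1 := Nat.card_unique
        rw [this]
        exact Nat.one_le_pow _ _ hqp.pos
      obtain ⟨z, hz, hz1, hzq⟩ := exists_order_p_of_ne_bot q (hR.to_subgroup (center R))
        (Subgroup.nontrivial_iff_ne_bot _ |>.1 hR.center_nontrivial)
      intro y _ hyq
      by_cases hyz : y ∈ zpowers z
      · have hcen : centralizer ({y} : Set R) = ⊤ := by
          rw [eq_top_iff]
          intro g _
          rw [mem_centralizer_singleton_iff]
          obtain ⟨k, rfl⟩ := hyz
          have hzc : Commute g z := (Subgroup.mem_center_iff.1 hz g)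
          exact hzc.zpow_right k
        rw [hcen]
        intro h
        apply hr
        exact prank_of_injective (Subgroup.topEquiv (G := R)).symm.toMonoidHom
          (MulEquiv.injective _) h
      · have hZe : IsElementaryAbelian q (zpowers z) := by
          refine ⟨inferInstance, ?_⟩
          rintro _ ⟨k, rfl⟩
          show (z ^ k) ^ q = 1
          rw [← zpow_natCast, zpow_comm, zpow_natCast, hzq, one_zpow]
        have hc : ∀ e ∈ zpowers z, y * e = e * y := by
          rintro _ ⟨k, rfl⟩
          have hzc : Commute y z := (Subgroup.mem_center_iff.1 hz y)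
          exact hzc.zpow_right k
        have hF := isElementaryAbelian_sup_zpowers hZe hyq hc
        have hzc : Nat.card (zpowers z) = q := by
          rw [Nat.card_zpowers]
          exact orderOf_eq_prime hzq hz1
        have hy1 : y ≠ 1 := by
          rintro rfl
          exact hyz (one_mem _)
        have hyc : Nat.card (zpowers y) = q := by
          rw [Nat.card_zpowers]
          exact orderOf_eq_prime hyq hy1
        have hlt : zpowers z < zpowers z ⊔ zpowers y := by
          refine lt_of_le_of_ne le_sup_left fun h => hyz ?_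
          rw [h]
          exact (le_sup_right : zpowers y ≤ zpowers z ⊔ zpowers y) (mem_zpowers y)
        have h1 : q ^ 1 < Nat.card ↥(zpowers z ⊔ zpowers y) := by
          rw [pow_one, ← hzc]
          exact card_lt_of_subgroup_lt hlt
        have h2 : Nat.card ↥(zpowers z ⊔ zpowers y) ≤ q ^ 2 := by
          have hn : zpowers y ≤ normalizer ((zpowers z : Subgroup R) : Set R) := by
            rw [zpowers_le, Subgroup.mem_normalizer_iff]
            intro w
            constructor
            · rintro ⟨k, rfl⟩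
              have hzc : Commute y z := (Subgroup.mem_center_iff.1 hz y)
              have := (hzc.zpow_right k).eq
              show y * z ^ k * y⁻¹ ∈ zpowers z
              rw [this, mul_inv_cancel_right]
              exact ⟨k, rfl⟩
            · rintro ⟨k, hk⟩
              refine ⟨k, ?_⟩
              have hzc : Commute y z := (Subgroup.mem_center_iff.1 hz y)
              have h3 := (hzc.zpow_right k).eq
              simp only at hk ⊢
              have h4 : y * z ^ k * y⁻¹ = z ^ k := by rw [h3, mul_inv_cancel_right]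
              rw [← h4] at hk
              have h5 : y * z ^ k * y⁻¹ = y * w * y⁻¹ := hk
              exact mul_left_cancel (mul_right_cancel h5)
          have h3 := card_sup_mul_card_inf (A := zpowers z) (B := zpowers y) hn
          rw [hzc, hyc] at h3
          have h4 : 0 < Nat.card ↥(zpowers z ⊓ zpowers y) := Nat.card_pos
          calc Nat.card ↥(zpowers z ⊔ zpowers y) ≤ Nat.card ↥(zpowers z ⊔ zpowers y) * Nat.card ↥(zpowers z ⊓ zpowers y) :=
                Nat.le_mul_of_pos_right _ h4
            _ = q ^ 2 := by rw [h3, sq]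
        have hcard := card_eq_sq_of_bounds hF h1 h2
        obtain ⟨B, hBe, hle, hne⟩ := hE _ hF hcard
        have hlt2 : zpowers z ⊔ zpowers y < B := lt_of_le_of_ne hle (Ne.symm hne)
        have hBC : B ≤ centralizer ({y} : Set R) := by
          intro b hb
          rw [mem_centralizer_singleton_iff]
          have hyB : y ∈ B := hle ((le_sup_right : zpowers y ≤ zpowers z ⊔ zpowers y) (mem_zpowers y))
          have := hBe.1.is_comm.comm ⟨b, hb⟩ ⟨y, hyB⟩
          exact congrArg Subtype.val this
        have hcard2 : q ^ 2 < Nat.card B := by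
          rw [← hcard]
          exact card_lt_of_subgroup_lt hlt2
        exact not_prank_of_card hBe hBC hcard2


/-- The good subgroup of a `q`-subgroup of rank at least three, as a subgroup of `G`. -/
theorem exists_good_sub {q : ℕ} [Fact q.Prime] (hq2 : q ≠ 2) {Q : Subgroup G} (hQ : IsPGroup q Q)
    (hr : ¬ PRankLE q 2 Q) :
    ∃ T : Subgroup G, T ≤ Q ∧ normalizer (Q : Set G) ≤ normalizer (T : Set G) ∧ ¬ PRankLE q 2 T ∧
      (∀ y ∈ T, y ^ q = 1 → ¬ PRankLE q 2 ↥(Q ⊓ centralizer ({y} : Set G))) ∧
      (∀ F : Subgroup G, F ≤ normalizer (Q : Set G) → ∀ c ∈ ⁅F, F⁆, ∀ u ∈ Q, c * u * c⁻¹ * u⁻¹ ∈ T) := by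
  classical
  obtain ⟨T₀, hch, hr', hy, hidx⟩ := exists_good_char hq2 hQ hr
  haveI := hch
  refine ⟨T₀.map Q.subtype, map_subtype_le _, le_normalizer_map_of_characteristic T₀, ?_, ?_, ?_⟩
  · intro h
    exact hr' (prank_of_injective (T₀.equivMapOfInjective Q.subtype Q.subtype_injective).toMonoidHom
      (MulEquiv.injective _) h)
  · rintro _ ⟨y₀, hy₀, rfl⟩ hyq h
    have hyq' : y₀ ^ q = 1 := Subtype.ext hyq
    apply hy y₀ hy₀ hyq'
    let f : ↥(centralizer ({y₀} : Set ↥Q)) →* ↥(Q ⊓ centralizer ({(y₀ : G)} : Set G)) :=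
      (Q.subtype.comp (centralizer ({y₀} : Set ↥Q)).subtype).codRestrict _ (by
        rintro ⟨x, hx⟩
        refine ⟨x.2, ?_⟩
        show ((x : G)) ∈ centralizer ({(y₀ : G)} : Set G)
        rw [mem_centralizer_singleton_iff]
        have := mem_centralizer_singleton_iff.1 hx
        exact congrArg Subtype.val this)
    refine prank_of_injective f ?_ h
    intro a b hab
    apply Subtype.ext
    apply Subtype.ext
    exact congrArg (fun x : ↥(Q ⊓ centralizer ({(y₀ : G)} : Set G)) => (x : G)) hab
  · intro F hF c hc u hu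
    rcases hidx with rfl | hidx
    · have hcF : c ∈ normalizer (Q : Set G) := hF (Subgroup.commutator_le_self F hc)
      have h1 : c * u * c⁻¹ ∈ Q := (Subgroup.mem_normalizer_iff.1 hcF u).1 hu
      refine ⟨⟨_, Q.mul_mem h1 (Q.inv_mem hu)⟩, Subgroup.mem_top _, rfl⟩
    · have hcard : Nat.card (↥Q ⧸ T₀) = q := by
        rw [← hidx]
        rfl
      haveI : Fact (Nat.card (↥Q ⧸ T₀)).Prime := ⟨by rw [hcard]; exact Fact.out⟩
      haveI : IsCyclic (↥Q ⧸ T₀) := isCyclic_of_prime_card rfl
      let f : ↥F →* MulAut (↥Q ⧸ T₀) := (quotAut T₀).comp (conjHomOf Q F hF)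
      have hcomm : ⁅F, F⁆ ≤ f.ker.map F.subtype := by
        rw [Subgroup.commutator_le]
        intro g₁ h₁ g₂ h₂
        refine ⟨⁅(⟨g₁, h₁⟩ : ↥F), (⟨g₂, h₂⟩ : ↥F)⁆, ?_, rfl⟩
        show f _ = 1
        simp only [commutatorElement_def, map_mul, map_inv]
        rw [mulAut_comm_of_cyclic (f ⟨g₁, h₁⟩) (f ⟨g₂, h₂⟩)]
        group
      obtain ⟨c', hc', rfl⟩ := hcomm hc
      have h1 : f c' = 1 := hc'
      have h2 : f c' ((⟨u, hu⟩ : ↥Q) : ↥Q ⧸ T₀) = ((⟨u, hu⟩ : ↥Q) : ↥Q ⧸ T₀) := by
        rw [h1]
        rfl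
      have h3 : ((conjHomOf Q F hF c' ⟨u, hu⟩ : ↥Q) : ↥Q ⧸ T₀) = ((⟨u, hu⟩ : ↥Q) : ↥Q ⧸ T₀) := h2
      rw [QuotientGroup.eq] at h3
      set w : ↥Q := conjHomOf Q F hF c' ⟨u, hu⟩ with hw
      have h4 : w * (⟨u, hu⟩ : ↥Q)⁻¹ ∈ T₀ := by
        have h5 := T₀.inv_mem h3
        have h6 := Subgroup.Normal.conj_mem (inferInstance : T₀.Normal) _ h5 (⟨u, hu⟩ : ↥Q)
        have h7 : (⟨u, hu⟩ : ↥Q) * (w⁻¹ * (⟨u, hu⟩ : ↥Q))⁻¹ * (⟨u, hu⟩ : ↥Q)⁻¹ = w * (⟨u, hu⟩ : ↥Q)⁻¹ := by
          group
        rwa [h7] at h6
      refine ⟨_, h4, ?_⟩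
      show ((w : G)) * u⁻¹ = _
      rw [hw, conjHomOf_coe]
      rfl


end Cfsg.Agent.Lib.FT
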