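import Cfsg.Agent.Lib.FT.BG9b
import Cfsg.Agent.S1396
import Cfsg.Agent.Lib.Basic.GenCent
import Cfsg.Agent.Lib.Components.RankTwo

/-!
BG section 9: S1398, S1399, S1400.
-/

set_option autoImplicit false
set_option linter.unusedSectionVars false
set_option linter.style.haveILetI false

namespace Cfsg.Agent.Lib.FT

open Subgroup Cfsg Cfsg.Agent.Lib.OddLocal

open Cfsg.Agent.Lib.Coprime (mem_conj_map conj_mem_conj_map conj_map_conj_map conj_map_one
  conj_map_mono mem_normalizer_of_conj_le conj_map_eq_iff_mem_normalizer isPGroup_conj_map)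

universe u

variable {G : Type u} [Group G] [Finite G]

section

variable {p : ℕ} [hpf : Fact p.Prime]

/-- A self-centralizing subgroup in `P` is abelian. -/
theorem scn_comm {P A : Subgroup G} (h : IsSCN P A) : IsMulCommutative A := by
  refine ⟨⟨?_⟩⟩
  rintro ⟨a, ha⟩ ⟨b, hb⟩
  apply Subtype.ext
  have h1 : b ∈ P ⊓ centralizer (A : Set G) := by rw [h.2.2]; exact hb
  exact Subgroup.mem_centralizer_iff.1 h1.2 a ha

/-- S1396(2). -/
theorem th2_of_dvd (hG : IsMinSimpleOddOrder G) (hp : p ∣ Nat.card G) : TH2 p G := by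
  intro S A hscn hr
  exact Cfsg.Agent.S1396.result hG p hp A (S.isPGroup'.to_le hscn.1) (scn_comm hscn) (Or.inr ⟨S, hscn, hr⟩)

/-- The uniqueness criterion, for a nontrivial `p`-subgroup. -/
theorem uniq_of_inv (hG : IsMinSimpleOddOrder G) {M B : Subgroup G} (hM : IsCoatom M) (hBM : B ≤ M) (hB1 : B ≠ ⊥)
    (hBp : IsPGroup p B) (hJ : ∀ Y : Subgroup G, (Nat.card Y).Coprime p → B ≤ normalizer (Y : Set G) → Y ≤ M) :
    InUniqueMaximal B := by
  have hp : p.Prime := hpf.out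
  have hpG : p ∣ Nat.card G := by
    obtain ⟨n, hn⟩ := IsPGroup.iff_card.1 hBp
    refine Dvd.dvd.trans ?_ (Subgroup.card_subgroup_dvd_card B)
    rw [hn]
    refine dvd_pow_self p ?_
    rintro rfl
    have h1 : Nat.card B = 1 := by simpa using hn
    exact hB1 ((Subgroup.card_eq_one).1 h1)
  exact ⟨M, ⟨hM, hBM⟩, fun H hH => s1398_core hG hM hBM hB1 hBp hJ (th2_of_dvd hG hpG) H hH.1 hH.2⟩

/-- The `C_G(b) ≤ M` form: noncyclic abelian `p`-subgroups. -/
theorem uniq_of_centralizers (hG : IsMinSimpleOddOrder G) {M B : Subgroup G} (hM : IsCoatom M) (hBM : B ≤ M)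
    (hBp : IsPGroup p B) (hBc : IsMulCommutative B) (hBnc : ¬ IsCyclic B)
    (h : ∀ b ∈ B, b ≠ 1 → centralizer ({b} : Set G) ≤ M) : InUniqueMaximal B := by
  have hB1 : B ≠ ⊥ := by
    rintro rfl
    apply hBnc
    infer_instance
  refine uniq_of_inv hG hM hBM hB1 hBp fun Y hY hBY => ?_
  obtain ⟨n, hn⟩ := IsPGroup.iff_card.1 hBp
  have hcop : (Nat.card B).Coprime (Nat.card Y) := by
    rw [hn]
    exact (Nat.Coprime.pow_right n hY).symm
  haveI := hBc
  rw [← Cfsg.Agent.Lib.Basic.generation_by_centralizers B Y hBnc hBY hcop]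
  refine iSup₂_le fun a ha => inf_le_right.trans (h a ha.1 ha.2)

end

theorem not_uniq_bot (hG : IsMinSimpleOddOrder G) : ¬ InUniqueMaximal (⊥ : Subgroup G) := by
  rintro ⟨M, ⟨hM, -⟩, hu⟩
  have h1 : ∀ g : G, M.map (MulAut.conj g).toMonoidHom = M := fun g =>
    hu _ ⟨coatom_conj hM g, bot_le⟩
  have h2 : normalizer (M : Set G) = ⊤ := by
    rw [eq_top_iff]
    intro g _
    exact (conj_map_eq_iff_mem_normalizer M g).1 (h1 g)
  rw [normalizer_coatom hG hM] at h2
  exact hM.1 h2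

/-- Conjugates of uniqueness subgroups are uniqueness subgroups. -/
theorem uniq_conj {X : Subgroup G} (hX : InUniqueMaximal X) (g : G) :
    InUniqueMaximal (X.map (MulAut.conj g).toMonoidHom) := by
  obtain ⟨M, ⟨hM, hXM⟩, hu⟩ := hX
  refine ⟨M.map (MulAut.conj g).toMonoidHom, ⟨coatom_conj hM g, conj_map_mono hXM g⟩, ?_⟩
  rintro L ⟨hL, hXL⟩
  have h1 : L.map (MulAut.conj g⁻¹).toMonoidHom = M := by
    apply hu
    refine ⟨coatom_conj hL g⁻¹, ?_⟩
    have := conj_map_mono hXL g⁻¹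
    rwa [conj_map_conj_map, inv_mul_cancel, conj_map_one] at this
  rw [← h1, conj_map_conj_map, mul_inv_cancel, conj_map_one]

/-- An elementary abelian subgroup of order greater than `p` is not cyclic. -/
theorem not_cyclic_of_ea {p : ℕ} [hpf : Fact p.Prime] {E : Subgroup G} (hE : IsElementaryAbelian p E)
    (hc : p < Nat.card E) : ¬ IsCyclic E := by
  intro h
  obtain ⟨g, hg⟩ := IsCyclic.exists_generator (α := E)
  have h1 : Nat.card E = orderOf g := (orderOf_eq_card_of_forall_mem_zpowers hg).symm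
  have h2 : orderOf g ∣ p := orderOf_dvd_of_pow_eq_one (Subtype.ext (hE.2 g g.2))
  rw [h1] at hc
  exact absurd (Nat.le_of_dvd hpf.out.pos h2) (not_le.2 hc)

theorem isPGroup_of_ea {p : ℕ} {E : Subgroup G} (hE : IsElementaryAbelian p E) : IsPGroup p E :=
  fun x => ⟨1, by rw [pow_one]; exact Subtype.ext (hE.2 x x.2)⟩

/-- Rank at least two from an elementary abelian subgroup. -/
theorem not_rankLE_one_of_ea {p : ℕ} [hpf : Fact p.Prime] {E : Subgroup G} (hE : IsElementaryAbelian p E)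
    (hc : p < Nat.card E) : ¬ RankLE 1 E := by
  intro h
  have h1 := h p hpf.out ⊤ ⟨⟨by
    rintro ⟨⟨a, ha⟩, _⟩ ⟨⟨b, hb⟩, _⟩
    exact Subtype.ext (Subtype.ext (congrArg Subtype.val (hE.1.is_comm.comm ⟨a, ha⟩ ⟨b, hb⟩)))⟩⟩
    (fun a _ => Subtype.ext (hE.2 _ a.2))
  rw [Subgroup.card_top, pow_one] at h1
  omega

/-- Images of elementary abelian subgroups under inclusion. -/
theorem ea_map_subtype {p : ℕ} {X : Subgroup G} {E : Subgroup X} (h1 : IsMulCommutative E)
    (h2 : ∀ a ∈ E, a ^ p = 1) : IsElementaryAbelian p (E.map X.subtype) := by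
  refine ⟨⟨⟨?_⟩⟩, ?_⟩
  · rintro ⟨_, a, ha, rfl⟩ ⟨_, b, hb, rfl⟩
    apply Subtype.ext
    have := h1.is_comm.comm ⟨a, ha⟩ ⟨b, hb⟩
    exact congrArg (fun x : E => ((x : X) : G)) this
  · rintro _ ⟨a, ha, rfl⟩
    exact congrArg Subtype.val (h2 a ha)

theorem card_map_subtype {X : Subgroup G} (E : Subgroup X) : Nat.card (E.map X.subtype) = Nat.card E :=
  Subgroup.card_map_of_injective X.subtype_injective

theorem ea_mono {p : ℕ} {E F : Subgroup G} (hE : IsElementaryAbelian p E) (h : F ≤ E) :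
    IsElementaryAbelian p F := by
  refine ⟨⟨⟨?_⟩⟩, fun a ha => hE.2 a (h ha)⟩
  rintro ⟨a, ha⟩ ⟨b, hb⟩
  apply Subtype.ext
  have := hE.1.is_comm.comm ⟨a, h ha⟩ ⟨b, h hb⟩
  show a * b = b * a
  exact congrArg Subtype.val this

/-- Commuting elements of an abelian subgroup. -/
theorem le_centralizer_of_comm {E : Subgroup G} (hE : IsMulCommutative E) : E ≤ centralizer (E : Set G) := by
  intro a ha
  rw [Subgroup.mem_centralizer_iff]
  intro b hb
  have := hE.is_comm.comm ⟨b, hb⟩ ⟨a, ha⟩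
  exact congrArg Subtype.val this

theorem le_centralizer_symm {X Y : Subgroup G} (h : X ≤ centralizer (Y : Set G)) :
    Y ≤ centralizer (X : Set G) := by
  intro y hy
  rw [Subgroup.mem_centralizer_iff]
  intro x hx
  exact (Subgroup.mem_centralizer_iff.1 (h hx) y hy).symm

/-- Extraction of a subgroup `E(p³)`. -/
theorem exists_E3 {p : ℕ} [hpf : Fact p.Prime] {X : Subgroup G} (h : ¬ PRankLE p 2 X) :
    ∃ E : Subgroup G, E ≤ X ∧ IsElementaryAbelian p E ∧ Nat.card E = p ^ 3 := by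
  have hp : p.Prime := hpf.out
  simp only [PRankLE] at h
  push Not at h
  obtain ⟨A, h1, h2, h3⟩ := h
  have hA₁ := ea_map_subtype h1 h2
  set A₁ := A.map X.subtype with hA₁d
  have hc : p ^ 2 < Nat.card A₁ := by rw [card_map_subtype]; exact h3
  obtain ⟨k, hk⟩ := IsPGroup.iff_card.1 (isPGroup_of_ea hA₁)
  have hk3 : 3 ≤ k := by
    rw [hk] at hc
    have := (Nat.pow_lt_pow_iff_right hp.one_lt).1 hc
    omega
  obtain ⟨K, hK⟩ := Sylow.exists_subgroup_card_pow_prime (G := A₁) p (n := 3) (by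
    rw [hk]
    exact pow_dvd_pow p hk3)
  refine ⟨K.map A₁.subtype, ?_, ?_, ?_⟩
  · rintro _ ⟨x, _, rfl⟩
    exact Subgroup.map_subtype_le _ x.2
  · exact ea_mono hA₁ (Subgroup.map_subtype_le _)
  · rw [card_map_subtype, hK]

/-- **S1399**. -/
theorem uniq_of_centralizer (hG : IsMinSimpleOddOrder G) {L K : Subgroup G} (hL : InUniqueMaximal L)
    (hK : K ≤ centralizer (L : Set G)) (hKr : ¬ RankLE 1 K) : InUniqueMaximal K := by
  obtain ⟨p, hp, E₀, hE₀C, hE₀e, hE₀c⟩ : ∃ p : ℕ, p.Prime ∧ ∃ E : Subgroup K, IsMulCommutative E ∧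
      (∀ a ∈ E, a ^ p = 1) ∧ p < Nat.card E := by
    simp only [RankLE, PRankLE] at hKr
    push Not at hKr
    obtain ⟨p, hp, E, h1, h2, h3⟩ := hKr
    exact ⟨p, hp, E, h1, h2, by simpa using h3⟩
  haveI : Fact p.Prime := ⟨hp⟩
  have hBe := ea_map_subtype (X := K) (E := E₀) hE₀C hE₀e
  set B := E₀.map K.subtype with hB
  have hBcard : p < Nat.card B := by rw [card_map_subtype]; exact hE₀c
  have hBK : B ≤ K := Subgroup.map_subtype_le _
  obtain ⟨M, ⟨hM, hLM⟩, hu⟩ := id hL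
  have hcen : ∀ b ∈ B, b ≠ 1 → centralizer ({b} : Set G) ≤ M := by
    intro b hb hb1
    refine uniq_le hM hLM hL (centralizer_singleton_ne_top hG hb1) ?_
    intro l hl
    rw [Subgroup.mem_centralizer_iff]
    rintro _ rfl
    exact Subgroup.mem_centralizer_iff.1 (hK (hBK hb)) l hl |>.symm
  have hBM : B ≤ M := by
    intro b hb
    by_cases hb1 : b = 1
    · rw [hb1]; exact one_mem _
    · apply hcen b hb hb1
      rw [Subgroup.mem_centralizer_iff]
      rintro _ rfl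
      rfl
  have hB' := uniq_of_centralizers hG hM hBM (isPGroup_of_ea hBe) hBe.1 (not_cyclic_of_ea hBe hBcard) hcen
  refine uniq_of_le hB' hBK ?_
  rintro rfl
  have hL1 : L ≠ ⊥ := by
    rintro rfl
    exact not_uniq_bot hG hL
  obtain ⟨l, hl⟩ := Subgroup.ne_bot_iff_exists_ne_one.1 hL1
  have hl1 : (l : G) ≠ 1 := fun h => hl (Subtype.ext h)
  apply centralizer_singleton_ne_top hG hl1
  rw [eq_top_iff]
  intro g _
  rw [Subgroup.mem_centralizer_iff]
  rintro _ rfl
  exact (Subgroup.mem_centralizer_iff.1 (hK (Subgroup.mem_top g)) l l.2)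

/-- **S1400**. -/
theorem s1400_core (hG : IsMinSimpleOddOrder G) {p : ℕ} [hpf : Fact p.Prime] {A B : Subgroup G}
    (hAc : IsMulCommutative A) (hA3 : ¬ PRankLE p 2 ↥A) (hAU : InUniqueMaximal A)
    (hBp : IsPGroup p B) (hBnc : ¬ IsCyclic B) (hB3 : ¬ PRankLE p 2 ↥(centralizer (B : Set G))) :
    InUniqueMaximal B := by
  have hp : p.Prime := hpf.out
  obtain ⟨E₀, hE₀A, hE₀e, hE₀c⟩ := exists_E3 hA3
  have hlt3 : p < p ^ 3 := by
    calc p = p ^ 1 := (pow_one p).symm
      _ < p ^ 3 := Nat.pow_lt_pow_right hp.one_lt (by norm_num)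
  have hlt2 : p < p ^ 2 := by
    calc p = p ^ 1 := (pow_one p).symm
      _ < p ^ 2 := Nat.pow_lt_pow_right hp.one_lt (by norm_num)
  have hp2 : p ≠ 2 := by
    rintro rfl
    have h1 : 2 ∣ Nat.card E₀ := by
      rw [hE₀c]
      exact dvd_pow_self 2 (by norm_num)
    exact (Nat.not_even_iff_odd.2 (odd_card_subgroup hG E₀)) (even_iff_two_dvd.2 h1)
  have hE₀U : InUniqueMaximal E₀ := uniq_of_centralizer hG hAU
    (hE₀A.trans (le_centralizer_of_comm hAc)) (not_rankLE_one_of_ea hE₀e (by omega))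
  obtain ⟨S, hS⟩ := (isPGroup_of_ea hE₀e).exists_le_sylow
  have hSnc : ¬ IsCyclic (S : Subgroup G) := by
    intro h
    apply not_cyclic_of_ea hE₀e (by omega)
    exact isCyclic_of_injective (Subgroup.inclusion hS) (Subgroup.inclusion_injective hS)
  obtain ⟨N₀, hN₀n, hN₀e, hN₀c⟩ := Cfsg.Agent.Lib.Transfer.exists_normal_elementary_sq hp2 S.isPGroup' hSnc
  haveI := hN₀n
  have hNe : IsElementaryAbelian p (N₀.map (S : Subgroup G).subtype) := ea_map_subtype hN₀e.1 hN₀e.2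
  set N := N₀.map (S : Subgroup G).subtype with hN
  have hNc : p < Nat.card N := by rw [card_map_subtype, hN₀c]; exact hlt2
  -- the link between elementary abelian subgroups of order `p³` and `N`
  have hlink : ∀ E : Subgroup G, E ≤ (S : Subgroup G) → IsElementaryAbelian p E → Nat.card E = p ^ 3 →
      ∃ B₁ : Subgroup G, B₁ ≤ E ∧ B₁ ≤ centralizer (N : Set G) ∧ ¬ RankLE 1 B₁ := by
    intro E hES hEe hEc
    have h1 := Cfsg.Agent.Lib.Components.card_le_mul_card_inf_centralizer S.isPGroup' (E.subgroupOf (S : Subgroup G)) N₀ hN₀c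
    have h2 : Nat.card (E.subgroupOf (S : Subgroup G)) = p ^ 3 := by
      rw [← hEc]
      exact Nat.card_congr (subgroupOfEquivOfLe hES).toEquiv
    rw [h2] at h1
    set C₀ : Subgroup (S : Subgroup G) := E.subgroupOf (S : Subgroup G) ⊓ centralizer (N₀ : Set (S : Subgroup G)) with hC₀
    have h3 : p * p ^ 2 ≤ p * Nat.card C₀ := by
      rw [show p * p ^ 2 = p ^ 3 by ring]
      exact h1
    have h4 : p ^ 2 ≤ Nat.card C₀ := Nat.le_of_mul_le_mul_left h3 hp.pos
    have hle : C₀.map (S : Subgroup G).subtype ≤ E := by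
      rintro _ ⟨x, hx, rfl⟩
      exact Subgroup.mem_subgroupOf.1 hx.1
    refine ⟨C₀.map (S : Subgroup G).subtype, hle, ?_, not_rankLE_one_of_ea (ea_mono hEe hle) ?_⟩
    · rintro _ ⟨x, hx, rfl⟩
      rw [Subgroup.mem_centralizer_iff]
      rintro _ ⟨n, hn, rfl⟩
      exact congrArg Subtype.val (Subgroup.mem_centralizer_iff.1 hx.2 n hn)
    · rw [card_map_subtype]
      omega
  have hNU : InUniqueMaximal N := by
    obtain ⟨B₁, h1, h2, h3⟩ := hlink E₀ hS hE₀e hE₀c
    have h4 := uniq_of_centralizer hG hE₀U (h1.trans (le_centralizer_of_comm hE₀e.1)) h3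
    exact uniq_of_centralizer hG h4 (le_centralizer_symm h2) (not_rankLE_one_of_ea hNe hNc)
  have hall : ∀ E : Subgroup G, E ≤ (S : Subgroup G) → IsElementaryAbelian p E → Nat.card E = p ^ 3 →
      InUniqueMaximal E := by
    intro E hES hEe hEc
    obtain ⟨B₁, h1, h2, h3⟩ := hlink E hES hEe hEc
    have h4 := uniq_of_centralizer hG hNU h2 h3
    refine uniq_of_centralizer hG h4 (le_centralizer_symm (h1.trans (le_centralizer_of_comm hEe.1))) ?_
    exact not_rankLE_one_of_ea hEe (by omega)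
  obtain ⟨X, hXB, hXe, hXc⟩ := exists_E3 hB3
  have hXU : InUniqueMaximal X := by
    obtain ⟨m, -, hm⟩ := exists_conj_sylow_ge (M := ⊤) S le_top (isPGroup_of_ea hXe) le_top
    have h1 : X.map (MulAut.conj m⁻¹).toMonoidHom ≤ (S : Subgroup G) := by
      have := conj_map_mono hm m⁻¹
      rwa [conj_map_conj_map, inv_mul_cancel, conj_map_one] at this
    have h2 : IsElementaryAbelian p (X.map (MulAut.conj m⁻¹).toMonoidHom) := by
      refine ⟨⟨⟨?_⟩⟩, ?_⟩
      · rintro ⟨_, a, ha, rfl⟩ ⟨_, b, hb, rfl⟩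
        apply Subtype.ext
        have := hXe.1.is_comm.comm ⟨a, ha⟩ ⟨b, hb⟩
        have h3 : a * b = b * a := congrArg Subtype.val this
        show (MulAut.conj m⁻¹) a * (MulAut.conj m⁻¹) b = (MulAut.conj m⁻¹) b * (MulAut.conj m⁻¹) a
        rw [← map_mul, ← map_mul, h3]
      · rintro _ ⟨a, ha, rfl⟩
        show ((MulAut.conj m⁻¹) a) ^ p = 1
        rw [← map_pow, hXe.2 a ha, map_one]
    have h3 := hall _ h1 h2 (by rw [Cfsg.Agent.Lib.Coprime.card_conj_map, hXc])
    have h4 := uniq_conj h3 m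
    rwa [conj_map_conj_map, mul_inv_cancel, conj_map_one] at h4
  have hBr : ¬ RankLE 1 B := by
    intro h
    obtain ⟨N₁, -, hN₁e, hN₁c⟩ := Cfsg.Agent.Lib.Transfer.exists_normal_elementary_sq hp2 hBp hBnc
    have h1 := h p hp N₁ hN₁e.1 hN₁e.2
    rw [hN₁c, pow_one] at h1
    omega
  exact uniq_of_centralizer hG hXU (le_centralizer_symm hXB) hBr

end Cfsg.Agent.Lib.FT
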