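import Cfsg.Agent.Lib.FT.BG9U1
import Cfsg.Agent.Lib.FT.BG9c
import Cfsg.Agent.Lib.Components.Signal
import Cfsg.Agent.Lib.OddLocal.Trans2
import Cfsg.Agent.Lib.OddLocal.Trans3
import Cfsg.Agent.Lib.Coprime.Sylow
import Cfsg.Agent.Lib.FT.Trans396

/-!
BG section 9: the heart of the Uniqueness Theorem.  The setting and the low rank case.
-/

set_option autoImplicit false
set_option linter.unusedSectionVars false
set_option linter.style.haveILetI false

namespace Cfsg.Agent.Lib.FT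

open Subgroup Cfsg Cfsg.Agent.Lib.OddLocal
open scoped commutatorElement

open Cfsg.Agent.Lib.Coprime (mem_conj_map conj_mem_conj_map conj_map_conj_map conj_map_one
  conj_map_mono mem_normalizer_of_conj_le conj_map_eq_iff_mem_normalizer isPGroup_conj_map CoprimeAction)
open Cfsg.Agent.Lib.PGroups (exists_orderOf_of_mem_isPGroup mem_of_primary_powers)

universe u

variable {G : Type u} [Group G] [Finite G]

section General

/-- A conjugating element normalizing both terms normalizes a commutator. -/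
theorem mem_normalizer_commutator {X Y : Subgroup G} {g : G} (hX : g ∈ normalizer (X : Set G))
    (hY : g ∈ normalizer (Y : Set G)) : g ∈ normalizer ((⁅X, Y⁆ : Subgroup G) : Set G) := by
  rw [← conj_map_eq_iff_mem_normalizer] at hX hY ⊢
  rw [Subgroup.map_commutator, hX, hY]

/-- A conjugating element normalizing all terms normalizes a supremum. -/
theorem mem_normalizer_iSup {ι : Sort*} {X : ι → Subgroup G} {g : G} (h : ∀ i, g ∈ normalizer (X i : Set G)) :
    g ∈ normalizer ((⨆ i, X i : Subgroup G) : Set G) := by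
  rw [← conj_map_eq_iff_mem_normalizer, Subgroup.map_iSup]
  exact iSup_congr fun i => (conj_map_eq_iff_mem_normalizer _ _).2 (h i)

theorem centralizer_singleton_ne_top (hG : IsMinSimpleOddOrder G) {x : G} (hx : x ≠ 1) :
    centralizer ({x} : Set G) ≠ ⊤ := by
  intro h
  have h1 : x ∈ center G := by
    rw [Subgroup.mem_center_iff]
    intro g
    have hg : g ∈ centralizer ({x} : Set G) := h ▸ Subgroup.mem_top g
    exact (Subgroup.mem_centralizer_iff.1 hg x rfl).symm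
  have hc : center G = ⊤ := by
    rcases IsMinSimpleOddOrder.normal_eq hG (N := center G) inferInstance with h2 | h2
    · rw [h2] at h1
      exact absurd (Subgroup.mem_bot.1 h1) hx
    · exact h2
  apply hG.2.2.1
  refine ⟨⟨fun a b => ?_⟩⟩
  have h1 : a ∈ center G := hc ▸ Subgroup.mem_top a
  exact (Subgroup.mem_center_iff.1 h1 b).symm

theorem centralizer_le_of_mem {X : Subgroup G} {x : G} (hx : x ∈ X) :
    centralizer (X : Set G) ≤ centralizer ({x} : Set G) :=
  Subgroup.centralizer_le (Set.singleton_subset_iff.2 hx)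

theorem centralizer_ne_top_of_ne_bot (hG : IsMinSimpleOddOrder G) {X : Subgroup G} (hX : X ≠ ⊥) :
    centralizer (X : Set G) ≠ ⊤ := by
  obtain ⟨x, hx, hx1⟩ := X.bot_or_exists_ne_one.resolve_left hX
  intro h
  apply centralizer_singleton_ne_top hG hx1
  rw [eq_top_iff, ← h]
  exact centralizer_le_of_mem hx

theorem mem_centralizer_sup {X Y : Subgroup G} {g : G} (hX : g ∈ centralizer (X : Set G))
    (hY : g ∈ centralizer (Y : Set G)) : g ∈ centralizer ((X ⊔ Y : Subgroup G) : Set G) := by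
  have h1 : X ⊔ Y ≤ centralizer ({g} : Set G) := by
    apply sup_le
    · intro x hx
      rw [Subgroup.mem_centralizer_iff]
      rintro y rfl
      exact (Subgroup.mem_centralizer_iff.1 hX x hx).symm
    · intro x hx
      rw [Subgroup.mem_centralizer_iff]
      rintro y rfl
      exact (Subgroup.mem_centralizer_iff.1 hY x hx).symm
  rw [Subgroup.mem_centralizer_iff]
  intro x hx
  exact (Subgroup.mem_centralizer_iff.1 (h1 hx) g rfl).symm

end General

/-- The hyperplanes of an elementary abelian group of order `p³`. -/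
def Hyp (p : ℕ) (A₀ : Subgroup G) : Set (Subgroup G) := {B | B ≤ A₀ ∧ Nat.card B = p ^ 2}

section Lattice

variable {p : ℕ} [hpf : Fact p.Prime] {A₀ B B' : Subgroup G}

theorem hyp_relIndex (hA₀ : Nat.card A₀ = p ^ 3) (hB : B ∈ Hyp p A₀) : B.relIndex A₀ = p := by
  have hp : p.Prime := hpf.out
  have h1 := Cfsg.Agent.Lib.Coprime.card_mul_relIndex hB.1
  rw [hB.2, hA₀] at h1
  have h2 : p ^ 2 * B.relIndex A₀ = p ^ 2 * p := by rw [h1]; ring
  exact Nat.eq_of_mul_eq_mul_left (pow_pos hp.pos 2) h2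

theorem hyp_inf_ne_bot (hA₀ : Nat.card A₀ = p ^ 3) (hB : B ∈ Hyp p A₀) (hB' : B' ∈ Hyp p A₀) : B ⊓ B' ≠ ⊥ := by
  have hp : p.Prime := hpf.out
  intro h
  have h1 := Subgroup.relIndex_inf_le (H := B) (K := B') (L := A₀)
  rw [h, hyp_relIndex hA₀ hB, hyp_relIndex hA₀ hB', Subgroup.relIndex_bot_left, hA₀] at h1
  have h2 : p ^ 2 < p ^ 3 := Nat.pow_lt_pow_right hp.one_lt (by norm_num)
  nlinarith

theorem hyp_sup_eq (hA₀ : Nat.card A₀ = p ^ 3) (hB : B ∈ Hyp p A₀) (hB' : B' ∈ Hyp p A₀) (hne : B ≠ B') :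
    B ⊔ B' = A₀ := by
  have hp : p.Prime := hpf.out
  have hle : B ⊔ B' ≤ A₀ := sup_le hB.1 hB'.1
  have hlt : B < B ⊔ B' := by
    refine lt_of_le_of_ne le_sup_left fun h => hne ?_
    have h2 : B' ≤ B := by rw [h]; exact le_sup_right
    exact (Subgroup.eq_of_le_of_card_ge h2 (by rw [hB.2, hB'.2])).symm
  have h1 := Cfsg.Agent.Lib.OddLocal.card_lt_of_subgroup_lt hlt
  rw [hB.2] at h1
  have h2 : Nat.card ↥(B ⊔ B') ∣ p ^ 3 := by rw [← hA₀]; exact Subgroup.card_dvd_of_le hle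
  obtain ⟨k, hk, hk2⟩ := (Nat.dvd_prime_pow hp).1 h2
  rw [hk2] at h1
  have h3 : 2 < k := (Nat.pow_lt_pow_iff_right hp.one_lt).1 h1
  have h4 : k = 3 := by omega
  subst h4
  exact Subgroup.eq_of_le_of_card_ge hle (by rw [hk2, hA₀])

theorem hyp_inf_card (hA₀ : Nat.card A₀ = p ^ 3) (hB : B ∈ Hyp p A₀) (hB' : B' ∈ Hyp p A₀) (hne : B ≠ B') :
    Nat.card ↥(B ⊓ B') = p := by
  have hp : p.Prime := hpf.out
  have hlt : B ⊓ B' < B := by
    refine lt_of_le_of_ne inf_le_left fun h => hne ?_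
    have h2 : B ≤ B' := inf_eq_left.1 h
    exact Subgroup.eq_of_le_of_card_ge h2 (by rw [hB.2, hB'.2])
  have h1 := Cfsg.Agent.Lib.OddLocal.card_lt_of_subgroup_lt hlt
  rw [hB.2] at h1
  have h2 : Nat.card ↥(B ⊓ B') ∣ p ^ 2 := by rw [← hB.2]; exact Subgroup.card_dvd_of_le inf_le_left
  obtain ⟨k, hk, hk2⟩ := (Nat.dvd_prime_pow hp).1 h2
  rw [hk2] at h1
  have h3 : k < 2 := (Nat.pow_lt_pow_iff_right hp.one_lt).1 h1
  have h5 : k ≠ 0 := by
    rintro rfl
    rw [pow_zero, Subgroup.card_eq_one] at hk2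
    exact hyp_inf_ne_bot hA₀ hB hB' hk2
  have h4 : k = 1 := by omega
  rw [hk2, h4, pow_one]

/-- A subgroup of index at most `p` contains a hyperplane. -/
theorem exists_hyp_le (hA₀ : Nat.card A₀ = p ^ 3) {B : Subgroup G} (hB : B ≤ A₀) (hi : B.relIndex A₀ ≤ p) :
    ∃ B' ∈ Hyp p A₀, B' ≤ B := by
  have hp : p.Prime := hpf.out
  have h1 := Cfsg.Agent.Lib.Coprime.card_mul_relIndex hB
  rw [hA₀] at h1
  have h2 : Nat.card B ∣ p ^ 3 := by rw [← hA₀]; exact Subgroup.card_dvd_of_le hB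
  obtain ⟨k, hk, hk2⟩ := (Nat.dvd_prime_pow hp).1 h2
  have hk3 : 2 ≤ k := by
    by_contra hlt
    push Not at hlt
    have h3 : k ≤ 1 := by omega
    have h4 : p ^ k ≤ p := by
      calc p ^ k ≤ p ^ 1 := Nat.pow_le_pow_right hp.pos h3
        _ = p := pow_one p
    have h5 : p ^ k * B.relIndex A₀ ≤ p * p := Nat.mul_le_mul h4 hi
    rw [hk2] at h1
    rw [h1] at h5
    have h6 : p ^ 3 = p * p * p := by ring
    rw [h6] at h5
    have h7 : p * p * 1 < p * p * p := Nat.mul_lt_mul_of_pos_left hp.one_lt (Nat.mul_pos hp.pos hp.pos)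
    omega
  have h8 : p ^ 2 ∣ Nat.card B := by
    rw [hk2]
    exact pow_dvd_pow p hk3
  obtain ⟨K, hK⟩ := Sylow.exists_subgroup_card_pow_prime (G := ↥B) p h8
  refine ⟨K.map B.subtype, ⟨(Subgroup.map_subtype_le K).trans hB, ?_⟩, Subgroup.map_subtype_le K⟩
  rw [Cfsg.Agent.Lib.OddLocal.card_map_subtype]
  exact hK

/-- Generation by the centralizers of hyperplanes. -/
theorem le_iSup_hyp (hA₀e : IsElementaryAbelian p A₀) (hA₀ : Nat.card A₀ = p ^ 3) {Y : Subgroup G}
    (hY : (Nat.card Y).Coprime p) (hAY : A₀ ≤ normalizer (Y : Set G)) :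
    Y ≤ ⨆ B ∈ Hyp p A₀, Y ⊓ centralizer (B : Set G) := by
  have hp : p.Prime := hpf.out
  have hnd : ¬ p ∣ Nat.card Y := fun h => hp.one_lt.ne' (Nat.eq_one_of_dvd_coprimes hY h (dvd_refl p))
  refine (Cfsg.Agent.Lib.Components.le_iSup_centralizer_hyperplane hA₀e hnd hAY).trans (iSup_le fun B => ?_)
  obtain ⟨B', hB', hle⟩ := exists_hyp_le hA₀ B.2.1 B.2.2
  refine le_trans ?_ (le_iSup₂ (f := fun B (_ : B ∈ Hyp p A₀) => Y ⊓ centralizer (B : Set G)) B' hB')
  exact inf_le_inf_left _ (Subgroup.centralizer_le hle)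

end Lattice

/-- The setting of the heart of the Uniqueness Theorem. -/
structure U3Setup (p : ℕ) (A A₀ : Subgroup G) : Prop where
  hG : IsMinSimpleOddOrder G
  hth : TransitivityHypothesis A
  hcomm : IsMulCommutative A
  hAp : IsPGroup p A
  hA₀A : A₀ ≤ A
  hA₀e : IsElementaryAbelian p A₀
  hA₀c : Nat.card A₀ = p ^ 3

namespace U3Setup

variable {p : ℕ} [hpf : Fact p.Prime] {A A₀ : Subgroup G} (S : U3Setup p A A₀)

local notation "π'" => primesNotDvd (Nat.card A)
local notation "𝐊" => piCoreOf (primesNotDvd (Nat.card A)) (centralizer (A : Set G))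

include S

theorem hp2 : p ≠ 2 := by
  rintro rfl
  have h1 : 2 ∣ Nat.card A₀ := by
    rw [S.hA₀c]
    exact dvd_pow_self 2 (by norm_num)
  exact (Nat.not_even_iff_odd.2 (odd_card_subgroup S.hG A₀)) (even_iff_two_dvd.2 h1)

theorem hA1 : A ≠ ⊥ := S.hth.1

theorem hAtop : A ≠ ⊤ := S.hth.2.1

theorem hdvd : p ∣ Nat.card A := by
  obtain ⟨n, hn⟩ := IsPGroup.iff_card.1 S.hAp
  rw [hn]
  refine dvd_pow_self p ?_
  rintro rfl
  have h1 : Nat.card A = 1 := by simpa using hn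
  exact S.hA1 ((Subgroup.card_eq_one).1 h1)

theorem isPi_of_coprime {Y : Subgroup G} (hY : (Nat.card Y).Coprime p) : IsPiSub (primesNotDvd (Nat.card A)) Y := by
  have hp : p.Prime := hpf.out
  intro q hq hd
  refine ⟨hq, fun hdA => ?_⟩
  obtain ⟨n, hn⟩ := IsPGroup.iff_card.1 S.hAp
  rw [hn] at hdA
  have h1 : q = p := (Nat.prime_dvd_prime_iff_eq hq hp).1 (hq.dvd_of_dvd_pow hdA)
  subst h1
  exact hq.one_lt.ne' (Nat.eq_one_of_dvd_coprimes hY hd (dvd_refl q))

theorem coprime_of_isPi {Y : Subgroup G} (hY : IsPiSub (primesNotDvd (Nat.card A)) Y) : (Nat.card Y).Coprime p := by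
  have hp : p.Prime := hpf.out
  rw [Nat.coprime_comm, Nat.Prime.coprime_iff_not_dvd hp]
  intro hd
  exact (hY p hp hd).2 S.hdvd

theorem not_dvd_of_ne {q : ℕ} (hq : q.Prime) (hqp : q ≠ p) : ¬ q ∣ Nat.card A := by
  have hp : p.Prime := hpf.out
  intro hdA
  obtain ⟨n, hn⟩ := IsPGroup.iff_card.1 S.hAp
  rw [hn] at hdA
  exact hqp ((Nat.prime_dvd_prime_iff_eq hq hp).1 (hq.dvd_of_dvd_pow hdA))

theorem hAC : A ≤ centralizer (A : Set G) := le_centralizer_of_comm S.hcomm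

theorem hA₀1 : A₀ ≠ ⊥ := by
  have hp : p.Prime := hpf.out
  rintro rfl
  have h := S.hA₀c
  rw [Subgroup.card_bot] at h
  have : 1 < p ^ 3 := Nat.one_lt_pow (by norm_num) hp.one_lt
  omega

theorem hZ : ¬ RankLE 2 ↥(A ⊓ centralizer (A : Set G)) := by
  have hp : p.Prime := hpf.out
  have hle : A₀ ≤ A ⊓ centralizer (A : Set G) := le_inf S.hA₀A (S.hA₀A.trans S.hAC)
  intro h
  have h1 := h p hp
  refine Cfsg.Agent.Lib.Components.not_rank_of_le hle S.hA₀e ?_ h1
  rw [S.hA₀c]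
  exact Nat.pow_lt_pow_right hp.one_lt (by norm_num)

theorem hodd (X : Subgroup G) : Odd (Nat.card X) := odd_card_subgroup S.hG X

theorem hsolv {X : Subgroup G} (hX : X ≠ ⊤) : Group.IsSolvable X := IsMinSimpleOddOrder.isSolvable S.hG hX

/-- `(★)`: `A`-invariant `p'`-subgroups of a proper overgroup `X` of `A` lie in `O_{p'}(X)`. -/
theorem star {X Y : Subgroup G} (hX : X ≠ ⊤) (hAX : A ≤ X) (hYX : Y ≤ X) (hY : (Nat.card Y).Coprime p)
    (hAY : A ≤ normalizer (Y : Set G)) : Y ≤ piCoreOf (primesNotDvd (Nat.card A)) X :=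
  mem_piCoreOf_of_inv S.hth hX hAX hYX (S.isPi_of_coprime hY) hAY

theorem A_le_cent {D : Subgroup G} (hD : D ≤ A) : A ≤ centralizer (D : Set G) :=
  S.hAC.trans (Subgroup.centralizer_le hD)

theorem cent_ne_top {D : Subgroup G} (hD : D ≠ ⊥) : centralizer (D : Set G) ≠ ⊤ :=
  centralizer_ne_top_of_ne_bot S.hG hD

theorem K_le_cent : 𝐊 ≤ centralizer (A : Set G) := piCoreOf_le _ _

theorem K_coprime : (Nat.card 𝐊).Coprime p := S.coprime_of_isPi (piCoreOf_isPi _ _)

theorem K_inv : A ≤ normalizer (𝐊 : Set G) := normalizes_of_le_centralizer (piCoreOf_le _ _)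

theorem le_K {L : Subgroup G} (hLC : L ≤ centralizer (A : Set G)) (hL : (Nat.card L).Coprime p) : L ≤ 𝐊 :=
  le_kCore S.hG S.hth hLC (S.isPi_of_coprime hL)

theorem K_le_core {D X : Subgroup G} (hD : D ≤ A) (hXt : X ≠ ⊤) (hX : centralizer (D : Set G) ≤ X) :
    𝐊 ≤ piCoreOf (primesNotDvd (Nat.card A)) X := by
  have hAX : A ≤ X := (S.A_le_cent hD).trans hX
  refine S.star hXt hAX ?_ S.K_coprime S.K_inv
  exact (piCoreOf_le _ _).trans ((Subgroup.centralizer_le hD).trans hX)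

/-- Coprime action of `A` on a `p'`-group. -/
theorem action {X : Subgroup G} (hAX : A ≤ normalizer (X : Set G)) (hX : (Nat.card X).Coprime p) :
    CoprimeAction A X where
  normalizes := hAX
  coprime := by
    obtain ⟨n, hn⟩ := IsPGroup.iff_card.1 S.hAp
    rw [hn]
    exact (Nat.Coprime.pow_right n hX).symm
  solvable := by
    left
    haveI := S.hAp.isNilpotent
    infer_instance

/-- The `K`-conjugacy of the maximal `A`-invariant `q`-subgroups. -/
theorem trans_K {q : ℕ} (hq : q.Prime) (hqp : q ≠ p) {Q₁ Q₂ : Subgroup G} (h₁ : Q₁ ∈ maxInvSubgroups ⊤ A {q})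
    (h₂ : Q₂ ∈ maxInvSubgroups ⊤ A {q}) : ∃ k ∈ 𝐊, Q₂ = Q₁.map (MulAut.conj k).toMonoidHom :=
  transitivity_rank_three S.hG S.hth S.hZ q hq (S.not_dvd_of_ne hq hqp) Q₁ Q₂ h₁ h₂

theorem mem_inv {q : ℕ} (hq : q.Prime) {Q : Subgroup G} (hQ : IsPGroup q Q) (hA : A ≤ normalizer (Q : Set G)) :
    Q ∈ invSubgroups ⊤ A {q} :=
  ⟨le_top, (isPiSub_singleton_iff hq).2 hQ, hA⟩

/-- An `A`-invariant, `K`-invariant `q`-subgroup lies in every member of `|A|*(q)`. -/
theorem le_of_K_inv {q : ℕ} (hq : q.Prime) (hqp : q ≠ p) {W Q : Subgroup G} (hW : IsPGroup q W)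
    (hAW : A ≤ normalizer (W : Set G)) (hKW : 𝐊 ≤ normalizer (W : Set G)) (hQ : Q ∈ maxInvSubgroups ⊤ A {q}) :
    W ≤ Q := by
  obtain ⟨Q', hQ', hWQ'⟩ := exists_maxInv_ge (S.mem_inv hq hW hAW)
  obtain ⟨k, hk, e⟩ := S.trans_K hq hqp hQ' hQ
  rw [e, ← (conj_map_eq_iff_mem_normalizer W k).2 (hKW hk)]
  exact conj_map_mono hWQ' k

theorem isPGroup_of_maxInv {q : ℕ} (hq : q.Prime) {Q : Subgroup G} (hQ : Q ∈ maxInvSubgroups ⊤ A {q}) : IsPGroup q Q :=
  (isPiSub_singleton_iff hq).1 hQ.1.2.1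

theorem exists_maxInv {q : ℕ} (hq : q.Prime) : ∃ Q, Q ∈ maxInvSubgroups ⊤ A {q} := by
  obtain ⟨Q, hQ, -⟩ := exists_maxInv_ge (A := A) (X := ⊤) (T := ⊥) (q := q)
    ⟨le_top, isPiSub_bot _, by
      rw [Subgroup.normalizer_eq_top_iff.2 inferInstance]
      exact le_top⟩
  exact ⟨Q, hQ⟩

/-! ### The subgroups `θ(B) = O_{p'}(C_G(B))` -/

theorem theta_le (B : Subgroup G) : piCoreOf (primesNotDvd (Nat.card A)) (centralizer (B : Set G)) ≤
    centralizer (B : Set G) := piCoreOf_le _ _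

theorem theta_coprime (X : Subgroup G) : (Nat.card (piCoreOf (primesNotDvd (Nat.card A)) X)).Coprime p :=
  S.coprime_of_isPi (piCoreOf_isPi _ _)

theorem A_inv_core {X : Subgroup G} (hAX : A ≤ X) : A ≤ normalizer (piCoreOf (primesNotDvd (Nat.card A)) X : Set G) :=
  hAX.trans (le_normalizer_piCoreOf _ X)

theorem K_le_normalizer_of_le {D X : Subgroup G} (hD : D ≤ A) (hX : centralizer (D : Set G) ≤ X) :
    𝐊 ≤ normalizer (piCoreOf (primesNotDvd (Nat.card A)) X : Set G) :=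
  ((piCoreOf_le _ _).trans ((Subgroup.centralizer_le hD).trans hX)).trans (le_normalizer_piCoreOf _ X)

theorem K_le_normalizer_A : 𝐊 ≤ normalizer (A : Set G) :=
  (piCoreOf_le _ _).trans (centralizer_le_normalizer' A)

/-- `X = ⟨O_t(...)⟩`: an element of a nilpotent group lies in any subgroup containing all its primary parts. -/
theorem mem_of_Oq_le {N M : Subgroup G} (hN : Group.IsNilpotent N)
    (h : ∀ (t : ℕ) [Fact t.Prime], Oq t N ≤ M) : N ≤ M := by
  intro w hw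
  apply mem_of_primary_powers
  intro a ha hpp
  obtain ⟨t, l, ht, hl, hal⟩ := hpp
  haveI : Fact t.Prime := ⟨ht.nat_prime⟩
  exact h t (mem_Oq hN ((zpowers_le.2 hw) ha) (k := l) (by rw [hal]; exact pow_orderOf_eq_one a))

/-- The low rank case of the Uniqueness Theorem's heart. -/
theorem case2 (hlow : ∀ H : Subgroup G, IsCoatom H → A ≤ H → ∀ (t : ℕ) [Fact t.Prime],
    PRankLE t 2 ↥(Oq t (fittingOf (piCoreOf (primesNotDvd (Nat.card A)) H)))) : InUniqueMaximal A := by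
  have hp : p.Prime := hpf.out
  set θ : Subgroup G → Subgroup G := fun B => piCoreOf (primesNotDvd (Nat.card A)) (centralizer (B : Set G)) with hθ
  set n : Subgroup G → Subgroup G := fun B => ⁅θ B, A⁆ with hn
  have hHyp1 : ∀ B ∈ Hyp p A₀, B ≠ ⊥ := by
    intro B hB h
    have := hyp_inf_ne_bot S.hA₀c hB hB
    rw [inf_idem] at this
    exact this h
  have hHypA : ∀ B ∈ Hyp p A₀, B ≤ A := fun B hB => hB.1.trans S.hA₀A
  -- nilpotency of `[Y_H, A]`
  have hIH : ∀ H : Subgroup G, IsCoatom H → A ≤ H →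
      Group.IsNilpotent ↥⁅piCoreOf (primesNotDvd (Nat.card A)) H, A⁆ := by
    intro H hH hAH
    have hle : piCoreOf (primesNotDvd (Nat.card A)) H ⊔ A ≤ H := sup_le (piCoreOf_le _ _) hAH
    refine isNilpotent_comm_of_low (S.A_inv_core hAH) (solv_of_le hle (S.hsolv hH.1)) (S.hodd _) (hlow H hH hAH)
  -- two hyperplanes lie in a common local
  have hcommon : ∀ B ∈ Hyp p A₀, ∀ B' ∈ Hyp p A₀, ∃ H : Subgroup G, IsCoatom H ∧ A ≤ H ∧
      θ B ≤ piCoreOf (primesNotDvd (Nat.card A)) H ∧ θ B' ≤ piCoreOf (primesNotDvd (Nat.card A)) H := by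
    intro B hB B' hB'
    obtain ⟨a, ha, ha1⟩ := (B ⊓ B').bot_or_exists_ne_one.resolve_left (hyp_inf_ne_bot S.hA₀c hB hB')
    obtain ⟨H, hH, hCH⟩ := exists_coatom_ge (centralizer_singleton_ne_top S.hG ha1)
    have hA_c : A ≤ centralizer ({a} : Set G) := (S.A_le_cent (hHypA B hB)).trans (centralizer_le_of_mem ha.1)
    have hAH := hA_c.trans hCH
    refine ⟨H, hH, hAH, ?_, ?_⟩
    · refine S.star hH.1 hAH ?_ (S.theta_coprime _) (S.A_inv_core (S.A_le_cent (hHypA B hB)))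
      exact (piCoreOf_le _ _).trans ((centralizer_le_of_mem ha.1).trans hCH)
    · refine S.star hH.1 hAH ?_ (S.theta_coprime _) (S.A_inv_core (S.A_le_cent (hHypA B' hB')))
      exact (piCoreOf_le _ _).trans ((centralizer_le_of_mem ha.2).trans hCH)
  have hnil : ∀ B ∈ Hyp p A₀, Group.IsNilpotent ↥(n B) := by
    intro B hB
    obtain ⟨H, hH, hAH, h1, -⟩ := hcommon B hB B hB
    exact nilp_of_le (Subgroup.commutator_mono h1 le_rfl) (hIH H hH hAH)
  have hAn : ∀ B ∈ Hyp p A₀, A ≤ normalizer (n B : Set G) := fun B hB a ha =>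
    mem_normalizer_commutator (S.A_inv_core (S.A_le_cent (hHypA B hB)) ha) (Subgroup.le_normalizer ha)
  have hKn : ∀ B ∈ Hyp p A₀, 𝐊 ≤ normalizer (n B : Set G) := fun B hB k hk =>
    mem_normalizer_commutator (S.K_le_normalizer_of_le (hHypA B hB) le_rfl hk) (S.K_le_normalizer_A hk)
  have hnθ : ∀ B ∈ Hyp p A₀, n B ≤ θ B := fun B hB =>
    (S.action (S.A_inv_core (S.A_le_cent (hHypA B hB))) (S.theta_coprime _)).commutator_le_self
  have hAP : ∀ (t : ℕ) [Fact t.Prime], ∀ B ∈ Hyp p A₀, A ≤ normalizer (Oq t (n B) : Set G) := fun t _ B hB a ha =>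
    mem_normalizer_Oq (hnil B hB) (hAn B hB ha)
  have hKP : ∀ (t : ℕ) [Fact t.Prime], ∀ B ∈ Hyp p A₀, 𝐊 ≤ normalizer (Oq t (n B) : Set G) := fun t _ B hB k hk =>
    mem_normalizer_Oq (hnil B hB) (hKn B hB hk)
  -- commutation of different primes
  have hcomm' : ∀ (r s : ℕ) [Fact r.Prime] [Fact s.Prime], r ≠ s → ∀ B ∈ Hyp p A₀, ∀ B' ∈ Hyp p A₀,
      ∀ x ∈ Oq r (n B), ∀ y ∈ Oq s (n B'), x * y = y * x := by
    intro r s _ _ hrs B hB B' hB' x hx y hy
    obtain ⟨H, hH, hAH, h1, h2⟩ := hcommon B hB B' hB'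
    have hxI : x ∈ ⁅piCoreOf (primesNotDvd (Nat.card A)) H, A⁆ :=
      Subgroup.commutator_mono h1 le_rfl (Oq_le _ _ hx)
    have hyI : y ∈ ⁅piCoreOf (primesNotDvd (Nat.card A)) H, A⁆ :=
      Subgroup.commutator_mono h2 le_rfl (Oq_le _ _ hy)
    refine comm_of_coprime_of_nilpotent_subgroup (hIH H hH hAH) hxI hyI ?_
    obtain ⟨k, hk⟩ := exists_orderOf_of_mem_isPGroup (Oq_isPGroup r _) hx
    obtain ⟨l, hl⟩ := exists_orderOf_of_mem_isPGroup (Oq_isPGroup s _) hy
    rw [hk, hl]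
    exact Nat.Coprime.pow k l ((Nat.coprime_primes Fact.out Fact.out).2 hrs)
  -- the target maximal subgroup
  obtain ⟨M, hM, hAM, hKM, hPM⟩ : ∃ M : Subgroup G, IsCoatom M ∧ A ≤ M ∧ 𝐊 ≤ M ∧
      ∀ B ∈ Hyp p A₀, ∀ (t : ℕ) [Fact t.Prime], Oq t (n B) ≤ M := by
    by_cases hall : ∀ B ∈ Hyp p A₀, ∀ (t : ℕ) [Fact t.Prime], Oq t (n B) = ⊥
    · by_cases hK : 𝐊 = ⊥
      · obtain ⟨M, hM, hAM⟩ := exists_coatom_ge S.hAtop
        exact ⟨M, hM, hAM, by rw [hK]; exact bot_le, fun B hB t _ => by rw [hall B hB t]; exact bot_le⟩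
      · have hKt : 𝐊 ≠ ⊤ := by
          intro h
          apply S.cent_ne_top S.hA1
          rw [eq_top_iff, ← h]
          exact S.K_le_cent
        obtain ⟨M, hM, hNM⟩ := exists_coatom_ge (IsMinSimpleOddOrder.normalizer_ne_top S.hG hK hKt)
        exact ⟨M, hM, S.K_inv.trans hNM, Subgroup.le_normalizer.trans hNM,
          fun B hB t _ => by rw [hall B hB t]; exact bot_le⟩
    · push Not at hall
      obtain ⟨B₀, hB₀, r, hr, hne⟩ := hall
      haveI := hr
      have hrp' : r.Prime := hr.out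
      have hrp : r ≠ p := by
        rintro rfl
        apply hne
        rw [eq_bot_iff]
        intro x hx
        have h2 : x ∈ θ B₀ := hnθ B₀ hB₀ (Oq_le _ _ hx)
        exact Subgroup.mem_bot.2 (eq_one_of_mem_inf_of_isPGroup (S.theta_coprime _) (Oq_isPGroup r _) h2 hx)
      set T := ⨆ B ∈ Hyp p A₀, Oq r (n B) with hT
      obtain ⟨Q, hQ⟩ := S.exists_maxInv hrp'
      have hTQ : T ≤ Q := iSup₂_le fun B hB =>
        S.le_of_K_inv hrp' hrp (Oq_isPGroup r _) (hAP r B hB) (hKP r B hB) hQ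
      have hTp : IsPGroup r T := (S.isPGroup_of_maxInv hrp' hQ).to_le hTQ
      have hT1 : T ≠ ⊥ := by
        intro h
        apply hne
        rw [eq_bot_iff, ← h]
        exact le_iSup₂ (f := fun B (_ : B ∈ Hyp p A₀) => Oq r (n B)) B₀ hB₀
      have hTt : T ≠ ⊤ := IsMinSimpleOddOrder.ne_top_of_isPGroup S.hG hrp' hTp
      obtain ⟨M, hM, hNM⟩ := exists_coatom_ge (IsMinSimpleOddOrder.normalizer_ne_top S.hG hT1 hTt)
      have hAT : A ≤ normalizer (T : Set G) := fun a ha =>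
        mem_normalizer_iSup (fun B => mem_normalizer_iSup (fun hB => hAP r B hB ha))
      have hKT : 𝐊 ≤ normalizer (T : Set G) := fun k hk =>
        mem_normalizer_iSup (fun B => mem_normalizer_iSup (fun hB => hKP r B hB hk))
      refine ⟨M, hM, hAT.trans hNM, hKT.trans hNM, fun B hB t _ => ?_⟩
      by_cases htr : t = r
      · subst htr
        exact (le_iSup₂ (f := fun B (_ : B ∈ Hyp p A₀) => Oq t (n B)) B hB).trans (Subgroup.le_normalizer.trans hNM)
      · intro y hy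
        apply hNM
        apply centralizer_le_normalizer' T
        have hTc : T ≤ centralizer ({y} : Set G) := iSup₂_le fun B' hB' x hx =>
          Subgroup.mem_centralizer_iff.2 (by
            rintro u hu
            rw [Set.mem_singleton_iff] at hu
            subst hu
            exact hcomm' t r htr B hB B' hB' u hy x hx)
        rw [Subgroup.mem_centralizer_iff]
        intro x hx
        exact (Subgroup.mem_centralizer_iff.1 (hTc hx) y rfl).symm
  refine uniq_of_inv S.hG hM hAM S.hA1 S.hAp (fun Y hY hAY => ?_)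
  refine (le_iSup_hyp S.hA₀e S.hA₀c hY (S.hA₀A.trans hAY)).trans (iSup₂_le fun B hB => ?_)
  have hAC' : A ≤ centralizer (B : Set G) := S.A_le_cent (hHypA B hB)
  have hY' : Y ⊓ centralizer (B : Set G) ≤ θ B := by
    refine S.star (S.cent_ne_top (hHyp1 B hB)) hAC' inf_le_right
      (Nat.Coprime.coprime_dvd_left (Subgroup.card_dvd_of_le inf_le_left) hY) ?_
    intro a ha
    exact mem_normalizer_inf (hAY ha) (Subgroup.le_normalizer (hAC' ha))
  refine hY'.trans ?_
  have hact := S.action (S.A_inv_core hAC') (S.theta_coprime (centralizer (B : Set G)))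
  have h2 := hact.commutator_sup_centralizer
  refine (le_of_eq h2.symm).trans (sup_le (S.mem_of_Oq_le (hnil B hB) (hPM B hB)) ?_)
  exact (S.le_K inf_le_right (Nat.Coprime.coprime_dvd_left (Subgroup.card_dvd_of_le inf_le_left)
    (S.theta_coprime _))).trans hKM

end U3Setup

end Cfsg.Agent.Lib.FT
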