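import Cfsg.Agent.Lib.FT.BG10b
import Cfsg.Agent.Lib.OddLocal.Trans3
import Cfsg.Agent.S1457
import Cfsg.Agent.S1458
import Cfsg.Agent.S1452
import Cfsg.Agent.Lib.Transfer.Rank
import Cfsg.Agent.Lib.PLocal.GTFun
import Cfsg.Agent.Lib.Basic.Schmidt

/-!
BG section 9, generic tools: invariant `p'`-subgroups, Frattini factorizations for `O_{p',p}` and
`Z(J)`, fixed points on transitive families.
-/

set_option autoImplicit false
set_option linter.unusedSectionVars false
set_option linter.style.haveILetI false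

namespace Cfsg.Agent.Lib.FT

open Subgroup Cfsg Cfsg.Agent.Lib.OddLocal

open Cfsg.Agent.Lib.Coprime (mem_conj_map conj_mem_conj_map conj_map_conj_map conj_map_one
  conj_map_mono mem_normalizer_of_conj_le conj_map_eq_iff_mem_normalizer isPGroup_conj_map card_conj_map)

universe u

section X

variable {X : Type u} [Group X] [Finite X] {p : ℕ} [hpf : Fact p.Prime]

/-- A `p'`-element mapping into a `p`-group maps to `1`. -/
theorem bg9_map_eq_one {Y : Type*} [Group Y] (π : X →* Y) {R : Subgroup Y} (hR : IsPGroup p R) {x : X}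
    (hx : (orderOf x).Coprime p) (hxR : π x ∈ R) : π x = 1 := by
  have h1 : orderOf (π x) ∣ orderOf x := orderOf_map_dvd π x
  obtain ⟨k, hk⟩ := hR ⟨π x, hxR⟩
  have h2 : orderOf (π x) ∣ p ^ k := orderOf_dvd_of_pow_eq_one (congrArg Subtype.val hk)
  have h3 : (orderOf x).Coprime (p ^ k) := Nat.Coprime.pow_right k hx
  exact orderOf_eq_one_iff.1 (Nat.eq_one_of_dvd_coprimes h3 h1 h2)

/-- A `p'`-subgroup normalized by a Sylow `p`-subgroup of a solvable group lies in `O_{p'}`. -/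
theorem le_pPrimeCore_of_sylow_inv [Group.IsSolvable X] (S : Sylow p X) (Y : Subgroup X)
    (hY : (Nat.card Y).Coprime p) (hSY : (S : Subgroup X) ≤ normalizer (Y : Set X)) :
    Y ≤ pPrimeCore p X := by
  set N := pPrimeCore p X with hN
  haveI hNn : N.Normal := Cfsg.Agent.Lib.Basic.pPrimeCore_normal p
  let π := QuotientGroup.mk' N
  have hπs : Function.Surjective π := QuotientGroup.mk'_surjective N
  have hcore : pPrimeCore p (X ⧸ N) = ⊥ := pPrimeCore_quotient_eq_bot p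
  set R := pCore p (X ⧸ N) with hR
  have hRp : IsPGroup p R := Cfsg.Agent.Lib.Basic.pCore_isPGroup p
  haveI hRn : R.Normal := Cfsg.Agent.Lib.Basic.pCore_normal p
  have hRS : R ≤ ((S.mapSurjective hπs : Sylow p (X ⧸ N)) : Subgroup (X ⧸ N)) :=
    Cfsg.Agent.Lib.Basic.pCore_le_sylow _
  have hordY : ∀ y ∈ Y, (orderOf y).Coprime p := fun y hy =>
    Nat.Coprime.coprime_dvd_left (Subgroup.orderOf_dvd_natCard Y hy) hY
  have hcent : ∀ y ∈ Y, π y ∈ centralizer (R : Set (X ⧸ N)) := by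
    intro y hy
    rw [Subgroup.mem_centralizer_iff]
    intro r hr
    obtain ⟨s, hs, rfl⟩ := hRS hr
    have hc : y * s * y⁻¹ * s⁻¹ ∈ Y := by
      have h1 : s * y⁻¹ * s⁻¹ ∈ Y := (Subgroup.mem_normalizer_iff.1 (hSY hs) _).1 (inv_mem hy)
      have h2 : y * s * y⁻¹ * s⁻¹ = y * (s * y⁻¹ * s⁻¹) := by group
      rw [h2]
      exact mul_mem hy h1
    have hcR : π (y * s * y⁻¹ * s⁻¹) ∈ R := by
      have h1 : π y * π s * (π y)⁻¹ ∈ R := hRn.conj_mem _ hr _
      have h2 : π (y * s * y⁻¹ * s⁻¹) = π y * π s * (π y)⁻¹ * (π s)⁻¹ := by simp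
      rw [h2]
      exact mul_mem h1 (inv_mem hr)
    have h1 := bg9_map_eq_one π hRp (hordY _ hc) hcR
    have h2 : π y * π s * (π y)⁻¹ * (π s)⁻¹ = 1 := by simpa using h1
    have h3 : π y * π s = π s * π y := by
      have := mul_inv_eq_one.1 h2
      exact mul_inv_eq_iff_eq_mul.1 this
    exact h3.symm
  intro y hy
  have h1 : π y ∈ R := centralizer_pCore_le hcore (hcent y hy)
  have h2 := bg9_map_eq_one π hRp (hordY y hy) h1
  exact (QuotientGroup.eq_one_iff y).1 h2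

/-- Frattini factorization for a normal subgroup `C ⊔ O`, `O` a normal `p'`-subgroup and `C` a
`p`-subgroup. -/
theorem frattini_sup {C O : Subgroup X} (hO : O.Normal) (hC : IsPGroup p C)
    (hOc : (Nat.card O).Coprime p) (hN : (C ⊔ O).Normal) (h : X) :
    ∃ o ∈ O, o⁻¹ * h ∈ normalizer (C : Set X) := by
  have hp : p.Prime := hpf.out
  have hmax : IsMaxP p C (C ⊔ O) := by
    refine ⟨le_sup_left, hC, fun D' h1 h2 h3 => ?_⟩
    have h4 : Nat.card D' ∣ Nat.card C * Nat.card O :=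
      (Subgroup.card_dvd_of_le h1).trans (card_sup_dvd_of_normal C O hO)
    obtain ⟨k, hk⟩ := IsPGroup.iff_card.1 h2
    have h5 : (Nat.card D').Coprime (Nat.card O) := by
      rw [hk]
      exact (Nat.Coprime.pow_right k hOc).symm
    have h6 : Nat.card D' ∣ Nat.card C := h5.dvd_of_dvd_mul_right h4
    exact (Subgroup.eq_of_le_of_card_ge h3 (Nat.le_of_dvd Nat.card_pos h6)).symm
  have hconj : IsMaxP p (C.map (MulAut.conj h).toMonoidHom) (C ⊔ O) := by
    have h1 := hmax.conj h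
    have h2 : (C ⊔ O).map (MulAut.conj h).toMonoidHom = C ⊔ O :=
      (conj_map_eq_iff_mem_normalizer _ h).2 (by rw [Subgroup.normalizer_eq_top_iff.2 hN]; trivial)
    rwa [h2] at h1
  obtain ⟨n, hn, hnh⟩ := hmax.exists_conj_eq hconj
  haveI := hO
  obtain ⟨c, hc, o₁, ho₁, rfl⟩ := Subgroup.mem_sup_of_normal_right.1 hn
  refine ⟨c * o₁ * c⁻¹, hO.conj_mem _ ho₁ _, ?_⟩
  rw [← conj_map_eq_iff_mem_normalizer]
  have h1 : C.map (MulAut.conj (c * o₁)).toMonoidHom = C.map (MulAut.conj (c * o₁ * c⁻¹)).toMonoidHom := by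
    have h2 : c * o₁ = (c * o₁ * c⁻¹) * c := by group
    rw [h2, ← conj_map_conj_map, (conj_map_eq_iff_mem_normalizer C c).2 (Subgroup.le_normalizer hc)]
    simp only [mul_inv_cancel_right]
  rw [h1] at hnh
  have h3 : (c * o₁ * c⁻¹)⁻¹ * h = (c * o₁ * c⁻¹)⁻¹ * h := rfl
  rw [← conj_map_conj_map, ← hnh, conj_map_conj_map, inv_mul_cancel, conj_map_one]

/-- The Sylow decomposition of `O_{p',p}`. -/
theorem pPrimePCore_factor (S : Sylow p X) :
    ((S : Subgroup X) ⊓ pPrimePCore p X) ⊔ pPrimeCore p X = pPrimePCore p X := by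
  haveI hNn : (pPrimeCore p X).Normal := Cfsg.Agent.Lib.Basic.pPrimeCore_normal p
  apply le_antisymm (sup_le inf_le_right (pPrimeCore_le_pPrimePCore p))
  intro d hd
  let π := QuotientGroup.mk' (pPrimeCore p X)
  have hπs : Function.Surjective π := QuotientGroup.mk'_surjective _
  have h1 : π d ∈ pCore p (X ⧸ pPrimeCore p X) := hd
  obtain ⟨s, hs, hsd⟩ := Cfsg.Agent.Lib.Basic.pCore_le_sylow (S.mapSurjective hπs) h1
  have h2 : s⁻¹ * d ∈ pPrimeCore p X := by
    have h3 : π (s⁻¹ * d) = 1 := by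
      rw [map_mul, map_inv]
      have : π s = π d := hsd
      rw [this, inv_mul_cancel]
    exact (QuotientGroup.eq_one_iff _).1 h3
  have h3 : s ∈ pPrimePCore p X := by
    have h4 : s = d * (s⁻¹ * d)⁻¹ := by group
    rw [h4]
    exact mul_mem hd (inv_mem (pPrimeCore_le_pPrimePCore p h2))
  have h5 : d = s * (s⁻¹ * d) := by group
  rw [h5]
  exact mul_mem (Subgroup.mem_sup_left ⟨hs, h3⟩) (Subgroup.mem_sup_right h2)

end X

section GLevel

variable {G : Type u} [Group G] [Finite G] {p : ℕ} [hpf : Fact p.Prime]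

/-- Normalizers in a subgroup pass to the image in `G`. -/
theorem mem_normalizer_map_subtype {H : Subgroup G} {C : Subgroup H} {x : H}
    (hx : x ∈ normalizer (C : Set H)) : (x : G) ∈ normalizer ((C.map H.subtype : Subgroup G) : Set G) := by
  apply mem_normalizer_of_conj_le
  rintro _ ⟨y, hy, rfl⟩
  exact ⟨x * y * x⁻¹, (Subgroup.mem_normalizer_iff.1 hx y).1 hy, by simp⟩

/-- The subgroup `P ∩ O_{p',p}(H)`, with its properties. -/
theorem exists_T_factor {H P : Subgroup G} (hP : IsMaxP p P H) (hHs : Group.IsSolvable H)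
    (hodd : Odd (Nat.card H)) :
    ∃ T : Subgroup G, T ≤ P ∧ P ≤ normalizer (T : Set G) ∧
      (∀ h ∈ H, ∃ o ∈ Oq' p H, o⁻¹ * h ∈ normalizer (T : Set G)) ∧
      (∀ A : Subgroup G, A ≤ P → IsMulCommutative A → P ≤ normalizer (A : Set G) → A ≤ T) ∧
      (p ≠ 2 → PRankLE p 2 H → T = P) := by
  haveI := hHs
  set S : Sylow p H := hP.toSylow with hS
  have hSP : (S : Subgroup H) = P.subgroupOf H := rfl
  set D := pPrimePCore p H with hD
  haveI hDn : D.Normal := pPrimePCore_normal p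
  haveI hOn : (pPrimeCore p H).Normal := Cfsg.Agent.Lib.Basic.pPrimeCore_normal p
  let T₀ : Subgroup H := (S : Subgroup H) ⊓ D
  have hT₀p : IsPGroup p T₀ := S.isPGroup'.to_le inf_le_left
  have hfac : T₀ ⊔ pPrimeCore p H = D := pPrimePCore_factor S
  refine ⟨T₀.map H.subtype, ?_, ?_, ?_, ?_, ?_⟩
  · rintro _ ⟨y, hy, rfl⟩
    have : y ∈ P.subgroupOf H := hy.1
    exact Subgroup.mem_subgroupOf.1 this
  · intro s hs
    apply mem_normalizer_of_conj_le
    rintro _ ⟨y, hy, rfl⟩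
    have hsH : s ∈ H := hP.le hs
    refine ⟨⟨s, hsH⟩ * y * ⟨s, hsH⟩⁻¹, Subgroup.mem_inf.2 ⟨?_, hDn.conj_mem _ hy.2 _⟩, by simp⟩
    have hs' : (⟨s, hsH⟩ : H) ∈ (S : Subgroup H) := Subgroup.mem_subgroupOf.2 hs
    exact mul_mem (mul_mem hs' hy.1) (inv_mem hs')
  · intro h hh
    have hN : (T₀ ⊔ pPrimeCore p H).Normal := by rw [hfac]; exact hDn
    obtain ⟨o, ho, hoh⟩ := frattini_sup hOn hT₀p (Cfsg.Agent.Lib.Basic.pPrimeCore_coprime p) hN ⟨h, hh⟩
    refine ⟨o, ⟨o, ho, rfl⟩, ?_⟩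
    exact mem_normalizer_map_subtype hoh
  · intro A hAP hAc hPA
    have hAH : A ≤ H := hAP.trans hP.le
    have h1 : A.subgroupOf H ≤ (S : Subgroup H) := by
      rw [hSP]
      exact fun x hx => Subgroup.mem_subgroupOf.2 (hAP (Subgroup.mem_subgroupOf.1 hx))
    have h2 : IsMulCommutative (A.subgroupOf H) := by
      refine ⟨⟨?_⟩⟩
      rintro ⟨a, ha⟩ ⟨b, hb⟩
      apply Subtype.ext
      apply Subtype.ext
      have := hAc.is_comm.comm (⟨a, Subgroup.mem_subgroupOf.1 ha⟩ : A) ⟨b, Subgroup.mem_subgroupOf.1 hb⟩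
      show ((a : H) : G) * (b : H) = (b : H) * (a : H)
      exact congrArg Subtype.val this
    have h3 : (S : Subgroup H) ≤ normalizer ((A.subgroupOf H : Subgroup H) : Set H) := by
      intro s hs
      have hs' : (s : G) ∈ P := Subgroup.mem_subgroupOf.1 (hSP ▸ hs)
      rw [Subgroup.mem_normalizer_iff]
      intro x
      exact Subgroup.mem_normalizer_iff.1 (hPA hs') x
    have h4 := Cfsg.Agent.S1457.result hodd p S (A.subgroupOf H) h1 h2 h3
    intro a ha
    have ha' : (⟨a, hAH ha⟩ : H) ∈ A.subgroupOf H := Subgroup.mem_subgroupOf.2 ha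
    exact ⟨⟨a, hAH ha⟩, ⟨h1 ha', h4 ha'⟩, rfl⟩
  · intro hp2 hr
    obtain ⟨-, hidx, -⟩ := rank2_quotient_structure hodd p hp2 hr
    have h1 : (S : Subgroup H) ≤ D := isPGroup_le_of_index_coprime hidx S.isPGroup'
    have h2 : T₀ = (S : Subgroup H) := inf_eq_left.2 h1
    show T₀.map H.subtype = P
    rw [h2, hSP, Subgroup.subgroupOf_map_subtype, inf_eq_left]
    exact hP.le

/-- The Frattini factorization with `Z(J(P))`. -/
theorem zj_factor {H P : Subgroup G} (hP : IsMaxP p P H) (hHs : Group.IsSolvable H)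
    (hodd : Odd (Nat.card H)) : ∀ h ∈ H, ∃ o ∈ Oq' p H, o⁻¹ * h ∈ normalizer (centerThompsonOf p P : Set G) := by
  haveI := hHs
  intro h hh
  set S : Sylow p H := hP.toSylow with hS
  have hSP : (S : Subgroup H) = P.subgroupOf H := rfl
  haveI hOn : (pPrimeCore p H).Normal := Cfsg.Agent.Lib.Basic.pPrimeCore_normal p
  have hCp : IsPGroup p (centerThompsonOf p (S : Subgroup H)) := by
    apply S.isPGroup'.to_le
    rw [← Zf_cJ]
    exact Zf_le _ _
  have hN := Cfsg.Agent.S1458.result hodd p S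
  obtain ⟨o, ho, hoh⟩ := frattini_sup hOn hCp (Cfsg.Agent.Lib.Basic.pPrimeCore_coprime p) hN ⟨h, hh⟩
  refine ⟨o, ⟨o, ho, rfl⟩, ?_⟩
  have h1 := mem_normalizer_map_subtype hoh
  have h2 : (centerThompsonOf p (S : Subgroup H)).map H.subtype = centerThompsonOf p P := by
    rw [← Zf_cJ, ← Zf_cJ, hSP]
    exact Zf_subgroupOf (cJ_isoInv p) H P hP.le
  rw [h2] at h1
  exact h1

/-- A Sylow-invariant `p'`-subgroup lies in `O_{p'}(H)`, `G`-level version. -/
theorem le_Oq'_of_inv {H P Y : Subgroup G} (hP : IsMaxP p P H) (hHs : Group.IsSolvable H) (hYH : Y ≤ H)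
    (hY : (Nat.card Y).Coprime p) (hPY : P ≤ normalizer (Y : Set G)) : Y ≤ Oq' p H := by
  haveI := hHs
  have hc : Nat.card (Y.subgroupOf H) = Nat.card Y := Nat.card_congr (subgroupOfEquivOfLe hYH).toEquiv
  have h1 : Y.subgroupOf H ≤ pPrimeCore p H := by
    apply le_pPrimeCore_of_sylow_inv hP.toSylow
    · rw [hc]; exact hY
    · intro s hs
      have hs' : (s : G) ∈ P := Subgroup.mem_subgroupOf.1 hs
      rw [Subgroup.mem_normalizer_iff]
      intro x
      exact Subgroup.mem_normalizer_iff.1 (hPY hs') x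
  intro y hy
  exact ⟨⟨y, hYH hy⟩, h1 (Subgroup.mem_subgroupOf.2 hy), rfl⟩

/-- A `p`-group fixes a member of a family on which a `p'`-group acts transitively. -/
theorem exists_fixed_of_transitive {P K : Subgroup G} {Ω : Set (Subgroup G)} (hP : IsPGroup p P)
    (hK : (Nat.card K).Coprime p) (hne : Ω.Nonempty)
    (hPΩ : ∀ g ∈ P, ∀ Q ∈ Ω, Q.map (MulAut.conj g).toMonoidHom ∈ Ω)
    (hKΩ : ∀ k ∈ K, ∀ Q ∈ Ω, Q.map (MulAut.conj k).toMonoidHom ∈ Ω)
    (htr : ∀ Q₁ ∈ Ω, ∀ Q₂ ∈ Ω, ∃ k ∈ K, Q₂ = Q₁.map (MulAut.conj k).toMonoidHom) :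
    ∃ Q ∈ Ω, P ≤ normalizer (Q : Set G) := by
  classical
  have hp : p.Prime := hpf.out
  let act : ∀ (S : Subgroup G), (∀ g ∈ S, ∀ Q ∈ Ω, Q.map (MulAut.conj g).toMonoidHom ∈ Ω) →
      MulAction S Ω := fun S hS =>
    { smul := fun g Q => ⟨Q.1.map (MulAut.conj (g : G)).toMonoidHom, hS g g.2 Q.1 Q.2⟩
      one_smul := fun Q => Subtype.ext (conj_map_one Q.1)
      mul_smul := fun a b Q => Subtype.ext (conj_map_conj_map Q.1 (b : G) (a : G)).symm }
  obtain ⟨Q₀, hQ₀⟩ := hne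
  -- the family has order prime to `p`
  have hcard : ¬ p ∣ Nat.card Ω := by
    letI := act K hKΩ
    haveI : MulAction.IsPretransitive K Ω := ⟨fun Q₁ Q₂ => by
      obtain ⟨k, hk, e⟩ := htr Q₁.1 Q₁.2 Q₂.1 Q₂.2
      exact ⟨⟨k, hk⟩, Subtype.ext e.symm⟩⟩
    have h1 := MulAction.index_stabilizer_of_transitive K (⟨Q₀, hQ₀⟩ : Ω)
    intro hd
    rw [← h1] at hd
    have h2 := hd.trans (Subgroup.index_dvd_card _)
    exact hp.one_lt.ne' (Nat.eq_one_of_dvd_coprimes hK h2 (dvd_refl p))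
  letI := act P hPΩ
  obtain ⟨⟨Q, hQ⟩, hfix⟩ := hP.nonempty_fixed_point_of_prime_not_dvd_card Ω hcard
  refine ⟨Q, hQ, fun g hg => ?_⟩
  rw [← conj_map_eq_iff_mem_normalizer]
  have := hfix ⟨g, hg⟩
  exact congrArg Subtype.val this

/-- A `p'`-subgroup `Y` normalized by the `p`-group `A` lies in `V` as soon as all `A`-invariant
`q`-subgroups do. -/
theorem le_of_inv_sylows {A Y V : Subgroup G} (hA : IsPGroup p A) (hAY : A ≤ normalizer (Y : Set G))
    (hY : (Nat.card Y).Coprime p)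
    (h : ∀ (q : ℕ) [Fact q.Prime], q ≠ p → ∀ Q : Subgroup G, IsPGroup q Q → A ≤ normalizer (Q : Set G) → Q ≤ V) :
    Y ≤ V := by
  have hp : p.Prime := hpf.out
  obtain ⟨k, hk⟩ := IsPGroup.iff_card.1 hA
  have hcop : (Nat.card A).Coprime (Nat.card Y) := by
    rw [hk]
    exact (Nat.Coprime.pow_right k hY).symm
  have hsolv : Group.IsSolvable A := by
    haveI := hA.isNilpotent
    infer_instance
  have htop : V.subgroupOf Y = ⊤ := by
    apply Cfsg.Agent.Lib.Basic.eq_top_of_forall_exists_sylow_le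
    intro r _
    obtain ⟨R, hR⟩ := Cfsg.Agent.Lib.Basic.exists_invariant_sylow hAY hcop (Or.inl hsolv) r
    refine ⟨R, ?_⟩
    by_cases hrp : r = p
    · -- `R` is trivial
      subst hrp
      have h1 : (R : Subgroup Y) = ⊥ := by
        rw [eq_bot_iff]
        intro x hx
        obtain ⟨n, hn⟩ := R.isPGroup' ⟨x, hx⟩
        have h2 : x ^ r ^ n = 1 := congrArg Subtype.val hn
        have h3 : orderOf x ∣ r ^ n := orderOf_dvd_of_pow_eq_one h2
        have h4 : orderOf x ∣ Nat.card Y := orderOf_dvd_natCard x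
        have h5 : (Nat.card Y).Coprime (r ^ n) := Nat.Coprime.pow_right n hY
        exact Subgroup.mem_bot.2 (orderOf_eq_one_iff.1 (Nat.eq_one_of_dvd_coprimes h5 h4 h3))
      rw [h1]
      exact bot_le
    · have h1 := h r hrp _ (R.isPGroup'.map Y.subtype) hR
      intro x hx
      exact Subgroup.mem_subgroupOf.2 (h1 ⟨x, hx, rfl⟩)
  intro y hy
  have : (⟨y, hy⟩ : Y) ∈ V.subgroupOf Y := by rw [htop]; trivial
  exact Subgroup.mem_subgroupOf.1 this

end GLevel

end Cfsg.Agent.Lib.FT
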