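import Cfsg.Agent.Lib.FT.BG11c
import Cfsg.Agent.Lib.FT.BG9U2
import Cfsg.Agent.Lib.FT.BG9a

/-!
BG section 12: the setup for an elementary abelian subgroup `A` of order `p²`, with the transitivity
hypothesis.
-/

set_option autoImplicit false
set_option linter.unusedSectionVars false
set_option linter.style.haveILetI false

namespace Cfsg.Agent.Lib.FT

open Subgroup Cfsg Cfsg.Agent.Lib.OddLocal Cfsg.Agent.Lib.Basic

open scoped commutatorElement

open Cfsg.Agent.Lib.Coprime (mem_conj_map conj_mem_conj_map conj_map_conj_map conj_map_one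
  conj_map_mono card_conj_map mem_normalizer_of_conj_le conj_map_eq_iff_mem_normalizer)

variable {G : Type*} [Group G] [Finite G]

/-- The setup: `A` is elementary abelian of order `p²` with the transitivity hypothesis. -/
structure E2Setup (p : ℕ) (A : Subgroup G) : Prop where
  hG : IsMinSimpleOddOrder G
  huniq : UniquenessThm G
  hpl : ∀ (r : ℕ) [Fact r.Prime] (H : Subgroup G), H ≠ ⊤ → PLengthLE r 1 ↥H
  hAe : IsElementaryAbelian p A
  hAc : Nat.card A = p ^ 2
  hth : TransitivityHypothesis A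

namespace E2Setup

variable {p : ℕ} [hpf : Fact p.Prime] {A : Subgroup G} (S : E2Setup p A)

local notation "π'" => primesNotDvd (Nat.card A)
local notation "𝐊" => piCoreOf (primesNotDvd (Nat.card A)) (centralizer (A : Set G))

include S

theorem hAp : IsPGroup p A := isPGroup_of_elem S.hAe

theorem hcomm : IsMulCommutative A := S.hAe.1

theorem hdvd : p ∣ Nat.card A := by
  rw [S.hAc]
  exact dvd_pow_self p (by norm_num)

theorem hp2 : p ≠ 2 :=
  prime_odd S.hG hpf.out (S.hdvd.trans (Subgroup.card_subgroup_dvd_card A))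

theorem hA1 : A ≠ ⊥ := S.hth.1

theorem hAtop : A ≠ ⊤ := S.hth.2.1

theorem isPi_of_coprime {Y : Subgroup G} (hY : (Nat.card Y).Coprime p) : IsPiSub (primesNotDvd (Nat.card A)) Y := by
  have hp : p.Prime := hpf.out
  intro q hq hd
  refine ⟨hq, fun hdA => ?_⟩
  rw [S.hAc] at hdA
  have h1 : q = p := (Nat.prime_dvd_prime_iff_eq hq hp).1 (hq.dvd_of_dvd_pow hdA)
  subst h1
  exact hq.one_lt.ne' (Nat.eq_one_of_dvd_coprimes hY hd (dvd_refl q))

theorem coprime_of_isPi {Y : Subgroup G} (hY : IsPiSub (primesNotDvd (Nat.card A)) Y) : (Nat.card Y).Coprime p := by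
  have hp : p.Prime := hpf.out
  rw [Nat.coprime_comm, Nat.Prime.coprime_iff_not_dvd hp]
  intro hd
  exact (hY p hp hd).2 S.hdvd

theorem not_dvd_of_ne {q : ℕ} (hq : q.Prime) (hqp : q ≠ p) : ¬ q ∣ Nat.card A := by
  have hp : p.Prime := hpf.out
  intro hdA
  rw [S.hAc] at hdA
  exact hqp ((Nat.prime_dvd_prime_iff_eq hq hp).1 (hq.dvd_of_dvd_pow hdA))

theorem coprime_of_isPGroup {s : ℕ} [Fact s.Prime] (hs : s ≠ p) {U : Subgroup G} (hU : IsPGroup s U) :
    (Nat.card U).Coprime p := by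
  obtain ⟨k, hk⟩ := IsPGroup.iff_card.1 hU
  rw [hk]
  exact Nat.Coprime.pow_left k ((Nat.coprime_primes Fact.out hpf.out).2 hs)

theorem isPi_of_isPGroup {s : ℕ} [Fact s.Prime] (hs : s ≠ p) {U : Subgroup G} (hU : IsPGroup s U) :
    IsPiSub (primesNotDvd (Nat.card A)) U :=
  S.isPi_of_coprime (S.coprime_of_isPGroup hs hU)

theorem cA_coprime {X : Subgroup G} (hX : (Nat.card X).Coprime p) : (Nat.card A).Coprime (Nat.card X) := by
  rw [S.hAc]
  exact (Nat.Coprime.pow_right 2 hX).symm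

theorem hAsolv : Group.IsSolvable A := by
  haveI := S.hAp.isNilpotent
  infer_instance

theorem hAC : A ≤ centralizer (A : Set G) := by
  intro a ha
  rw [Subgroup.mem_centralizer_iff]
  intro b hb
  have := S.hcomm.is_comm.comm ⟨b, hb⟩ ⟨a, ha⟩
  exact congrArg Subtype.val this

theorem hZ : ¬ RankLE 1 ↥(A ⊓ centralizer (A : Set G)) := by
  have hp : p.Prime := hpf.out
  intro h
  refine not_prank_of_card S.hAe (le_inf le_rfl S.hAC) ?_ (h p hp)
  rw [S.hAc]
  exact Nat.pow_lt_pow_right hp.one_lt (by norm_num)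

theorem hodd (X : Subgroup G) : Odd (Nat.card X) := odd_card_subgroup S.hG X

theorem hsolv {X : Subgroup G} (hX : X ≠ ⊤) : Group.IsSolvable X := IsMinSimpleOddOrder.isSolvable S.hG hX

/-- `(★)`: `A`-invariant `p'`-subgroups of a proper overgroup `X` of `A` lie in `O_{p'}(X)`. -/
theorem star {X Y : Subgroup G} (hX : X ≠ ⊤) (hAX : A ≤ X) (hYX : Y ≤ X) (hY : (Nat.card Y).Coprime p)
    (hAY : A ≤ normalizer (Y : Set G)) : Y ≤ piCoreOf (primesNotDvd (Nat.card A)) X :=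
  mem_piCoreOf_of_inv S.hth hX hAX hYX (S.isPi_of_coprime hY) hAY

theorem core_coprime (X : Subgroup G) : (Nat.card (piCoreOf (primesNotDvd (Nat.card A)) X)).Coprime p :=
  S.coprime_of_isPi (piCoreOf_isPi _ _)

theorem K_le_cent : 𝐊 ≤ centralizer (A : Set G) := piCoreOf_le _ _

theorem K_inv : A ≤ normalizer (𝐊 : Set G) := normalizes_of_le_centralizer (piCoreOf_le _ _)

theorem le_K {L : Subgroup G} (hLC : L ≤ centralizer (A : Set G)) (hL : (Nat.card L).Coprime p) : L ≤ 𝐊 :=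
  le_kCore S.hG S.hth hLC (S.isPi_of_coprime hL)

/-- `A` lies in the centralizer of each of its elements. -/
theorem A_le_cent {x : G} (hx : x ∈ A) : A ≤ centralizer ({x} : Set G) :=
  S.hAC.trans (centralizer_le_of_mem hx)

theorem K_le_centx {x : G} (hx : x ∈ A) : 𝐊 ≤ centralizer ({x} : Set G) :=
  S.K_le_cent.trans (centralizer_le_of_mem hx)

/-- `K ≤ D_x`. -/
theorem K_le_D {x : G} (hx : x ∈ A) (hx1 : x ≠ 1) :
    𝐊 ≤ piCoreOf (primesNotDvd (Nat.card A)) (centralizer ({x} : Set G)) :=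
  S.star (centralizer_singleton_ne_top S.hG hx1) (S.A_le_cent hx) (S.K_le_centx hx) (S.core_coprime _) S.K_inv

theorem A_inv_core {X : Subgroup G} (hAX : A ≤ X) : A ≤ normalizer (piCoreOf (primesNotDvd (Nat.card A)) X : Set G) :=
  hAX.trans (le_normalizer_piCoreOf _ X)

/-- An element of `A` of order different from one has order `p`. -/
theorem ord {y : G} (hy : y ∈ A) (hy1 : y ≠ 1) : orderOf y = p :=
  orderOf_eq_prime (S.hAe.2 y hy) hy1

theorem card_zpowers_le {y : G} (hy : y ∈ A) : Nat.card (zpowers y) ≤ p := by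
  rw [Nat.card_zpowers]
  exact Nat.le_of_dvd hpf.out.pos (orderOf_dvd_of_pow_eq_one (S.hAe.2 y hy))

/-- For each `y` there is an element of `A` outside `⟨y⟩`. -/
theorem exists_not_mem (y : G) (hy : y ∈ A) : ∃ b ∈ A, b ∉ zpowers y := by
  by_contra h
  push Not at h
  have h1 : Nat.card A ≤ Nat.card (zpowers y) := Subgroup.card_le_of_le h
  have h2 := S.card_zpowers_le hy
  rw [S.hAc] at h1
  have hp : p.Prime := hpf.out
  have h3 : p < p ^ 2 := by
    calc p = p ^ 1 := (pow_one p).symm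
      _ < p ^ 2 := Nat.pow_lt_pow_right hp.one_lt (by norm_num)
  omega

theorem ne_one_of_not_mem {y b : G} (hb : b ∉ zpowers y) : b ≠ 1 := by
  rintro rfl
  exact hb (one_mem _)

/-- Two independent elements generate `A`. -/
theorem sup_eq {y b : G} (hy : y ∈ A) (hy1 : y ≠ 1) (hb : b ∈ A) (hby : b ∉ zpowers y) :
    zpowers y ⊔ zpowers b = A := by
  have hle : zpowers y ⊔ zpowers b ≤ A := sup_le (zpowers_le.2 hy) (zpowers_le.2 hb)
  refine Subgroup.eq_of_le_of_card_ge hle ?_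
  rw [S.hAc]
  have hlt : zpowers y < zpowers y ⊔ zpowers b := by
    refine lt_of_le_of_ne le_sup_left fun h => hby ?_
    rw [h]
    exact (le_sup_right : zpowers b ≤ zpowers y ⊔ zpowers b) (mem_zpowers b)
  have h1 := card_lt_of_subgroup_lt hlt
  rw [Nat.card_zpowers, S.ord hy hy1] at h1
  have hd : Nat.card ↥(zpowers y ⊔ zpowers b) ∣ p ^ 2 := by
    rw [← S.hAc]
    exact Subgroup.card_dvd_of_le hle
  obtain ⟨k, hk, hke⟩ := (Nat.dvd_prime_pow hpf.out).1 hd
  rw [hke] at h1 ⊢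
  have : 1 < k := by
    have h2 : p ^ 1 < p ^ k := by rwa [pow_one]
    exact (Nat.pow_lt_pow_iff_right hpf.out.one_lt).1 h2
  exact Nat.pow_le_pow_right hpf.out.pos this

/-- `C(y) ∩ C(b) ≤ C(A)` for independent elements. -/
theorem cent_inf_le {y b : G} (hy : y ∈ A) (hy1 : y ≠ 1) (hb : b ∈ A) (hby : b ∉ zpowers y) :
    centralizer ({y} : Set G) ⊓ centralizer ({b} : Set G) ≤ centralizer (A : Set G) := by
  rintro g ⟨h1, h2⟩
  rw [← S.sup_eq hy hy1 hb hby]
  apply mem_centralizer_sup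
  · rw [centralizer_zpowers_eq]
    exact h1
  · rw [centralizer_zpowers_eq]
    exact h2

/-- A nontrivial power of `y ∈ A` has the same centralizer. -/
theorem cent_eq_of_mem {y c : G} (hy : y ∈ A) (hc : c ∈ zpowers y) (hc1 : c ≠ 1) :
    centralizer ({c} : Set G) = centralizer ({y} : Set G) := by
  have hy1 : y ≠ 1 := by
    rintro rfl
    rw [Subgroup.zpowers_one_eq_bot] at hc
    exact hc1 (Subgroup.mem_bot.1 hc)
  have hcA : c ∈ A := (zpowers_le.2 hy) hc
  have hcard : Nat.card (zpowers y) = p := by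
    rw [Nat.card_zpowers, S.ord hy hy1]
  have h1 : (⟨y, mem_zpowers y⟩ : zpowers y) ∈ zpowers (⟨c, hc⟩ : zpowers y) :=
    mem_zpowers_of_prime_card hcard (fun h => hc1 (congrArg Subtype.val h))
  obtain ⟨k, hk⟩ := h1
  have hk' : c ^ k = y := by simpa using congrArg Subtype.val hk
  have h2 : y ∈ zpowers c := ⟨k, hk'⟩
  have h3 : zpowers c = zpowers y := le_antisymm (zpowers_le.2 hc) (zpowers_le.2 h2)
  rw [← centralizer_zpowers_eq c, ← centralizer_zpowers_eq y, h3]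

/-- `A` is not cyclic. -/
theorem not_cyclic : ¬ IsCyclic A := by
  intro h
  obtain ⟨g, hg⟩ := IsCyclic.exists_generator (α := A)
  have h1 := S.ord (y := (g : G)) g.2
  obtain ⟨b, hb, hbg⟩ := S.exists_not_mem (g : G) g.2
  apply hbg
  obtain ⟨k, hk⟩ := hg ⟨b, hb⟩
  exact ⟨k, by simpa using congrArg Subtype.val hk⟩

/-! ### Frattini factorisations -/

omit S in
/-- The Frattini factorisation of a `q`-length one subgroup. -/
theorem _root_.Cfsg.Agent.Lib.FT.frattini_Oq' {q : ℕ} [Fact q.Prime] {X Y : Subgroup G} (hY : IsMaxP q Y X)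
    (hpl : PLengthLE q 1 ↥X) {d : G} (hd : d ∈ X) :
    ∃ n ∈ Oq' q X, ∃ m ∈ X ⊓ normalizer (Y : Set G), d = n * m := by
  have h1 := pPrimeCore_sup_normalizer_sylow hpl hY.toSylow
  have hmem : (⟨d, hd⟩ : ↥X) ∈ pPrimeCore q ↥X ⊔ normalizer ((hY.toSylow : Subgroup ↥X) : Set ↥X) := by
    rw [h1]
    trivial
  haveI : (pPrimeCore q ↥X).Normal := inferInstance
  obtain ⟨n, hn, m, hm, e⟩ := Subgroup.mem_sup_of_normal_left.mp hmem
  refine ⟨n, ⟨n, hn, rfl⟩, m, ⟨m.2, ?_⟩, congrArg Subtype.val e.symm⟩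
  have h2 := mem_normalizer_map_subtype (C := Y.subgroupOf X) hm
  rwa [Subgroup.map_subgroupOf_eq_of_le hY.le] at h2

omit S in
/-- The Frattini argument inside a normal subgroup: conjugates of a maximal `q`-subgroup of `D`. -/
theorem _root_.Cfsg.Agent.Lib.FT.frattini_normal {q : ℕ} [Fact q.Prime] {D T : Subgroup G} (hT : IsMaxP q T D) {h : G}
    (hh : h ∈ normalizer (D : Set G)) : ∃ d ∈ D, d⁻¹ * h ∈ normalizer (T : Set G) := by
  have h1 := hT.conj h
  rw [(conj_map_eq_iff_mem_normalizer D h).2 hh] at h1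
  obtain ⟨d, hd, e⟩ := hT.exists_conj_eq h1
  refine ⟨d, hd, ?_⟩
  rw [← conj_map_eq_iff_mem_normalizer, ← conj_map_conj_map, ← e, conj_map_conj_map, inv_mul_cancel, conj_map_one]

omit S in
/-- The order of a normalizing product. -/
theorem _root_.Cfsg.Agent.Lib.FT.coprime_card_sup {A' B : Subgroup G} {n : ℕ} (h : B ≤ normalizer (A' : Set G))
    (h1 : (Nat.card A').Coprime n) (h2 : (Nat.card B).Coprime n) : (Nat.card ↥(A' ⊔ B)).Coprime n := by
  have h3 := card_sup_mul_card_inf h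
  have h4 : Nat.card ↥(A' ⊔ B) ∣ Nat.card A' * Nat.card B := h3 ▸ dvd_mul_right _ _
  exact Nat.Coprime.coprime_dvd_left h4 (Nat.Coprime.mul_left h1 h2)

omit S in
/-- `V = [V, b]` when `b` acts coprimely and fixed point freely. -/
theorem _root_.Cfsg.Agent.Lib.FT.le_commutator_of_fpf {q : ℕ} [Fact q.Prime] {V : Subgroup G} {b : G} (hV : IsPGroup q V)
    (hbV : b ∈ normalizer (V : Set G)) (hfpf : V ⊓ centralizer ({b} : Set G) = ⊥)
    (hbq : (orderOf b).Coprime q) : V ≤ ⁅V ⊔ zpowers b, V ⊔ zpowers b⁆ := by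
  have hcE : centralizer ((zpowers b : Subgroup G) : Set G) = centralizer ({b} : Set G) :=
    centralizer_zpowers_eq b
  have hcop : (Nat.card (zpowers b)).Coprime (Nat.card V) := by
    rw [Nat.card_zpowers]
    obtain ⟨k, hk⟩ := IsPGroup.iff_card.1 hV
    rw [hk]
    exact Nat.Coprime.pow_right _ hbq
  have h2 := coprime_commutator_sup_centralizer (A := zpowers b) (K := V) (zpowers_le.mpr hbV) hcop
    (Or.inl inferInstance)
  rw [hcE, hfpf, sup_bot_eq] at h2
  conv_lhs => rw [← h2]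
  exact Subgroup.commutator_mono le_sup_left le_sup_right

/-- `A` normalises the fixed points of `y ∈ A` on an `A`-invariant subgroup. -/
theorem A_inv_inf {T : Subgroup G} {y : G} (hy : y ∈ A) (hAT : A ≤ normalizer (T : Set G)) :
    A ≤ normalizer ((T ⊓ centralizer ({y} : Set G) : Subgroup G) : Set G) := fun _ ha =>
  Cfsg.Agent.Lib.Basic.mem_normalizer_inf' (hAT ha) (Subgroup.le_normalizer (S.A_le_cent hy ha))

/-- The output of the first main step (E1). -/
structure _root_.Cfsg.Agent.Lib.FT.E1Data (p : ℕ) (A M H T U : Subgroup G) (q s : ℕ) (y : G) : Prop where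
  hs : s.Prime
  hsp : s ≠ p
  hsq : s ≠ q
  hUH : U ≤ H
  hUs : IsPGroup s U
  hAU : A ≤ normalizer (U : Set G)
  hTU : T ≤ normalizer (U : Set G)
  hy : y ∈ A
  hy1 : y ≠ 1
  hnc : ¬ (T ⊓ centralizer ({y} : Set G)) ≤ centralizer (U : Set G)
  hr : ¬ PRankLE s 2 U
  hMU : M ⊓ U ≤ centralizer ((T ⊓ centralizer ({y} : Set G) : Subgroup G) : Set G)

/-- **E1**. -/
theorem e1 {M H T : Subgroup G} {q : ℕ} [Fact q.Prime] (hqp : q ≠ p) (hM : IsCoatom M) (hH : IsCoatom H) (hne : H ≠ M)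
    (hAM : A ≤ M) (hAH : A ≤ H) (hTM : T ≤ M) (hTH : T ≤ H) (hTq : IsPGroup q T) (hAT : A ≤ normalizer (T : Set G))
    (hTf : T ⊓ centralizer (A : Set G) = ⊥) (hNT : normalizer (T : Set G) ≤ M)
    (hmax : ∀ T' : Subgroup G, T' ≤ M → T' ≤ H → IsPGroup q T' → A ≤ normalizer (T' : Set G) → T ≤ T' → T' = T) :
    ∃ (U : Subgroup G) (s : ℕ) (y : G), E1Data p A M H T U q s y := by
  classical
  have hHtop : H ≠ ⊤ := hH.1
  set D := piCoreOf (primesNotDvd (Nat.card A)) H with hD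
  have hDH : D ≤ H := piCoreOf_le _ _
  have hHD : H ≤ normalizer (D : Set G) := le_normalizer_piCoreOf _ H
  have hDtop : D ≠ ⊤ := fun h => hHtop (top_le_iff.1 (h ▸ hDH))
  have hDc : (Nat.card D).Coprime p := S.core_coprime H
  have hTc : (Nat.card T).Coprime p := S.coprime_of_isPGroup hqp hTq
  have hTD : T ≤ D := S.star hHtop hAH hTH hTc hAT
  have hTmax : IsMaxP q T D := by
    obtain ⟨P, hTP, hAP⟩ := exists_invariant_sylow_ge (hAH.trans hHD) (S.cA_coprime hDc) (Or.inl S.hAsolv) q T hTD hTq hAT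
    have hPm := isMaxP_map P
    have : T = (P : Subgroup D).map D.subtype := by
      by_contra hne'
      have hlt : T < (P : Subgroup D).map D.subtype := lt_of_le_of_ne hTP hne'
      have hgrow := lt_inf_normalizer hPm.isP hlt
      have := hmax _ (inf_le_right.trans hNT) (inf_le_left.trans (hPm.le.trans hDH)) (hPm.isP.to_le inf_le_left)
        (fun a ha => Cfsg.Agent.Lib.Basic.mem_normalizer_inf' (hAP ha) (Subgroup.le_normalizer (hAT ha))) hgrow.le
      exact hgrow.ne this.symm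
    rw [this]
    exact hPm
  set O := Oq' q D with hO
  have hfact : ∀ h ∈ H, ∃ o ∈ O, o⁻¹ * h ∈ M := by
    intro h hh
    obtain ⟨d, hd, hdh⟩ := frattini_normal hTmax (hHD hh)
    obtain ⟨n, hn, m, hm, e⟩ := frattini_Oq' hTmax (S.hpl q D hDtop) hd
    refine ⟨n, hn, ?_⟩
    have : n⁻¹ * h = m * (d⁻¹ * h) := by
      rw [e]
      group
    rw [this]
    exact M.mul_mem (hNT hm.2) (hNT hdh)
  have hOM : ¬ O ≤ M := by
    intro hle
    apply coatom_not_le hH hM hne
    intro h hh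
    obtain ⟨o, ho, hoh⟩ := hfact h hh
    have := M.mul_mem (hle ho) hoh
    simpa using this
  have hODH : O ≤ D := Oq'_le q D
  haveI : (pPrimeCore q ↥D).Characteristic := pPrimeCore_characteristic q
  have hOn : H ≤ normalizer (O : Set G) :=
    hHD.trans (le_normalizer_map_of_characteristic (pPrimeCore q ↥D))
  have hOc : (Nat.card O).Coprime q := Oq'_card_coprime q D
  have hOcp : (Nat.card O).Coprime p :=
    Nat.Coprime.coprime_dvd_left (Subgroup.card_dvd_of_le hODH) hDc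
  have hZc : (Nat.card ↥(T ⊔ A)).Coprime (Nat.card O) := by
    refine coprime_card_sup hAT ?_ ?_
    · obtain ⟨k, hk⟩ := IsPGroup.iff_card.1 hTq
      rw [hk]
      exact (Nat.Coprime.pow_right k hOc).symm
    · exact (S.cA_coprime hOcp)
  have hZH : T ⊔ A ≤ H := sup_le hTH hAH
  have hZtop : T ⊔ A ≠ ⊤ := fun h => hHtop (top_le_iff.1 (h ▸ hZH))
  have hex : ∃ (s : ℕ) (_ : Fact s.Prime) (R : Sylow s O),
      T ⊔ A ≤ normalizer (((R : Subgroup O).map O.subtype : Subgroup G) : Set G) ∧ ¬ (R : Subgroup O).map O.subtype ≤ M := by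
    by_contra hcon
    push Not at hcon
    apply hOM
    have htop : M.subgroupOf O = ⊤ := by
      apply eq_top_of_forall_exists_sylow_le
      intro r _
      obtain ⟨R, hR⟩ := exists_invariant_sylow (hZH.trans hOn) hZc (Or.inl (S.hsolv hZtop)) r
      refine ⟨R, ?_⟩
      have := hcon r inferInstance R hR
      intro x hx
      exact Subgroup.mem_subgroupOf.2 (this ⟨x, hx, rfl⟩)
    intro o ho
    have : (⟨o, ho⟩ : O) ∈ M.subgroupOf O := by
      rw [htop]
      trivial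
    exact Subgroup.mem_subgroupOf.1 this
  obtain ⟨s, hsf, R, hRZ, hRM⟩ := hex
  haveI := hsf
  have hsp' : s.Prime := Fact.out
  set U := (R : Subgroup O).map O.subtype with hU
  have hUm := isMaxP_map R
  have hUs : IsPGroup s U := hUm.isP
  have hUO : U ≤ O := hUm.le
  have hU1 : U ≠ ⊥ := by
    rintro h
    rw [h] at hRM
    exact hRM bot_le
  have hsU : s ∣ Nat.card U := by
    obtain ⟨k, hk⟩ := IsPGroup.iff_card.1 hUs
    have hk0 : k ≠ 0 := by
      rintro rfl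
      rw [pow_zero] at hk
      exact hU1 (Subgroup.card_eq_one.1 hk)
    rw [hk]
    exact dvd_pow_self s hk0
  have hsO : s ∣ Nat.card O := hsU.trans (Subgroup.card_dvd_of_le hUO)
  have hsq : s ≠ q := by
    rintro rfl
    exact hsp'.one_lt.ne' (Nat.eq_one_of_dvd_coprimes hOc hsO (dvd_refl s))
  have hsp : s ≠ p := by
    rintro rfl
    exact hsp'.one_lt.ne' (Nat.eq_one_of_dvd_coprimes hOcp hsO (dvd_refl s))
  have hs2 : s ≠ 2 := prime_odd S.hG hsp' (hsU.trans (Subgroup.card_subgroup_dvd_card U))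
  have hAU : A ≤ normalizer (U : Set G) := le_sup_right.trans hRZ
  have hTU : T ≤ normalizer (U : Set G) := le_sup_left.trans hRZ
  have hTnc : ¬ T ≤ centralizer (U : Set G) := by
    intro hle
    apply hRM
    have h1 : U ≤ centralizer (T : Set G) := (Subgroup.le_centralizer_iff).1 hle
    exact h1.trans ((centralizer_le_normalizer' T).trans hNT)
  haveI : IsMulCommutative A := S.hcomm
  have hgen := generation_by_centralizers A T S.not_cyclic hAT (S.cA_coprime hTc)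
  have hy : ∃ y, y ∈ A ∧ y ≠ 1 ∧ ¬ (T ⊓ centralizer ({y} : Set G)) ≤ centralizer (U : Set G) := by
    by_contra hcon
    push Not at hcon
    apply hTnc
    rw [← hgen]
    exact iSup₂_le fun a ha => hcon a ha.1 ha.2
  obtain ⟨y, hyA, hy1, hync⟩ := hy
  obtain ⟨b, hbA, hby⟩ := S.exists_not_mem y hyA
  have hb1 : b ≠ 1 := S.ne_one_of_not_mem hby
  have hfpf : (T ⊓ centralizer ({y} : Set G)) ⊓ centralizer ({b} : Set G) = ⊥ := by
    rw [eq_bot_iff, ← hTf]
    rintro g ⟨⟨h1, h2⟩, h3⟩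
    exact ⟨h1, S.cent_inf_le hyA hy1 hbA hby ⟨h2, h3⟩⟩
  have hVq : IsPGroup q ↥(T ⊓ centralizer ({y} : Set G)) := hTq.to_le inf_le_left
  have hbV : b ∈ normalizer ((T ⊓ centralizer ({y} : Set G) : Subgroup G) : Set G) := S.A_inv_inf hyA hAT hbA
  have hbq : (orderOf b).Coprime q := by
    rw [S.ord hbA hb1]
    exact (Nat.coprime_primes hpf.out Fact.out).2 (Ne.symm hqp)
  have hFM : (T ⊓ centralizer ({y} : Set G)) ⊔ zpowers b ≤ M :=
    sup_le (inf_le_left.trans hTM) (zpowers_le.2 (hAM hbA))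
  have hFtop : (T ⊓ centralizer ({y} : Set G)) ⊔ zpowers b ≠ ⊤ := fun h => hM.1 (top_le_iff.1 (h ▸ hFM))
  have hFs := S.hsolv hFtop
  have hFo := S.hodd ((T ⊓ centralizer ({y} : Set G)) ⊔ zpowers b)
  have hr : ¬ PRankLE s 2 U := not_prank_of_act hs2 hsq U _ b hUs hVq (inf_le_left.trans hTU) (hAU hbA) hbV hfpf hbq
    hFs hFo hync
  refine ⟨U, s, y, hsp', hsp, hsq, hUO.trans (hODH.trans hDH), hUs, hAU, hTU, hyA, hy1, hync, hr, ?_⟩
  by_contra hcon
  have hnc' : ¬ (T ⊓ centralizer ({y} : Set G)) ≤ centralizer ((M ⊓ U : Subgroup G) : Set G) := by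
    intro h
    exact hcon ((Subgroup.le_centralizer_iff).1 h)
  have hU'n : ∀ g, g ∈ M → g ∈ normalizer (U : Set G) → g ∈ normalizer ((M ⊓ U : Subgroup G) : Set G) := fun g h1 h2 =>
    Cfsg.Agent.Lib.Basic.mem_normalizer_inf' (Subgroup.le_normalizer h1) h2
  have hr' : ¬ PRankLE s 2 ↥(M ⊓ U) := not_prank_of_act hs2 hsq (M ⊓ U) _ b (hUs.to_le inf_le_right) hVq
    (fun v hv => hU'n v (hTM hv.1) (hTU hv.1)) (hU'n b (hAM hbA) (hAU hbA)) hbV hfpf hbq hFs hFo hnc'
  have hU'top : M ⊓ U ≠ ⊤ := fun h => hM.1 (top_le_iff.1 (h ▸ inf_le_left))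
  have huq := unique_of_prank S.huniq hsp' hU'top hr'
  exact hne (uniq_eq huq hH (inf_le_right.trans (hUO.trans (hODH.trans hDH))) hM inf_le_left)


/-- **E1c**: fixed points of `b` on `[U, V₂]` lying outside `M`. -/
theorem e1c {M H T U : Subgroup G} {q s : ℕ} {y b : G} [Fact q.Prime] [Fact s.Prime] (hqp : q ≠ p)
    (E : E1Data p A M H T U q s y)
    (hTq : IsPGroup q T) (hAT : A ≤ normalizer (T : Set G)) (hTf : T ⊓ centralizer (A : Set G) = ⊥)
    (hb : b ∈ A) (hby : b ∉ zpowers y) :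
    ∃ u ∈ ⁅U, T ⊓ centralizer ({y} : Set G)⁆, u ∈ centralizer ({b} : Set G) ∧
      u ∉ centralizer ((T ⊓ centralizer ({y} : Set G) : Subgroup G) : Set G) ∧ u ∉ M := by
  classical
  set V := T ⊓ centralizer ({y} : Set G) with hV
  have hVq : IsPGroup q V := hTq.to_le inf_le_left
  have hb1 : b ≠ 1 := S.ne_one_of_not_mem hby
  have hVU : V ≤ normalizer (U : Set G) := inf_le_left.trans E.hTU
  have hbU : b ∈ normalizer (U : Set G) := E.hAU hb
  have hbV : b ∈ normalizer (V : Set G) := S.A_inv_inf E.hy hAT hb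
  have hfpf : V ⊓ centralizer ({b} : Set G) = ⊥ := by
    rw [eq_bot_iff, ← hTf]
    rintro g ⟨⟨h1, h2⟩, h3⟩
    exact ⟨h1, S.cent_inf_le E.hy E.hy1 hb hby ⟨h2, h3⟩⟩
  have hVc : (Nat.card V).Coprime (Nat.card U) := by
    exact IsPGroup.coprime_card_of_ne q s (Ne.symm E.hsq) V U hVq E.hUs
  have hcc := coprime_commutator_commutator (A := V) (K := U) hVU hVc.symm.symm (Or.inr (by
    haveI := E.hUs.isNilpotent
    infer_instance))
  have hWU : ⁅U, V⁆ ≤ U := commutator_le_of_le_normalizer hVU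
  have hWs : IsPGroup s ↥⁅U, V⁆ := E.hUs.to_le hWU
  have hWnc : ¬ ⁅U, V⁆ ≤ centralizer (V : Set G) := by
    intro h
    have h1 : ⁅⁅U, V⁆, V⁆ = ⊥ := by
      rw [Subgroup.commutator_eq_bot_iff_le_centralizer]
      exact h
    rw [hcc, Subgroup.commutator_eq_bot_iff_le_centralizer] at h1
    exact E.hnc ((Subgroup.le_centralizer_iff).1 h1)
  have hbord : (orderOf b).Prime := by
    rw [S.ord hb hb1]
    exact hpf.out
  have hVW : V ≤ normalizer ((⁅U, V⁆ : Subgroup G) : Set G) := fun v hv =>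
    mem_normalizer_commutator (hVU hv) (Subgroup.le_normalizer hv)
  have hbW : b ∈ normalizer ((⁅U, V⁆ : Subgroup G) : Set G) := mem_normalizer_commutator hbU hbV
  have hWtop : ⁅U, V⁆ ≠ ⊤ := fun h =>
    IsMinSimpleOddOrder.ne_top_of_isPGroup S.hG E.hs hWs h
  have hcop : (Nat.card ↥⁅U, V⁆).Coprime (Nat.card ↥(V ⊔ zpowers b)) := by
    have hsc : (Nat.card ↥⁅U, V⁆).Coprime q := by
      obtain ⟨k, hk⟩ := IsPGroup.iff_card.1 hWs
      rw [hk]
      exact Nat.Coprime.pow_left k ((Nat.coprime_primes E.hs Fact.out).2 E.hsq)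
    have hsp : (Nat.card ↥⁅U, V⁆).Coprime p := by
      obtain ⟨k, hk⟩ := IsPGroup.iff_card.1 hWs
      rw [hk]
      exact Nat.Coprime.pow_left k ((Nat.coprime_primes E.hs hpf.out).2 E.hsp)
    apply Nat.Coprime.symm
    refine coprime_card_sup (zpowers_le.2 hbV) ?_ ?_
    · obtain ⟨k, hk⟩ := IsPGroup.iff_card.1 hVq
      rw [hk]
      exact (Nat.Coprime.pow_right k hsc).symm
    · rw [Nat.card_zpowers, S.ord hb hb1]
      exact hsp.symm
  by_contra hcon
  push Not at hcon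
  apply hWnc
  refine frob_fixed V ⁅U, V⁆ b hbord hbV hfpf hVW hbW (S.hsolv hWtop) hcop ?_
  rintro u ⟨hu, hub⟩
  by_contra hu2
  have hu3 : u ∈ M := by
    by_contra hu4
    exact hu4 (by
      by_contra hu5
      exact absurd (hcon u hu hub hu2) hu5)
  exact hu2 (E.hMU ⟨hu3, hWU hu⟩)

/-- `C_W(b)` lies in `D_b`. -/
theorem W_inf_le_D {M H T U : Subgroup G} {q s : ℕ} {y b : G} [Fact q.Prime] [Fact s.Prime]
    (E : E1Data p A M H T U q s y) (hAT : A ≤ normalizer (T : Set G)) (hTV : T ≤ normalizer (U : Set G))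
    (hb : b ∈ A) (hb1 : b ≠ 1) :
    ⁅U, T ⊓ centralizer ({y} : Set G)⁆ ⊓ centralizer ({b} : Set G) ≤
      piCoreOf (primesNotDvd (Nat.card A)) (centralizer ({b} : Set G)) := by
  haveI : Fact s.Prime := ⟨E.hs⟩
  have hWU : ⁅U, T ⊓ centralizer ({y} : Set G)⁆ ≤ U := commutator_le_of_le_normalizer (inf_le_left.trans hTV)
  refine S.star (centralizer_singleton_ne_top S.hG hb1) (S.A_le_cent hb) inf_le_right ?_ ?_
  · exact S.coprime_of_isPGroup E.hsp (E.hUs.to_le (inf_le_left.trans hWU))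
  · intro a ha
    refine Cfsg.Agent.Lib.Basic.mem_normalizer_inf' ?_ (Subgroup.le_normalizer (S.A_le_cent hb ha))
    exact mem_normalizer_commutator (E.hAU ha) (S.A_inv_inf E.hy hAT ha)

/-- **Rgood**: elements of order `s` in `[U, V₂]` have a centralizer of rank at least three in `U`. -/
theorem e1_good {M H T U : Subgroup G} {q s : ℕ} {y : G} [Fact q.Prime] [Fact s.Prime] (hqp : q ≠ p)
    (E : E1Data p A M H T U q s y)
    (hTq : IsPGroup q T) (hAT : A ≤ normalizer (T : Set G)) (hTf : T ⊓ centralizer (A : Set G) = ⊥)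
    {u : G} (hu : u ∈ ⁅U, T ⊓ centralizer ({y} : Set G)⁆) (hus : u ^ s = 1) :
    ¬ PRankLE s 2 ↥(U ⊓ centralizer ({u} : Set G)) := by
  classical
  set V := T ⊓ centralizer ({y} : Set G) with hV
  have hVq : IsPGroup q V := hTq.to_le inf_le_left
  obtain ⟨b, hb, hby⟩ := S.exists_not_mem y E.hy
  have hb1 : b ≠ 1 := S.ne_one_of_not_mem hby
  have hVU : V ≤ normalizer (U : Set G) := inf_le_left.trans E.hTU
  have hbU : b ∈ normalizer (U : Set G) := E.hAU hb
  have hbV : b ∈ normalizer (V : Set G) := S.A_inv_inf E.hy hAT hb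
  have hfpf : V ⊓ centralizer ({b} : Set G) = ⊥ := by
    rw [eq_bot_iff, ← hTf]
    rintro g ⟨⟨h1, h2⟩, h3⟩
    exact ⟨h1, S.cent_inf_le E.hy E.hy1 hb hby ⟨h2, h3⟩⟩
  have hbq : (orderOf b).Coprime q := by
    rw [S.ord hb hb1]
    exact (Nat.coprime_primes hpf.out Fact.out).2 (Ne.symm hqp)
  have hle := le_commutator_of_fpf hVq hbV hfpf hbq
  have hs2 : s ≠ 2 := prime_odd S.hG E.hs (by
    obtain ⟨k, hk⟩ := IsPGroup.iff_card.1 E.hUs
    have hd : s ∣ Nat.card U := by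
      have hk0 : k ≠ 0 := by
        rintro rfl
        rw [pow_zero] at hk
        apply E.hr
        intro C _ _
        have h1 : Subsingleton ↥U := by
          rw [Subgroup.card_eq_one.1 hk]
          infer_instance
        have : Nat.card C = 1 := Nat.card_unique
        rw [this]
        exact Nat.one_le_pow _ _ E.hs.pos
      rw [hk]
      exact dvd_pow_self s hk0
    exact hd.trans (Subgroup.card_subgroup_dvd_card U))
  obtain ⟨T', -, -, -, hT'y, hT'c⟩ := exists_good_sub hs2 E.hUs E.hr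
  have hWT : ⁅U, V⁆ ≤ T' := by
    rw [Subgroup.commutator_le]
    intro u₁ hu₁ v hv
    have h1 := hT'c (V ⊔ zpowers b) (sup_le hVU (zpowers_le.2 hbU)) v (hle hv) u₁ hu₁
    have h2 := T'.inv_mem h1
    have e : (v * u₁ * v⁻¹ * u₁⁻¹)⁻¹ = ⁅u₁, v⁆ := by
      rw [commutatorElement_def]
      group
    rwa [e] at h2
  exact hT'y u (hWT hu) hus

end E2Setup

/-- Existence of the maximal pair. -/
theorem exists_max_pair {p : ℕ} [hpf : Fact p.Prime] {A : Subgroup G} (S : E2Setup p A) {M W : Subgroup G} (hM : IsCoatom M)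
    {q : ℕ} [Fact q.Prime] (hqσ : q ∈ sigma M) (hqp : q ≠ p)
    (hWM : W ≤ M) (hWn : M ≤ normalizer (W : Set G)) (hWc : (Nat.card W).Coprime p) (hWq : ∀ T : Subgroup G, T ≤ M → IsPGroup q T → T ≤ W)
    (hAM : A ≤ M)
    (hex : ∃ H T : Subgroup G, IsCoatom H ∧ H ≠ M ∧ A ≤ H ∧ T ≤ M ∧ T ≤ H ∧ IsPGroup q T ∧
      A ≤ normalizer (T : Set G) ∧ T ≠ ⊥) :
    ∃ H T : Subgroup G, IsCoatom H ∧ H ≠ M ∧ A ≤ H ∧ T ≤ M ∧ T ≤ H ∧ IsPGroup q T ∧
      A ≤ normalizer (T : Set G) ∧ T ≠ ⊥ ∧ normalizer (T : Set G) ≤ M ∧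
      ∀ T' : Subgroup G, T' ≤ M → T' ≤ H → IsPGroup q T' → A ≤ normalizer (T' : Set G) → T ≤ T' → T' = T := by
  classical
  obtain ⟨H₀, T₀, h1, h2, h3, h4, h5, h6, h7, h8⟩ := hex
  let P : Set (Subgroup G) := {T | ∃ H : Subgroup G, IsCoatom H ∧ H ≠ M ∧ A ≤ H ∧ T ≤ M ∧ T ≤ H ∧ IsPGroup q T ∧
      A ≤ normalizer (T : Set G) ∧ T ≠ ⊥}
  have hP : P.Nonempty := ⟨T₀, H₀, h1, h2, h3, h4, h5, h6, h7, h8⟩
  obtain ⟨T, ⟨H, hH, hne, hAH, hTM, hTH, hTq, hAT, hT1⟩, hmax⟩ := (Set.toFinite P).exists_maximal hP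
  have hmax' : ∀ T' : Subgroup G, T' ∈ P → T ≤ T' → T' = T := fun T' hT' hle =>
    le_antisymm (hmax hT' hle) hle
  refine ⟨H, T, hH, hne, hAH, hTM, hTH, hTq, hAT, hT1, ?_, ?_⟩
  · by_contra hN
    have hTtop : T ≠ ⊤ := fun h => hM.1 (top_le_iff.1 (h ▸ hTM))
    obtain ⟨L, hL, hNL⟩ := exists_coatom_ge (IsMinSimpleOddOrder.normalizer_ne_top S.hG hT1 hTtop)
    have hLM : L ≠ M := by
      rintro rfl
      exact hN hNL
    have hTW := hWq T hTM hTq
    obtain ⟨Q, hTQ, hAQ⟩ := exists_invariant_sylow_ge (hAM.trans hWn) (S.cA_coprime hWc) (Or.inl S.hAsolv) q T hTW hTq hAT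
    have hQm := isMaxP_map Q
    by_cases hTe : T = (Q : Subgroup W).map W.subtype
    · -- `T` is a Sylow subgroup of `M`
      have hTmaxM : IsMaxP q T M := by
        refine ⟨hTM, hTq, fun D' hD' hD'q hle => ?_⟩
        have := hQm.max D' (hWq D' hD' hD'q) hD'q (hTe ▸ hle)
        rw [this, hTe]
      obtain ⟨S', hS', hS'N⟩ := sigma_sylow hqσ hTmaxM.toSylow
      apply hN
      have : ((hTmaxM.toSylow : Subgroup M).map M.subtype) = T := by
        show (T.subgroupOf M).map M.subtype = T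
        exact Subgroup.map_subgroupOf_eq_of_le hTM
      rw [this] at hS'
      rw [← hS']
      exact hS'N
    · have hlt : T < (Q : Subgroup W).map W.subtype := lt_of_le_of_ne hTQ hTe
      have hgrow := lt_inf_normalizer hQm.isP hlt
      have hin : (Q : Subgroup W).map W.subtype ⊓ normalizer (T : Set G) ∈ P := by
        refine ⟨L, hL, hLM, (hAT.trans hNL), inf_le_left.trans (hQm.le.trans hWM), inf_le_right.trans hNL,
          hQm.isP.to_le inf_le_left,
          (fun a ha => Cfsg.Agent.Lib.Basic.mem_normalizer_inf' (hAQ ha) (Subgroup.le_normalizer (hAT ha))), ?_⟩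
        intro hb
        rw [hb] at hgrow
        exact hT1 (le_bot_iff.1 hgrow.le)
      have := hmax' _ hin hgrow.le
      exact hgrow.ne this.symm
  · intro T' h1 h2 h3 h4 h5
    refine hmax' T' ⟨H, hH, hne, hAH, h1, h2, h3, h4, ?_⟩ h5
    intro hb
    rw [hb] at h5
    exact hT1 (le_bot_iff.1 h5)

/-- The combined E1 data. -/
theorem exists_e1 {p : ℕ} [hpf : Fact p.Prime] {A : Subgroup G} (S : E2Setup p A) {M W : Subgroup G} (hM : IsCoatom M)
    {q : ℕ} [Fact q.Prime] (hqσ : q ∈ sigma M) (hqp : q ≠ p)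
    (hWM : W ≤ M) (hWn : M ≤ normalizer (W : Set G)) (hWc : (Nat.card W).Coprime p) (hWq : ∀ T : Subgroup G, T ≤ M → IsPGroup q T → T ≤ W)
    (hAM : A ≤ M) (hfpf : ∀ T : Subgroup G, T ≤ M → IsPGroup q T → A ≤ normalizer (T : Set G) → T ⊓ centralizer (A : Set G) = ⊥)
    (hex : ∃ H T : Subgroup G, IsCoatom H ∧ H ≠ M ∧ A ≤ H ∧ T ≤ M ∧ T ≤ H ∧ IsPGroup q T ∧
      A ≤ normalizer (T : Set G) ∧ T ≠ ⊥) :
    ∃ (H T U : Subgroup G) (s : ℕ) (y : G), IsCoatom H ∧ H ≠ M ∧ A ≤ H ∧ T ≤ M ∧ T ≤ H ∧ IsPGroup q T ∧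
      A ≤ normalizer (T : Set G) ∧ T ≠ ⊥ ∧ T ⊓ centralizer (A : Set G) = ⊥ ∧ E1Data p A M H T U q s y := by
  obtain ⟨H, T, hH, hne, hAH, hTM, hTH, hTq, hAT, hT1, hNT, hmax⟩ := exists_max_pair S hM hqσ hqp hWM hWn hWc hWq hAM hex
  have hTf := hfpf T hTM hTq hAT
  obtain ⟨U, s, y, E⟩ := S.e1 hqp hM hH hne hAM hAH hTM hTH hTq hAT hTf hNT hmax
  exact ⟨H, T, U, s, y, hH, hne, hAH, hTM, hTH, hTq, hAT, hT1, hTf, E⟩

/-- Two independent lines with `D_x ≤ M` are impossible in the presence of `E1` data. -/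
theorem no_two_lines {p : ℕ} [hpf : Fact p.Prime] {A : Subgroup G} (S : E2Setup p A) {M H T U : Subgroup G}
    {q s : ℕ} {y : G} [Fact q.Prime] (hqp : q ≠ p) (E : E1Data p A M H T U q s y)
    (hTq : IsPGroup q T) (hAT : A ≤ normalizer (T : Set G)) (hTf : T ⊓ centralizer (A : Set G) = ⊥)
    {b : G} (hb : b ∈ A) (hby : b ∉ zpowers y) :
    ¬ piCoreOf (primesNotDvd (Nat.card A)) (centralizer ({b} : Set G)) ≤ M := by
  intro hle
  haveI : Fact s.Prime := ⟨E.hs⟩
  obtain ⟨u, hu, hub, -, huM⟩ := S.e1c hqp E hTq hAT hTf hb hby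
  exact huM (hle (S.W_inf_le_D E hAT E.hTU hb (S.ne_one_of_not_mem hby) ⟨hu, hub⟩))


end Cfsg.Agent.Lib.FT
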