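import Cfsg.Agent.Lib.FT.BG11d
import Cfsg.Agent.S1394
import Cfsg.Agent.S1395
import Cfsg.Agent.S1396

/-!
BG section 12: lines of `A`, the fixed points of a maximal invariant subgroup.
-/

set_option autoImplicit false
set_option linter.unusedSectionVars false
set_option linter.style.haveILetI false

namespace Cfsg.Agent.Lib.FT

open Subgroup Cfsg Cfsg.Agent.Lib.OddLocal Cfsg.Agent.Lib.Basic

open scoped commutatorElement Pointwise

open Cfsg.Agent.Lib.Coprime (mem_conj_map conj_mem_conj_map conj_map_conj_map conj_map_one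
  conj_map_mono mem_normalizer_of_conj_le conj_map_eq_iff_mem_normalizer)

variable {G : Type*} [Group G] [Finite G]

/-- `C_K(M)`-index formula: if `K = K₀ (K ∩ M)` then `|K : K ∩ M| = |K₀ : K₀ ∩ M|`. -/
theorem relIndex_eq_of_factor {K K₀ M : Subgroup G} (hK₀ : K₀ ≤ K) (h : ∀ k ∈ K, ∃ c ∈ K₀, c⁻¹ * k ∈ M) :
    M.relIndex K = M.relIndex K₀ := by
  classical
  set B := M.subgroupOf K with hB
  letI : MulAction ↥K₀ (↥K ⧸ B) := MulAction.compHom _ (Subgroup.inclusion hK₀)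
  have hsmul : ∀ (c : ↥K₀) (x : ↥K), c • ((x : ↥K) : ↥K ⧸ B) = ((Subgroup.inclusion hK₀ c * x : ↥K) : ↥K ⧸ B) := fun _ _ => rfl
  haveI : MulAction.IsPretransitive ↥K₀ (↥K ⧸ B) := by
    refine ⟨fun x y => ?_⟩
    induction x using QuotientGroup.induction_on with
    | H x =>
    induction y using QuotientGroup.induction_on with
    | H y =>
    obtain ⟨c₁, hc₁, h₁⟩ := h x x.2
    obtain ⟨c₂, hc₂, h₂⟩ := h y y.2
    refine ⟨⟨c₂, hc₂⟩ * ⟨c₁, hc₁⟩⁻¹, ?_⟩
    rw [hsmul, QuotientGroup.eq, hB, Subgroup.mem_subgroupOf]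
    have e : (((Subgroup.inclusion hK₀ ((⟨c₂, hc₂⟩ : ↥K₀) * (⟨c₁, hc₁⟩ : ↥K₀)⁻¹) * x : ↥K)⁻¹ * y : ↥K) : G) =
        (c₁⁻¹ * x)⁻¹ * (c₂⁻¹ * y) := by
      simp [Subgroup.inclusion]
      group
    rw [e]
    exact M.mul_mem (M.inv_mem h₁) h₂
  have h1 := MulAction.index_stabilizer_of_transitive ↥K₀ ((1 : ↥K) : ↥K ⧸ B)
  have h2 : MulAction.stabilizer ↥K₀ ((1 : ↥K) : ↥K ⧸ B) = M.subgroupOf K₀ := by
    ext c
    rw [MulAction.mem_stabilizer_iff, hsmul, mul_one, Subgroup.mem_subgroupOf]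
    have : ((Subgroup.inclusion hK₀ c : ↥K) : ↥K ⧸ B) = ((1 : ↥K) : ↥K ⧸ B) ↔ (Subgroup.inclusion hK₀ c : ↥K) ∈ B := by
      rw [QuotientGroup.eq, mul_one, Subgroup.inv_mem_iff]
    rw [this, hB, Subgroup.mem_subgroupOf]
    rfl
  rw [h2] at h1
  rw [Subgroup.relIndex, Subgroup.relIndex, h1]
  rfl

/-- Invariant maximal `r`-subgroups are conjugate by a fixed element. -/
theorem inv_isMaxP_conj {A N U₁ U₂ : Subgroup G} {r : ℕ} [Fact r.Prime] (hAN : A ≤ normalizer (N : Set G))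
    (hcop : (Nat.card A).Coprime (Nat.card N)) (hsolv : Group.IsSolvable A ∨ Group.IsSolvable N)
    (h₁ : IsMaxP r U₁ N) (h₂ : IsMaxP r U₂ N) (hA₁ : A ≤ normalizer (U₁ : Set G)) (hA₂ : A ≤ normalizer (U₂ : Set G)) :
    ∃ c ∈ N ⊓ centralizer (A : Set G), U₂ = U₁.map (MulAut.conj c).toMonoidHom := by
  obtain ⟨-, h2⟩ := glauberman_subgroups hAN hcop hsolv {U | IsMaxP r U N} ⟨U₁, h₁⟩
    (fun k hk X hX => by
      rw [Set.mem_setOf_eq, conj_smul_eq_map]
      exact IsMaxP.conj_in hX hk)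
    (fun a ha X hX => by
      rw [Set.mem_setOf_eq, conj_smul_eq_map]
      have := IsMaxP.conj hX a
      rwa [(conj_map_eq_iff_mem_normalizer N a).2 (hAN ha)] at this)
    (fun X hX Y hY => by
      obtain ⟨n, hn, e⟩ := IsMaxP.exists_conj_eq hX hY
      exact ⟨n, hn, by rw [conj_smul_eq_map, e]⟩)
  obtain ⟨c, hc, e⟩ := h2 U₁ h₁ U₂ h₂ hA₁ hA₂
  exact ⟨c, hc, by rw [← e, conj_smul_eq_map]⟩

/-- The fixed points of an invariant maximal `r`-subgroup form a maximal `r`-subgroup of the fixed points. -/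
theorem isMaxP_inf_centralizer {A N U : Subgroup G} {r : ℕ} [Fact r.Prime] (hAN : A ≤ normalizer (N : Set G))
    (hcop : (Nat.card A).Coprime (Nat.card N)) (hsolv : Group.IsSolvable A ∨ Group.IsSolvable N)
    (hU : IsMaxP r U N) (hAU : A ≤ normalizer (U : Set G)) :
    IsMaxP r (U ⊓ centralizer (A : Set G)) (N ⊓ centralizer (A : Set G)) := by
  refine ⟨inf_le_inf_right _ hU.le, hU.isP.to_le inf_le_left, fun D' h1 h2 h3 => ?_⟩
  have hAD : A ≤ normalizer (D' : Set G) := normalizes_of_le_centralizer (h1.trans inf_le_right)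
  obtain ⟨P, hDP, hAP⟩ := exists_invariant_sylow_ge hAN hcop hsolv r D' (h1.trans inf_le_left) h2 hAD
  obtain ⟨c, hc, e⟩ := inv_isMaxP_conj hAN hcop hsolv hU (isMaxP_map P) hAU hAP
  have hle : D' ≤ (U ⊓ centralizer (A : Set G)).map (MulAut.conj c).toMonoidHom := by
    intro d hd
    have h4 := hDP hd
    rw [e, mem_conj_map] at h4
    rw [mem_conj_map]
    refine ⟨h4, ?_⟩
    have hcC : c ∈ centralizer (A : Set G) := hc.2
    have hdC : d ∈ centralizer (A : Set G) := (h1 hd).2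
    exact Subgroup.mul_mem _ (Subgroup.mul_mem _ (Subgroup.inv_mem _ hcC) hdC) hcC
  refine (Subgroup.eq_of_le_of_card_ge h3 ?_).symm
  have := Subgroup.card_le_of_le hle
  rwa [card_conj_map] at this

/-- If `K = K₀ (K ∩ M)` with `K₀` containing a maximal `r`-subgroup inside `M`, `r` does not divide the index. -/
theorem not_dvd_relIndex_of_isMaxP {K₀ M T : Subgroup G} {r : ℕ} [Fact r.Prime] (hT : IsMaxP r T K₀) (hTM : T ≤ M) :
    ¬ r ∣ M.relIndex K₀ := by
  intro hd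
  have h1 : (hT.toSylow : Subgroup ↥K₀) ≤ M.subgroupOf K₀ := by
    intro x hx
    exact Subgroup.mem_subgroupOf.2 (hTM (Subgroup.mem_subgroupOf.1 hx))
  exact hT.toSylow.not_dvd_index (hd.trans (Subgroup.index_dvd_of_le h1))

/-- A subgroup not inside `X` has an invariant Sylow subgroup not inside `X`. -/
theorem exists_inv_sylow_not_le {Z O X : Subgroup G} (hZO : Z ≤ normalizer (O : Set G))
    (hc : (Nat.card Z).Coprime (Nat.card O)) (hs : Group.IsSolvable Z ∨ Group.IsSolvable O) (hOX : ¬ O ≤ X) :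
    ∃ (s : ℕ) (_ : Fact s.Prime) (R : Sylow s O),
      Z ≤ normalizer (((R : Subgroup O).map O.subtype : Subgroup G) : Set G) ∧ ¬ (R : Subgroup O).map O.subtype ≤ X := by
  by_contra hcon
  push Not at hcon
  apply hOX
  have htop : X.subgroupOf O = ⊤ := by
    apply eq_top_of_forall_exists_sylow_le
    intro r _
    obtain ⟨R, hR⟩ := exists_invariant_sylow hZO hc hs r
    refine ⟨R, ?_⟩
    have := hcon r inferInstance R hR
    intro x hx
    exact Subgroup.mem_subgroupOf.2 (this ⟨x, hx, rfl⟩)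
  intro o ho
  have : (⟨o, ho⟩ : O) ∈ X.subgroupOf O := by
    rw [htop]
    trivial
  exact Subgroup.mem_subgroupOf.1 this

/-- A Sylow subgroup of `G` invariant under `A` is a maximal `A`-invariant subgroup. -/
theorem maxInv_of_sylow {A : Subgroup G} {q : ℕ} (hq : q.Prime) (S₀ : Sylow q G)
    (hA : A ≤ normalizer ((S₀ : Subgroup G) : Set G)) : (S₀ : Subgroup G) ∈ maxInvSubgroups ⊤ A {q} := by
  refine ⟨⟨le_top, (isPiSub_singleton_iff hq).2 S₀.isPGroup', hA⟩, fun R hR hle => ?_⟩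
  exact S₀.is_maximal' ((isPiSub_singleton_iff hq).1 hR.2.1) hle

namespace E2Setup

variable {p : ℕ} [hpf : Fact p.Prime] {A : Subgroup G} (S : E2Setup p A)

local notation "π'" => primesNotDvd (Nat.card A)
local notation "𝐊" => piCoreOf (primesNotDvd (Nat.card A)) (centralizer (A : Set G))

include S

/-- The intersection of a conjugate with a centralizer. -/
theorem conj_inf_cent {Q Y : Subgroup G} {k : G} (hk : k ∈ Y) :
    (Q ⊓ Y).map (MulAut.conj k).toMonoidHom = Q.map (MulAut.conj k).toMonoidHom ⊓ Y := by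
  ext g
  rw [Subgroup.mem_inf, mem_conj_map, mem_conj_map, Subgroup.mem_inf]
  constructor
  · rintro ⟨h1, h2⟩
    refine ⟨h1, ?_⟩
    have := Y.mul_mem (Y.mul_mem hk h2) (Y.inv_mem hk)
    have e : k * (k⁻¹ * g * k) * k⁻¹ = g := by group
    rwa [e] at this
  · rintro ⟨h1, h2⟩
    exact ⟨h1, Y.mul_mem (Y.mul_mem (Y.inv_mem hk) h2) hk⟩

/-- **L1**: the fixed points of a line on a maximal invariant subgroup form a maximal subgroup of `D_x`. -/
theorem fix_isMaxP {Q : Subgroup G} {q : ℕ} [Fact q.Prime] (hqp : q ≠ p) (hQ : Q ∈ maxInvSubgroups ⊤ A {q})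
    {x : G} (hx : x ∈ A) (hx1 : x ≠ 1) (hY : Q ⊓ centralizer ({x} : Set G) ≠ ⊥) :
    IsMaxP q (Q ⊓ centralizer ({x} : Set G)) (piCoreOf (primesNotDvd (Nat.card A)) (centralizer ({x} : Set G))) := by
  have hqp' : q.Prime := Fact.out
  have hQq : IsPGroup q Q := (isPiSub_singleton_iff hqp').1 hQ.1.2.1
  have hCtop := centralizer_singleton_ne_top S.hG hx1
  have hAC := S.A_le_cent hx
  have hAY := S.A_inv_inf hx hQ.1.2.2
  have hYq : IsPGroup q ↥(Q ⊓ centralizer ({x} : Set G)) := hQq.to_le inf_le_left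
  have hYD := S.star hCtop hAC inf_le_right (S.coprime_of_isPGroup hqp hYq) hAY
  have hDN := S.A_inv_core hAC
  obtain ⟨P, hYP, hAP⟩ := exists_invariant_sylow_ge hDN (S.cA_coprime (S.core_coprime _)) (Or.inl S.hAsolv) q _ hYD hYq hAY
  have hPm := isMaxP_map P
  set S₀ := (P : Subgroup ↥(piCoreOf (primesNotDvd (Nat.card A)) (centralizer ({x} : Set G)))).map
    (piCoreOf (primesNotDvd (Nat.card A)) (centralizer ({x} : Set G))).subtype with hS₀
  have hS₀C : S₀ ≤ centralizer ({x} : Set G) := hPm.le.trans (piCoreOf_le _ _)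
  have hS₀inv : S₀ ∈ invSubgroups ⊤ A {q} := ⟨le_top, (isPiSub_singleton_iff hqp').2 hPm.isP, hAP⟩
  obtain ⟨Q₂, hQ₂, hPQ₂⟩ := exists_maxInv_ge hS₀inv
  have hH₁ : centralizer ({x} : Set G) ⊓ Q ≠ ⊥ := by
    rwa [inf_comm]
  have hH₂ : centralizer ({x} : Set G) ⊓ Q₂ ≠ ⊥ := by
    intro h
    apply hY
    rw [eq_bot_iff, ← h]
    exact le_inf inf_le_right (hYP.trans hPQ₂)
  obtain ⟨k, hk, e⟩ := kconj_of_meet S.hG S.hth q (S.not_dvd_of_ne hqp' hqp) hQ hQ₂ hCtop hAC hH₁ hH₂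
  have hkC : k ∈ centralizer ({x} : Set G) := S.K_le_centx hx hk
  have hle : S₀ ≤ (Q ⊓ centralizer ({x} : Set G)).map (MulAut.conj k).toMonoidHom := by
    rw [S.conj_inf_cent hkC, ← e]
    exact le_inf hPQ₂ hS₀C
  have heq : Q ⊓ centralizer ({x} : Set G) = S₀ := by
    refine Subgroup.eq_of_le_of_card_ge hYP ?_
    have := Subgroup.card_le_of_le hle
    rwa [Cfsg.Agent.Lib.Coprime.card_conj_map] at this
  rw [heq]
  exact hPm

/-- The factorisation of `K`. -/
theorem K_factor {q : ℕ} [Fact q.Prime] {x : G} (hx : x ∈ A) (hx1 : x ≠ 1) {Y : Subgroup G}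
    (hY : IsMaxP q Y (piCoreOf (primesNotDvd (Nat.card A)) (centralizer ({x} : Set G))))
    (hAY : A ≤ normalizer (Y : Set G)) {k : G} (hk : k ∈ 𝐊) :
    ∃ c ∈ Oq' q (piCoreOf (primesNotDvd (Nat.card A)) (centralizer ({x} : Set G))) ⊓ centralizer (A : Set G),
      c⁻¹ * k ∈ normalizer (Y : Set G) := by
  classical
  set D := piCoreOf (primesNotDvd (Nat.card A)) (centralizer ({x} : Set G)) with hD
  have hCtop := centralizer_singleton_ne_top S.hG hx1
  have hDC : D ≤ centralizer ({x} : Set G) := piCoreOf_le _ _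
  have hDtop : D ≠ ⊤ := fun h => hCtop (top_le_iff.1 (h ▸ hDC))
  have hkD : k ∈ D := S.K_le_D hx hx1 hk
  obtain ⟨n, hn, m, hm, e⟩ := frattini_Oq' hY (S.hpl q D hDtop) hkD
  set N₁ := Oq' q D with hN₁
  haveI : (pPrimeCore q ↥D).Characteristic := pPrimeCore_characteristic q
  have hAD : A ≤ normalizer (D : Set G) := S.A_inv_core (S.A_le_cent hx)
  have hAN₁ : A ≤ normalizer (N₁ : Set G) := hAD.trans (le_normalizer_map_of_characteristic (pPrimeCore q ↥D))
  have hN₁c : (Nat.card N₁).Coprime p :=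
    Nat.Coprime.coprime_dvd_left (Subgroup.card_dvd_of_le (Oq'_le q D)) (S.core_coprime _)
  let Ω : Set (Subgroup G) := {Z | ∃ n ∈ N₁, Z = MulAut.conj n • Y}
  have hYΩ : Y ∈ Ω := ⟨1, N₁.one_mem, by rw [conj_smul_one]⟩
  obtain ⟨-, h2⟩ := glauberman_subgroups hAN₁ (S.cA_coprime hN₁c) (Or.inl S.hAsolv) Ω ⟨Y, hYΩ⟩
    (fun k' hk' X hX => by
      obtain ⟨n', hn', rfl⟩ := hX
      exact ⟨k' * n', N₁.mul_mem hk' hn', (conj_smul_mul _ _ _).symm⟩)
    (fun a ha X hX => by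
      obtain ⟨n', hn', rfl⟩ := hX
      refine ⟨a * n' * a⁻¹, (Subgroup.mem_normalizer_iff.1 (hAN₁ ha) n').1 hn', ?_⟩
      have e1 : MulAut.conj a • MulAut.conj n' • Y = MulAut.conj (a * n') • Y := (conj_smul_mul _ _ _).symm
      have e2 : MulAut.conj (a * n' * a⁻¹) • Y = MulAut.conj (a * n') • (MulAut.conj a⁻¹ • Y) := by
        rw [conj_smul_mul]
      have e3 : MulAut.conj a⁻¹ • Y = Y := conj_smul_le_of_normalizer ((normalizer (Y : Set G)).inv_mem (hAY ha))
      rw [e1, e2, e3])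
    (fun X hX X' hX' => by
      obtain ⟨n₁, hn₁, rfl⟩ := hX
      obtain ⟨n₂, hn₂, rfl⟩ := hX'
      refine ⟨n₂ * n₁⁻¹, N₁.mul_mem hn₂ (N₁.inv_mem hn₁), ?_⟩
      rw [← conj_smul_mul]
      simp)
  have hkY : MulAut.conj k • Y = MulAut.conj n • Y := by
    rw [e, conj_smul_mul, conj_smul_le_of_normalizer hm.2]
  have hkΩ : MulAut.conj k • Y ∈ Ω := ⟨n, hn, hkY⟩
  have hkA : k ∈ centralizer (A : Set G) := S.K_le_cent hk
  have hAk : A ≤ normalizer ((MulAut.conj k • Y : Subgroup G) : Set G) := by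
    intro a ha
    apply mem_normalizer_of_conj_smul_eq
    rw [← conj_smul_mul]
    have hc : a * k = k * a := (Subgroup.mem_centralizer_iff.1 hkA a ha)
    rw [hc, conj_smul_mul, conj_smul_le_of_normalizer (hAY ha)]
  obtain ⟨c, hc, hcY⟩ := h2 Y hYΩ _ hkΩ hAY hAk
  refine ⟨c, hc, mem_normalizer_of_conj_smul_eq ?_⟩
  rw [conj_smul_mul, ← hcY, conj_inv_smul_conj]

/-- The split of a line. -/
theorem line_split {q : ℕ} [Fact q.Prime] (hqp : q ≠ p) {x b : G} (hx : x ∈ A) (hx1 : x ≠ 1) (hb : b ∈ A)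
    (hbx : b ∉ zpowers x) {Y : Subgroup G}
    (hYD : Y ≤ piCoreOf (primesNotDvd (Nat.card A)) (centralizer ({x} : Set G)))
    (hYq : IsPGroup q Y) (hAY : A ≤ normalizer (Y : Set G)) (hYf : Y ⊓ centralizer ({b} : Set G) = ⊥) :
    Oq' q (piCoreOf (primesNotDvd (Nat.card A)) (centralizer ({x} : Set G))) ≤ centralizer (Y : Set G) ∨
      ∃ (s : ℕ) (U : Subgroup G) (u : G), s.Prime ∧ s ≠ 2 ∧ s ≠ p ∧ s ≠ q ∧
        U ≤ Oq' q (piCoreOf (primesNotDvd (Nat.card A)) (centralizer ({x} : Set G))) ∧ IsPGroup s U ∧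
        Y ≤ normalizer (U : Set G) ∧ A ≤ normalizer (U : Set G) ∧ ¬ PRankLE s 2 U ∧ u ∈ U ∧
        u ∈ centralizer (A : Set G) ∧ u ∉ centralizer (Y : Set G) := by
  classical
  by_cases hN : Oq' q (piCoreOf (primesNotDvd (Nat.card A)) (centralizer ({x} : Set G))) ≤ centralizer (Y : Set G)
  · exact Or.inl hN
  right
  set D := piCoreOf (primesNotDvd (Nat.card A)) (centralizer ({x} : Set G)) with hD
  set N₁ := Oq' q D with hN₁
  have hCtop := centralizer_singleton_ne_top S.hG hx1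
  have hDC : D ≤ centralizer ({x} : Set G) := piCoreOf_le _ _
  have hDcop : (Nat.card D).Coprime p := S.core_coprime _
  haveI : (pPrimeCore q ↥D).Characteristic := pPrimeCore_characteristic q
  have hCN : centralizer ({x} : Set G) ≤ normalizer (N₁ : Set G) :=
    (le_normalizer_piCoreOf _ _).trans (le_normalizer_map_of_characteristic (pPrimeCore q ↥D))
  have hAC := S.A_le_cent hx
  have hZC : Y ⊔ A ≤ centralizer ({x} : Set G) := sup_le (hYD.trans hDC) hAC
  have hN₁D : N₁ ≤ D := Oq'_le q D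
  have hN₁c : (Nat.card N₁).Coprime p := Nat.Coprime.coprime_dvd_left (Subgroup.card_dvd_of_le hN₁D) hDcop
  have hN₁q : (Nat.card N₁).Coprime q := Oq'_card_coprime q D
  have hZc : (Nat.card ↥(Y ⊔ A)).Coprime (Nat.card N₁) := by
    refine coprime_card_sup hAY ?_ (S.cA_coprime hN₁c)
    obtain ⟨k, hk⟩ := IsPGroup.iff_card.1 hYq
    rw [hk]
    exact (Nat.Coprime.pow_right k hN₁q).symm
  have hZtop : Y ⊔ A ≠ ⊤ := fun h => hCtop (top_le_iff.1 (h ▸ hZC))
  obtain ⟨s, hsf, R, hRZ, hRnc⟩ := exists_inv_sylow_not_le (hZC.trans hCN) hZc (Or.inl (S.hsolv hZtop)) hN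
  haveI := hsf
  have hsp' : s.Prime := Fact.out
  set U := (R : Subgroup N₁).map N₁.subtype with hU
  have hUm := isMaxP_map R
  have hUs : IsPGroup s U := hUm.isP
  have hUN : U ≤ N₁ := hUm.le
  have hU1 : U ≠ ⊥ := by
    rintro h
    rw [h] at hRnc
    exact hRnc bot_le
  have hsU : s ∣ Nat.card U := by
    obtain ⟨k, hk⟩ := IsPGroup.iff_card.1 hUs
    have hk0 : k ≠ 0 := by
      rintro rfl
      rw [pow_zero] at hk
      exact hU1 (Subgroup.card_eq_one.1 hk)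
    rw [hk]
    exact dvd_pow_self s hk0
  have hsO : s ∣ Nat.card N₁ := hsU.trans (Subgroup.card_dvd_of_le hUN)
  have hsq : s ≠ q := by
    rintro rfl
    exact hsp'.one_lt.ne' (Nat.eq_one_of_dvd_coprimes hN₁q hsO (dvd_refl s))
  have hsp : s ≠ p := by
    rintro rfl
    exact hsp'.one_lt.ne' (Nat.eq_one_of_dvd_coprimes hN₁c hsO (dvd_refl s))
  have hs2 : s ≠ 2 := prime_odd S.hG hsp' (hsU.trans (Subgroup.card_subgroup_dvd_card U))
  have hAU : A ≤ normalizer (U : Set G) := le_sup_right.trans hRZ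
  have hYU : Y ≤ normalizer (U : Set G) := le_sup_left.trans hRZ
  have hb1 : b ≠ 1 := S.ne_one_of_not_mem hbx
  have hbord : (orderOf b).Prime := by
    rw [S.ord hb hb1]
    exact hpf.out
  have hbq : (orderOf b).Coprime q := by
    rw [S.ord hb hb1]
    exact (Nat.coprime_primes hpf.out Fact.out).2 (Ne.symm hqp)
  have hFC : Y ⊔ zpowers b ≤ centralizer ({x} : Set G) :=
    sup_le (hYD.trans hDC) (zpowers_le.2 (hAC hb))
  have hFtop : Y ⊔ zpowers b ≠ ⊤ := fun h => hCtop (top_le_iff.1 (h ▸ hFC))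
  have hYnc : ¬ Y ≤ centralizer (U : Set G) := fun h => hRnc ((Subgroup.le_centralizer_iff).1 h)
  have hr := not_prank_of_act hs2 hsq U Y b hUs hYq hYU (hAU hb) (hAY hb) hYf hbq (S.hsolv hFtop) (S.hodd _) hYnc
  have hUtop : U ≠ ⊤ := IsMinSimpleOddOrder.ne_top_of_isPGroup S.hG hsp' hUs
  have hcop : (Nat.card U).Coprime (Nat.card ↥(Y ⊔ zpowers b)) := by
    apply Nat.Coprime.symm
    refine coprime_card_sup (zpowers_le.2 (hAY hb)) ?_ ?_
    · exact IsPGroup.coprime_card_of_ne q s (Ne.symm hsq) Y U hYq hUs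
    · rw [Nat.card_zpowers, S.ord hb hb1]
      exact (S.coprime_of_isPGroup hsp hUs).symm
  have hfix : ¬ U ⊓ centralizer ({b} : Set G) ≤ centralizer (Y : Set G) := fun h =>
    hRnc (frob_fixed Y U b hbord (hAY hb) hYf hYU (hAU hb) (S.hsolv hUtop) hcop h)
  obtain ⟨u, ⟨hu, hub⟩, huY⟩ := SetLike.not_le_iff_exists.1 hfix
  refine ⟨s, U, u, hsp', hs2, hsp, hsq, hUN, hUs, hYU, hAU, hr, hu, ?_, huY⟩
  exact S.cent_inf_le hx hx1 hb hbx ⟨hDC (hN₁D (hUN hu)), hub⟩

/-- **Lemma Good**: if `K ≤ M`, the line subgroup `D_x` lies in `M`. -/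
theorem good_line {M : Subgroup G} (hM : IsCoatom M) {q : ℕ} [Fact q.Prime] (hqp : q ≠ p) {x b : G} (hx : x ∈ A)
    (hx1 : x ≠ 1) (hb : b ∈ A) (hbx : b ∉ zpowers x) {Y : Subgroup G}
    (hY : IsMaxP q Y (piCoreOf (primesNotDvd (Nat.card A)) (centralizer ({x} : Set G))))
    (hAY : A ≤ normalizer (Y : Set G)) (hYf : Y ⊓ centralizer ({b} : Set G) = ⊥)
    (hNY : normalizer (Y : Set G) ≤ M) (hCY : centralizer (Y : Set G) ≤ M) (hK : 𝐊 ≤ M) :
    piCoreOf (primesNotDvd (Nat.card A)) (centralizer ({x} : Set G)) ≤ M := by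
  classical
  set D := piCoreOf (primesNotDvd (Nat.card A)) (centralizer ({x} : Set G)) with hD
  have hCtop := centralizer_singleton_ne_top S.hG hx1
  have hDC : D ≤ centralizer ({x} : Set G) := piCoreOf_le _ _
  have hDtop : D ≠ ⊤ := fun h => hCtop (top_le_iff.1 (h ▸ hDC))
  have hYM : Y ≤ M := Subgroup.le_normalizer.trans hNY
  have hAM : A ≤ M := hAY.trans hNY
  rcases S.line_split hqp hx hx1 hb hbx hY.le hY.isP hAY hYf with hN | ⟨s, U, u, hsp', hs2, hsp, hsq, hUN, hUs, hYU, hAU, hr, hu, huA, huY⟩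
  · intro d hd
    obtain ⟨n, hn, m, hm, e⟩ := frattini_Oq' hY (S.hpl q D hDtop) hd
    rw [e]
    exact M.mul_mem (hCY (hN hn)) (hNY hm.2)
  · haveI : Fact s.Prime := ⟨hsp'⟩
    have hUc := S.coprime_of_isPGroup hsp hUs
    have huK : u ∈ 𝐊 := by
      have h1 : zpowers u ≤ 𝐊 := S.le_K (zpowers_le.2 huA) (by
        rw [Nat.card_zpowers]
        exact Nat.Coprime.coprime_dvd_left (Subgroup.orderOf_dvd_natCard U hu) hUc)
      exact h1 (mem_zpowers u)
    have huM : u ∈ M := hK huK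
    have hnc : ¬ Y ≤ centralizer ((M ⊓ U : Subgroup G) : Set G) := by
      intro h
      exact huY (((Subgroup.le_centralizer_iff).1 h) ⟨huM, hu⟩)
    have hb1 : b ≠ 1 := S.ne_one_of_not_mem hbx
    have hbq : (orderOf b).Coprime q := by
      rw [S.ord hb hb1]
      exact (Nat.coprime_primes hpf.out Fact.out).2 (Ne.symm hqp)
    have hFM : Y ⊔ zpowers b ≤ M := sup_le hYM (zpowers_le.2 (hAM hb))
    have hFtop : Y ⊔ zpowers b ≠ ⊤ := fun h => hM.1 (top_le_iff.1 (h ▸ hFM))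
    have hU'n : ∀ g, g ∈ M → g ∈ normalizer (U : Set G) → g ∈ normalizer ((M ⊓ U : Subgroup G) : Set G) := fun g h1 h2 =>
      Cfsg.Agent.Lib.Basic.mem_normalizer_inf' (Subgroup.le_normalizer h1) h2
    have hr' : ¬ PRankLE s 2 ↥(M ⊓ U) := not_prank_of_act hs2 hsq (M ⊓ U) Y b (hUs.to_le inf_le_right) hY.isP
      (fun v hv => hU'n v (hYM hv) (hYU hv)) (hU'n b (hAM hb) (hAU hb)) (hAY hb) hYf hbq (S.hsolv hFtop) (S.hodd _) hnc
    have hU'top : M ⊓ U ≠ ⊤ := fun h => hM.1 (top_le_iff.1 (h ▸ inf_le_left))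
    have huq := unique_of_prank S.huniq hsp' hU'top hr'
    have hU'C : M ⊓ U ≤ centralizer ({x} : Set G) :=
      inf_le_right.trans (hUN.trans ((Oq'_le q D).trans hDC))
    exact hDC.trans (uniq_le hM inf_le_left huq hCtop hU'C)

/-- A nontrivial power of `y ∈ A` generates the same subgroup. -/
theorem zpowers_eq_of_mem {y c : G} (hy : y ∈ A) (hc : c ∈ zpowers y) (hc1 : c ≠ 1) : zpowers c = zpowers y := by
  have hy1 : y ≠ 1 := by
    rintro rfl
    rw [Subgroup.zpowers_one_eq_bot] at hc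
    exact hc1 (Subgroup.mem_bot.1 hc)
  have hcard : Nat.card (zpowers y) = p := by
    rw [Nat.card_zpowers, S.ord hy hy1]
  have h1 : (⟨y, mem_zpowers y⟩ : zpowers y) ∈ zpowers (⟨c, hc⟩ : zpowers y) :=
    mem_zpowers_of_prime_card hcard (fun h => hc1 (congrArg Subtype.val h))
  obtain ⟨k, hk⟩ := h1
  have hk' : c ^ k = y := by simpa using congrArg Subtype.val hk
  have h2 : y ∈ zpowers c := ⟨k, hk'⟩
  exact le_antisymm (zpowers_le.2 hc) (zpowers_le.2 h2)

/-- The `(Y, A)`-invariant Sylow subgroups of `O_{q'}(D_x)`. -/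
theorem exists_inv_sylow_line {q : ℕ} [Fact q.Prime] {x : G} (hx : x ∈ A) (hx1 : x ≠ 1) {Y : Subgroup G}
    (hYD : Y ≤ piCoreOf (primesNotDvd (Nat.card A)) (centralizer ({x} : Set G)))
    (hYq : IsPGroup q Y) (hAY : A ≤ normalizer (Y : Set G)) (r : ℕ) [Fact r.Prime] :
    ∃ U : Subgroup G, IsMaxP r U (Oq' q (piCoreOf (primesNotDvd (Nat.card A)) (centralizer ({x} : Set G)))) ∧
      Y ≤ normalizer (U : Set G) ∧ A ≤ normalizer (U : Set G) := by
  classical
  set D := piCoreOf (primesNotDvd (Nat.card A)) (centralizer ({x} : Set G)) with hD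
  set N₁ := Oq' q D with hN₁
  have hCtop := centralizer_singleton_ne_top S.hG hx1
  have hDC : D ≤ centralizer ({x} : Set G) := piCoreOf_le _ _
  have hDcop : (Nat.card D).Coprime p := S.core_coprime _
  haveI : (pPrimeCore q ↥D).Characteristic := pPrimeCore_characteristic q
  have hCN : centralizer ({x} : Set G) ≤ normalizer (N₁ : Set G) :=
    (le_normalizer_piCoreOf _ _).trans (le_normalizer_map_of_characteristic (pPrimeCore q ↥D))
  have hAC := S.A_le_cent hx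
  have hZC : Y ⊔ A ≤ centralizer ({x} : Set G) := sup_le (hYD.trans hDC) hAC
  have hN₁D : N₁ ≤ D := Oq'_le q D
  have hN₁c : (Nat.card N₁).Coprime p := Nat.Coprime.coprime_dvd_left (Subgroup.card_dvd_of_le hN₁D) hDcop
  have hN₁q : (Nat.card N₁).Coprime q := Oq'_card_coprime q D
  have hZc : (Nat.card ↥(Y ⊔ A)).Coprime (Nat.card N₁) := by
    refine coprime_card_sup hAY ?_ (S.cA_coprime hN₁c)
    obtain ⟨k, hk⟩ := IsPGroup.iff_card.1 hYq
    rw [hk]
    exact (Nat.Coprime.pow_right k hN₁q).symm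
  have hZtop : Y ⊔ A ≠ ⊤ := fun h => hCtop (top_le_iff.1 (h ▸ hZC))
  obtain ⟨R, hR⟩ := exists_invariant_sylow (hZC.trans hCN) hZc (Or.inl (S.hsolv hZtop)) r
  exact ⟨_, isMaxP_map R, le_sup_left.trans hR, le_sup_right.trans hR⟩

omit S in
/-- A cyclic elementary abelian group has order at most `q`. -/
theorem _root_.Cfsg.Agent.Lib.FT.card_le_of_cyclic_elem {q : ℕ} [Fact q.Prime] {E : Subgroup G} (hE : IsElementaryAbelian q E)
    (hc : IsCyclic E) : Nat.card E ≤ q := by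
  obtain ⟨g, hg⟩ := IsCyclic.exists_generator (α := E)
  have h1 : Nat.card E = orderOf g := by
    rw [← Nat.card_zpowers g, (Subgroup.eq_top_iff' _).2 hg]
    exact (Nat.card_congr Subgroup.topEquiv.toEquiv).symm
  rw [h1]
  have h2 : g ^ q = 1 := Subtype.ext (hE.2 g g.2)
  exact Nat.le_of_dvd (Fact.out : q.Prime).pos (orderOf_dvd_of_pow_eq_one h2)

omit S in
/-- In a cyclic group, the elements of order dividing `q` form the group generated by one of them. -/
theorem _root_.Cfsg.Agent.Lib.FT.mem_zpowers_of_cyclic {q : ℕ} [Fact q.Prime] {Y : Subgroup G} (hY : IsCyclic Y) {z w : G}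
    (hz : z ∈ Y) (hw : w ∈ Y) (hz1 : z ≠ 1) (hzq : z ^ q = 1) (hwq : w ^ q = 1) : w ∈ zpowers z := by
  by_contra hn
  have hqp : q.Prime := Fact.out
  have hcomm : IsMulCommutative Y := IsCyclic.commutative
  have hc : ∀ a ∈ Y, ∀ b ∈ Y, a * b = b * a := fun a ha b hb =>
    congrArg Subtype.val (hcomm.is_comm.comm (⟨a, ha⟩ : Y) ⟨b, hb⟩)
  have hZe : IsElementaryAbelian q (zpowers z) := by
    refine ⟨inferInstance, ?_⟩
    rintro _ ⟨k, rfl⟩
    show (z ^ k) ^ q = 1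
    rw [← zpow_natCast, zpow_comm, zpow_natCast, hzq, one_zpow]
  have hF := isElementaryAbelian_sup_zpowers hZe hwq (by
    rintro _ ⟨k, rfl⟩
    exact hc w hw _ (Y.zpow_mem hz k))
  have hle : zpowers z ⊔ zpowers w ≤ Y := sup_le (zpowers_le.2 hz) (zpowers_le.2 hw)
  have hcyc : IsCyclic ↥(zpowers z ⊔ zpowers w) :=
    isCyclic_of_injective (Subgroup.inclusion hle) (Subgroup.inclusion_injective hle)
  have h1 := card_le_of_cyclic_elem hF hcyc
  have hlt : zpowers z < zpowers z ⊔ zpowers w := by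
    refine lt_of_le_of_ne le_sup_left fun h => hn ?_
    rw [h]
    exact (le_sup_right : zpowers w ≤ zpowers z ⊔ zpowers w) (mem_zpowers w)
  have h2 := card_lt_of_subgroup_lt hlt
  rw [Nat.card_zpowers, orderOf_eq_prime hzq hz1] at h2
  omega

/-- If all fixed points of lines on the noncyclic `Q` are cyclic then `C_Q(A) = 1`. -/
theorem fpf_of_fix_cyclic {q : ℕ} [Fact q.Prime] (hq2 : q ≠ 2) (hqp : q ≠ p) {Q : Subgroup G} (hQq : IsPGroup q Q)
    (hAQ : A ≤ normalizer (Q : Set G)) (hnc : ¬ IsCyclic Q)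
    (hfix : ∀ x ∈ A, x ≠ 1 → IsCyclic ↥(Q ⊓ centralizer ({x} : Set G))) : Q ⊓ centralizer (A : Set G) = ⊥ := by
  classical
  by_contra hne
  have hqp' : q.Prime := Fact.out
  obtain ⟨z, hz, hz1, hzq⟩ := exists_order_p_of_ne_bot q (hQq.to_le inf_le_left) hne
  haveI hchar : (omegaZ2 ↥Q q hq2).Characteristic := inferInstance
  set Wq := (omegaZ2 ↥Q q hq2).map Q.subtype with hWq
  have hWQ : Wq ≤ Q := map_subtype_le _
  have hWqq : IsPGroup q Wq := hQq.to_le hWQ
  have hAW : A ≤ normalizer (Wq : Set G) := hAQ.trans (le_normalizer_map_of_characteristic _)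
  haveI : IsMulCommutative A := S.hcomm
  have hgen := generation_by_centralizers A Wq S.not_cyclic hAW (S.cA_coprime (S.coprime_of_isPGroup hqp hWqq))
  have hle : Wq ≤ zpowers z := by
    rw [← hgen]
    refine iSup₂_le fun a ha => ?_
    rintro w ⟨hw, hwa⟩
    have hzC : z ∈ centralizer ({a} : Set G) := centralizer_le_of_mem ha.1 hz.2
    obtain ⟨w₀, hw₀, rfl⟩ := hw
    have hwq : ((w₀ : ↥Q) : G) ^ q = 1 := congrArg Subtype.val ((mem_omegaZ2.1 hw₀).2)
    exact mem_zpowers_of_cyclic (hfix a ha.1 ha.2) ⟨hz.1, hzC⟩ ⟨w₀.2, hwa⟩ hz1 hzq hwq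
  obtain ⟨E, hEn, hEe, hEc⟩ := Cfsg.Agent.Lib.Transfer.exists_normal_elementary_sq hq2 hQq hnc
  have hEW : E ≤ omegaZ2 ↥Q q hq2 := fun e he => ⟨normal_sq_le_Z2 q hQq E hEc he, hEe.2 e he⟩
  have h1 : q ^ 2 ≤ Nat.card Wq := by
    rw [← hEc, hWq, Subgroup.card_map_of_injective Q.subtype_injective]
    exact Subgroup.card_le_of_le hEW
  have h2 := Subgroup.card_le_of_le hle
  rw [Nat.card_zpowers, orderOf_eq_prime hzq hz1] at h2
  have h3 : q < q ^ 2 := by
    calc q = q ^ 1 := (pow_one q).symm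
      _ < q ^ 2 := Nat.pow_lt_pow_right hqp'.one_lt (by norm_num)
  omega


end E2Setup

end Cfsg.Agent.Lib.FT
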