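import Cfsg.Agent.Lib.FT.BG11e

/-!
BG section 12: `M_α = 1` under the hypothesis that no line of `A` has a normalizer controlled by `M`.
-/

set_option autoImplicit false
set_option linter.unusedSectionVars false
set_option linter.style.haveILetI false

namespace Cfsg.Agent.Lib.FT

open Subgroup Cfsg Cfsg.Agent.Lib.OddLocal Cfsg.Agent.Lib.Basic

open scoped commutatorElement Pointwise

open Cfsg.Agent.Lib.Coprime (mem_conj_map conj_mem_conj_map conj_map_conj_map conj_map_one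
  conj_map_mono mem_normalizer_of_conj_le conj_map_eq_iff_mem_normalizer)

variable {G : Type*} [Group G] [Finite G]

/-- The hypothesis `H0'` on `A` and `M`. -/
def H0 (A M : Subgroup G) : Prop :=
  ∀ x ∈ A, x ≠ 1 → ∃ L : Subgroup G, IsCoatom L ∧ L ≠ M ∧ normalizer ((zpowers x : Subgroup G) : Set G) ≤ L

theorem cent_le_norm (x : G) : centralizer ({x} : Set G) ≤ normalizer ((zpowers x : Subgroup G) : Set G) := by
  rw [← centralizer_zpowers_eq]
  exact centralizer_le_normalizer' _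

theorem H0.not_uniq {A M : Subgroup G} (h0 : H0 A M) (hM : IsCoatom M) {x : G} (hx : x ∈ A) (hx1 : x ≠ 1) :
    ¬ InUniqueMaximal (M ⊓ centralizer ({x} : Set G)) := by
  intro hu
  obtain ⟨L, hL, hne, hN⟩ := h0 x hx hx1
  exact hne (uniq_eq hu hL (inf_le_right.trans ((cent_le_norm x).trans hN)) hM inf_le_left)

/-- The basic consequences of `H0`: `M` has `p`-rank at most two and `A` is a maximal elementary abelian subgroup. -/
theorem setup_of_h0 (hG : IsMinSimpleOddOrder G) (huniq : UniquenessThm G) {M A : Subgroup G} {p : ℕ} [Fact p.Prime]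
    (hM : IsCoatom M) (hAM : A ≤ M) (hAe : IsElementaryAbelian p A) (hAc : Nat.card A = p ^ 2) (h0 : H0 A M) :
    PRankLE p 2 M ∧ ∀ z ∈ centralizer (A : Set G), z ^ p = 1 ↔ z ∈ A := by
  classical
  have hp : p.Prime := Fact.out
  have hAcomm : ∀ a ∈ A, ∀ b ∈ A, a * b = b * a := fun a ha b hb =>
    congrArg Subtype.val (hAe.1.is_comm.comm (⟨a, ha⟩ : A) ⟨b, hb⟩)
  have hAq : IsPGroup p A := isPGroup_of_elem hAe
  have hA1 : A ≠ ⊥ := by
    rintro rfl
    rw [Subgroup.card_bot] at hAc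
    have : 1 < p ^ 2 := Nat.one_lt_pow (by norm_num) hp.one_lt
    omega
  obtain ⟨x, hx, hx1⟩ := A.bot_or_exists_ne_one.resolve_left hA1
  have hno := fun {x : G} (hx : x ∈ A) (hx1 : x ≠ 1) => h0.not_uniq hM hx hx1
  have hCtop : M ⊓ centralizer ({x} : Set G) ≠ ⊤ := fun h => hM.1 (top_le_iff.1 (h ▸ inf_le_left))
  constructor
  · by_contra hr
    obtain ⟨P, hP, hAP⟩ := exists_isMaxP_ge hAM hAq
    have hPr : ¬ PRankLE p 2 P := fun h => hr (hP.prank_of h)
    have hP1 : P ≠ ⊥ := by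
      rintro rfl
      exact hA1 (le_bot_iff.1 hAP)
    obtain ⟨z, hzP, hz1, hzp, hzc⟩ := exists_central_order_p hP.isP hP1
    by_cases hzA : z ∈ A
    · have hPC : P ≤ M ⊓ centralizer ({z} : Set G) := by
        refine le_inf hP.le fun y hy => ?_
        rw [mem_centralizer_singleton_iff]
        exact (hzc y hy).symm
      have hr' : ¬ PRankLE p 2 ↥(M ⊓ centralizer ({z} : Set G)) := fun h =>
        hPr (prank_of_injective (Subgroup.inclusion hPC) (Subgroup.inclusion_injective hPC) h)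
      have hne : M ⊓ centralizer ({z} : Set G) ≠ ⊤ := fun h => hM.1 (top_le_iff.1 (h ▸ inf_le_left))
      exact hno hzA hz1 (unique_of_prank huniq hp hne hr')
    · have hE := isElementaryAbelian_sup_zpowers hAe hzp (fun e he => hzc e (hAP he))
      have hlt : A < A ⊔ zpowers z := by
        refine lt_of_le_of_ne le_sup_left fun h => hzA ?_
        rw [h]
        exact (le_sup_right : zpowers z ≤ A ⊔ zpowers z) (mem_zpowers z)
      have hcard : p ^ 2 < Nat.card ↥(A ⊔ zpowers z) := by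
        rw [← hAc]
        exact card_lt_of_subgroup_lt hlt
      have hEC : A ⊔ zpowers z ≤ M ⊓ centralizer ({x} : Set G) := by
        refine le_inf (sup_le hAM (zpowers_le.2 (hP.le hzP))) (sup_le ?_ ?_)
        · intro a ha
          rw [mem_centralizer_singleton_iff]
          exact (hAcomm a ha x hx)
        · rw [zpowers_le, mem_centralizer_singleton_iff]
          exact hzc x (hAP hx)
      exact hno hx hx1 (unique_of_prank huniq hp hCtop (not_prank_of_card hE hEC hcard))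
  · intro z hz
    constructor
    · intro hzp
      by_contra hzA
      have hzc : ∀ e ∈ A, z * e = e * z := fun e he => (Subgroup.mem_centralizer_iff.1 hz e he).symm
      have hE := isElementaryAbelian_sup_zpowers hAe hzp hzc
      have hlt : A < A ⊔ zpowers z := by
        refine lt_of_le_of_ne le_sup_left fun h => hzA ?_
        rw [h]
        exact (le_sup_right : zpowers z ≤ A ⊔ zpowers z) (mem_zpowers z)
      have hcard : p ^ 2 < Nat.card ↥(A ⊔ zpowers z) := by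
        rw [← hAc]
        exact card_lt_of_subgroup_lt hlt
      have hAC : A ≤ centralizer (A : Set G) := fun a ha => by
        rw [Subgroup.mem_centralizer_iff]
        exact fun b hb => hAcomm b hb a ha
      have hEC : A ⊔ zpowers z ≤ centralizer (A : Set G) := sup_le hAC (zpowers_le.2 hz)
      have hr2 := not_prank_of_card hE hEC hcard
      have hAtop : A ≠ ⊤ := fun h => hM.1 (top_le_iff.1 (h ▸ hAM))
      have hr1 : ¬ RankLE 1 A := by
        intro h
        refine not_prank_of_card hAe (le_refl A) ?_ (h p hp)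
        rw [hAc]
        exact Nat.pow_lt_pow_right hp.one_lt (by norm_num)
      have hu := huniq A hAtop hr1 (Or.inr (fun h => hr2 (h p hp)))
      have hAC' : A ≤ M ⊓ centralizer ({x} : Set G) := by
        refine le_inf hAM fun a ha => ?_
        rw [mem_centralizer_singleton_iff]
        exact hAcomm a ha x hx
      exact hno hx hx1 (uniq_of_le hu hAC' hCtop)
    · intro hzA
      exact hAe.2 z hzA

namespace E2Setup

variable {p : ℕ} [hpf : Fact p.Prime] {A : Subgroup G} (S : E2Setup p A)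

local notation "π'" => primesNotDvd (Nat.card A)
local notation "𝐊" => piCoreOf (primesNotDvd (Nat.card A)) (centralizer (A : Set G))

include S

/-- **Claim M**: `M_α = 1`. -/
theorem alphaCore_eq_bot_of_h0 {M : Subgroup G} (hM : IsCoatom M) (hAM : A ≤ M) (hr2 : PRankLE p 2 M)
    (h0 : H0 A M) : alphaCore M = ⊥ := by
  classical
  by_contra hne
  have hdne : Nat.card (alphaCore M) ≠ 1 := fun h => hne (Subgroup.card_eq_one.1 h)
  obtain ⟨q, hqp', hqd⟩ := Nat.exists_prime_and_dvd hdne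
  have hqα : q ∈ alpha M := piCoreOf_isPi _ _ q hqp' hqd
  haveI : Fact q.Prime := ⟨hqp'⟩
  have hqp : q ≠ p := by
    rintro rfl
    exact hqα.2 hr2
  have hq2 : q ≠ 2 := prime_odd S.hG hqp' (hqd.trans (Subgroup.card_subgroup_dvd_card _))
  have hqσ := alpha_sub_sigma S.hG S.huniq hM hqα
  set W := alphaCore M with hW
  have hWM : W ≤ M := piCoreOf_le _ _
  have hWn : M ≤ normalizer (W : Set G) := le_normalizer_piCoreOf _ _
  have hWc : (Nat.card W).Coprime p := by
    rw [Nat.coprime_comm, Nat.Prime.coprime_iff_not_dvd hpf.out]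
    intro hd
    exact (piCoreOf_isPi (alpha M) M p hpf.out hd).2 hr2
  have hWq : ∀ T : Subgroup G, T ≤ M → IsPGroup q T → T ≤ W := fun T h1 h2 =>
    le_alphaCore_of_isPGroup S.hG S.huniq hM hqα h2 h1
  have hno := fun {x : G} (hx : x ∈ A) (hx1 : x ≠ 1) => h0.not_uniq hM hx hx1
  have hfixr : ∀ x ∈ A, x ≠ 1 → RankLE 1 ↥(W ⊓ centralizer ({x} : Set G)) := by
    intro x hx hx1
    by_contra hr
    have hXα : ∀ r : ℕ, r.Prime → r ∣ Nat.card (zpowers x) → r ∉ alpha M := by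
      intro r hr hd hrα
      rw [Nat.card_zpowers, S.ord hx hx1] at hd
      have : r = p := (Nat.prime_dvd_prime_iff_eq hr hpf.out).1 hd
      exact hrα.2 (this ▸ hr2)
    have h1 := s1406_core S.hG S.huniq hM (zpowers x) (zpowers_le.2 (hAM hx)) hXα (by
      rwa [centralizer_zpowers_eq])
    rw [centralizer_zpowers_eq] at h1
    exact hno hx hx1 h1
  have hcyc : ∀ Q : Subgroup G, Q ≤ W → IsPGroup q Q → ∀ x ∈ A, x ≠ 1 → IsCyclic ↥(Q ⊓ centralizer ({x} : Set G)) := by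
    intro Q hQW hQq x hx hx1
    by_contra hnc
    have h1 := not_prank_one_of_not_cyclic hq2 (hQq.to_le inf_le_left) hnc
    apply h1
    have hle : Q ⊓ centralizer ({x} : Set G) ≤ W ⊓ centralizer ({x} : Set G) := inf_le_inf_right _ hQW
    exact prank_of_injective (Subgroup.inclusion hle) (Subgroup.inclusion_injective hle) (hfixr x hx hx1 q hqp')
  have hrM : ¬ PRankLE q 2 M := hqα.2
  have hmaxM : ∀ Q : Subgroup G, IsMaxP q Q W → IsMaxP q Q M := fun Q hQ =>
    ⟨hQ.le.trans hWM, hQ.isP, fun D' h1 h2 h3 => hQ.max D' (hWq D' h1 h2) h2 h3⟩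
  have hfpf : ∀ T : Subgroup G, T ≤ M → IsPGroup q T → A ≤ normalizer (T : Set G) → T ⊓ centralizer (A : Set G) = ⊥ := by
    intro T hTM hTq hAT
    obtain ⟨P, hTP, hAP⟩ := exists_invariant_sylow_ge (hAM.trans hWn) (S.cA_coprime hWc) (Or.inl S.hAsolv) q T (hWq T hTM hTq) hTq hAT
    have hPm := isMaxP_map P
    have hPr : ¬ PRankLE q 2 ((P : Subgroup W).map W.subtype) := fun h => hrM ((hmaxM _ hPm).prank_of h)
    have hPnc : ¬ IsCyclic ((P : Subgroup W).map W.subtype) := by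
      intro hc
      obtain ⟨E, hE, hEP, hEc⟩ := exists_of_not_prank hPr
      have hcE : IsCyclic E := isCyclic_of_injective (Subgroup.inclusion hEP) (Subgroup.inclusion_injective hEP)
      have h1 := card_le_of_cyclic_elem hE hcE
      have h2 : q < q ^ 2 := by
        calc q = q ^ 1 := (pow_one q).symm
          _ < q ^ 2 := Nat.pow_lt_pow_right hqp'.one_lt (by norm_num)
      omega
    have h1 := S.fpf_of_fix_cyclic hq2 hqp hPm.isP hAP hPnc (hcyc _ hPm.le hPm.isP)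
    rw [eq_bot_iff, ← h1]
    exact inf_le_inf_right _ hTP
  -- the subgroup `Q₁`
  obtain ⟨P, hAP⟩ := exists_invariant_sylow (hAM.trans hWn) (S.cA_coprime hWc) (Or.inl S.hAsolv) q
  set Q₁ := (P : Subgroup W).map W.subtype with hQ₁
  have hQ₁W : IsMaxP q Q₁ W := isMaxP_map P
  have hQ₁M : IsMaxP q Q₁ M := hmaxM _ hQ₁W
  have hQ₁r : ¬ PRankLE q 2 Q₁ := fun h => hrM (hQ₁M.prank_of h)
  obtain ⟨S₁, hS₁, -⟩ := sigma_sylow hqσ hQ₁M.toSylow
  have hS₁e : (S₁ : Subgroup G) = Q₁ := by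
    rw [hS₁]
    exact Subgroup.map_subgroupOf_eq_of_le hQ₁M.le
  have hQ₁max : Q₁ ∈ maxInvSubgroups ⊤ A {q} := by
    rw [← hS₁e]
    exact maxInv_of_sylow hqp' S₁ (by rw [hS₁e]; exact hAP)
  have hQ₁f := hfpf Q₁ hQ₁M.le hQ₁M.isP hAP
  obtain ⟨T', hT'Q, hNT', hT'r, hT'y, -⟩ := exists_good_sub hq2 hQ₁M.isP hQ₁r
  have hAT' : A ≤ normalizer (T' : Set G) := hAP.trans hNT'
  have hT'q : IsPGroup q T' := hQ₁M.isP.to_le hT'Q
  have hT'c := S.cA_coprime (S.coprime_of_isPGroup hqp hT'q)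
  have hT'M : T' ≤ M := hT'Q.trans hQ₁M.le
  have hVM : ∀ v ∈ T', v ≠ 1 → v ^ q = 1 → centralizer ({v} : Set G) ≤ M := by
    intro v hv hv1 hvq
    have h1 := hT'y v hv hvq
    have htop : Q₁ ⊓ centralizer ({v} : Set G) ≠ ⊤ :=
      IsMinSimpleOddOrder.ne_top_of_isPGroup S.hG hqp' (hQ₁M.isP.to_le inf_le_left)
    have hu := unique_of_prank S.huniq hqp' htop h1
    exact uniq_le hM (inf_le_left.trans hQ₁M.le) hu (centralizer_singleton_ne_top S.hG hv1) inf_le_right
  -- good lines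
  have hGood : ∀ x ∈ A, x ≠ 1 → T' ⊓ centralizer ({x} : Set G) ≠ ⊥ →
      IsMaxP q (Q₁ ⊓ centralizer ({x} : Set G)) (piCoreOf (primesNotDvd (Nat.card A)) (centralizer ({x} : Set G))) ∧
      A ≤ normalizer ((Q₁ ⊓ centralizer ({x} : Set G) : Subgroup G) : Set G) ∧
      centralizer ((Q₁ ⊓ centralizer ({x} : Set G) : Subgroup G) : Set G) ≤ M ∧
      normalizer ((Q₁ ⊓ centralizer ({x} : Set G) : Subgroup G) : Set G) ≤ M ∧
      ∀ b ∈ A, b ∉ zpowers x → (Q₁ ⊓ centralizer ({x} : Set G)) ⊓ centralizer ({b} : Set G) = ⊥ := by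
    intro x hx hx1 hne'
    obtain ⟨v, hv, hv1, hvq⟩ := exists_order_p_of_ne_bot q (hT'q.to_le inf_le_left) hne'
    have hY1 : Q₁ ⊓ centralizer ({x} : Set G) ≠ ⊥ := by
      intro h
      have : v ∈ Q₁ ⊓ centralizer ({x} : Set G) := ⟨hT'Q hv.1, hv.2⟩
      rw [h] at this
      exact hv1 (Subgroup.mem_bot.1 this)
    have hCY : centralizer ((Q₁ ⊓ centralizer ({x} : Set G) : Subgroup G) : Set G) ≤ M :=
      (centralizer_le_of_mem (X := Q₁ ⊓ centralizer ({x} : Set G)) ⟨hT'Q hv.1, hv.2⟩).trans (hVM v hv.1 hv1 hvq)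
    refine ⟨S.fix_isMaxP hqp hQ₁max hx hx1 hY1, S.A_inv_inf hx hAP, hCY, ?_, ?_⟩
    · have h1 := (s1404_core S.hG S.huniq hM hqσ (Q₁ ⊓ centralizer ({x} : Set G)) (hQ₁M.isP.to_le inf_le_left) hY1
        (inf_le_left.trans hQ₁M.le)).2
      rw [h1]
      exact sup_le inf_le_left hCY
    · intro b hb hbx
      rw [eq_bot_iff, ← hQ₁f]
      rintro g ⟨⟨h1, h2⟩, h3⟩
      exact ⟨h1, S.cent_inf_le hx hx1 hb hbx ⟨h2, h3⟩⟩
  haveI : IsMulCommutative A := S.hcomm
  have hgen := generation_by_centralizers A T' S.not_cyclic hAT' hT'c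
  have hT'1 : T' ≠ ⊥ := by
    rintro h
    apply hT'r
    rw [h]
    intro C _ _
    have h2 : Subsingleton C := by
      have : Subsingleton ↥(⊥ : Subgroup G) := inferInstance
      exact ⟨fun a b => Subtype.ext (Subsingleton.elim _ _)⟩
    have : Nat.card C = 1 := Nat.card_unique
    rw [this]
    exact Nat.one_le_pow _ _ hqp'.pos
  obtain ⟨x₁, hx₁, hx₁1, hx₁G⟩ : ∃ x₁ ∈ A, x₁ ≠ 1 ∧ T' ⊓ centralizer ({x₁} : Set G) ≠ ⊥ := by
    by_contra hcon
    push Not at hcon
    apply hT'1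
    rw [← hgen, eq_bot_iff]
    exact iSup₂_le fun a ha => (hcon a ha.1 ha.2).le
  obtain ⟨x₂, hx₂, hx₂1, hx₂G, hx₂x⟩ : ∃ x₂ ∈ A, x₂ ≠ 1 ∧ T' ⊓ centralizer ({x₂} : Set G) ≠ ⊥ ∧ x₂ ∉ zpowers x₁ := by
    by_contra hcon
    push Not at hcon
    have hle : T' ≤ centralizer ({x₁} : Set G) := by
      rw [← hgen]
      refine iSup₂_le fun a ha => ?_
      by_cases hab : T' ⊓ centralizer ({a} : Set G) = ⊥
      · rw [hab]
        exact bot_le
      · have := hcon a ha.1 ha.2 hab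
        rw [← S.cent_eq_of_mem hx₁ this ha.2]
        exact inf_le_right
    have hle' : T' ≤ W ⊓ centralizer ({x₁} : Set G) := le_inf (hT'Q.trans hQ₁W.le) hle
    apply hT'r
    have h1 := prank_of_injective (Subgroup.inclusion hle') (Subgroup.inclusion_injective hle') (hfixr x₁ hx₁ hx₁1 q hqp')
    exact prank_mono hqp'.pos (by norm_num) h1
  -- `K ≤ M`
  have hKM : 𝐊 ≤ M := by
    by_contra hK
    have hrne : M.relIndex 𝐊 ≠ 1 := fun h => hK (Subgroup.relIndex_eq_one.1 h)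
    obtain ⟨r, hr, hrd⟩ := Nat.exists_prime_and_dvd hrne
    haveI : Fact r.Prime := ⟨hr⟩
    have hrC : r ∣ Nat.card (centralizer (A : Set G)) :=
      hrd.trans ((Subgroup.relIndex_dvd_card _ _).trans (Subgroup.card_dvd_of_le S.K_le_cent))
    have hrK : r ∣ Nat.card 𝐊 := hrd.trans (Subgroup.relIndex_dvd_card _ _)
    have hrp : r ≠ p := by
      rintro rfl
      exact hr.one_lt.ne' (Nat.eq_one_of_dvd_coprimes (S.core_coprime _) hrK (dvd_refl r))
    have hr2' : r ≠ 2 := prime_odd S.hG hr (hrK.trans (Subgroup.card_subgroup_dvd_card _))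
    have hU : ∀ x ∈ A, x ≠ 1 → T' ⊓ centralizer ({x} : Set G) ≠ ⊥ →
        ∃ U : Subgroup G, IsPGroup r U ∧ U ≤ centralizer ({x} : Set G) ∧ A ≤ normalizer (U : Set G) ∧ ¬ PRankLE r 2 U := by
      intro x hx hx1 hxG
      obtain ⟨hYm, hAY, hCY, hNY, hYf⟩ := hGood x hx hx1 hxG
      set Y := Q₁ ⊓ centralizer ({x} : Set G) with hY
      set D := piCoreOf (primesNotDvd (Nat.card A)) (centralizer ({x} : Set G)) with hD
      set N₁ := Oq' q D with hN₁
      have hN₁D : N₁ ≤ D := Oq'_le q D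
      have hDC : D ≤ centralizer ({x} : Set G) := piCoreOf_le _ _
      have hN₁c : (Nat.card N₁).Coprime p := Nat.Coprime.coprime_dvd_left (Subgroup.card_dvd_of_le hN₁D) (S.core_coprime _)
      have hN₁q : (Nat.card N₁).Coprime q := Oq'_card_coprime q D
      have hKx : N₁ ⊓ centralizer (A : Set G) ≤ 𝐊 := S.le_K inf_le_right
        (Nat.Coprime.coprime_dvd_left (Subgroup.card_dvd_of_le inf_le_left) hN₁c)
      have hfac : M.relIndex 𝐊 = M.relIndex (N₁ ⊓ centralizer (A : Set G)) := by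
        refine relIndex_eq_of_factor hKx fun k hk => ?_
        obtain ⟨c, hc, hck⟩ := S.K_factor hx hx1 hYm hAY hk
        exact ⟨c, hc, hNY hck⟩
      rw [hfac] at hrd
      have hrN₁ : r ∣ Nat.card N₁ :=
        hrd.trans ((Subgroup.relIndex_dvd_card _ _).trans (Subgroup.card_dvd_of_le inf_le_left))
      have hrq : r ≠ q := by
        rintro rfl
        exact hr.one_lt.ne' (Nat.eq_one_of_dvd_coprimes hN₁q hrN₁ (dvd_refl r))
      obtain ⟨U, hUm, hYU, hAU⟩ := S.exists_inv_sylow_line hx hx1 hYm.le hYm.isP hAY r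
      have hUM : ¬ U ≤ M := by
        intro hle
        have hAN₁ : A ≤ normalizer (N₁ : Set G) := by
          haveI : (pPrimeCore q ↥D).Characteristic := pPrimeCore_characteristic q
          exact (S.A_inv_core (S.A_le_cent hx)).trans (le_normalizer_map_of_characteristic (pPrimeCore q ↥D))
        have h1 := isMaxP_inf_centralizer hAN₁ (S.cA_coprime hN₁c) (Or.inl S.hAsolv) hUm hAU
        exact not_dvd_relIndex_of_isMaxP h1 (inf_le_left.trans hle) hrd
      have hYnc : ¬ Y ≤ centralizer (U : Set G) := by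
        intro h
        exact hUM (((Subgroup.le_centralizer_iff).1 h).trans hCY)
      obtain ⟨b, hb, hbx⟩ := S.exists_not_mem x hx
      have hb1 : b ≠ 1 := S.ne_one_of_not_mem hbx
      have hbq : (orderOf b).Coprime q := by
        rw [S.ord hb hb1]
        exact (Nat.coprime_primes hpf.out hqp').2 (Ne.symm hqp)
      have hFM : Y ⊔ zpowers b ≤ M := sup_le (Subgroup.le_normalizer.trans hNY) (zpowers_le.2 (hAM hb))
      have hFtop : Y ⊔ zpowers b ≠ ⊤ := fun h => hM.1 (top_le_iff.1 (h ▸ hFM))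
      have hr3 := not_prank_of_act hr2' hrq U Y b hUm.isP hYm.isP hYU (hAU hb) (hAY hb) (hYf b hb hbx) hbq (S.hsolv hFtop)
        (S.hodd _) hYnc
      exact ⟨U, hUm.isP, hUm.le.trans (hN₁D.trans hDC), hAU, hr3⟩
    have htr := Cfsg.Agent.S1394.result S.hG A S.hth S.hZ r hr (S.not_dvd_of_ne hr hrp) hrC
    have hglue : ∀ x ∈ A, x ≠ 1 → T' ⊓ centralizer ({x} : Set G) ≠ ⊥ → ∀ x' ∈ A, x' ≠ 1 → T' ⊓ centralizer ({x'} : Set G) ≠ ⊥ →
        ∀ L L' : Subgroup G, IsCoatom L → IsCoatom L' → normalizer ((zpowers x : Subgroup G) : Set G) ≤ L →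
          normalizer ((zpowers x' : Subgroup G) : Set G) ≤ L' → L = L' := by
      intro x hx hx1 hxG x' hx' hx'1 hx'G L L' hL hL' hNL hNL'
      obtain ⟨U, hUr, hUC, hAU, hUn⟩ := hU x hx hx1 hxG
      obtain ⟨U', hU'r, hU'C, hAU', hU'n⟩ := hU x' hx' hx'1 hx'G
      obtain ⟨R, hR, hUR⟩ := exists_maxInv_ge (A := A) (X := ⊤) (T := U) (q := r)
        ⟨le_top, (isPiSub_singleton_iff hr).2 hUr, hAU⟩
      obtain ⟨R', hR', hUR'⟩ := exists_maxInv_ge (A := A) (X := ⊤) (T := U') (q := r)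
        ⟨le_top, (isPiSub_singleton_iff hr).2 hU'r, hAU'⟩
      obtain ⟨k, hk, e⟩ := htr R hR R' hR'
      have hCL : centralizer ({x} : Set G) ≤ L := (cent_le_norm x).trans hNL
      have hUL : U ≤ L := hUC.trans hCL
      have hRq : IsPGroup r R := (isPiSub_singleton_iff hr).1 hR.1.2.1
      have hUtop : U ≠ ⊤ := IsMinSimpleOddOrder.ne_top_of_isPGroup S.hG hr hUr
      have hU'top : U' ≠ ⊤ := IsMinSimpleOddOrder.ne_top_of_isPGroup S.hG hr hU'r
      have hu := unique_of_prank S.huniq hr hUtop hUn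
      have hu' := unique_of_prank S.huniq hr hU'top hU'n
      have hRL : R ≤ L := uniq_le hL hUL hu (IsMinSimpleOddOrder.ne_top_of_isPGroup S.hG hr hRq) hUR
      have hkL : k ∈ L := hCL (S.K_le_centx hx hk)
      have hR'L : R' ≤ L := by
        rw [e]
        rintro _ ⟨g, hg, rfl⟩
        exact L.mul_mem (L.mul_mem hkL (hRL hg)) (L.inv_mem hkL)
      exact uniq_eq hu' hL (hUR'.trans hR'L) hL' (hU'C.trans ((cent_le_norm x').trans hNL'))
    obtain ⟨L₁, hL₁, hL₁M, hNL₁⟩ := h0 x₁ hx₁ hx₁1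
    have hT'L : T' ≤ L₁ := by
      rw [← hgen]
      refine iSup₂_le fun a ha => ?_
      by_cases hab : T' ⊓ centralizer ({a} : Set G) = ⊥
      · rw [hab]
        exact bot_le
      · obtain ⟨L, hL, -, hNL⟩ := h0 a ha.1 ha.2
        rw [hglue x₁ hx₁ hx₁1 hx₁G a ha.1 ha.2 hab L₁ L hL₁ hL hNL₁ hNL]
        exact inf_le_right.trans ((cent_le_norm a).trans hNL)
    have hu := unique_of_prank S.huniq hqp' (IsMinSimpleOddOrder.ne_top_of_isPGroup S.hG hqp' hT'q) hT'r
    exact hL₁M (uniq_eq hu hL₁ hT'L hM hT'M)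
  -- the final contradiction
  obtain ⟨L₁, hL₁, hL₁M, hNL₁⟩ := h0 x₁ hx₁ hx₁1
  obtain ⟨hYm, hAY, hCY, hNY, hYf⟩ := hGood x₁ hx₁ hx₁1 hx₁G
  have hY₁1 : Q₁ ⊓ centralizer ({x₁} : Set G) ≠ ⊥ := by
    intro h
    apply hx₁G
    rw [eq_bot_iff, ← h]
    exact inf_le_inf_right _ hT'Q
  have hex : ∃ H T : Subgroup G, IsCoatom H ∧ H ≠ M ∧ A ≤ H ∧ T ≤ M ∧ T ≤ H ∧ IsPGroup q T ∧
      A ≤ normalizer (T : Set G) ∧ T ≠ ⊥ :=
    ⟨L₁, Q₁ ⊓ centralizer ({x₁} : Set G), hL₁, hL₁M, (S.A_le_cent hx₁).trans ((cent_le_norm x₁).trans hNL₁),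
      inf_le_left.trans hQ₁M.le, inf_le_right.trans ((cent_le_norm x₁).trans hNL₁), hQ₁M.isP.to_le inf_le_left, hAY, hY₁1⟩
  obtain ⟨H, T, U, s, y, hH, hHM, hAH, hTM, hTH, hTq, hAT, hT1, hTf, E⟩ :=
    exists_e1 S hM hqσ hqp hWM hWn hWc hWq hAM hfpf hex
  have hline : ∀ b ∈ A, b ≠ 1 → T' ⊓ centralizer ({b} : Set G) ≠ ⊥ → b ∈ zpowers y := by
    intro b hb hb1 hbG
    by_contra hby
    have h1 := no_two_lines S hqp E hTq hAT hTf hb hby
    obtain ⟨hYm', hAY', hCY', hNY', hYf'⟩ := hGood b hb hb1 hbG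
    obtain ⟨c, hc, hcb⟩ := S.exists_not_mem b hb
    exact h1 (S.good_line hM hqp hb hb1 hc hcb hYm' hAY' (hYf' c hc hcb) hNY' hCY' hKM)
  have h1 := hline x₁ hx₁ hx₁1 hx₁G
  have h2 := hline x₂ hx₂ hx₂1 hx₂G
  apply hx₂x
  rw [S.zpowers_eq_of_mem E.hy h1 hx₁1]
  exact h2

end E2Setup

end Cfsg.Agent.Lib.FT
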