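import Cfsg.Agent.Lib.FT.BG11f
import Cfsg.Agent.S1451
import Cfsg.Agent.S1460

/-!
BG section 12: the case `M_α = 1`; `M'` is nilpotent and the Sylow subgroups for `σ(M)` are normal in `M`.
-/

set_option autoImplicit false
set_option linter.unusedSectionVars false
set_option linter.style.haveILetI false

namespace Cfsg.Agent.Lib.FT

open Subgroup Cfsg Cfsg.Agent.Lib.OddLocal Cfsg.Agent.Lib.Basic

open scoped commutatorElement Pointwise

open Cfsg.Agent.Lib.Coprime (mem_conj_map conj_mem_conj_map conj_map_conj_map conj_map_one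
  conj_map_mono mem_normalizer_of_conj_le conj_map_eq_iff_mem_normalizer)

variable {G : Type*} [Group G] [Finite G]

/-- `Ω₁(Z(X))`, for a subgroup `X`. -/
def centerOm (X : Subgroup G) (p : ℕ) : Subgroup G :=
  omegaOf (X ⊓ centralizer (X : Set G)) p (fun a ha b hb h1 h2 => by
    have hc : Commute a b := (Subgroup.mem_centralizer_iff.1 hb.2 a ha.1)
    rw [hc.mul_pow, h1, h2, one_mul])

theorem mem_centerOm {X : Subgroup G} {p : ℕ} {z : G} :
    z ∈ centerOm X p ↔ z ∈ X ∧ z ∈ centralizer (X : Set G) ∧ z ^ p = 1 := by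
  rw [centerOm, mem_omegaOf, Subgroup.mem_inf, and_assoc]

theorem centerOm_elem {X : Subgroup G} {p : ℕ} : IsElementaryAbelian p (centerOm X p) := by
  refine ⟨⟨⟨?_⟩⟩, fun z hz => (mem_centerOm.1 hz).2.2⟩
  rintro ⟨a, ha⟩ ⟨b, hb⟩
  apply Subtype.ext
  exact (Subgroup.mem_centralizer_iff.1 (mem_centerOm.1 hb).2.1 a (mem_centerOm.1 ha).1)

theorem mem_normalizer_centerOm {X : Subgroup G} {p : ℕ} {g : G} (hg : g ∈ normalizer (X : Set G)) :
    g ∈ normalizer (centerOm X p : Set G) := by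
  apply mem_normalizer_of_conj_le
  intro z hz
  obtain ⟨h1, h2, h3⟩ := mem_centerOm.1 hz
  refine mem_centerOm.2 ⟨(Subgroup.mem_normalizer_iff.1 hg z).1 h1, ?_, ?_⟩
  · rw [Subgroup.mem_centralizer_iff]
    intro x hx
    have hx' : g⁻¹ * x * g ∈ X := by
      have := (Subgroup.mem_normalizer_iff.1 (inv_mem hg) x).1 hx
      simpa using this
    have h4 := Subgroup.mem_centralizer_iff.1 h2 _ hx'
    calc x * (g * z * g⁻¹) = g * ((g⁻¹ * x * g) * z) * g⁻¹ := by group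
      _ = g * (z * (g⁻¹ * x * g)) * g⁻¹ := by rw [h4]
      _ = g * z * g⁻¹ * x := by group
  · rw [conj_pow, h3, mul_one, mul_inv_cancel]

/-- `M'` is nilpotent when `M_α = 1`. -/
theorem commutator_nilpotent_of_alpha_bot {M : Subgroup G} (hG : IsMinSimpleOddOrder G) (huniq : UniquenessThm G) (hM : IsCoatom M)
    (hα : alphaCore M = ⊥) : Group.IsNilpotent ↥⁅M, M⁆ := by
  obtain ⟨-, -, -, -, h5⟩ := s1405_core hG huniq hM
  have hpi : piCore (alpha M) ↥M = ⊥ := by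
    have := hα
    rw [alphaCore, Subgroup.map_eq_bot_iff_of_injective _ M.subtype_injective] at this
    exact this
  have hinj : Function.Injective (QuotientGroup.mk' (piCore (alpha M) ↥M)) := by
    rw [← MonoidHom.ker_eq_bot_iff, QuotientGroup.ker_mk', hpi]
  have e1 := (commutator ↥M).equivMapOfInjective _ hinj
  have h6 : Group.IsNilpotent (commutator ↥M) := (Group.isNilpotent_congr e1).2 h5
  rw [← Subgroup.map_subtype_commutator]
  exact (Group.isNilpotent_congr ((commutator ↥M).equivMapOfInjective _ M.subtype_injective)).1 h6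

/-- `M` has rank at most two everywhere when `M_α = 1`. -/
theorem rank_of_alpha_bot {M : Subgroup G} (hG : IsMinSimpleOddOrder G) (huniq : UniquenessThm G) (hM : IsCoatom M)
    (hα : alphaCore M = ⊥) : RankLE 2 ↥M := by
  intro q hq
  by_contra hr
  haveI : Fact q.Prime := ⟨hq⟩
  have hqα : q ∈ alpha M := ⟨hq, hr⟩
  obtain ⟨E, hE, hEM, hEc⟩ := exists_of_not_prank hr
  have h1 := le_alphaCore_of_isPGroup hG huniq hM hqα (isPGroup_of_elem hE) hEM
  rw [hα, le_bot_iff] at h1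
  rw [h1, Subgroup.card_bot] at hEc
  have : 1 < q ^ 2 := Nat.one_lt_pow (by norm_num) hq.one_lt
  omega

/-- When `M` has rank at most two, `σ(M)` is nonempty. -/
theorem exists_sigma_of_rank {M : Subgroup G} (hG : IsMinSimpleOddOrder G) (hM : IsCoatom M)
    (hr : RankLE 2 ↥M) : ∃ q, q ∈ sigma M := by
  classical
  haveI := coatom_isSolvable hG hM
  have hM1 : Nat.card ↥M ≠ 1 := fun h => coatom_ne_bot hG hM (Subgroup.card_eq_one.1 h)
  obtain ⟨r₀, hr₀, hr₀d⟩ := Nat.exists_prime_and_dvd hM1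
  have hne : (Nat.card ↥M).primeFactors.Nonempty :=
    ⟨r₀, Nat.mem_primeFactors.2 ⟨hr₀, hr₀d, Nat.card_pos.ne'⟩⟩
  set r := (Nat.card ↥M).primeFactors.max' hne with hrdef
  have hrmem := Finset.max'_mem _ hne
  rw [← hrdef] at hrmem
  obtain ⟨hrp, hrd, -⟩ := Nat.mem_primeFactors.1 hrmem
  haveI : Fact r.Prime := ⟨hrp⟩
  obtain ⟨-, -, h3⟩ := Cfsg.Agent.S1451.result (G := ↥M) (subgroup_odd hG M) (Or.inl hr)
  obtain ⟨N, hNc, hN1, hN2⟩ := h3 (r - 1)
  have hrπ : r ∈ {q | q.Prime ∧ r - 1 < q} := ⟨hrp, by have := hrp.pos; omega⟩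
  have hNr : IsPGroup r N := by
    apply (isPiSub_singleton_iff (G := ↥M) hrp).1
    intro t ht htd
    obtain ⟨ht1, ht2⟩ := hN1 t ht htd
    have htM : t ∣ Nat.card ↥M := htd.trans (Subgroup.card_subgroup_dvd_card N)
    have h4 : t ≤ r := Finset.le_max' _ _ (Nat.mem_primeFactors.2 ⟨ht, htM, Nat.card_pos.ne'⟩)
    have h5 : t = r := by omega
    exact h5
  have hidx := hN2 r hrp hrπ
  have hcard : Nat.card N * N.index = Nat.card ↥M := Subgroup.card_mul_index N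
  have hrN : r ∣ Nat.card N := by
    have : r ∣ Nat.card N * N.index := hcard ▸ hrd
    exact (hrp.dvd_mul.1 this).resolve_right hidx
  have hN1' : N ≠ ⊥ := by
    rintro rfl
    rw [Subgroup.card_bot] at hrN
    exact hrp.one_lt.ne' (Nat.dvd_one.1 hrN)
  refine ⟨r, hrp, hrd, hNr.toSylow hidx, ?_⟩
  have hmapbot : N.map M.subtype ≠ ⊥ := by
    intro h
    exact hN1' ((Subgroup.map_eq_bot_iff_of_injective _ M.subtype_injective).1 h)
  have hmaptop : N.map M.subtype ≠ ⊤ := fun h => hM.1 (top_le_iff.1 (h ▸ map_subtype_le N))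
  have hle : M ≤ normalizer ((N.map M.subtype : Subgroup G) : Set G) := by
    intro m hm
    haveI : N.Normal := normal_of_characteristic N
    apply mem_normalizer_of_conj_le
    rintro _ ⟨n, hn, rfl⟩
    exact ⟨(⟨m, hm⟩ : ↥M) * n * (⟨m, hm⟩ : ↥M)⁻¹, Subgroup.Normal.conj_mem inferInstance n hn _, rfl⟩
  have := coatom_normalizer_eq hG hM hmapbot hmaptop hle
  exact this.le

/-- The derived group of a normalizing subgroup centralizes a cyclic subgroup. -/
theorem comm_le_cent_of_cyclic {R F : Subgroup G} (hc : IsCyclic R) (hF : F ≤ normalizer (R : Set G)) :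
    ⁅F, F⁆ ≤ centralizer (R : Set G) := by
  rw [Subgroup.commutator_le]
  intro g₁ h₁ g₂ h₂
  let f := conjHomOf R F hF
  have h1 : f ⁅(⟨g₁, h₁⟩ : ↥F), (⟨g₂, h₂⟩ : ↥F)⁆ = 1 := by
    simp only [commutatorElement_def, map_mul, map_inv]
    rw [mulAut_comm_of_cyclic (f ⟨g₁, h₁⟩) (f ⟨g₂, h₂⟩)]
    group
  rw [Subgroup.mem_centralizer_iff]
  intro r hr
  have h2 : (conjHomOf R F hF ⁅(⟨g₁, h₁⟩ : ↥F), (⟨g₂, h₂⟩ : ↥F)⁆ ⟨r, hr⟩ : ↥R) = ⟨r, hr⟩ := by
    show f _ ⟨r, hr⟩ = ⟨r, hr⟩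
    rw [h1]
    rfl
  have h3 := congrArg Subtype.val h2
  rw [conjHomOf_coe] at h3
  have h4 : ⁅g₁, g₂⁆ * r * ⁅g₁, g₂⁆⁻¹ = r := h3
  rw [mul_inv_eq_iff_eq_mul] at h4
  exact h4.symm

/-- A coatom is the only proper subgroup above itself. -/
theorem coatom_eq_of_le {M L : Subgroup G} (hM : IsCoatom M) (hL : L ≠ ⊤) (h : M ≤ L) : L = M := by
  by_contra hne
  exact hL (hM.2 L (lt_of_le_of_ne h (Ne.symm hne)))

/-- The criterion for `p ∈ σ(M)`. -/
theorem mem_sigma_of_normalizer_le {M P : Subgroup G} {p : ℕ} [Fact p.Prime] (hP : IsMaxP p P M) (hd : p ∣ Nat.card M)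
    (hN : normalizer (P : Set G) ≤ M) : p ∈ sigma M := by
  refine ⟨Fact.out, hd, hP.toSylow, ?_⟩
  have : ((hP.toSylow : Subgroup M).map M.subtype) = P := Subgroup.map_subgroupOf_eq_of_le hP.le
  rw [this]
  exact hN

/-- The data of a normal Sylow subgroup for `q ∈ σ(M)`, when `M'` is nilpotent. -/
structure QData (M Q₁ : Subgroup G) (q : ℕ) : Prop where
  hqσ : q ∈ sigma M
  hqp : q.Prime
  hQM : IsMaxP q Q₁ M
  hS : ∃ S₁ : Sylow q G, (S₁ : Subgroup G) = Q₁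
  hN : normalizer (Q₁ : Set G) = M
  hQc : Q₁ ≤ ⁅M, M⁆
  hQ1 : Q₁ ≠ ⊥
  hnil : Group.IsNilpotent ↥⁅M, M⁆

theorem qdata_of_sigma {M : Subgroup G} {q : ℕ} (hG : IsMinSimpleOddOrder G) (huniq : UniquenessThm G) (hM : IsCoatom M)
    (hnil : Group.IsNilpotent ↥⁅M, M⁆) (hq : q ∈ sigma M) : ∃ Q₁ : Subgroup G, QData M Q₁ q := by
  classical
  have hqp : q.Prime := hq.1
  haveI : Fact q.Prime := ⟨hqp⟩
  obtain ⟨S₁, hS₁M, hS₁N⟩ := sigma_exists_sylow hq
  have hS₁c := sylow_le_commutator hG huniq hM hq S₁ hS₁M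
  have hS₁O : (S₁ : Subgroup G) ≤ Oq q ⁅M, M⁆ := by
    intro x hx
    obtain ⟨k, hk⟩ := S₁.isPGroup' ⟨x, hx⟩
    exact mem_Oq hnil (hS₁c hx) (k := k) (by simpa using congrArg Subtype.val hk)
  have heq : Oq q ⁅M, M⁆ = (S₁ : Subgroup G) := S₁.is_maximal' (Oq_isPGroup q _) hS₁O
  have hMN : M ≤ normalizer ((S₁ : Subgroup G) : Set G) := by
    intro m hm
    rw [← heq]
    exact mem_normalizer_Oq hnil (Subgroup.normalizer_commutator_ge_left M M hm)
  have hS₁1 : (S₁ : Subgroup G) ≠ ⊥ := by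
    intro h
    have h1 := S₁.not_dvd_index
    rw [h, Subgroup.index_bot] at h1
    exact h1 (hq.2.1.trans (Subgroup.card_subgroup_dvd_card M))
  refine ⟨S₁, hq, hqp, ⟨hS₁M, S₁.isPGroup', fun D' _ h2 h3 => S₁.is_maximal' h2 h3⟩, ⟨S₁, rfl⟩,
    le_antisymm hS₁N hMN, hS₁c, hS₁1, hnil⟩

theorem QData.le {M Q₁ : Subgroup G} {q : ℕ} (Q : QData M Q₁ q) {T : Subgroup G} (hTM : T ≤ M) (hT : IsPGroup q T) : T ≤ Q₁ := by
  haveI : Fact q.Prime := ⟨Q.hqp⟩
  obtain ⟨n, hn, hle⟩ := Q.hQM.exists_conj_le hTM hT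
  have hnN : n ∈ normalizer (Q₁ : Set G) := Q.hN ▸ hn
  intro t ht
  have h1 := hle (conj_mem_conj_map T n t ht)
  have h2 := (Subgroup.mem_normalizer_iff.1 hnN t).2 h1
  exact h2

/-- Centralizers and normalizers of noncyclic subgroups of a Sylow subgroup `Q₁`, normal in `M`. -/
theorem QData.stage1 {M Q₁ : Subgroup G} {q : ℕ} (Q : QData M Q₁ q) (hG : IsMinSimpleOddOrder G) (huniq : UniquenessThm G) (hM : IsCoatom M)
    (hr : PRankLE q 2 M) {R : Subgroup G} (hRQ : R ≤ Q₁) (hR : ¬ IsCyclic R) :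
    centralizer (R : Set G) ≤ M ∧ normalizer (R : Set G) ≤ M := by
  classical
  haveI : Fact q.Prime := ⟨Q.hqp⟩
  have hqp := Q.hqp
  have hq2 : q ≠ 2 := prime_odd hG hqp (Q.hqσ.2.1.trans (Subgroup.card_subgroup_dvd_card M))
  have hQq := Q.hQM.isP
  have hRq : IsPGroup q R := hQq.to_le hRQ
  have hRnc := not_prank_one_of_not_cyclic hq2 hRq hR
  obtain ⟨E, hE, hER, hEc⟩ := exists_of_not_prank hRnc
  have hEM : E ≤ M := hER.trans (hRQ.trans Q.hQM.le)
  have hEle := card_le_of_prank hr hE hEM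
  have hEq := card_eq_sq_of_bounds hE hEc hEle
  set Z' := centerOm Q₁ q with hZ'
  have hZ'R : Z' ≤ R := by
    intro z hz
    obtain ⟨h1, h2, h3⟩ := mem_centerOm.1 hz
    by_contra hzR
    have hzE : z ∉ E := fun h => hzR (hER h)
    have hc : ∀ e ∈ E, z * e = e * z := fun e he =>
      (Subgroup.mem_centralizer_iff.1 h2 e (hRQ (hER he))).symm
    have hF := isElementaryAbelian_sup_zpowers hE h3 hc
    have hlt : E < E ⊔ zpowers z := by
      refine lt_of_le_of_ne le_sup_left fun h => hzE ?_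
      rw [h]
      exact (le_sup_right : zpowers z ≤ E ⊔ zpowers z) (mem_zpowers z)
    have h4 := card_lt_of_subgroup_lt hlt
    have h5 := card_le_of_prank hr hF (sup_le hEM (zpowers_le.2 (Q.hQM.le h1)))
    omega
  have hZ'1 : Z' ≠ ⊥ := by
    obtain ⟨z, hz, hz1, hzq, hzc⟩ := exists_central_order_p hQq Q.hQ1
    intro h
    have : z ∈ Z' := mem_centerOm.2 ⟨hz, by
      rw [Subgroup.mem_centralizer_iff]
      exact fun y hy => (hzc y hy).symm, hzq⟩
    rw [h] at this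
    exact hz1 (Subgroup.mem_bot.1 this)
  have hZ'top : Z' ≠ ⊤ := IsMinSimpleOddOrder.ne_top_of_isPGroup hG hqp (hRq.to_le hZ'R)
  have hMZ : M ≤ normalizer (Z' : Set G) := fun m hm =>
    mem_normalizer_centerOm (by rw [Q.hN]; exact hm)
  have hNZ := coatom_normalizer_eq hG hM hZ'1 hZ'top hMZ
  have hCR : centralizer (R : Set G) ≤ M := by
    rw [← hNZ]
    exact (Subgroup.centralizer_le hZ'R).trans (centralizer_le_normalizer' Z')
  refine ⟨hCR, ?_⟩
  have hR1 : R ≠ ⊥ := by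
    rintro rfl
    exact hR inferInstance
  have h1 := (s1404_core hG huniq hM Q.hqσ R hRq hR1 (hRQ.trans Q.hQM.le)).2
  rw [h1]
  exact sup_le inf_le_left hCR

namespace E2Setup

variable {p : ℕ} [hpf : Fact p.Prime] {A : Subgroup G} (S : E2Setup p A)

local notation "π'" => primesNotDvd (Nat.card A)
local notation "𝐊" => piCoreOf (primesNotDvd (Nat.card A)) (centralizer (A : Set G))

include S

/-- Case `p | |M'|`: a nontrivial subgroup `Z₀ ≤ A`, normal in `M`, centralized by a Sylow subgroup `P ≥ A` of `M`. -/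
theorem exists_normal_sub {M P : Subgroup G} (hM : IsCoatom M) (hAM : A ≤ M) (hC2 : ∀ z ∈ centralizer (A : Set G), z ^ p = 1 ↔ z ∈ A)
    (hnil : Group.IsNilpotent ↥⁅M, M⁆) (hpd : p ∣ Nat.card ↥⁅M, M⁆) (hP : IsMaxP p P M) (hAP : A ≤ P) :
    ∃ Z₀ : Subgroup G, Z₀ ≠ ⊥ ∧ Z₀ ≤ A ∧ M ≤ normalizer (Z₀ : Set G) ∧ P ≤ centralizer (Z₀ : Set G) := by
  classical
  set X := ⁅M, M⁆ with hX
  have hXM : X ≤ M := Subgroup.commutator_le_self M
  have hMX : M ≤ normalizer (X : Set G) := Subgroup.normalizer_commutator_ge_left M M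
  set Z := centerOm X p with hZ
  have hMZ : M ≤ normalizer (Z : Set G) := fun m hm => mem_normalizer_centerOm (hMX hm)
  have hZp : IsPGroup p Z := isPGroup_of_elem centerOm_elem
  have hR1 := Oq_ne_bot hnil hpd
  have hXR : X ≤ normalizer (Oq p X : Set G) := fun w hw =>
    mem_normalizer_Oq hnil (Subgroup.le_normalizer hw)
  obtain ⟨u, huR, hu1, huc⟩ := exists_central_of_normal (Oq_le p X) hR1 hnil hXR
  have huq : IsPGroup p (zpowers u) := (Oq_isPGroup p X).to_le (zpowers_le.2 huR)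
  have hub : zpowers u ≠ ⊥ := fun h => hu1 (Subgroup.zpowers_eq_bot.1 h)
  obtain ⟨z, hzu, hz1, hzp⟩ := exists_order_p_of_ne_bot p huq hub
  have hzZ : z ∈ Z := by
    obtain ⟨k, rfl⟩ := hzu
    refine mem_centerOm.2 ⟨X.zpow_mem (Oq_le p X huR) k, ?_, hzp⟩
    rw [Subgroup.mem_centralizer_iff]
    intro w hw
    have h1 : Commute w u := (huc w hw).symm
    exact h1.zpow_right k
  have hZ1 : Z ≠ ⊥ := by
    intro h
    rw [h] at hzZ
    exact hz1 (Subgroup.mem_bot.1 hzZ)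
  have hPZ : P ≤ normalizer (Z : Set G) := hP.le.trans hMZ
  have hW : IsPGroup p ↥(P ⊔ Z) := hP.isP.to_sup_of_normal_right' hZp hPZ
  obtain ⟨v, hvZ, hv1, hvc⟩ := exists_central_of_normal (le_sup_right : Z ≤ P ⊔ Z) hZ1 hW.isNilpotent
    (sup_le hPZ Subgroup.le_normalizer)
  refine ⟨Z ⊓ centralizer (P : Set G), ?_, ?_, ?_, ?_⟩
  · intro h
    have : v ∈ Z ⊓ centralizer (P : Set G) := ⟨hvZ, Subgroup.mem_centralizer_iff.2
      fun y hy => (hvc y (le_sup_left (a := P) hy)).symm⟩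
    rw [h] at this
    exact hv1 (Subgroup.mem_bot.1 this)
  · rintro g ⟨h1, h2⟩
    exact (hC2 g (Subgroup.centralizer_le hAP h2)).1 (mem_centerOm.1 h1).2.2
  · intro m hm
    apply mem_normalizer_of_conj_le
    rintro z₁ ⟨h1, h2⟩
    refine ⟨(Subgroup.mem_normalizer_iff.1 (hMZ hm) z₁).1 h1, Subgroup.mem_centralizer_iff.2 ?_⟩
    intro t ht
    have htM := hP.le ht
    have hc : t⁻¹ * (m⁻¹ * t * m) ∈ X := by
      have : ⁅t⁻¹, m⁻¹⁆ ∈ X := Subgroup.commutator_mem_commutator (M.inv_mem htM) (M.inv_mem hm)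
      have e : ⁅t⁻¹, m⁻¹⁆ = t⁻¹ * (m⁻¹ * t * m) := by
        rw [commutatorElement_def]
        group
      rwa [e] at this
    have hz₁X := (mem_centerOm.1 h1).2.1
    have hc1 : (t⁻¹ * (m⁻¹ * t * m)) * z₁ = z₁ * (t⁻¹ * (m⁻¹ * t * m)) :=
      Subgroup.mem_centralizer_iff.1 hz₁X _ hc
    have hc2 : t * z₁ = z₁ * t := Subgroup.mem_centralizer_iff.1 h2 t ht
    have hc3 : (m⁻¹ * t * m) * z₁ = z₁ * (m⁻¹ * t * m) := by
      have e : m⁻¹ * t * m = t * (t⁻¹ * (m⁻¹ * t * m)) := by group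
      rw [e, mul_assoc, hc1, ← mul_assoc, hc2, mul_assoc]
    calc t * (m * z₁ * m⁻¹) = m * ((m⁻¹ * t * m) * z₁) * m⁻¹ := by group
      _ = m * (z₁ * (m⁻¹ * t * m)) * m⁻¹ := by rw [hc3]
      _ = m * z₁ * m⁻¹ * t := by group
  · rw [Subgroup.le_centralizer_iff]
    exact inf_le_right

/-- **Claim S, case `p | |M'|`**. -/
theorem sigma_of_dvd_comm {M : Subgroup G} (hM : IsCoatom M) (hAM : A ≤ M) (hC2 : ∀ z ∈ centralizer (A : Set G), z ^ p = 1 ↔ z ∈ A)
    (h0 : H0 A M) (hnil : Group.IsNilpotent ↥⁅M, M⁆) (hpd : p ∣ Nat.card ↥⁅M, M⁆) : p ∈ sigma M := by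
  classical
  obtain ⟨P, hP, hAP⟩ := exists_isMaxP_ge hAM S.hAp
  obtain ⟨Z₀, hZ₁, hZA, hMZ, hPZ⟩ := S.exists_normal_sub hM hAM hC2 hnil hpd hP hAP
  obtain ⟨x, hx, hx1⟩ := Z₀.bot_or_exists_ne_one.resolve_left hZ₁
  have hxA := hZA hx
  have hpM : p ∣ Nat.card M := S.hdvd.trans (Subgroup.card_dvd_of_le hAM)
  by_cases he : Z₀ = zpowers x
  · obtain ⟨L, hL, hLM, hNL⟩ := h0 x hxA hx1
    rw [← he] at hNL
    exact absurd (coatom_eq_of_le hM hL.1 (hMZ.trans hNL)) hLM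
  · have hlt : zpowers x < Z₀ := lt_of_le_of_ne (zpowers_le.2 hx) (Ne.symm he)
    have h1 := card_lt_of_subgroup_lt hlt
    rw [Nat.card_zpowers, S.ord hxA hx1] at h1
    have hd : Nat.card Z₀ ∣ p ^ 2 := S.hAc ▸ Subgroup.card_dvd_of_le hZA
    obtain ⟨k, hk, hke⟩ := (Nat.dvd_prime_pow hpf.out).1 hd
    have hk2 : k = 2 := by
      rw [hke] at h1
      have : 1 < k := by
        have h2 : p ^ 1 < p ^ k := by rwa [pow_one]
        exact (Nat.pow_lt_pow_iff_right hpf.out.one_lt).1 h2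
      omega
    have hZe : Z₀ = A := Subgroup.eq_of_le_of_card_ge hZA (by rw [S.hAc, hke, hk2])
    rw [hZe] at hMZ hPZ
    have hNA := coatom_normalizer_eq S.hG hM S.hA1 S.hAtop hMZ
    refine mem_sigma_of_normalizer_le hP hpM ?_
    rw [← hNA]
    intro g hg
    apply mem_normalizer_of_conj_le
    intro a ha
    have h2 : g * a * g⁻¹ ∈ P := (Subgroup.mem_normalizer_iff.1 hg a).1 (hAP ha)
    refine (hC2 _ (hPZ h2)).1 ?_
    rw [conj_pow, S.hAe.2 a ha, mul_one, mul_inv_cancel]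

end E2Setup

end Cfsg.Agent.Lib.FT
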