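import Cfsg.Agent.Lib.FT.BG11g

/-!
BG section 12: the case `p ∤ |M'|`; the lemmas leading to `p ∈ σ(M)`.
-/

set_option autoImplicit false
set_option linter.unusedSectionVars false
set_option linter.style.haveILetI false

namespace Cfsg.Agent.Lib.FT

open Subgroup Cfsg Cfsg.Agent.Lib.OddLocal Cfsg.Agent.Lib.Basic

open scoped commutatorElement Pointwise

open Cfsg.Agent.Lib.Coprime (mem_conj_map conj_mem_conj_map conj_map_conj_map conj_map_one
  conj_map_mono mem_normalizer_of_conj_le conj_map_eq_iff_mem_normalizer)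

variable {G : Type*} [Group G] [Finite G]

/-- The `S1460` factorisation, at the level of `G`. -/
theorem le_comm_of_factor {Ps N C₀ N₂ : Subgroup G} (hsolv : Group.IsSolvable N) (hPsN : Ps ≤ N₂) (hN₂N : N₂ ≤ N)
    (hC₀N : C₀ ≤ N) (hC₀n : N ≤ normalizer (C₀ : Set G)) (hfact : ∀ n ∈ N, ∃ c ∈ C₀, c⁻¹ * n ∈ N₂)
    (hcop : (Nat.card Ps).Coprime (Nat.card C₀)) (hPscomm : Ps ≤ ⁅N, N⁆) : Ps ≤ ⁅N₂, N₂⁆ := by
  classical
  haveI hKn : (C₀.subgroupOf N).Normal := (Subgroup.normal_subgroupOf_iff_le_normalizer hC₀N).2 hC₀n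
  have hKU : C₀.subgroupOf N ⊔ N₂.subgroupOf N = ⊤ := by
    rw [eq_top_iff]
    rintro ⟨n, hn⟩ -
    obtain ⟨c, hc, hcn⟩ := hfact n hn
    have hcN := hC₀N hc
    have e : (⟨n, hn⟩ : ↥N) = ⟨c, hcN⟩ * ⟨c⁻¹ * n, hN₂N hcn⟩ := by
      apply Subtype.ext
      simp
    rw [e]
    exact Subgroup.mul_mem_sup (Subgroup.mem_subgroupOf.2 hc) (Subgroup.mem_subgroupOf.2 hcn)
  have hH : Ps.subgroupOf N ≤ N₂.subgroupOf N := fun x hx =>
    Subgroup.mem_subgroupOf.2 (hPsN (Subgroup.mem_subgroupOf.1 hx))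
  have hc' : (Nat.card (Ps.subgroupOf N)).Coprime (Nat.card (C₀.subgroupOf N)) := by
    rw [Cfsg.Agent.Lib.OddLocal.card_subgroupOf_of_le (hPsN.trans hN₂N), Cfsg.Agent.Lib.OddLocal.card_subgroupOf_of_le hC₀N]
    exact hcop
  obtain ⟨h1, -, -⟩ := Cfsg.Agent.S1460.result (C₀.subgroupOf N) (N₂.subgroupOf N) (Ps.subgroupOf N) hKU hH hc'
  intro t ht
  have htN := hN₂N (hPsN ht)
  have ht1 : (⟨t, htN⟩ : ↥N) ∈ commutator ↥N := by
    have h2 := hPscomm ht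
    rw [← Subgroup.map_subtype_commutator] at h2
    obtain ⟨y, hy, hyt⟩ := h2
    have : y = ⟨t, htN⟩ := Subtype.ext hyt
    rwa [← this]
  have ht2 : (⟨t, htN⟩ : ↥N) ∈ Ps.subgroupOf N ⊓ commutator ↥N := ⟨Subgroup.mem_subgroupOf.2 ht, ht1⟩
  rw [h1] at ht2
  have h3 : ((⟨t, htN⟩ : ↥N) : G) ∈ (⁅N₂.subgroupOf N, N₂.subgroupOf N⁆ : Subgroup ↥N).map N.subtype := ⟨_, ht2.2, rfl⟩
  rw [Subgroup.map_commutator, Subgroup.map_subgroupOf_eq_of_le hN₂N] at h3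
  exact h3

theorem QData.comm_conj {M Q₁ : Subgroup G} {q : ℕ} (Q : QData M Q₁ q) (k : G) :
    ⁅normalizer ((Q₁.map (MulAut.conj k).toMonoidHom : Subgroup G) : Set G),
      normalizer ((Q₁.map (MulAut.conj k).toMonoidHom : Subgroup G) : Set G)⁆ = (⁅M, M⁆ : Subgroup G).map (MulAut.conj k).toMonoidHom := by
  rw [normalizer_conj_map, Q.hN, Subgroup.map_commutator]

namespace E2Setup

variable {p : ℕ} [hpf : Fact p.Prime] {A : Subgroup G} (S : E2Setup p A)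

local notation "π'" => primesNotDvd (Nat.card A)
local notation "𝐊" => piCoreOf (primesNotDvd (Nat.card A)) (centralizer (A : Set G))

include S

/-- The consequences of `S1395` for a Sylow subgroup `P*` over `A`. -/
theorem app1395 (Pst : Sylow p G) (hAP : A ≤ (Pst : Subgroup G)) {q : ℕ} (hq : q.Prime) (hqp : q ≠ p)
    (hqC : q ∣ Nat.card (centralizer (A : Set G))) :
    (∀ Q₁ ∈ maxInvSubgroups ⊤ A {q}, ∀ Q₂ ∈ maxInvSubgroups ⊤ A {q}, ∃ k ∈ 𝐊, Q₂ = Q₁.map (MulAut.conj k).toMonoidHom) ∧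
    ∀ Q ∈ maxInvSubgroups ⊤ (Pst : Subgroup G) {q}, Q ∈ maxInvSubgroups ⊤ A {q} ∧
      (Pst : Subgroup G) ≤ ⁅normalizer (Q : Set G), normalizer (Q : Set G)⁆ ∧
      normalizer ((Pst : Subgroup G) : Set G) ≤ (𝐊 ⊓ centralizer ((Pst : Subgroup G) : Set G)) ⊔
        (normalizer ((Pst : Subgroup G) : Set G) ⊓ normalizer (Q : Set G)) := by
  classical
  have hqA := S.not_dvd_of_ne hq hqp
  have htr := Cfsg.Agent.S1394.result S.hG A S.hth S.hZ q hq hqA hqC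
  refine ⟨htr, ?_⟩
  have hPtop : (Pst : Subgroup G) ≠ ⊤ := IsMinSimpleOddOrder.ne_top_of_isPGroup S.hG hpf.out Pst.isPGroup'
  have hPπ : ∀ r : ℕ, r.Prime → r ∣ Nat.card (Pst : Subgroup G) → r ∣ Nat.card A := by
    intro r hr hd
    obtain ⟨k, hk⟩ := IsPGroup.iff_card.1 Pst.isPGroup'
    rw [hk] at hd
    have : r = p := (Nat.prime_dvd_prime_iff_eq hr hpf.out).1 (hr.dvd_of_dvd_pow hd)
    rw [this]
    exact S.hdvd
  have hsn : (A.subgroupOf (Pst : Subgroup G)).IsSubnormal := by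
    haveI : Group.IsNilpotent ↥(Pst : Subgroup G) := Pst.isPGroup'.isNilpotent
    exact isSubnormal_of_isNilpotent _
  obtain ⟨ha, -, hc, hd⟩ := Cfsg.Agent.S1395.result S.hG A S.hth q hq hqA (Pst : Subgroup G) hPtop hPπ hAP hsn htr
  intro Q hQ
  refine ⟨hc hQ, ?_, ?_⟩
  · have h1 := (hd Q hQ).1
    have h2 := sylow_le_commutator_normalizer S.hG (fun H hH => S.hpl p H hH) Pst
    exact (le_inf le_rfl h2).trans h1
  · have h1 := (hd Q hQ).2
    rw [← ha] at h1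
    exact h1.le

/-- The subgroup `A` does not lie in a conjugate of `M'`. -/
theorem not_le_conj_comm {M : Subgroup G} (hpnd : ¬ p ∣ Nat.card ↥⁅M, M⁆) (k : G) :
    ¬ A ≤ (⁅M, M⁆ : Subgroup G).map (MulAut.conj k).toMonoidHom := by
  intro hle
  obtain ⟨x, hx, hx1⟩ := A.bot_or_exists_ne_one.resolve_left S.hA1
  have h1 := hle hx
  rw [mem_conj_map] at h1
  have h2 : (k⁻¹ * x * k) ^ p = 1 := by
    have e : k⁻¹ * x * k = k⁻¹ * x * k⁻¹⁻¹ := by group
    rw [e, conj_pow, S.hAe.2 x hx]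
    group
  have h3 : k⁻¹ * x * k ≠ 1 := by
    intro h
    apply hx1
    have : x = k * (k⁻¹ * x * k) * k⁻¹ := by group
    rw [this, h]
    group
  have h4 := Subgroup.orderOf_dvd_natCard _ h1
  rw [orderOf_eq_prime h2 h3] at h4
  exact hpnd h4

/-- `Q₁` is a maximal `A`-invariant subgroup. -/
theorem q_maxInv {M Q₁ : Subgroup G} {q : ℕ} (hAM : A ≤ M) (Q : QData M Q₁ q) : Q₁ ∈ maxInvSubgroups ⊤ A {q} := by
  obtain ⟨S₁, hS₁⟩ := Q.hS
  rw [← hS₁]
  apply maxInv_of_sylow Q.hqp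
  rw [hS₁, Q.hN]
  exact hAM

/-- **S-a**. -/
theorem Sa {M Q₁ : Subgroup G} {q : ℕ} (hAM : A ≤ M) (Q : QData M Q₁ q) (hqp : q ≠ p)
    (hpnd : ¬ p ∣ Nat.card ↥⁅M, M⁆) (Pst : Sylow p G) (hAP : A ≤ (Pst : Subgroup G)) : Q₁ ⊓ centralizer (A : Set G) = ⊥ := by
  classical
  by_contra hne
  haveI : Fact q.Prime := ⟨Q.hqp⟩
  obtain ⟨z, hz, hz1, hzq⟩ := exists_order_p_of_ne_bot q (Q.hQM.isP.to_le inf_le_left) hne
  have hqC : q ∣ Nat.card (centralizer (A : Set G)) := by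
    have := Subgroup.orderOf_dvd_natCard (centralizer (A : Set G)) hz.2
    rwa [orderOf_eq_prime hzq hz1] at this
  obtain ⟨htr, h95⟩ := S.app1395 Pst hAP Q.hqp hqp hqC
  obtain ⟨Q₂, hQ₂, -⟩ := exists_maxInv_ge (A := (Pst : Subgroup G)) (X := ⊤) (T := ⊥) (q := q)
    ⟨le_top, isPiSub_bot _, by
      rw [Subgroup.normalizer_eq_top_iff.2 inferInstance]
      exact le_top⟩
  obtain ⟨hQ₂A, hPQ₂, -⟩ := h95 Q₂ hQ₂
  obtain ⟨k, -, e⟩ := htr Q₁ (S.q_maxInv hAM Q) Q₂ hQ₂A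
  rw [e, Q.comm_conj k] at hPQ₂
  exact S.not_le_conj_comm hpnd k (hAP.trans hPQ₂)

/-- **Lemma T**. -/
theorem lemmaT {M Q₁ : Subgroup G} {q : ℕ} (hM : IsCoatom M) (hAM : A ≤ M) (Q : QData M Q₁ q) (hqp : q ≠ p)
    (hpnd : ¬ p ∣ Nat.card ↥⁅M, M⁆) (Pst : Sylow p G) (hAP : A ≤ (Pst : Subgroup G)) (hr : PRankLE q 2 M)
    (hfpf : Q₁ ⊓ centralizer (A : Set G) = ⊥) {H : Subgroup G} (hH : H ≠ ⊤)
    (hNH : normalizer ((Pst : Subgroup G) : Set G) ≤ H) : H ⊓ Q₁ = ⊥ := by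
  classical
  by_contra hne
  haveI : Fact q.Prime := ⟨Q.hqp⟩
  have hqp' := Q.hqp
  set Ps : Subgroup G := (Pst : Subgroup G) with hPs
  have hPsq : IsPGroup p Ps := Pst.isPGroup'
  have hPsH : Ps ≤ H := Subgroup.le_normalizer.trans hNH
  have hAH : A ≤ H := hAP.trans hPsH
  have hAQ₁ : A ≤ normalizer (Q₁ : Set G) := by
    rw [Q.hN]
    exact hAM
  set D := piCoreOf (primesNotDvd (Nat.card A)) H with hD
  have hHD : H ≤ normalizer (D : Set G) := le_normalizer_piCoreOf _ H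
  have hDc : (Nat.card D).Coprime p := S.core_coprime H
  have hPsD : Ps ≤ normalizer (D : Set G) := hPsH.trans hHD
  have hPsc : (Nat.card Ps).Coprime (Nat.card D) := by
    obtain ⟨n, hn⟩ := IsPGroup.iff_card.1 hPsq
    rw [hn]
    exact (Nat.Coprime.pow_right n hDc).symm
  have hPsolv : Group.IsSolvable Ps := by
    haveI := hPsq.isNilpotent
    infer_instance
  obtain ⟨R₀, hR₀⟩ := exists_invariant_sylow hPsD hPsc (Or.inl hPsolv) q
  set R := (R₀ : Subgroup D).map D.subtype with hR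
  have hRm : IsMaxP q R D := isMaxP_map R₀
  have hHQq : IsPGroup q ↥(H ⊓ Q₁) := Q.hQM.isP.to_le inf_le_right
  have hHQD : H ⊓ Q₁ ≤ D := S.star hH hAH inf_le_left (S.coprime_of_isPGroup hqp hHQq)
    (fun a ha => Cfsg.Agent.Lib.Basic.mem_normalizer_inf' (Subgroup.le_normalizer (hAH ha)) (hAQ₁ ha))
  have hR1 : R ≠ ⊥ := by
    intro h
    obtain ⟨n, -, hle⟩ := hRm.exists_conj_le hHQD hHQq
    rw [h] at hle
    apply hne
    rw [eq_bot_iff]
    intro x hx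
    have h1 := hle (conj_mem_conj_map _ n x hx)
    have h2 : n * x * n⁻¹ = 1 := Subgroup.mem_bot.1 h1
    have h3 : x = n⁻¹ * (n * x * n⁻¹) * n := by group
    rw [h3, h2]
    simp
  have hAR : A ≤ normalizer (R : Set G) := hAP.trans hR₀
  obtain ⟨Q₂, hQ₂, hRQ₂⟩ := exists_maxInv_ge (A := A) (X := ⊤) (T := R) (q := q)
    ⟨le_top, (isPiSub_singleton_iff hqp').2 hRm.isP, hAR⟩
  have hHQ₂ : H ⊓ Q₂ ≠ ⊥ := by
    intro h
    apply hR1
    rw [eq_bot_iff, ← h]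
    exact le_inf (hRm.le.trans (piCoreOf_le _ _)) hRQ₂
  obtain ⟨k, hk, e⟩ := kconj_of_meet S.hG S.hth q (S.not_dvd_of_ne hqp' hqp) (S.q_maxInv hAM Q) hQ₂ hH hAH hne hHQ₂
  set N := normalizer (Ps : Set G) with hN
  set C₀ := D ⊓ centralizer (Ps : Set G) with hC₀
  set N₂ := N ⊓ normalizer (R : Set G) with hN₂
  have hfact : ∀ n ∈ N, ∃ c ∈ C₀, c⁻¹ * n ∈ N₂ := by
    intro n hn
    have h1 : IsMaxP q (R.map (MulAut.conj n).toMonoidHom) D := by
      have := hRm.conj n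
      rwa [(conj_map_eq_iff_mem_normalizer D n).2 (hHD (hNH hn))] at this
    have h2 : Ps ≤ normalizer ((R.map (MulAut.conj n).toMonoidHom : Subgroup G) : Set G) := le_normalizer_conj hR₀ hn
    obtain ⟨c, hc, e'⟩ := inv_isMaxP_conj hPsD hPsc (Or.inl hPsolv) hRm h1 hR₀ h2
    refine ⟨c, hc, N.mul_mem (N.inv_mem (centralizer_le_normalizer' Ps hc.2)) hn, ?_⟩
    show c⁻¹ * n ∈ normalizer (R : Set G)
    rw [← conj_map_eq_iff_mem_normalizer, ← conj_map_conj_map, e', conj_map_conj_map, inv_mul_cancel, conj_map_one]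
  have hNtop : N ≠ ⊤ := IsMinSimpleOddOrder.normalizer_ne_top S.hG
    (by
      intro h
      apply S.hA1
      rw [eq_bot_iff, ← h]
      exact hAP)
    (IsMinSimpleOddOrder.ne_top_of_isPGroup S.hG hpf.out hPsq)
  have hC₀c : (Nat.card Ps).Coprime (Nat.card C₀) :=
    Nat.Coprime.coprime_dvd_right (Subgroup.card_dvd_of_le inf_le_left) hPsc
  have hPs2 : Ps ≤ ⁅N₂, N₂⁆ := by
    refine le_comm_of_factor (S.hsolv hNtop) (le_inf Subgroup.le_normalizer hR₀) inf_le_left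
      (inf_le_right.trans (centralizer_le_normalizer' Ps)) ?_ hfact hC₀c
      (sylow_le_commutator_normalizer S.hG (fun H hH => S.hpl p H hH) Pst)
    intro n hn
    exact Cfsg.Agent.Lib.Basic.mem_normalizer_inf' (hHD (hNH hn)) (Cfsg.Agent.Lib.Basic.mem_normalizer_centralizer hn)
  by_cases hcyc : IsCyclic R
  · have h1 := comm_le_cent_of_cyclic hcyc (inf_le_right : N₂ ≤ normalizer (R : Set G))
    have hRA : R ≤ centralizer (A : Set G) := (Subgroup.le_centralizer_iff).1 (hAP.trans (hPs2.trans h1))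
    obtain ⟨z, hz, hz1⟩ := R.bot_or_exists_ne_one.resolve_left hR1
    have hz2 := hRQ₂ hz
    rw [e, mem_conj_map] at hz2
    have hkC : k ∈ centralizer (A : Set G) := S.K_le_cent hk
    have hz3 : k⁻¹ * z * k ∈ Q₁ ⊓ centralizer (A : Set G) :=
      ⟨hz2, Subgroup.mul_mem _ (Subgroup.mul_mem _ (Subgroup.inv_mem _ hkC) (hRA hz)) hkC⟩
    rw [hfpf] at hz3
    apply hz1
    have h4 : k⁻¹ * z * k = 1 := Subgroup.mem_bot.1 hz3
    have h5 : z = k * (k⁻¹ * z * k) * k⁻¹ := by group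
    rw [h5, h4]
    group
  · have hRk : R.map (MulAut.conj k⁻¹).toMonoidHom ≤ Q₁ := by
      rintro _ ⟨x, hx, rfl⟩
      have h2 := hRQ₂ hx
      rw [e, mem_conj_map] at h2
      show k⁻¹ * x * k⁻¹⁻¹ ∈ Q₁
      rwa [inv_inv]
    have hnc : ¬ IsCyclic (R.map (MulAut.conj k⁻¹).toMonoidHom) := by
      intro h
      apply hcyc
      exact isCyclic_of_injective ((R.equivMapOfInjective (MulAut.conj k⁻¹).toMonoidHom (MulAut.conj k⁻¹).injective).toMonoidHom) (MulEquiv.injective _)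
    have h1 := (Q.stage1 S.hG S.huniq hM hr hRk hnc).2
    rw [normalizer_conj_map] at h1
    have h2 : normalizer (R : Set G) ≤ M.map (MulAut.conj k).toMonoidHom := by
      intro g hg
      rw [mem_conj_map]
      have h3 := h1 (conj_mem_conj_map _ k⁻¹ g hg)
      simpa using h3
    have h3 : ⁅N₂, N₂⁆ ≤ (⁅M, M⁆ : Subgroup G).map (MulAut.conj k).toMonoidHom := by
      rw [Subgroup.map_commutator]
      exact Subgroup.commutator_mono (inf_le_right.trans h2) (inf_le_right.trans h2)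
    exact S.not_le_conj_comm hpnd k (hAP.trans (hPs2.trans h3))

/-- **S-c**. -/
theorem line_cent {M Q₁ : Subgroup G} {q : ℕ} (hAM : A ≤ M) (Q : QData M Q₁ q) (hqp : q ≠ p)
    (Pst : Sylow p G) (hAP : A ≤ (Pst : Subgroup G)) (hfpf : Q₁ ⊓ centralizer (A : Set G) = ⊥)
    (hT : ∀ H : Subgroup G, H ≠ ⊤ → normalizer ((Pst : Subgroup G) : Set G) ≤ H → H ⊓ Q₁ = ⊥)
    {x : G} (hx : x ∈ A) (hx1 : x ≠ 1) :
    Oq' q (piCoreOf (primesNotDvd (Nat.card A)) (centralizer ({x} : Set G))) ≤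
      centralizer ((Q₁ ⊓ centralizer ({x} : Set G) : Subgroup G) : Set G) := by
  classical
  haveI : Fact q.Prime := ⟨Q.hqp⟩
  have hAQ₁ : A ≤ normalizer (Q₁ : Set G) := by
    rw [Q.hN]
    exact hAM
  have hCtop := centralizer_singleton_ne_top S.hG hx1
  have hAC := S.A_le_cent hx
  have hYq : IsPGroup q ↥(Q₁ ⊓ centralizer ({x} : Set G)) := Q.hQM.isP.to_le inf_le_left
  have hAY := S.A_inv_inf hx hAQ₁
  have hYD := S.star hCtop hAC inf_le_right (S.coprime_of_isPGroup hqp hYq) hAY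
  obtain ⟨b, hb, hbx⟩ := S.exists_not_mem x hx
  have hYf : (Q₁ ⊓ centralizer ({x} : Set G)) ⊓ centralizer ({b} : Set G) = ⊥ := by
    rw [eq_bot_iff, ← hfpf]
    rintro g ⟨⟨h1, h2⟩, h3⟩
    exact ⟨h1, S.cent_inf_le hx hx1 hb hbx ⟨h2, h3⟩⟩
  rcases S.line_split hqp hx hx1 hb hbx hYD hYq hAY hYf with h | ⟨s, U, u, hs, hs2, hsp, hsq, hUN, hUs, hYU, hAU, hr, hu, huA, huY⟩
  · exact h
  exfalso
  haveI : Fact s.Prime := ⟨hs⟩
  have hUC : U ≤ centralizer ({x} : Set G) := hUN.trans ((Oq'_le _ _).trans (piCoreOf_le _ _))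
  have hu1 : u ≠ 1 := by
    rintro rfl
    exact huY (one_mem _)
  have hub : zpowers u ≠ ⊥ := fun h => hu1 (Subgroup.zpowers_eq_bot.1 h)
  obtain ⟨v, hv, hv1, hvs⟩ := exists_order_p_of_ne_bot s (hUs.to_le (zpowers_le.2 hu)) hub
  have hsC : s ∣ Nat.card (centralizer (A : Set G)) := by
    have h1 := Subgroup.orderOf_dvd_natCard (centralizer (A : Set G)) ((zpowers_le.2 huA) hv)
    rwa [orderOf_eq_prime hvs hv1] at h1
  obtain ⟨htr, h95⟩ := S.app1395 Pst hAP hs hsp hsC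
  obtain ⟨Uh, hUh, hUUh⟩ := exists_maxInv_ge (A := A) (X := ⊤) (T := U) (q := s)
    ⟨le_top, (isPiSub_singleton_iff hs).2 hUs, hAU⟩
  obtain ⟨Qs, hQs, -⟩ := exists_maxInv_ge (A := (Pst : Subgroup G)) (X := ⊤) (T := ⊥) (q := s)
    ⟨le_top, isPiSub_bot _, by
      rw [Subgroup.normalizer_eq_top_iff.2 inferInstance]
      exact le_top⟩
  obtain ⟨hQsA, -, hN⟩ := h95 Qs hQs
  obtain ⟨k, hk, e⟩ := htr Uh hUh Qs hQsA
  obtain ⟨Hx, hHx, hCH⟩ := exists_coatom_ge hCtop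
  have hUH : U ≤ Hx := hUC.trans hCH
  have huq := unique_of_prank S.huniq hs (IsMinSimpleOddOrder.ne_top_of_isPGroup S.hG hs hUs) hr
  have hUhq : IsPGroup s Uh := (isPiSub_singleton_iff hs).1 hUh.1.2.1
  have hUhH : Uh ≤ Hx := uniq_le hHx hUH huq (IsMinSimpleOddOrder.ne_top_of_isPGroup S.hG hs hUhq) hUUh
  have hKH : 𝐊 ≤ Hx := (S.K_le_centx hx).trans hCH
  have hQsH : Qs ≤ Hx := by
    rw [e]
    rintro _ ⟨g, hg, rfl⟩
    exact Hx.mul_mem (Hx.mul_mem (hKH hk) (hUhH hg)) (Hx.inv_mem (hKH hk))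
  have hQsq : IsPGroup s Qs := (isPiSub_singleton_iff hs).1 hQs.1.2.1
  have hUhr : ¬ PRankLE s 2 Uh := fun h =>
    hr (prank_of_injective (Subgroup.inclusion hUUh) (Subgroup.inclusion_injective hUUh) h)
  have hQsr : ¬ PRankLE s 2 Qs := by
    intro h
    rw [e] at h
    exact hUhr (prank_of_injective (Uh.equivMapOfInjective (MulAut.conj k).toMonoidHom (MulAut.conj k).injective).toMonoidHom
      (MulEquiv.injective _) h)
  have hqu := unique_of_prank S.huniq hs (IsMinSimpleOddOrder.ne_top_of_isPGroup S.hG hs hQsq) hQsr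
  have hNQs := uniq_normalizer_le S.hG hHx hQsH hqu
  have hNP : normalizer ((Pst : Subgroup G) : Set G) ≤ Hx :=
    hN.trans (sup_le (inf_le_left.trans hKH) (inf_le_right.trans hNQs))
  have hbot := hT Hx hHx.1 hNP
  have hY0 : Q₁ ⊓ centralizer ({x} : Set G) = ⊥ := by
    rw [eq_bot_iff, ← hbot]
    exact le_inf (inf_le_right.trans hCH) inf_le_left
  apply huY
  rw [hY0]
  exact Subgroup.mem_centralizer_iff.2 fun h hh => by
    rw [Subgroup.mem_bot.1 hh]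
    group

/-- **S-d**. -/
theorem line_norm {M Q₁ : Subgroup G} {q : ℕ} (hAM : A ≤ M) (Q : QData M Q₁ q) (hqp : q ≠ p)
    {x : G} (hx : x ∈ A) (hx1 : x ≠ 1)
    (hc : Oq' q (piCoreOf (primesNotDvd (Nat.card A)) (centralizer ({x} : Set G))) ≤
      centralizer ((Q₁ ⊓ centralizer ({x} : Set G) : Subgroup G) : Set G)) :
    piCoreOf (primesNotDvd (Nat.card A)) (centralizer ({x} : Set G)) ≤
      normalizer ((Q₁ ⊓ centralizer ({x} : Set G) : Subgroup G) : Set G) := by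
  classical
  haveI : Fact q.Prime := ⟨Q.hqp⟩
  by_cases hY : Q₁ ⊓ centralizer ({x} : Set G) = ⊥
  · rw [hY, Subgroup.normalizer_eq_top_iff.2 inferInstance]
    exact le_top
  have hm := S.fix_isMaxP hqp (S.q_maxInv hAM Q) hx hx1 hY
  have hCtop := centralizer_singleton_ne_top S.hG hx1
  have hDC : piCoreOf (primesNotDvd (Nat.card A)) (centralizer ({x} : Set G)) ≤ centralizer ({x} : Set G) := piCoreOf_le _ _
  have hDtop : piCoreOf (primesNotDvd (Nat.card A)) (centralizer ({x} : Set G)) ≠ ⊤ := fun h =>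
    hCtop (top_le_iff.1 (h ▸ hDC))
  intro d hd
  obtain ⟨n, hn, m, hm', e⟩ := frattini_Oq' hm (S.hpl q _ hDtop) hd
  rw [e]
  exact Subgroup.mul_mem _ (centralizer_le_normalizer' _ (hc hn)) hm'.2

/-- **S-e**: if `D_x` normalises the fixed points of each line on `Q₁`, then `K ≤ M`. -/
theorem K_le_of_lines {M Q₁ : Subgroup G} {q : ℕ} (hAM : A ≤ M) (Q : QData M Q₁ q) (hqp : q ≠ p)
    (h : ∀ x ∈ A, x ≠ 1 → piCoreOf (primesNotDvd (Nat.card A)) (centralizer ({x} : Set G)) ≤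
      normalizer ((Q₁ ⊓ centralizer ({x} : Set G) : Subgroup G) : Set G)) : 𝐊 ≤ M := by
  classical
  haveI : Fact q.Prime := ⟨Q.hqp⟩
  haveI : IsMulCommutative A := S.hcomm
  have hAQ₁ : A ≤ normalizer (Q₁ : Set G) := by
    rw [Q.hN]
    exact hAM
  have hgen := generation_by_centralizers A Q₁ S.not_cyclic hAQ₁ (S.cA_coprime (S.coprime_of_isPGroup hqp Q.hQM.isP))
  intro k hk
  rw [← Q.hN, ← hgen]
  exact mem_normalizer_iSup fun a => mem_normalizer_iSup fun ha => h a ha.1 ha.2 (S.K_le_D ha.1 ha.2 hk)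

/-- A subgroup above `A` cannot meet both `Q₁` and a conjugate by an element of `N(A) \ M` when `K ≤ M`. -/
theorem meet_conj {M Q₁ : Subgroup G} {q : ℕ} (hAM : A ≤ M) (Q : QData M Q₁ q) (hqp : q ≠ p)
    (hKM : 𝐊 ≤ M) {g : G} (hgA : g ∈ normalizer (A : Set G)) (hgM : g ∉ M) {X : Subgroup G} (hX : X ≠ ⊤) (hAX : A ≤ X)
    (h1 : X ⊓ Q₁ ≠ ⊥) (h2 : X ⊓ Q₁.map (MulAut.conj g).toMonoidHom ≠ ⊥) : False := by
  classical
  haveI : Fact q.Prime := ⟨Q.hqp⟩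
  have hQ₁max := S.q_maxInv hAM Q
  have hQg : Q₁.map (MulAut.conj g).toMonoidHom ∈ maxInvSubgroups ⊤ A {q} := by
    obtain ⟨S₁, hS₁⟩ := Q.hS
    have hS₂ : (MulAut.conj g • S₁ : Sylow q G) = (MulAut.conj g • S₁ : Sylow q G) := rfl
    have e : ((MulAut.conj g • S₁ : Sylow q G) : Subgroup G) = Q₁.map (MulAut.conj g).toMonoidHom := by
      rw [Sylow.pointwise_smul_def, hS₁, conj_smul_eq_map]
    rw [← e]
    apply maxInv_of_sylow Q.hqp
    rw [e]
    exact le_normalizer_conj (hAM.trans Q.hN.ge) hgA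
  obtain ⟨k, hk, e⟩ := kconj_of_meet S.hG S.hth q (S.not_dvd_of_ne Q.hqp hqp) hQ₁max hQg hX hAX h1 h2
  apply hgM
  have hk1 : k⁻¹ * g ∈ normalizer (Q₁ : Set G) := by
    rw [← conj_map_eq_iff_mem_normalizer, ← conj_map_conj_map, e, conj_map_conj_map, inv_mul_cancel, conj_map_one]
  rw [Q.hN] at hk1
  have := M.mul_mem (hKM hk) hk1
  simpa using this

/-- **S-g**: no maximal subgroup `H ≠ M` over `A` meets `Q₁`, in the presence of an element of `N(A) \ M`. -/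
theorem no_meet {M Q₁ : Subgroup G} {q : ℕ} (hM : IsCoatom M) (hAM : A ≤ M) (Q : QData M Q₁ q) (hqp : q ≠ p)
    (hr : PRankLE q 2 M) (hfpf : Q₁ ⊓ centralizer (A : Set G) = ⊥) (hKM : 𝐊 ≤ M)
    (hDN : ∀ x ∈ A, x ≠ 1 → piCoreOf (primesNotDvd (Nat.card A)) (centralizer ({x} : Set G)) ≤
      normalizer ((Q₁ ⊓ centralizer ({x} : Set G) : Subgroup G) : Set G))
    {g : G} (hgA : g ∈ normalizer (A : Set G)) (hgM : g ∉ M)
    (hex : ∃ H T : Subgroup G, IsCoatom H ∧ H ≠ M ∧ A ≤ H ∧ T ≤ M ∧ T ≤ H ∧ IsPGroup q T ∧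
      A ≤ normalizer (T : Set G) ∧ T ≠ ⊥) : False := by
  classical
  haveI : Fact q.Prime := ⟨Q.hqp⟩
  have hqp' := Q.hqp
  have hQ₁c : (Nat.card Q₁).Coprime p := S.coprime_of_isPGroup hqp Q.hQM.isP
  have hWq : ∀ T : Subgroup G, T ≤ M → IsPGroup q T → T ≤ Q₁ := fun T h1 h2 => Q.le h1 h2
  have hfpf' : ∀ T : Subgroup G, T ≤ M → IsPGroup q T → A ≤ normalizer (T : Set G) → T ⊓ centralizer (A : Set G) = ⊥ := by
    intro T h1 h2 _
    rw [eq_bot_iff, ← hfpf]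
    exact inf_le_inf_right _ (Q.le h1 h2)
  obtain ⟨H, T, U, s, y, hH, hHM, hAH, hTM, hTH, hTq, hAT, hT1, hTf, E⟩ :=
    exists_e1 S hM Q.hqσ hqp Q.hQM.le Q.hN.ge hQ₁c hWq hAM hfpf' hex
  haveI : Fact s.Prime := ⟨E.hs⟩
  have hs := E.hs
  have hy := E.hy
  have hy1 := E.hy1
  set V := T ⊓ centralizer ({y} : Set G) with hV
  have hV1 : V ≠ ⊥ := by
    intro h
    apply E.hnc
    show V ≤ _
    rw [h]
    exact bot_le
  have hTQ : T ≤ Q₁ := Q.le hTM hTq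
  have hVY : V ≤ Q₁ ⊓ centralizer ({y} : Set G) := inf_le_inf_right _ hTQ
  set Yy := Q₁ ⊓ centralizer ({y} : Set G) with hYy
  have hYy1 : Yy ≠ ⊥ := by
    intro h
    apply hV1
    rw [eq_bot_iff, ← h]
    exact hVY
  obtain ⟨v, hv, hv1⟩ := Yy.bot_or_exists_ne_one.resolve_left hYy1
  have hgv : g * v * g⁻¹ ∈ Q₁.map (MulAut.conj g).toMonoidHom := conj_mem_conj_map _ g v hv.1
  have hgv1 : g * v * g⁻¹ ≠ 1 := by
    intro h
    apply hv1
    have e : v = g⁻¹ * (g * v * g⁻¹) * g := by group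
    rw [e, h]
    group
  set y' := g * y * g⁻¹ with hy'
  have hy'A : y' ∈ A := (Subgroup.mem_normalizer_iff.1 hgA y).1 hy
  have hy'1 : y' ≠ 1 := by
    intro h
    apply hy1
    have e : y = g⁻¹ * y' * g := by
      rw [hy']
      group
    rw [e, h]
    group
  have hcv : g * v * g⁻¹ ∈ centralizer ({y'} : Set G) := by
    rw [mem_centralizer_singleton_iff]
    have hc : v * y = y * v := (mem_centralizer_singleton_iff.1 hv.2)
    calc g * v * g⁻¹ * y' = g * (v * y) * g⁻¹ := by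
          rw [hy']
          group
      _ = g * (y * v) * g⁻¹ := by rw [hc]
      _ = y' * (g * v * g⁻¹) := by
          rw [hy']
          group
  have hy'n : y' ∉ zpowers y := by
    intro hmem
    have hc := S.cent_eq_of_mem hy hmem hy'1
    rw [hc] at hcv
    refine S.meet_conj hAM Q hqp hKM hgA hgM (centralizer_singleton_ne_top S.hG hy1) (S.A_le_cent hy) ?_ ?_
    · intro h
      have : v ∈ centralizer ({y} : Set G) ⊓ Q₁ := ⟨hv.2, hv.1⟩
      rw [h] at this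
      exact hv1 (Subgroup.mem_bot.1 this)
    · intro h
      have : g * v * g⁻¹ ∈ centralizer ({y} : Set G) ⊓ Q₁.map (MulAut.conj g).toMonoidHom := ⟨hcv, hgv⟩
      rw [h] at this
      exact hgv1 (Subgroup.mem_bot.1 this)
  obtain ⟨u, hu, huy', huV, huM⟩ := S.e1c hqp E hTq hAT hTf hy'A hy'n
  set W₀ := ⁅U, V⁆ with hW₀
  have hW₀U : W₀ ≤ U := commutator_le_of_le_normalizer (inf_le_left.trans E.hTU)
  have hAV : A ≤ normalizer (V : Set G) := S.A_inv_inf hy hAT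
  have hAW₀ : A ≤ normalizer (W₀ : Set G) := fun a ha => mem_normalizer_commutator (E.hAU ha) (hAV ha)
  set L₂ := W₀ ⊓ centralizer ({y'} : Set G) with hL₂
  have hAL₂ : A ≤ normalizer (L₂ : Set G) := S.A_inv_inf hy'A hAW₀
  have hL₂s : IsPGroup s L₂ := E.hUs.to_le (inf_le_left.trans hW₀U)
  set L₃ := L₂.map (MulAut.conj g⁻¹).toMonoidHom with hL₃
  have hmemL₃ : ∀ w, w ∈ L₃ ↔ g * w * g⁻¹ ∈ L₂ := by
    intro w
    rw [hL₃, mem_conj_map, inv_inv]
  have hL₃s : IsPGroup s L₃ := Cfsg.Agent.Lib.Coprime.isPGroup_conj_map hL₂s _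
  have hL₃C : L₃ ≤ centralizer ({y} : Set G) := by
    intro w hw
    have h1 : g * w * g⁻¹ ∈ centralizer ({y'} : Set G) := ((hmemL₃ w).1 hw).2
    rw [mem_centralizer_singleton_iff] at h1 ⊢
    have h2 : g * w * g⁻¹ * (g * y * g⁻¹) = g * (w * y) * g⁻¹ := by group
    have h3 : g * y * g⁻¹ * (g * w * g⁻¹) = g * (y * w) * g⁻¹ := by group
    have h4 : g * w * g⁻¹ * y' = y' * (g * w * g⁻¹) := h1
    rw [hy', h2, h3] at h4
    exact mul_left_cancel (mul_right_cancel h4)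
  have hgAi : g⁻¹ ∈ normalizer (A : Set G) := Subgroup.inv_mem _ hgA
  have hAL₃ : A ≤ normalizer (L₃ : Set G) := le_normalizer_conj hAL₂ hgAi
  have hL₃c := S.coprime_of_isPGroup E.hsp hL₃s
  have hL₃D : L₃ ≤ piCoreOf (primesNotDvd (Nat.card A)) (centralizer ({y} : Set G)) :=
    S.star (centralizer_singleton_ne_top S.hG hy1) (S.A_le_cent hy) hL₃C hL₃c hAL₃
  have hL₃N : L₃ ≤ normalizer (Yy : Set G) := hL₃D.trans (hDN y hy hy1)
  have hgK : g ∈ normalizer (𝐊 : Set G) :=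
    le_normalizer_piCoreOf_of_normalizer _ (Cfsg.Agent.Lib.Basic.mem_normalizer_centralizer hgA)
  have hL₃K : ¬ L₃ ≤ 𝐊 := by
    intro hle
    apply huM
    have h1 : g⁻¹ * u * g ∈ L₃ := by
      rw [hmemL₃]
      have e : g * (g⁻¹ * u * g) * g⁻¹ = u := by group
      rw [e]
      exact ⟨hu, huy'⟩
    have h2 := (Subgroup.mem_normalizer_iff.1 hgK _).1 (hle h1)
    have e : g * (g⁻¹ * u * g) * g⁻¹ = u := by group
    rw [e] at h2
    exact hKM h2
  obtain ⟨b₀, hb₀, hb₀y⟩ := S.exists_not_mem y hy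
  have hbL : zpowers b₀ ≤ normalizer (L₃ : Set G) := zpowers_le.2 (hAL₃ hb₀)
  set W₁ := ⁅L₃, zpowers b₀⁆ with hW₁
  have hW₁L : W₁ ≤ L₃ := commutator_le_of_le_normalizer hbL
  have hW₁1 : W₁ ≠ ⊥ := by
    intro h
    rw [hW₁, Subgroup.commutator_eq_bot_iff_le_centralizer] at h
    rw [centralizer_zpowers_eq] at h
    apply hL₃K
    refine S.le_K ?_ hL₃c
    intro w hw
    exact S.cent_inf_le hy hy1 hb₀ hb₀y ⟨hL₃C hw, h hw⟩
  have hAYy : A ≤ normalizer (Yy : Set G) := S.A_inv_inf hy (hAM.trans Q.hN.ge)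
  have hF : L₃ ⊔ zpowers b₀ ≤ normalizer (Yy : Set G) := sup_le hL₃N (zpowers_le.2 (hAYy hb₀))
  have hW₁F : W₁ ≤ ⁅L₃ ⊔ zpowers b₀, L₃ ⊔ zpowers b₀⁆ := Subgroup.commutator_mono le_sup_left le_sup_right
  have hYyq : IsPGroup q Yy := Q.hQM.isP.to_le inf_le_left
  have hW₁Y : W₁ ≤ centralizer (Yy : Set G) := by
    by_cases hcyc : IsCyclic Yy
    · exact hW₁F.trans (comm_le_cent_of_cyclic hcyc hF)
    · have hN2 := (Q.stage1 S.hG S.huniq hM hr (inf_le_left : Yy ≤ Q₁) hcyc).2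
      have hW₁M : W₁ ≤ ⁅M, M⁆ := hW₁F.trans (Subgroup.commutator_mono (hF.trans hN2) (hF.trans hN2))
      intro w hw
      refine Subgroup.mem_centralizer_iff.2 fun a ha => ?_
      refine comm_of_coprime_of_nilpotent_subgroup Q.hnil (Q.hQc ha.1) (hW₁M hw) ?_
      obtain ⟨k₁, hk₁⟩ := (IsPGroup.iff_orderOf.1 hYyq) ⟨a, ha⟩
      obtain ⟨k₂, hk₂⟩ := (IsPGroup.iff_orderOf.1 (hL₃s.to_le hW₁L)) ⟨w, hw⟩
      rw [Subgroup.orderOf_mk] at hk₁ hk₂
      rw [hk₁, hk₂]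
      exact Nat.Coprime.pow _ _ ((Nat.coprime_primes hqp' hs).2 (Ne.symm E.hsq))
  obtain ⟨u₁, hu₁, hu₁1, hu₁s⟩ := exists_order_p_of_ne_bot s (hL₃s.to_le hW₁L) hW₁1
  have hu₂L : g * u₁ * g⁻¹ ∈ L₂ := (hmemL₃ u₁).1 (hW₁L hu₁)
  have hu₂s : (g * u₁ * g⁻¹) ^ s = 1 := by
    rw [conj_pow, hu₁s, mul_one, mul_inv_cancel]
  have hu₂1 : g * u₁ * g⁻¹ ≠ 1 := by
    intro h
    apply hu₁1
    have e : u₁ = g⁻¹ * (g * u₁ * g⁻¹) * g := by group
    rw [e, h]
    group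
  have hgood := S.e1_good hqp E hTq hAT hTf hu₂L.1 hu₂s
  have hutop : U ⊓ centralizer ({g * u₁ * g⁻¹} : Set G) ≠ ⊤ :=
    IsMinSimpleOddOrder.ne_top_of_isPGroup S.hG hs (E.hUs.to_le inf_le_left)
  have huq := unique_of_prank S.huniq hs hutop hgood
  have hCH : centralizer ({g * u₁ * g⁻¹} : Set G) ≤ H :=
    uniq_le hH (inf_le_left.trans E.hUH) huq (centralizer_singleton_ne_top S.hG hu₂1) inf_le_right
  have hvH : g * v * g⁻¹ ∈ H := by
    apply hCH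
    rw [mem_centralizer_singleton_iff]
    have hc : u₁ * v = v * u₁ := by
      have := Subgroup.mem_centralizer_iff.1 (hW₁Y hu₁) v hv
      exact this.symm
    calc g * v * g⁻¹ * (g * u₁ * g⁻¹) = g * (v * u₁) * g⁻¹ := by group
      _ = g * (u₁ * v) * g⁻¹ := by rw [hc]
      _ = g * u₁ * g⁻¹ * (g * v * g⁻¹) := by group
  refine S.meet_conj hAM Q hqp hKM hgA hgM hH.1 hAH ?_ ?_
  · intro h
    apply hT1
    rw [eq_bot_iff, ← h]
    exact le_inf hTH hTQ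
  · intro h
    have : g * v * g⁻¹ ∈ H ⊓ Q₁.map (MulAut.conj g).toMonoidHom := ⟨hvH, hgv⟩
    rw [h] at this
    exact hgv1 (Subgroup.mem_bot.1 this)


/-- **Claim S, case `p ∤ |M'|`**. -/
theorem sigma_of_not_dvd_comm {M : Subgroup G} (hM : IsCoatom M) (hAM : A ≤ M)
    (hC2 : ∀ z ∈ centralizer (A : Set G), z ^ p = 1 ↔ z ∈ A) (h0 : H0 A M) (hα : alphaCore M = ⊥)
    (hpnd : ¬ p ∣ Nat.card ↥⁅M, M⁆) : p ∈ sigma M := by
  classical
  by_contra hpσ
  obtain ⟨P, hP, hAP⟩ := exists_isMaxP_ge hAM S.hAp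
  have hpM : p ∣ Nat.card M := S.hdvd.trans (Subgroup.card_dvd_of_le hAM)
  have hP1 : ∀ w ∈ P, w ∈ ⁅M, M⁆ → w = 1 := by
    intro w hw hwc
    obtain ⟨k, hk⟩ := (IsPGroup.iff_orderOf.1 hP.isP) ⟨w, hw⟩
    rw [Subgroup.orderOf_mk] at hk
    have h1 := Subgroup.orderOf_dvd_natCard ⁅M, M⁆ hwc
    rw [hk] at h1
    rcases k with _ | k
    · simpa using hk
    · exact absurd ((dvd_pow_self p (Nat.succ_ne_zero k)).trans h1) hpnd
  have hPc : ∀ a ∈ P, ∀ b ∈ P, a * b = b * a := by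
    intro a ha b hb
    have h1 : ⁅a, b⁆ ∈ P := by
      rw [commutatorElement_def]
      exact P.mul_mem (P.mul_mem (P.mul_mem ha hb) (P.inv_mem ha)) (P.inv_mem hb)
    have h2 : ⁅a, b⁆ ∈ ⁅M, M⁆ := Subgroup.commutator_mem_commutator (hP.le ha) (hP.le hb)
    have h3 := hP1 _ h1 h2
    exact commutatorElement_eq_one_iff_mul_comm.1 h3
  have hPA : ∀ z ∈ P, z ^ p = 1 → z ∈ A := by
    intro z hz hzp
    refine (hC2 z (Subgroup.mem_centralizer_iff.2 fun a ha => hPc a (hAP ha) z hz)).1 hzp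
  have hN : ¬ normalizer (P : Set G) ≤ M := fun h => hpσ (mem_sigma_of_normalizer_le hP hpM h)
  obtain ⟨g, hgP, hgM⟩ := SetLike.not_le_iff_exists.1 hN
  have hgA : g ∈ normalizer (A : Set G) := by
    apply mem_normalizer_of_conj_le
    intro a ha
    refine hPA _ ((Subgroup.mem_normalizer_iff.1 hgP a).1 (hAP ha)) ?_
    rw [conj_pow, S.hAe.2 a ha, mul_one, mul_inv_cancel]
  have hrk := rank_of_alpha_bot S.hG S.huniq hM hα
  obtain ⟨q, hq⟩ := exists_sigma_of_rank S.hG hM hrk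
  have hnil := commutator_nilpotent_of_alpha_bot S.hG S.huniq hM hα
  obtain ⟨Q₁, Q⟩ := qdata_of_sigma S.hG S.huniq hM hnil hq
  have hqp : q ≠ p := by
    rintro rfl
    exact hpσ hq
  obtain ⟨Pst, hAPst⟩ := S.hAp.exists_le_sylow
  have hfpf := S.Sa hAM Q hqp hpnd Pst hAPst
  have hr : PRankLE q 2 M := hrk q Q.hqp
  have hT : ∀ H : Subgroup G, H ≠ ⊤ → normalizer ((Pst : Subgroup G) : Set G) ≤ H → H ⊓ Q₁ = ⊥ := fun H hH hNH =>
    S.lemmaT hM hAM Q hqp hpnd Pst hAPst hr hfpf hH hNH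
  have hDN : ∀ x ∈ A, x ≠ 1 → piCoreOf (primesNotDvd (Nat.card A)) (centralizer ({x} : Set G)) ≤
      normalizer ((Q₁ ⊓ centralizer ({x} : Set G) : Subgroup G) : Set G) := fun x hx hx1 =>
    S.line_norm hAM Q hqp hx hx1 (S.line_cent hAM Q hqp Pst hAPst hfpf hT hx hx1)
  have hKM := S.K_le_of_lines hAM Q hqp hDN
  haveI : Fact q.Prime := ⟨Q.hqp⟩
  haveI : IsMulCommutative A := S.hcomm
  have hAQ₁ : A ≤ normalizer (Q₁ : Set G) := by
    rw [Q.hN]
    exact hAM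
  have hgen := generation_by_centralizers A Q₁ S.not_cyclic hAQ₁ (S.cA_coprime (S.coprime_of_isPGroup hqp Q.hQM.isP))
  obtain ⟨x, hx, hx1, hxY⟩ : ∃ x ∈ A, x ≠ 1 ∧ Q₁ ⊓ centralizer ({x} : Set G) ≠ ⊥ := by
    by_contra hcon
    push Not at hcon
    apply Q.hQ1
    rw [← hgen, eq_bot_iff]
    exact iSup₂_le fun a ha => (hcon a ha.1 ha.2).le
  obtain ⟨L, hL, hLM, hNL⟩ := h0 x hx hx1
  exact S.no_meet hM hAM Q hqp hr hfpf hKM hDN hgA hgM
    ⟨L, Q₁ ⊓ centralizer ({x} : Set G), hL, hLM, (S.A_le_cent hx).trans ((cent_le_norm x).trans hNL),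
      inf_le_left.trans Q.hQM.le, inf_le_right.trans ((cent_le_norm x).trans hNL), Q.hQM.isP.to_le inf_le_left,
      S.A_inv_inf hx hAQ₁, hxY⟩

/-- `C(A) ≤ M` when `p ∈ σ(M)`, `M'` nilpotent and `A` is a maximal elementary abelian subgroup. -/
theorem cent_le_of_sigma {M : Subgroup G} (hM : IsCoatom M) (hAM : A ≤ M)
    (hC2 : ∀ z ∈ centralizer (A : Set G), z ^ p = 1 ↔ z ∈ A) (hnil : Group.IsNilpotent ↥⁅M, M⁆) (hσ : p ∈ sigma M) :
    centralizer (A : Set G) ≤ M := by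
  classical
  obtain ⟨P, Q⟩ := qdata_of_sigma S.hG S.huniq hM hnil hσ
  have hAP := Q.le hAM S.hAp
  set Z := centerOm P p with hZ
  have hZ1 : Z ≠ ⊥ := by
    obtain ⟨z, hz, hz1, hzq, hzc⟩ := exists_central_order_p Q.hQM.isP Q.hQ1
    intro h
    have : z ∈ Z := mem_centerOm.2 ⟨hz, Subgroup.mem_centralizer_iff.2 fun y hy => (hzc y hy).symm, hzq⟩
    rw [h] at this
    exact hz1 (Subgroup.mem_bot.1 this)
  have hZA : Z ≤ A := fun z hz => by
    obtain ⟨h1, h2, h3⟩ := mem_centerOm.1 hz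
    exact (hC2 z (Subgroup.centralizer_le hAP h2)).1 h3
  have hZtop : Z ≠ ⊤ := fun h => S.hAtop (top_le_iff.1 (h ▸ hZA))
  have hMZ : M ≤ normalizer (Z : Set G) := fun m hm => mem_normalizer_centerOm (by rw [Q.hN]; exact hm)
  have hNZ := coatom_normalizer_eq S.hG hM hZ1 hZtop hMZ
  rw [← hNZ]
  exact (Subgroup.centralizer_le hZA).trans (centralizer_le_normalizer' Z)

end E2Setup

/-- The structure result under `H0`. -/
theorem s1416_h0 (hG : IsMinSimpleOddOrder G) (huniq : UniquenessThm G)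
    (hpl : ∀ (r : ℕ) [Fact r.Prime] (H : Subgroup G), H ≠ ⊤ → PLengthLE r 1 ↥H)
    {M A : Subgroup G} {p : ℕ} [Fact p.Prime]
    (hM : IsCoatom M) (hAM : A ≤ M) (hAe : IsElementaryAbelian p A) (hAc : Nat.card A = p ^ 2) (h0 : H0 A M) :
    p ∈ sigma M ∧ alphaCore M = ⊥ ∧ Group.IsNilpotent ↥⁅M, M⁆ ∧ centralizer (A : Set G) ≤ M := by
  classical
  obtain ⟨hr2, hC2⟩ := setup_of_h0 hG huniq hM hAM hAe hAc h0
  have hp : p.Prime := Fact.out
  have hAq : IsPGroup p A := isPGroup_of_elem hAe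
  have hpd : p ∣ Nat.card G := by
    have : p ∣ Nat.card A := by
      rw [hAc]
      exact dvd_pow_self p (by norm_num)
    exact this.trans (Subgroup.card_subgroup_dvd_card A)
  have hth := Cfsg.Agent.S1396.result hG p hpd A hAq hAe.1 (Or.inl ⟨hC2, fun H hH => hpl p H hH⟩)
  have S : E2Setup p A := ⟨hG, huniq, hpl, hAe, hAc, hth⟩
  have hα := S.alphaCore_eq_bot_of_h0 hM hAM hr2 h0
  have hnil := commutator_nilpotent_of_alpha_bot hG huniq hM hα
  have hσ : p ∈ sigma M := by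
    by_cases hd : p ∣ Nat.card ↥⁅M, M⁆
    · exact S.sigma_of_dvd_comm hM hAM hC2 h0 hnil hd
    · exact S.sigma_of_not_dvd_comm hM hAM hC2 h0 hα hd
  exact ⟨hσ, hα, hnil, S.cent_le_of_sigma hM hAM hC2 hnil hσ⟩

/-- **S1416**, from `p`-length one and the Uniqueness Theorem. -/
theorem s1416_core (hG : IsMinSimpleOddOrder G) (huniq : UniquenessThm G)
    (hpl : ∀ (r : ℕ) [Fact r.Prime] (H : Subgroup G), H ≠ ⊤ → PLengthLE r 1 ↥H)
    (M : Subgroup G) (hM : IsCoatom M) (p : ℕ) [Fact p.Prime] (A : Subgroup G)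
    (hA : A ≤ M ∧ IsElementaryAbelian p A ∧ Nat.card A = p ^ 2) :
    centralizer (A : Set G) ≤ M ∧
      ((∀ A₀ : Subgroup G, A₀ ≤ A → Nat.card A₀ = p →
          ¬ (normalizer (A₀ : Set G) ≤ M ∧ ∀ L : Subgroup G, IsCoatom L → normalizer (A₀ : Set G) ≤ L → L = M)) →
        p ∈ sigma M ∧ alphaCore M = ⊥ ∧ Group.IsNilpotent (sigmaCore M)) := by
  classical
  obtain ⟨hAM, hAe, hAc⟩ := hA
  have hord : ∀ x ∈ A, x ≠ 1 → Nat.card (zpowers x) = p := fun x hx hx1 => by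
    rw [Nat.card_zpowers]
    exact orderOf_eq_prime (hAe.2 x hx) hx1
  have hAtop : A ≠ ⊤ := fun h => hM.1 (top_le_iff.1 (h ▸ hAM))
  have hNtop : ∀ x ∈ A, x ≠ 1 → normalizer ((zpowers x : Subgroup G) : Set G) ≠ ⊤ := fun x hx hx1 =>
    IsMinSimpleOddOrder.normalizer_ne_top hG (fun h => hx1 (Subgroup.zpowers_eq_bot.1 h))
      (fun h => hAtop (top_le_iff.1 (h ▸ zpowers_le.2 hx)))
  constructor
  · by_cases h0 : H0 A M
    · exact (s1416_h0 hG huniq hpl hM hAM hAe hAc h0).2.2.2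
    · unfold H0 at h0
      push Not at h0
      obtain ⟨x, hx, hx1, hL⟩ := h0
      obtain ⟨L, hL1, hL2⟩ := exists_coatom_ge (hNtop x hx hx1)
      have hLM : L = M := by
        by_contra hne
        exact hL L hL1 hne hL2
      rw [hLM] at hL2
      exact (centralizer_le_of_mem hx).trans ((cent_le_norm x).trans hL2)
  · intro hyp
    have h0 : H0 A M := by
      intro x hx hx1
      have h1 := hyp (zpowers x) (zpowers_le.2 hx) (hord x hx hx1)
      obtain ⟨L, hL1, hL2⟩ := exists_coatom_ge (hNtop x hx hx1)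
      by_cases hLM : L = M
      · subst hLM
        by_contra hcon
        push Not at hcon
        apply h1
        refine ⟨hL2, fun L' hL' hle => ?_⟩
        by_contra hne
        exact hcon L' hL' hne hle
      · exact ⟨L, hL1, hLM, hL2⟩
    obtain ⟨h1, h2, h3, -⟩ := s1416_h0 hG huniq hpl hM hAM hAe hAc h0
    refine ⟨h1, h2, ?_⟩
    have hle := sigmaCore_le_commutator hG huniq hM
    haveI := h3
    have h4 : Group.IsNilpotent ↥((sigmaCore M).subgroupOf ⁅M, M⁆) := inferInstance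
    exact (Group.isNilpotent_congr (subgroupOfEquivOfLe hle)).1 h4

end Cfsg.Agent.Lib.FT
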