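import Cfsg.Agent.Lib.FT.BG11h

/-!
BG section 12: the structure of `M` at a prime `p ∉ σ(M)` of rank two: `M_σ ∩ C(A) = 1`, and
`M_σ ∩ H = 1` for each other maximal subgroup `H` containing `A`.
-/

set_option autoImplicit false
set_option linter.unusedSectionVars false
set_option linter.style.haveILetI false

namespace Cfsg.Agent.Lib.FT

open Subgroup Cfsg Cfsg.Agent.Lib.OddLocal Cfsg.Agent.Lib.Basic

open scoped commutatorElement Pointwise

open Cfsg.Agent.Lib.Coprime (mem_conj_map conj_mem_conj_map conj_map_conj_map conj_map_one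
  conj_map_mono mem_normalizer_of_conj_le conj_map_eq_iff_mem_normalizer)

variable {G : Type*} [Group G] [Finite G]

theorem le_sigmaCore_of_isPGroup {M : Subgroup G} (hG : IsMinSimpleOddOrder G) (huniq : UniquenessThm G) (hM : IsCoatom M)
    {p : ℕ} [Fact p.Prime] (hsig : p ∈ sigma M) {D : Subgroup G} (hD : IsPGroup p D) (hDM : D ≤ M) :
    D ≤ sigmaCore M := by
  obtain ⟨S, hS, -⟩ := sigma_exists_sylow hsig
  obtain ⟨m, hm, hle⟩ := exists_conj_sylow_ge S hS hD hDM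
  obtain ⟨h1, h2, -⟩ := s1350_core hG huniq hM
  have hSle : (S : Subgroup G) ≤ sigmaCore M := by
    by_contra hcon
    have hnorm : (sigmaCore M).subgroupOf M |>.Normal := by
      constructor
      intro n hn g
      rw [Subgroup.mem_subgroupOf] at hn ⊢
      exact (Subgroup.mem_normalizer_iff.1 (le_normalizer_piCoreOf (sigma M) M g.2) _).1 hn
    have hidx : ((sigmaCore M).subgroupOf M).index.Coprime p := by
      rw [Nat.coprime_comm, Nat.Prime.coprime_iff_not_dvd Fact.out]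
      have := h1.2.2 p hsig.1 hsig
      rwa [Subgroup.relIndex] at this
    have hT : IsPGroup p ((S : Subgroup G).subgroupOf M) := by
      intro x
      obtain ⟨k, hk⟩ := S.isPGroup' ⟨((x : ↥M) : G), x.2⟩
      exact ⟨k, by
        apply Subtype.ext
        apply Subtype.ext
        simpa using congrArg Subtype.val hk⟩
    have h3 := isPGroup_le_of_index_coprime hidx hT
    apply hcon
    intro x hx
    exact Subgroup.mem_subgroupOf.mp (h3 (Subgroup.mem_subgroupOf.mpr hx) : (⟨x, hS hx⟩ : ↥M) ∈ _)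
  intro d hd
  have h4 := hle hd
  rw [mem_conj_map] at h4
  have h5 := hSle h4
  have h6 := (Subgroup.mem_normalizer_iff.1 (le_normalizer_piCoreOf (sigma M) M hm) _).1 h5
  have e : m * (m⁻¹ * d * m) * m⁻¹ = d := by group
  rw [e] at h6
  exact h6

theorem prank_of_not_sigma {M : Subgroup G} (hG : IsMinSimpleOddOrder G) (huniq : UniquenessThm G) (hM : IsCoatom M)
    {p : ℕ} [Fact p.Prime] (hpσ : p ∉ sigma M) : PRankLE p 2 M := by
  by_contra hr
  exact hpσ (alpha_sub_sigma hG huniq hM ⟨Fact.out, hr⟩)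

/-- `A` is maximal elementary abelian, and `E2Setup` holds, at a prime outside `σ(M)`. -/
theorem setup_of_not_sigma (hG : IsMinSimpleOddOrder G) (huniq : UniquenessThm G)
    (hpl : ∀ (r : ℕ) [Fact r.Prime] (H : Subgroup G), H ≠ ⊤ → PLengthLE r 1 ↥H)
    {M A : Subgroup G} {p : ℕ} [Fact p.Prime]
    (hM : IsCoatom M) (hAM : A ≤ M) (hAe : IsElementaryAbelian p A) (hAc : Nat.card A = p ^ 2) (hpσ : p ∉ sigma M) :
    (∀ z ∈ centralizer (A : Set G), z ^ p = 1 ↔ z ∈ A) ∧ E2Setup p A := by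
  classical
  have hp : p.Prime := Fact.out
  have hr2 := prank_of_not_sigma hG huniq hM hpσ
  have hr1 : ¬ PRankLE p 1 M := by
    refine not_prank_of_card hAe hAM ?_
    rw [hAc]
    exact Nat.pow_lt_pow_right hp.one_lt (by norm_num)
  have hB := (s1408_core hG huniq hM hr2 hr1).2 A hAM hAe hAc
  have hC2 : ∀ z ∈ centralizer (A : Set G), z ^ p = 1 ↔ z ∈ A := by
    intro z hz
    refine ⟨fun hzp => ?_, fun hzA => hAe.2 z hzA⟩
    have hzc : ∀ e ∈ A, z * e = e * z := fun e he => (Subgroup.mem_centralizer_iff.1 hz e he).symm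
    have hE := isElementaryAbelian_sup_zpowers hAe hzp hzc
    have h := hB _ hE le_sup_left
    rw [← h]
    exact (le_sup_right : zpowers z ≤ A ⊔ zpowers z) (mem_zpowers z)
  have hAq : IsPGroup p A := isPGroup_of_elem hAe
  have hpd : p ∣ Nat.card G := by
    have : p ∣ Nat.card A := by
      rw [hAc]
      exact dvd_pow_self p (by norm_num)
    exact this.trans (Subgroup.card_subgroup_dvd_card A)
  have hth := Cfsg.Agent.S1396.result hG p hpd A hAq hAe.1 (Or.inl ⟨hC2, fun H hH => hpl p H hH⟩)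
  exact ⟨hC2, hG, huniq, hpl, hAe, hAc, hth⟩

namespace E2Setup

variable {p : ℕ} [hpf : Fact p.Prime] {A : Subgroup G} (S : E2Setup p A)

local notation "π'" => primesNotDvd (Nat.card A)
local notation "𝐊" => piCoreOf (primesNotDvd (Nat.card A)) (centralizer (A : Set G))

include S

theorem sigmaCore_coprime {M : Subgroup G} (hM : IsCoatom M) (hpσ : p ∉ sigma M) : (Nat.card (sigmaCore M)).Coprime p := by
  rw [Nat.coprime_comm, Nat.Prime.coprime_iff_not_dvd Fact.out]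
  intro h
  exact hpσ ((s1350_core S.hG S.huniq hM).1.2.1 p Fact.out h)

/-- An `A`-invariant Sylow `q`-subgroup in `M_σ` containing a given `A`-invariant `q`-subgroup. -/
theorem exists_inv_sigma_sylow {M : Subgroup G} (hM : IsCoatom M) (hAM : A ≤ M) (hpσ : p ∉ sigma M) {q : ℕ} [Fact q.Prime]
    (hq : q ∈ sigma M) {U : Subgroup G} (hUM : U ≤ M) (hU : IsPGroup q U) (hUA : A ≤ normalizer (U : Set G)) :
    ∃ Q : Sylow q G, (Q : Subgroup G) ≤ sigmaCore M ∧ normalizer ((Q : Subgroup G) : Set G) ≤ M ∧ U ≤ (Q : Subgroup G) ∧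
      A ≤ normalizer ((Q : Subgroup G) : Set G) := by
  classical
  have hK : A ≤ normalizer (sigmaCore M : Set G) := hAM.trans (le_normalizer_piCoreOf (sigma M) M)
  have hUK := le_sigmaCore_of_isPGroup S.hG S.huniq hM hq hU hUM
  obtain ⟨P, hUP, hAP⟩ := exists_invariant_sylow_ge hK (S.cA_coprime (S.sigmaCore_coprime hM hpσ)) (Or.inl S.hAsolv) q U hUK hU hUA
  have hPK := isMaxP_map P
  have hPM : IsMaxP q ((P : Subgroup (sigmaCore M)).map (sigmaCore M).subtype) M := by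
    refine ⟨hPK.le.trans (piCoreOf_le _ _), hPK.isP, fun D' h1 h2 h3 => ?_⟩
    exact hPK.max D' (le_sigmaCore_of_isPGroup S.hG S.huniq hM hq h2 h1) h2 h3
  obtain ⟨Q, hQ, hN⟩ := sigma_sylow hq hPM.toSylow
  have e : (Q : Subgroup G) = (P : Subgroup (sigmaCore M)).map (sigmaCore M).subtype := by
    rw [hQ]
    exact Subgroup.map_subgroupOf_eq_of_le hPM.le
  refine ⟨Q, ?_, hN, ?_, ?_⟩
  · rw [e]
    exact hPK.le
  · rw [e]
    exact hUP
  · rw [e]
    exact hAP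

/-- **(d)**: `M_σ ∩ C(A) = 1`. -/
theorem d_core {M : Subgroup G} (hM : IsCoatom M) (hAM : A ≤ M) (hpσ : p ∉ sigma M) (hCA : centralizer (A : Set G) ≤ M) :
    sigmaCore M ⊓ centralizer (A : Set G) = ⊥ := by
  classical
  by_contra hne
  obtain ⟨z, hz, hz1⟩ := (Subgroup.bot_or_exists_ne_one _).resolve_left hne
  have hord : orderOf z ≠ 1 := fun h => hz1 (orderOf_eq_one_iff.1 h)
  obtain ⟨q, hq, hqz⟩ := Nat.exists_prime_and_dvd hord
  haveI : Fact q.Prime := ⟨hq⟩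
  have hqσ : q ∈ sigma M := (s1350_core S.hG S.huniq hM).1.2.1 q hq (hqz.trans (Subgroup.orderOf_dvd_natCard _ hz.1))
  have hqp : q ≠ p := fun h => hpσ (h ▸ hqσ)
  have hqC : q ∣ Nat.card (centralizer (A : Set G)) := hqz.trans (Subgroup.orderOf_dvd_natCard _ hz.2)
  obtain ⟨Pst, hAP⟩ := S.hAp.exists_le_sylow
  obtain ⟨htr, h95⟩ := S.app1395 Pst hAP hq hqp hqC
  obtain ⟨Q₁, -, hN₁, -, hA₁⟩ := S.exists_inv_sigma_sylow hM hAM hpσ hqσ (U := ⊥) bot_le
    (IsPGroup.of_bot) (by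
      rw [Subgroup.normalizer_eq_top_iff.2 inferInstance]
      exact le_top)
  obtain ⟨Q₂, hQ₂, -⟩ := exists_maxInv_ge (A := (Pst : Subgroup G)) (X := ⊤) (T := ⊥) (q := q)
    ⟨le_top, isPiSub_bot _, by
      rw [Subgroup.normalizer_eq_top_iff.2 inferInstance]
      exact le_top⟩
  obtain ⟨hQ₂A, hPQ₂, hNP⟩ := h95 Q₂ hQ₂
  obtain ⟨k, hk, e⟩ := htr Q₁ (maxInv_of_sylow hq Q₁ hA₁) Q₂ hQ₂A
  have hKM : 𝐊 ≤ M := S.K_le_cent.trans hCA
  have hkM : k ∈ M := hKM hk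
  have hN₂ : normalizer (Q₂ : Set G) ≤ M := by
    rw [e, normalizer_conj_map]
    rintro _ ⟨y, hy, rfl⟩
    exact M.mul_mem (M.mul_mem hkM (hN₁ hy)) (M.inv_mem hkM)
  have hPM : (Pst : Subgroup G) ≤ M := hPQ₂.trans ((Subgroup.commutator_le_self _).trans hN₂)
  have hNPM : normalizer ((Pst : Subgroup G) : Set G) ≤ M :=
    hNP.trans (sup_le (inf_le_left.trans hKM) (inf_le_right.trans hN₂))
  exact hpσ (mem_sigma_of_normalizer_le ⟨hPM, Pst.isPGroup', fun D' _ h2 h3 => Pst.is_maximal' h2 h3⟩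
    (S.hdvd.trans (Subgroup.card_dvd_of_le hAM)) hNPM)

omit S in
theorem _root_.Cfsg.Agent.Lib.FT.comm_mem_alphaCore {M : Subgroup G} (hG : IsMinSimpleOddOrder G) (huniq : UniquenessThm G)
    (hM : IsCoatom M) {t a : G} (ht : t ∈ ⁅M, M⁆) (ha : a ∈ ⁅M, M⁆) (hc : (orderOf t).Coprime (orderOf a)) :
    t * a * t⁻¹ * a⁻¹ ∈ alphaCore M := by
  obtain ⟨-, -, -, -, h5⟩ := s1405_core hG huniq hM
  rw [← Subgroup.map_subtype_commutator] at ht ha
  obtain ⟨t', ht', rfl⟩ := ht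
  obtain ⟨a', ha', rfl⟩ := ha
  rw [orderOf_injective M.subtype M.subtype_injective, orderOf_injective M.subtype M.subtype_injective] at hc
  have hcop : (orderOf (QuotientGroup.mk' (piCore (alpha M) ↥M) t')).Coprime (orderOf (QuotientGroup.mk' (piCore (alpha M) ↥M) a')) :=
    Nat.Coprime.coprime_dvd_left (orderOf_map_dvd _ _) (Nat.Coprime.coprime_dvd_right (orderOf_map_dvd _ _) hc)
  have hcomm := comm_of_coprime_of_nilpotent_subgroup h5 (Subgroup.mem_map_of_mem _ ht') (Subgroup.mem_map_of_mem _ ha') hcop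
  have h1 : t' * a' * t'⁻¹ * a'⁻¹ ∈ piCore (alpha M) ↥M := by
    rw [← QuotientGroup.ker_mk' (piCore (alpha M) ↥M), MonoidHom.mem_ker]
    simp only [map_mul, map_inv, hcomm]
    group
  exact ⟨_, h1, by simp⟩

omit S in
theorem _root_.Cfsg.Agent.Lib.FT.not_sigma_of_conj {M : Subgroup G} {c : G} {r : ℕ} [Fact r.Prime] (hr : r ∈ sigma (M.map (MulAut.conj c).toMonoidHom)) :
    r ∈ sigma M := by
  obtain ⟨hrp, hrd, P, hP⟩ := hr
  have h1 := (isMaxP_map P).conj c⁻¹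
  rw [conj_map_conj_map, inv_mul_cancel, conj_map_one] at h1
  refine mem_sigma_of_normalizer_le h1 ?_ ?_
  · rwa [Cfsg.Agent.Lib.Coprime.card_conj_map] at hrd
  · rw [normalizer_conj_map]
    have h2 := conj_map_mono hP c⁻¹
    rwa [conj_map_conj_map, inv_mul_cancel, conj_map_one] at h2

omit S in
/-- When `q ∈ α(H) ∩ σ(M)`, the maximal subgroups `H`, `M` are conjugate. -/
theorem _root_.Cfsg.Agent.Lib.FT.conj_of_alpha_sigma {M H : Subgroup G} {q : ℕ} [Fact q.Prime] (hG : IsMinSimpleOddOrder G) (huniq : UniquenessThm G)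
    (hM : IsCoatom M) (hH : IsCoatom H) (hqα : q ∈ alpha H) (hqσ : q ∈ sigma M) :
    ∃ c : G, H = M.map (MulAut.conj c).toMonoidHom := by
  obtain ⟨S₂, hS₂H, -⟩ := sigma_exists_sylow (alpha_sub_sigma hG huniq hH hqα)
  obtain ⟨S₁, hS₁M, -⟩ := sigma_exists_sylow hqσ
  have h1 : IsMaxP q (S₁ : Subgroup G) ⊤ := ⟨le_top, S₁.isPGroup', fun D' _ h2 h3 => S₁.is_maximal' h2 h3⟩
  have h2 : IsMaxP q (S₂ : Subgroup G) ⊤ := ⟨le_top, S₂.isPGroup', fun D' _ h2 h3 => S₂.is_maximal' h2 h3⟩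
  obtain ⟨c, -, e⟩ := h1.exists_conj_eq h2
  refine ⟨c, ?_⟩
  have hS₂H' : IsMaxP q (S₂ : Subgroup G) H := ⟨hS₂H, S₂.isPGroup', fun D' _ h2 h3 => S₂.is_maximal' h2 h3⟩
  have hr : ¬ PRankLE q 2 (S₂ : Subgroup G) := fun h => hqα.2 (hS₂H'.prank_of h)
  have hne : (S₂ : Subgroup G) ≠ ⊤ := fun h => hH.1 (top_le_iff.1 (h ▸ hS₂H))
  have hu := unique_of_prank huniq Fact.out hne hr
  have hle : (S₂ : Subgroup G) ≤ M.map (MulAut.conj c).toMonoidHom := by
    rw [← e]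
    exact conj_map_mono hS₁M c
  exact uniq_eq hu hH hS₂H (coatom_conj hM c) hle

/-- A nontrivial intersection `M_σ ∩ H` gives an `A`-invariant `q`-subgroup. -/
theorem exists_meet_prime {M H : Subgroup G} (hM : IsCoatom M) (hAM : A ≤ M) (hpσ : p ∉ sigma M) (hAH : A ≤ H)
    (hne : sigmaCore M ⊓ H ≠ ⊥) :
    ∃ (q : ℕ) (_ : Fact q.Prime), q ∈ sigma M ∧ q ≠ p ∧ ∃ T : Subgroup G, T ≤ M ∧ T ≤ H ∧ IsPGroup q T ∧
      A ≤ normalizer (T : Set G) ∧ T ≠ ⊥ := by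
  classical
  set K := sigmaCore M ⊓ H with hK
  have hKne : Nat.card K ≠ 1 := fun h => hne ((Subgroup.card_eq_one).1 h)
  obtain ⟨q, hq, hqd⟩ := Nat.exists_prime_and_dvd hKne
  haveI : Fact q.Prime := ⟨hq⟩
  have hqσ : q ∈ sigma M := (s1350_core S.hG S.huniq hM).1.2.1 q hq
    (hqd.trans (Subgroup.card_dvd_of_le inf_le_left))
  have hAK : A ≤ normalizer (K : Set G) :=
    (le_inf (hAM.trans (le_normalizer_piCoreOf (sigma M) M)) (hAH.trans le_normalizer)).trans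
      Subgroup.inf_normalizer_le_normalizer_inf
  have hKc : (Nat.card K).Coprime p :=
    Nat.Coprime.coprime_dvd_left (Subgroup.card_dvd_of_le inf_le_left) (S.sigmaCore_coprime hM hpσ)
  obtain ⟨P, hP⟩ := exists_invariant_sylow hAK (S.cA_coprime hKc) (Or.inl S.hAsolv) q
  have hPK := isMaxP_map P
  refine ⟨q, inferInstance, hqσ, fun h => hpσ (h ▸ hqσ), _, hPK.le.trans (inf_le_left.trans (piCoreOf_le _ _)),
    hPK.le.trans inf_le_right, hPK.isP, hP, ?_⟩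
  intro h
  rw [Subgroup.map_eq_bot_iff_of_injective _ K.subtype_injective] at h
  exact P.ne_bot_of_dvd_card hqd h

/-- **Step 2**: `p ∉ σ(H₁)`. -/
theorem not_sigma_of_meet {M H T : Subgroup G} {q : ℕ} [Fact q.Prime] (hM : IsCoatom M) (hpσ : p ∉ sigma M)
    (hqσ : q ∈ sigma M) (hqp : q ≠ p) (hH : IsCoatom H) (hAH : A ≤ H) (hTH : T ≤ H) (hTq : IsPGroup q T)
    (hAT : A ≤ normalizer (T : Set G)) (hT1 : T ≠ ⊥) (hTf : T ⊓ centralizer (A : Set G) = ⊥) : p ∉ sigma H := by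
  classical
  intro hpH
  have hAσ : A ≤ sigmaCore H := le_sigmaCore_of_isPGroup S.hG S.huniq hH hpH S.hAp hAH
  have hAc : A ≤ ⁅H, H⁆ := hAσ.trans (sigmaCore_le_commutator S.hG S.huniq hH)
  have hTc' : (Nat.card T).Coprime p := S.coprime_of_isPGroup hqp hTq
  have h1 := coprime_commutator_sup_centralizer hAT (S.cA_coprime hTc') (Or.inl S.hAsolv)
  rw [hTf, sup_bot_eq] at h1
  have hTcomm : T ≤ ⁅H, H⁆ := by
    rw [← h1]
    exact Subgroup.commutator_mono hTH hAH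
  have hTα : T ≤ alphaCore H := by
    rw [← h1, Subgroup.commutator_le]
    intro t ht a ha
    have hc : (orderOf t).Coprime (orderOf a) := by
      obtain ⟨i, hi⟩ := (IsPGroup.iff_orderOf.1 hTq) ⟨t, ht⟩
      obtain ⟨j, hj⟩ := (IsPGroup.iff_orderOf.1 S.hAp) ⟨a, ha⟩
      rw [Subgroup.orderOf_mk] at hi hj
      rw [hi, hj]
      exact Nat.Coprime.pow _ _ ((Nat.coprime_primes Fact.out Fact.out).2 hqp)
    rw [commutatorElement_def]
    exact comm_mem_alphaCore S.hG S.huniq hH (hTcomm ht) (hAc ha) hc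
  have hqα : q ∈ alpha H := by
    have hd : q ∣ Nat.card (alphaCore H) := by
      have hT2 : q ∣ Nat.card T := by
        obtain ⟨n, hn⟩ := IsPGroup.iff_card.1 hTq
        rw [hn]
        refine dvd_pow_self q ?_
        rintro rfl
        rw [pow_zero] at hn
        exact hT1 ((Subgroup.card_eq_one).1 hn)
      exact hT2.trans (Subgroup.card_dvd_of_le hTα)
    exact (s1405_core S.hG S.huniq hH).1.2.1 q Fact.out hd
  obtain ⟨c, rfl⟩ := conj_of_alpha_sigma S.hG S.huniq hM hH hqα hqσ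
  exact hpσ (not_sigma_of_conj hpH)

/-- `A` is not the union of two cyclic subgroups. -/
theorem exists_not_mem₂ (y y₁ : G) (hy : y ∈ A) (hy₁ : y₁ ∈ A) : ∃ a ∈ A, a ∉ zpowers y ∧ a ∉ zpowers y₁ := by
  obtain ⟨b, hb, hby⟩ := S.exists_not_mem y hy
  by_cases hby₁ : b ∈ zpowers y₁
  · obtain ⟨c, hc, hcy₁⟩ := S.exists_not_mem y₁ hy₁
    by_cases hcy : c ∈ zpowers y
    · refine ⟨b * c, A.mul_mem hb hc, fun h => hby ?_, fun h => hcy₁ ?_⟩
      · have := (zpowers y).mul_mem h ((zpowers y).inv_mem hcy)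
        simpa using this
      · have := (zpowers y₁).mul_mem ((zpowers y₁).inv_mem hby₁) h
        simpa using this
    · exact ⟨c, hc, hcy, hcy₁⟩
  · exact ⟨b, hb, hby, hby₁⟩

/-- **Step 4**: the line through `a ∉ ⟨y⟩`. -/
theorem line_of_e1 {M H₁ T U : Subgroup G} {q s : ℕ} {y a : G} [Fact q.Prime] [Fact s.Prime] (hqp : q ≠ p)
    (E : E1Data p A M H₁ T U q s y) (hTq : IsPGroup q T) (hAT : A ≤ normalizer (T : Set G))
    (hTf : T ⊓ centralizer (A : Set G) = ⊥) (hH₁ : IsCoatom H₁) (hAH₁ : A ≤ H₁) (hpσ₁ : p ∉ sigma H₁)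
    (hCA₁ : centralizer (A : Set G) ≤ H₁) (ha : a ∈ A) (hay : a ∉ zpowers y) :
    ∃ v : G, v ∈ sigmaCore H₁ ∧ v ≠ 1 ∧ v ∈ centralizer ({a} : Set G) ∧
      piCoreOf (primesNotDvd (Nat.card A)) (centralizer ({a} : Set G)) ≤ H₁ := by
  classical
  have hsp' : s.Prime := Fact.out
  have ha1 : a ≠ 1 := S.ne_one_of_not_mem hay
  obtain ⟨u, hu, huc, -, huM⟩ := S.e1c hqp E hTq hAT hTf ha hay
  have hu1 : u ≠ 1 := fun h => huM (h ▸ one_mem M)
  have hWU : ⁅U, T ⊓ centralizer ({y} : Set G)⁆ ≤ U := commutator_le_of_le_normalizer (inf_le_left.trans E.hTU)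
  have hQ : IsPGroup s ↥(⁅U, T ⊓ centralizer ({y} : Set G)⁆ ⊓ centralizer ({a} : Set G)) :=
    E.hUs.to_le (inf_le_left.trans hWU)
  have hQ1 : ⁅U, T ⊓ centralizer ({y} : Set G)⁆ ⊓ centralizer ({a} : Set G) ≠ ⊥ := by
    intro h
    have : u ∈ (⊥ : Subgroup G) := h ▸ ⟨hu, huc⟩
    exact hu1 (Subgroup.mem_bot.1 this)
  obtain ⟨v, hv, hv1, hvs⟩ := exists_order_p_of_ne_bot s hQ hQ1
  have hvU : v ∈ U := hWU hv.1
  have hgood := S.e1_good hqp E hTq hAT hTf hv.1 hvs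
  have hUne : U ⊓ centralizer ({v} : Set G) ≠ ⊤ := fun h =>
    centralizer_singleton_ne_top S.hG hv1 (top_le_iff.1 (h ▸ inf_le_right))
  have hUq := unique_of_prank S.huniq hsp' hUne hgood
  have hCv : centralizer ({v} : Set G) ≤ H₁ :=
    uniq_le hH₁ (inf_le_left.trans E.hUH) hUq (centralizer_singleton_ne_top S.hG hv1) inf_le_right
  have hsα : s ∈ alpha H₁ := by
    refine ⟨hsp', fun h => hgood ?_⟩
    exact prank_of_injective (Subgroup.inclusion (inf_le_left.trans E.hUH)) (Subgroup.inclusion_injective _) h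
  have hsσ := alpha_sub_sigma S.hG S.huniq hH₁ hsα
  refine ⟨v, le_sigmaCore_of_isPGroup S.hG S.huniq hH₁ hsσ E.hUs E.hUH hvU, hv1, hv.2, ?_⟩
  obtain ⟨U₁, hU₁σ, hNU₁, hUU₁, hAU₁⟩ := S.exists_inv_sigma_sylow hH₁ hAH₁ hpσ₁ hsσ E.hUH E.hUs E.hAU
  have hU₁f : (U₁ : Subgroup G) ⊓ centralizer (A : Set G) = ⊥ := by
    rw [eq_bot_iff, ← S.d_core hH₁ hAH₁ hpσ₁ hCA₁]
    exact inf_le_inf_right _ hU₁σ
  have hvY : v ∈ (U₁ : Subgroup G) ⊓ centralizer ({a} : Set G) := ⟨hUU₁ hvU, hv.2⟩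
  have hYne : (U₁ : Subgroup G) ⊓ centralizer ({a} : Set G) ≠ ⊥ := fun h =>
    hv1 (Subgroup.mem_bot.1 (h ▸ hvY))
  have hYmax := S.fix_isMaxP E.hsp (maxInv_of_sylow hsp' U₁ hAU₁) ha ha1 hYne
  have hAY := S.A_inv_inf (T := (U₁ : Subgroup G)) ha hAU₁
  have hyA : y ∈ A := E.hy
  have hy1 : y ≠ 1 := E.hy1
  have hya : y ∉ zpowers a := by
    intro h
    have e := S.zpowers_eq_of_mem ha h hy1
    exact hay (e ▸ mem_zpowers a)
  have hYf : ((U₁ : Subgroup G) ⊓ centralizer ({a} : Set G)) ⊓ centralizer ({y} : Set G) = ⊥ := by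
    rw [eq_bot_iff, ← hU₁f]
    rintro g ⟨⟨h1, h2⟩, h3⟩
    exact ⟨h1, S.cent_inf_le hyA hy1 ha hay ⟨h3, h2⟩⟩
  have hCY : centralizer (((U₁ : Subgroup G) ⊓ centralizer ({a} : Set G) : Subgroup G) : Set G) ≤ H₁ :=
    (centralizer_le_of_mem hvY).trans hCv
  have hYH₁ : (U₁ : Subgroup G) ⊓ centralizer ({a} : Set G) ≤ H₁ :=
    inf_le_left.trans (hU₁σ.trans (piCoreOf_le _ _))
  have hNY : normalizer (((U₁ : Subgroup G) ⊓ centralizer ({a} : Set G) : Subgroup G) : Set G) ≤ H₁ := by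
    rw [(s1404_core S.hG S.huniq hH₁ hsσ _ (U₁.isPGroup'.to_le inf_le_left) hYne hYH₁).2]
    exact sup_le inf_le_left hCY
  exact S.good_line hH₁ E.hsp ha ha1 hyA hya hYmax hAY hYf hNY hCY (S.K_le_cent.trans hCA₁)

/-- **Step 5**. -/
theorem meet_bot_of_line {H₁ L : Subgroup G} {y : G} (hy : y ∈ A) (hH₁ : IsCoatom H₁) (hAH₁ : A ≤ H₁) (hpσ₁ : p ∉ sigma H₁)
    (hCA₁ : centralizer (A : Set G) ≤ H₁)
    (hline : ∀ a ∈ A, a ∉ zpowers y → piCoreOf (primesNotDvd (Nat.card A)) (centralizer ({a} : Set G)) ≤ H₁)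
    (hL : IsCoatom L) (hLne : L ≠ H₁) (hAL : A ≤ L) : sigmaCore H₁ ⊓ L = ⊥ := by
  classical
  by_contra hne
  obtain ⟨q, _, hqσ, hqp, T₀, hT₀H, hT₀L, hT₀q, hAT₀, hT₀1⟩ := S.exists_meet_prime hH₁ hAH₁ hpσ₁ hAL hne
  have hfpf : ∀ T : Subgroup G, T ≤ H₁ → IsPGroup q T → A ≤ normalizer (T : Set G) → T ⊓ centralizer (A : Set G) = ⊥ := by
    intro T hT hTq _
    rw [eq_bot_iff, ← S.d_core hH₁ hAH₁ hpσ₁ hCA₁]
    exact inf_le_inf_right _ (le_sigmaCore_of_isPGroup S.hG S.huniq hH₁ hqσ hTq hT)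
  obtain ⟨H₂, T, U, s, y₁, hH₂, hne₂, hAH₂, hTH₁, hTH₂, hTq, hAT, hT1, hTf, E⟩ :=
    exists_e1 S hH₁ hqσ hqp (piCoreOf_le _ _) (le_normalizer_piCoreOf _ _) (S.sigmaCore_coprime hH₁ hpσ₁)
      (fun T hT hTq => le_sigmaCore_of_isPGroup S.hG S.huniq hH₁ hqσ hTq hT) hAH₁ hfpf
      ⟨L, T₀, hL, hLne, hAL, hT₀H, hT₀L, hT₀q, hAT₀, hT₀1⟩
  obtain ⟨a, ha, hay, hay₁⟩ := S.exists_not_mem₂ y y₁ hy E.hy
  exact no_two_lines S hqp E hTq hAT hTf ha hay₁ (hline a ha hay)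

theorem cases_of_le {Z : Subgroup G} (hZA : Z ≤ A) {z : G} (hz : z ∈ Z) (hz1 : z ≠ 1) : Z = A ∨ Z = zpowers z := by
  classical
  by_cases h : Z ≤ zpowers z
  · exact Or.inr (le_antisymm h (zpowers_le.2 hz))
  · obtain ⟨b, hb, hbz⟩ := SetLike.not_le_iff_exists.1 h
    refine Or.inl (le_antisymm hZA ?_)
    rw [← S.sup_eq (hZA hz) hz1 (hZA hb) hbz]
    exact sup_le (zpowers_le.2 hz) (zpowers_le.2 hb)

/-- The central part of a `p`-subgroup containing `A` lies in `A`. -/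
theorem centerOm_le {P : Subgroup G} (hC2 : ∀ z ∈ centralizer (A : Set G), z ^ p = 1 ↔ z ∈ A) (hAP : A ≤ P) :
    centerOm P p ≤ A := by
  intro z hz
  rw [mem_centerOm] at hz
  refine (hC2 z ?_).1 hz.2.2
  exact Subgroup.centralizer_le hAP hz.2.1

theorem centerOm_ne_bot {P : Subgroup G} (hP : IsPGroup p P) (hAP : A ≤ P) : ∃ z ∈ centerOm P p, z ≠ 1 := by
  have hP1 : P ≠ ⊥ := fun h => S.hA1 (le_bot_iff.1 (h ▸ hAP))
  obtain ⟨z, hzP, hz1, hzp, hzc⟩ := exists_central_order_p hP hP1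
  refine ⟨z, mem_centerOm.2 ⟨hzP, ?_, hzp⟩, hz1⟩
  rw [Subgroup.mem_centralizer_iff]
  exact fun y hy => (hzc y hy).symm

theorem normalizer_zpowers_ne_top {a : G} (ha : a ∈ A) (ha1 : a ≠ 1) : normalizer ((zpowers a : Subgroup G) : Set G) ≠ ⊤ :=
  IsMinSimpleOddOrder.normalizer_ne_top S.hG (fun h => ha1 (Subgroup.zpowers_eq_bot.1 h))
    (fun h => S.hAtop (top_le_iff.1 (h ▸ zpowers_le.2 ha)))

/-- From uniqueness over the centralizer to control of the normalizer. -/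
theorem norm_le_of_uniq {H : Subgroup G} {a : G} (ha : a ∈ A) (ha1 : a ≠ 1)
    (huq : ∀ L : Subgroup G, IsCoatom L → centralizer ({a} : Set G) ≤ L → L = H) :
    normalizer ((zpowers a : Subgroup G) : Set G) ≤ H := by
  obtain ⟨L, hL, hNL⟩ := exists_coatom_ge (S.normalizer_zpowers_ne_top ha ha1)
  rw [← huq L hL ((cent_le_norm a).trans hNL)]
  exact hNL

omit S in
theorem _root_.Cfsg.Agent.Lib.FT.cent_conj_le {H : Subgroup G} {a g : G} (haH : centralizer ({a} : Set G) ≤ H) :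
    centralizer ({g * a * g⁻¹} : Set G) ≤ H.map (MulAut.conj g).toMonoidHom := by
  intro x hx
  rw [mem_conj_map]
  apply haH
  rw [mem_centralizer_singleton_iff] at hx ⊢
  have e : g⁻¹ * x * g * a = g⁻¹ * (x * (g * a * g⁻¹)) * g := by group
  have e' : a * (g⁻¹ * x * g) = g⁻¹ * ((g * a * g⁻¹) * x) * g := by group
  rw [e, e', hx]

/-- The transport of uniqueness: if `H` is the unique maximal subgroup above `C(a')`, `a' = g a g⁻¹`,
and `C(a) ≤ H`, then `g ∈ H`. -/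
theorem conj_mem_of_uniq {H : Subgroup G} {a g : G} (hH : IsCoatom H)
    (haH : centralizer ({a} : Set G) ≤ H)
    (huq : ∀ L : Subgroup G, IsCoatom L → centralizer ({g * a * g⁻¹} : Set G) ≤ L → L = H) : g ∈ H := by
  have h1 := huq _ (coatom_conj hH g) (cent_conj_le haH)
  rw [← normalizer_coatom S.hG hH]
  exact (conj_map_eq_iff_mem_normalizer H g).1 h1

/-- **(e)**: `M_σ ∩ H = 1` for every other maximal subgroup `H` containing `A`. -/
theorem e_core {M H : Subgroup G} (hM : IsCoatom M) (hAM : A ≤ M) (hpσ : p ∉ sigma M)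
    (hC2 : ∀ z ∈ centralizer (A : Set G), z ^ p = 1 ↔ z ∈ A)
    (hCM : centralizer (A : Set G) ≤ M) (hH : IsCoatom H) (hne : H ≠ M) (hAH : A ≤ H) : sigmaCore M ⊓ H = ⊥ := by
  classical
  by_contra hne'
  obtain ⟨q, _, hqσ, hqp, T₀, hT₀M, hT₀H, hT₀q, hAT₀, hT₀1⟩ := S.exists_meet_prime hM hAM hpσ hAH hne'
  have hfpf : ∀ T : Subgroup G, T ≤ M → IsPGroup q T → A ≤ normalizer (T : Set G) → T ⊓ centralizer (A : Set G) = ⊥ := by
    intro T hT hTq _
    rw [eq_bot_iff, ← S.d_core hM hAM hpσ hCM]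
    exact inf_le_inf_right _ (le_sigmaCore_of_isPGroup S.hG S.huniq hM hqσ hTq hT)
  obtain ⟨H₁, T, U, s, y, hH₁, hne₁, hAH₁, hTM, hTH₁, hTq, hAT, hT1, hTf, E⟩ :=
    exists_e1 S hM hqσ hqp (piCoreOf_le _ _) (le_normalizer_piCoreOf _ _) (S.sigmaCore_coprime hM hpσ)
      (fun T hT hTq => le_sigmaCore_of_isPGroup S.hG S.huniq hM hqσ hTq hT) hAM hfpf
      ⟨H, T₀, hH, hne, hAH, hT₀M, hT₀H, hT₀q, hAT₀, hT₀1⟩
  haveI : Fact s.Prime := ⟨E.hs⟩
  have hpσ₁ : p ∉ sigma H₁ := S.not_sigma_of_meet hM hpσ hqσ hqp hH₁ hAH₁ hTH₁ hTq hAT hT1 hTf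
  have hCA₁ : centralizer (A : Set G) ≤ H₁ := (s1416_core S.hG S.huniq S.hpl H₁ hH₁ p A ⟨hAH₁, S.hAe, S.hAc⟩).1
  have hline := fun (a : G) (ha : a ∈ A) (hay : a ∉ zpowers y) =>
    S.line_of_e1 hqp E hTq hAT hTf hH₁ hAH₁ hpσ₁ hCA₁ ha hay
  have hmeet : ∀ L : Subgroup G, IsCoatom L → L ≠ H₁ → A ≤ L → sigmaCore H₁ ⊓ L = ⊥ := fun L hL hLne hAL =>
    S.meet_bot_of_line E.hy hH₁ hAH₁ hpσ₁ hCA₁ (fun a ha hay => (hline a ha hay).choose_spec.2.2.2) hL hLne hAL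
  have huq : ∀ a ∈ A, a ∉ zpowers y → ∀ L : Subgroup G, IsCoatom L → centralizer ({a} : Set G) ≤ L → L = H₁ := by
    intro a ha hay L hL hCL
    by_contra hLne
    obtain ⟨v, hvσ, hv1, hvC, -⟩ := hline a ha hay
    have h0 := hmeet L hL hLne ((S.A_le_cent ha).trans hCL)
    have : v ∈ sigmaCore H₁ ⊓ L := ⟨hvσ, hCL hvC⟩
    rw [h0] at this
    exact hv1 (Subgroup.mem_bot.1 this)
  have hnorm : ∀ a ∈ A, a ∉ zpowers y → normalizer ((zpowers a : Subgroup G) : Set G) ≤ H₁ := fun a ha hay =>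
    S.norm_le_of_uniq ha (S.ne_one_of_not_mem hay) (huq a ha hay)
  -- `N(A) ≤ H₁`
  have hNA : normalizer (A : Set G) ≤ H₁ := by
    intro g hg
    have hg' : ∀ x ∈ A, g⁻¹ * x * g ∈ A := fun x hx => by
      have h1 := (Subgroup.mem_normalizer_iff.1 (Subgroup.inv_mem _ hg) x).1 hx
      simpa using h1
    obtain ⟨a, ha, hay, hay'⟩ := S.exists_not_mem₂ y (g⁻¹ * y * g) E.hy (hg' y E.hy)
    have ha'A : g * a * g⁻¹ ∈ A := (Subgroup.mem_normalizer_iff.1 hg a).1 ha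
    have ha'y : g * a * g⁻¹ ∉ zpowers y := by
      intro h
      apply hay'
      obtain ⟨k, hk⟩ := Subgroup.mem_zpowers_iff.1 h
      refine Subgroup.mem_zpowers_iff.2 ⟨k, ?_⟩
      have hc : (g⁻¹ * y * g) ^ k = g⁻¹ * y ^ k * g := by
        have := conj_zpow (a := g⁻¹) (b := y) (i := k)
        simpa using this
      rw [hc, hk]
      group
    exact S.conj_mem_of_uniq hH₁ ((cent_le_norm a).trans (hnorm a ha hay)) (huq _ ha'A ha'y)
  -- the controlled line of `M`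
  have hn0 : ¬ H0 A M := fun h0 => hpσ (s1416_h0 S.hG S.huniq S.hpl hM hAM S.hAe S.hAc h0).1
  unfold H0 at hn0
  push Not at hn0
  obtain ⟨x₀, hx₀, hx₀1, hx₀L⟩ := hn0
  have hx₀M : normalizer ((zpowers x₀ : Subgroup G) : Set G) ≤ M := by
    obtain ⟨L, hL, hNL⟩ := exists_coatom_ge (S.normalizer_zpowers_ne_top hx₀ hx₀1)
    by_cases hLM : L = M
    · exact hLM ▸ hNL
    · exact absurd hNL (hx₀L L hL hLM)
  have hx₀y : x₀ ∈ zpowers y := by
    by_contra h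
    exact no_two_lines S hqp E hTq hAT hTf hx₀ h ((piCoreOf_le _ _).trans ((cent_le_norm x₀).trans hx₀M))
  have hNy : normalizer ((zpowers y : Subgroup G) : Set G) ≤ M := by
    rw [← S.zpowers_eq_of_mem E.hy hx₀y hx₀1]
    exact hx₀M
  -- the normalizer of a Sylow subgroup of `H₁`
  obtain ⟨P₁, hP₁, hAP₁⟩ := exists_isMaxP_ge hAH₁ S.hAp
  have hyline : ∀ (P : Subgroup G), IsPGroup p P → A ≤ P → (∀ z ∈ centerOm P p, z ≠ 1 → z ∈ zpowers y) →
      normalizer (P : Set G) ≤ M := by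
    intro P hPp hAP hall
    obtain ⟨z, hz, hz1⟩ := S.centerOm_ne_bot hPp hAP
    have hle : centerOm P p ≤ zpowers y := by
      intro w hw
      by_cases hw1 : w = 1
      · rw [hw1]
        exact one_mem _
      · exact hall w hw hw1
    have e1 : zpowers z = zpowers y := S.zpowers_eq_of_mem E.hy (hall z hz hz1) hz1
    have e2 : centerOm P p = zpowers y := le_antisymm hle (e1 ▸ zpowers_le.2 hz)
    intro g hg
    apply hNy
    rw [← e2]
    exact mem_normalizer_centerOm hg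
  have hNP₁ : normalizer (P₁ : Set G) ≤ M := by
    refine hyline P₁ hP₁.isP hAP₁ fun z hz hz1 => ?_
    by_contra hzy
    have hnP : ¬ normalizer (P₁ : Set G) ≤ H₁ := fun h =>
      hpσ₁ (mem_sigma_of_normalizer_le hP₁ (S.hdvd.trans (Subgroup.card_dvd_of_le hAH₁)) h)
    obtain ⟨g, hg, hgH⟩ := SetLike.not_le_iff_exists.1 hnP
    have hgZ := mem_normalizer_centerOm (p := p) hg
    rcases S.cases_of_le (S.centerOm_le hC2 hAP₁) hz hz1 with e | e
    · rw [e] at hgZ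
      exact hgH (hNA hgZ)
    · rw [e] at hgZ
      exact hgH (hnorm z (S.centerOm_le hC2 hAP₁ hz) hzy hgZ)
  have hP₁M : P₁ ≤ M := Subgroup.le_normalizer.trans hNP₁
  obtain ⟨P, hP, hP₁P⟩ := exists_isMaxP_ge hP₁M hP₁.isP
  have hAP := hAP₁.trans hP₁P
  have hnP : ¬ normalizer (P : Set G) ≤ M := fun h =>
    hpσ (mem_sigma_of_normalizer_le hP (S.hdvd.trans (Subgroup.card_dvd_of_le hAM)) h)
  apply hnP
  by_cases hall : ∀ z ∈ centerOm P p, z ≠ 1 → z ∈ zpowers y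
  · exact hyline P hP.isP hAP hall
  · push Not at hall
    obtain ⟨z, hz, hz1, hzy⟩ := hall
    have hzA := S.centerOm_le hC2 hAP hz
    have hPC : P ≤ centralizer ({z} : Set G) := by
      intro w hw
      rw [mem_centralizer_singleton_iff]
      have := (mem_centerOm.1 hz).2.1
      exact Subgroup.mem_centralizer_iff.1 this w hw
    have hPH₁ : P ≤ H₁ := hPC.trans ((cent_le_norm z).trans (hnorm z hzA hzy))
    rw [hP₁.max P hPH₁ hP.isP hP₁P]
    exact hNP₁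

end E2Setup

end Cfsg.Agent.Lib.FT
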