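import Cfsg.Agent.Lib.FT.BG11i
import Cfsg.Agent.Lib.OddChar.ThompsonFpf

/-!
BG section 12: fixed-point-free lines, nilpotency of `M_σ` and the centrality of `A` in a Sylow subgroup of `M`,
at a prime `p ∉ σ(M)` of rank two.
-/

set_option autoImplicit false
set_option linter.unusedSectionVars false
set_option linter.style.haveILetI false

namespace Cfsg.Agent.Lib.FT

open Subgroup Cfsg Cfsg.Agent.Lib.OddLocal Cfsg.Agent.Lib.Basic

open scoped commutatorElement Pointwise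

open Cfsg.Agent.Lib.Coprime (mem_conj_map conj_mem_conj_map conj_map_conj_map conj_map_one
  conj_map_mono mem_normalizer_of_conj_le conj_map_eq_iff_mem_normalizer)

variable {G : Type*} [Group G] [Finite G]

/-- The standing data at a prime `p ∉ σ(M)`. -/
structure Tau2Setup (p : ℕ) (A M : Subgroup G) : Prop where
  S : E2Setup p A
  hM : IsCoatom M
  hAM : A ≤ M
  hpσ : p ∉ sigma M
  hC2 : ∀ z ∈ centralizer (A : Set G), z ^ p = 1 ↔ z ∈ A
  hCM : centralizer (A : Set G) ≤ M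

theorem Tau2Setup.mk' (hG : IsMinSimpleOddOrder G) (huniq : UniquenessThm G)
    (hpl : ∀ (r : ℕ) [Fact r.Prime] (H : Subgroup G), H ≠ ⊤ → PLengthLE r 1 ↥H)
    {M A : Subgroup G} {p : ℕ} [Fact p.Prime]
    (hM : IsCoatom M) (hAM : A ≤ M) (hAe : IsElementaryAbelian p A) (hAc : Nat.card A = p ^ 2) (hpσ : p ∉ sigma M) :
    Tau2Setup p A M := by
  obtain ⟨hC2, S⟩ := setup_of_not_sigma hG huniq hpl hM hAM hAe hAc hpσ
  exact ⟨S, hM, hAM, hpσ, hC2, (s1416_core hG huniq hpl M hM p A ⟨hAM, hAe, hAc⟩).1⟩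

theorem exists_sigma (hG : IsMinSimpleOddOrder G) (huniq : UniquenessThm G) {M : Subgroup G} (hM : IsCoatom M) :
    ∃ q, q ∈ sigma M := by
  classical
  by_cases hr : RankLE 2 ↥M
  · exact exists_sigma_of_rank hG hM hr
  · unfold RankLE at hr
    push Not at hr
    obtain ⟨q, hq, hr⟩ := hr
    haveI : Fact q.Prime := ⟨hq⟩
    exact ⟨q, alpha_sub_sigma hG huniq hM ⟨hq, hr⟩⟩

theorem sigmaCore_ne_bot (hG : IsMinSimpleOddOrder G) (huniq : UniquenessThm G) {M : Subgroup G} (hM : IsCoatom M) :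
    sigmaCore M ≠ ⊥ := by
  classical
  obtain ⟨q, hq⟩ := exists_sigma hG huniq hM
  haveI : Fact q.Prime := ⟨hq.1⟩
  obtain ⟨S₁, hS₁M, -⟩ := sigma_exists_sylow hq
  have h1 := le_sigmaCore_of_isPGroup hG huniq hM hq S₁.isPGroup' hS₁M
  intro h
  rw [h, le_bot_iff] at h1
  have h2 := S₁.not_dvd_index
  rw [h1, Subgroup.index_bot] at h2
  exact h2 (hq.2.1.trans (Subgroup.card_subgroup_dvd_card M))

theorem commutator_top_ne_self {X : Type*} [Group X] (hX : Group.IsNilpotent X) {N : Subgroup X} (h : N ≠ ⊥) :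
    ⁅N, (⊤ : Subgroup X)⁆ ≠ N := by
  intro e
  obtain ⟨n, hn⟩ := (_root_.nilpotent_iff_lowerCentralSeries).1 hX
  have key : ∀ k, N ≤ _root_.lowerCentralSeries (⊤ : Subgroup X) k := by
    intro k
    induction k with
    | zero => exact le_top
    | succ k ih =>
      rw [← e]
      exact Subgroup.commutator_mono ih le_rfl
  exact h (le_bot_iff.1 (hn ▸ key n))

theorem commutator_ne_self_of_isPGroup {p : ℕ} {E P : Subgroup G} (hP : IsPGroup p P) (hEP : E ≤ P) (hE : E ≠ ⊥)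
    (hp : p.Prime) :
    ⁅E, P⁆ ≠ E := by
  classical
  haveI : Fact p.Prime := ⟨hp⟩
  haveI : Group.IsNilpotent ↥P := hP.isNilpotent
  have h1 : E.subgroupOf P ≠ ⊥ := by
    intro h
    apply hE
    rw [← Subgroup.map_subgroupOf_eq_of_le hEP, h, Subgroup.map_bot]
  have h2 := commutator_top_ne_self (X := ↥P) inferInstance h1
  intro e
  apply h2
  apply Subgroup.map_injective P.subtype_injective
  rw [Subgroup.map_commutator, Subgroup.map_subgroupOf_eq_of_le hEP, ← MonoidHom.range_eq_map, Subgroup.range_subtype]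
  exact e

theorem exists_zpow_mul_of_mem_sup {x y w : G} (hc : Commute x y) (hw : w ∈ zpowers x ⊔ zpowers y) :
    ∃ i j : ℤ, w = x ^ i * y ^ j := by
  classical
  let K : Subgroup G :=
    { carrier := {w | ∃ i j : ℤ, w = x ^ i * y ^ j}
      mul_mem' := by
        rintro _ _ ⟨i, j, rfl⟩ ⟨k, l, rfl⟩
        refine ⟨i + k, j + l, ?_⟩
        rw [zpow_add, zpow_add]
        have := (hc.zpow_zpow k j).eq
        calc x ^ i * y ^ j * (x ^ k * y ^ l) = x ^ i * (y ^ j * x ^ k) * y ^ l := by group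
          _ = x ^ i * (x ^ k * y ^ j) * y ^ l := by rw [this]
          _ = _ := by group
      one_mem' := ⟨0, 0, by simp⟩
      inv_mem' := by
        rintro _ ⟨i, j, rfl⟩
        refine ⟨-i, -j, ?_⟩
        rw [mul_inv_rev, zpow_neg, zpow_neg]
        exact ((hc.zpow_zpow i j).inv_inv).eq.symm }
  have hle : zpowers x ⊔ zpowers y ≤ K := sup_le
    (zpowers_le.2 ⟨1, 0, by simp⟩) (zpowers_le.2 ⟨0, 1, by simp⟩)
  exact hle hw

namespace E2Setup

variable {p : ℕ} [hpf : Fact p.Prime] {E : Subgroup G} (S : E2Setup p E)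

include S

/-- `P` permutes the lines of a normal `E_{p²}` other than the central one transitively. -/
theorem exists_conj_line {P : Subgroup G} (hP : IsPGroup p P) (hEP : E ≤ P) (hPE : P ≤ normalizer (E : Set G))
    {z₀ b₀ b : G} (hz₀ : z₀ ∈ E) (hz₀1 : z₀ ≠ 1) (hzc : z₀ ∈ centralizer (P : Set G))
    (hZ : ∀ u ∈ E, u ∈ centralizer (P : Set G) → u ∈ zpowers z₀)
    (hb₀ : b₀ ∈ E) (hb₀z : b₀ ∉ zpowers z₀) (hb : b ∈ E) (hbz : b ∉ zpowers z₀) :
    ∃ t ∈ P, t * b₀ * t⁻¹ ∈ zpowers b ∧ t * b₀ * t⁻¹ ≠ 1 := by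
  classical
  have hp : p.Prime := Fact.out
  haveI hPnil : Group.IsNilpotent ↥P := hP.isNilpotent
  have hb₀1 : b₀ ≠ 1 := S.ne_one_of_not_mem hb₀z
  set C₁ := ⁅E, P⁆ with hC₁
  have hC₁E : C₁ ≤ E := commutator_le_of_le_normalizer hPE
  have hb₀nc : b₀ ∉ centralizer (P : Set G) := fun h => hb₀z (hZ b₀ hb₀ h)
  rw [Subgroup.mem_centralizer_iff] at hb₀nc
  push Not at hb₀nc
  obtain ⟨t₀, ht₀, hne⟩ := hb₀nc
  have hd : t₀ * b₀ * t₀⁻¹ * b₀⁻¹ ∈ C₁ := by
    have h1 : ⁅b₀, t₀⁆ ∈ C₁ := Subgroup.commutator_mem_commutator hb₀ ht₀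
    have h2 := C₁.inv_mem h1
    rwa [commutatorElement_inv] at h2
  set d := t₀ * b₀ * t₀⁻¹ * b₀⁻¹ with hd'
  have hd1 : d ≠ 1 := by
    intro h
    apply hne
    have : t₀ * b₀ * t₀⁻¹ = b₀ := by
      rw [hd'] at h
      exact mul_inv_eq_one.1 h
    calc t₀ * b₀ = t₀ * b₀ * t₀⁻¹ * t₀ := by group
      _ = b₀ * t₀ := by rw [this]
  have hC₁1 : C₁ ≠ ⊥ := fun h => hd1 (Subgroup.mem_bot.1 (h ▸ hd))
  have hPC₁ : P ≤ normalizer (C₁ : Set G) := fun t ht =>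
    mem_normalizer_commutator (hPE ht) (Subgroup.le_normalizer ht)
  obtain ⟨u, hu, hu1, huc⟩ := exists_central_of_normal (hC₁E.trans hEP) hC₁1 hPnil hPC₁
  have huz : u ∈ zpowers z₀ := hZ u (hC₁E hu) (by
    rw [Subgroup.mem_centralizer_iff]
    exact fun w hw => (huc w hw).symm)
  have hz₀C : z₀ ∈ C₁ := by
    have e := S.zpowers_eq_of_mem hz₀ huz hu1
    have : z₀ ∈ zpowers u := e ▸ mem_zpowers z₀
    exact zpowers_le.2 hu this
  have hC₁z : C₁ = zpowers z₀ :=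
    (S.cases_of_le hC₁E hz₀C hz₀1).resolve_left (commutator_ne_self_of_isPGroup hP hEP S.hA1 hp)
  have hdz : d ∈ zpowers z₀ := hC₁z ▸ hd
  have hdE : d ∈ E := hC₁E hd
  have ezd : zpowers d = zpowers z₀ := S.zpowers_eq_of_mem hz₀ hdz hd1
  have hdc : d ∈ centralizer (P : Set G) := (zpowers_le.2 hzc) hdz
  have hbd : b ∉ zpowers d := by rwa [ezd]
  have hsup := S.sup_eq hdE hd1 hb hbd
  have hEc : ∀ x ∈ E, ∀ y ∈ E, x * y = y * x := fun x hx y hy =>
    congrArg Subtype.val (S.hAe.1.is_comm.comm (⟨x, hx⟩ : E) ⟨y, hy⟩)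
  obtain ⟨i, j, hij⟩ := exists_zpow_mul_of_mem_sup (x := d) (y := b) (hEc d hdE b hb) (hsup ▸ hb₀)
  -- the powers of `t₀`
  have hdt : ∀ w ∈ P, d * w = w * d := fun w hw => (Subgroup.mem_centralizer_iff.1 hdc w hw).symm
  have hpow : ∀ n : ℕ, t₀ ^ n * b₀ * (t₀ ^ n)⁻¹ = d ^ n * b₀ := by
    intro n
    induction n with
    | zero => simp
    | succ n ih =>
      have h1 : t₀ * d ^ n = d ^ n * t₀ := ((Commute.pow_left (show Commute d t₀ from hdt t₀ ht₀) n).eq).symm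
      have h2 : t₀ * b₀ * t₀⁻¹ = d * b₀ := by
        rw [hd']
        group
      calc t₀ ^ (n + 1) * b₀ * (t₀ ^ (n + 1))⁻¹ = t₀ * (t₀ ^ n * b₀ * (t₀ ^ n)⁻¹) * t₀⁻¹ := by
            rw [pow_succ']
            group
        _ = t₀ * (d ^ n * b₀) * t₀⁻¹ := by rw [ih]
        _ = d ^ n * (t₀ * b₀ * t₀⁻¹) := by
            rw [← mul_assoc t₀, h1]
            group
        _ = d ^ n * (d * b₀) := by rw [h2]
        _ = d ^ (n + 1) * b₀ := by
            rw [pow_succ]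
            group
  have hm : d ^ (-i) ∈ Submonoid.powers d :=
    mem_powers_iff_mem_zpowers.2 (zpow_mem_zpowers d (-i))
  obtain ⟨n, hn⟩ := hm
  have hn' : d ^ n = d ^ (-i) := hn
  refine ⟨t₀ ^ n, P.pow_mem ht₀ n, ?_, ?_⟩
  · rw [hpow n, hn', hij]
    have : d ^ (-i) * (d ^ i * b ^ j) = b ^ j := by group
    rw [this]
    exact zpow_mem_zpowers b j
  · intro h
    apply hb₀1
    have e : b₀ = (t₀ ^ n)⁻¹ * (t₀ ^ n * b₀ * (t₀ ^ n)⁻¹) * t₀ ^ n := by group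
    rw [e, h]
    group

end E2Setup

namespace Tau2Setup

variable {p : ℕ} [hpf : Fact p.Prime] {A M : Subgroup G} (T : Tau2Setup p A M)

include T

theorem d : sigmaCore M ⊓ centralizer (A : Set G) = ⊥ := T.S.d_core T.hM T.hAM T.hpσ T.hCM

theorem e {H : Subgroup G} (hH : IsCoatom H) (hne : H ≠ M) (hAH : A ≤ H) : sigmaCore M ⊓ H = ⊥ :=
  T.S.e_core T.hM T.hAM T.hpσ T.hC2 T.hCM hH hne hAH

theorem uniq {a : G} (ha : a ∈ A) (hne : sigmaCore M ⊓ centralizer ({a} : Set G) ≠ ⊥)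
    (L : Subgroup G) (hL : IsCoatom L) (hCL : centralizer ({a} : Set G) ≤ L) : L = M := by
  by_contra hLM
  apply hne
  rw [eq_bot_iff, ← T.e hL hLM ((T.S.A_le_cent ha).trans hCL)]
  exact inf_le_inf_left _ hCL

theorem cent_le {a : G} (ha : a ∈ A) (ha1 : a ≠ 1) (hne : sigmaCore M ⊓ centralizer ({a} : Set G) ≠ ⊥) :
    centralizer ({a} : Set G) ≤ M := by
  obtain ⟨L, hL, hCL⟩ := exists_coatom_ge (centralizer_singleton_ne_top T.S.hG ha1)
  rw [← T.uniq ha hne L hL hCL]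
  exact hCL

theorem norm_le {a : G} (ha : a ∈ A) (ha1 : a ≠ 1) (hne : sigmaCore M ⊓ centralizer ({a} : Set G) ≠ ⊥) :
    normalizer ((zpowers a : Subgroup G) : Set G) ≤ M :=
  T.S.norm_le_of_uniq ha ha1 (T.uniq ha hne)

theorem not_norm_le {P : Subgroup G} (hP : IsMaxP p P M) : ¬ normalizer (P : Set G) ≤ M := fun h =>
  T.hpσ (mem_sigma_of_normalizer_le hP (T.S.hdvd.trans (Subgroup.card_dvd_of_le T.hAM)) h)

/-- **(f)**: a line with no fixed points on `M_σ`. -/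
theorem f : ∃ a ∈ A, a ≠ 1 ∧ sigmaCore M ⊓ centralizer ({a} : Set G) = ⊥ := by
  classical
  by_contra hcon
  push Not at hcon
  obtain ⟨P, hP, hAP⟩ := exists_isMaxP_ge T.hAM T.S.hAp
  obtain ⟨g, hg, hgM⟩ := SetLike.not_le_iff_exists.1 (T.not_norm_le hP)
  obtain ⟨z, hz, hz1⟩ := T.S.centerOm_ne_bot hP.isP hAP
  have hzA := T.S.centerOm_le T.hC2 hAP hz
  have hg' := mem_normalizer_centerOm (p := p) hg
  have hz' : g * z * g⁻¹ ∈ A := T.S.centerOm_le T.hC2 hAP ((Subgroup.mem_normalizer_iff.1 hg' z).1 hz)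
  have hz'1 : g * z * g⁻¹ ≠ 1 := by
    intro h
    apply hz1
    have e : z = g⁻¹ * (g * z * g⁻¹) * g := by group
    rw [e, h]
    group
  exact hgM (T.S.conj_mem_of_uniq T.hM (T.cent_le hzA hz1 (hcon z hzA hz1)) (T.uniq hz' (hcon _ hz' hz'1)))

/-- **(a)**: `M_σ` is nilpotent. -/
theorem nil : Group.IsNilpotent (sigmaCore M) := by
  classical
  obtain ⟨a, ha, ha1, hf⟩ := T.f
  haveI : (piCore (sigma M) ↥M).Normal := piCore_normal _ _
  have hk : (⟨a, T.hAM ha⟩ : ↥M) ^ p = 1 := Subtype.ext (T.S.hAe.2 a ha)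
  have h1 := OddChar.nilpotent_of_fpf_element (piCore (sigma M) ↥M) (k := (⟨a, T.hAM ha⟩ : ↥M)) (Fact.out : p.Prime) hk
    (by
      intro h hh hc
      have hc' : a * (h : G) = h * a := congrArg Subtype.val hc
      have h2 : (h : G) ∈ sigmaCore M ⊓ centralizer ({a} : Set G) := by
        exact ⟨⟨h, hh, rfl⟩, mem_centralizer_singleton_iff.2 hc'.symm⟩
      rw [hf] at h2
      exact Subtype.ext (Subgroup.mem_bot.1 h2))
  exact isNilpotent_map_subtype h1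

/-- The lines of a normal `E_{p²}` of `P`, other than the central line, have fixed points on `M_σ`. -/
theorem lines_of_normal {P E : Subgroup G} (hP : IsMaxP p P M) (hEP : E ≤ P) (hPE : P ≤ normalizer (E : Set G))
    (hEe : IsElementaryAbelian p E) (hEc : Nat.card E = p ^ 2) {z₀ : G} (hz₀1 : z₀ ≠ 1)
    (hzc : z₀ ∈ centralizer (P : Set G)) (hz₀p : z₀ ^ p = 1)
    (hZ : ∀ u ∈ P, u ∈ centralizer (P : Set G) → u ^ p = 1 → u ∈ zpowers z₀)
    (hfp : sigmaCore M ⊓ centralizer ({z₀} : Set G) = ⊥) {b : G} (hb : b ∈ E) (hbz : b ∉ zpowers z₀) :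
    sigmaCore M ⊓ centralizer ({b} : Set G) ≠ ⊥ := by
  classical
  have T' : Tau2Setup p E M := Tau2Setup.mk' T.S.hG T.S.huniq T.S.hpl T.hM (hEP.trans hP.le) hEe hEc T.hpσ
  have hz₀E : z₀ ∈ E := (T'.hC2 z₀ (Subgroup.centralizer_le hEP hzc)).1 hz₀p
  haveI := hEe.1
  have hgen := generation_by_centralizers E (sigmaCore M) T'.S.not_cyclic
    ((hEP.trans hP.le).trans (le_normalizer_piCoreOf _ _)) (T'.S.cA_coprime (T'.S.sigmaCore_coprime T.hM T.hpσ))
  have hex : ∃ b₀ ∈ E, b₀ ≠ 1 ∧ sigmaCore M ⊓ centralizer ({b₀} : Set G) ≠ ⊥ := by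
    by_contra hcon
    push Not at hcon
    apply sigmaCore_ne_bot T.S.hG T.S.huniq T.hM
    rw [← hgen]
    simp only [iSup_eq_bot]
    rintro a ⟨ha, ha1⟩
    exact hcon a ha ha1
  obtain ⟨b₀, hb₀, hb₀1, hb₀ne⟩ := hex
  have hb₀z : b₀ ∉ zpowers z₀ := fun h => hb₀ne (by rw [T'.S.cent_eq_of_mem hz₀E h hb₀1]; exact hfp)
  obtain ⟨t, ht, htb, ht1⟩ := T'.S.exists_conj_line hP.isP hEP hPE hz₀E hz₀1 hzc
    (fun u hu huc => hZ u (hEP hu) huc (hEe.2 u hu)) hb₀ hb₀z hb hbz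
  rw [← T'.S.cent_eq_of_mem hb htb ht1]
  obtain ⟨w, hw, hw1⟩ := (Subgroup.bot_or_exists_ne_one _).resolve_left hb₀ne
  intro h
  have htM := hP.le ht
  have hmem : t * w * t⁻¹ ∈ sigmaCore M ⊓ centralizer ({t * b₀ * t⁻¹} : Set G) := by
    refine ⟨(Subgroup.mem_normalizer_iff.1 (le_normalizer_piCoreOf (sigma M) M htM) w).1 hw.1, ?_⟩
    refine mem_centralizer_singleton_iff.2 ?_
    have hc := mem_centralizer_singleton_iff.1 hw.2
    calc t * w * t⁻¹ * (t * b₀ * t⁻¹) = t * (w * b₀) * t⁻¹ := by group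
      _ = t * (b₀ * w) * t⁻¹ := by rw [hc]
      _ = _ := by group
  rw [h] at hmem
  apply hw1
  have e : w = t⁻¹ * (t * w * t⁻¹) * t := by group
  rw [e, Subgroup.mem_bot.1 hmem]
  group

omit T in
theorem _root_.Cfsg.Agent.Lib.FT.exists_normal_sq {P : Subgroup G} {p : ℕ} [Fact p.Prime] (hp2 : p ≠ 2) (hP : IsPGroup p P)
    (hnc : ¬ IsCyclic P) :
    ∃ E : Subgroup G, E ≤ P ∧ P ≤ normalizer (E : Set G) ∧ IsElementaryAbelian p E ∧ Nat.card E = p ^ 2 := by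
  classical
  obtain ⟨E', hn, he, hc⟩ := Cfsg.Agent.Lib.Transfer.exists_normal_elementary_sq hp2 hP hnc
  refine ⟨E'.map P.subtype, Subgroup.map_subtype_le _, ?_, isElementaryAbelian_map _ he, ?_⟩
  · intro t ht
    apply mem_normalizer_of_conj_le
    rintro _ ⟨e, he', rfl⟩ 
    exact ⟨_, hn.conj_mem e he' ⟨t, ht⟩, by simp⟩
  · rw [Subgroup.card_map_of_injective P.subtype_injective, hc]

/-- **(b), the core**: `A` is central in a Sylow subgroup of `M` containing it. -/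
theorem b_core {P : Subgroup G} (hP : IsMaxP p P M) (hAP : A ≤ P) : P ≤ centralizer (A : Set G) := by
  classical
  obtain ⟨z₀, hz₀, hz₀1⟩ := T.S.centerOm_ne_bot hP.isP hAP
  have hZA := T.S.centerOm_le T.hC2 hAP
  rcases T.S.cases_of_le hZA hz₀ hz₀1 with e | e
  · intro w hw
    rw [Subgroup.mem_centralizer_iff]
    intro a ha
    have h1 : a ∈ centerOm P p := e ▸ ha
    exact ((Subgroup.mem_centralizer_iff.1 (mem_centerOm.1 h1).2.1 w hw)).symm
  · exfalso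
    obtain ⟨g, hg, hgM⟩ := SetLike.not_le_iff_exists.1 (T.not_norm_le hP)
    have hg' := mem_normalizer_centerOm (p := p) hg
    rw [e] at hg'
    have hfp : sigmaCore M ⊓ centralizer ({z₀} : Set G) = ⊥ := by
      by_contra h
      exact hgM (T.norm_le (hZA hz₀) hz₀1 h hg')
    obtain ⟨hz₀P, hzc, hz₀p⟩ := mem_centerOm.1 hz₀
    have hZ : ∀ u ∈ P, u ∈ centralizer (P : Set G) → u ^ p = 1 → u ∈ zpowers z₀ := fun u h1 h2 h3 => by
      rw [← e]
      exact mem_centerOm.2 ⟨h1, h2, h3⟩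
    have hnc : ¬ IsCyclic P := fun hc => T.S.not_cyclic
      (isCyclic_of_injective (Subgroup.inclusion hAP) (Subgroup.inclusion_injective hAP))
    obtain ⟨E₀, hE₀P, hPE₀, hE₀e, hE₀c⟩ := exists_normal_sq T.S.hp2 hP.isP hnc
    have ePg : P.map (MulAut.conj g).toMonoidHom = P := (conj_map_eq_iff_mem_normalizer P g).2 hg
    set E₁ := E₀.map (MulAut.conj g).toMonoidHom with hE₁
    have hE₁P : E₁ ≤ P := by
      have := conj_map_mono hE₀P g
      rwa [ePg] at this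
    have hPE₁ : P ≤ normalizer (E₁ : Set G) := by
      rw [hE₁, normalizer_conj_map]
      have := conj_map_mono hPE₀ g
      rwa [ePg] at this
    have hE₁e : IsElementaryAbelian p E₁ := isElementaryAbelian_map _ hE₀e
    have hE₁c : Nat.card E₁ = p ^ 2 := by
      rw [hE₁, Cfsg.Agent.Lib.Coprime.card_conj_map, hE₀c]
    have T₀ : Tau2Setup p E₀ M := Tau2Setup.mk' T.S.hG T.S.huniq T.S.hpl T.hM (hE₀P.trans hP.le) hE₀e hE₀c T.hpσ
    have T₁ : Tau2Setup p E₁ M := Tau2Setup.mk' T.S.hG T.S.huniq T.S.hpl T.hM (hE₁P.trans hP.le) hE₁e hE₁c T.hpσ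
    have hz₀E₀ : z₀ ∈ E₀ := (T₀.hC2 z₀ (Subgroup.centralizer_le hE₀P hzc)).1 hz₀p
    obtain ⟨a, ha, haz⟩ := T₀.S.exists_not_mem z₀ hz₀E₀
    have ha1 : a ≠ 1 := T₀.S.ne_one_of_not_mem haz
    have ha' : g * a * g⁻¹ ∈ E₁ := conj_mem_conj_map E₀ g a ha
    have ha'z : g * a * g⁻¹ ∉ zpowers z₀ := by
      intro h
      apply haz
      have h1 := (Subgroup.mem_normalizer_iff.1 hg' a)
      exact h1.2 h
    have hl₀ := T.lines_of_normal hP hE₀P hPE₀ hE₀e hE₀c hz₀1 hzc hz₀p hZ hfp ha haz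
    have hl₁ := T.lines_of_normal hP hE₁P hPE₁ hE₁e hE₁c hz₀1 hzc hz₀p hZ hfp ha' ha'z
    exact hgM (T.S.conj_mem_of_uniq T.hM (T₀.cent_le ha ha1 hl₀) (T₁.uniq ha' hl₁))

/-- The elements of order dividing `p` of `P` are those of `A`. -/
theorem omega_iff {P : Subgroup G} (hP : IsMaxP p P M) (hAP : A ≤ P) {x : G} (hx : x ∈ P) : x ^ p = 1 ↔ x ∈ A :=
  T.hC2 x (T.b_core hP hAP hx)

theorem norm_P_le_norm_A {P : Subgroup G} (hP : IsMaxP p P M) (hAP : A ≤ P) : normalizer (P : Set G) ≤ normalizer (A : Set G) := by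
  intro g hg
  apply mem_normalizer_of_conj_le
  intro a ha
  have h1 : g * a * g⁻¹ ∈ P := (Subgroup.mem_normalizer_iff.1 hg a).1 (hAP ha)
  refine (T.omega_iff hP hAP h1).1 ?_
  rw [conj_pow, T.S.hAe.2 a ha]
  simp

theorem not_norm_A_le : ¬ normalizer (A : Set G) ≤ M := by
  obtain ⟨P, hP, hAP⟩ := exists_isMaxP_ge T.hAM T.S.hAp
  intro h
  exact T.not_norm_le hP ((T.norm_P_le_norm_A hP hAP).trans h)

/-- Two elements of `A` outside a cyclic subgroup, moved by `g ∈ N(A)` outside it. -/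
theorem exists_conj_not_mem {g y : G} (hg : g ∈ normalizer (A : Set G)) (hy : y ∈ A) :
    ∃ a ∈ A, a ∉ zpowers y ∧ g * a * g⁻¹ ∈ A ∧ g * a * g⁻¹ ∉ zpowers y := by
  have hg' : ∀ x ∈ A, g⁻¹ * x * g ∈ A := fun x hx => by
    have h1 := (Subgroup.mem_normalizer_iff.1 (Subgroup.inv_mem _ hg) x).1 hx
    simpa using h1
  obtain ⟨a, ha, hay, hay'⟩ := T.S.exists_not_mem₂ y (g⁻¹ * y * g) hy (hg' y hy)
  have ha'A : g * a * g⁻¹ ∈ A := (Subgroup.mem_normalizer_iff.1 hg a).1 ha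
  refine ⟨a, ha, hay, ha'A, ?_⟩
  intro h
  apply hay'
  obtain ⟨k, hk⟩ := Subgroup.mem_zpowers_iff.1 h
  refine Subgroup.mem_zpowers_iff.2 ⟨k, ?_⟩
  have hc : (g⁻¹ * y * g) ^ k = g⁻¹ * y ^ k * g := by
    have := conj_zpow (a := g⁻¹) (b := y) (i := k)
    simpa using this
  rw [hc, hk]
  group

/-- Two lines with no fixed points on `M_σ`. -/
theorem two_lines : ∃ a₁ ∈ A, a₁ ≠ 1 ∧ sigmaCore M ⊓ centralizer ({a₁} : Set G) = ⊥ ∧
    ∃ a₂ ∈ A, a₂ ∉ zpowers a₁ ∧ sigmaCore M ⊓ centralizer ({a₂} : Set G) = ⊥ := by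
  classical
  obtain ⟨a₁, ha₁, ha₁1, hf⟩ := T.f
  refine ⟨a₁, ha₁, ha₁1, hf, ?_⟩
  by_contra hcon
  push Not at hcon
  obtain ⟨g, hg, hgM⟩ := SetLike.not_le_iff_exists.1 T.not_norm_A_le
  obtain ⟨a, ha, hay, ha', ha'y⟩ := T.exists_conj_not_mem hg ha₁
  exact hgM (T.S.conj_mem_of_uniq T.hM (T.cent_le ha (T.S.ne_one_of_not_mem hay) (hcon a ha hay))
    (T.uniq ha' (hcon _ ha' ha'y)))

end Tau2Setup

end Cfsg.Agent.Lib.FT
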