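import Cfsg.Agent.Lib.FT.BG11j

/-!
BG section 12: `A` centralizes every `A`-invariant `r`-subgroup of `O_{p'}(M)` with `r ∉ σ(M)`; the subgroup
`M_σ A` is normal in `M`.
-/

set_option autoImplicit false
set_option linter.unusedSectionVars false
set_option linter.style.haveILetI false

namespace Cfsg.Agent.Lib.FT

open Subgroup Cfsg Cfsg.Agent.Lib.OddLocal Cfsg.Agent.Lib.Basic

open scoped commutatorElement Pointwise

open Cfsg.Agent.Lib.Coprime (mem_conj_map conj_mem_conj_map conj_map_conj_map conj_map_one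
  conj_map_mono mem_normalizer_of_conj_le conj_map_eq_iff_mem_normalizer)

variable {G : Type*} [Group G] [Finite G]

/-- The normal `r`-complement of a subgroup, as a subgroup of `G`. -/
theorem exists_complement_core {K : Subgroup G} {r : ℕ} [Fact r.Prime] (h : HasNormalPComplement r ↥K) :
    ∃ Y : Subgroup G, Y ≤ K ∧ K ≤ normalizer (Y : Set G) ∧ (Nat.card Y).Coprime r ∧
      ∀ x ∈ K, (orderOf x).Coprime r → x ∈ Y := by
  classical
  obtain ⟨P, N, hN, hc⟩ := h
  have hcardN : Nat.card N = (P : Subgroup K).index := hc.index_eq_card.symm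
  have hNc : (Nat.card N).Coprime r := by
    rw [hcardN, Nat.coprime_comm, Nat.Prime.coprime_iff_not_dvd Fact.out]
    exact P.not_dvd_index
  obtain ⟨k, hk⟩ := IsPGroup.iff_card.1 P.isPGroup'
  have hNidx : N.index = r ^ k := by
    rw [← hk]
    exact hc.symm.index_eq_card
  refine ⟨N.map K.subtype, Subgroup.map_subtype_le _, ?_, ?_, ?_⟩
  · intro t ht
    apply mem_normalizer_of_conj_le
    rintro _ ⟨e, he, rfl⟩
    exact ⟨_, hN.conj_mem e he ⟨t, ht⟩, by simp⟩
  · rwa [Subgroup.card_map_of_injective K.subtype_injective]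
  · intro x hx hxc
    have hm : (⟨x, hx⟩ : ↥K) ∈ N := by
      rw [← QuotientGroup.eq_one_iff]
      have h1 : orderOf (((⟨x, hx⟩ : ↥K) : ↥K ⧸ N)) ∣ r ^ k := by
        rw [← hNidx, Subgroup.index_eq_card]
        exact orderOf_dvd_natCard _
      have h2 : orderOf (((⟨x, hx⟩ : ↥K) : ↥K ⧸ N)) ∣ orderOf x := by
        have := orderOf_map_dvd (QuotientGroup.mk' N) (⟨x, hx⟩ : ↥K)
        rwa [Subgroup.orderOf_mk] at this
      have h3 : (orderOf x).Coprime (r ^ k) := Nat.Coprime.pow_right k hxc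
      exact orderOf_eq_one_iff.1 (Nat.eq_one_of_dvd_coprimes h3 h2 h1)
    exact ⟨_, hm, rfl⟩

theorem not_mem_beta_of_not_ideal {M : Subgroup G} {r : ℕ} (h : ¬ IsIdealPrime r G) : r ∉ beta M := fun hr => h hr.2

namespace Tau2Setup

variable {p : ℕ} [hpf : Fact p.Prime] {A M : Subgroup G} (T : Tau2Setup p A M)

include T

/-- The key lemma, noncyclic case. -/
theorem key_noncyclic {r : ℕ} [Fact r.Prime] (hrp : r ≠ p) (hrσ : r ∉ sigma M) {R : Subgroup G} (hR : IsMaxP r R M)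
    (hAR : A ≤ normalizer (R : Set G)) (hnc : ¬ IsCyclic R) : R ≤ centralizer (A : Set G) := by
  classical
  by_contra hcon
  have hS := T.S
  have hrr : r.Prime := Fact.out
  have hR1 : R ≠ ⊥ := by
    rintro rfl
    exact hnc inferInstance
  have hrR : r ∣ Nat.card R := by
    obtain ⟨n, hn⟩ := IsPGroup.iff_card.1 hR.isP
    rw [hn]
    refine dvd_pow_self r ?_
    rintro rfl
    rw [pow_zero] at hn
    exact hR1 ((Subgroup.card_eq_one).1 hn)
  have hrd : r ∣ Nat.card M := hrR.trans (Subgroup.card_dvd_of_le hR.le)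
  have hnN : ¬ normalizer (R : Set G) ≤ M := fun h => hrσ (mem_sigma_of_normalizer_le hR hrd h)
  have hRtop : R ≠ ⊤ := fun h => T.hM.1 (top_le_iff.1 (h ▸ hR.le))
  obtain ⟨H, hH, hNH⟩ := exists_coatom_ge (IsMinSimpleOddOrder.normalizer_ne_top hS.hG hR1 hRtop)
  have hHM : H ≠ M := fun e => hnN (e ▸ hNH)
  have hAH : A ≤ H := hAR.trans hNH
  have hRH : R ≤ H := Subgroup.le_normalizer.trans hNH
  have hr2 : r ≠ 2 := prime_odd hS.hG hrr (hrd.trans (Subgroup.card_subgroup_dvd_card M))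
  obtain ⟨B, hBR, hRB, hBe, hBc⟩ := exists_normal_sq hr2 hR.isP hnc
  have hrank2 := prank_of_not_sigma hS.hG hS.huniq T.hM hrσ
  have hrank1 : ¬ PRankLE r 1 ↥M := not_prank_of_card hBe (hBR.trans hR.le) (by
    rw [hBc]
    exact Nat.pow_lt_pow_right hrr.one_lt (by norm_num))
  have hnideal : ¬ IsIdealPrime r G := (s1408_core hS.hG hS.huniq T.hM hrank2 hrank1).1
  by_cases hpH : p ∈ sigma H
  · -- the case `p ∈ σ(H)`
    have hcop : (Nat.card A).Coprime (Nat.card R) := hS.cA_coprime (hS.coprime_of_isPGroup hrp hR.isP)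
    have hT₁ : ⁅R, A⁆ ≠ ⊥ := fun h => hcon (Subgroup.commutator_eq_bot_iff_le_centralizer.1 h)
    have hT₂ := coprime_commutator_commutator hAR hcop (Or.inl hS.hAsolv)
    have hT₁R : ⁅R, A⁆ ≤ R := commutator_le_of_le_normalizer hAR
    have hAσ : A ≤ sigmaCore H := le_sigmaCore_of_isPGroup hS.hG hS.huniq hH hpH hS.hAp hAH
    have hnorm : ∀ h ∈ H, h ∈ normalizer (sigmaCore H : Set G) := fun h hh => le_normalizer_piCoreOf (sigma H) H hh
    have hT₁σ : ⁅R, A⁆ ≤ sigmaCore H := by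
      rw [← hT₂, Subgroup.commutator_le]
      intro t ht a ha
      rw [commutatorElement_def]
      exact (sigmaCore H).mul_mem ((Subgroup.mem_normalizer_iff.1 (hnorm t (hRH (hT₁R ht))) a).1 (hAσ ha))
        ((sigmaCore H).inv_mem (hAσ ha))
    have hT₁p : IsPGroup r ↥⁅R, A⁆ := hR.isP.to_le hT₁R
    have hrT : r ∣ Nat.card ↥⁅R, A⁆ := by
      obtain ⟨n, hn⟩ := IsPGroup.iff_card.1 hT₁p
      rw [hn]
      refine dvd_pow_self r ?_
      rintro rfl
      rw [pow_zero] at hn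
      exact hT₁ ((Subgroup.card_eq_one).1 hn)
    have hnc₂ := (s1414_core hS.hG hS.huniq hH (fun q _ _ => hS.hpl q H hH.1)).2.2.2.2 r hrr
      (hrR.trans (Subgroup.card_dvd_of_le hRH)) (not_mem_beta_of_not_ideal hnideal)
    obtain ⟨Y, hYK, hKY, hYc, hYm⟩ := exists_complement_core hnc₂.2.1
    have hAY : A ≤ Y := by
      intro a ha
      refine hYm a (hAσ ha) ?_
      have h1 := orderOf_dvd_of_pow_eq_one (hS.hAe.2 a ha)
      have h2 : p.Coprime r := (Nat.coprime_primes Fact.out hrr).2 (Ne.symm hrp)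
      exact Nat.Coprime.coprime_dvd_left h1 h2
    have hT₁Y : ⁅R, A⁆ ≤ Y := by
      rw [← hT₂, Subgroup.commutator_le]
      intro t ht a ha
      rw [commutatorElement_def]
      exact Y.mul_mem ((Subgroup.mem_normalizer_iff.1 (hKY (hT₁σ ht)) a).1 (hAY ha)) (Y.inv_mem (hAY ha))
    have h3 : r ∣ Nat.card Y := hrT.trans (Subgroup.card_dvd_of_le hT₁Y)
    exact (Nat.Prime.coprime_iff_not_dvd hrr).1 hYc.symm h3
  · -- the case `p ∉ σ(H)`
    have TH : Tau2Setup p A H := Tau2Setup.mk' hS.hG hS.huniq hS.hpl hH hAH hS.hAe hS.hAc hpH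
    have hrH : r ∉ sigma H := by
      intro hrH
      have h1 := le_sigmaCore_of_isPGroup hS.hG hS.huniq hH hrH hR.isP hRH
      have h2 := TH.e T.hM (Ne.symm hHM) T.hAM
      exact hR1 (le_bot_iff.1 (h2 ▸ le_inf h1 hR.le))
    have TB : Tau2Setup r B H := Tau2Setup.mk' hS.hG hS.huniq hS.hpl hH (hBR.trans hRH) hBe hBc hrH
    obtain ⟨R', hR', hRR'⟩ := exists_isMaxP_ge hRH hR.isP
    have h1 := TB.b_core hR' (hBR.trans hRR')
    have hCB : centralizer (B : Set G) ≤ M :=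
      (s1416_core hS.hG hS.huniq hS.hpl M T.hM r B ⟨hBR.trans hR.le, hBe, hBc⟩).1
    have e := hR.max R' (h1.trans hCB) hR'.isP hRR'
    rw [e] at hR'
    exact hrH (mem_sigma_of_normalizer_le hR' (hrR.trans (Subgroup.card_dvd_of_le hRH)) hNH)

/-- The key lemma, cyclic case. -/
theorem key_cyclic {r : ℕ} [Fact r.Prime] (hrp : r ≠ p) (hrσ : r ∉ sigma M) {R : Subgroup G} (hR : IsMaxP r R M)
    (hAR : A ≤ normalizer (R : Set G)) (hc : IsCyclic R) : R ≤ centralizer (A : Set G) := by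
  classical
  by_contra hcon
  have hS := T.S
  have hrr : r.Prime := Fact.out
  have hR1 : R ≠ ⊥ := by
    rintro rfl
    apply hcon
    exact bot_le
  have hrR : r ∣ Nat.card R := by
    obtain ⟨n, hn⟩ := IsPGroup.iff_card.1 hR.isP
    rw [hn]
    refine dvd_pow_self r ?_
    rintro rfl
    rw [pow_zero] at hn
    exact hR1 ((Subgroup.card_eq_one).1 hn)
  have hrd : r ∣ Nat.card M := hrR.trans (Subgroup.card_dvd_of_le hR.le)
  have hnN : ¬ normalizer (R : Set G) ≤ M := fun h => hrσ (mem_sigma_of_normalizer_le hR hrd h)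
  have hRtop : R ≠ ⊤ := fun h => T.hM.1 (top_le_iff.1 (h ▸ hR.le))
  obtain ⟨H, hH, hNH⟩ := exists_coatom_ge (IsMinSimpleOddOrder.normalizer_ne_top hS.hG hR1 hRtop)
  have hHM : H ≠ M := fun e => hnN (e ▸ hNH)
  have hAH : A ≤ H := hAR.trans hNH
  -- a line with no fixed points on `M_σ`, not centralizing `R`
  have hex : ∃ a ∈ A, a ≠ 1 ∧ sigmaCore M ⊓ centralizer ({a} : Set G) = ⊥ ∧ ¬ R ≤ centralizer ({a} : Set G) := by
    obtain ⟨a₁, ha₁, ha₁1, hf₁, a₂, ha₂, ha₂1, hf₂⟩ := T.two_lines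
    by_cases h₁ : R ≤ centralizer ({a₁} : Set G)
    · by_cases h₂ : R ≤ centralizer ({a₂} : Set G)
      · exact absurd (le_inf h₁ h₂ |>.trans (hS.cent_inf_le ha₁ ha₁1 ha₂ ha₂1)) hcon
      · exact ⟨a₂, ha₂, hS.ne_one_of_not_mem ha₂1, hf₂, h₂⟩
    · exact ⟨a₁, ha₁, ha₁1, hf₁, h₁⟩
  obtain ⟨a, ha, ha1, hf, hnc⟩ := hex
  -- `a` has no fixed points on `R`
  have hRf : R ⊓ centralizer ({a} : Set G) = ⊥ := by
    haveI : IsMulCommutative R := by
      haveI := hc
      exact ⟨⟨fun x y => by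
        obtain ⟨g, hg⟩ := IsCyclic.exists_generator (α := R)
        obtain ⟨i, hi⟩ := Subgroup.mem_zpowers_iff.1 (hg x)
        obtain ⟨j, hj⟩ := Subgroup.mem_zpowers_iff.1 (hg y)
        rw [← hi, ← hj]
        exact ((Commute.refl g).zpow_zpow i j).eq⟩⟩
    have hza : zpowers a ≤ normalizer (R : Set G) := zpowers_le.2 (hAR ha)
    have hcopa : (Nat.card (zpowers a)).Coprime (Nat.card R) := by
      have h1 : (Nat.card R).Coprime p := hS.coprime_of_isPGroup hrp hR.isP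
      rw [Nat.card_zpowers, hS.ord ha ha1]
      exact h1.symm
    obtain ⟨h1, h2⟩ := coprime_fitting_decomposition hza hcopa
    rw [centralizer_zpowers_eq] at h1 h2
    by_contra hne
    have hV1 : ⁅R, zpowers a⁆ ≠ ⊥ := by
      intro h
      apply hnc
      have := Subgroup.commutator_eq_bot_iff_le_centralizer.1 h
      rwa [centralizer_zpowers_eq] at this
    have hVR : ⁅R, zpowers a⁆ ≤ R := commutator_le_of_le_normalizer hza
    obtain ⟨v, hv, hv1, hvr⟩ := exists_order_p_of_ne_bot r (hR.isP.to_le hVR) hV1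
    obtain ⟨w, hw, hw1, hwr⟩ := exists_order_p_of_ne_bot r (hR.isP.to_le inf_le_left) hne
    have hwv : w ∈ zpowers v := mem_zpowers_of_cyclic hc (hVR hv) hw.1 hv1 hvr hwr
    have hw2 : w ∈ ⁅R, zpowers a⁆ := zpowers_le.2 hv hwv
    have h3 : w ∈ (R ⊓ centralizer ({a} : Set G)) ⊓ ⁅R, zpowers a⁆ := ⟨hw, hw2⟩
    rw [h1] at h3
    exact hw1 (Subgroup.mem_bot.1 h3)
  -- `R` centralizes `M_σ`
  have hord : (orderOf a).Prime := by
    rw [hS.ord ha ha1]
    exact Fact.out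
  have hRM : R ≤ normalizer (sigmaCore M : Set G) := hR.le.trans (le_normalizer_piCoreOf _ _)
  have hcopσ : (Nat.card (sigmaCore M)).Coprime (Nat.card ↥(R ⊔ zpowers a)) := by
    have hr' : (Nat.card (sigmaCore M)).Coprime r := by
      rw [Nat.coprime_comm, Nat.Prime.coprime_iff_not_dvd hrr]
      exact fun h => hrσ ((s1350_core hS.hG hS.huniq T.hM).1.2.1 r hrr h)
    have hp' : (Nat.card (sigmaCore M)).Coprime p := hS.sigmaCore_coprime T.hM T.hpσ
    have hsup : (Nat.card ↥(R ⊔ zpowers a)).Coprime (Nat.card (sigmaCore M)) := by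
      refine coprime_card_sup (zpowers_le.2 (hAR ha)) ?_ ?_
      · obtain ⟨n, hn⟩ := IsPGroup.iff_card.1 hR.isP
        rw [hn]
        exact Nat.Coprime.pow_left n hr'.symm
      · rw [Nat.card_zpowers, hS.ord ha ha1]
        exact hp'.symm
    exact hsup.symm
  have hsolvσ : Group.IsSolvable (sigmaCore M) := by
    haveI := T.nil
    infer_instance
  have hσC : sigmaCore M ≤ centralizer (R : Set G) := by
    have h1 := frob_fixed R (sigmaCore M) a hord (hAR ha) hRf hRM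
      ((le_normalizer_piCoreOf (sigma M) M) (T.hAM ha)) hsolvσ hcopσ (by rw [hf]; exact bot_le)
    exact h1
  have hσH : sigmaCore M ≤ H := hσC.trans ((centralizer_le_normalizer' _).trans hNH)
  have h4 := T.e hH hHM hAH
  rw [inf_eq_left.2 hσH] at h4
  exact sigmaCore_ne_bot hS.hG hS.huniq T.hM h4

theorem key_sylow {r : ℕ} [Fact r.Prime] (hrp : r ≠ p) (hrσ : r ∉ sigma M) {R : Subgroup G} (hR : IsMaxP r R M)
    (hAR : A ≤ normalizer (R : Set G)) : R ≤ centralizer (A : Set G) := by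
  by_cases hc : IsCyclic R
  · exact T.key_cyclic hrp hrσ hR hAR hc
  · exact T.key_noncyclic hrp hrσ hR hAR hc

omit T in
theorem _root_.Cfsg.Agent.Lib.FT.le_Oq'_of_isPGroup {M D : Subgroup G} {r q : ℕ} [Fact q.Prime] (hidx : ¬ q ∣ (pPrimeCore r ↥M).index)
    (hDM : D ≤ M) (hD : IsPGroup q D) : D ≤ Oq' r M := by
  have hidx' : (pPrimeCore r ↥M).index.Coprime q := ((Nat.Prime.coprime_iff_not_dvd Fact.out).2 hidx).symm
  have hT : IsPGroup q (D.subgroupOf M) := by
    intro x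
    obtain ⟨k, hk⟩ := hD ⟨((x : ↥M) : G), x.2⟩
    exact ⟨k, by
      apply Subtype.ext
      apply Subtype.ext
      simpa using congrArg Subtype.val hk⟩
  have h3 := isPGroup_le_of_index_coprime hidx' hT
  intro x hx
  exact ⟨⟨x, hDM hx⟩, h3 (Subgroup.mem_subgroupOf.2 hx), rfl⟩

omit T in
theorem _root_.Cfsg.Agent.Lib.FT.eq_bot_of_isPGroup_of_coprime {X Y : Subgroup G} {r : ℕ} [Fact r.Prime] (hX : IsPGroup r X) (hXY : X ≤ Y)
    (hY : (Nat.card Y).Coprime r) : X = ⊥ := by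
  obtain ⟨n, hn⟩ := IsPGroup.iff_card.1 hX
  have hd : Nat.card X ∣ Nat.card Y := Subgroup.card_dvd_of_le hXY
  have h1 : (Nat.card X).Coprime r := Nat.Coprime.coprime_dvd_left hd hY
  rw [hn] at h1
  have h2 : n = 0 := by
    by_contra h0
    have := (Nat.Prime.coprime_iff_not_dvd (Fact.out : r.Prime)).1 h1.symm
    exact this (dvd_pow_self r h0)
  rw [h2, pow_zero] at hn
  exact (Subgroup.card_eq_one).1 hn

theorem not_dvd_index_of_gt {r q : ℕ} (hr : r.Prime) (hrβ : r ∉ beta M) (hrd : r ∣ Nat.card M) (hq : q.Prime) (hqr : r < q) :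
    ¬ q ∣ (pPrimeCore r ↥M).index := fun h =>
  absurd (((s1414_core T.S.hG T.S.huniq T.hM (fun q _ _ => T.S.hpl q M T.hM.1)).2.2.2.2 r hr hrd hrβ).2.2 q hq h) (not_le.2 hqr)

/-- `A` centralizes each `A`-invariant `r`-subgroup of `O_{p'}(M)`, for `r ∉ σ(M)`. -/
theorem comm_of_sub {r : ℕ} [Fact r.Prime] (hrp : r ≠ p) (hrσ : r ∉ sigma M) {S : Subgroup G} (hSN : S ≤ Oq' p M)
    (hS : IsPGroup r S) (hAS : A ≤ normalizer (S : Set G)) : S ≤ centralizer (A : Set G) := by
  classical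
  by_cases hS1 : S = ⊥
  · subst hS1
    exact bot_le
  have hrr : r.Prime := Fact.out
  have hrS : r ∣ Nat.card S := by
    obtain ⟨n, hn⟩ := IsPGroup.iff_card.1 hS
    rw [hn]
    refine dvd_pow_self r ?_
    rintro rfl
    rw [pow_zero] at hn
    exact hS1 ((Subgroup.card_eq_one).1 hn)
  have hSM : S ≤ M := hSN.trans (Oq'_le p M)
  have hrd : r ∣ Nat.card M := hrS.trans (Subgroup.card_dvd_of_le hSM)
  rcases lt_or_gt_of_ne hrp with hlt | hgt
  · have hrβ : r ∉ beta M := fun h => hrσ (alpha_sub_sigma T.S.hG T.S.huniq T.hM h.1)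
    have hidx := T.not_dvd_index_of_gt hrr hrβ hrd (Fact.out : p.Prime) hlt
    have hAO : A ≤ Oq' r M := le_Oq'_of_isPGroup hidx T.hAM T.S.hAp
    have hT : ⁅S, A⁆ ≤ S := commutator_le_of_le_normalizer hAS
    have hT2 : ⁅S, A⁆ ≤ Oq' r M := by
      rw [Subgroup.commutator_le]
      intro s hs a ha
      rw [commutatorElement_def]
      exact (Oq' r M).mul_mem ((Subgroup.mem_normalizer_iff.1 (le_normalizer_Oq' r M (hSM hs)) a).1 (hAO ha))
        ((Oq' r M).inv_mem (hAO ha))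
    exact Subgroup.commutator_eq_bot_iff_le_centralizer.1
      (eq_bot_of_isPGroup_of_coprime (hS.to_le hT) hT2 (Oq'_card_coprime r M))
  · have hAN : A ≤ normalizer (Oq' p M : Set G) := T.hAM.trans (le_normalizer_Oq' p M)
    have hcop := T.S.cA_coprime (Oq'_card_coprime p M)
    obtain ⟨P₀, hSP, hAP⟩ := exists_invariant_sylow_ge hAN hcop (Or.inl T.S.hAsolv) r S hSN hS hAS
    have hPN := isMaxP_map P₀
    have hpβ : p ∉ beta M := fun h => T.hpσ (alpha_sub_sigma T.S.hG T.S.huniq T.hM h.1)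
    have hidx := T.not_dvd_index_of_gt (Fact.out : p.Prime) hpβ (T.S.hdvd.trans (Subgroup.card_dvd_of_le T.hAM)) hrr hgt
    have hPM : IsMaxP r ((P₀ : Subgroup ↥(Oq' p M)).map (Oq' p M).subtype) M :=
      ⟨hPN.le.trans (Oq'_le p M), hPN.isP, fun D' h1 h2 h3 => hPN.max D' (le_Oq'_of_isPGroup hidx h1 h2) h2 h3⟩
    exact hSP.trans (T.key_sylow hrp hrσ hPM hAP)

/-- `[O_{p'}(M), A] ≤ M_σ`. -/
theorem comm_mod_sigma {n a : G} (hn : n ∈ Oq' p M) (ha : a ∈ A) : n * a * n⁻¹ * a⁻¹ ∈ sigmaCore M := by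
  classical
  have hnorm : ∀ m ∈ M, m ∈ normalizer (sigmaCore M : Set G) := fun m hm => le_normalizer_piCoreOf (sigma M) M hm
  let K₀ : Subgroup ↥(Oq' p M) :=
    { carrier := {x | ∀ a ∈ A, (x : G) * a * (x : G)⁻¹ * a⁻¹ ∈ sigmaCore M}
      mul_mem' := by
        intro x y hx hy a ha
        have hxM := Oq'_le p M x.2
        have h1 := (Subgroup.mem_normalizer_iff.1 (hnorm x hxM) _).1 (hy a ha)
        have h2 := (sigmaCore M).mul_mem h1 (hx a ha)
        have e : (((x * y : ↥(Oq' p M))) : G) * a * ((x * y : ↥(Oq' p M)) : G)⁻¹ * a⁻¹ =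
            (x : G) * ((y : G) * a * (y : G)⁻¹ * a⁻¹) * (x : G)⁻¹ * ((x : G) * a * (x : G)⁻¹ * a⁻¹) := by
          simp only [Subgroup.coe_mul]
          group
        rw [e]
        exact h2
      one_mem' := by
        intro a _
        simp
      inv_mem' := by
        intro x hx a ha
        have hxM := Oq'_le p M x.2
        have h1 := (Subgroup.mem_normalizer_iff.1 (hnorm (x⁻¹ : ↥(Oq' p M)) (Oq'_le p M (x⁻¹ : ↥(Oq' p M)).2)) _).1
          ((sigmaCore M).inv_mem (hx a ha))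
        have e : ((x⁻¹ : ↥(Oq' p M)) : G) * a * ((x⁻¹ : ↥(Oq' p M)) : G)⁻¹ * a⁻¹ =
            ((x⁻¹ : ↥(Oq' p M)) : G) * ((x : G) * a * (x : G)⁻¹ * a⁻¹)⁻¹ * ((x⁻¹ : ↥(Oq' p M)) : G)⁻¹ := by
          simp only [Subgroup.coe_inv]
          group
        rw [e]
        exact h1 }
  have htop : K₀ = ⊤ := by
    refine eq_top_of_forall_exists_sylow_le fun r _ => ?_
    have hAN : A ≤ normalizer (Oq' p M : Set G) := T.hAM.trans (le_normalizer_Oq' p M)
    have hcop := T.S.cA_coprime (Oq'_card_coprime p M)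
    obtain ⟨P₀, hAP⟩ := exists_invariant_sylow hAN hcop (Or.inl T.S.hAsolv) r
    refine ⟨P₀, ?_⟩
    have hPN := isMaxP_map P₀
    intro x hx b hb
    have hxP : (x : G) ∈ (P₀ : Subgroup ↥(Oq' p M)).map (Oq' p M).subtype := ⟨x, hx, rfl⟩
    have hxM : (x : G) ∈ M := Oq'_le p M x.2
    by_cases hrσ : r ∈ sigma M
    · have h1 : (x : G) ∈ sigmaCore M :=
        le_sigmaCore_of_isPGroup T.S.hG T.S.huniq T.hM hrσ hPN.isP (hPN.le.trans (Oq'_le p M)) hxP
      have h2 := (Subgroup.mem_normalizer_iff.1 (hnorm b (T.hAM hb)) _).1 ((sigmaCore M).inv_mem h1)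
      have e : (x : G) * b * (x : G)⁻¹ * b⁻¹ = (x : G) * (b * (x : G)⁻¹ * b⁻¹) := by group
      rw [e]
      exact (sigmaCore M).mul_mem h1 h2
    · by_cases hrp : r = p
      · have h1 := eq_bot_of_isPGroup_of_coprime hPN.isP hPN.le (by
          rw [hrp]
          exact Oq'_card_coprime p M)
        rw [h1] at hxP
        rw [Subgroup.mem_bot.1 hxP]
        simp
      · have h1 := T.comm_of_sub hrp hrσ hPN.le hPN.isP hAP hxP
        have h2 := Subgroup.mem_centralizer_iff.1 h1 b hb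
        have e : (x : G) * b * (x : G)⁻¹ * b⁻¹ = 1 := by
          rw [← h2]
          group
        rw [e]
        exact one_mem _
  have hmem : (⟨n, hn⟩ : ↥(Oq' p M)) ∈ K₀ := by
    rw [htop]
    trivial
  exact hmem a ha

/-- **(c)**, at the level of elements. -/
theorem c_elem {m a : G} (hm : m ∈ M) (ha : a ∈ A) : ∃ u ∈ sigmaCore M, ∃ a' ∈ A, m * a * m⁻¹ = u * a' := by
  classical
  obtain ⟨P, hP, hAP⟩ := exists_isMaxP_ge T.hAM T.S.hAp
  obtain ⟨n, hn, m', hm', e⟩ := frattini_Oq' hP (T.S.hpl p M T.hM.1) hm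
  have ha' : m' * a * m'⁻¹ ∈ A := (Subgroup.mem_normalizer_iff.1 (T.norm_P_le_norm_A hP hAP hm'.2) a).1 ha
  refine ⟨_, T.comm_mod_sigma hn ha', _, ha', ?_⟩
  rw [e]
  group

/-- **(c)**: `M` normalizes `M_σ A`. -/
theorem c_core : M ≤ normalizer ((sigmaCore M ⊔ A : Subgroup G) : Set G) := by
  classical
  intro m hm
  have hmσ : m ∈ normalizer (sigmaCore M : Set G) := le_normalizer_piCoreOf (sigma M) M hm
  have key : (sigmaCore M ⊔ A).map (MulAut.conj m).toMonoidHom ≤ sigmaCore M ⊔ A := by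
    rw [Subgroup.map_sup]
    refine sup_le ?_ ?_
    · rw [(conj_map_eq_iff_mem_normalizer _ m).2 hmσ]
      exact le_sup_left
    · rintro _ ⟨a, ha, rfl⟩
      obtain ⟨u, hu, a', ha', e⟩ := T.c_elem hm ha
      have e' : (MulAut.conj m).toMonoidHom a = u * a' := by
        simpa [MulAut.conj_apply] using e
      rw [e']
      exact Subgroup.mul_mem_sup hu ha'
  apply mem_normalizer_of_conj_le
  intro x hx
  exact key ⟨x, hx, by simp [MulAut.conj_apply]⟩

/-- `E` normalizes `A`, when `A ≤ E`. -/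
theorem compl_le_normalizer {E : Subgroup G} (hE : IsComplIn E (sigmaCore M) M) (hAE : A ≤ E) :
    E ≤ normalizer (A : Set G) := by
  classical
  intro e he
  apply mem_normalizer_of_conj_le
  intro a ha
  obtain ⟨u, hu, a', ha', h⟩ := T.c_elem (hE.1 he) ha
  have h1 : u = e * a * e⁻¹ * a'⁻¹ := by
    rw [h]
    group
  have h2 : u ∈ E ⊓ sigmaCore M := ⟨by
    rw [h1]
    exact E.mul_mem (E.mul_mem (E.mul_mem he (hAE ha)) (E.inv_mem he)) (E.inv_mem (hAE ha')), hu⟩
  rw [hE.2.2.1, Subgroup.mem_bot] at h2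
  rw [h, h2, one_mul]
  exact ha'

/-- `A ∩ M_σ = 1`. -/
theorem inf_sigmaCore : A ⊓ sigmaCore M = ⊥ :=
  eq_bot_of_isPGroup_of_coprime (T.S.hAp.to_le inf_le_left) inf_le_right (T.S.sigmaCore_coprime T.hM T.hpσ)

/-- The subgroups of order `p` of `E` lie in `A`. -/
theorem order_p_le {E X : Subgroup G} (hE : IsComplIn E (sigmaCore M) M) (hAE : A ≤ E) (hXE : X ≤ E) (hX : Nat.card X = p) :
    X ≤ A := by
  classical
  have hXp : IsPGroup p X := IsPGroup.of_card (n := 1) (by simpa using hX)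
  have hsup : IsPGroup p ↥(X ⊔ A) := hXp.to_sup_of_normal_right' T.S.hAp (hXE.trans (T.compl_le_normalizer hE hAE))
  have hM' : X ⊔ A ≤ M := sup_le (hXE.trans hE.1) T.hAM
  obtain ⟨P, hP, hle⟩ := exists_isMaxP_ge hM' hsup
  have hAP : A ≤ P := le_sup_right.trans hle
  intro x hx
  refine (T.omega_iff hP hAP ((le_sup_left.trans hle) hx)).1 ?_
  have := Subgroup.orderOf_dvd_natCard X hx
  rw [hX] at this
  exact orderOf_dvd_iff_pow_eq_one.1 this

/-- `M ∩ N(A) = E`, when `A ≤ E`. -/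
theorem inf_normalizer_eq {E : Subgroup G} (hE : IsComplIn E (sigmaCore M) M) (hAE : A ≤ E) :
    M ⊓ normalizer (A : Set G) = E := by
  classical
  refine le_antisymm ?_ (le_inf hE.1 (T.compl_le_normalizer hE hAE))
  rintro m ⟨hm, hmN⟩
  obtain ⟨e, he, u, hu, rfl⟩ := hE.2.2.2 m hm
  have heN := T.compl_le_normalizer hE hAE he
  have huN : u ∈ normalizer (A : Set G) := by
    have := (normalizer (A : Set G)).mul_mem ((normalizer (A : Set G)).inv_mem heN) hmN
    simpa using this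
  have huC : u ∈ centralizer (A : Set G) := by
    rw [Subgroup.mem_centralizer_iff]
    intro a ha
    have h1 : u * a * u⁻¹ * a⁻¹ ∈ A := A.mul_mem ((Subgroup.mem_normalizer_iff.1 huN a).1 ha) (A.inv_mem ha)
    have h2 : u * a * u⁻¹ * a⁻¹ ∈ sigmaCore M := by
      have h3 := (Subgroup.mem_normalizer_iff.1 (le_normalizer_piCoreOf (sigma M) M (T.hAM ha)) _).1
        ((sigmaCore M).inv_mem hu)
      have e : u * a * u⁻¹ * a⁻¹ = u * (a * u⁻¹ * a⁻¹) := by group
      rw [e]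
      exact (sigmaCore M).mul_mem hu h3
    have h4 : u * a * u⁻¹ * a⁻¹ ∈ A ⊓ sigmaCore M := ⟨h1, h2⟩
    rw [T.inf_sigmaCore, Subgroup.mem_bot] at h4
    have h5 : u * a * u⁻¹ = a := mul_inv_eq_one.1 h4
    calc a * u = u * a * u⁻¹ * u := by rw [h5]
      _ = u * a := by group
  have hu1 : u ∈ sigmaCore M ⊓ centralizer (A : Set G) := ⟨hu, huC⟩
  rw [T.d, Subgroup.mem_bot] at hu1
  rw [hu1, mul_one]
  exact he

/-- The centralizer of a subgroup of order `p` of `A` with fixed points on `M_σ`. -/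
theorem line_sub {X : Subgroup G} (hXA : X ≤ A) (hX : Nat.card X = p)
    (hne : sigmaCore M ⊓ centralizer (X : Set G) ≠ ⊥) :
    centralizer (X : Set G) ≤ M ∧ ∀ L : Subgroup G, IsCoatom L → centralizer (X : Set G) ≤ L → L = M := by
  classical
  have hp : p.Prime := Fact.out
  have hX1 : X ≠ ⊥ := by
    rintro rfl
    rw [Subgroup.card_bot] at hX
    exact hp.one_lt.ne hX
  obtain ⟨a, ha, ha1⟩ := X.bot_or_exists_ne_one.resolve_left hX1
  have hXa : X = zpowers a := by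
    refine (Subgroup.eq_of_le_of_card_ge (zpowers_le.2 ha) ?_).symm
    rw [hX, Nat.card_zpowers, T.S.ord (hXA ha) ha1]
  subst hXa
  rw [centralizer_zpowers_eq] at hne ⊢
  exact ⟨T.cent_le (hXA ha) ha1 hne, T.uniq (hXA ha) hne⟩

end Tau2Setup

end Cfsg.Agent.Lib.FT
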