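import Cfsg.Agent.Lib.FT.BG11k

/-!
BG section 12: the Sylow subgroups of `M` at a prime `p ∉ σ(M)` of rank two are abelian (using the structure of
Sylow subgroups of rank two as a hypothesis).
-/

set_option autoImplicit false
set_option linter.unusedSectionVars false
set_option linter.style.haveILetI false

namespace Cfsg.Agent.Lib.FT

open Subgroup Cfsg Cfsg.Agent.Lib.OddLocal Cfsg.Agent.Lib.Basic

open scoped commutatorElement Pointwise

open Cfsg.Agent.Lib.Coprime (mem_conj_map conj_mem_conj_map conj_map_conj_map conj_map_one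
  conj_map_mono mem_normalizer_of_conj_le conj_map_eq_iff_mem_normalizer)

/-- A `p`-group with an elementary abelian subgroup of order `p³` and a maximal elementary abelian
subgroup `E` of order `p²`: a line of `E` with centralizer a line times a cyclic subgroup. -/
theorem exists_line_narrow {R : Type*} [Group R] [Finite R] {p : ℕ} [Fact p.Prime] (hp : p ≠ 2)
    (hR : IsPGroup p R) (hr : ¬ PRankLE p 2 R) (E : Subgroup R) (hE : IsElementaryAbelian p E)
    (hE2 : Nat.card E = p ^ 2) (hEmax : ∀ B : Subgroup R, IsElementaryAbelian p B → E ≤ B → B = E) :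
    ∃ e ∈ E, e ≠ 1 ∧ ∃ R₁ : Subgroup R, IsCyclic R₁ ∧ (∀ b ∈ R₁, e * b = b * e) ∧
      zpowers e ⊔ R₁ = centralizer ((zpowers e : Subgroup R) : Set R) := by
  have hpp : p.Prime := Fact.out
  obtain ⟨h1, h2, -, h4, h5⟩ := Cfsg.Agent.S1453.result p hp hR hr E hE hE2 hEmax
  set W := closure {x : R | x ∈ Subgroup.upperCentralSeries R 2 ∧ x ^ p = 1} with hW
  set T := centralizer (W : Set R) with hT
  set Z₀ := closure {x : R | x ∈ center R ∧ x ^ p = 1} with hZ₀
  haveI hTn : T.Normal := by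
    haveI := h4
    infer_instance
  obtain ⟨e, heE, heT⟩ := SetLike.not_le_iff_exists.mp h1
  have he1 : e ≠ 1 := by
    rintro rfl
    exact heT T.one_mem
  have hep : e ^ p = 1 := hE.2 e heE
  have heo : orderOf e = p := orderOf_eq_prime hep he1
  have hZc : Z₀ ≤ center R := by
    rw [hZ₀, closure_le]
    exact fun x hx => hx.1
  have hZT : Z₀ ≤ T := hZc.trans (Subgroup.center_le_centralizer _)
  have hZp : ∀ z ∈ Z₀, z ^ p = 1 := by
    intro z hz
    have := Subgroup.orderOf_dvd_natCard Z₀ hz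
    rw [h2] at this
    exact orderOf_dvd_iff_pow_eq_one.1 this
  have hZE : Z₀ ≤ E := by
    intro z hz
    have hc : ∀ a ∈ E, z * a = a * z := fun a _ => (Subgroup.mem_center_iff.1 (hZc hz) a).symm
    have h3 := isElementaryAbelian_sup_zpowers hE (hZp z hz) hc
    have h6 := hEmax _ h3 le_sup_left
    rw [← h6]
    exact (le_sup_right : zpowers z ≤ E ⊔ zpowers z) (mem_zpowers z)
  have hEc : ∀ a ∈ E, ∀ b ∈ E, a * b = b * a := fun a ha b hb =>
    congrArg Subtype.val (hE.1.is_comm.comm ⟨a, ha⟩ ⟨b, hb⟩)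
  have hET : E ⊓ T = Z₀ := by
    apply (Subgroup.eq_of_le_of_card_ge (le_inf hZE hZT) _).symm
    rw [h2]
    have hd : Nat.card ↥(E ⊓ T) ∣ p ^ 2 := by
      rw [← hE2]
      exact Subgroup.card_dvd_of_le inf_le_left
    obtain ⟨k, hk, hke⟩ := (Nat.dvd_prime_pow hpp).1 hd
    rw [hke]
    have hk2 : k ≠ 2 := by
      rintro rfl
      have heq : E ⊓ T = E := Subgroup.eq_of_le_of_card_ge inf_le_left (by rw [hE2, hke])
      exact heT ((inf_eq_left.1 heq) heE)
    have : k ≤ 1 := by omega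
    calc p ^ k ≤ p ^ 1 := Nat.pow_le_pow_right hpp.pos this
      _ = p := pow_one p
  have hzc : Nat.card (zpowers e) = p := by
    rw [Nat.card_zpowers, heo]
  have hEgen : E ≤ zpowers e ⊔ Z₀ := by
    have hle : zpowers e ⊔ Z₀ ≤ E := sup_le (zpowers_le.mpr heE) hZE
    have hlt : Z₀ < zpowers e ⊔ Z₀ := by
      refine lt_of_le_of_ne le_sup_right fun h => heT ?_
      have : e ∈ Z₀ := by
        rw [h]
        exact (le_sup_left : zpowers e ≤ zpowers e ⊔ Z₀) (mem_zpowers e)
      exact hZT this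
    have h6 : Nat.card E ≤ Nat.card ↥(zpowers e ⊔ Z₀) := by
      have hd : Nat.card ↥(zpowers e ⊔ Z₀) ∣ p ^ 2 := by
        rw [← hE2]
        exact Subgroup.card_dvd_of_le hle
      obtain ⟨k, hk, hke⟩ := (Nat.dvd_prime_pow hpp).1 hd
      have h7 := Cfsg.Agent.Lib.OddLocal.card_lt_of_lt hlt
      rw [h2, hke] at h7
      have hk2 : k = 2 := by
        have : 1 < k := (Nat.pow_lt_pow_iff_right hpp.one_lt).1 (by simpa using h7)
        omega
      rw [hE2, hke, hk2]
    exact (Subgroup.eq_of_le_of_card_ge hle h6).ge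
  have hsup : T ⊔ zpowers e = ⊤ := by
    have hc : IsCoatom T := by
      exact Cfsg.Agent.Lib.Basic.isCoatom_of_index_prime (by rw [h5]; exact hpp)
    apply hc.2
    refine lt_of_le_of_ne le_sup_left fun h => heT ?_
    rw [h]
    exact (le_sup_right : zpowers e ≤ T ⊔ zpowers e) (mem_zpowers e)
  refine ⟨e, heE, he1, T ⊓ centralizer ((zpowers e : Subgroup R) : Set R), ?_, ?_, ?_⟩
  · -- cyclic
    set R₁ := T ⊓ centralizer ((zpowers e : Subgroup R) : Set R) with hR₁
    apply isCyclic_of_uniqueP_odd hp _ ↥R₁ rfl (hR.to_subgroup R₁)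
    have key : ∀ H : Subgroup ↥R₁, Nat.card H = p → H.map R₁.subtype = Z₀ := by
      intro H hH
      have hHp : ∀ y ∈ H, (y : R) ^ p = 1 := by
        intro y hy
        have := Subgroup.orderOf_dvd_natCard H hy
        rw [hH] at this
        have h7 := orderOf_dvd_iff_pow_eq_one.1 this
        exact congrArg Subtype.val h7
      apply Subgroup.eq_of_le_of_card_ge
      · rintro _ ⟨y, hy, rfl⟩
        rw [← hET]
        refine Subgroup.mem_inf.2 ⟨?_, (Subgroup.mem_inf.1 y.2).1⟩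
        have hc : ∀ a ∈ E, (y : R) * a = a * y := by
          intro a ha
          have h8 : E ≤ centralizer ({(y : R)} : Set R) := by
            refine hEgen.trans (sup_le ?_ ?_)
            · rintro _ ⟨k, rfl⟩
              rw [Subgroup.mem_centralizer_iff]
              intro b hb
              simp only [Set.mem_singleton_iff] at hb
              rw [hb]
              have h9 := Subgroup.mem_centralizer_iff.1 (Subgroup.mem_inf.1 y.2).2 e (mem_zpowers e)
              have h10 : Commute e (y : R) := h9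
              exact (h10.zpow_left k).symm.eq
            · intro z hz
              rw [Subgroup.mem_centralizer_iff]
              intro b hb
              simp only [Set.mem_singleton_iff] at hb
              rw [hb]
              exact (Subgroup.mem_center_iff.1 (hZc hz) _)
          exact (Subgroup.mem_centralizer_iff.1 (h8 ha) _ rfl)
        have h3 := isElementaryAbelian_sup_zpowers hE (hHp y hy) hc
        have h6 := hEmax _ h3 le_sup_left
        rw [← h6]
        exact (le_sup_right : zpowers (y : R) ≤ E ⊔ zpowers (y : R)) (mem_zpowers _)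
      · rw [h2, Subgroup.card_map_of_injective R₁.subtype_injective, hH]
    intro H K hH hK
    exact Subgroup.map_injective R₁.subtype_injective ((key H hH).trans (key K hK).symm)
  · -- commuting
    intro b hb
    exact (Subgroup.mem_centralizer_iff.1 (Subgroup.mem_inf.1 hb).2 e (mem_zpowers e))
  · -- generation
    apply le_antisymm
    · apply sup_le
      · intro a ha
        rw [Subgroup.mem_centralizer_iff]
        intro b hb
        obtain ⟨i, rfl⟩ := ha
        obtain ⟨j, rfl⟩ := hb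
        exact ((Commute.refl e).zpow_zpow j i).eq
      · exact inf_le_right
    · intro y hy
      have hyt : y ∈ T ⊔ zpowers e := by
        rw [hsup]
        trivial
      rw [Subgroup.mem_sup_of_normal_left] at hyt
      obtain ⟨t, ht, z, hz, rfl⟩ := hyt
      have htc : t ∈ centralizer ((zpowers e : Subgroup R) : Set R) := by
        have hzC : z ∈ centralizer ((zpowers e : Subgroup R) : Set R) := by
          rw [Subgroup.mem_centralizer_iff]
          intro b hb
          obtain ⟨i, rfl⟩ := hz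
          obtain ⟨j, rfl⟩ := hb
          exact ((Commute.refl e).zpow_zpow j i).eq
        have := (centralizer ((zpowers e : Subgroup R) : Set R)).mul_mem hy
          ((centralizer ((zpowers e : Subgroup R) : Set R)).inv_mem hzC)
        simpa using this
      have hz' := (Subgroup.mem_centralizer_iff.1 htc z hz)
      rw [show t * z = z * t from hz'.symm]
      exact Subgroup.mul_mem_sup hz (Subgroup.mem_inf.2 ⟨ht, htc⟩)

variable {G : Type*} [Group G] [Finite G]

/-- The conclusion of `S1412`. -/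
def Sylow2Struct (G : Type*) [Group G] [Finite G] : Prop :=
  ∀ (p : ℕ) [Fact p.Prime] (P : Sylow p G), PRankLE p 2 (P : Subgroup G) →
    IsMulCommutative (P : Subgroup G) ∨ ∃ P₁ P₂ : Subgroup G, P₁ ⊔ P₂ = (P : Subgroup G) ∧ (∀ a ∈ P₁, ∀ b ∈ P₂, a * b = b * a) ∧
        ¬ IsMulCommutative P₁ ∧ Nat.card P₁ = p ^ 3 ∧ Monoid.exponent P₁ = p ∧ IsCyclic P₂ ∧
        Subgroup.closure {x : G | x ∈ P₂ ∧ x ^ p = 1} = P₁ ⊓ Subgroup.centralizer (P₁ : Set G)

theorem comm_of_isCyclic {X : Type*} [Group X] {Y : Subgroup X} (hc : IsCyclic Y) {x y : X} (hx : x ∈ Y) (hy : y ∈ Y) :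
    x * y = y * x := by
  obtain ⟨g, hg⟩ := IsCyclic.exists_generator (α := Y)
  obtain ⟨i, hi⟩ := Subgroup.mem_zpowers_iff.1 (hg ⟨x, hx⟩)
  obtain ⟨j, hj⟩ := Subgroup.mem_zpowers_iff.1 (hg ⟨y, hy⟩)
  have e1 : (g : X) ^ i = x := by
    have := congrArg Subtype.val hi
    simpa using this
  have e2 : (g : X) ^ j = y := by
    have := congrArg Subtype.val hj
    simpa using this
  rw [← e1, ← e2]
  exact ((Commute.refl (g : X)).zpow_zpow i j).eq

theorem exists_mul_of_mem_sup_of_commute {X : Type*} [Group X] {H K : Subgroup X} (hc : ∀ a ∈ H, ∀ b ∈ K, a * b = b * a) {x : X}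
    (hx : x ∈ H ⊔ K) : ∃ a ∈ H, ∃ b ∈ K, x = a * b := by
  classical
  let L : Subgroup X :=
    { carrier := {w | ∃ a ∈ H, ∃ b ∈ K, w = a * b}
      mul_mem' := by
        rintro _ _ ⟨a, ha, b, hb, rfl⟩ ⟨a', ha', b', hb', rfl⟩
        refine ⟨a * a', H.mul_mem ha ha', b * b', K.mul_mem hb hb', ?_⟩
        calc a * b * (a' * b') = a * (b * a') * b' := by group
          _ = a * (a' * b) * b' := by rw [hc a' ha' b hb]
          _ = _ := by group
      one_mem' := ⟨1, H.one_mem, 1, K.one_mem, by simp⟩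
      inv_mem' := by
        rintro _ ⟨a, ha, b, hb, rfl⟩
        refine ⟨a⁻¹, H.inv_mem ha, b⁻¹, K.inv_mem hb, ?_⟩
        rw [mul_inv_rev]
        have h1 := hc a⁻¹ (H.inv_mem ha) b⁻¹ (K.inv_mem hb)
        exact h1.symm }
  have hle : H ⊔ K ≤ L := sup_le (fun a ha => ⟨a, ha, 1, K.one_mem, by simp⟩) (fun b hb => ⟨1, H.one_mem, b, hb, by simp⟩)
  exact hle hx

namespace Tau2Setup

variable {p : ℕ} [hpf : Fact p.Prime] {A M : Subgroup G} (T : Tau2Setup p A M)

include T

/-- `P` is abelian, and its `p`-th powers lie in a cyclic subgroup if a Sylow overgroup is not abelian. -/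
theorem abelian_struct (h1412 : Sylow2Struct G) {P : Subgroup G} (hP : IsMaxP p P M) (hAP : A ≤ P) (Pst : Sylow p G)
    (hPst : P ≤ (Pst : Subgroup G)) :
    IsMulCommutative P ∧ (IsMulCommutative (Pst : Subgroup G) ∨ ∃ Y : Subgroup G, IsCyclic Y ∧ ∀ x ∈ P, x ^ p ∈ Y) := by
  classical
  have hPC := T.b_core hP hAP
  have hAc : ∀ a ∈ A, ∀ b ∈ A, a * b = b * a := fun a ha b hb =>
    congrArg Subtype.val (T.S.hAe.1.is_comm.comm (⟨a, ha⟩ : A) ⟨b, hb⟩)
  by_cases hr : PRankLE p 2 (Pst : Subgroup G)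
  · rcases h1412 p Pst hr with hab | ⟨P₁, P₂, h1, h2, h3, h4, h5, h6, h7⟩
    · haveI := hab
      refine ⟨⟨⟨fun x y => ?_⟩⟩, Or.inl hab⟩
      exact Subtype.ext (commute_of_mem_isMulCommutative (hPst x.2) (hPst y.2))
    · have hdec : ∀ x ∈ (Pst : Subgroup G), ∃ a ∈ P₁, ∃ b ∈ P₂, x = a * b := fun x hx =>
        exists_mul_of_mem_sup_of_commute h2 (h1 ▸ hx)
      have hexp : ∀ a ∈ P₁, a ^ p = 1 := by
        intro a ha
        have := Monoid.pow_exponent_eq_one (⟨a, ha⟩ : P₁)
        rw [h5] at this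
        exact congrArg Subtype.val this
      have hpow : ∀ a ∈ P₁, ∀ b ∈ P₂, (a * b) ^ p = b ^ p := by
        intro a ha b hb
        have hc : Commute a b := h2 a ha b hb
        rw [hc.mul_pow, hexp a ha, one_mul]
      have hΩ : ∀ x ∈ (Pst : Subgroup G), x ^ p = 1 → x ∈ P₁ := by
        intro x hx hxp
        obtain ⟨a, ha, b, hb, rfl⟩ := hdec x hx
        rw [hpow a ha b hb] at hxp
        have h8 : b ∈ P₁ ⊓ centralizer (P₁ : Set G) := by
          rw [← h7]
          exact Subgroup.subset_closure ⟨hb, hxp⟩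
        exact P₁.mul_mem ha h8.1
      have hAP₁ : A ≤ P₁ := fun a ha => hΩ a (hPst (hAP ha)) (T.S.hAe.2 a ha)
      have hdec2 : ∀ x ∈ P, ∃ a ∈ A, ∃ b ∈ P₂, x = a * b := by
        intro x hx
        obtain ⟨a, ha, b, hb, rfl⟩ := hdec x (hPst hx)
        refine ⟨a, ?_, b, hb, rfl⟩
        have hbC : b ∈ centralizer (A : Set G) := by
          rw [Subgroup.mem_centralizer_iff]
          exact fun c hc => h2 c (hAP₁ hc) b hb
        have haC : a ∈ centralizer (A : Set G) := by
          have := (centralizer (A : Set G)).mul_mem (hPC hx) ((centralizer (A : Set G)).inv_mem hbC)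
          simpa using this
        exact (T.hC2 a haC).1 (hexp a ha)
      refine ⟨⟨⟨fun x y => ?_⟩⟩, Or.inr ⟨P₂, h6, ?_⟩⟩
      · obtain ⟨a, ha, b, hb, e1⟩ := hdec2 x x.2
        obtain ⟨a', ha', b', hb', e2⟩ := hdec2 y y.2
        apply Subtype.ext
        change (x : G) * y = y * x
        rw [e1, e2]
        have c1 : a * a' = a' * a := hAc a ha a' ha'
        have c2 : b * b' = b' * b := comm_of_isCyclic h6 hb hb'
        have c3 : b * a' = a' * b := (h2 a' (hAP₁ ha') b hb).symm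
        have c4 : a * b' = b' * a := h2 a (hAP₁ ha) b' hb'
        calc a * b * (a' * b') = a * (b * a') * b' := by group
          _ = a * (a' * b) * b' := by rw [c3]
          _ = (a * a') * (b * b') := by group
          _ = (a' * a) * (b' * b) := by rw [c1, c2]
          _ = a' * (a * b') * b := by group
          _ = a' * (b' * a) * b := by rw [c4]
          _ = _ := by group
      · intro x hx
        obtain ⟨a, ha, b, hb, rfl⟩ := hdec2 x hx
        rw [hpow a (hAP₁ ha) b hb]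
        exact P₂.pow_mem hb p
  · -- the narrow case
    set R := ↥(Pst : Subgroup G) with hR
    have hRp : IsPGroup p R := Pst.isPGroup'
    have hEe : IsElementaryAbelian p (A.subgroupOf (Pst : Subgroup G)) := isElementaryAbelian_subgroupOf _ T.S.hAe
    have hAle : A ≤ (Pst : Subgroup G) := hAP.trans hPst
    have hE2 : Nat.card (A.subgroupOf (Pst : Subgroup G)) = p ^ 2 := by
      rw [Cfsg.Agent.Lib.OddLocal.card_subgroupOf_of_le hAle]
      exact T.S.hAc
    have hEmax : ∀ B : Subgroup R, IsElementaryAbelian p B → A.subgroupOf (Pst : Subgroup G) ≤ B →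
        B = A.subgroupOf (Pst : Subgroup G) := by
      intro B hB hEB
      refine le_antisymm (fun b hb => ?_) hEB
      rw [Subgroup.mem_subgroupOf]
      refine (T.hC2 _ ?_).1 (by
        have := hB.2 b hb
        exact congrArg Subtype.val this)
      rw [Subgroup.mem_centralizer_iff]
      intro a ha
      have h1 : (⟨a, hAle ha⟩ : R) ∈ B := hEB (Subgroup.mem_subgroupOf.2 ha)
      have h2 := hB.1.is_comm.comm (⟨_, h1⟩ : B) ⟨b, hb⟩
      exact congrArg (fun z : B => ((z : R) : G)) h2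
    obtain ⟨e, he, he1, R₁, hc, hcomm, hgen⟩ := exists_line_narrow T.S.hp2 hRp hr _ hEe hE2 hEmax
    have heA : (e : G) ∈ A := Subgroup.mem_subgroupOf.1 he
    have hzc : ∀ a ∈ zpowers e, ∀ b ∈ R₁, a * b = b * a := by
      intro a ha b hb
      obtain ⟨i, rfl⟩ := Subgroup.mem_zpowers_iff.1 ha
      exact ((show Commute e b from hcomm b hb).zpow_left i).eq
    have hdec : ∀ (x : G) (hx : x ∈ P), ∃ a ∈ zpowers e, ∃ b ∈ R₁, (⟨x, hPst hx⟩ : R) = a * b := by
      intro x hx
      have hxC : (⟨x, hPst hx⟩ : R) ∈ centralizer ((zpowers e : Subgroup R) : Set R) := by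
        rw [Subgroup.mem_centralizer_iff]
        intro w hw
        obtain ⟨i, rfl⟩ := Subgroup.mem_zpowers_iff.1 hw
        have hcomm' : Commute e (⟨x, hPst hx⟩ : R) :=
          Subtype.ext (Subgroup.mem_centralizer_iff.1 (hPC hx) (e : G) heA)
        exact (hcomm'.zpow_left i).eq
      rw [← hgen] at hxC
      exact exists_mul_of_mem_sup_of_commute hzc hxC
    have hzz : ∀ a ∈ zpowers e, ∀ a' ∈ zpowers e, a * a' = a' * a := by
      intro a ha a' ha'
      obtain ⟨i, rfl⟩ := Subgroup.mem_zpowers_iff.1 ha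
      obtain ⟨j, rfl⟩ := Subgroup.mem_zpowers_iff.1 ha'
      exact ((Commute.refl e).zpow_zpow i j).eq
    have hep : e ^ p = 1 := hEe.2 e he
    refine ⟨⟨⟨fun x y => ?_⟩⟩, Or.inr ⟨R₁.map (Pst : Subgroup G).subtype,
      isCyclic_of_surjective ((R₁.equivMapOfInjective _ (Pst : Subgroup G).subtype_injective).toMonoidHom)
        (MulEquiv.surjective _), ?_⟩⟩
    · obtain ⟨a, ha, b, hb, e1⟩ := hdec x x.2
      obtain ⟨a', ha', b', hb', e2⟩ := hdec y y.2
      apply Subtype.ext
      change (x : G) * y = y * x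
      have hx : (x : G) = ((a * b : R) : G) := congrArg Subtype.val e1
      have hy : (y : G) = ((a' * b' : R) : G) := congrArg Subtype.val e2
      rw [hx, hy, ← Subgroup.coe_mul, ← Subgroup.coe_mul]
      congr 1
      have c1 := hzz a ha a' ha'
      have c2 : b * b' = b' * b := comm_of_isCyclic hc hb hb'
      have c3 : b * a' = a' * b := (hzc a' ha' b hb).symm
      have c4 : a * b' = b' * a := hzc a ha b' hb'
      calc a * b * (a' * b') = a * (b * a') * b' := by group
        _ = a * (a' * b) * b' := by rw [c3]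
        _ = (a * a') * (b * b') := by group
        _ = (a' * a) * (b' * b) := by rw [c1, c2]
        _ = a' * (a * b') * b := by group
        _ = a' * (b' * a) * b := by rw [c4]
        _ = _ := by group
    · intro x hx
      obtain ⟨a, ha, b, hb, e1⟩ := hdec x hx
      have hap : a ^ p = 1 := by
        obtain ⟨i, rfl⟩ := Subgroup.mem_zpowers_iff.1 ha
        rw [← zpow_natCast, ← zpow_mul, mul_comm, zpow_mul, zpow_natCast, hep, one_zpow]
      have h3 : (⟨x, hPst hx⟩ : R) ^ p = b ^ p := by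
        rw [e1, (show Commute a b from hzc a ha b hb).mul_pow, hap, one_mul]
      have h4 : x ^ p = ((b ^ p : R) : G) := congrArg Subtype.val h3
      rw [h4]
      exact ⟨b ^ p, R₁.pow_mem hb p, rfl⟩

end Tau2Setup

theorem comm_of_nilpotent_of_sylows {N : Type*} [Group N] [Finite N] (hn : Group.IsNilpotent N)
    (h : ∀ (r : ℕ) [Fact r.Prime] (S : Sylow r N), ∀ x ∈ (S : Subgroup N), ∀ y ∈ (S : Subgroup N), x * y = y * x)
    (x y : N) : x * y = y * x := by
  classical
  obtain ⟨e⟩ := (Group.isNilpotent_of_finite_tfae (G := N)).out 0 4 |>.mp hn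
  obtain ⟨a, rfl⟩ := e.surjective x
  obtain ⟨b, rfl⟩ := e.surjective y
  rw [← map_mul, ← map_mul]
  congr 1
  funext p P
  haveI : Fact (p : ℕ).Prime := ⟨Nat.prime_of_mem_primeFactors p.2⟩
  exact Subtype.ext (h p P _ (a p P).2 _ (b p P).2)

theorem comm_of_not_sigma (hG : IsMinSimpleOddOrder G) (huniq : UniquenessThm G)
    (hpl : ∀ (r : ℕ) [Fact r.Prime] (H : Subgroup G), H ≠ ⊤ → PLengthLE r 1 ↥H) (h1412 : Sylow2Struct G)
    {M : Subgroup G} (hM : IsCoatom M) {r : ℕ} [Fact r.Prime] (hrσ : r ∉ sigma M) {T : Subgroup G} (hTM : T ≤ M)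
    (hT : IsPGroup r T) {x y : G} (hx : x ∈ T) (hy : y ∈ T) : x * y = y * x := by
  classical
  obtain ⟨R, hR, hTR⟩ := exists_isMaxP_ge hTM hT
  by_cases hc : IsCyclic R
  · exact comm_of_isCyclic hc (hTR hx) (hTR hy)
  · have hR1 : R ≠ ⊥ := by
      rintro rfl
      exact hc inferInstance
    have hrd : r ∣ Nat.card G := by
      obtain ⟨n, hn⟩ := IsPGroup.iff_card.1 hR.isP
      have hn0 : n ≠ 0 := by
        rintro rfl
        rw [pow_zero] at hn
        exact hR1 ((Subgroup.card_eq_one).1 hn)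
      have : r ∣ Nat.card R := by
        rw [hn]
        exact dvd_pow_self r hn0
      exact this.trans (Subgroup.card_subgroup_dvd_card R)
    have hr2 : r ≠ 2 := prime_odd hG Fact.out hrd
    obtain ⟨B, hBR, -, hBe, hBc⟩ := exists_normal_sq hr2 hR.isP hc
    have TB : Tau2Setup r B M := Tau2Setup.mk' hG huniq hpl hM (hBR.trans hR.le) hBe hBc hrσ
    obtain ⟨Pst, hPst⟩ := hR.isP.exists_le_sylow
    haveI := (TB.abelian_struct h1412 hR hBR Pst hPst).1
    exact commute_of_mem_isMulCommutative (hTR hx) (hTR hy)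

/-- The first clause of `S1420`. -/
theorem s1420_a (hG : IsMinSimpleOddOrder G) (huniq : UniquenessThm G)
    (hpl : ∀ (r : ℕ) [Fact r.Prime] (H : Subgroup G), H ≠ ⊤ → PLengthLE r 1 ↥H) (h1412 : Sylow2Struct G)
    {M : Subgroup G} (hM : IsCoatom M) (N : Subgroup G) (hNM : N ≤ M) (hn : Group.IsNilpotent N)
    (hσ : ∀ p : ℕ, p.Prime → p ∣ Nat.card N → p ∉ sigma M) : IsMulCommutative N := by
  classical
  refine ⟨⟨fun x y => comm_of_nilpotent_of_sylows hn ?_ x y⟩⟩
  intro r _ S a ha b hb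
  have hSp : IsPGroup r ((S : Subgroup N).map N.subtype) := S.isPGroup'.map _
  have hSM : (S : Subgroup N).map N.subtype ≤ M := (Subgroup.map_subtype_le _).trans hNM
  by_cases hS1 : (S : Subgroup N) = ⊥
  · rw [hS1, Subgroup.mem_bot] at ha hb
    rw [ha, hb]
  · have hrd : r ∣ Nat.card N := by
      obtain ⟨n, hn⟩ := IsPGroup.iff_card.1 S.isPGroup'
      have hn0 : n ≠ 0 := by
        rintro rfl
        rw [pow_zero] at hn
        exact hS1 ((Subgroup.card_eq_one).1 hn)
      have : r ∣ Nat.card (S : Subgroup N) := by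
        rw [hn]
        exact dvd_pow_self r hn0
      exact this.trans (Subgroup.card_subgroup_dvd_card _)
    have h := comm_of_not_sigma hG huniq hpl h1412 hM (hσ r Fact.out hrd) hSM hSp
      (Subgroup.mem_map_of_mem _ ha) (Subgroup.mem_map_of_mem _ hb)
    exact Subtype.ext h

/-- The second clause of `S1420`. -/
theorem s1420_b (hG : IsMinSimpleOddOrder G) (huniq : UniquenessThm G)
    (hpl : ∀ (r : ℕ) [Fact r.Prime] (H : Subgroup G), H ≠ ⊤ → PLengthLE r 1 ↥H) (h1412 : Sylow2Struct G)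
    {M E : Subgroup G} (hM : IsCoatom M) (hE : IsComplIn E (sigmaCore M) M) : IsMulCommutative ↥⁅E, E⁆ := by
  classical
  refine s1420_a hG huniq hpl h1412 hM _ ((Subgroup.commutator_le_self E).trans hE.1)
    (complement_commutator_nilpotent hG huniq hM hE) ?_
  intro r hr hd hrσ
  haveI : Fact r.Prime := ⟨hr⟩
  obtain ⟨z, hz⟩ := exists_prime_orderOf_dvd_card' (G := ↥⁅E, E⁆) r hd
  have hzE : ((z : G)) ∈ E := Subgroup.commutator_le_self E z.2
  have hzo : orderOf (z : G) = r := by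
    rw [Subgroup.orderOf_coe]
    exact hz
  have hzp : IsPGroup r (zpowers (z : G)) := IsPGroup.of_card (n := 1) (by
    rw [Nat.card_zpowers, hzo, pow_one])
  have h1 := le_sigmaCore_of_isPGroup hG huniq hM hrσ hzp (zpowers_le.2 (hE.1 hzE))
  have h2 : (z : G) ∈ E ⊓ sigmaCore M := ⟨hzE, zpowers_le.1 h1⟩
  rw [hE.2.2.1, Subgroup.mem_bot] at h2
  rw [h2, orderOf_one] at hzo
  exact hr.one_lt.ne hzo

/-- The third clause of `S1420`. -/
theorem s1420_c (hG : IsMinSimpleOddOrder G) (huniq : UniquenessThm G)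
    (hpl : ∀ (r : ℕ) [Fact r.Prime] (H : Subgroup G), H ≠ ⊤ → PLengthLE r 1 ↥H)
    {M : Subgroup G} (hM : IsCoatom M) (p : ℕ) (P : Subgroup G) (hpσ : p ∈ sigma M) (hP : IsPGroup p P) (hPM : P ≤ M)
    (hnc : ¬ IsCyclic P) : normalizer (P : Set G) ≤ M := by
  classical
  haveI : Fact p.Prime := ⟨hpσ.1⟩
  have hp2 : p ≠ 2 := prime_odd hG hpσ.1 (hpσ.2.1.trans (Subgroup.card_subgroup_dvd_card M))
  have hP1 : P ≠ ⊥ := by
    rintro rfl
    exact hnc inferInstance
  obtain ⟨B, hBP, -, hBe, hBc⟩ := exists_normal_sq hp2 hP hnc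
  have h1 := (s1416_core hG huniq hpl M hM p B ⟨hBP.trans hPM, hBe, hBc⟩).1
  have h2 : centralizer (P : Set G) ≤ M := (Subgroup.centralizer_le hBP).trans h1
  rw [(s1404_core hG huniq hM hpσ P hP hP1 hPM).2]
  exact sup_le inf_le_left h2

theorem exists_primary_decomp (x : G) {r : ℕ} (hr : r.Prime) :
    ∃ a ∈ zpowers x, ∃ b ∈ zpowers x, x = a * b ∧ (∃ k : ℕ, a ^ r ^ k = 1) ∧ (orderOf b).Coprime r := by
  classical
  have hn0 : orderOf x ≠ 0 := (orderOf_pos x).ne'
  obtain ⟨k, m, hm, hn⟩ := Nat.exists_eq_pow_mul_and_not_dvd hn0 r hr.ne_one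
  have hcop : Nat.Coprime (r ^ k) m := Nat.Coprime.pow_left k ((Nat.Prime.coprime_iff_not_dvd hr).2 hm)
  obtain ⟨u, v, huv⟩ := Nat.isCoprime_iff_coprime.2 hcop
  have hxn : x ^ (orderOf x : ℤ) = 1 := by
    rw [zpow_natCast]
    exact pow_orderOf_eq_one x
  have hn' : (orderOf x : ℤ) = ((r ^ k : ℕ) : ℤ) * m := by
    rw [hn]
    push_cast
    rfl
  refine ⟨x ^ (v * m), zpow_mem_zpowers x _, x ^ (u * (r ^ k : ℕ)), zpow_mem_zpowers x _, ?_, ⟨k, ?_⟩, ?_⟩
  · rw [← zpow_add]
    have : v * (m : ℤ) + u * ((r ^ k : ℕ) : ℤ) = 1 := by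
      rw [add_comm]
      exact huv
    rw [this, zpow_one]
  · rw [← zpow_natCast, ← zpow_mul]
    have : v * (m : ℤ) * ((r ^ k : ℕ) : ℤ) = v * (orderOf x : ℤ) := by
      rw [hn']
      ring
    rw [this, mul_comm, zpow_mul, hxn, one_zpow]
  · have h1 : (x ^ (u * (r ^ k : ℕ))) ^ m = 1 := by
      rw [← zpow_natCast, ← zpow_mul]
      have : u * ((r ^ k : ℕ) : ℤ) * (m : ℤ) = u * (orderOf x : ℤ) := by
        rw [hn']
        ring
      rw [this, mul_comm, zpow_mul, hxn, one_zpow]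
    have h2 := orderOf_dvd_of_pow_eq_one h1
    exact Nat.Coprime.coprime_dvd_left h2 ((Nat.Prime.coprime_iff_not_dvd hr).2 hm).symm

theorem mem_Oq'_of_primes_gt {M : Subgroup G} {r : ℕ} (hidx : ∀ q : ℕ, q.Prime → q ∣ (pPrimeCore r ↥M).index → q ≤ r) {b : G} (hb : b ∈ M)
    (h : ∀ q : ℕ, q.Prime → q ∣ orderOf b → r < q) : b ∈ Oq' r M := by
  classical
  have h1 : orderOf (((⟨b, hb⟩ : ↥M) : ↥M ⧸ pPrimeCore r ↥M)) ∣ (pPrimeCore r ↥M).index := by
    rw [Subgroup.index_eq_card]
    exact orderOf_dvd_natCard _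
  have h2 : orderOf (((⟨b, hb⟩ : ↥M) : ↥M ⧸ pPrimeCore r ↥M)) ∣ orderOf b := by
    have := orderOf_map_dvd (QuotientGroup.mk' (pPrimeCore r ↥M)) (⟨b, hb⟩ : ↥M)
    rwa [Subgroup.orderOf_mk] at this
  have h3 : orderOf (((⟨b, hb⟩ : ↥M) : ↥M ⧸ pPrimeCore r ↥M)) = 1 := by
    by_contra hne
    obtain ⟨q, hq, hqd⟩ := Nat.exists_prime_and_dvd hne
    exact absurd (hidx q hq (hqd.trans h1)) (not_le.2 (h q hq (hqd.trans h2)))
  have h4 : (⟨b, hb⟩ : ↥M) ∈ pPrimeCore r ↥M := by
    rw [← QuotientGroup.eq_one_iff]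
    exact orderOf_eq_one_iff.1 h3
  exact ⟨_, h4, rfl⟩

/-- The fourth clause of `S1420`. -/
theorem s1420_d (hG : IsMinSimpleOddOrder G) (huniq : UniquenessThm G)
    (hpl : ∀ (r : ℕ) [Fact r.Prime] (H : Subgroup G), H ≠ ⊤ → PLengthLE r 1 ↥H)
    {M : Subgroup G} (hM : IsCoatom M) {x : G} (hxM : x ∈ M) (hx1 : x ≠ 1)
    (hτ : ∀ p : ℕ, p.Prime → p ∣ orderOf x → p ∈ tau2 M) (hxσ : x ∈ sigmaHat M) :
    centralizer ({x} : Set G) ≤ M ∧ ∀ L : Subgroup G, IsCoatom L → centralizer ({x} : Set G) ≤ L → L = M := by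
  classical
  obtain ⟨-, y, hy, hy1, hxy⟩ := hxσ
  have hord : orderOf x ≠ 1 := fun h => hx1 (orderOf_eq_one_iff.1 h)
  set r := (orderOf x).minFac with hrdef
  have hr : r.Prime := Nat.minFac_prime hord
  have hrd : r ∣ orderOf x := Nat.minFac_dvd _
  haveI : Fact r.Prime := ⟨hr⟩
  obtain ⟨-, hrσ, hr2, hr1⟩ := hτ r hr hrd
  obtain ⟨a, ha, b, hb, e, ⟨k, hak⟩, hbc⟩ := exists_primary_decomp x hr
  have hzxM : zpowers x ≤ M := zpowers_le.2 hxM
  have hzp : IsPGroup r (zpowers a) := by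
    obtain ⟨j, -, hj⟩ := (Nat.dvd_prime_pow hr).1 (orderOf_dvd_of_pow_eq_one hak)
    exact IsPGroup.of_card (n := j) (by rw [Nat.card_zpowers, hj])
  obtain ⟨R, hR, haR⟩ := exists_isMaxP_ge (zpowers_le.2 (hzxM ha)) hzp
  have hrdG : r ∣ Nat.card G := hrd.trans (orderOf_dvd_natCard x)
  have hr2' : r ≠ 2 := prime_odd hG hr hrdG
  have hnc : ¬ IsCyclic R := by
    intro hc
    apply hr1
    apply hR.prank_of
    intro E hEc hEp
    have h1 : IsCyclic E := by
      haveI : IsCyclic ↥R := hc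
      infer_instance
    have := card_le_of_cyclic_elem (q := r) ⟨hEc, hEp⟩ h1
    simpa using this
  obtain ⟨B, hBR, -, hBe, hBc⟩ := exists_normal_sq hr2' hR.isP hnc
  have hBM : B ≤ M := hBR.trans hR.le
  have TB : Tau2Setup r B M := Tau2Setup.mk' hG huniq hpl hM hBM hBe hBc hrσ
  have hRB := TB.b_core hR hBR
  have haB : a ∈ centralizer (B : Set G) := hRB (zpowers_le.1 haR)
  have hBa : B ≤ centralizer ({a} : Set G) := by
    intro c hc
    rw [mem_centralizer_singleton_iff]
    exact (Subgroup.mem_centralizer_iff.1 haB c hc)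
  -- `b ∈ O_{r'}(M)`
  have hrβ : r ∉ beta M := fun h => hrσ (alpha_sub_sigma hG huniq hM h.1)
  have hidx := ((s1414_core hG huniq hM (fun q _ _ => hpl q M hM.1)).2.2.2.2 r hr
    (hrd.trans (Subgroup.orderOf_dvd_natCard M hxM)) hrβ).2.2
  have hbO : b ∈ Oq' r M := by
    refine mem_Oq'_of_primes_gt hidx (hzxM hb) fun q hq hqb => ?_
    have hqx := hqb.trans (orderOf_dvd_of_mem_zpowers hb)
    have hle : r ≤ q := Nat.minFac_le_of_dvd hq.two_le hqx
    have hne : r ≠ q := by
      intro h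
      have h1 : q ∣ 1 := by
        have := Nat.dvd_gcd hqb (h ▸ dvd_rfl : q ∣ r)
        rwa [hbc] at this
      exact hq.one_lt.ne' (Nat.dvd_one.1 h1)
    exact lt_of_le_of_ne hle hne
  have hnormσ : ∀ m ∈ M, m ∈ normalizer (sigmaCore M : Set G) := fun m hm => le_normalizer_piCoreOf (sigma M) M hm
  have hbCa : b ∈ centralizer ({a} : Set G) := by
    rw [mem_centralizer_singleton_iff]
    exact (comm_of_isCyclic inferInstance hb ha)
  set N₂ := sigmaCore M ⊓ centralizer ({a} : Set G) with hN₂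
  set Y₂ := N₂ ⊔ B with hY₂
  have hbN₂ : b ∈ normalizer (N₂ : Set G) :=
    Cfsg.Agent.Lib.Basic.mem_normalizer_inf' (hnormσ b (hzxM hb)) (Subgroup.le_normalizer hbCa)
  have hBN₂ : B ≤ normalizer (N₂ : Set G) := fun c hc =>
    Cfsg.Agent.Lib.Basic.mem_normalizer_inf' (hnormσ c (hBM hc)) (Subgroup.le_normalizer (hBa hc))
  have hY₂C : Y₂ ≤ centralizer ({a} : Set G) := sup_le inf_le_right hBa
  have hY₂M : Y₂ ≤ M := sup_le (inf_le_left.trans (piCoreOf_le _ _)) hBM
  have hbY : b ∈ normalizer (Y₂ : Set G) := by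
    apply mem_normalizer_of_conj_le
    have key : Y₂.map (MulAut.conj b).toMonoidHom ≤ Y₂ := by
      rw [hY₂, Subgroup.map_sup]
      refine sup_le ?_ ?_
      · rw [(conj_map_eq_iff_mem_normalizer _ b).2 hbN₂]
        exact le_sup_left
      · rintro _ ⟨c, hc, rfl⟩
        have h1 := TB.comm_mod_sigma hbO hc
        have hcC := hBa hc
        have h2 : b * c * b⁻¹ * c⁻¹ ∈ centralizer ({a} : Set G) :=
          Subgroup.mul_mem _ (Subgroup.mul_mem _ (Subgroup.mul_mem _ hbCa hcC) (Subgroup.inv_mem _ hbCa))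
            (Subgroup.inv_mem _ hcC)
        have h3 : b * c * b⁻¹ * c⁻¹ ∈ N₂ := ⟨h1, h2⟩
        have e' : (MulAut.conj b).toMonoidHom c = (b * c * b⁻¹ * c⁻¹) * c := by
          simp [MulAut.conj_apply]
        rw [e']
        exact Subgroup.mul_mem_sup h3 hc
    intro u hu
    exact key ⟨u, hu, by simp [MulAut.conj_apply]⟩
  have hzb : zpowers b ≤ normalizer (Y₂ : Set G) := zpowers_le.2 hbY
  have hσc : (Nat.card (sigmaCore M)).Coprime (orderOf b) := by
    refine Nat.coprime_of_dvd fun q hq h1 h2 => ?_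
    have hqσ : q ∈ sigma M := (s1350_core hG huniq hM).1.2.1 q hq h1
    exact (hτ q hq (h2.trans (orderOf_dvd_of_mem_zpowers hb))).2.1 hqσ
  have hY₂c : (Nat.card Y₂).Coprime (orderOf b) := by
    refine coprime_card_sup hBN₂ (Nat.Coprime.coprime_dvd_left (Subgroup.card_dvd_of_le inf_le_left) hσc) ?_
    rw [hBc]
    exact Nat.Coprime.pow_left 2 hbc.symm
  have hcop : (Nat.card (zpowers b)).Coprime (Nat.card Y₂) := by
    rw [Nat.card_zpowers]
    exact hY₂c.symm
  have hsolv : Group.IsSolvable (zpowers b) :=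
    isSolvable_of_comm (fun u v => Subtype.ext (comm_of_isCyclic inferInstance u.2 v.2))
  obtain ⟨P₁, hP₁⟩ := exists_invariant_sylow hzb hcop (Or.inl hsolv) r
  have hP₁m := isMaxP_map P₁
  obtain ⟨n, hn, hle⟩ := hP₁m.exists_conj_le (le_sup_right : B ≤ Y₂) TB.S.hAp
  set E₁ := B.map (MulAut.conj n).toMonoidHom with hE₁
  have hnM : n ∈ M := hY₂M hn
  have hnC : n ∈ centralizer ({a} : Set G) := hY₂C hn
  have hE₁M : E₁ ≤ M := by
    have := conj_map_mono hBM n
    rwa [(conj_map_eq_iff_mem_normalizer M n).2 (Subgroup.le_normalizer hnM)] at this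
  have hE₁a : E₁ ≤ centralizer ({a} : Set G) := by
    have := conj_map_mono hBa n
    rwa [(conj_map_eq_iff_mem_normalizer _ n).2 (Subgroup.le_normalizer hnC)] at this
  have hE₁e : IsElementaryAbelian r E₁ := isElementaryAbelian_map _ hBe
  have hE₁c : Nat.card E₁ = r ^ 2 := by
    rw [hE₁, Cfsg.Agent.Lib.Coprime.card_conj_map, hBc]
  have TE : Tau2Setup r E₁ M := Tau2Setup.mk' hG huniq hpl hM hE₁M hE₁e hE₁c hrσ
  obtain ⟨R', hR', hP₁R'⟩ := exists_isMaxP_ge (hP₁m.le.trans hY₂M) hP₁m.isP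
  have hE₁R' : E₁ ≤ R' := hle.trans hP₁R'
  have hbE₁ : b ∈ normalizer (E₁ : Set G) := by
    apply mem_normalizer_of_conj_le
    intro u hu
    have h1 := (Subgroup.mem_normalizer_iff.1 (hP₁ (mem_zpowers b)) u).1 (hle hu)
    refine (TE.omega_iff hR' hE₁R' (hP₁R' h1)).1 ?_
    rw [conj_pow, hE₁e.2 u hu]
    simp
  have hbcomm : ∀ u ∈ E₁, b * u = u * b := by
    intro u hu
    have h1 := TE.comm_mod_sigma hbO hu
    have h2 : b * u * b⁻¹ * u⁻¹ ∈ E₁ :=
      E₁.mul_mem ((Subgroup.mem_normalizer_iff.1 hbE₁ u).1 hu) (E₁.inv_mem hu)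
    have h3 : b * u * b⁻¹ * u⁻¹ ∈ E₁ ⊓ sigmaCore M := ⟨h2, h1⟩
    rw [TE.inf_sigmaCore, Subgroup.mem_bot] at h3
    have h4 : b * u * b⁻¹ = u := mul_inv_eq_one.1 h3
    calc b * u = b * u * b⁻¹ * b := by group
      _ = u * b := by rw [h4]
  have hE₁x : E₁ ≤ centralizer ({x} : Set G) := by
    intro u hu
    rw [mem_centralizer_singleton_iff]
    have h1 : u * a = a * u := mem_centralizer_singleton_iff.1 (hE₁a hu)
    have h2 := hbcomm u hu
    rw [e]
    calc u * (a * b) = (u * a) * b := by group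
      _ = a * (u * b) := by rw [h1]; group
      _ = a * (b * u) := by rw [h2]
      _ = _ := by group
  have hyC : y ∈ centralizer ({x} : Set G) := by
    rw [mem_centralizer_singleton_iff]
    exact hxy.symm
  have huq : ∀ L : Subgroup G, IsCoatom L → centralizer ({x} : Set G) ≤ L → L = M := by
    intro L hL hCL
    by_contra hne
    have h0 := TE.e hL hne (hE₁x.trans hCL)
    have h1 : y ∈ sigmaCore M ⊓ L := ⟨hy, hCL hyC⟩
    rw [h0] at h1
    exact hy1 (Subgroup.mem_bot.1 h1)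
  refine ⟨?_, huq⟩
  obtain ⟨L, hL, hCL⟩ := exists_coatom_ge (centralizer_singleton_ne_top hG hx1)
  rw [← huq L hL hCL]
  exact hCL

end Cfsg.Agent.Lib.FT
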