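import Cfsg.Agent.Lib.FT.BG11l

/-!
BG section 12: the assembled `S1417`, and the structure of `M` when Sylow `p`-subgroups of `G` are not abelian
(`S1419`); both use the structure of Sylow subgroups of rank two as a hypothesis.
-/

set_option autoImplicit false
set_option linter.unusedSectionVars false
set_option linter.style.haveILetI false

namespace Cfsg.Agent.Lib.FT

open Subgroup Cfsg Cfsg.Agent.Lib.OddLocal Cfsg.Agent.Lib.Basic

open scoped commutatorElement Pointwise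

open Cfsg.Agent.Lib.Coprime (mem_conj_map conj_mem_conj_map conj_map_conj_map conj_map_one
  conj_map_mono mem_normalizer_of_conj_le conj_map_eq_iff_mem_normalizer)

variable {G : Type*} [Group G] [Finite G]

theorem s1417_core (hG : IsMinSimpleOddOrder G) (huniq : UniquenessThm G)
    (hpl : ∀ (r : ℕ) [Fact r.Prime] (H : Subgroup G), H ≠ ⊤ → PLengthLE r 1 ↥H) (h1412 : Sylow2Struct G)
    (M : Subgroup G) (hM : IsCoatom M) (p : ℕ) [Fact p.Prime] (hp : p ∈ tau2 M) (A : Subgroup G)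
    (hA : A ≤ M ∧ IsElementaryAbelian p A ∧ Nat.card A = p ^ 2) :
    Group.IsNilpotent (sigmaCore M) ∧
      (∀ P : Sylow p M, IsMulCommutative (P : Subgroup M) ∧
        (A ≤ (P : Subgroup M).map M.subtype →
          (∀ x ∈ (P : Subgroup M).map M.subtype, x ^ p = 1 ↔ x ∈ A) ∧
          ¬ Subgroup.normalizer (((P : Subgroup M).map M.subtype : Subgroup G) : Set G) ≤ M)) ∧
      M ≤ Subgroup.normalizer ((sigmaCore M ⊔ A : Subgroup G) : Set G) ∧
      sigmaCore M ⊓ Subgroup.centralizer (A : Set G) = ⊥ ∧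
      (∀ Mstar : Subgroup G, IsCoatom Mstar → Mstar ≠ M → A ≤ Mstar → sigmaCore M ⊓ Mstar = ⊥) ∧
      ∃ A₁ : Subgroup G, A₁ ≤ A ∧ Nat.card A₁ = p ∧ sigmaCore M ⊓ Subgroup.centralizer (A₁ : Set G) = ⊥ := by
  classical
  have T : Tau2Setup p A M := Tau2Setup.mk' hG huniq hpl hM hA.1 hA.2.1 hA.2.2 hp.2.1
  refine ⟨T.nil, ?_, T.c_core, T.d, fun H hH hne hAH => T.e hH hne hAH, ?_⟩
  · intro P
    constructor
    · refine ⟨⟨fun x y => Subtype.ext ?_⟩⟩
      have h := comm_of_not_sigma hG huniq hpl h1412 hM hp.2.1 (Subgroup.map_subtype_le _)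
        ((P : Sylow p M).isPGroup'.map M.subtype) (Subgroup.mem_map_of_mem _ x.2) (Subgroup.mem_map_of_mem _ y.2)
      exact Subtype.ext h
    · intro hAP
      exact ⟨fun x hx => T.omega_iff (isMaxP_map P) hAP hx, T.not_norm_le (isMaxP_map P)⟩
  · obtain ⟨a, ha, ha1, hf⟩ := T.f
    refine ⟨zpowers a, zpowers_le.2 ha, ?_, ?_⟩
    · rw [Nat.card_zpowers, T.S.ord ha ha1]
    · rw [centralizer_zpowers_eq]
      exact hf

theorem exists_pow_order_sq {u : G} {p : ℕ} (hn : ∃ n, u ^ p ^ n = 1) (h : u ^ p ≠ 1) :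
    ∃ k, (u ^ p ^ k) ^ p ≠ 1 ∧ ((u ^ p ^ k) ^ p) ^ p = 1 := by
  classical
  let m := Nat.find hn
  have hm : u ^ p ^ m = 1 := Nat.find_spec hn
  have hm0 : m ≠ 0 := by
    intro h0
    rw [h0, pow_zero, pow_one] at hm
    exact h (by rw [hm, one_pow])
  have hm1 : m ≠ 1 := by
    intro h0
    rw [h0, pow_one] at hm
    exact h hm
  obtain ⟨k, hk⟩ : ∃ k, m = k + 2 := ⟨m - 2, by omega⟩
  have hmin : u ^ p ^ (k + 1) ≠ 1 := Nat.find_min hn (m := k + 1) (by omega)
  refine ⟨k, ?_, ?_⟩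
  · rwa [← pow_mul, ← pow_succ]
  · rw [← pow_mul, ← pow_mul, ← pow_two, ← pow_add, ← hk]
    exact hm

namespace Tau2Setup

variable {p : ℕ} [hpf : Fact p.Prime] {A M : Subgroup G} (T : Tau2Setup p A M)

include T

/-- A `p`-element moving `A`: the data from a non-abelian Sylow subgroup. -/
theorem exists_move (h1412 : Sylow2Struct G) (hS : ∀ S : Sylow p G, ¬ IsMulCommutative (S : Subgroup G)) {P : Subgroup G}
    (hP : IsMaxP p P M) (hAP : A ≤ P) :
    ∃ t : G, t ∈ normalizer (P : Set G) ∧ t ∉ M ∧ IsPGroup p (zpowers t) ∧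
      (∃ Y : Subgroup G, IsCyclic Y ∧ ∀ x ∈ P, x ^ p ∈ Y) := by
  classical
  obtain ⟨Pst, hPst⟩ := hP.isP.exists_le_sylow
  obtain ⟨hPab, hYor⟩ := T.abelian_struct h1412 hP hAP Pst hPst
  have hY := hYor.resolve_left (hS Pst)
  have hne : P ≠ (Pst : Subgroup G) := by
    intro e
    apply hS Pst
    rw [← e]
    exact hPab
  have hlt : P < (Pst : Subgroup G) := lt_of_le_of_ne hPst hne
  have hgrow := lt_inf_normalizer Pst.isPGroup' hlt
  obtain ⟨t, ht, htP⟩ := SetLike.exists_of_lt hgrow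
  refine ⟨t, ht.2, ?_, Pst.isPGroup'.to_le (zpowers_le.2 ht.1), hY⟩
  intro htM
  have hle : P ⊔ zpowers t ≤ M := sup_le hP.le (zpowers_le.2 htM)
  have hpg : IsPGroup p ↥(P ⊔ zpowers t) := Pst.isPGroup'.to_le (sup_le hPst (zpowers_le.2 ht.1))
  have e := hP.max _ hle hpg le_sup_left
  apply htP
  rw [← e]
  exact (le_sup_right : zpowers t ≤ P ⊔ zpowers t) (mem_zpowers t)

/-- `τ₂(M) = {p}`, from a `p`-element moving `A`. -/
theorem tau2_eq_of_move {E : Subgroup G} (hE : IsComplIn E (sigmaCore M) M) (hAE : A ≤ E) {t : G} (htN : t ∈ normalizer (A : Set G))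
    (htp : IsPGroup p (zpowers t)) (htM : t ∉ M) {r : ℕ} (hr : r ∈ tau2 M) : r = p := by
  classical
  by_contra hrp
  obtain ⟨hrr, hrσ, hr2, hr1⟩ := hr
  haveI : Fact r.Prime := ⟨hrr⟩
  have hS := T.S
  have htC : t ∉ centralizer (A : Set G) := fun h => htM (T.hCM h)
  -- an `E_{r²}` in `E`
  have hr3 : ∃ B : Subgroup G, B ≤ E ∧ IsElementaryAbelian r B ∧ Nat.card B = r ^ 2 := by
    obtain ⟨R₁, hR₁, -⟩ := exists_isMaxP_ge (T := ⊥) (N := E) bot_le IsPGroup.of_bot
    have hR₁M : IsMaxP r R₁ M := by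
      refine ⟨hR₁.le.trans hE.1, hR₁.isP, fun D' h1 h2 h3 => ?_⟩
      have hcardM := IsComplIn_card_eq hE
      obtain ⟨j, hj⟩ := IsPGroup.iff_card.1 h2
      have hd : r ^ j ∣ Nat.card E * Nat.card (sigmaCore M) := by
        rw [← hcardM, ← hj]
        exact Subgroup.card_dvd_of_le h1
      have hcop : Nat.Coprime (r ^ j) (Nat.card (sigmaCore M)) := by
        refine Nat.Coprime.pow_left j ?_
        rw [Nat.Prime.coprime_iff_not_dvd hrr]
        exact fun h => hrσ ((s1350_core hS.hG hS.huniq T.hM).1.2.1 r hrr h)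
      have hd2 : r ^ j ∣ Nat.card E := hcop.dvd_of_dvd_mul_right hd
      have hd3 : r ^ j ∣ Nat.card (hR₁.toSylow : Subgroup ↥E) := hR₁.toSylow.pow_dvd_card_of_pow_dvd_card hd2
      have hcR : Nat.card (hR₁.toSylow : Subgroup ↥E) = Nat.card R₁ :=
        Cfsg.Agent.Lib.OddLocal.card_subgroupOf_of_le hR₁.le
      rw [hcR, ← hj] at hd3
      exact (Subgroup.eq_of_le_of_card_ge h3 (Nat.le_of_dvd Nat.card_pos hd3)).symm
    have hnc : ¬ IsCyclic R₁ := by
      intro hc
      apply hr1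
      apply hR₁M.prank_of
      intro F hFc hFp
      have h1 : IsCyclic F := by
        haveI : IsCyclic ↥R₁ := hc
        infer_instance
      have := card_le_of_cyclic_elem (q := r) ⟨hFc, hFp⟩ h1
      simpa using this
    have hrd : r ∣ Nat.card G := by
      obtain ⟨F, hF, hFM, hFc⟩ := exists_of_not_prank hr1
      have h1 : 1 < Nat.card F := by
        have : r ^ 1 < Nat.card F := hFc
        have h2 := hrr.one_lt
        simp only [pow_one] at this
        omega
      obtain ⟨n, hn⟩ := IsPGroup.iff_card.1 (isPGroup_of_elem hF)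
      have hn0 : n ≠ 0 := by
        rintro rfl
        rw [pow_zero] at hn
        omega
      have : r ∣ Nat.card F := by
        rw [hn]
        exact dvd_pow_self r hn0
      exact this.trans (Subgroup.card_subgroup_dvd_card F)
    obtain ⟨B, hBR, -, hBe, hBc⟩ := exists_normal_sq (prime_odd hS.hG hrr hrd) hR₁.isP hnc
    exact ⟨B, hBR.trans hR₁.le, hBe, hBc⟩
  obtain ⟨B, hBE, hBe, hBc⟩ := hr3
  have hBM : B ≤ M := hBE.trans hE.1
  have TB : Tau2Setup r B M := Tau2Setup.mk' hS.hG hS.huniq hS.hpl T.hM hBM hBe hBc hrσ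
  have hEA := T.compl_le_normalizer hE hAE
  have hEB := TB.compl_le_normalizer hE hBE
  have hAB0 : A ⊓ B = ⊥ := by
    rw [eq_bot_iff]
    rintro x ⟨h1, h2⟩
    rw [Subgroup.mem_bot]
    exact orderOf_eq_one_iff.1 (Nat.eq_one_of_dvd_coprimes ((Nat.coprime_primes Fact.out hrr).2 (Ne.symm hrp))
      (orderOf_dvd_of_pow_eq_one (hS.hAe.2 x h1)) (orderOf_dvd_of_pow_eq_one (hBe.2 x h2)))
  have hAB : ∀ a ∈ A, ∀ b ∈ B, a * b = b * a := by
    intro a ha b hb
    have h1 : a * b * a⁻¹ * b⁻¹ ∈ B :=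
      B.mul_mem ((Subgroup.mem_normalizer_iff.1 (hEB (hAE ha)) b).1 hb) (B.inv_mem hb)
    have h2 : a * b * a⁻¹ * b⁻¹ ∈ A := by
      have h3 := (Subgroup.mem_normalizer_iff.1 (hEA (hBE hb)) a⁻¹).1 (A.inv_mem ha)
      have e : a * b * a⁻¹ * b⁻¹ = a * (b * a⁻¹ * b⁻¹) := by group
      rw [e]
      exact A.mul_mem ha h3
    have h4 : a * b * a⁻¹ * b⁻¹ ∈ A ⊓ B := ⟨h2, h1⟩
    rw [hAB0, Subgroup.mem_bot] at h4
    have h5 : a * b * a⁻¹ = b := mul_inv_eq_one.1 h4
    calc a * b = a * b * a⁻¹ * a := by group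
      _ = b * a := by rw [h5]
  have hBC : B ≤ centralizer (A : Set G) := fun b hb => by
    rw [Subgroup.mem_centralizer_iff]
    exact fun a ha => hAB a ha b hb
  have hAC : A ≤ centralizer (B : Set G) := fun a ha => by
    rw [Subgroup.mem_centralizer_iff]
    exact fun b hb => (hAB a ha b hb).symm
  have hCE : centralizer (A : Set G) ≤ E := by
    rw [← T.inf_normalizer_eq hE hAE]
    exact le_inf T.hCM (centralizer_le_normalizer' _)
  have htB : t ∈ normalizer (B : Set G) := by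
    apply mem_normalizer_of_conj_le
    intro b hb
    by_cases hb1 : b = 1
    · rw [hb1]
      simp
    have h1 : t * b * t⁻¹ ∈ centralizer (A : Set G) :=
      (Subgroup.mem_normalizer_iff.1 (Cfsg.Agent.Lib.Basic.mem_normalizer_centralizer htN) b).1 (hBC hb)
    have hb'p : (t * b * t⁻¹) ^ r = 1 := by
      rw [conj_pow, hBe.2 b hb]
      simp
    have hb'1 : t * b * t⁻¹ ≠ 1 := by
      intro h
      apply hb1
      have e : b = t⁻¹ * (t * b * t⁻¹) * t := by group
      rw [e, h]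
      group
    have hX : Nat.card (zpowers (t * b * t⁻¹)) = r := by
      rw [Nat.card_zpowers]
      exact orderOf_eq_prime hb'p hb'1
    exact (TB.order_p_le hE hBE (zpowers_le.2 (hCE h1)) hX) (mem_zpowers _)
  obtain ⟨H, hH, hNH⟩ := exists_coatom_ge (IsMinSimpleOddOrder.normalizer_ne_top hS.hG hS.hA1 hS.hAtop)
  have hAH : A ≤ H := Subgroup.le_normalizer.trans hNH
  have htH : t ∈ H := hNH htN
  have hBH : B ≤ H := hBC.trans ((centralizer_le_normalizer' _).trans hNH)
  have hzH : zpowers t ≤ H := zpowers_le.2 htH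
  have hpH : p ∈ sigma H := by
    by_contra hpH
    have TH : Tau2Setup p A H := Tau2Setup.mk' hS.hG hS.huniq hS.hpl hH hAH hS.hAe hS.hAc hpH
    have hsup : IsPGroup p ↥(zpowers t ⊔ A) := htp.to_sup_of_normal_right' hS.hAp (zpowers_le.2 htN)
    obtain ⟨PH, hPH, hle⟩ := exists_isMaxP_ge (sup_le hzH hAH) hsup
    have h1 := TH.b_core hPH (le_sup_right.trans hle)
    exact htC (h1 ((le_sup_left.trans hle) (mem_zpowers t)))
  have hAσ : A ≤ sigmaCore H := le_sigmaCore_of_isPGroup hS.hG hS.huniq hH hpH hS.hAp hAH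
  have hrH : r ∈ sigma H := by
    by_contra hrH
    have TBH : Tau2Setup r B H := Tau2Setup.mk' hS.hG hS.huniq hS.hpl hH hBH hBe hBc hrH
    have h1 := TBH.d
    apply hS.hA1
    rw [eq_bot_iff, ← h1]
    exact le_inf hAσ hAC
  have hnideal : ¬ IsIdealPrime r G := (s1408_core hS.hG hS.huniq T.hM hr2 hr1).1
  have hcardB : r ∣ Nat.card H := by
    have : r ∣ Nat.card B := by
      rw [hBc]
      exact dvd_pow_self r (by norm_num)
    exact this.trans (Subgroup.card_dvd_of_le hBH)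
  have hnc₂ := (s1414_core hS.hG hS.huniq hH (fun q _ _ => hS.hpl q H hH.1)).2.2.2.2 r hrr hcardB
    (not_mem_beta_of_not_ideal hnideal)
  obtain ⟨Y, hYK, hKY, hYc, hYm⟩ := exists_complement_core hnc₂.2.1
  have htσ : t ∈ sigmaCore H :=
    (le_sigmaCore_of_isPGroup hS.hG hS.huniq hH hpH htp hzH) (mem_zpowers t)
  have hBσ : B ≤ sigmaCore H := le_sigmaCore_of_isPGroup hS.hG hS.huniq hH hrH (isPGroup_of_elem hBe) hBH
  have htY : t ∈ Y := by
    refine hYm t htσ ?_
    obtain ⟨k, hk⟩ := IsPGroup.iff_card.1 htp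
    rw [Nat.card_zpowers] at hk
    rw [hk]
    exact Nat.Coprime.pow_left k ((Nat.coprime_primes Fact.out hrr).2 (Ne.symm hrp))
  have hBY : B ⊓ Y = ⊥ := eq_bot_of_isPGroup_of_coprime ((isPGroup_of_elem hBe).to_le inf_le_left) inf_le_right hYc
  have htBC : t ∈ centralizer (B : Set G) := by
    rw [Subgroup.mem_centralizer_iff]
    intro b hb
    have h1 : t * b * t⁻¹ * b⁻¹ ∈ B := B.mul_mem ((Subgroup.mem_normalizer_iff.1 htB b).1 hb) (B.inv_mem hb)
    have h2 : t * b * t⁻¹ * b⁻¹ ∈ Y := by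
      have h3 := (Subgroup.mem_normalizer_iff.1 (hKY (hBσ hb)) t⁻¹).1 (Y.inv_mem htY)
      have e : t * b * t⁻¹ * b⁻¹ = t * (b * t⁻¹ * b⁻¹) := by group
      rw [e]
      exact Y.mul_mem htY h3
    have h4 : t * b * t⁻¹ * b⁻¹ ∈ B ⊓ Y := ⟨h1, h2⟩
    rw [hBY, Subgroup.mem_bot] at h4
    have h5 : t * b * t⁻¹ = b := mul_inv_eq_one.1 h4
    calc b * t = t * b * t⁻¹ * t := by rw [h5]
      _ = t * b := by group
  exact htM (TB.hCM htBC)

end Tau2Setup

/-- **S1419**, from the structure of Sylow subgroups of rank two. -/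
theorem s1419_core (hG : IsMinSimpleOddOrder G) (huniq : UniquenessThm G)
    (hpl : ∀ (r : ℕ) [Fact r.Prime] (H : Subgroup G), H ≠ ⊤ → PLengthLE r 1 ↥H) (h1412 : Sylow2Struct G)
    (M : Subgroup G) (hM : IsCoatom M) (E : Subgroup G) (hE : IsComplIn E (sigmaCore M) M) (p : ℕ) [Fact p.Prime]
    (hp : p ∈ tau2 M) (hS : ∀ S : Sylow p G, ¬ IsMulCommutative (S : Subgroup G)) (A : Subgroup G)
    (hA : A ≤ E ∧ IsElementaryAbelian p A ∧ Nat.card A = p ^ 2) :
    tau2 M = {p} ∧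
      (Nat.card ↥(A ⊓ centralizer (sigmaCore M : Set G)) = p ∧
        fittingOf M = sigmaCore M ⊔ (A ⊓ centralizer (sigmaCore M : Set G))) ∧
      ∀ X : Subgroup G, X ≤ E → Nat.card X = p → X ≠ A ⊓ centralizer (sigmaCore M : Set G) →
        sigmaCore M ⊓ centralizer (X : Set G) = ⊥ ∧ ¬ centralizer (X : Set G) ≤ M := by
  classical
  obtain ⟨hAE, hAe, hAc⟩ := hA
  have T : Tau2Setup p A M := Tau2Setup.mk' hG huniq hpl hM (hAE.trans hE.1) hAe hAc hp.2.1
  have hσ1 := sigmaCore_ne_bot hG huniq hM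
  obtain ⟨P, hP, hAP⟩ := exists_isMaxP_ge T.hAM T.S.hAp
  obtain ⟨t, htP, htM, htp, Y, hYc, hY⟩ := T.exists_move h1412 hS hP hAP
  have htN : t ∈ normalizer (A : Set G) := T.norm_P_le_norm_A hP hAP htP
  have htC : t ∉ centralizer (A : Set G) := fun h => htM (T.hCM h)
  have hPtp : IsPGroup p ↥(zpowers t ⊔ A) := htp.to_sup_of_normal_right' T.S.hAp (zpowers_le.2 htN)
  have hAPt : A ≤ zpowers t ⊔ A := le_sup_right
  have htPt : t ∈ zpowers t ⊔ A := (le_sup_left : zpowers t ≤ zpowers t ⊔ A) (mem_zpowers t)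
  have hPtA : zpowers t ⊔ A ≤ normalizer (A : Set G) := sup_le (zpowers_le.2 htN) Subgroup.le_normalizer
  have hPtP : zpowers t ⊔ A ≤ normalizer (P : Set G) := sup_le (zpowers_le.2 htP) (hAP.trans Subgroup.le_normalizer)
  have hPtnil : Group.IsNilpotent ↥(zpowers t ⊔ A) := hPtp.isNilpotent
  obtain ⟨z₀, hz₀, hz₀1, hz₀c⟩ := exists_central_of_normal hAPt T.S.hA1 hPtnil hPtA
  have hzC : z₀ ∈ centralizer ((zpowers t ⊔ A : Subgroup G) : Set G) := by
    rw [Subgroup.mem_centralizer_iff]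
    exact fun w hw => (hz₀c w hw).symm
  have hZ : ∀ u ∈ A, u ∈ centralizer ((zpowers t ⊔ A : Subgroup G) : Set G) → u ∈ zpowers z₀ := by
    intro u hu huC
    have hz₀' : z₀ ∈ A ⊓ centralizer ((zpowers t ⊔ A : Subgroup G) : Set G) := ⟨hz₀, hzC⟩
    rcases T.S.cases_of_le inf_le_left hz₀' hz₀1 with e | e
    · exfalso
      apply htC
      rw [Subgroup.mem_centralizer_iff]
      intro a ha
      have h1 : a ∈ A ⊓ centralizer ((zpowers t ⊔ A : Subgroup G) : Set G) := by
        rw [e]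
        exact ha
      exact (Subgroup.mem_centralizer_iff.1 h1.2 t htPt).symm
    · rw [← e]
      exact ⟨hu, huC⟩
  have hmove := fun (a b : G) (ha : a ∈ A) (haz : a ∉ zpowers z₀) (hb : b ∈ A) (hbz : b ∉ zpowers z₀) =>
    T.S.exists_conj_line hPtp hAPt hPtA hz₀ hz₀1 hzC hZ ha haz hb hbz
  have huM : ∀ u ∈ zpowers t ⊔ A, u ∈ M → u ∈ centralizer (A : Set G) := by
    intro u hu huM
    have hzu : IsPGroup p (zpowers u) := hPtp.to_le (zpowers_le.2 hu)
    have hsup : IsPGroup p ↥(zpowers u ⊔ P) := hzu.to_sup_of_normal_right' hP.isP (zpowers_le.2 (hPtP hu))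
    have e := hP.max _ (sup_le (zpowers_le.2 huM) hP.le) hsup le_sup_right
    have huP : u ∈ P := by
      rw [← e]
      exact (le_sup_left : zpowers u ≤ zpowers u ⊔ P) (mem_zpowers u)
    exact T.b_core hP hAP huP
  have htz₀ : t ∈ centralizer ({z₀} : Set G) := by
    rw [mem_centralizer_singleton_iff]
    exact (hz₀c t htPt).symm
  have hz₀f : sigmaCore M ⊓ centralizer ({z₀} : Set G) = ⊥ := by
    by_contra h
    exact htM (T.cent_le hz₀ hz₀1 h htz₀)
  have hnotz : ∀ a ∈ A, a ≠ 1 → sigmaCore M ⊓ centralizer ({a} : Set G) ≠ ⊥ → a ∉ zpowers z₀ := by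
    intro a _ ha1 hne h
    rw [T.S.cent_eq_of_mem hz₀ h ha1] at hne
    exact hne hz₀f
  have hone : ∀ a ∈ A, a ≠ 1 → sigmaCore M ⊓ centralizer ({a} : Set G) ≠ ⊥ →
      ∀ b ∈ A, b ≠ 1 → sigmaCore M ⊓ centralizer ({b} : Set G) ≠ ⊥ → b ∈ zpowers a := by
    intro a ha ha1 hane b hb hb1 hbne
    by_contra hba
    obtain ⟨u, hu, hua, hu1⟩ := hmove a b ha (hnotz a ha ha1 hane) hb (hnotz b hb hb1 hbne)
    have hu'A : u * a * u⁻¹ ∈ A := (Subgroup.mem_normalizer_iff.1 (hPtA hu) a).1 ha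
    have e := T.S.cent_eq_of_mem hb hua hu1
    have huM' : u ∈ M := T.S.conj_mem_of_uniq T.hM (T.cent_le ha ha1 hane) (T.uniq hu'A (by
      rw [e]
      exact hbne))
    have hc := Subgroup.mem_centralizer_iff.1 (huM u hu huM') a ha
    have h3 : u * a * u⁻¹ = a := by
      rw [← hc]
      group
    rw [h3] at hua
    have e2 := T.S.zpowers_eq_of_mem hb hua ha1
    exact hba (e2 ▸ mem_zpowers b)
  haveI := hAe.1
  have hgen := generation_by_centralizers A (sigmaCore M) T.S.not_cyclic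
    (T.hAM.trans (le_normalizer_piCoreOf _ _)) (T.S.cA_coprime (T.S.sigmaCore_coprime T.hM T.hpσ))
  have hex : ∃ a₀ ∈ A, a₀ ≠ 1 ∧ sigmaCore M ⊓ centralizer ({a₀} : Set G) ≠ ⊥ := by
    by_contra hcon
    push Not at hcon
    apply hσ1
    rw [← hgen]
    simp only [iSup_eq_bot]
    rintro a ⟨ha, ha1⟩
    exact hcon a ha ha1
  obtain ⟨a₀, ha₀, ha₀1, ha₀ne⟩ := hex
  have hσa₀ : sigmaCore M ≤ centralizer ({a₀} : Set G) := by
    refine hgen.symm.le.trans (iSup₂_le ?_)
    rintro a ⟨ha, ha1⟩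
    by_cases h : sigmaCore M ⊓ centralizer ({a} : Set G) = ⊥
    · rw [h]
      exact bot_le
    · have hm := hone a₀ ha₀ ha₀1 ha₀ne a ha ha1 h
      rw [T.S.cent_eq_of_mem ha₀ hm ha1]
      exact inf_le_right
  have ha₀C : a₀ ∈ centralizer (sigmaCore M : Set G) := by
    rw [Subgroup.mem_centralizer_iff]
    intro y hy
    exact (mem_centralizer_singleton_iff.1 (hσa₀ hy))
  have hA₀ : A ⊓ centralizer (sigmaCore M : Set G) = zpowers a₀ := by
    refine le_antisymm ?_ (zpowers_le.2 ⟨ha₀, ha₀C⟩)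
    rintro x ⟨hx, hxC⟩
    by_cases hx1 : x = 1
    · rw [hx1]
      exact one_mem _
    · refine hone a₀ ha₀ ha₀1 ha₀ne x hx hx1 ?_
      intro h
      apply hσ1
      rw [eq_bot_iff, ← h]
      refine le_inf le_rfl fun y hy => ?_
      rw [mem_centralizer_singleton_iff]
      exact Subgroup.mem_centralizer_iff.1 hxC y hy
  have hcardA₀ : Nat.card ↥(A ⊓ centralizer (sigmaCore M : Set G)) = p := by
    rw [hA₀, Nat.card_zpowers, T.S.ord ha₀ ha₀1]
  have hτ : ∀ r ∈ tau2 M, r = p := fun r hr => T.tau2_eq_of_move hE hAE htN htp htM hr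
  refine ⟨Set.ext fun r => ⟨fun hr => hτ r hr, fun h => by
    rw [Set.mem_singleton_iff] at h
    rw [h]
    exact hp⟩, ⟨hcardA₀, ?_⟩, ?_⟩
  · -- the Fitting subgroup
    have hA₀M : A ⊓ centralizer (sigmaCore M : Set G) ≤ M := inf_le_left.trans T.hAM
    have hMN : M ≤ normalizer ((A ⊓ centralizer (sigmaCore M : Set G) : Subgroup G) : Set G) := by
      intro m hm
      obtain ⟨e, he, u, hu, rfl⟩ := hE.2.2.2 m hm
      refine Subgroup.mul_mem _ ?_ ?_
      · exact Cfsg.Agent.Lib.Basic.mem_normalizer_inf' (T.compl_le_normalizer hE hAE he)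
          (Cfsg.Agent.Lib.Basic.mem_normalizer_centralizer (le_normalizer_piCoreOf (sigma M) M (hE.1 he)))
      · apply mem_normalizer_of_conj_le
        rintro x ⟨hx, hxC⟩
        have e1 : u * x * u⁻¹ = x := by
          have h := Subgroup.mem_centralizer_iff.1 hxC u hu
          rw [h]
          group
        rw [e1]
        exact ⟨hx, hxC⟩
    have hnilA₀ : Group.IsNilpotent ↥(A ⊓ centralizer (sigmaCore M : Set G)) :=
      (T.S.hAp.to_le inf_le_left).isNilpotent
    have hkey : ∀ S₀ : Subgroup G, IsPGroup p S₀ → S₀ ≤ M → M ≤ normalizer (S₀ : Set G) →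
        S₀ ≤ A ⊓ centralizer (sigmaCore M : Set G) := by
      intro S₀ hS₀p hS₀M hMS₀
      have hS₀P : S₀ ≤ P := by
        obtain ⟨m, hm, hle⟩ := hP.exists_conj_le hS₀M hS₀p
        have e : S₀.map (MulAut.conj m).toMonoidHom = S₀ := (conj_map_eq_iff_mem_normalizer S₀ m).2 (hMS₀ hm)
        rwa [e] at hle
      have hS₀C : S₀ ≤ centralizer (sigmaCore M : Set G) := by
        intro u hu
        rw [Subgroup.mem_centralizer_iff]
        intro y hy
        have hbot : S₀ ⊓ sigmaCore M = ⊥ := eq_bot_of_isPGroup_of_coprime (hS₀p.to_le inf_le_left) inf_le_right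
          (T.S.sigmaCore_coprime T.hM T.hpσ)
        have h1 : u * y * u⁻¹ * y⁻¹ ∈ sigmaCore M := (sigmaCore M).mul_mem
          ((Subgroup.mem_normalizer_iff.1 (le_normalizer_piCoreOf _ _ (hS₀M hu)) y).1 hy) ((sigmaCore M).inv_mem hy)
        have h2 : u * y * u⁻¹ * y⁻¹ ∈ S₀ := by
          have h3 := (Subgroup.mem_normalizer_iff.1 (hMS₀ (piCoreOf_le _ _ hy)) u⁻¹).1 (S₀.inv_mem hu)
          have e : u * y * u⁻¹ * y⁻¹ = u * (y * u⁻¹ * y⁻¹) := by group
          rw [e]
          exact S₀.mul_mem hu h3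
        have h4 : u * y * u⁻¹ * y⁻¹ ∈ S₀ ⊓ sigmaCore M := ⟨h2, h1⟩
        rw [hbot, Subgroup.mem_bot] at h4
        have h5 : u * y * u⁻¹ = y := mul_inv_eq_one.1 h4
        calc y * u = u * y * u⁻¹ * u := by rw [h5]
          _ = u * y := by group
      have hS₀p1 : ∀ u ∈ S₀, u ^ p = 1 := by
        intro u hu
        by_contra hu1
        obtain ⟨n, hn⟩ := hS₀p ⟨u, hu⟩
        have hn' : u ^ p ^ n = 1 := by simpa using congrArg Subtype.val hn
        obtain ⟨k, h1, h2⟩ := exists_pow_order_sq ⟨n, hn'⟩ hu1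
        have hwS : u ^ p ^ k ∈ S₀ := S₀.pow_mem hu _
        generalize u ^ p ^ k = w at h1 h2 hwS
        have hwP := hS₀P hwS
        have hvS : w ^ p ∈ S₀ := S₀.pow_mem hwS _
        have hvA : w ^ p ∈ A := (T.omega_iff hP hAP (hS₀P hvS)).1 h2
        have hvne : sigmaCore M ⊓ centralizer ({w ^ p} : Set G) ≠ ⊥ := by
          intro h
          apply hσ1
          rw [eq_bot_iff, ← h]
          refine le_inf le_rfl fun y hy => ?_
          rw [mem_centralizer_singleton_iff]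
          exact Subgroup.mem_centralizer_iff.1 (hS₀C hvS) y hy
        have hv'P : t * w ^ p * t⁻¹ ∈ P := (Subgroup.mem_normalizer_iff.1 htP _).1 (hS₀P hvS)
        have hv'e : t * w ^ p * t⁻¹ = (t * w * t⁻¹) ^ p := (conj_pow).symm
        have hv'p : (t * w ^ p * t⁻¹) ^ p = 1 := by
          rw [conj_pow, h2]
          simp
        have hv'A : t * w ^ p * t⁻¹ ∈ A := (T.omega_iff hP hAP hv'P).1 hv'p
        have hv'1 : t * w ^ p * t⁻¹ ≠ 1 := by
          intro h
          apply h1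
          have e : w ^ p = t⁻¹ * (t * w ^ p * t⁻¹) * t := by group
          rw [e, h]
          group
        have hvY : w ^ p ∈ Y := hY w hwP
        have hv'Y : t * w ^ p * t⁻¹ ∈ Y := by
          rw [hv'e]
          exact hY _ ((Subgroup.mem_normalizer_iff.1 htP _).1 hwP)
        have hz : t * w ^ p * t⁻¹ ∈ zpowers (w ^ p) := by
          exact mem_zpowers_of_cyclic hYc hvY hv'Y h1 h2 hv'p
        have e := T.S.cent_eq_of_mem hvA hz hv'1
        exact htM (T.S.conj_mem_of_uniq T.hM (T.cent_le hvA h1 hvne) (T.uniq hv'A (by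
          rw [e]
          exact hvne)))
      intro u hu
      exact ⟨(T.omega_iff hP hAP (hS₀P hu)).1 (hS₀p1 u hu), hS₀C hu⟩
    refine le_antisymm ?_ (sup_le (le_fittingOf (piCoreOf_le _ _) (le_normalizer_piCoreOf _ _) T.nil)
      (le_fittingOf hA₀M hMN hnilA₀))
    apply le_of_isPGroup_le
    intro q _ _ Q hQ hQF
    by_cases hqσ : q ∈ sigma M
    · exact (le_sigmaCore_of_isPGroup hG huniq hM hqσ hQ (hQF.trans (fittingOf_le M))).trans le_sup_left
    by_cases hQ1 : Q = ⊥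
    · rw [hQ1]
      exact bot_le
    have hFnil : Group.IsNilpotent (fittingOf M) := fittingOf_isNilpotent M
    have hS₀q : IsPGroup q (Oq q (fittingOf M)) := Oq_isPGroup q _
    have hQS₀ : Q ≤ Oq q (fittingOf M) := by
      intro x hx
      obtain ⟨k, hk⟩ := hQ ⟨x, hx⟩
      exact mem_Oq hFnil (hQF hx) (k := k) (by simpa using congrArg Subtype.val hk)
    have hS₀M : Oq q (fittingOf M) ≤ M := (Oq_le q _).trans (fittingOf_le M)
    have hMS₀ : M ≤ normalizer (Oq q (fittingOf M) : Set G) := fun m hm =>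
      mem_normalizer_Oq hFnil (fittingOf_normalized M hm)
    generalize Oq q (fittingOf M) = S₀ at hS₀q hQS₀ hS₀M hMS₀
    have hS₀1 : S₀ ≠ ⊥ := fun h => hQ1 (by
      rw [eq_bot_iff, ← h]
      exact hQS₀)
    have hS₀top : S₀ ≠ ⊤ := fun h => hM.1 (top_le_iff.1 (h ▸ hS₀M))
    obtain ⟨R, hR, hS₀R⟩ := exists_isMaxP_ge hS₀M hS₀q
    have hqS₀ : q ∣ Nat.card S₀ := by
      obtain ⟨n, hn⟩ := IsPGroup.iff_card.1 hS₀q
      rw [hn]
      refine dvd_pow_self q ?_
      rintro rfl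
      rw [pow_zero] at hn
      exact hS₀1 ((Subgroup.card_eq_one).1 hn)
    have hqdvd : q ∣ Nat.card M := hqS₀.trans (Subgroup.card_dvd_of_le hS₀M)
    have hNR : ¬ normalizer (R : Set G) ≤ M := fun h => hqσ (mem_sigma_of_normalizer_le hR hqdvd h)
    obtain ⟨g, hg, hgM⟩ := SetLike.not_le_iff_exists.1 hNR
    have hRnc : ¬ IsCyclic R := by
      intro hc
      obtain ⟨z, hzo⟩ := exists_prime_orderOf_dvd_card' q hqS₀
      have hzS : (z : G) ∈ S₀ := z.2
      have hz1 : (z : G) ≠ 1 := by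
        intro h
        have h1 : z = 1 := Subtype.ext h
        rw [h1, orderOf_one] at hzo
        exact (Fact.out : q.Prime).one_lt.ne hzo
      have hzq : (z : G) ^ q = 1 := by
        have h1 := pow_orderOf_eq_one z
        rw [hzo] at h1
        simpa using congrArg Subtype.val h1
      have hmem : ∀ x : G, x * z * x⁻¹ ∈ R → x ∈ normalizer ((zpowers (z : G) : Subgroup G) : Set G) := by
        intro x hx
        apply mem_normalizer_of_conj_le
        intro b hb
        obtain ⟨n, rfl⟩ := Subgroup.mem_zpowers_iff.1 hb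
        rw [← conj_zpow]
        refine (zpowers (z : G)).zpow_mem ?_ n
        refine mem_zpowers_of_cyclic hc (hS₀R hzS) hx hz1 hzq ?_
        rw [conj_pow, hzq]
        simp
      have hMz : M ≤ normalizer ((zpowers (z : G) : Subgroup G) : Set G) := fun m hm =>
        hmem m (hS₀R ((Subgroup.mem_normalizer_iff.1 (hMS₀ hm) _).1 hzS))
      have hz1' : zpowers (z : G) ≠ ⊥ := by
        rw [Ne, Subgroup.zpowers_eq_bot]
        exact hz1
      have hztop : zpowers (z : G) ≠ ⊤ := fun h => hM.1 (top_le_iff.1 (h ▸ zpowers_le.2 (hS₀M hzS)))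
      have hNz := coatom_normalizer_eq hG hM hz1' hztop hMz
      apply hgM
      rw [← hNz]
      exact hmem g ((Subgroup.mem_normalizer_iff.1 hg _).1 (hS₀R hzS))
    have hq2 : q ≠ 2 := prime_odd hG Fact.out (hqdvd.trans (Subgroup.card_subgroup_dvd_card M))
    have hqτ : q ∈ tau2 M := ⟨Fact.out, hqσ, prank_of_not_sigma hG huniq hM hqσ, fun h =>
      not_prank_one_of_not_cyclic hq2 hR.isP hRnc
        (prank_of_injective (Subgroup.inclusion hR.le) (Subgroup.inclusion_injective _) h)⟩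
    have hqp := hτ q hqτ
    exact (hQS₀.trans (hkey S₀ (hqp ▸ hS₀q) hS₀M hMS₀)).trans le_sup_right
  · intro X hXE hXc hXne
    have hXA := T.order_p_le hE hAE hXE hXc
    have hX1 : X ≠ ⊥ := by
      rintro rfl
      rw [Subgroup.card_bot] at hXc
      exact (Fact.out : p.Prime).one_lt.ne hXc
    obtain ⟨x, hx, hx1⟩ := X.bot_or_exists_ne_one.resolve_left hX1
    have hXx : X = zpowers x := by
      refine (Subgroup.eq_of_le_of_card_ge (zpowers_le.2 hx) ?_).symm
      rw [hXc, Nat.card_zpowers, T.S.ord (hXA hx) hx1]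
    subst hXx
    have hxA : x ∈ A := hXA hx
    have hxna₀ : x ∉ zpowers a₀ := by
      intro h
      apply hXne
      rw [hA₀]
      exact T.S.zpowers_eq_of_mem ha₀ h hx1
    rw [centralizer_zpowers_eq]
    have hfx : sigmaCore M ⊓ centralizer ({x} : Set G) = ⊥ := by
      by_contra h
      exact hxna₀ (hone a₀ ha₀ ha₀1 ha₀ne x hxA hx1 h)
    refine ⟨hfx, ?_⟩
    intro hCM
    by_cases hxz : x ∈ zpowers z₀
    · rw [T.S.cent_eq_of_mem hz₀ hxz hx1] at hCM
      exact htM (hCM htz₀)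
    have ha₀z := hnotz a₀ ha₀ ha₀1 ha₀ne
    obtain ⟨u, hu, hua, hu1⟩ := hmove a₀ x ha₀ ha₀z hxA hxz
    have e := T.S.cent_eq_of_mem hxA hua hu1
    have huM' : u ∉ M := by
      intro h
      have hc := Subgroup.mem_centralizer_iff.1 (huM u hu h) a₀ ha₀
      have h3 : u * a₀ * u⁻¹ = a₀ := by
        rw [← hc]
        group
      rw [h3] at hua
      have e2 := T.S.zpowers_eq_of_mem hxA hua ha₀1
      exact hxna₀ (e2 ▸ mem_zpowers x)
    apply hσ1
    rw [eq_bot_iff]
    intro y hy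
    rw [Subgroup.mem_bot]
    have h1 : u * y * u⁻¹ ∈ centralizer ({u * a₀ * u⁻¹} : Set G) := by
      rw [mem_centralizer_singleton_iff]
      have h5 := mem_centralizer_singleton_iff.1 (hσa₀ hy)
      calc u * y * u⁻¹ * (u * a₀ * u⁻¹) = u * (y * a₀) * u⁻¹ := by group
        _ = u * (a₀ * y) * u⁻¹ := by rw [h5]
        _ = u * a₀ * u⁻¹ * (u * y * u⁻¹) := by group
    have h2 : u * y * u⁻¹ ∈ M := hCM (e ▸ h1)
    have hL := coatom_conj hM u⁻¹
    have hLne : M.map (MulAut.conj u⁻¹).toMonoidHom ≠ M := by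
      intro h
      have h3 := (conj_map_eq_iff_mem_normalizer M u⁻¹).1 h
      rw [normalizer_coatom hG hM] at h3
      exact huM' (by simpa using M.inv_mem h3)
    have hAL : A ≤ M.map (MulAut.conj u⁻¹).toMonoidHom := by
      intro a ha
      rw [mem_conj_map]
      have h3 : u * a * u⁻¹ ∈ A := (Subgroup.mem_normalizer_iff.1 (hPtA hu) a).1 ha
      simpa using T.hAM h3
    have h3 := T.e hL hLne hAL
    have hyL : y ∈ M.map (MulAut.conj u⁻¹).toMonoidHom := by
      rw [mem_conj_map]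
      simpa using h2
    have h4 : y ∈ sigmaCore M ⊓ M.map (MulAut.conj u⁻¹).toMonoidHom := ⟨hy, hyL⟩
    rw [h3, Subgroup.mem_bot] at h4
    exact h4

end Cfsg.Agent.Lib.FT
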