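import Cfsg.Agent.Lib.FT.BG11m

/-!
BG section 12, the Frobenius-type criterion: general lemmas.
-/

set_option autoImplicit false
set_option linter.unusedSectionVars false
set_option linter.style.haveILetI false

namespace Cfsg.Agent.Lib.FT

open Subgroup Cfsg Cfsg.Agent.Lib.OddLocal Cfsg.Agent.Lib.Basic

open scoped commutatorElement Pointwise

open Cfsg.Agent.Lib.Coprime (mem_conj_map conj_mem_conj_map conj_map_conj_map conj_map_one
  conj_map_mono mem_normalizer_of_conj_le conj_map_eq_iff_mem_normalizer)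

variable {G : Type*} [Group G] [Finite G]

/-- A subgroup containing the primary parts of an element contains the element. -/
theorem mem_of_primary_parts {T : Subgroup G} {x : G}
    (h : ∀ r : ℕ, r.Prime → ∀ a ∈ zpowers x, (∃ k : ℕ, a ^ r ^ k = 1) → a ∈ T) : x ∈ T := by
  classical
  induction' hn : orderOf x using Nat.strong_induction_on with n ih generalizing x
  by_cases hx1 : x = 1
  · rw [hx1]
    exact one_mem _
  have h1 : orderOf x ≠ 1 := by rwa [Ne, orderOf_eq_one_iff]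
  obtain ⟨r, hr, hrd⟩ := Nat.exists_prime_and_dvd h1
  obtain ⟨a, ha, b, hb, e, hak, hbc⟩ := exists_primary_decomp x hr
  rw [e]
  refine T.mul_mem (h r hr a ha hak) ?_
  have hbd : orderOf b ∣ orderOf x := orderOf_dvd_of_mem_zpowers hb
  have hlt : orderOf b < n := by
    rw [← hn]
    refine lt_of_le_of_ne (Nat.le_of_dvd (orderOf_pos x) hbd) ?_
    intro he
    rw [he] at hbc
    exact hr.one_lt.ne' (Nat.eq_one_of_dvd_coprimes hbc hrd (dvd_refl r))
  refine ih _ hlt (fun r' hr' a' ha' hk => h r' hr' a' ?_ hk) rfl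
  exact (zpowers_le.2 hb) ha'

/-- Two subgroups, the smaller of `p`-power index and containing an element of maximal `p`-power order, have the
same exponent. -/
theorem exponent_eq_of_index {X Y : Subgroup G} {p : ℕ} [Fact p.Prime] (hYX : Y ≤ X)
    (hidx : ∀ q : ℕ, q.Prime → q ≠ p → ¬ q ∣ Y.relIndex X) {c : G} (hc : c ∈ Y)
    (hcm : ∀ x ∈ X, (∃ k : ℕ, x ^ p ^ k = 1) → orderOf x ∣ orderOf c) :
    Monoid.exponent Y = Monoid.exponent X := by
  classical
  have hc1 : orderOf c ∣ Monoid.exponent Y := by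
    have := Monoid.order_dvd_exponent (⟨c, hc⟩ : Y)
    rwa [Subgroup.orderOf_mk] at this
  apply Nat.dvd_antisymm
  · apply Monoid.exponent_dvd_of_forall_pow_eq_one
    rintro ⟨y, hy⟩
    apply Subtype.ext
    have := Monoid.pow_exponent_eq_one (⟨y, hYX hy⟩ : X)
    simpa using congrArg Subtype.val this
  · apply Monoid.exponent_dvd_of_forall_pow_eq_one
    rintro ⟨x, hx⟩
    apply Subtype.ext
    suffices orderOf x ∣ Monoid.exponent Y by
      simpa using orderOf_dvd_iff_pow_eq_one.1 this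
    rw [Nat.dvd_iff_prime_pow_dvd_dvd]
    intro r k hr hrk
    have hord : orderOf (x ^ (orderOf x / r ^ k)) = r ^ k :=
      orderOf_pow_orderOf_div (orderOf_pos x).ne' hrk
    set y := x ^ (orderOf x / r ^ k) with hy
    have hyX : y ∈ X := X.pow_mem hx _
    by_cases hrp : r = p
    · subst hrp
      rw [← hord]
      exact (hcm y hyX ⟨k, by rw [← hord]; exact pow_orderOf_eq_one y⟩).trans hc1
    -- `r ≠ p`
    haveI : Fact r.Prime := ⟨hr⟩
    obtain ⟨D, hD, -⟩ := exists_isMaxP_ge (T := ⊥) (N := Y) bot_le IsPGroup.of_bot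
    have hDX : IsMaxP r D X := by
      refine ⟨hD.le.trans hYX, hD.isP, fun D' h1 h2 h3 => ?_⟩
      obtain ⟨j, hj⟩ := IsPGroup.iff_card.1 h2
      have hd : r ^ j ∣ Nat.card X := by
        rw [← hj]
        exact Subgroup.card_dvd_of_le h1
      have hcardX : Nat.card X = Nat.card Y * Y.relIndex X := by
        have := Subgroup.relIndex_mul_relIndex (⊥ : Subgroup G) Y X bot_le hYX
        simpa [Subgroup.relIndex_bot_left] using this.symm
      rw [hcardX] at hd
      have hcop : Nat.Coprime (r ^ j) (Y.relIndex X) :=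
        Nat.Coprime.pow_left j ((Nat.Prime.coprime_iff_not_dvd hr).2 (hidx r hr hrp))
      have hd2 : r ^ j ∣ Nat.card Y := hcop.dvd_of_dvd_mul_right hd
      have hd3 : r ^ j ∣ Nat.card (hD.toSylow : Subgroup ↥Y) := hD.toSylow.pow_dvd_card_of_pow_dvd_card hd2
      have hcR : Nat.card (hD.toSylow : Subgroup ↥Y) = Nat.card D :=
        Cfsg.Agent.Lib.OddLocal.card_subgroupOf_of_le hD.le
      rw [hcR, ← hj] at hd3
      exact (Subgroup.eq_of_le_of_card_ge h3 (Nat.le_of_dvd Nat.card_pos hd3)).symm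
    have hyp : IsPGroup r (zpowers y) := by
      rw [IsPGroup.iff_card, Nat.card_zpowers, hord]
      exact ⟨k, rfl⟩
    obtain ⟨n, hn, hle⟩ := hDX.exists_conj_le (zpowers_le.2 hyX) hyp
    have h1 : n * y * n⁻¹ ∈ D := hle (conj_mem_conj_map _ n y (mem_zpowers y))
    have h2 : n * y * n⁻¹ ∈ Y := hD.le h1
    have h3 := Monoid.order_dvd_exponent (⟨n * y * n⁻¹, h2⟩ : Y)
    rw [Subgroup.orderOf_mk, Cfsg.Agent.Lib.PGroups.orderOf_conj_eq, hord] at h3
    exact h3

/-- An abelian `p`-group with a coprime action and an invariant subgroup of index `p`: a cyclic invariant subgroup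
not in it (a Teichmüller lift of a line). -/
theorem exists_eigen_of_coprime {B H₀ : Type*} [CommGroup B] [Finite B] [Group H₀] [Finite H₀] {p : ℕ} [Fact p.Prime]
    (hB : IsPGroup p B) (ρ : H₀ → B →* B) (hρ1 : ∀ x, ρ 1 x = x) (hρm : ∀ a b x, ρ (a * b) x = ρ a (ρ b x))
    (K : Subgroup B) (hKi : ∀ h, ∀ k ∈ K, ρ h k ∈ K) (hidx : K.index = p) (hcop : (Nat.card H₀).Coprime p) :
    ∃ c, c ∉ K ∧ ∀ h, ∃ n : ℕ, ρ h c = c ^ n := by
  classical
  haveI : Fintype H₀ := Fintype.ofFinite H₀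
  have hp : p.Prime := Fact.out
  have hKtop : K ≠ ⊤ := by
    rintro rfl
    rw [Subgroup.index_top] at hidx
    exact hp.one_lt.ne hidx
  obtain ⟨c₀, hc₀⟩ : ∃ c₀, c₀ ∉ K := by
    by_contra hcon
    push Not at hcon
    exact hKtop ((Subgroup.eq_top_iff' K).2 hcon)
  -- the quotient
  let Q := B ⧸ K
  have hQc : Nat.card Q = p := hidx
  have hq₀ : (c₀ : Q) ≠ 1 := fun h => hc₀ ((QuotientGroup.eq_one_iff c₀).1 h)
  have hq₀p : (c₀ : Q) ^ p = 1 := by
    rw [← hQc]
    exact pow_card_eq_one'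
  have hord : orderOf (c₀ : Q) = p := orderOf_eq_prime hq₀p hq₀
  have hgen : ∀ q : Q, ∃ n : ℕ, q = (c₀ : Q) ^ n := by
    intro q
    have htop : zpowers (c₀ : Q) = ⊤ := by
      apply Subgroup.eq_top_of_card_eq
      rw [Nat.card_zpowers, hord, hQc]
    have hq : q ∈ zpowers (c₀ : Q) := by
      rw [htop]
      trivial
    have := mem_powers_iff_mem_zpowers.2 hq
    obtain ⟨n, hn⟩ := this
    exact ⟨n, hn.symm⟩
  -- the character
  choose n hn using fun h : H₀ => hgen ((ρ h c₀ : B) : Q)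
  have hmk : ∀ (h : H₀) (b : B) (m : ℕ), (b : Q) = (c₀ : Q) ^ m → ((ρ h b : B) : Q) = (c₀ : Q) ^ (n h * m) := by
    intro h b m hb
    have h1 : (c₀ ^ m : B)⁻¹ * b ∈ K := by
      rw [← QuotientGroup.eq]
      simpa using hb.symm
    have h2 : ρ h b = ρ h (c₀ ^ m) * ρ h ((c₀ ^ m : B)⁻¹ * b) := by
      rw [← map_mul]
      congr 1
      group
    have h3 : ((ρ h ((c₀ ^ m : B)⁻¹ * b) : B) : Q) = 1 :=
      (QuotientGroup.eq_one_iff _).2 (hKi h _ h1)
    rw [h2, QuotientGroup.mk_mul, h3, mul_one, map_pow, QuotientGroup.mk_pow, hn, pow_mul]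
  have hnmul : ∀ a b : H₀, n (a * b) ≡ n a * n b [MOD p] := by
    intro a b
    have h1 : ((ρ (a * b) c₀ : B) : Q) = (c₀ : Q) ^ (n a * n b) := by
      rw [hρm]
      exact hmk a _ _ (hn b)
    rw [hn] at h1
    have := pow_eq_pow_iff_modEq.1 h1
    rwa [hord] at this
  have hn1 : n 1 ≡ 1 [MOD p] := by
    have h1 : ((ρ 1 c₀ : B) : Q) = (c₀ : Q) ^ 1 := by
      rw [hρ1, pow_one]
    rw [hn] at h1
    have := pow_eq_pow_iff_modEq.1 h1
    rwa [hord] at this
  -- the exponent of `B`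
  obtain ⟨i, hi⟩ := IsPGroup.iff_card.1 hB
  have hexp : ∀ b : B, b ^ p ^ i = 1 := fun b => by
    rw [← hi]
    exact pow_card_eq_one'
  let N : H₀ → ℕ := fun h => n h⁻¹ ^ p ^ i
  have hNp : ∀ h, N h ≡ n h⁻¹ [MOD p] := by
    intro h
    have hz : ((n h⁻¹ ^ p ^ i : ℕ) : ZMod p) = (n h⁻¹ : ZMod p) := by
      rw [Nat.cast_pow, ZMod.pow_card_pow]
    exact (ZMod.natCast_eq_natCast_iff _ _ _).1 hz
  let c : B := ∏ h : H₀, (ρ h c₀) ^ N h
  have hmkc : (c : Q) = (c₀ : Q) ^ Fintype.card H₀ := by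
    have h1 : ∀ h : H₀, (((ρ h c₀) ^ N h : B) : Q) = (c₀ : Q) := by
      intro h
      rw [QuotientGroup.mk_pow, hn, ← pow_mul]
      have h2 : n h * N h ≡ 1 [MOD p] := by
        calc n h * N h ≡ n h * n h⁻¹ [MOD p] := (hNp h).mul_left _
          _ ≡ n (h * h⁻¹) [MOD p] := (hnmul h h⁻¹).symm
          _ = n 1 := by rw [mul_inv_cancel]
          _ ≡ 1 [MOD p] := hn1
      have h3 := pow_eq_pow_iff_modEq.2 (by rw [hord]; exact h2 : n h * N h ≡ 1 [MOD orderOf (c₀ : Q)])
      rw [h3, pow_one]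
    have h2 : (c : Q) = ∏ h : H₀, (((ρ h c₀) ^ N h : B) : Q) :=
      map_prod (QuotientGroup.mk' K) _ _
    rw [h2, Finset.prod_congr rfl (fun h _ => h1 h), Finset.prod_const, Finset.card_univ]
  refine ⟨c, ?_, ?_⟩
  · intro hc
    have h1 : (c : Q) = 1 := (QuotientGroup.eq_one_iff c).2 hc
    rw [hmkc] at h1
    have h2 := orderOf_dvd_of_pow_eq_one h1
    rw [hord, ← Nat.card_eq_fintype_card] at h2
    exact hp.one_lt.ne' (Nat.eq_one_of_dvd_coprimes hcop.symm (dvd_refl p) h2)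
  · intro h'
    refine ⟨n h' ^ p ^ i, ?_⟩
    have h1 : ρ h' c = ∏ h : H₀, (ρ (h' * h) c₀) ^ N h := by
      rw [map_prod]
      refine Finset.prod_congr rfl fun h _ => ?_
      rw [map_pow, hρm]
    rw [h1]
    have h2 : (∏ h : H₀, (ρ (h' * h) c₀) ^ N h) = ∏ h : H₀, (ρ h c₀) ^ N (h'⁻¹ * h) := by
      refine Fintype.prod_equiv (Equiv.mulLeft h') _ _ fun h => ?_
      simp [N]
    rw [h2, ← Finset.prod_pow]
    refine Finset.prod_congr rfl fun h _ => ?_
    rw [← pow_mul]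
    -- the congruence modulo `p ^ i`
    have h3 : N (h'⁻¹ * h) ≡ N h * n h' ^ p ^ i [MOD p ^ i] := by
      have h4 : n (h'⁻¹ * h)⁻¹ ≡ n h⁻¹ * n h' [MOD p] := by
        have e : (h'⁻¹ * h)⁻¹ = h⁻¹ * h' := by group
        rw [e]
        exact hnmul _ _
      have h5 : ((p : ℤ)) ∣ (n (h'⁻¹ * h)⁻¹ : ℤ) - ((n h⁻¹ * n h' : ℕ) : ℤ) := by
        have := (Nat.modEq_iff_dvd.1 h4.symm)
        simpa using this
      have h6 := dvd_sub_pow_of_dvd_sub h5 i
      have h7 : ((p ^ i : ℕ) : ℤ) ∣ ((N (h'⁻¹ * h) : ℕ) : ℤ) - ((N h * n h' ^ p ^ i : ℕ) : ℤ) := by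
        have e : ((N (h'⁻¹ * h) : ℕ) : ℤ) - ((N h * n h' ^ p ^ i : ℕ) : ℤ) =
            (n (h'⁻¹ * h)⁻¹ : ℤ) ^ p ^ i - ((n h⁻¹ * n h' : ℕ) : ℤ) ^ p ^ i := by
          simp only [N]
          push_cast
          ring
        rw [e]
        refine dvd_trans ?_ h6
        push_cast
        exact pow_dvd_pow _ (Nat.le_succ i)
      exact ((Nat.modEq_iff_dvd.2 h7).symm)
    have h8 : ∀ u v : ℕ, u ≡ v [MOD p ^ i] → (ρ h c₀) ^ u = (ρ h c₀) ^ v := by
      intro u v huv
      have h9 : orderOf (ρ h c₀) ∣ p ^ i := orderOf_dvd_of_pow_eq_one (hexp _)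
      exact pow_eq_pow_iff_modEq.2 (huv.of_dvd h9)
    exact h8 _ _ h3

/-- The commutator subgroup of a group normalizing a cyclic group centralizes it. -/
theorem commutator_le_centralizer_of_zcyc {V N : Subgroup G} (hc : IsCyclic V) (hN : N ≤ normalizer (V : Set G)) :
    ⁅N, N⁆ ≤ centralizer (V : Set G) := by
  classical
  obtain ⟨g, hg⟩ := IsCyclic.exists_generator (α := V)
  have hgV : ∀ u ∈ V, ∃ i : ℤ, (g : G) ^ i = u := by
    intro u hu
    obtain ⟨i, hi⟩ := Subgroup.mem_zpowers_iff.1 (hg ⟨u, hu⟩)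
    exact ⟨i, by simpa using congrArg Subtype.val hi⟩
  rw [Subgroup.commutator_le]
  intro x hx y hy
  have hconj : ∀ z ∈ N, ∃ i : ℤ, z * g * z⁻¹ = (g : G) ^ i := by
    intro z hz
    obtain ⟨i, hi⟩ := hgV _ ((Subgroup.mem_normalizer_iff.1 (hN hz) g).1 g.2)
    exact ⟨i, hi.symm⟩
  have hconj' : ∀ z ∈ N, ∀ i : ℤ, z * ((g : G) ^ i) * z⁻¹ = (z * g * z⁻¹) ^ i := by
    intro z _ i
    rw [conj_zpow]
  obtain ⟨a, ha⟩ := hconj x hx
  obtain ⟨b, hb⟩ := hconj y hy
  obtain ⟨c, hc'⟩ := hconj x⁻¹ (N.inv_mem hx)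
  obtain ⟨d, hd⟩ := hconj y⁻¹ (N.inv_mem hy)
  rw [inv_inv] at hc' hd
  have hac : (g : G) ^ (a * c) = g := by
    rw [zpow_mul, ← ha, ← hconj' x hx c, ← hc']
    group
  have hbd : (g : G) ^ (b * d) = g := by
    rw [zpow_mul, ← hb, ← hconj' y hy d, ← hd]
    group
  have hgc : ⁅x, y⁆ * g * ⁅x, y⁆⁻¹ = g := by
    have e : ⁅x, y⁆ * g * ⁅x, y⁆⁻¹ = x * (y * (x⁻¹ * (y⁻¹ * g * y) * x) * y⁻¹) * x⁻¹ := by
      rw [commutatorElement_def]
      group
    have k2 : x⁻¹ * ((g : G) ^ d) * x = (x⁻¹ * g * x) ^ d := by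
      simpa using (conj_zpow (a := x⁻¹) (b := (g : G)) (i := d)).symm
    rw [e, hd, k2, hc', ← zpow_mul, hconj' y hy, hb, ← zpow_mul, hconj' x hx, ha, ← zpow_mul]
    have e2 : a * (b * (c * d)) = (a * c) * (b * d) := by ring
    rw [e2, zpow_mul, hac, hbd]
  rw [Subgroup.mem_centralizer_iff]
  intro u hu
  obtain ⟨i, rfl⟩ := hgV u hu
  have h1 : ⁅x, y⁆ * (g : G) ^ i * ⁅x, y⁆⁻¹ = (g : G) ^ i := by
    rw [← conj_zpow, hgc]
  calc (g : G) ^ i * ⁅x, y⁆ = ⁅x, y⁆ * (g : G) ^ i * ⁅x, y⁆⁻¹ * ⁅x, y⁆ := by rw [h1]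
    _ = ⁅x, y⁆ * (g : G) ^ i := by group

namespace Tau2Setup

variable {p : ℕ} [hpf : Fact p.Prime] {A M : Subgroup G} (T : Tau2Setup p A M)

include T

/-- A Sylow `p`-subgroup of `G` in `M`, for `p ∈ τ₂(M)`, is normal in `N_G(A)`. -/
theorem norm_A_le_norm_sylow (h1412 : Sylow2Struct G) {E : Subgroup G} (hE : IsComplIn E (sigmaCore M) M) (hAE : A ≤ E)
    (Pst : Sylow p G) (hAP : A ≤ (Pst : Subgroup G)) (hPM : (Pst : Subgroup G) ≤ M) :
    normalizer (A : Set G) ≤ normalizer ((Pst : Subgroup G) : Set G) := by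
  classical
  have hpp : p.Prime := Fact.out
  have hG := T.S.hG
  have huniq := T.S.huniq
  have hpl := T.S.hpl
  have hM := T.hM
  have hSp : IsPGroup p (Pst : Subgroup G) := Pst.isPGroup'
  have hSmax : ∀ Q : Subgroup G, IsPGroup p Q → (Pst : Subgroup G) ≤ Q → Q ≤ (Pst : Subgroup G) := fun Q h1 h2 =>
    (Pst.is_maximal' h1 h2).le
  have hP : IsMaxP p (Pst : Subgroup G) M :=
    ⟨hPM, hSp, fun D' _ h2 h3 => Pst.is_maximal' h2 h3⟩
  have hSab : ∀ a ∈ (Pst : Subgroup G), ∀ b ∈ (Pst : Subgroup G), a * b = b * a := fun a ha b hb =>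
    comm_of_not_sigma hG huniq hpl h1412 hM T.hpσ hPM hSp ha hb
  have hCE : centralizer (A : Set G) ≤ E := by
    rw [← T.inf_normalizer_eq hE hAE]
    exact le_inf T.hCM (centralizer_le_normalizer' _)
  have hSC : (Pst : Subgroup G) ≤ centralizer (A : Set G) := fun s hs => by
    rw [Subgroup.mem_centralizer_iff]
    exact fun a ha => hSab a (hAP ha) s hs
  have hN_A : normalizer ((Pst : Subgroup G) : Set G) ≤ normalizer (A : Set G) := T.norm_P_le_norm_A hP hAP
  -- the derived subgroup of `C_G(A)`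
  haveI hEab : IsMulCommutative ↥⁅E, E⁆ := s1420_b hG huniq hpl h1412 hM hE
  have hWE : ⁅centralizer (A : Set G), centralizer (A : Set G)⁆ ≤ ⁅E, E⁆ := Subgroup.commutator_mono hCE hCE
  have hWab : ∀ a ∈ ⁅centralizer (A : Set G), centralizer (A : Set G)⁆, ∀ b ∈ ⁅centralizer (A : Set G), centralizer (A : Set G)⁆,
      a * b = b * a := fun a ha b hb => by
    have h1 := hEab.is_comm.comm ⟨a, hWE ha⟩ ⟨b, hWE hb⟩
    exact congrArg Subtype.val h1
  generalize hWdef : ⁅centralizer (A : Set G), centralizer (A : Set G)⁆ = W at hWE hWab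
  have hWnil : Group.IsNilpotent W := by
    letI : CommGroup W := { (inferInstance : Group W) with mul_comm := fun a b => Subtype.ext (hWab a a.2 b b.2) }
    exact CommGroup.isNilpotent
  have hNW : normalizer (A : Set G) ≤ normalizer (W : Set G) := by
    intro y hy
    have hyC := Cfsg.Agent.Lib.Basic.mem_normalizer_centralizer hy
    have h1 := (conj_map_eq_iff_mem_normalizer _ y).2 hyC
    apply (conj_map_eq_iff_mem_normalizer _ y).1
    rw [← hWdef, Subgroup.map_commutator, h1]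
  have hCW : centralizer (A : Set G) ≤ normalizer (W : Set G) :=
    (centralizer_le_normalizer' _).trans hNW
  -- the `r`-parts, `r ≠ p`
  have hVS : ∀ (r : ℕ) [Fact r.Prime], r ≠ p → ∀ s ∈ (Pst : Subgroup G), ∀ v ∈ Oq r W, s * v = v * s := by
    intro r _ hrp s hs v hv
    have hrr : r.Prime := Fact.out
    by_cases hV1 : Oq r W = ⊥
    · rw [hV1, Subgroup.mem_bot] at hv
      rw [hv]
      group
    have hVp : IsPGroup r (Oq r W) := Oq_isPGroup r W
    have hVE : Oq r W ≤ E := (Oq_le r W).trans (hWE.trans (Subgroup.commutator_le.2 fun a ha b hb =>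
      E.mul_mem (E.mul_mem (E.mul_mem ha hb) (E.inv_mem ha)) (E.inv_mem hb)))
    have hVM : Oq r W ≤ M := hVE.trans hE.1
    have hVtop : Oq r W ≠ ⊤ := fun h => hM.1 (top_le_iff.1 (h ▸ hVM))
    have hNV : normalizer ((Pst : Subgroup G) : Set G) ≤ normalizer (Oq r W : Set G) := fun y hy =>
      mem_normalizer_Oq hWnil (hNW (hN_A hy))
    have hrσ : r ∉ sigma M := by
      intro hrσ
      apply hV1
      rw [eq_bot_iff]
      have h1 := le_sigmaCore_of_isPGroup hG huniq hM hrσ hVp hVM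
      have h2 : Oq r W ≤ E ⊓ sigmaCore M := le_inf hVE h1
      rwa [hE.2.2.1] at h2
    have hrd : r ∣ Nat.card (Oq r W) := by
      obtain ⟨n, hn⟩ := IsPGroup.iff_card.1 hVp
      rw [hn]
      refine dvd_pow_self r ?_
      rintro rfl
      rw [pow_zero] at hn
      exact hV1 ((Subgroup.card_eq_one).1 hn)
    have hr2 : r ≠ 2 := prime_odd hG hrr (hrd.trans (Subgroup.card_subgroup_dvd_card _))
    by_cases hr1 : PRankLE r 1 M
    · have hVc : IsCyclic (Oq r W) := by
        by_contra hnc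
        exact not_prank_one_of_not_cyclic hr2 hVp hnc
          (prank_of_injective (Subgroup.inclusion hVM) (Subgroup.inclusion_injective _) hr1)
      have h1 := sylow_le_commutator_normalizer hG (fun H hH => hpl p H hH) Pst
      have h2 := commutator_le_centralizer_of_zcyc hVc hNV
      have h3 := h2 (h1 hs)
      exact (Subgroup.mem_centralizer_iff.1 h3 v hv).symm
    · have hnideal : ¬ IsIdealPrime r G := (s1408_core hG huniq hM (prank_of_not_sigma hG huniq hM hrσ) hr1).1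
      obtain ⟨L, hL, hNL⟩ := exists_coatom_ge (IsMinSimpleOddOrder.normalizer_ne_top hG hV1 hVtop)
      have hSNL : normalizer ((Pst : Subgroup G) : Set G) ≤ L := hNV.trans hNL
      have hSL : (Pst : Subgroup G) ≤ L := Subgroup.le_normalizer.trans hSNL
      have hVL : Oq r W ≤ L := Subgroup.le_normalizer.trans hNL
      have hPL : IsMaxP p (Pst : Subgroup G) L := ⟨hSL, hSp, fun D' _ h2 h3 => Pst.is_maximal' h2 h3⟩
      have hApd : p ∣ Nat.card L := T.S.hdvd.trans (Subgroup.card_dvd_of_le (hAP.trans hSL))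
      have hpσL : p ∈ sigma L := mem_sigma_of_normalizer_le hPL hApd hSNL
      have hSσ : (Pst : Subgroup G) ≤ sigmaCore L := le_sigmaCore_of_isPGroup hG huniq hL hpσL hSp hSL
      have hcard : r ∣ Nat.card L := hrd.trans (Subgroup.card_dvd_of_le hVL)
      have hnc := (s1414_core hG huniq hL (fun q _ _ => hpl q L hL.1)).2.2.2.2 r hrr hcard
        (not_mem_beta_of_not_ideal hnideal)
      obtain ⟨Y, hYK, hKY, hYc, hYm⟩ := exists_complement_core hnc.2.1
      have hLY : L ≤ normalizer (Y : Set G) := by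
        intro l hl
        apply mem_normalizer_of_conj_le
        intro y hy
        refine hYm _ ((Subgroup.mem_normalizer_iff.1 (le_normalizer_piCoreOf _ _ hl) y).1 (hYK hy)) ?_
        rw [Cfsg.Agent.Lib.PGroups.orderOf_conj_eq]
        exact Nat.Coprime.coprime_dvd_left (Subgroup.orderOf_dvd_natCard _ hy) hYc
      have hsY : s ∈ Y := by
        refine hYm s (hSσ hs) ?_
        obtain ⟨k, hk⟩ := IsPGroup.iff_card.1 (hSp.to_le (zpowers_le.2 hs))
        rw [Nat.card_zpowers] at hk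
        rw [hk]
        exact Nat.Coprime.pow_left k ((Nat.coprime_primes hpp hrr).2 (Ne.symm hrp))
      have hVY : Oq r W ⊓ Y = ⊥ := eq_bot_of_isPGroup_of_coprime (hVp.to_le inf_le_left) inf_le_right hYc
      have h1 : s * v * s⁻¹ * v⁻¹ ∈ Oq r W := (Oq r W).mul_mem
        ((Subgroup.mem_normalizer_iff.1 (hNV (Subgroup.le_normalizer hs)) v).1 hv) ((Oq r W).inv_mem hv)
      have h2 : s * v * s⁻¹ * v⁻¹ ∈ Y := by
        have h3 := (Subgroup.mem_normalizer_iff.1 (hLY (hVL hv)) s⁻¹).1 (Y.inv_mem hsY)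
        have e : s * v * s⁻¹ * v⁻¹ = s * (v * s⁻¹ * v⁻¹) := by group
        rw [e]
        exact Y.mul_mem hsY h3
      have h4 : s * v * s⁻¹ * v⁻¹ ∈ Oq r W ⊓ Y := ⟨h1, h2⟩
      rw [hVY, Subgroup.mem_bot] at h4
      have h5 : s * v * s⁻¹ = v := mul_inv_eq_one.1 h4
      calc s * v = s * v * s⁻¹ * s := by group
        _ = v * s := by rw [h5]
  -- the `p`-part lies in `S`
  have hDS : Oq p W ≤ (Pst : Subgroup G) := by
    have h1 : (Pst : Subgroup G) ≤ normalizer (Oq p W : Set G) := fun s hs =>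
      mem_normalizer_Oq hWnil (hCW (hSC hs))
    have h2 : IsPGroup p ↥((Pst : Subgroup G) ⊔ Oq p W) := by
      rw [sup_comm]
      exact (Oq_isPGroup p W).to_sup_of_normal_left' hSp h1
    exact le_sup_right.trans (hSmax _ h2 le_sup_left)
  -- `S` centralizes `W`
  have hWS : ∀ s ∈ (Pst : Subgroup G), ∀ w ∈ W, s * w = w * s := by
    intro s hs w hw
    have h1 : w ∈ centralizer ({s} : Set G) := by
      apply mem_of_primary_parts
      intro r hr a ha hak
      obtain ⟨k, hk⟩ := hak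
      haveI : Fact r.Prime := ⟨hr⟩
      have haW : a ∈ W := (zpowers_le.2 hw) ha
      have ha' : a ∈ Oq r W := mem_Oq hWnil haW hk
      rw [mem_centralizer_singleton_iff]
      by_cases hrp : r = p
      · subst hrp
        exact hSab a (hDS ha') s hs
      · exact (hVS r hrp s hs a ha').symm
    exact (mem_centralizer_singleton_iff.1 h1).symm
  -- `S` is normal in `C_G(A)`
  have hCS : ∀ c ∈ centralizer (A : Set G), ∀ s ∈ (Pst : Subgroup G), c * s * c⁻¹ ∈ (Pst : Subgroup G) := by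
    intro c hc s hs
    have hw : c * s * c⁻¹ * s⁻¹ ∈ W := by
      rw [← hWdef]
      exact Subgroup.commutator_mem_commutator hc (hSC hs)
    generalize hwd : c * s * c⁻¹ * s⁻¹ = w at hw
    have he : c * s * c⁻¹ = w * s := by
      rw [← hwd]
      group
    have hcomm : w * s = s * w := (hWS s hs w hw).symm
    have hwp : ∃ k : ℕ, w ^ p ^ k = 1 := by
      obtain ⟨k, hk⟩ := (hSp ⟨s, hs⟩)
      have hsk : s ^ p ^ k = 1 := by simpa using congrArg Subtype.val hk
      refine ⟨k, ?_⟩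
      have hw2 : w = c * s * c⁻¹ * s⁻¹ := hwd.symm
      have hcs : Commute (c * s * c⁻¹) s⁻¹ := by
        rw [he]
        exact Commute.inv_right (Commute.mul_left hcomm (Commute.refl s))
      rw [hw2, hcs.mul_pow, conj_pow, hsk, inv_pow, hsk]
      simp
    obtain ⟨k, hk⟩ := hwp
    have hwO : w ∈ Oq p W := mem_Oq hWnil hw hk
    rw [he]
    exact (Pst : Subgroup G).mul_mem (hDS hwO) hs
  -- the conclusion
  intro y hy
  apply mem_normalizer_of_conj_le
  intro s hs
  have hyC := Cfsg.Agent.Lib.Basic.mem_normalizer_centralizer hy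
  have hu : y * s * y⁻¹ ∈ centralizer (A : Set G) := (Subgroup.mem_normalizer_iff.1 hyC s).1 (hSC hs)
  have hup : IsPGroup p (zpowers (y * s * y⁻¹)) := by
    rw [IsPGroup.iff_card, Nat.card_zpowers, Cfsg.Agent.Lib.PGroups.orderOf_conj_eq]
    have := IsPGroup.iff_card.1 (hSp.to_le (zpowers_le.2 hs))
    rwa [Nat.card_zpowers] at this
  have h1 : (Pst : Subgroup G) ≤ normalizer ((zpowers (y * s * y⁻¹) : Subgroup G) : Set G) ∨ True := Or.inr trivial
  have h2 : zpowers (y * s * y⁻¹) ≤ normalizer ((Pst : Subgroup G) : Set G) := by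
    rw [zpowers_le]
    apply mem_normalizer_of_conj_le
    exact hCS _ hu
  have h3 : IsPGroup p ↥(zpowers (y * s * y⁻¹) ⊔ (Pst : Subgroup G)) := hup.to_sup_of_normal_right' hSp h2
  have h4 := hSmax _ h3 le_sup_right
  exact h4 ((le_sup_left : zpowers (y * s * y⁻¹) ≤ _) (mem_zpowers _))

end Tau2Setup

end Cfsg.Agent.Lib.FT
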