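import Cfsg.Agent.Lib.FT.BG11n

/-!
BG section 12, the Frobenius-type criterion: the data at a prime of `τ₂(M)`.
-/

set_option autoImplicit false
set_option linter.unusedSectionVars false
set_option linter.style.haveILetI false

namespace Cfsg.Agent.Lib.FT

open Subgroup Cfsg Cfsg.Agent.Lib.OddLocal Cfsg.Agent.Lib.Basic

open scoped commutatorElement Pointwise

open Cfsg.Agent.Lib.Coprime (mem_conj_map conj_mem_conj_map conj_map_conj_map conj_map_one
  conj_map_mono mem_normalizer_of_conj_le conj_map_eq_iff_mem_normalizer)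

variable {G : Type*} [Group G] [Finite G]

/-- Complements of normal Hall subgroups. -/
theorem exists_compl_cop {N H : Subgroup G} (hNH : N ≤ H) (hn : H ≤ normalizer (N : Set G))
    (hcop : (Nat.card N).Coprime (N.relIndex H)) :
    ∃ V : Subgroup G, IsComplIn V N H ∧ Nat.card V = N.relIndex H := by
  classical
  haveI hnn : (N.subgroupOf H).Normal := by
    constructor
    intro x hx g
    rw [Subgroup.mem_subgroupOf] at hx ⊢
    exact (Subgroup.mem_normalizer_iff.1 (hn g.2) _).1 hx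
  have hcN : Nat.card (N.subgroupOf H) = Nat.card N := Cfsg.Agent.Lib.OddLocal.card_subgroupOf_of_le hNH
  have hcop' : (Nat.card (N.subgroupOf H)).Coprime (N.subgroupOf H).index := by
    rw [hcN]
    exact hcop
  obtain ⟨C, hC⟩ := Subgroup.exists_right_complement'_of_coprime hcop'
  refine ⟨C.map H.subtype, ⟨Subgroup.map_subtype_le _, hNH, ?_, ?_⟩, ?_⟩
  · rw [eq_bot_iff]
    rintro _ ⟨⟨c, hc, rfl⟩, hN⟩
    have h1 : c ∈ N.subgroupOf H := Subgroup.mem_subgroupOf.2 hN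
    have h2 := hC.disjoint.le_bot ⟨h1, hc⟩
    rw [Subgroup.mem_bot] at h2 ⊢
    rw [h2]
    rfl
  · intro m hm
    obtain ⟨⟨⟨n, hn⟩, ⟨c, hc⟩⟩, hnc⟩ := hC.2 (⟨m, hm⟩ : H)⁻¹
    have hnc' : (n : H) * c = (⟨m, hm⟩ : H)⁻¹ := hnc
    have e : m = ((c : G))⁻¹ * ((n : G))⁻¹ := by
      have h1 := congrArg Subtype.val hnc'
      have h2 : (n : G) * (c : G) = m⁻¹ := by simpa using h1
      rw [← mul_inv_rev, h2, inv_inv]
    refine ⟨(c : G)⁻¹, ⟨c⁻¹, C.inv_mem hc, by simp⟩, (n : G)⁻¹, N.inv_mem (Subgroup.mem_subgroupOf.1 hn), e⟩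
  · have h1 : Nat.card C = (N.subgroupOf H).index := hC.symm.index_eq_card.symm
    have h2 : Nat.card (C.map H.subtype) = Nat.card C :=
      Nat.card_congr (Subgroup.equivMapOfInjective C H.subtype H.subtype_injective).toEquiv.symm
    rw [h2, h1]
    rfl

/-- For a complement `E` of `M_σ`, a maximal `r`-subgroup of `E`, `r ∉ σ(M)`, is maximal in `M`. -/
theorem IsMaxP.of_compl {M E R : Subgroup G} {r : ℕ} [Fact r.Prime] (hG : IsMinSimpleOddOrder G) (huniq : UniquenessThm G)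
    (hM : IsCoatom M) (hE : IsComplIn E (sigmaCore M) M) (hrσ : r ∉ sigma M) (hR : IsMaxP r R E) : IsMaxP r R M := by
  have hrr : r.Prime := Fact.out
  refine ⟨hR.le.trans hE.1, hR.isP, fun D' h1 h2 h3 => ?_⟩
  have hcardM := IsComplIn_card_eq hE
  obtain ⟨j, hj⟩ := IsPGroup.iff_card.1 h2
  have hd : r ^ j ∣ Nat.card E * Nat.card (sigmaCore M) := by
    rw [← hcardM, ← hj]
    exact Subgroup.card_dvd_of_le h1
  have hcop : Nat.Coprime (r ^ j) (Nat.card (sigmaCore M)) := by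
    refine Nat.Coprime.pow_left j ?_
    rw [Nat.Prime.coprime_iff_not_dvd hrr]
    exact fun h => hrσ ((s1350_core hG huniq hM).1.2.1 r hrr h)
  have hd2 : r ^ j ∣ Nat.card E := hcop.dvd_of_dvd_mul_right hd
  have hd3 : r ^ j ∣ Nat.card (hR.toSylow : Subgroup ↥E) := hR.toSylow.pow_dvd_card_of_pow_dvd_card hd2
  have hcR : Nat.card (hR.toSylow : Subgroup ↥E) = Nat.card R :=
    Cfsg.Agent.Lib.OddLocal.card_subgroupOf_of_le hR.le
  rw [hcR, ← hj] at hd3
  exact (Subgroup.eq_of_le_of_card_ge h3 (Nat.le_of_dvd Nat.card_pos hd3)).symm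

/-- There is no elementary abelian subgroup of order `r ^ 2` in a group of `r`-rank one. -/
theorem not_prank_one_of_elem {M B : Subgroup G} {r : ℕ} (hr : r.Prime) (hBM : B ≤ M) (hBe : IsElementaryAbelian r B)
    (hBc : Nat.card B = r ^ 2) : ¬ PRankLE r 1 M := by
  intro h
  have h1 := h (B.subgroupOf M) ⟨⟨fun a b => by
      apply Subtype.ext
      apply Subtype.ext
      have := hBe.1.is_comm.comm ⟨(a : M), Subgroup.mem_subgroupOf.1 a.2⟩ ⟨(b : M), Subgroup.mem_subgroupOf.1 b.2⟩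
      simpa using congrArg Subtype.val this⟩⟩ (fun a ha => by
    apply Subtype.ext
    simpa using hBe.2 _ (Subgroup.mem_subgroupOf.1 ha))
  rw [Cfsg.Agent.Lib.OddLocal.card_subgroupOf_of_le hBM, hBc, pow_one] at h1
  have h2 := hr.two_le
  nlinarith

/-- The data at a prime of `τ₂(M)`, inside a complement of `M_σ`. -/
theorem exists_tau2_data (hG : IsMinSimpleOddOrder G) (huniq : UniquenessThm G) {M E : Subgroup G} (hM : IsCoatom M)
    (hE : IsComplIn E (sigmaCore M) M) {p : ℕ} [Fact p.Prime] (hp : p ∈ tau2 M) :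
    ∃ P A : Subgroup G, IsMaxP p P E ∧ IsMaxP p P M ∧ A ≤ P ∧ IsElementaryAbelian p A ∧ Nat.card A = p ^ 2 := by
  classical
  obtain ⟨hpp, hpσ, hp2, hp1⟩ := hp
  obtain ⟨P, hP, -⟩ := exists_isMaxP_ge (T := ⊥) (N := E) bot_le IsPGroup.of_bot
  have hPM := IsMaxP.of_compl hG huniq hM hE hpσ hP
  have hnc : ¬ IsCyclic P := by
    intro hc
    apply hp1
    apply hPM.prank_of
    intro F hFc hFp
    have h1 : IsCyclic F := by
      haveI : IsCyclic ↥P := hc
      infer_instance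
    have := card_le_of_cyclic_elem (q := p) ⟨hFc, hFp⟩ h1
    simpa using this
  have hpd : p ∣ Nat.card G := by
    obtain ⟨F, hF, hFM, hFc⟩ := exists_of_not_prank hp1
    have h1 : 1 < Nat.card F := by
      have : p ^ 1 < Nat.card F := hFc
      have h2 := hpp.one_lt
      simp only [pow_one] at this
      omega
    obtain ⟨n, hn⟩ := IsPGroup.iff_card.1 (isPGroup_of_elem hF)
    have hn0 : n ≠ 0 := by
      rintro rfl
      rw [pow_zero] at hn
      omega
    have : p ∣ Nat.card F := by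
      rw [hn]
      exact dvd_pow_self p hn0
    exact this.trans (Subgroup.card_subgroup_dvd_card F)
  obtain ⟨A, hAP, -, hAe, hAc⟩ := exists_normal_sq (prime_odd hG hpp hpd) hP.isP hnc
  exact ⟨P, A, hP, hPM, hAP, hAe, hAc⟩

/-- A normal closure of a conjugate in a cyclic group. -/
theorem mem_normalizer_zpowers_of_conj {a x : G} (h : x * a * x⁻¹ ∈ zpowers a) :
    x ∈ normalizer ((zpowers a : Subgroup G) : Set G) := by
  apply mem_normalizer_of_conj_le
  intro b hb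
  obtain ⟨n, rfl⟩ := Subgroup.mem_zpowers_iff.1 hb
  rw [← conj_zpow]
  exact (zpowers a).zpow_mem h n

namespace Tau2Setup

variable {p : ℕ} [hpf : Fact p.Prime] {A M : Subgroup G} (T : Tau2Setup p A M)

include T

theorem mem_tau2 : p ∈ tau2 M :=
  ⟨Fact.out, T.hpσ, prank_of_not_sigma T.S.hG T.S.huniq T.hM T.hpσ,
    not_prank_one_of_elem Fact.out T.hAM T.S.hAe T.S.hAc⟩

/-- A line with fixed points on `M_σ`. -/
theorem exists_good : ∃ a ∈ A, a ≠ 1 ∧ sigmaCore M ⊓ centralizer ({a} : Set G) ≠ ⊥ := by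
  classical
  haveI := T.S.hAe.1
  have hgen := generation_by_centralizers A (sigmaCore M) T.S.not_cyclic
    (T.hAM.trans (le_normalizer_piCoreOf _ _)) (T.S.cA_coprime (T.S.sigmaCore_coprime T.hM T.hpσ))
  by_contra hcon
  push Not at hcon
  apply sigmaCore_ne_bot T.S.hG T.S.huniq T.hM
  rw [← hgen]
  simp only [iSup_eq_bot]
  rintro a ⟨ha, ha1⟩
  exact hcon a ha ha1

/-- The dichotomy at a prime of `τ₂(M)`. -/
theorem sylow_dich (h1412 : Sylow2Struct G) {P : Subgroup G} (hP : IsMaxP p P M) (hAP : A ≤ P) :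
    (∃ Pst : Sylow p G, (Pst : Subgroup G) = P) ∨
      ((∀ S : Sylow p G, ¬ IsMulCommutative (S : Subgroup G)) ∧
        ∃ t : G, t ∈ normalizer (P : Set G) ∧ t ∉ M ∧ IsPGroup p (zpowers t) ∧
          (∃ Y : Subgroup G, IsCyclic Y ∧ ∀ x ∈ P, x ^ p ∈ Y)) := by
  classical
  obtain ⟨Pst, hPst⟩ := hP.isP.exists_le_sylow
  by_cases he : P = (Pst : Subgroup G)
  · exact Or.inl ⟨Pst, he.symm⟩
  right
  have hlt : P < (Pst : Subgroup G) := lt_of_le_of_ne hPst he
  have hgrow := lt_inf_normalizer Pst.isPGroup' hlt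
  obtain ⟨t, ht, htP⟩ := SetLike.exists_of_lt hgrow
  have hna : ¬ IsMulCommutative (Pst : Subgroup G) := by
    intro hab
    have htC : t ∈ centralizer (A : Set G) := by
      rw [Subgroup.mem_centralizer_iff]
      intro a ha
      have := hab.is_comm.comm ⟨a, hPst (hAP ha)⟩ ⟨t, ht.1⟩
      exact congrArg Subtype.val this
    have htM : t ∈ M := T.hCM htC
    have hle : P ⊔ zpowers t ≤ M := sup_le hP.le (zpowers_le.2 htM)
    have hpg : IsPGroup p ↥(P ⊔ zpowers t) := Pst.isPGroup'.to_le (sup_le hPst (zpowers_le.2 ht.1))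
    have e := hP.max _ hle hpg le_sup_left
    apply htP
    rw [← e]
    exact (le_sup_right : zpowers t ≤ P ⊔ zpowers t) (mem_zpowers t)
  have hS : ∀ S : Sylow p G, ¬ IsMulCommutative (S : Subgroup G) := by
    intro S hS
    apply hna
    obtain ⟨g, hg⟩ := MulAction.exists_smul_eq G S Pst
    rw [← hg]
    refine ⟨⟨fun a b => ?_⟩⟩
    obtain ⟨a, ha⟩ := a
    obtain ⟨b, hb⟩ := b
    have ha' : g⁻¹ * a * g ∈ (S : Subgroup G) := by
      rw [Sylow.coe_subgroup_smul, Subgroup.mem_pointwise_smul_iff_inv_smul_mem] at ha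
      simpa [MulAut.smul_def, MulAut.conj_apply] using ha
    have hb' : g⁻¹ * b * g ∈ (S : Subgroup G) := by
      rw [Sylow.coe_subgroup_smul, Subgroup.mem_pointwise_smul_iff_inv_smul_mem] at hb
      simpa [MulAut.smul_def, MulAut.conj_apply] using hb
    have h1 := hS.is_comm.comm ⟨_, ha'⟩ ⟨_, hb'⟩
    have h2 : (g⁻¹ * a * g) * (g⁻¹ * b * g) = (g⁻¹ * b * g) * (g⁻¹ * a * g) := congrArg Subtype.val h1
    apply Subtype.ext
    have h3 : g⁻¹ * (a * b) * g = g⁻¹ * (b * a) * g := by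
      calc g⁻¹ * (a * b) * g = (g⁻¹ * a * g) * (g⁻¹ * b * g) := by group
        _ = (g⁻¹ * b * g) * (g⁻¹ * a * g) := h2
        _ = g⁻¹ * (b * a) * g := by group
    simpa using h3
  exact ⟨hS, T.exists_move h1412 hS hP hAP⟩

/-- An element outside `Ω₁`, in the non-abelian case, has no fixed points on `M_σ`. -/
theorem bad_of_pow_ne_one {P : Subgroup G} (hP : IsMaxP p P M) (hAP : A ≤ P) {t : G}
    (htP : t ∈ normalizer (P : Set G)) (htM : t ∉ M) {Y : Subgroup G} (hYc : IsCyclic Y) (hY : ∀ x ∈ P, x ^ p ∈ Y)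
    {u : G} (hu : u ∈ P) (hu1 : u ^ p ≠ 1) : sigmaCore M ⊓ centralizer ({u} : Set G) = ⊥ := by
  classical
  by_contra hne
  obtain ⟨n, hn⟩ := hP.isP ⟨u, hu⟩
  have hn' : u ^ p ^ n = 1 := by simpa using congrArg Subtype.val hn
  obtain ⟨k, h1, h2⟩ := exists_pow_order_sq ⟨n, hn'⟩ hu1
  have hwP : u ^ p ^ k ∈ P := P.pow_mem hu _
  have hcent : sigmaCore M ⊓ centralizer ({(u ^ p ^ k) ^ p} : Set G) ≠ ⊥ := by
    intro h
    apply hne
    rw [eq_bot_iff, ← h]
    intro y hy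
    refine ⟨hy.1, ?_⟩
    have hyC : y ∈ centralizer ({u} : Set G) := hy.2
    have h3 : Commute y u := mem_centralizer_singleton_iff.1 hyC
    show y ∈ centralizer _
    rw [mem_centralizer_singleton_iff]
    exact (h3.pow_right _).pow_right _
  generalize u ^ p ^ k = w at h1 h2 hwP hcent
  have hvP : w ^ p ∈ P := P.pow_mem hwP _
  have hvA : w ^ p ∈ A := (T.omega_iff hP hAP hvP).1 h2
  have hv'P : t * w ^ p * t⁻¹ ∈ P := (Subgroup.mem_normalizer_iff.1 htP _).1 hvP
  have hv'e : t * w ^ p * t⁻¹ = (t * w * t⁻¹) ^ p := (conj_pow).symm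
  have hv'p : (t * w ^ p * t⁻¹) ^ p = 1 := by
    rw [conj_pow, h2]
    simp
  have hv'A : t * w ^ p * t⁻¹ ∈ A := (T.omega_iff hP hAP hv'P).1 hv'p
  have hv'1 : t * w ^ p * t⁻¹ ≠ 1 := by
    intro h
    apply h1
    have e : w ^ p = t⁻¹ * (t * w ^ p * t⁻¹) * t := by group
    rw [e, h]
    group
  have hvY : w ^ p ∈ Y := hY w hwP
  have hv'Y : t * w ^ p * t⁻¹ ∈ Y := by
    rw [hv'e]
    exact hY _ ((Subgroup.mem_normalizer_iff.1 htP _).1 hwP)
  have hz : t * w ^ p * t⁻¹ ∈ zpowers (w ^ p) := mem_zpowers_of_cyclic hYc hvY hv'Y h1 h2 hv'p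
  have e := T.S.cent_eq_of_mem hvA hz hv'1
  exact htM (T.S.conj_mem_of_uniq T.hM (T.cent_le hvA h1 hcent) (T.uniq hv'A (by
    rw [e]
    exact hcent)))

end Tau2Setup

end Cfsg.Agent.Lib.FT
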