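import Cfsg.Agent.Lib.FT.BG11o

/-!
BG section 12, the Frobenius-type criterion: actions on `A` with no invariant line.
-/

set_option autoImplicit false
set_option linter.unusedSectionVars false
set_option linter.style.haveILetI false

namespace Cfsg.Agent.Lib.FT

open Subgroup Cfsg Cfsg.Agent.Lib.OddLocal Cfsg.Agent.Lib.Basic

open scoped commutatorElement Pointwise

open Cfsg.Agent.Lib.Coprime (mem_conj_map conj_mem_conj_map conj_map_conj_map conj_map_one
  conj_map_mono mem_normalizer_of_conj_le conj_map_eq_iff_mem_normalizer isPGroup_conj_map)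

variable {G : Type*} [Group G] [Finite G]

/-- A noncyclic group `⟨u, b⟩`, acting as an elementary abelian group of order `r²` on an abelian group of order prime to
`r`, with no fixed points: the abelian group is trivial. -/
theorem no_fixed_rank2 {B : Type*} [CommGroup B] [Finite B] {r : ℕ} (hr : r.Prime) (hcop : (Nat.card B).Coprime r)
    (u b : Monoid.End B) (hub : Commute b u) (hu : u ^ r = 1) (hb : b ^ r = 1)
    (h1 : ∀ x, u x = x → x = 1) (h2 : ∀ a < r, ∀ x, (b * u ^ a) x = x → x = 1) (x : B) : x = 1 := by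
  classical
  have hnorm : ∀ y : Monoid.End B, y ^ r = 1 → (∀ x, y x = x → x = 1) → ∀ x,
      ∏ t ∈ Finset.range r, (y ^ t) x = 1 := by
    intro y hy hf x
    apply hf
    rw [map_prod]
    have e1 : ∀ t, y ((y ^ t) x) = (y ^ (t + 1)) x := by
      intro t
      rw [pow_succ']
      rfl
    simp only [e1]
    have e2 := Finset.prod_range_succ (fun t => (y ^ t) x) r
    have e3 := Finset.prod_range_succ' (fun t => (y ^ t) x) r
    rw [e2, hy] at e3
    simp only [pow_zero] at e3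
    exact (mul_right_cancel e3).symm
  have hU := hnorm u hu h1
  have hprod : ∏ a ∈ Finset.range r, ∏ t ∈ Finset.range r, ((b * u ^ a) ^ t) x = 1 := by
    refine Finset.prod_eq_one fun a ha => ?_
    refine hnorm _ ?_ (h2 a (Finset.mem_range.1 ha)) x
    rw [(hub.pow_right a).mul_pow, hb, ← pow_mul, mul_comm a r, pow_mul, hu, one_pow, mul_one]
  have hexp : ∀ a t, ((b * u ^ a) ^ t) x = (b ^ t) ((u ^ (a * t)) x) := by
    intro a t
    rw [(hub.pow_right a).mul_pow, ← pow_mul]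
    rfl
  simp only [hexp] at hprod
  rw [Finset.prod_comm] at hprod
  have hinner : ∀ t ∈ Finset.range r, t ≠ 0 → ∏ a ∈ Finset.range r, (b ^ t) ((u ^ (a * t)) x) = 1 := by
    intro t ht ht0
    rw [← map_prod]
    have hmod : ∀ n : ℕ, u ^ n = u ^ (n % r) := by
      intro n
      conv_lhs => rw [← Nat.div_add_mod n r, pow_add, pow_mul, hu, one_pow, one_mul]
    have hcop2 : Nat.Coprime t r := by
      rw [Nat.coprime_comm, Nat.Prime.coprime_iff_not_dvd hr]
      intro hd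
      exact absurd (Nat.le_of_dvd (Nat.pos_of_ne_zero ht0) hd) (by
        have := Finset.mem_range.1 ht
        omega)
    have h3 : ∏ a ∈ Finset.range r, (u ^ (a * t)) x = ∏ c ∈ Finset.range r, (u ^ c) x := by
      refine Finset.prod_bij (fun a _ => (a * t) % r) ?_ ?_ ?_ ?_
      · intro a _
        exact Finset.mem_range.2 (Nat.mod_lt _ hr.pos)
      · intro a ha a' ha' h
        have h4 : a * t ≡ a' * t [MOD r] := h
        have h5 : a ≡ a' [MOD r] := Nat.ModEq.cancel_right_of_coprime (by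
          rw [Nat.gcd_comm]
          exact hcop2) h4
        have h6 := Finset.mem_range.1 ha
        have h7 := Finset.mem_range.1 ha'
        exact Nat.ModEq.eq_of_lt_of_lt h5 h6 h7
      · intro c hc
        have hc' := Finset.mem_range.1 hc
        obtain ⟨s, -, hs⟩ := Nat.exists_mul_mod_eq_one_of_coprime hcop2 hr.one_lt
        refine ⟨(c * s) % r, Finset.mem_range.2 (Nat.mod_lt _ hr.pos), ?_⟩
        have h4 : ((c * s) % r * t) % r = c := by
          rw [Nat.mod_mul_mod, mul_assoc, Nat.mul_mod, mul_comm s t, hs]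
          simp [Nat.mod_eq_of_lt hc']
        exact h4
      · intro a _
        rw [← hmod]
    rw [h3, hU, map_one]
  rw [Finset.prod_eq_single 0 (fun t ht ht0 => hinner t ht ht0) (fun h => absurd (Finset.mem_range.2 hr.pos) h)] at hprod
  simp only [pow_zero, zero_mul, mul_zero] at hprod
  have h4 : x ^ r = 1 := by
    simpa [Finset.prod_const] using hprod
  exact orderOf_eq_one_iff.1 (Nat.eq_one_of_dvd_coprimes hcop (orderOf_dvd_natCard x) (orderOf_dvd_of_pow_eq_one h4))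

/-- Conjugation on a normalized subgroup. -/
def conjOnSub (A : Subgroup G) (z : G) (hz : z ∈ normalizer (A : Set G)) : Monoid.End ↥A where
  toFun a := ⟨z * a * z⁻¹, (Subgroup.mem_normalizer_iff.1 hz a).1 a.2⟩
  map_one' := by
    apply Subtype.ext
    simp
  map_mul' a b := by
    apply Subtype.ext
    change z * ((a : G) * b) * z⁻¹ = (z * a * z⁻¹) * (z * b * z⁻¹)
    group

theorem conjOnSub_pow (A : Subgroup G) (z : G) (hz : z ∈ normalizer (A : Set G)) (n : ℕ) (a : ↥A) :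
    (((conjOnSub A z hz) ^ n) a : G) = z ^ n * a * (z ^ n)⁻¹ := by
  induction n with
  | zero => simp
  | succ n ih =>
    rw [pow_succ']
    change z * (((conjOnSub A z hz) ^ n) a : G) * z⁻¹ = _
    rw [ih, pow_succ']
    group

/-- The group-theoretic form of `no_fixed_rank2`. -/
theorem eq_bot_of_no_fixed_rank2 {A : Subgroup G} (hAab : ∀ a ∈ A, ∀ b ∈ A, a * b = b * a) {r : ℕ} (hr : r.Prime)
    (hcop : (Nat.card A).Coprime r) {u b : G} (hu : u ∈ normalizer (A : Set G)) (hb : b ∈ normalizer (A : Set G))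
    (hub : b * u = u * b) (hur : u ^ r ∈ centralizer (A : Set G)) (hbr : b ^ r ∈ centralizer (A : Set G))
    (h1 : A ⊓ centralizer ({u} : Set G) = ⊥) (h2 : ∀ a < r, A ⊓ centralizer ({b * u ^ a} : Set G) = ⊥) : A = ⊥ := by
  classical
  letI : CommGroup A := { (inferInstance : Group A) with mul_comm := fun a b => Subtype.ext (hAab a a.2 b b.2) }
  have hel : ∀ (z : G) (hz : z ∈ normalizer (A : Set G)), A ⊓ centralizer ({z} : Set G) = ⊥ →
      ∀ x : ↥A, conjOnSub A z hz x = x → x = 1 := by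
    intro z hz hf x hx
    have h3 : z * (x : G) * z⁻¹ = x := congrArg Subtype.val hx
    have h4 : (x : G) ∈ A ⊓ centralizer ({z} : Set G) := by
      refine ⟨x.2, ?_⟩
      show (x : G) ∈ centralizer _
      rw [mem_centralizer_singleton_iff]
      calc (x : G) * z = z * x * z⁻¹ * z := by rw [h3]
        _ = z * x := by group
    rw [hf, Subgroup.mem_bot] at h4
    exact Subtype.ext h4
  have hpw : ∀ (z : G) (hz : z ∈ normalizer (A : Set G)), z ^ r ∈ centralizer (A : Set G) →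
      (conjOnSub A z hz) ^ r = 1 := by
    intro z hz hzr
    ext x
    rw [conjOnSub_pow]
    have := Subgroup.mem_centralizer_iff.1 hzr x x.2
    change z ^ r * (x : G) * (z ^ r)⁻¹ = x
    rw [← this]
    group
  have hcomm : Commute (conjOnSub A b hb) (conjOnSub A u hu) := by
    ext x
    change b * (u * x * u⁻¹) * b⁻¹ = u * (b * x * b⁻¹) * u⁻¹
    have e : (b * u)⁻¹ = (u * b)⁻¹ := by rw [hub]
    calc b * (u * x * u⁻¹) * b⁻¹ = (b * u) * x * (b * u)⁻¹ := by group
      _ = (u * b) * x * (u * b)⁻¹ := by rw [hub]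
      _ = u * (b * x * b⁻¹) * u⁻¹ := by group
  have hfix2 : ∀ a < r, ∀ x, ((conjOnSub A b hb) * (conjOnSub A u hu) ^ a) x = x → x = 1 := by
    intro a ha x hx
    have hz : b * u ^ a ∈ normalizer (A : Set G) :=
      Subgroup.mul_mem _ hb (Subgroup.pow_mem _ hu a)
    apply hel _ hz (h2 a ha)
    apply Subtype.ext
    have h3 : b * ((((conjOnSub A u hu) ^ a) x : G)) * b⁻¹ = x := congrArg Subtype.val hx
    rw [conjOnSub_pow] at h3
    change (b * u ^ a) * (x : G) * (b * u ^ a)⁻¹ = x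
    calc (b * u ^ a) * (x : G) * (b * u ^ a)⁻¹ = b * (u ^ a * x * (u ^ a)⁻¹) * b⁻¹ := by group
      _ = x := h3
  have hall := no_fixed_rank2 hr hcop (conjOnSub A u hu) (conjOnSub A b hb) hcomm (hpw u hu hur) (hpw b hb hbr)
    (hel u hu h1) hfix2
  rw [eq_bot_iff]
  intro x hx
  rw [Subgroup.mem_bot]
  exact congrArg Subtype.val (hall ⟨x, hx⟩)

/-- A complement of `M_σ` containing a given maximal `r`-subgroup, `r ∉ σ(M)`. -/
theorem exists_compl_ge (hG : IsMinSimpleOddOrder G) (huniq : UniquenessThm G) {M R : Subgroup G} (hM : IsCoatom M) {r : ℕ}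
    [Fact r.Prime] (hrσ : r ∉ sigma M) (hR : IsMaxP r R M) : ∃ E : Subgroup G, IsComplIn E (sigmaCore M) M ∧ R ≤ E := by
  classical
  obtain ⟨hH1, hH2, hH3⟩ := (s1350_core hG huniq hM).1
  have hcop : (Nat.card (sigmaCore M)).Coprime ((sigmaCore M).relIndex M) :=
    Nat.coprime_of_dvd fun k hk h1 h2 => hH3 k hk (hH2 k hk h1) h2
  obtain ⟨V, hV, -⟩ := exists_compl_cop hH1 (le_normalizer_piCoreOf _ _) hcop
  obtain ⟨R', hR', -⟩ := exists_isMaxP_ge (T := ⊥) (N := V) bot_le IsPGroup.of_bot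
  have hR'M := IsMaxP.of_compl hG huniq hM hV hrσ hR'
  obtain ⟨n, hn, he⟩ := hR'M.exists_conj_eq hR
  have hnN : n ∈ normalizer (sigmaCore M : Set G) := le_normalizer_piCoreOf _ _ hn
  refine ⟨V.map (MulAut.conj n).toMonoidHom, ⟨?_, hV.2.1, ?_, ?_⟩, ?_⟩
  · rintro _ ⟨v, hv, rfl⟩
    exact M.mul_mem (M.mul_mem hn (hV.1 hv)) (M.inv_mem hn)
  · rw [eq_bot_iff]
    rintro _ ⟨⟨v, hv, rfl⟩, hu⟩
    have h1 : v ∈ sigmaCore M := by
      have h2 := (Subgroup.mem_normalizer_iff.1 hnN v).2 hu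
      simpa [MulAut.conj_apply] using h2
    have h3 : v ∈ V ⊓ sigmaCore M := ⟨hv, h1⟩
    rw [hV.2.2.1, Subgroup.mem_bot] at h3
    rw [Subgroup.mem_bot, h3]
    simp
  · intro m hm
    obtain ⟨a, ha, b, hb, e⟩ := hV.2.2.2 (n⁻¹ * m * n) (M.mul_mem (M.mul_mem (M.inv_mem hn) hm) hn)
    refine ⟨n * a * n⁻¹, conj_mem_conj_map V n a ha, n * b * n⁻¹, (Subgroup.mem_normalizer_iff.1 hnN b).1 hb, ?_⟩
    have e2 : m = n * (n⁻¹ * m * n) * n⁻¹ := by group
    rw [e2, e]
    group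
  · rw [← he]
    exact Subgroup.map_mono hR'.le

namespace Tau2Setup

variable {p : ℕ} [hpf : Fact p.Prime] {A M : Subgroup G} (T : Tau2Setup p A M)

include T

/-- A non-scalar element with an invariant line: anything commuting with it modulo `C_G(A)` leaves the line
invariant. -/
theorem conj_line_of_commute {v a₁ a x : G} (ha₁ : a₁ ∈ A) (ha₁1 : a₁ ≠ 1) (hva₁ : v * a₁ * v⁻¹ ∈ zpowers a₁) (ha : a ∈ A)
    (hva : v * a * v⁻¹ ∉ zpowers a) (hvN : v ∈ normalizer (A : Set G)) (hxN : x ∈ normalizer (A : Set G))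
    (hxv : ∀ y ∈ A, v * (x * y * x⁻¹) * v⁻¹ = x * (v * y * v⁻¹) * x⁻¹) : x * a₁ * x⁻¹ ∈ zpowers a₁ := by
  classical
  by_contra h
  obtain ⟨n, hn⟩ := Subgroup.mem_zpowers_iff.1 hva₁
  have hb : x * a₁ * x⁻¹ ∈ A := (Subgroup.mem_normalizer_iff.1 hxN a₁).1 ha₁
  have hvb : v * (x * a₁ * x⁻¹) * v⁻¹ = (x * a₁ * x⁻¹) ^ n := by
    rw [hxv a₁ ha₁, ← hn, conj_zpow]
  have hsup := T.S.sup_eq ha₁ ha₁1 hb h
  have hab : ∀ c ∈ A, ∀ d ∈ A, c * d = d * c := fun c hc d hd => by
    have := T.S.hAe.1.is_comm.comm ⟨c, hc⟩ ⟨d, hd⟩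
    exact congrArg Subtype.val this
  have hcomm : Commute a₁ (x * a₁ * x⁻¹) := hab _ ha₁ _ hb
  obtain ⟨i, j, hij⟩ := exists_zpow_mul_of_mem_sup hcomm (by rw [hsup]; exact ha)
  apply hva
  refine Subgroup.mem_zpowers_iff.2 ⟨n, ?_⟩
  have h1 : v * (a₁ ^ i * (x * a₁ * x⁻¹) ^ j) * v⁻¹ =
      (v * a₁ * v⁻¹) ^ i * (v * (x * a₁ * x⁻¹) * v⁻¹) ^ j := by
    rw [conj_zpow (a := v) (b := a₁), conj_zpow (a := v) (b := x * a₁ * x⁻¹)]
    generalize a₁ ^ i = α
    generalize (x * a₁ * x⁻¹) ^ j = β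
    group
  rw [hij, h1, ← hn, hvb, (hcomm.zpow_zpow i j).mul_zpow]
  rw [← zpow_mul, ← zpow_mul, ← zpow_mul, ← zpow_mul, mul_comm i n, mul_comm j n]

/-- The normalizer of a Sylow subgroup acts on `A` as an abelian group. -/
theorem comm_of_norm_sylow (h1412 : Sylow2Struct G) (Pst : Sylow p G) (hAP : A ≤ (Pst : Subgroup G)) (hPM : (Pst : Subgroup G) ≤ M) :
    ⁅normalizer ((Pst : Subgroup G) : Set G), normalizer ((Pst : Subgroup G) : Set G)⁆ ≤ centralizer (A : Set G) := by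
  classical
  have hpp : p.Prime := Fact.out
  have hG := T.S.hG
  have huniq := T.S.huniq
  have hpl := T.S.hpl
  have hSp : IsPGroup p (Pst : Subgroup G) := Pst.isPGroup'
  have hP : IsMaxP p (Pst : Subgroup G) M := ⟨hPM, hSp, fun D' _ h2 h3 => Pst.is_maximal' h2 h3⟩
  have hN_A : normalizer ((Pst : Subgroup G) : Set G) ≤ normalizer (A : Set G) := T.norm_P_le_norm_A hP hAP
  have hSab : ∀ a ∈ (Pst : Subgroup G), ∀ b ∈ (Pst : Subgroup G), a * b = b * a := fun a ha b hb =>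
    comm_of_not_sigma hG huniq hpl h1412 T.hM T.hpσ hPM hSp ha hb
  have hNtop : normalizer ((Pst : Subgroup G) : Set G) ≠ ⊤ :=
    IsMinSimpleOddOrder.normalizer_ne_top hG
      (fun h => T.S.hA1 (by rw [eq_bot_iff, ← h]; exact hAP))
      (fun h => T.hM.1 (top_le_iff.1 (h ▸ hPM)))
  obtain ⟨L, hL, hNL⟩ := exists_coatom_ge hNtop
  have hSL : (Pst : Subgroup G) ≤ L := Subgroup.le_normalizer.trans hNL
  have hPL : IsMaxP p (Pst : Subgroup G) L := ⟨hSL, hSp, fun D' _ h2 h3 => Pst.is_maximal' h2 h3⟩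
  have hApd : p ∣ Nat.card L := T.S.hdvd.trans (Subgroup.card_dvd_of_le (hAP.trans hSL))
  have hpσL : p ∈ sigma L := mem_sigma_of_normalizer_le hPL hApd hNL
  have hnideal : ¬ IsIdealPrime p G :=
    (s1408_core hG huniq T.hM (prank_of_not_sigma hG huniq T.hM T.hpσ) T.mem_tau2.2.2.2).1
  have hnc := (s1414_core hG huniq hL (fun q _ _ => hpl q L hL.1)).2.2.2.2 p hpp hApd
    (not_mem_beta_of_not_ideal hnideal)
  obtain ⟨Y, hYK, hKY, hYc, hYm⟩ := exists_complement_core hnc.1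
  have hLY : L ≤ normalizer (Y : Set G) := by
    intro l hl
    apply mem_normalizer_of_conj_le
    intro y hy
    have hyL := hYK hy
    have h1 : l * y * l⁻¹ ∈ ⁅L, L⁆ := by
      have := (Subgroup.mem_normalizer_iff.1 (Subgroup.normalizer_commutator_ge_left L L hl) y).1 hyL
      exact this
    refine hYm _ h1 ?_
    rw [Cfsg.Agent.Lib.PGroups.orderOf_conj_eq]
    exact Nat.Coprime.coprime_dvd_left (Subgroup.orderOf_dvd_natCard _ hy) hYc
  have hAY : A ⊓ Y = ⊥ := eq_bot_of_isPGroup_of_coprime (T.S.hAp.to_le inf_le_left) inf_le_right hYc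
  intro u hu
  have huN : u ∈ normalizer ((Pst : Subgroup G) : Set G) := by
    have h2 : ⁅normalizer ((Pst : Subgroup G) : Set G), normalizer ((Pst : Subgroup G) : Set G)⁆ ≤
        normalizer ((Pst : Subgroup G) : Set G) := Subgroup.commutator_le.2 fun a ha b hb =>
      Subgroup.mul_mem _ (Subgroup.mul_mem _ (Subgroup.mul_mem _ ha hb) (Subgroup.inv_mem _ ha)) (Subgroup.inv_mem _ hb)
    exact h2 hu
  have huL : u ∈ ⁅L, L⁆ := (Subgroup.commutator_mono hNL hNL) hu
  obtain ⟨a', ha', b', hb', e, ⟨k, hk⟩, hbc⟩ := exists_primary_decomp u hpp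
  rw [e]
  refine Subgroup.mul_mem _ ?_ ?_
  · -- the `p`-part
    have h1 : a' ∈ normalizer ((Pst : Subgroup G) : Set G) := (zpowers_le.2 huN) ha'
    have h2 : IsPGroup p (zpowers a') := by
      rw [IsPGroup.iff_card, Nat.card_zpowers]
      have := orderOf_dvd_of_pow_eq_one hk
      obtain ⟨m, -, hm⟩ := (Nat.dvd_prime_pow hpp).1 this
      exact ⟨m, hm⟩
    have h3 : IsPGroup p ↥(zpowers a' ⊔ (Pst : Subgroup G)) := h2.to_sup_of_normal_right' hSp (zpowers_le.2 h1)
    have h4 := (Pst.is_maximal' h3 le_sup_right).le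
    have h5 : a' ∈ (Pst : Subgroup G) := h4 ((le_sup_left : zpowers a' ≤ _) (mem_zpowers a'))
    rw [Subgroup.mem_centralizer_iff]
    exact fun a ha => hSab a (hAP ha) a' h5
  · -- the `p'`-part
    have h1 : b' ∈ ⁅L, L⁆ := (zpowers_le.2 huL) hb'
    have h2 : b' ∈ Y := hYm b' h1 hbc
    have h3 : b' ∈ normalizer (A : Set G) := hN_A ((zpowers_le.2 huN) hb')
    rw [Subgroup.mem_centralizer_iff]
    intro a ha
    have h4 : b' * a * b'⁻¹ * a⁻¹ ∈ A := A.mul_mem ((Subgroup.mem_normalizer_iff.1 h3 a).1 ha) (A.inv_mem ha)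
    have h5 : b' * a * b'⁻¹ * a⁻¹ ∈ Y := by
      have h6 := (Subgroup.mem_normalizer_iff.1 (hLY (hAP.trans hSL ha)) b'⁻¹).1 (Y.inv_mem h2)
      have e2 : b' * a * b'⁻¹ * a⁻¹ = b' * (a * b'⁻¹ * a⁻¹) := by group
      rw [e2]
      exact Y.mul_mem h2 h6
    have h7 : b' * a * b'⁻¹ * a⁻¹ ∈ A ⊓ Y := ⟨h4, h5⟩
    rw [hAY, Subgroup.mem_bot] at h7
    have h8 : b' * a * b'⁻¹ = a := mul_inv_eq_one.1 h7
    calc a * b' = b' * a * b'⁻¹ * b' := by rw [h8]
      _ = b' * a := by group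

/-- An element of `E` of order prime to `p`, in a set of primes of rank one, with no invariant line in `A`: impossible,
when `A` lies in a Sylow subgroup of `G` in `M`, and `v` acts freely on `M_σ`. -/
theorem not_irreducible (h1412 : Sylow2Struct G) {E : Subgroup G} (hE : IsComplIn E (sigmaCore M) M) (hAE : A ≤ E)
    (Pst : Sylow p G) (hAP : A ≤ (Pst : Subgroup G)) (hPM : (Pst : Subgroup G) ≤ M)
    {v : G} (hvE : v ∈ E) {r : ℕ} [Fact r.Prime] (hrp : r ≠ p) {k : ℕ} (hvr : v ^ r ^ k = 1) (hr1 : PRankLE r 1 M)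
    (hvfix : ∀ a ∈ A, a ≠ 1 → v * a * v⁻¹ ∉ zpowers a)
    (hfpf : ∀ w ∈ zpowers v, w ≠ 1 → sigmaCore M ⊓ centralizer ({w} : Set G) = ⊥) : False := by
  classical
  have hpp : p.Prime := Fact.out
  have hrr : r.Prime := Fact.out
  have hG := T.S.hG
  have huniq := T.S.huniq
  have hpl := T.S.hpl
  have hM := T.hM
  have hSp : IsPGroup p (Pst : Subgroup G) := Pst.isPGroup'
  have hP : IsMaxP p (Pst : Subgroup G) M := ⟨hPM, hSp, fun D' _ h2 h3 => Pst.is_maximal' h2 h3⟩
  have hEA := T.compl_le_normalizer hE hAE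
  have hvN : v ∈ normalizer (A : Set G) := hEA hvE
  have hCE : centralizer (A : Set G) ≤ E := by
    rw [← T.inf_normalizer_eq hE hAE]
    exact le_inf T.hCM (centralizer_le_normalizer' _)
  have hA_N := T.norm_A_le_norm_sylow h1412 hE hAE Pst hAP hPM
  have hN_A := T.norm_P_le_norm_A hP hAP
  obtain ⟨a₉, ha₉, ha₉1⟩ := A.bot_or_exists_ne_one.resolve_left T.S.hA1
  have hAab : ∀ c ∈ A, ∀ d ∈ A, c * d = d * c := fun c hc d hd => by
    have := T.S.hAe.1.is_comm.comm ⟨c, hc⟩ ⟨d, hd⟩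
    exact congrArg Subtype.val this
  have hvC : v ∉ centralizer (A : Set G) := by
    intro h
    apply hvfix a₉ ha₉ ha₉1
    have h1 := Subgroup.mem_centralizer_iff.1 h a₉ ha₉
    have e : v * a₉ * v⁻¹ = a₉ := by
      rw [← h1]
      group
    rw [e]
    exact mem_zpowers a₉
  have hv1 : v ≠ 1 := by
    rintro rfl
    exact hvC (one_mem _)
  have hordd : orderOf v ∣ r ^ k := orderOf_dvd_of_pow_eq_one hvr
  have hrd : r ∣ orderOf v := by
    obtain ⟨m, -, hm⟩ := (Nat.dvd_prime_pow hrr).1 hordd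
    rw [hm]
    refine dvd_pow_self r ?_
    rintro rfl
    rw [pow_zero, orderOf_eq_one_iff] at hm
    exact hv1 hm
  have hb₀o : orderOf (v ^ (orderOf v / r)) = r := orderOf_pow_orderOf_div (orderOf_pos v).ne' hrd
  have hb₀v : v ^ (orderOf v / r) ∈ zpowers v := (zpowers v).pow_mem (mem_zpowers v) _
  generalize v ^ (orderOf v / r) = b₀ at hb₀o hb₀v
  have hb₀1 : b₀ ≠ 1 := by
    rintro rfl
    rw [orderOf_one] at hb₀o
    exact hrr.one_lt.ne hb₀o
  have hb₀r : b₀ ^ r = 1 := by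
    rw [← hb₀o]
    exact pow_orderOf_eq_one b₀
  have hb₀p : IsPGroup r (zpowers b₀) := by
    rw [IsPGroup.iff_card, Nat.card_zpowers, hb₀o]
    exact ⟨1, (pow_one r).symm⟩
  have hb₀E : b₀ ∈ E := (zpowers_le.2 hvE) hb₀v
  have hvb₀ : v * b₀ = b₀ * v := by
    obtain ⟨n, rfl⟩ := Subgroup.mem_zpowers_iff.1 hb₀v
    exact (Commute.refl v).zpow_right n
  have hvM : v ∈ M := hE.1 hvE
  have hrσ : r ∉ sigma M := by
    intro hrσ
    have h1 := le_sigmaCore_of_isPGroup hG huniq hM hrσ hb₀p (zpowers_le.2 (hE.1 hb₀E))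
    have h2 : b₀ ∈ E ⊓ sigmaCore M := ⟨hb₀E, h1 (mem_zpowers b₀)⟩
    rw [hE.2.2.1, Subgroup.mem_bot] at h2
    exact hb₀1 h2
  have hvp : IsPGroup r (zpowers v) := by
    rw [IsPGroup.iff_card, Nat.card_zpowers]
    obtain ⟨m, -, hm⟩ := (Nat.dvd_prime_pow hrr).1 hordd
    exact ⟨m, hm⟩
  -- fixed points of things commuting with `v`
  have hfix : ∀ w ∈ normalizer (A : Set G), w * v = v * w → w ∉ centralizer (A : Set G) →
      A ⊓ centralizer ({w} : Set G) = ⊥ := by
    intro w hwN hwv hwC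
    by_contra hne
    obtain ⟨a, ha, ha1⟩ := (A ⊓ centralizer ({w} : Set G)).bot_or_exists_ne_one.resolve_left hne
    rcases T.S.cases_of_le inf_le_left ha ha1 with e | e
    · apply hwC
      rw [Subgroup.mem_centralizer_iff]
      intro c hc
      have h1 : c ∈ A ⊓ centralizer ({w} : Set G) := by
        rw [e]
        exact hc
      have h2 : c ∈ centralizer ({w} : Set G) := h1.2
      exact (mem_centralizer_singleton_iff.1 h2)
    · apply hvfix a ha.1 ha1
      rw [← e]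
      refine ⟨(Subgroup.mem_normalizer_iff.1 hvN a).1 ha.1, ?_⟩
      have h1 : a ∈ centralizer ({w} : Set G) := ha.2
      have h2 : a * w = w * a := mem_centralizer_singleton_iff.1 h1
      show v * a * v⁻¹ ∈ centralizer _
      rw [mem_centralizer_singleton_iff]
      have h3 : v⁻¹ * w = w * v⁻¹ := by
        rw [inv_mul_eq_iff_eq_mul, ← mul_assoc, ← hwv]
        group
      calc v * a * v⁻¹ * w = v * a * (v⁻¹ * w) := by group
        _ = v * (a * w) * v⁻¹ := by rw [h3]; group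
        _ = v * (w * a) * v⁻¹ := by rw [h2]
        _ = (v * w) * a * v⁻¹ := by group
        _ = (w * v) * a * v⁻¹ := by rw [hwv]
        _ = w * (v * a * v⁻¹) := by group
  by_cases hb₀C : b₀ ∈ centralizer (A : Set G)
  swap
  · -- the Frobenius case
    have hb₀N : b₀ ∈ normalizer (A : Set G) := hEA hb₀E
    have hf := hfix b₀ hb₀N hvb₀.symm hb₀C
    have hcop : Nat.Coprime (Nat.card (sigmaCore M)) (Nat.card ↥(A ⊔ zpowers b₀)) := by
      have h1 := card_sup_mul_card_inf (zpowers_le.2 hb₀N)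
      have h2 : Nat.card ↥(A ⊔ zpowers b₀) ∣ Nat.card A * Nat.card (zpowers b₀) := by
        rw [← h1]
        exact dvd_mul_right _ _
      rw [T.S.hAc, Nat.card_zpowers, hb₀o] at h2
      refine Nat.Coprime.coprime_dvd_right h2 ?_
      have h3 : Nat.Coprime (Nat.card (sigmaCore M)) p := T.S.sigmaCore_coprime T.hM T.hpσ
      have h4 : Nat.Coprime (Nat.card (sigmaCore M)) r := by
        rw [Nat.coprime_comm, Nat.Prime.coprime_iff_not_dvd hrr]
        exact fun h => hrσ ((s1350_core hG huniq hM).1.2.1 r hrr h)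
      exact Nat.Coprime.mul_right (Nat.Coprime.pow_right 2 h3) h4
    have hsolv : Group.IsSolvable (sigmaCore M) := by
      haveI := T.nil
      infer_instance
    have h1 := frob_fixed A (sigmaCore M) b₀ (by rw [hb₀o]; exact hrr) hb₀N hf
      (T.hAM.trans (le_normalizer_piCoreOf _ _)) (le_normalizer_piCoreOf _ _ (hE.1 hb₀E)) hsolv hcop (by
        rw [hfpf b₀ hb₀v hb₀1]
        exact bot_le)
    -- `A` centralizes `M_σ`
    apply sigmaCore_ne_bot hG huniq hM
    rw [eq_bot_iff, ← T.d]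
    refine le_inf le_rfl fun y hy => ?_
    exact (Subgroup.mem_centralizer_iff.2 fun a ha => (Subgroup.mem_centralizer_iff.1 (h1 hy) a ha))
  -- `b₀` centralizes `A`
  obtain ⟨t, htN, htM⟩ := SetLike.not_le_iff_exists.1 (T.not_norm_le hP)
  have htA := hN_A htN
  have hCM := T.hCM
  obtain ⟨D, hD, hkD⟩ := exists_isMaxP_ge (T := zpowers b₀) (N := centralizer (A : Set G)) (zpowers_le.2 hb₀C) hb₀p
  have hDc : IsCyclic D := by
    by_contra hnc
    have hDM : D ≤ M := hD.le.trans hCM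
    exact not_prank_one_of_not_cyclic (prime_odd hG hrr (hrd.trans ((orderOf_dvd_natCard v)))) hD.isP hnc
      (prank_of_injective (Subgroup.inclusion hDM) (Subgroup.inclusion_injective _) hr1)
  have hyC : t * b₀ * t⁻¹ ∈ centralizer (A : Set G) :=
    (Subgroup.mem_normalizer_iff.1 (Cfsg.Agent.Lib.Basic.mem_normalizer_centralizer htA) b₀).1 hb₀C
  have hyp : IsPGroup r (zpowers (t * b₀ * t⁻¹)) := by
    rw [IsPGroup.iff_card, Nat.card_zpowers, Cfsg.Agent.Lib.PGroups.orderOf_conj_eq, hb₀o]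
    exact ⟨1, (pow_one r).symm⟩
  obtain ⟨c, hc, hle⟩ := hD.exists_conj_le (zpowers_le.2 hyC) hyp
  have hcy : c * (t * b₀ * t⁻¹) * c⁻¹ ∈ D := hle (conj_mem_conj_map _ c _ (mem_zpowers _))
  have hcyz : c * (t * b₀ * t⁻¹) * c⁻¹ ∈ zpowers b₀ := by
    refine mem_zpowers_of_cyclic hDc (hkD (mem_zpowers b₀)) hcy hb₀1 hb₀r ?_
    rw [conj_pow, conj_pow, hb₀r]
    simp
  have hg'z : (c * t) * b₀ * (c * t)⁻¹ ∈ zpowers b₀ := by
    have e : (c * t) * b₀ * (c * t)⁻¹ = c * (t * b₀ * t⁻¹) * c⁻¹ := by group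
    rw [e]
    exact hcyz
  have hg'M : c * t ∉ M := fun h => htM (by
    have h1 : t = c⁻¹ * (c * t) := by group
    rw [h1]
    exact M.mul_mem (M.inv_mem (hCM hc)) h)
  have hg'N : c * t ∈ normalizer ((Pst : Subgroup G) : Set G) :=
    Subgroup.mul_mem _ (hA_N (centralizer_le_normalizer' _ hc)) htN
  have hX1 : zpowers b₀ ≠ ⊥ := by
    rw [Ne, Subgroup.zpowers_eq_bot]
    exact hb₀1
  have hXtop : zpowers b₀ ≠ ⊤ := fun h => hM.1 (top_le_iff.1 (h ▸ zpowers_le.2 (hE.1 hb₀E)))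
  obtain ⟨L, hL, hNL⟩ := exists_coatom_ge (IsMinSimpleOddOrder.normalizer_ne_top hG hX1 hXtop)
  have hcentN : centralizer ({b₀} : Set G) ≤ normalizer ((zpowers b₀ : Subgroup G) : Set G) := by
    intro x hx
    apply mem_normalizer_zpowers_of_conj
    have h1 := mem_centralizer_singleton_iff.1 hx
    have e : x * b₀ * x⁻¹ = b₀ := by
      rw [h1]
      group
    rw [e]
    exact mem_zpowers b₀
  have hg'L : c * t ∈ L := hNL (mem_normalizer_zpowers_of_conj hg'z)
  have hLM : L ≠ M := fun h => hg'M (h ▸ hg'L)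
  have hvL : v ∈ L := hNL (hcentN (mem_centralizer_singleton_iff.2 hvb₀))
  have hAL : A ≤ L := fun a ha => hNL (hcentN (mem_centralizer_singleton_iff.2
    (Subgroup.mem_centralizer_iff.1 hb₀C a ha)))
  have hnidealp : ¬ IsIdealPrime p G :=
    (s1408_core hG huniq hM (prank_of_not_sigma hG huniq hM T.hpσ) T.mem_tau2.2.2.2).1
  have hpdL : p ∣ Nat.card L := T.S.hdvd.trans (Subgroup.card_dvd_of_le hAL)
  -- `r ∉ σ(L)`
  have hrσL : r ∉ sigma L := by
    intro hrσL
    have hvσ : v ∈ sigmaCore L :=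
      (le_sigmaCore_of_isPGroup hG huniq hL hrσL hvp (zpowers_le.2 hvL)) (mem_zpowers v)
    have hb₀σ : b₀ ∈ sigmaCore L := (zpowers_le.2 hvσ) hb₀v
    by_cases hpσL : p ∈ sigma L
    · have hnc := (s1414_core hG huniq hL (fun q _ _ => hpl q L hL.1)).2.2.2.2 p hpp hpdL
        (not_mem_beta_of_not_ideal hnidealp)
      obtain ⟨Y, hYK, hKY, hYc, hYm⟩ := exists_complement_core hnc.2.1
      have hLY : L ≤ normalizer (Y : Set G) := by
        intro l hl
        apply mem_normalizer_of_conj_le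
        intro y hy
        refine hYm _ ((Subgroup.mem_normalizer_iff.1 (le_normalizer_piCoreOf _ _ hl) y).1 (hYK hy)) ?_
        rw [Cfsg.Agent.Lib.PGroups.orderOf_conj_eq]
        exact Nat.Coprime.coprime_dvd_left (Subgroup.orderOf_dvd_natCard _ hy) hYc
      have hvY : v ∈ Y := by
        refine hYm v hvσ ?_
        obtain ⟨m, -, hm⟩ := (Nat.dvd_prime_pow hrr).1 hordd
        rw [hm]
        exact Nat.Coprime.pow_left m ((Nat.coprime_primes hrr hpp).2 hrp)
      have hAY : A ⊓ Y = ⊥ := eq_bot_of_isPGroup_of_coprime (T.S.hAp.to_le inf_le_left) inf_le_right hYc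
      apply hvC
      rw [Subgroup.mem_centralizer_iff]
      intro a ha
      have h4 : v * a * v⁻¹ * a⁻¹ ∈ A := A.mul_mem ((Subgroup.mem_normalizer_iff.1 hvN a).1 ha) (A.inv_mem ha)
      have h5 : v * a * v⁻¹ * a⁻¹ ∈ Y := by
        have h6 := (Subgroup.mem_normalizer_iff.1 (hLY (hAL ha)) v⁻¹).1 (Y.inv_mem hvY)
        have e2 : v * a * v⁻¹ * a⁻¹ = v * (a * v⁻¹ * a⁻¹) := by group
        rw [e2]
        exact Y.mul_mem hvY h6
      have h7 : v * a * v⁻¹ * a⁻¹ ∈ A ⊓ Y := ⟨h4, h5⟩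
      rw [hAY, Subgroup.mem_bot] at h7
      have h8 : v * a * v⁻¹ = a := mul_inv_eq_one.1 h7
      calc a * v = v * a * v⁻¹ * v := by rw [h8]
        _ = v * a := by group
    · have T' : Tau2Setup p A L := Tau2Setup.mk' hG huniq hpl hL hAL T.S.hAe T.S.hAc hpσL
      have h1 : b₀ ∈ sigmaCore L ⊓ centralizer (A : Set G) := ⟨hb₀σ, hb₀C⟩
      rw [T'.d, Subgroup.mem_bot] at h1
      exact hb₀1 h1
  have hτL := (s1409_core hG huniq hL hrσL (zpowers b₀) (by rw [Nat.card_zpowers, hb₀o]) hNL).1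
  have hr2 : r ≠ 2 := prime_odd hG hrr (hrd.trans (orderOf_dvd_natCard v))
  -- `p ∈ σ(L)`
  have hpσL : p ∈ sigma L := by
    by_contra hpσL
    have TA : Tau2Setup p A L := Tau2Setup.mk' hG huniq hpl hL hAL T.S.hAe T.S.hAc hpσL
    obtain ⟨R, hR, hvR⟩ := exists_isMaxP_ge (zpowers_le.2 hvL) hvp
    have hRnc : ¬ IsCyclic R := by
      intro hc
      apply hτL.2
      apply hR.prank_of
      intro F hFc hFp
      have h1 : IsCyclic F := by
        haveI : IsCyclic ↥R := hc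
        infer_instance
      have := card_le_of_cyclic_elem (q := r) ⟨hFc, hFp⟩ h1
      simpa using this
    obtain ⟨B, hBR, -, hBe, hBc⟩ := exists_normal_sq hr2 hR.isP hRnc
    have TB : Tau2Setup r B L := Tau2Setup.mk' hG huniq hpl hL (hBR.trans hR.le) hBe hBc hrσL
    obtain ⟨EL, hEL, hREL⟩ := exists_compl_ge hG huniq hL hrσL hR
    have hBEL : B ≤ EL := hBR.trans hREL
    rcases TB.sylow_dich h1412 hR hBR with ⟨Rst, hRst⟩ | ⟨-, t₂, ht₂N, ht₂M, ht₂p, -⟩
    · -- `R` is a Sylow subgroup of `G`: `L` normalizes `L_σ R`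
      have hELN : EL ≤ normalizer (R : Set G) := by
        have h1 := TB.compl_le_normalizer hEL hBEL
        have h2 := TB.norm_A_le_norm_sylow h1412 hEL hBEL Rst (by rw [hRst]; exact hBR) (by rw [hRst]; exact hR.le)
        rw [hRst] at h2
        exact h1.trans h2
      have hLN : L ≤ normalizer ((sigmaCore L ⊔ R : Subgroup G) : Set G) := by
        intro l hl
        obtain ⟨e, he, u, hu, rfl⟩ := hEL.2.2.2 l hl
        have hsup : ∀ x ∈ normalizer (sigmaCore L : Set G), x ∈ normalizer (R : Set G) →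
            x ∈ normalizer ((sigmaCore L ⊔ R : Subgroup G) : Set G) := fun x h1 h2 =>
          (Subgroup.normalizer_inf_normalizer_le_normalizer_sup (sigmaCore L) R ⟨h1, h2⟩)
        exact Subgroup.mul_mem _ (hsup e (le_normalizer_piCoreOf _ _ (hEL.1 he)) (hELN he))
          (Subgroup.le_normalizer ((le_sup_left : sigmaCore L ≤ _) hu))
      have hcop : (Nat.card ↥(sigmaCore L ⊔ R)).Coprime p := by
        have h1 : Nat.card ↥(sigmaCore L ⊔ R) * Nat.card ↥(sigmaCore L ⊓ R) = Nat.card (sigmaCore L) * Nat.card R :=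
          card_sup_mul_card_inf (hR.le.trans (le_normalizer_piCoreOf (sigma L) L))
        have h2 : Nat.card ↥(sigmaCore L ⊔ R) ∣ Nat.card (sigmaCore L) * Nat.card R := by
          rw [← h1]
          exact dvd_mul_right _ _
        refine Nat.Coprime.coprime_dvd_left h2 (Nat.Coprime.mul_left (TA.S.sigmaCore_coprime hL hpσL) ?_)
        obtain ⟨n, hn⟩ := IsPGroup.iff_card.1 hR.isP
        rw [hn]
        exact Nat.Coprime.pow_left n ((Nat.coprime_primes hrr hpp).2 hrp)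
      have hAs : A ⊓ (sigmaCore L ⊔ R) = ⊥ :=
        eq_bot_of_isPGroup_of_coprime (T.S.hAp.to_le inf_le_left) inf_le_right hcop
      have hvs : v ∈ sigmaCore L ⊔ R := (le_sup_right : R ≤ _) (hvR (mem_zpowers v))
      apply hvC
      rw [Subgroup.mem_centralizer_iff]
      intro a ha
      have h4 : v * a * v⁻¹ * a⁻¹ ∈ A := A.mul_mem ((Subgroup.mem_normalizer_iff.1 hvN a).1 ha) (A.inv_mem ha)
      have h5 : v * a * v⁻¹ * a⁻¹ ∈ sigmaCore L ⊔ R := by
        have h6 := (Subgroup.mem_normalizer_iff.1 (hLN (hAL ha)) v⁻¹).1 (Subgroup.inv_mem _ hvs)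
        have e2 : v * a * v⁻¹ * a⁻¹ = v * (a * v⁻¹ * a⁻¹) := by group
        rw [e2]
        exact Subgroup.mul_mem _ hvs h6
      have h7 : v * a * v⁻¹ * a⁻¹ ∈ A ⊓ (sigmaCore L ⊔ R) := ⟨h4, h5⟩
      rw [hAs, Subgroup.mem_bot] at h7
      have h8 : v * a * v⁻¹ = a := mul_inv_eq_one.1 h7
      calc a * v = v * a * v⁻¹ * v := by rw [h8]
        _ = v * a := by group
    · -- otherwise `τ₂(L) = {r}`
      have h1 := TB.norm_P_le_norm_A hR hBR ht₂N
      have h2 := TB.tau2_eq_of_move hEL hBEL h1 ht₂p ht₂M (⟨hpp, hpσL, prank_of_not_sigma hG huniq hL hpσL, TA.mem_tau2.2.2.2⟩ : p ∈ tau2 L)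
      exact hrp h2.symm
  -- `S ≤ L`
  have hSL : (Pst : Subgroup G) ≤ L := by
    obtain ⟨P', hP', hAP'⟩ := exists_isMaxP_ge hAL T.S.hAp
    obtain ⟨S', hS', -⟩ := sigma_sylow hpσL hP'.toSylow
    have hS'P' : (S' : Subgroup G) = P' := by
      rw [hS']
      exact Subgroup.map_subgroupOf_eq_of_le hP'.le
    obtain ⟨g, hg⟩ := MulAction.exists_smul_eq G S' Pst
    have hconj : ∀ x ∈ P', g * x * g⁻¹ ∈ (Pst : Subgroup G) := by
      intro x hx
      rw [← hg, Sylow.coe_subgroup_smul]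
      rw [← hS'P'] at hx
      exact Subgroup.smul_mem_pointwise_smul x (MulAut.conj g) _ hx
    have hSab : ∀ a ∈ (Pst : Subgroup G), ∀ b ∈ (Pst : Subgroup G), a * b = b * a := fun a ha b hb =>
      comm_of_not_sigma hG huniq hpl h1412 hM T.hpσ hPM hSp ha hb
    have hP'C : P' ≤ centralizer (A : Set G) := by
      intro x hx
      rw [Subgroup.mem_centralizer_iff]
      intro a ha
      have h1 := hSab _ (hconj a (hAP' ha)) _ (hconj x hx)
      have h2 : g * (a * x) * g⁻¹ = g * (x * a) * g⁻¹ := by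
        calc g * (a * x) * g⁻¹ = (g * a * g⁻¹) * (g * x * g⁻¹) := by group
          _ = (g * x * g⁻¹) * (g * a * g⁻¹) := h1
          _ = g * (x * a) * g⁻¹ := by group
      simpa using h2
    have h3 : IsPGroup p ↥(P' ⊔ (Pst : Subgroup G)) :=
      hP'.isP.to_sup_of_normal_right' hSp (hP'C.trans ((centralizer_le_normalizer' _).trans hA_N))
    have h4 : P' ≤ (Pst : Subgroup G) := le_sup_left.trans (Pst.is_maximal' h3 le_sup_right).le
    have h5 := S'.is_maximal' hSp (by rw [hS'P']; exact h4)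
    rw [h5, hS'P']
    exact hP'.le
  have hPL : IsMaxP p (Pst : Subgroup G) L := ⟨hSL, hSp, fun D' _ h2 h3 => Pst.is_maximal' h2 h3⟩
  have hNPL : normalizer ((Pst : Subgroup G) : Set G) ≤ L := by
    obtain ⟨S₂, hS₂, hN₂⟩ := sigma_sylow hpσL hPL.toSylow
    have h1 : (S₂ : Subgroup G) = (Pst : Subgroup G) := by
      rw [hS₂]
      exact Subgroup.map_subgroupOf_eq_of_le hPL.le
    rwa [h1] at hN₂
  have hSσ : (Pst : Subgroup G) ≤ sigmaCore L := le_sigmaCore_of_isPGroup hG huniq hL hpσL hSp hSL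
  have hFr : ∀ l ∈ L, ∃ u ∈ sigmaCore L, ∃ n ∈ normalizer ((Pst : Subgroup G) : Set G), l = u * n := by
    intro l hl
    have hPσ : IsMaxP p (Pst : Subgroup G) (sigmaCore L) := ⟨hSσ, hSp, fun D' _ h2 h3 => Pst.is_maximal' h2 h3⟩
    have hT : (Pst : Subgroup G).map (MulAut.conj l).toMonoidHom ≤ sigmaCore L := by
      rintro _ ⟨x, hx, rfl⟩
      exact (Subgroup.mem_normalizer_iff.1 (le_normalizer_piCoreOf _ _ hl) x).1 (hSσ hx)
    obtain ⟨u, hu, hle⟩ := hPσ.exists_conj_le hT (isPGroup_conj_map hSp l)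
    refine ⟨u⁻¹, (sigmaCore L).inv_mem hu, u * l, ?_, by group⟩
    apply mem_normalizer_of_conj_le
    intro x hx
    have h1 := hle (conj_mem_conj_map _ u _ (conj_mem_conj_map _ l x hx))
    have e : (u * l) * x * (u * l)⁻¹ = u * (l * x * l⁻¹) * u⁻¹ := by group
    rw [e]
    exact h1
  have hvNP : v ∈ normalizer ((Pst : Subgroup G) : Set G) := hA_N hvN
  obtain ⟨R, hR, hvR⟩ := exists_isMaxP_ge (T := zpowers v) (N := normalizer ((Pst : Subgroup G) : Set G))
    (zpowers_le.2 hvNP) hvp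
  have hRL : IsMaxP r R L := by
    refine ⟨hR.le.trans hNPL, hR.isP, fun D' h1 h2 h3 => ?_⟩
    obtain ⟨j, hj⟩ := IsPGroup.iff_card.1 h2
    have hsup : sigmaCore L ⊔ normalizer ((Pst : Subgroup G) : Set G) = L := by
      refine le_antisymm (sup_le (piCoreOf_le _ _) hNPL) fun l hl => ?_
      obtain ⟨u, hu, n, hn, rfl⟩ := hFr l hl
      exact Subgroup.mul_mem _ ((le_sup_left : sigmaCore L ≤ _) hu) ((le_sup_right : normalizer _ ≤ _) hn)
    have hc : Nat.card ↥(sigmaCore L ⊔ normalizer ((Pst : Subgroup G) : Set G)) * Nat.card ↥(sigmaCore L ⊓ normalizer ((Pst : Subgroup G) : Set G))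
        = Nat.card (sigmaCore L) * Nat.card (normalizer ((Pst : Subgroup G) : Set G)) :=
      card_sup_mul_card_inf (hNPL.trans (le_normalizer_piCoreOf (sigma L) L))
    rw [hsup] at hc
    have hd : r ^ j ∣ Nat.card L := by
      rw [← hj]
      exact Subgroup.card_dvd_of_le h1
    have hd' : r ^ j ∣ Nat.card (sigmaCore L) * Nat.card (normalizer ((Pst : Subgroup G) : Set G)) := by
      rw [← hc]
      exact hd.trans (dvd_mul_right _ _)
    have hcop : Nat.Coprime (r ^ j) (Nat.card (sigmaCore L)) := by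
      refine Nat.Coprime.pow_left j ?_
      rw [Nat.Prime.coprime_iff_not_dvd hrr]
      exact fun h => hrσL ((s1350_core hG huniq hL).1.2.1 r hrr h)
    have hd2 : r ^ j ∣ Nat.card (normalizer ((Pst : Subgroup G) : Set G)) := hcop.dvd_of_dvd_mul_left hd'
    have hd3 := hR.toSylow.pow_dvd_card_of_pow_dvd_card hd2
    have hcR : Nat.card (hR.toSylow : Subgroup ↥(normalizer ((Pst : Subgroup G) : Set G))) = Nat.card R :=
      Cfsg.Agent.Lib.OddLocal.card_subgroupOf_of_le hR.le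
    rw [hcR, ← hj] at hd3
    exact (Subgroup.eq_of_le_of_card_ge h3 (Nat.le_of_dvd Nat.card_pos hd3)).symm
  have hRnc : ¬ IsCyclic R := by
    intro hc
    apply hτL.2
    apply hRL.prank_of
    intro F hFc hFp
    have h1 : IsCyclic F := by
      haveI : IsCyclic ↥R := hc
      infer_instance
    have := card_le_of_cyclic_elem (q := r) ⟨hFc, hFp⟩ h1
    simpa using this
  obtain ⟨B, hBR, -, hBe, hBc⟩ := exists_normal_sq hr2 hRL.isP hRnc
  have TB : Tau2Setup r B L := Tau2Setup.mk' hG huniq hpl hL (hBR.trans hRL.le) hBe hBc hrσL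
  have hRab : ∀ a ∈ R, ∀ b ∈ R, a * b = b * a := fun a ha b hb =>
    comm_of_not_sigma hG huniq hpl h1412 hL hrσL hRL.le hRL.isP ha hb
  have hvRm : v ∈ R := hvR (mem_zpowers v)
  have hb₀R : b₀ ∈ R := (zpowers_le.2 hvRm) hb₀v
  have hb₀B : b₀ ∈ B := (TB.omega_iff hRL hBR hb₀R).1 hb₀r
  obtain ⟨b, hbB, hbC⟩ := SetLike.not_le_iff_exists.1
    (fun h : B ≤ centralizer (A : Set G) => not_prank_one_of_elem hrr (h.trans hCM) hBe hBc hr1)
  have hbN : b ∈ normalizer ((Pst : Subgroup G) : Set G) := hR.le (hBR hbB)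
  have hbv : b * v = v * b := hRab b (hBR hbB) v hvRm
  have hbM : b ∉ M := by
    intro hbM
    rcases TB.S.cases_of_le (inf_le_left : B ⊓ M ≤ B) ⟨hb₀B, hE.1 hb₀E⟩ hb₀1 with e | e
    · exact not_prank_one_of_elem hrr (inf_eq_left.1 e) hBe hBc hr1
    · have h1 : b ∈ B ⊓ M := ⟨hbB, hbM⟩
      rw [e] at h1
      exact hbC ((zpowers_le.2 hb₀C) h1)
  obtain ⟨a₀, ha₀, ha₀1, ha₀ne⟩ := T.exists_good
  have hbA : b ∈ normalizer (A : Set G) := hN_A hbN
  have hbnon : b * a₀ * b⁻¹ ∉ zpowers a₀ := fun h =>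
    hbM (T.norm_le ha₀ ha₀1 ha₀ne (mem_normalizer_zpowers_of_conj h))
  have hbfix : ∀ a ∈ A, a ≠ 1 → b * a * b⁻¹ ∉ zpowers a := fun a ha ha1 h =>
    hvfix a ha ha1 (T.conj_line_of_commute ha ha1 h ha₀ hbnon hbA hvN (fun y _ => by
      have e : b * (v * y * v⁻¹) * b⁻¹ = (b * v) * y * (b * v)⁻¹ := by group
      rw [e, hbv]
      group))
  have hex : ∃ f : ℕ, v ^ r ^ f ∈ centralizer (A : Set G) := ⟨k, by
    rw [hvr]
    exact one_mem _⟩
  have hfspec := Nat.find_spec hex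
  have hf0 : Nat.find hex ≠ 0 := by
    intro h0
    rw [h0, pow_zero, pow_one] at hfspec
    exact hvC hfspec
  obtain ⟨f', hf'⟩ : ∃ f', Nat.find hex = f' + 1 := ⟨Nat.find hex - 1, by omega⟩
  have hmin : v ^ r ^ f' ∉ centralizer (A : Set G) := Nat.find_min hex (by omega)
  rw [hf', pow_succ, pow_mul] at hfspec
  have huz : v ^ r ^ f' ∈ zpowers v := (zpowers v).pow_mem (mem_zpowers v) _
  have huv : v ^ r ^ f' * v = v * v ^ r ^ f' := ((Commute.refl v).pow_left _)
  have hbu : b * v ^ r ^ f' = v ^ r ^ f' * b := (show Commute b v from hbv).pow_right _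
  generalize v ^ r ^ f' = u at hfspec hmin huz huv hbu
  have huE : u ∈ E := (zpowers_le.2 hvE) huz
  have huN : u ∈ normalizer (A : Set G) := hEA huE
  have h1 : A ⊓ centralizer ({u} : Set G) = ⊥ := hfix u huN huv hmin
  have h2 : ∀ a < r, A ⊓ centralizer ({b * u ^ a} : Set G) = ⊥ := by
    intro a _
    refine hfix _ (Subgroup.mul_mem _ hbA (Subgroup.pow_mem _ huN a)) ?_ ?_
    · have h3 : Commute (u ^ a) v := (show Commute u v from huv).pow_left a
      have h4 : Commute b v := hbv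
      exact h4.mul_left h3
    · intro hC
      apply hbM
      have h3 : u ^ a ∈ M := M.pow_mem (hE.1 huE) a
      have h4 : b = (b * u ^ a) * (u ^ a)⁻¹ := by group
      rw [h4]
      exact M.mul_mem (hCM hC) (M.inv_mem h3)
  have hcop : (Nat.card A).Coprime r := by
    rw [T.S.hAc]
    exact Nat.Coprime.pow_left 2 ((Nat.coprime_primes hpp hrr).2 (Ne.symm hrp))
  have hbrC : b ^ r ∈ centralizer (A : Set G) := by
    rw [hBe.2 b hbB]
    exact one_mem _
  exact T.S.hA1 (eq_bot_of_no_fixed_rank2 hAab hrr hcop huN hbA hbu hfspec hbrC h1 h2)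

end Tau2Setup

end Cfsg.Agent.Lib.FT
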