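import Cfsg.Agent.Lib.FT.BG11p

/-!
BG section 12, the Frobenius-type criterion: invariant lines and cyclic subgroups of maximal order.
-/

set_option autoImplicit false
set_option linter.unusedSectionVars false
set_option linter.style.haveILetI false

namespace Cfsg.Agent.Lib.FT

open Subgroup Cfsg Cfsg.Agent.Lib.OddLocal Cfsg.Agent.Lib.Basic

open scoped commutatorElement Pointwise

open Cfsg.Agent.Lib.Coprime (mem_conj_map conj_mem_conj_map conj_map_conj_map conj_map_one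
  conj_map_mono mem_normalizer_of_conj_le conj_map_eq_iff_mem_normalizer isPGroup_conj_map)

variable {G : Type*} [Group G] [Finite G]

/-- A prime outside `σ(M)` and `τ₂(M)` dividing `|M|` lies in `τ₁(M) ∪ τ₃(M)`. -/
theorem tau13_of_not_tau2 (hG : IsMinSimpleOddOrder G) (huniq : UniquenessThm G) {M : Subgroup G} (hM : IsCoatom M)
    {r : ℕ} (hr : r.Prime) (hrσ : r ∉ sigma M) (hrd : r ∣ Nat.card M) (hrτ : r ∉ tau2 M) : r ∈ tau1 M ∪ tau3 M := by
  haveI : Fact r.Prime := ⟨hr⟩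
  have h1 : PRankLE r 1 M := by
    by_contra h
    exact hrτ ⟨hr, hrσ, prank_of_not_sigma hG huniq hM hrσ, h⟩
  by_cases h : r ∣ Nat.card ↥⁅M, M⁆
  · exact Or.inr ⟨hr, hrσ, h, h1⟩
  · exact Or.inl ⟨hr, hrσ, hrd, h, h1⟩

/-- A prime element of a complement of `M_σ` is at a prime outside `σ(M)`. -/
theorem not_sigma_of_mem_compl (hG : IsMinSimpleOddOrder G) (huniq : UniquenessThm G) {M E : Subgroup G} (hM : IsCoatom M)
    (hE : IsComplIn E (sigmaCore M) M) {v : G} (hvE : v ∈ E) (hv1 : v ≠ 1) {r k : ℕ} (hr : r.Prime) (hk : v ^ r ^ k = 1) :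
    r ∉ sigma M := by
  intro hrσ
  haveI : Fact r.Prime := ⟨hr⟩
  have hzp : IsPGroup r (zpowers v) := by
    rw [IsPGroup.iff_card, Nat.card_zpowers]
    obtain ⟨j, -, hj⟩ := (Nat.dvd_prime_pow hr).1 (orderOf_dvd_of_pow_eq_one hk)
    exact ⟨j, hj⟩
  have h1 := le_sigmaCore_of_isPGroup hG huniq hM hrσ hzp (zpowers_le.2 (hE.1 hvE))
  have h2 : v ∈ E ⊓ sigmaCore M := ⟨hvE, h1 (mem_zpowers v)⟩
  rw [hE.2.2.1, Subgroup.mem_bot] at h2
  exact hv1 h2

/-- A conjugation-invariant subgroup of prime index in an abelian `p`-subgroup, under a `p'`-group: a cyclic invariant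
subgroup outside it. -/
theorem exists_inv_elt {p : ℕ} [Fact p.Prime] {S₀ H : Subgroup G} (hab : ∀ a ∈ S₀, ∀ b ∈ S₀, a * b = b * a)
    (hSp : IsPGroup p S₀) (K : Subgroup ↥S₀) (hidx : K.index = p) (hHS : H ≤ normalizer (S₀ : Set G))
    (hHK : ∀ (h : G) (hh : h ∈ H) (k : ↥S₀), k ∈ K → conjOnSub S₀ h (hHS hh) k ∈ K) (hHc : (Nat.card H).Coprime p) :
    ∃ c : ↥S₀, c ∉ K ∧ H ≤ normalizer ((zpowers (c : G) : Subgroup G) : Set G) := by
  classical
  letI : CommGroup S₀ := { (inferInstance : Group S₀) with mul_comm := fun a b => Subtype.ext (hab a a.2 b b.2) }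
  let ρ : ↥H → (↥S₀ →* ↥S₀) := fun h => conjOnSub S₀ h (hHS h.2)
  obtain ⟨c, hc, hcn⟩ := exists_eigen_of_coprime hSp ρ
    (fun x => by
      apply Subtype.ext
      change (1 : G) * x * (1 : G)⁻¹ = x
      group)
    (fun a b x => by
      apply Subtype.ext
      change ((a : G) * (b : G)) * x * ((a : G) * (b : G))⁻¹ = (a : G) * ((b : G) * x * (b : G)⁻¹) * (a : G)⁻¹
      group)
    K (fun h k hk => hHK h h.2 k hk) hidx hHc
  refine ⟨c, hc, fun h hh => mem_normalizer_zpowers_of_conj ?_⟩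
  obtain ⟨n, hn⟩ := hcn ⟨h, hh⟩
  have h1 : h * (c : G) * h⁻¹ = (c : G) ^ n := congrArg Subtype.val hn
  rw [h1]
  exact (zpowers (c : G)).pow_mem (mem_zpowers _) n

/-- The variant of `exists_inv_elt` with `K` the kernel of a power map into a line. -/
theorem exists_inv_pow {p : ℕ} [Fact p.Prime] {S₀ H : Subgroup G} (hab : ∀ a ∈ S₀, ∀ b ∈ S₀, a * b = b * a)
    (hSp : IsPGroup p S₀) (hHS : H ≤ normalizer (S₀ : Set G)) (hHc : (Nat.card H).Coprime p) {m : ℕ} {w : G}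
    (hw : orderOf w = p) (hpow : ∀ s ∈ S₀, s ^ m ∈ zpowers w) (hs : ∃ s ∈ S₀, s ^ m ≠ 1) :
    ∃ c ∈ S₀, c ^ m ≠ 1 ∧ H ≤ normalizer ((zpowers c : Subgroup G) : Set G) := by
  classical
  have hpp : p.Prime := Fact.out
  letI : CommGroup S₀ := { (inferInstance : Group S₀) with mul_comm := fun a b => Subtype.ext (hab a a.2 b b.2) }
  let f : ↥S₀ →* ↥S₀ := powMonoidHom m
  have hfv : ∀ x : ↥S₀, ((f x : ↥S₀) : G) = (x : G) ^ m := fun x => rfl
  have hidx : f.ker.index = p := by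
    rw [Subgroup.index_ker]
    have h1 : Nat.card f.range = Nat.card (f.range.map S₀.subtype) :=
      (Subgroup.card_map_of_injective S₀.subtype_injective).symm
    have h2 : f.range.map S₀.subtype ≤ zpowers w := by
      rintro _ ⟨_, ⟨x, rfl⟩, rfl⟩
      exact hpow _ x.2
    have h3 : Nat.card (f.range.map S₀.subtype) ∣ p := by
      have := Subgroup.card_dvd_of_le h2
      rwa [Nat.card_zpowers, hw] at this
    rw [h1]
    rcases (Nat.dvd_prime hpp).1 h3 with h4 | h4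
    · exfalso
      obtain ⟨s, hs, hs1⟩ := hs
      have h5 := (Subgroup.card_eq_one).1 h4
      have h6 : s ^ m ∈ f.range.map S₀.subtype := ⟨f ⟨s, hs⟩, ⟨⟨s, hs⟩, rfl⟩, rfl⟩
      rw [h5, Subgroup.mem_bot] at h6
      exact hs1 h6
    · exact h4
  obtain ⟨c, hc, hcn⟩ := exists_inv_elt hab hSp f.ker hidx hHS (fun h hh k hk => by
    rw [MonoidHom.mem_ker] at hk ⊢
    apply Subtype.ext
    have h1 : (k : G) ^ m = 1 := by
      have := congrArg Subtype.val hk
      simpa [hfv] using this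
    change (h * (k : G) * h⁻¹) ^ m = 1
    rw [conj_pow, h1]
    group) hHc
  refine ⟨c, c.2, ?_, hcn⟩
  intro h
  apply hc
  rw [MonoidHom.mem_ker]
  apply Subtype.ext
  exact h

namespace Tau2Setup

variable {p : ℕ} [hpf : Fact p.Prime] {A M : Subgroup G} (T : Tau2Setup p A M)

include T

/-- An element of `E` at a prime of `τ₂(M)` other than `p` centralizes `A`, when `A` lies in a Sylow subgroup of `G`... -/
theorem comm_of_tau2 (h1412 : Sylow2Struct G) {E : Subgroup G} (hE : IsComplIn E (sigmaCore M) M) (hAE : A ≤ E)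
    {v : G} (hvE : v ∈ E) {r k : ℕ} (hrτ : r ∈ tau2 M) (hrp : r ≠ p) (hk : v ^ r ^ k = 1) {a : G} (ha : a ∈ A) :
    v * a * v⁻¹ = a := by
  classical
  have hr : r.Prime := hrτ.1
  haveI : Fact r.Prime := ⟨hr⟩
  have hG := T.S.hG
  have huniq := T.S.huniq
  have hpl := T.S.hpl
  have hM := T.hM
  obtain ⟨R, B, hRE, hRM, hBR, hBe, hBc⟩ := exists_tau2_data hG huniq hM hE hrτ
  have TB : Tau2Setup r B M := Tau2Setup.mk' hG huniq hpl hM (hBR.trans hRM.le) hBe hBc hrτ.2.1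
  have hBE : B ≤ E := hBR.trans hRE.le
  have hvN : v ∈ normalizer (A : Set G) := T.compl_le_normalizer hE hAE hvE
  rcases TB.sylow_dich h1412 hRM hBR with ⟨Rst, hRst⟩ | ⟨-, t, htN, htM, htp, -⟩
  · have hEB := TB.compl_le_normalizer hE hBE
    have hBN := TB.norm_A_le_norm_sylow h1412 hE hBE Rst (by rw [hRst]; exact hBR) (by rw [hRst]; exact hRM.le)
    rw [hRst] at hBN
    have hER : E ≤ normalizer (R : Set G) := hEB.trans hBN
    have hvp : IsPGroup r (zpowers v) := by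
      rw [IsPGroup.iff_card, Nat.card_zpowers]
      obtain ⟨j, -, hj⟩ := (Nat.dvd_prime_pow hr).1 (orderOf_dvd_of_pow_eq_one hk)
      exact ⟨j, hj⟩
    have hvR : v ∈ R := by
      have h1 : IsPGroup r ↥(zpowers v ⊔ R) :=
        hvp.to_sup_of_normal_right' hRE.isP ((zpowers_le.2 hvE).trans hER)
      have h2 := hRE.max _ (sup_le (zpowers_le.2 hvE) hRE.le) h1 le_sup_right
      rw [← h2]
      exact (le_sup_left : zpowers v ≤ _) (mem_zpowers v)
    have h1 : v * a * v⁻¹ * a⁻¹ ∈ A := A.mul_mem ((Subgroup.mem_normalizer_iff.1 hvN a).1 ha) (A.inv_mem ha)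
    have h2 : v * a * v⁻¹ * a⁻¹ ∈ R := by
      have h3 := (Subgroup.mem_normalizer_iff.1 (hER (hAE ha)) v⁻¹).1 (R.inv_mem hvR)
      have e : v * a * v⁻¹ * a⁻¹ = v * (a * v⁻¹ * a⁻¹) := by group
      rw [e]
      exact R.mul_mem hvR h3
    have hAR : A ⊓ R = ⊥ := by
      refine eq_bot_of_isPGroup_of_coprime (T.S.hAp.to_le inf_le_left) inf_le_right ?_
      obtain ⟨j, hj⟩ := IsPGroup.iff_card.1 hRE.isP
      rw [hj]
      exact Nat.Coprime.pow_left j ((Nat.coprime_primes hr Fact.out).2 hrp)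
    have h4 : v * a * v⁻¹ * a⁻¹ ∈ A ⊓ R := ⟨h1, h2⟩
    rw [hAR, Subgroup.mem_bot] at h4
    exact mul_inv_eq_one.1 h4
  · exact absurd (TB.tau2_eq_of_move hE hBE (TB.norm_P_le_norm_A hRM hBR htN) htp htM T.mem_tau2).symm hrp

/-- `V ≤ E` of order prime to `p`, `A` in a Sylow subgroup of `G` in `M`, and elements of `V` in `τ₁ ∪ τ₃` free: `V` leaves
invariant a line of `A` with no fixed points. -/
theorem exists_line_sylow (h1412 : Sylow2Struct G) {E V : Subgroup G} (hE : IsComplIn E (sigmaCore M) M) (hAE : A ≤ E)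
    (Pst : Sylow p G) (hAP : A ≤ (Pst : Subgroup G)) (hPM : (Pst : Subgroup G) ≤ M) (hVE : V ≤ E)
    (hVc : (Nat.card V).Coprime p)
    (hh : ∀ e ∈ V, e ≠ 1 → (∀ q : ℕ, q.Prime → q ∣ orderOf e → q ∈ tau1 M ∪ tau3 M) →
      sigmaCore M ⊓ centralizer ({e} : Set G) = ⊥) :
    ∃ w ∈ A, w ≠ 1 ∧ V ≤ normalizer ((zpowers w : Subgroup G) : Set G) ∧ sigmaCore M ⊓ centralizer ({w} : Set G) = ⊥ := by
  classical
  have hpp : p.Prime := Fact.out
  have hG := T.S.hG
  have huniq := T.S.huniq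
  have hpl := T.S.hpl
  have hM := T.hM
  have hSp : IsPGroup p (Pst : Subgroup G) := Pst.isPGroup'
  have hP : IsMaxP p (Pst : Subgroup G) M := ⟨hPM, hSp, fun D' _ h2 h3 => Pst.is_maximal' h2 h3⟩
  by_cases hall : ∀ v ∈ V, ∀ r : ℕ, r.Prime → ∀ a' ∈ zpowers v, (∃ k : ℕ, a' ^ r ^ k = 1) → ∀ a ∈ A, a ≠ 1 →
      a' * a * a'⁻¹ ∈ zpowers a
  · obtain ⟨a, ha, ha1, hf⟩ := T.f
    refine ⟨a, ha, ha1, fun v hv => ?_, hf⟩
    refine mem_of_primary_parts (T := normalizer ((zpowers a : Subgroup G) : Set G)) fun r hr a' ha' hk => ?_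
    exact mem_normalizer_zpowers_of_conj (hall v hv r hr a' ha' hk a ha ha1)
  push Not at hall
  obtain ⟨v, hv, r, hr, v₀, hv₀, ⟨k, hk⟩, a, ha, ha1, hna⟩ := hall
  haveI : Fact r.Prime := ⟨hr⟩
  have hv₀V : v₀ ∈ V := (zpowers_le.2 hv) hv₀
  have hv₀E : v₀ ∈ E := hVE hv₀V
  have hv₀N : v₀ ∈ normalizer (A : Set G) := T.compl_le_normalizer hE hAE hv₀E
  have hv₀1 : v₀ ≠ 1 := by
    rintro rfl
    apply hna
    simp
  have hrp : r ≠ p := by
    rintro rfl
    apply hv₀1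
    have h1 : (orderOf v₀).Coprime r := Nat.Coprime.coprime_dvd_left (Subgroup.orderOf_dvd_natCard _ hv₀V) hVc
    have h2 : orderOf v₀ ∣ r ^ k := orderOf_dvd_of_pow_eq_one hk
    have h3 : orderOf v₀ = 1 := Nat.eq_one_of_dvd_coprimes (h1.pow_right k) (dvd_refl _) h2
    exact orderOf_eq_one_iff.1 h3
  have hrσ : r ∉ sigma M := not_sigma_of_mem_compl hG huniq hM hE hv₀E hv₀1 hr hk
  have hrτ : r ∉ tau2 M := fun hrτ => hna (by
    rw [T.comm_of_tau2 h1412 hE hAE hv₀E hrτ hrp hk ha]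
    exact mem_zpowers a)
  have hrd : r ∣ Nat.card M := by
    have h1 : orderOf v₀ ∣ r ^ k := orderOf_dvd_of_pow_eq_one hk
    obtain ⟨j, -, hj⟩ := (Nat.dvd_prime_pow hr).1 h1
    have hj0 : j ≠ 0 := by
      rintro rfl
      rw [pow_zero] at hj
      exact hv₀1 (orderOf_eq_one_iff.1 hj)
    have h2 : r ∣ orderOf v₀ := by
      rw [hj]
      exact dvd_pow_self r hj0
    exact h2.trans (Subgroup.orderOf_dvd_natCard _ (hE.1 hv₀E))
  have hr13 := tau13_of_not_tau2 hG huniq hM hr hrσ hrd hrτ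
  have hr1 : PRankLE r 1 M := by
    by_contra h
    exact hrτ ⟨hr, hrσ, prank_of_not_sigma hG huniq hM hrσ, h⟩
  have hNA := T.norm_A_le_norm_sylow h1412 hE hAE Pst hAP hPM
  have hNP := T.norm_P_le_norm_A hP hAP
  by_cases hinv : ∃ a₁ ∈ A, a₁ ≠ 1 ∧ v₀ * a₁ * v₀⁻¹ ∈ zpowers a₁
  · obtain ⟨a₁, ha₁, ha₁1, hva₁⟩ := hinv
    have hNa₁ : normalizer ((Pst : Subgroup G) : Set G) ≤ normalizer ((zpowers a₁ : Subgroup G) : Set G) := by
      intro x hx
      refine mem_normalizer_zpowers_of_conj (T.conj_line_of_commute ha₁ ha₁1 hva₁ ha hna hv₀N (hNP hx) fun y hy => ?_)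
      have hu : v₀ * x * v₀⁻¹ * x⁻¹ ∈ centralizer (A : Set G) :=
        T.comm_of_norm_sylow h1412 Pst hAP hPM (Subgroup.commutator_mem_commutator (hNA hv₀N) hx)
      have hz : x * (v₀ * y * v₀⁻¹) * x⁻¹ ∈ A :=
        (Subgroup.mem_normalizer_iff.1 (hNP hx) _).1 ((Subgroup.mem_normalizer_iff.1 hv₀N y).1 hy)
      have h1 := Subgroup.mem_centralizer_iff.1 hu _ hz
      have e : v₀ * (x * y * x⁻¹) * v₀⁻¹ =
          (v₀ * x * v₀⁻¹ * x⁻¹) * (x * (v₀ * y * v₀⁻¹) * x⁻¹) * (v₀ * x * v₀⁻¹ * x⁻¹)⁻¹ := by group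
      rw [e, ← h1]
      group
    refine ⟨a₁, ha₁, ha₁1, ?_, ?_⟩
    · exact hVE.trans ((T.compl_le_normalizer hE hAE).trans (hNA.trans hNa₁))
    · by_contra hne
      exact T.not_norm_le hP (hNa₁.trans (T.norm_le ha₁ ha₁1 hne))
  · push Not at hinv
    refine (T.not_irreducible h1412 hE hAE Pst hAP hPM hv₀E hrp hk hr1 hinv fun w hw hw1 => ?_).elim
    refine hh w ((zpowers_le.2 hv₀V) hw) hw1 fun q hq hqd => ?_
    have h1 : orderOf w ∣ r ^ k := by
      obtain ⟨n, rfl⟩ := Subgroup.mem_zpowers_iff.1 hw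
      exact orderOf_dvd_of_pow_eq_one (by
        rw [← zpow_natCast, zpow_comm, zpow_natCast, hk, one_zpow])
    have h2 : q = r := (Nat.prime_dvd_prime_iff_eq hq hr).1 (hq.dvd_of_dvd_pow (hqd.trans h1))
    rw [h2]
    exact hr13

/-- The cyclic subgroup of maximal order in a maximal `p`-subgroup of `M`, invariant under a `p'`-group `V`. -/
theorem exists_c (h1412 : Sylow2Struct G) {E V P : Subgroup G} (hE : IsComplIn E (sigmaCore M) M) (hAE : A ≤ E)
    (hP : IsMaxP p P M) (hAP : A ≤ P) (hVE : V ≤ E) (hVP : V ≤ normalizer (P : Set G)) (hVc : (Nat.card V).Coprime p)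
    (hh : ∀ e ∈ V, e ≠ 1 → (∀ q : ℕ, q.Prime → q ∣ orderOf e → q ∈ tau1 M ∪ tau3 M) →
      sigmaCore M ⊓ centralizer ({e} : Set G) = ⊥) :
    ∃ c ∈ P, (∀ s ∈ P, orderOf s ∣ orderOf c) ∧ V ≤ normalizer ((zpowers c : Subgroup G) : Set G) ∧
      ∀ e ∈ zpowers c, e ≠ 1 → e ^ p = 1 → sigmaCore M ⊓ centralizer ({e} : Set G) = ⊥ := by
  classical
  have hpp : p.Prime := Fact.out
  have hG := T.S.hG
  have huniq := T.S.huniq
  have hpl := T.S.hpl
  have hM := T.hM
  have hPab : ∀ a ∈ P, ∀ b ∈ P, a * b = b * a := fun a ha b hb =>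
    comm_of_not_sigma hG huniq hpl h1412 hM T.hpσ hP.le hP.isP ha hb
  -- the element of maximal order
  obtain ⟨s₀, hs₀P, i, hs₀o, hexp⟩ : ∃ s₀ ∈ P, ∃ i : ℕ, orderOf s₀ = p ^ (i + 1) ∧ ∀ s ∈ P, orderOf s ∣ orderOf s₀ := by
    letI : CommGroup P := { (inferInstance : Group P) with mul_comm := fun a b => Subtype.ext (hPab a a.2 b b.2) }
    obtain ⟨s, hs⟩ := Monoid.exists_orderOf_eq_exponent (G := ↥P) (Monoid.ExponentExists.of_finite)
    have hdvd : ∀ x ∈ P, orderOf x ∣ orderOf (s : G) := by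
      intro x hx
      rw [Subgroup.orderOf_coe, hs, ← Subgroup.orderOf_mk x hx]
      exact Monoid.order_dvd_exponent _
    obtain ⟨n, hn⟩ := hP.isP s
    have hn' : (s : G) ^ p ^ n = 1 := by simpa using congrArg Subtype.val hn
    obtain ⟨j, -, hj⟩ := (Nat.dvd_prime_pow hpp).1 (orderOf_dvd_of_pow_eq_one hn')
    obtain ⟨a, ha, ha1, -⟩ := T.f
    have hj0 : j ≠ 0 := by
      rintro rfl
      rw [pow_zero] at hj
      have h1 := hdvd a (hAP ha)
      rw [hj, Nat.dvd_one, orderOf_eq_one_iff] at h1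
      exact ha1 h1
    obtain ⟨i, rfl⟩ : ∃ i, j = i + 1 := ⟨j - 1, by omega⟩
    exact ⟨s, s.2, i, hj, hdvd⟩
  generalize hm : p ^ i = m
  have hpow1 : ∀ s ∈ P, (s ^ m) ^ p = 1 := by
    intro s hs
    rw [← pow_mul, ← hm, ← pow_succ, ← hs₀o]
    exact orderOf_dvd_iff_pow_eq_one.1 (hexp s hs)
  have hpowA : ∀ s ∈ P, s ^ m ∈ A := fun s hs => (T.omega_iff hP hAP (P.pow_mem hs m)).1 (hpow1 s hs)
  have hw₀1 : s₀ ^ m ≠ 1 := fun h => by
    have h1 := orderOf_dvd_of_pow_eq_one h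
    rw [hs₀o, ← hm] at h1
    have h2 := (Nat.pow_dvd_pow_iff_le_right hpp.one_lt).1 h1
    omega
  -- the line
  obtain ⟨w, hwA, hw1, hVw, hwbad, s, hsP, hsw, hs1⟩ : ∃ w ∈ A, w ≠ 1 ∧ V ≤ normalizer ((zpowers w : Subgroup G) : Set G) ∧
      sigmaCore M ⊓ centralizer ({w} : Set G) = ⊥ ∧ ∃ s ∈ P, s ^ m ∈ zpowers w ∧ s ^ m ≠ 1 := by
    by_cases hline : ∀ s ∈ P, s ^ m ∈ zpowers (s₀ ^ m)
    · have hNw : normalizer (P : Set G) ≤ normalizer ((zpowers (s₀ ^ m) : Subgroup G) : Set G) := by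
        intro x hx
        apply mem_normalizer_zpowers_of_conj
        rw [← conj_pow]
        exact hline _ ((Subgroup.mem_normalizer_iff.1 hx s₀).1 hs₀P)
      refine ⟨s₀ ^ m, hpowA s₀ hs₀P, hw₀1, hVP.trans hNw, ?_, s₀, hs₀P, mem_zpowers _, hw₀1⟩
      by_contra hne
      exact T.not_norm_le hP (hNw.trans (T.norm_le (hpowA s₀ hs₀P) hw₀1 hne))
    push Not at hline
    obtain ⟨s₁, hs₁P, hs₁⟩ := hline
    have hsup := T.S.sup_eq (hpowA s₀ hs₀P) hw₀1 (hpowA s₁ hs₁P) hs₁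
    have hallpow : ∀ a ∈ A, ∃ s ∈ P, s ^ m = a := by
      intro a ha
      rw [← hsup] at ha
      have hcomm0 : Commute s₀ s₁ := hPab _ hs₀P _ hs₁P
      obtain ⟨i', j', rfl⟩ := exists_zpow_mul_of_mem_sup (hcomm0.pow_pow m m) ha
      refine ⟨s₀ ^ i' * s₁ ^ j', P.mul_mem (P.zpow_mem hs₀P _) (P.zpow_mem hs₁P _), ?_⟩
      rw [(hcomm0.zpow_zpow i' j').mul_pow, ← zpow_natCast (s₀ ^ i'), ← zpow_natCast (s₁ ^ j'), ← zpow_natCast s₀ m,
        ← zpow_natCast s₁ m, zpow_comm s₀, zpow_comm s₁]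
    rcases T.sylow_dich h1412 hP hAP with ⟨Pst, hPst⟩ | ⟨hS, -, -, -, -, Y, hYc, hY⟩
    · obtain ⟨w, hw, hw1, hVw, hbad⟩ := T.exists_line_sylow h1412 hE hAE Pst (by rw [hPst]; exact hAP)
        (by rw [hPst]; exact hP.le) hVE hVc hh
      obtain ⟨s, hs, hsw⟩ := hallpow w hw
      exact ⟨w, hw, hw1, hVw, hbad, s, hs, by rw [hsw]; exact mem_zpowers w, by rw [hsw]; exact hw1⟩
    · by_cases hi : i = 0
      · have hm1 : m = 1 := by rw [← hm, hi, pow_zero]
        obtain ⟨-, ⟨hZc, -⟩, hX⟩ := s1419_core hG huniq hpl h1412 M hM E hE p T.mem_tau2 hS A ⟨hAE, T.S.hAe, T.S.hAc⟩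
        generalize hZdef : A ⊓ centralizer (sigmaCore M : Set G) = Z at hZc hX
        have hZA : Z ≤ A := by
          rw [← hZdef]
          exact inf_le_left
        have hab : ∀ a ∈ A, ∀ b ∈ A, a * b = b * a := fun a ha b hb => hPab a (hAP ha) b (hAP hb)
        have hEA := T.compl_le_normalizer hE hAE
        have hidx : (Z.subgroupOf A).index = p := by
          have h1 := Subgroup.card_mul_index (Z.subgroupOf A)
          rw [Cfsg.Agent.Lib.OddLocal.card_subgroupOf_of_le hZA, hZc, T.S.hAc, pow_two] at h1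
          exact Nat.eq_of_mul_eq_mul_left hpp.pos h1
        obtain ⟨c, hc, hcn⟩ := exists_inv_elt hab T.S.hAp (Z.subgroupOf A) hidx (hVE.trans hEA) (fun h hh k hk => by
          rw [Subgroup.mem_subgroupOf] at hk ⊢
          rw [← hZdef] at hk ⊢
          refine ⟨(conjOnSub A h (hVE.trans hEA hh) k).2, ?_⟩
          have hhM : h ∈ M := hE.1 (hVE hh)
          exact (Subgroup.mem_normalizer_iff.1 (Cfsg.Agent.Lib.Basic.mem_normalizer_centralizer
            (le_normalizer_piCoreOf _ _ hhM)) k).1 hk.2) hVc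
        have hc1 : (c : G) ≠ 1 := fun h => hc (by
          rw [Subgroup.mem_subgroupOf, h]
          exact one_mem _)
        have hcZ : zpowers (c : G) ≠ Z := fun h => hc (by
          rw [Subgroup.mem_subgroupOf, ← h]
          exact mem_zpowers _)
        have hcard : Nat.card (zpowers (c : G)) = p := by rw [Nat.card_zpowers, T.S.ord c.2 hc1]
        have h2 := (hX (zpowers (c : G)) (zpowers_le.2 (hAE c.2)) hcard hcZ).1
        rw [centralizer_zpowers_eq] at h2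
        refine ⟨c, c.2, hc1, hcn, h2, c, hAP c.2, ?_, ?_⟩
        · rw [hm1, pow_one]
          exact mem_zpowers _
        · rw [hm1, pow_one]
          exact hc1
      · exfalso
        apply T.S.not_cyclic
        have hAY : A ≤ Y := by
          intro a ha
          obtain ⟨s, hs, rfl⟩ := hallpow a ha
          obtain ⟨i', rfl⟩ : ∃ i', i = i' + 1 := ⟨i - 1, by omega⟩
          rw [← hm, pow_succ, pow_mul]
          exact hY _ (P.pow_mem hs _)
        exact isCyclic_of_injective (Subgroup.inclusion hAY) (Subgroup.inclusion_injective hAY)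
  -- the subgroup of elements with `m`-th power on the line
  let S₀ : Subgroup G :=
    { carrier := {s | s ∈ P ∧ s ^ m ∈ zpowers w}
      mul_mem' := fun {a b} ha hb => ⟨P.mul_mem ha.1 hb.1, by
        rw [(show Commute a b from hPab a ha.1 b hb.1).mul_pow]
        exact (zpowers w).mul_mem ha.2 hb.2⟩
      one_mem' := ⟨P.one_mem, by
        rw [one_pow]
        exact one_mem _⟩
      inv_mem' := fun {a} ha => ⟨P.inv_mem ha.1, by
        rw [inv_pow]
        exact (zpowers w).inv_mem ha.2⟩ }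
  have hS₀P : S₀ ≤ P := fun s hs => hs.1
  have hVS₀ : V ≤ normalizer (S₀ : Set G) := by
    intro v hv
    apply mem_normalizer_of_conj_le
    intro s hs
    refine ⟨(Subgroup.mem_normalizer_iff.1 (hVP hv) s).1 hs.1, ?_⟩
    rw [conj_pow]
    exact (Subgroup.mem_normalizer_iff.1 (hVw hv) _).1 hs.2
  obtain ⟨c, hc, hcm, hcn⟩ := exists_inv_pow (S₀ := S₀) (H := V) (m := m) (w := w)
    (fun a ha b hb => hPab a ha.1 b hb.1) (hP.isP.to_le hS₀P) hVS₀ hVc (T.S.ord hwA hw1) (fun s hs => hs.2)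
    ⟨s, ⟨hsP, hsw⟩, hs1⟩
  refine ⟨c, hc.1, ?_, hcn, ?_⟩
  · have ho : orderOf c = p ^ (i + 1) := by
      refine orderOf_eq_prime_pow (by rwa [hm]) ?_
      rw [← hs₀o]
      exact orderOf_dvd_iff_pow_eq_one.1 (hexp c hc.1)
    intro s hs
    rw [ho, ← hs₀o]
    exact hexp s hs
  · intro e he he1 hep
    have hup : (c ^ m) ^ p = 1 := hpow1 c hc.1
    have huA : c ^ m ∈ A := hpowA c hc.1
    have hez : e ∈ zpowers (c ^ m) := mem_zpowers_of_cyclic (q := p) (Y := zpowers c) inferInstance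
      ((zpowers c).pow_mem (mem_zpowers c) m) he hcm hup hep
    rw [T.S.cent_eq_of_mem huA hez he1, T.S.cent_eq_of_mem hwA hc.2 hcm]
    exact hwbad

end Tau2Setup

end Cfsg.Agent.Lib.FT
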