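import Cfsg.Agent.Lib.FT.BG11q

/-!
BG section 12, the Frobenius-type criterion: subgroups of the same exponent with no fixed points on `M_σ`.
-/

set_option autoImplicit false
set_option linter.unusedSectionVars false
set_option linter.style.haveILetI false

namespace Cfsg.Agent.Lib.FT

open Subgroup Cfsg Cfsg.Agent.Lib.OddLocal Cfsg.Agent.Lib.Basic

open scoped commutatorElement Pointwise

open Cfsg.Agent.Lib.Coprime (mem_conj_map conj_mem_conj_map conj_map_conj_map conj_map_one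
  conj_map_mono mem_normalizer_of_conj_le conj_map_eq_iff_mem_normalizer isPGroup_conj_map)

variable {G : Type*} [Group G] [Finite G]

/-- If `X = P Y` with `P` a `p`-group, the index of `Y` in `X` is a power of `p`. -/
theorem relIndex_eq_pow_of_cover {p : ℕ} [Fact p.Prime] {X Y P : Subgroup G} (hPX : P ≤ X) (hP : IsPGroup p P)
    (hcov : ∀ x ∈ X, ∃ b ∈ P, ∃ y ∈ Y, x = b * y) : ∃ n : ℕ, Y.relIndex X = p ^ n := by
  classical
  have hP' : IsPGroup p (P.subgroupOf X) := by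
    intro x
    obtain ⟨k, hk⟩ := hP ⟨((x : ↥X) : G), x.2⟩
    exact ⟨k, by
      apply Subtype.ext
      apply Subtype.ext
      simpa using congrArg Subtype.val hk⟩
  obtain ⟨n, hn⟩ := hP'.card_orbit (((1 : ↥X) : ↥X ⧸ Y.subgroupOf X))
  refine ⟨n, ?_⟩
  have huniv : MulAction.orbit ↥(P.subgroupOf X) (((1 : ↥X) : ↥X ⧸ Y.subgroupOf X)) = Set.univ := by
    rw [Set.eq_univ_iff_forall]
    intro z
    obtain ⟨x, rfl⟩ := QuotientGroup.mk_surjective z
    obtain ⟨b, hb, y, hy, e⟩ := hcov x x.2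
    refine ⟨⟨⟨b, hPX hb⟩, by simpa [Subgroup.mem_subgroupOf] using hb⟩, ?_⟩
    change ((⟨b, hPX hb⟩ : ↥X) • ((1 : ↥X) : ↥X ⧸ Y.subgroupOf X)) = _
    rw [MulAction.Quotient.smul_coe, smul_eq_mul, mul_one, QuotientGroup.eq]
    rw [Subgroup.mem_subgroupOf]
    have e2 : (((⟨b, hPX hb⟩ : ↥X)⁻¹ * x : ↥X) : G) = y := by
      simp [e]
    rw [e2]
    exact hy
  rw [huniv, Nat.card_congr (Equiv.Set.univ _)] at hn
  exact hn

namespace Tau2Setup

variable {p : ℕ} [hpf : Fact p.Prime] {A M : Subgroup G} (T : Tau2Setup p A M)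

include T

/-- The step at the prime `p`: passing to a subgroup of `p`-power index in which elements of order `p` are free. -/
theorem exists_step (h1412 : Sylow2Struct G) {E X P : Subgroup G} (hE : IsComplIn E (sigmaCore M) M) (hXE : X ≤ E)
    (hP : IsMaxP p P M) (hAP : A ≤ P) (hPX : P ≤ X)
    (hh : ∀ e ∈ X, e ≠ 1 → (∀ q : ℕ, q.Prime → q ∣ orderOf e → q ∈ tau1 M ∪ tau3 M) →
      sigmaCore M ⊓ centralizer ({e} : Set G) = ⊥) :
    ∃ Y : Subgroup G, Y ≤ X ∧ (∀ q : ℕ, q.Prime → q ≠ p → ¬ q ∣ Y.relIndex X) ∧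
      (∃ c ∈ Y, ∀ x ∈ X, (∃ k : ℕ, x ^ p ^ k = 1) → orderOf x ∣ orderOf c) ∧
      ∀ e ∈ Y, e ≠ 1 → e ^ p = 1 → sigmaCore M ⊓ centralizer ({e} : Set G) = ⊥ := by
  classical
  have hpp : p.Prime := Fact.out
  have hG := T.S.hG
  have huniq := T.S.huniq
  have hpl := T.S.hpl
  have hM := T.hM
  have hAE : A ≤ E := hAP.trans (hPX.trans hXE)
  have hXM : X ≤ M := hXE.trans hE.1
  have hXtop : X ≠ ⊤ := fun h => hM.1 (top_le_iff.1 (h ▸ hXM))
  have hPXm : IsMaxP p P X := ⟨hPX, hP.isP, fun D' h1 h2 h3 => hP.max D' (h1.trans hXM) h2 h3⟩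
  have hPNm : IsMaxP p P (X ⊓ normalizer (P : Set G)) :=
    ⟨le_inf hPX Subgroup.le_normalizer, hP.isP, fun D' h1 h2 h3 => hP.max D' (h1.trans (inf_le_left.trans hXM)) h2 h3⟩
  have hidxp : ¬ p ∣ P.relIndex (X ⊓ normalizer (P : Set G)) := hPNm.toSylow.not_dvd_index
  have hcopV : (P.relIndex (X ⊓ normalizer (P : Set G))).Coprime p :=
    ((Nat.Prime.coprime_iff_not_dvd hpp).2 hidxp).symm
  have hcop : (Nat.card P).Coprime (P.relIndex (X ⊓ normalizer (P : Set G))) := by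
    obtain ⟨j, hj⟩ := IsPGroup.iff_card.1 hP.isP
    rw [hj]
    exact (hcopV.symm).pow_left j
  obtain ⟨V, hV, hVcard⟩ := exists_compl_cop hPNm.le inf_le_right hcop
  have hVc : (Nat.card V).Coprime p := by
    rw [hVcard]
    exact hcopV
  have hVX : V ≤ X := hV.1.trans inf_le_left
  have hVP : V ≤ normalizer (P : Set G) := hV.1.trans inf_le_right
  obtain ⟨c, hcP, hcmax, hVcn, hcbad⟩ := T.exists_c h1412 hE hAE hP hAP (hVX.trans hXE) hVP hVc
    (fun e he he1 hq => hh e (hVX he) he1 hq)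
  have hcX : c ∈ X := hPX hcP
  have hcp : IsPGroup p (zpowers c) := hP.isP.to_le (zpowers_le.2 hcP)
  have hWc : (Nat.card (Oq' p X)).Coprime p := Oq'_card_coprime p X
  have hWX : Oq' p X ≤ X := Oq'_le p X
  have hXW : X ≤ normalizer (Oq' p X : Set G) := le_normalizer_Oq' p X
  have hLX : zpowers c ⊔ V ≤ X := sup_le (zpowers_le.2 hcX) hVX
  have hYX : Oq' p X ⊔ (zpowers c ⊔ V) ≤ X := sup_le hWX hLX
  have hLW : zpowers c ⊔ V ≤ normalizer (Oq' p X : Set G) := hLX.trans hXW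
  refine ⟨Oq' p X ⊔ (zpowers c ⊔ V), hYX, ?_, ⟨c, ?_, ?_⟩, ?_⟩
  · -- the index
    intro q hq hqp hd
    have hcov : ∀ x ∈ X, ∃ b ∈ P, ∃ y ∈ Oq' p X ⊔ (zpowers c ⊔ V), x = b * y := by
      intro x hx
      obtain ⟨n, hn, m, hm, e⟩ := frattini_Oq' hPXm (hpl p X hXtop) (X.inv_mem hx)
      obtain ⟨v, hv, b, hb, e'⟩ := hV.2.2.2 m hm
      refine ⟨b⁻¹, P.inv_mem hb, (n * v)⁻¹, Subgroup.inv_mem _ (Subgroup.mul_mem _
        ((le_sup_left : Oq' p X ≤ _) hn)
        ((le_sup_right : zpowers c ⊔ V ≤ _) ((le_sup_right : V ≤ _) hv))), ?_⟩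
      have e2 : x = (x⁻¹)⁻¹ := (inv_inv x).symm
      rw [e2, e, e']
      group
    obtain ⟨n, hn⟩ := relIndex_eq_pow_of_cover hPX hP.isP hcov
    rw [hn] at hd
    exact hqp ((Nat.prime_dvd_prime_iff_eq hq hpp).1 (hq.dvd_of_dvd_pow hd))
  · exact (le_sup_right : zpowers c ⊔ V ≤ _) ((le_sup_left : zpowers c ≤ _) (mem_zpowers c))
  · -- maximal order
    intro x hx hk
    obtain ⟨k, hk⟩ := hk
    have hxp : IsPGroup p (zpowers x) := by
      rw [IsPGroup.iff_card, Nat.card_zpowers]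
      obtain ⟨j, -, hj⟩ := (Nat.dvd_prime_pow hpp).1 (orderOf_dvd_of_pow_eq_one hk)
      exact ⟨j, hj⟩
    obtain ⟨n, -, hle⟩ := hPXm.exists_conj_le (zpowers_le.2 hx) hxp
    have h1 : n * x * n⁻¹ ∈ P := hle (conj_mem_conj_map _ n x (mem_zpowers x))
    have h2 := hcmax _ h1
    rwa [Cfsg.Agent.Lib.PGroups.orderOf_conj_eq] at h2
  · -- elements of order `p`
    intro e he he1 hep
    have hcardY : Nat.card ↥(Oq' p X ⊔ (zpowers c ⊔ V)) ∣ Nat.card (Oq' p X) * (Nat.card (zpowers c) * Nat.card V) := by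
      have h1 : Nat.card ↥(Oq' p X ⊔ (zpowers c ⊔ V)) * Nat.card ↥(Oq' p X ⊓ (zpowers c ⊔ V)) =
          Nat.card (Oq' p X) * Nat.card ↥(zpowers c ⊔ V) := card_sup_mul_card_inf hLW
      have h2 : Nat.card ↥(zpowers c ⊔ V) * Nat.card ↥(zpowers c ⊓ V) =
          Nat.card (zpowers c) * Nat.card V := card_sup_mul_card_inf hVcn
      calc Nat.card ↥(Oq' p X ⊔ (zpowers c ⊔ V)) ∣ Nat.card (Oq' p X) * Nat.card ↥(zpowers c ⊔ V) := ⟨_, h1.symm⟩
        _ ∣ Nat.card (Oq' p X) * (Nat.card (zpowers c) * Nat.card V) :=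
          Nat.mul_dvd_mul_left _ ⟨_, h2.symm⟩
    have hYm : IsMaxP p (zpowers c) (Oq' p X ⊔ (zpowers c ⊔ V)) := by
      refine ⟨le_sup_left.trans le_sup_right, hcp, fun D' h1 h2 h3 => ?_⟩
      obtain ⟨j, hj⟩ := IsPGroup.iff_card.1 h2
      have hD : Nat.card D' ∣ Nat.card (zpowers c) := by
        have h4 : Nat.card D' ∣ Nat.card (Oq' p X) * (Nat.card (zpowers c) * Nat.card V) :=
          (Subgroup.card_dvd_of_le h1).trans hcardY
        have hcD : ∀ n : ℕ, n.Coprime p → (Nat.card D').Coprime n := fun n hn => by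
          rw [hj]
          exact (hn.symm).pow_left j
        have h5 := (hcD _ hWc).dvd_of_dvd_mul_left h4
        exact (hcD _ hVc).dvd_of_dvd_mul_right h5
      exact (Subgroup.eq_of_le_of_card_ge h3 (Nat.le_of_dvd Nat.card_pos hD)).symm
    have hep' : IsPGroup p (zpowers e) := by
      rw [IsPGroup.iff_card, Nat.card_zpowers, orderOf_eq_prime hep he1]
      exact ⟨1, (pow_one p).symm⟩
    obtain ⟨n, hnY, hle⟩ := hYm.exists_conj_le (zpowers_le.2 he) hep'
    have h1 : n * e * n⁻¹ ∈ zpowers c := hle (conj_mem_conj_map _ n e (mem_zpowers e))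
    have h2 : n * e * n⁻¹ ≠ 1 := fun h => he1 (by
      have e2 : e = n⁻¹ * (n * e * n⁻¹) * n := by group
      rw [e2, h]
      group)
    have h3 : (n * e * n⁻¹) ^ p = 1 := by
      rw [conj_pow, hep]
      group
    have hbad := hcbad _ h1 h2 h3
    have hnM : n ∈ M := hXM (hYX hnY)
    rw [eq_bot_iff]
    rintro y ⟨hy, hyC⟩
    have hyC' : Commute y e := mem_centralizer_singleton_iff.1 hyC
    have h4 : n * y * n⁻¹ ∈ sigmaCore M ⊓ centralizer ({n * e * n⁻¹} : Set G) := by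
      refine ⟨(Subgroup.mem_normalizer_iff.1 (le_normalizer_piCoreOf _ _ hnM) y).1 hy, ?_⟩
      show _ ∈ centralizer _
      rw [mem_centralizer_singleton_iff]
      have h5 : y * e = e * y := hyC'
      calc n * y * n⁻¹ * (n * e * n⁻¹) = n * (y * e) * n⁻¹ := by group
        _ = n * (e * y) * n⁻¹ := by rw [h5]
        _ = n * e * n⁻¹ * (n * y * n⁻¹) := by group
    rw [hbad, Subgroup.mem_bot] at h4
    rw [Subgroup.mem_bot]
    have e2 : y = n⁻¹ * (n * y * n⁻¹) * n := by group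
    rw [e2, h4]
    group

end Tau2Setup

end Cfsg.Agent.Lib.FT
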