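import Cfsg.Agent.Lib.FT.BG11r
import Cfsg.Agent.Lib.FT.BG11m

/-!
BG section 12, the Frobenius-type criterion: the assembled statement.
-/

set_option autoImplicit false
set_option linter.unusedSectionVars false
set_option linter.style.haveILetI false

namespace Cfsg.Agent.Lib.FT

open Subgroup Cfsg Cfsg.Agent.Lib.OddLocal Cfsg.Agent.Lib.Basic

open scoped commutatorElement Pointwise

open Cfsg.Agent.Lib.Coprime (mem_conj_map conj_mem_conj_map conj_map_conj_map conj_map_one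
  conj_map_mono mem_normalizer_of_conj_le conj_map_eq_iff_mem_normalizer isPGroup_conj_map)

variable {G : Type*} [Group G] [Finite G]

theorem bad_of_pow {M : Subgroup G} {e : G} {t : ℕ} (h : sigmaCore M ⊓ centralizer ({e ^ t} : Set G) = ⊥) :
    sigmaCore M ⊓ centralizer ({e} : Set G) = ⊥ := by
  rw [eq_bot_iff, ← h]
  rintro y ⟨hy, hyC⟩
  refine ⟨hy, ?_⟩
  show y ∈ centralizer _
  rw [mem_centralizer_singleton_iff]
  exact (show Commute y e from mem_centralizer_singleton_iff.1 hyC).pow_right t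

theorem bad_of_mem_zpowers {M : Subgroup G} {e a : G} (ha : a ∈ zpowers e) (h : sigmaCore M ⊓ centralizer ({a} : Set G) = ⊥) :
    sigmaCore M ⊓ centralizer ({e} : Set G) = ⊥ := by
  rw [eq_bot_iff, ← h]
  rintro y ⟨hy, hyC⟩
  refine ⟨hy, ?_⟩
  show y ∈ centralizer _
  rw [mem_centralizer_singleton_iff]
  obtain ⟨n, rfl⟩ := Subgroup.mem_zpowers_iff.1 ha
  exact (show Commute y e from mem_centralizer_singleton_iff.1 hyC).zpow_right n

theorem bad_of_conj {M : Subgroup G} {n e : G} (hnM : n ∈ M) (h : sigmaCore M ⊓ centralizer ({n * e * n⁻¹} : Set G) = ⊥) :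
    sigmaCore M ⊓ centralizer ({e} : Set G) = ⊥ := by
  rw [eq_bot_iff]
  rintro y ⟨hy, hyC⟩
  have hyC' : y * e = e * y := mem_centralizer_singleton_iff.1 hyC
  have h4 : n * y * n⁻¹ ∈ sigmaCore M ⊓ centralizer ({n * e * n⁻¹} : Set G) := by
    refine ⟨(Subgroup.mem_normalizer_iff.1 (le_normalizer_piCoreOf _ _ hnM) y).1 hy, ?_⟩
    show _ ∈ centralizer _
    rw [mem_centralizer_singleton_iff]
    calc n * y * n⁻¹ * (n * e * n⁻¹) = n * (y * e) * n⁻¹ := by group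
      _ = n * (e * y) * n⁻¹ := by rw [hyC']
      _ = n * e * n⁻¹ * (n * y * n⁻¹) := by group
  rw [h, Subgroup.mem_bot] at h4
  rw [Subgroup.mem_bot]
  have e2 : y = n⁻¹ * (n * y * n⁻¹) * n := by group
  rw [e2, h4]
  group

theorem isMaxP_of_card {r : ℕ} [Fact r.Prime] {R R' N : Subgroup G} (hR : IsMaxP r R N) (hR'N : R' ≤ N) (hR'p : IsPGroup r R')
    (hc : Nat.card R ≤ Nat.card R') : IsMaxP r R' N := by
  obtain ⟨D, hD, hle⟩ := exists_isMaxP_ge hR'N hR'p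
  obtain ⟨n, -, he⟩ := hD.exists_conj_eq hR
  have h1 : Nat.card R = Nat.card D := by
    rw [← he]
    exact Cfsg.Agent.Lib.Coprime.card_conj_map D n
  have h2 : R' = D := Subgroup.eq_of_le_of_card_ge hle (by omega)
  rw [h2]
  exact hD

theorem exists_A_of_maxP (hG : IsMinSimpleOddOrder G) {M R : Subgroup G} {p : ℕ} [Fact p.Prime] (hp : p ∈ tau2 M)
    (hP : IsMaxP p R M) : ∃ A : Subgroup G, A ≤ R ∧ IsElementaryAbelian p A ∧ Nat.card A = p ^ 2 := by
  classical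
  obtain ⟨hpp, hpσ, hp2, hp1⟩ := hp
  have hnc : ¬ IsCyclic R := by
    intro hc
    apply hp1
    apply hP.prank_of
    intro F hFc hFp
    have h1 : IsCyclic F := by
      haveI : IsCyclic ↥R := hc
      infer_instance
    have := card_le_of_cyclic_elem (q := p) ⟨hFc, hFp⟩ h1
    simpa using this
  have hpd : p ∣ Nat.card G := by
    obtain ⟨F, hF, hFM, hFc⟩ := exists_of_not_prank hp1
    have h1 : 1 < Nat.card F := by
      have : p ^ 1 < Nat.card F := hFc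
      have h2 := hpp.one_lt
      simp only [pow_one] at this
      omega
    obtain ⟨n, hn⟩ := IsPGroup.iff_card.1 (isPGroup_of_elem hF)
    have hn0 : n ≠ 0 := by
      rintro rfl
      rw [pow_zero] at hn
      omega
    have : p ∣ Nat.card F := by
      rw [hn]
      exact dvd_pow_self p hn0
    exact this.trans (Subgroup.card_subgroup_dvd_card F)
  obtain ⟨A, hAP, -, hAe, hAc⟩ := exists_normal_sq (prime_odd hG hpp hpd) hP.isP hnc
  exact ⟨A, hAP, hAe, hAc⟩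

/-- A subgroup of a complement of `M_σ` containing Sylow subgroups at the primes of `τ₂(M)`, with elements in
`τ₁(M) ∪ τ₃(M)` free: a subgroup of the same exponent with all elements free. -/
theorem exists_free_subgroup (hG : IsMinSimpleOddOrder G) (huniq : UniquenessThm G)
    (hpl : ∀ (r : ℕ) [Fact r.Prime] (H : Subgroup G), H ≠ ⊤ → PLengthLE r 1 ↥H) (h1412 : Sylow2Struct G)
    {M E X : Subgroup G} (hM : IsCoatom M) (hE : IsComplIn E (sigmaCore M) M) (hXE : X ≤ E)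
    (hXτ : ∀ r ∈ tau2 M, ∃ R : Subgroup G, IsMaxP r R M ∧ R ≤ X)
    (hh : ∀ e ∈ X, e ≠ 1 → (∀ q : ℕ, q.Prime → q ∣ orderOf e → q ∈ tau1 M ∪ tau3 M) →
      sigmaCore M ⊓ centralizer ({e} : Set G) = ⊥) :
    ∃ E₀ : Subgroup G, E₀ ≤ X ∧ Monoid.exponent E₀ = Monoid.exponent X ∧
      ∀ e ∈ E₀, e ≠ 1 → sigmaCore M ⊓ centralizer ({e} : Set G) = ⊥ := by
  classical
  have key : ∀ F : Finset ℕ, (∀ r ∈ F, r ∈ tau2 M) → ∃ Y : Subgroup G, Y ≤ X ∧ Monoid.exponent Y = Monoid.exponent X ∧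
      (∀ r ∈ tau2 M, r ∉ F → ∃ R : Subgroup G, IsMaxP r R M ∧ R ≤ Y) ∧
      ∀ r ∈ F, ∀ e ∈ Y, e ≠ 1 → e ^ r = 1 → sigmaCore M ⊓ centralizer ({e} : Set G) = ⊥ := by
    intro F
    induction F using Finset.induction_on with
    | empty =>
      intro _
      exact ⟨X, le_rfl, rfl, fun r hr _ => hXτ r hr, by simp⟩
    | insert p F hpF ih =>
      intro hF
      obtain ⟨Y, hYX, hexp, hR, hbad⟩ := ih (fun r hr => hF r (Finset.mem_insert_of_mem hr))
      have hpτ := hF p (Finset.mem_insert_self _ _)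
      haveI : Fact p.Prime := ⟨hpτ.1⟩
      obtain ⟨P, hP, hPY⟩ := hR p hpτ hpF
      obtain ⟨A, hAP, hAe, hAc⟩ := exists_A_of_maxP hG hpτ hP
      have T : Tau2Setup p A M := Tau2Setup.mk' hG huniq hpl hM (hAP.trans hP.le) hAe hAc hpτ.2.1
      obtain ⟨Y', hY'Y, hidx, ⟨c, hc, hcm⟩, hb⟩ := T.exists_step h1412 hE (hYX.trans hXE) hP hAP hPY
        (fun e he => hh e (hYX he))
      refine ⟨Y', hY'Y.trans hYX, ?_, ?_, ?_⟩
      · rw [exponent_eq_of_index hY'Y hidx hc hcm, hexp]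
      · intro r hrτ hrF
        have hrp : r ≠ p := fun h => hrF (h ▸ Finset.mem_insert_self _ _)
        have hrF' : r ∉ F := fun h => hrF (Finset.mem_insert_of_mem h)
        obtain ⟨R, hRm, hRY⟩ := hR r hrτ hrF'
        haveI : Fact r.Prime := ⟨hrτ.1⟩
        obtain ⟨R', hR', -⟩ := exists_isMaxP_ge (p := r) (T := ⊥) (N := Y') bot_le IsPGroup.of_bot
        refine ⟨R', isMaxP_of_card hRm (hR'.le.trans ((hY'Y.trans hYX).trans (hXE.trans hE.1))) hR'.isP ?_, hR'.le⟩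
        obtain ⟨j, hj⟩ := IsPGroup.iff_card.1 hRm.isP
        have h1 : r ^ j ∣ Nat.card Y := by
          rw [← hj]
          exact Subgroup.card_dvd_of_le hRY
        have h2 : Nat.card Y' * Y'.relIndex Y = Nat.card Y := by
          have := Subgroup.card_mul_index (Y'.subgroupOf Y)
          rwa [Cfsg.Agent.Lib.OddLocal.card_subgroupOf_of_le hY'Y] at this
        have h3 : (r ^ j).Coprime (Y'.relIndex Y) :=
          Nat.Coprime.pow_left j ((Nat.Prime.coprime_iff_not_dvd hrτ.1).2 (hidx r hrτ.1 hrp))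
        have h4 : r ^ j ∣ Nat.card Y' := by
          rw [← h2] at h1
          exact h3.dvd_of_dvd_mul_right h1
        have h5 := hR'.toSylow.pow_dvd_card_of_pow_dvd_card h4
        have hcR : Nat.card (hR'.toSylow : Subgroup ↥Y') = Nat.card R' :=
          Cfsg.Agent.Lib.OddLocal.card_subgroupOf_of_le hR'.le
        rw [hcR] at h5
        rw [hj]
        exact Nat.le_of_dvd Nat.card_pos h5
      · intro r hr e he he1 her
        rcases Finset.mem_insert.1 hr with rfl | hrF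
        · exact hb e he he1 her
        · exact hbad r hrF e (hY'Y he) he1 her
  obtain ⟨Y, hYX, hexp, -, hbad⟩ := key ((Nat.card M).primeFactors.filter (· ∈ tau2 M))
    (fun r hr => (Finset.mem_filter.1 hr).2)
  refine ⟨Y, hYX, hexp, fun e he he1 => ?_⟩
  have hord1 : orderOf e ≠ 1 := by rwa [Ne, orderOf_eq_one_iff]
  obtain ⟨q, hq, hqd⟩ := Nat.exists_prime_and_dvd hord1
  haveI : Fact q.Prime := ⟨hq⟩
  have he'o : orderOf (e ^ (orderOf e / q)) = q := orderOf_pow_orderOf_div (orderOf_pos e).ne' hqd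
  have he'1 : e ^ (orderOf e / q) ≠ 1 := by
    intro h
    rw [h, orderOf_one] at he'o
    exact hq.one_lt.ne he'o
  have he'q : (e ^ (orderOf e / q)) ^ q = 1 := orderOf_dvd_iff_pow_eq_one.1 (by rw [he'o])
  have heM : e ∈ M := hE.1 (hXE (hYX he))
  have hqM : q ∣ Nat.card M := hqd.trans (Subgroup.orderOf_dvd_natCard _ heM)
  apply bad_of_pow (t := orderOf e / q)
  by_cases hqτ : q ∈ tau2 M
  · refine hbad q ?_ _ (Y.pow_mem he _) he'1 he'q
    refine Finset.mem_filter.2 ⟨?_, hqτ⟩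
    exact Nat.mem_primeFactors.2 ⟨hq, hqM, Nat.card_pos.ne'⟩
  · have hqσ : q ∉ sigma M := not_sigma_of_mem_compl hG huniq hM hE (E.pow_mem (hXE (hYX he)) _) he'1 hq
      (k := 1) (by rwa [pow_one])
    refine hh _ (X.pow_mem (hYX he) _) he'1 fun q' hq' hd => ?_
    rw [he'o] at hd
    rw [(Nat.prime_dvd_prime_iff_eq hq' hq).1 hd]
    exact tau13_of_not_tau2 hG huniq hM hq hqσ hqM hqτ

namespace Tau2Setup

variable {p : ℕ} [hpf : Fact p.Prime] {A M : Subgroup G} (T : Tau2Setup p A M)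

include T

/-- The abelian normal `p`-subgroup of `E` containing the `p`-elements with fixed points on `M_σ`. -/
theorem exists_Q (h1412 : Sylow2Struct G) {E P : Subgroup G} (hE : IsComplIn E (sigmaCore M) M) (hPE : IsMaxP p P E)
    (hAP : A ≤ P) :
    ∃ Q : Subgroup G, Q ≤ E ∧ A ≤ Q ∧ E ≤ normalizer (Q : Set G) ∧ (∀ a ∈ Q, ∀ b ∈ Q, a * b = b * a) ∧ IsPGroup p Q ∧
      ∀ a ∈ E, (∃ k : ℕ, a ^ p ^ k = 1) → sigmaCore M ⊓ centralizer ({a} : Set G) ≠ ⊥ → a ∈ Q := by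
  classical
  have hpp : p.Prime := Fact.out
  have hG := T.S.hG
  have huniq := T.S.huniq
  have hpl := T.S.hpl
  have hM := T.hM
  have hAE : A ≤ E := hAP.trans hPE.le
  have hPM : IsMaxP p P M := IsMaxP.of_compl hG huniq hM hE T.hpσ hPE
  have hEA := T.compl_le_normalizer hE hAE
  have hPab : ∀ a ∈ P, ∀ b ∈ P, a * b = b * a := fun a ha b hb =>
    comm_of_not_sigma hG huniq hpl h1412 hM T.hpσ hPM.le hPM.isP ha hb
  rcases T.sylow_dich h1412 hPM hAP with ⟨Pst, hPst⟩ | ⟨-, t, htN, htM, -, Y, hYc, hY⟩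
  · have hN := T.norm_A_le_norm_sylow h1412 hE hAE Pst (by rw [hPst]; exact hAP) (by rw [hPst]; exact hPM.le)
    rw [hPst] at hN
    have hEP : E ≤ normalizer (P : Set G) := hEA.trans hN
    refine ⟨P, hPE.le, hAP, hEP, hPab, hPE.isP, fun a ha hk _ => ?_⟩
    obtain ⟨k, hk⟩ := hk
    have hap : IsPGroup p (zpowers a) := by
      rw [IsPGroup.iff_card, Nat.card_zpowers]
      obtain ⟨j, -, hj⟩ := (Nat.dvd_prime_pow hpp).1 (orderOf_dvd_of_pow_eq_one hk)
      exact ⟨j, hj⟩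
    have h1 : IsPGroup p ↥(zpowers a ⊔ P) := hap.to_sup_of_normal_right' hPE.isP ((zpowers_le.2 ha).trans hEP)
    have h2 := hPE.max _ (sup_le (zpowers_le.2 ha) hPE.le) h1 le_sup_right
    rw [← h2]
    exact (le_sup_left : zpowers a ≤ _) (mem_zpowers a)
  · refine ⟨A, hAE, le_rfl, hEA, fun a ha b hb => hPab a (hAP ha) b (hAP hb), T.S.hAp, fun a ha hk hg => ?_⟩
    obtain ⟨k, hk⟩ := hk
    have hap : IsPGroup p (zpowers a) := by
      rw [IsPGroup.iff_card, Nat.card_zpowers]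
      obtain ⟨j, -, hj⟩ := (Nat.dvd_prime_pow hpp).1 (orderOf_dvd_of_pow_eq_one hk)
      exact ⟨j, hj⟩
    obtain ⟨n, hn, hle⟩ := hPE.exists_conj_le (zpowers_le.2 ha) hap
    have h1 : n * a * n⁻¹ ∈ P := hle (conj_mem_conj_map _ n a (mem_zpowers a))
    have h2 : (n * a * n⁻¹) ^ p = 1 := by
      by_contra hne
      exact hg (bad_of_conj (hE.1 hn) (T.bad_of_pow_ne_one hPM hAP htN htM hYc hY h1 hne))
    have h3 : n * a * n⁻¹ ∈ A := (T.omega_iff hPM hAP h1).1 h2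
    have h4 := (Subgroup.mem_normalizer_iff.1 (hEA (E.inv_mem hn)) _).1 h3
    have e : n⁻¹ * (n * a * n⁻¹) * n⁻¹⁻¹ = a := by group
    rwa [e] at h4

end Tau2Setup

/-- The global form of `exists_Q`. -/
theorem exists_Q' (hG : IsMinSimpleOddOrder G) (huniq : UniquenessThm G)
    (hpl : ∀ (r : ℕ) [Fact r.Prime] (H : Subgroup G), H ≠ ⊤ → PLengthLE r 1 ↥H) (h1412 : Sylow2Struct G)
    {M E : Subgroup G} (hM : IsCoatom M) (hE : IsComplIn E (sigmaCore M) M) {p : ℕ} (hp : p ∈ tau2 M) :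
    ∃ Q : Subgroup G, Q ≤ E ∧ E ≤ normalizer (Q : Set G) ∧ (∀ a ∈ Q, ∀ b ∈ Q, a * b = b * a) ∧ IsPGroup p Q ∧
      ∀ a ∈ E, (∃ k : ℕ, a ^ p ^ k = 1) → sigmaCore M ⊓ centralizer ({a} : Set G) ≠ ⊥ → a ∈ Q := by
  haveI : Fact p.Prime := ⟨hp.1⟩
  obtain ⟨P, A, hPE, hPM, hAP, hAe, hAc⟩ := exists_tau2_data hG huniq hM hE hp
  have T : Tau2Setup p A M := Tau2Setup.mk' hG huniq hpl hM (hAP.trans hPM.le) hAe hAc hp.2.1
  obtain ⟨Q, h1, -, h3, h4, h5, h6⟩ := T.exists_Q h1412 hE hPE hAP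
  exact ⟨Q, h1, h3, h4, h5, h6⟩

/-- Two primary elements of `E` at primes of `τ₂(M)`, both with fixed points on `M_σ`, commute. -/
theorem comm_of_primary (hG : IsMinSimpleOddOrder G) (huniq : UniquenessThm G)
    (hpl : ∀ (r : ℕ) [Fact r.Prime] (H : Subgroup G), H ≠ ⊤ → PLengthLE r 1 ↥H) (h1412 : Sylow2Struct G)
    {M E : Subgroup G} (hM : IsCoatom M) (hE : IsComplIn E (sigmaCore M) M) {r s : ℕ} (hr : r ∈ tau2 M) (hs : s ∈ tau2 M)
    {a b : G} (ha : a ∈ E) (hb : b ∈ E) (hak : ∃ k : ℕ, a ^ r ^ k = 1) (hbk : ∃ k : ℕ, b ^ s ^ k = 1)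
    (hag : sigmaCore M ⊓ centralizer ({a} : Set G) ≠ ⊥) (hbg : sigmaCore M ⊓ centralizer ({b} : Set G) ≠ ⊥) :
    a * b = b * a := by
  classical
  haveI : Fact r.Prime := ⟨hr.1⟩
  haveI : Fact s.Prime := ⟨hs.1⟩
  obtain ⟨Q₁, hQ₁E, hEQ₁, hQ₁ab, hQ₁p, hQ₁m⟩ := exists_Q' hG huniq hpl h1412 hM hE hr
  have haQ := hQ₁m a ha hak hag
  by_cases hrs : r = s
  · subst hrs
    exact hQ₁ab a haQ b (hQ₁m b hb hbk hbg)
  · obtain ⟨Q₂, hQ₂E, hEQ₂, hQ₂ab, hQ₂p, hQ₂m⟩ := exists_Q' hG huniq hpl h1412 hM hE hs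
    have hbQ := hQ₂m b hb hbk hbg
    have h1 : a * b * a⁻¹ * b⁻¹ ∈ Q₂ :=
      Q₂.mul_mem ((Subgroup.mem_normalizer_iff.1 (hEQ₂ ha) b).1 hbQ) (Q₂.inv_mem hbQ)
    have h2 : a * b * a⁻¹ * b⁻¹ ∈ Q₁ := by
      have h3 := (Subgroup.mem_normalizer_iff.1 (hEQ₁ hb) a⁻¹).1 (Q₁.inv_mem haQ)
      have e : a * b * a⁻¹ * b⁻¹ = a * (b * a⁻¹ * b⁻¹) := by group
      rw [e]
      exact Q₁.mul_mem haQ h3
    have hQ : Q₁ ⊓ Q₂ = ⊥ := by
      refine eq_bot_of_isPGroup_of_coprime (hQ₁p.to_le inf_le_left) inf_le_right ?_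
      obtain ⟨j, hj⟩ := IsPGroup.iff_card.1 hQ₂p
      rw [hj]
      exact Nat.Coprime.pow_left j ((Nat.coprime_primes hs.1 hr.1).2 (Ne.symm hrs))
    have h4 : a * b * a⁻¹ * b⁻¹ ∈ Q₁ ⊓ Q₂ := ⟨h2, h1⟩
    rw [hQ, Subgroup.mem_bot] at h4
    have h5 : a * b * a⁻¹ = b := mul_inv_eq_one.1 h4
    calc a * b = a * b * a⁻¹ * a := by group
      _ = b * a := by rw [h5]

/-- The primes of an element of `X` with fixed points on `M_σ`. -/
theorem tau2_of_good (hG : IsMinSimpleOddOrder G) (huniq : UniquenessThm G) {M E X : Subgroup G} (hM : IsCoatom M)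
    (hE : IsComplIn E (sigmaCore M) M) (hXE : X ≤ E)
    (hh : ∀ e ∈ X, e ≠ 1 → (∀ q : ℕ, q.Prime → q ∣ orderOf e → q ∈ tau1 M ∪ tau3 M) →
      sigmaCore M ⊓ centralizer ({e} : Set G) = ⊥)
    {e : G} (he : e ∈ X) (hg : sigmaCore M ⊓ centralizer ({e} : Set G) ≠ ⊥) {q : ℕ} (hq : q.Prime) (hqd : q ∣ orderOf e) :
    q ∈ tau2 M := by
  by_contra hqτ
  haveI : Fact q.Prime := ⟨hq⟩
  have he'o : orderOf (e ^ (orderOf e / q)) = q := orderOf_pow_orderOf_div (orderOf_pos e).ne' hqd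
  have he'1 : e ^ (orderOf e / q) ≠ 1 := by
    intro h
    rw [h, orderOf_one] at he'o
    exact hq.one_lt.ne he'o
  have he'q : (e ^ (orderOf e / q)) ^ q = 1 := orderOf_dvd_iff_pow_eq_one.1 (by rw [he'o])
  have heM : e ∈ M := hE.1 (hXE he)
  have hqM : q ∣ Nat.card M := hqd.trans (Subgroup.orderOf_dvd_natCard _ heM)
  have hqσ : q ∉ sigma M := not_sigma_of_mem_compl hG huniq hM hE (E.pow_mem (hXE he) _) he'1 hq
    (k := 1) (by rwa [pow_one])
  apply hg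
  apply bad_of_pow (t := orderOf e / q)
  refine hh _ (X.pow_mem he _) he'1 fun q' hq' hd => ?_
  rw [he'o] at hd
  rw [(Nat.prime_dvd_prime_iff_eq hq' hq).1 hd]
  exact tau13_of_not_tau2 hG huniq hM hq hqσ hqM hqτ

/-- Elements of `X` with fixed points on `M_σ` commute. -/
theorem comm_of_good (hG : IsMinSimpleOddOrder G) (huniq : UniquenessThm G)
    (hpl : ∀ (r : ℕ) [Fact r.Prime] (H : Subgroup G), H ≠ ⊤ → PLengthLE r 1 ↥H) (h1412 : Sylow2Struct G)
    {M E X : Subgroup G} (hM : IsCoatom M) (hE : IsComplIn E (sigmaCore M) M) (hXE : X ≤ E)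
    (hh : ∀ e ∈ X, e ≠ 1 → (∀ q : ℕ, q.Prime → q ∣ orderOf e → q ∈ tau1 M ∪ tau3 M) →
      sigmaCore M ⊓ centralizer ({e} : Set G) = ⊥)
    {e f : G} (he : e ∈ X) (hf : f ∈ X) (heg : sigmaCore M ⊓ centralizer ({e} : Set G) ≠ ⊥)
    (hfg : sigmaCore M ⊓ centralizer ({f} : Set G) ≠ ⊥) : e * f = f * e := by
  classical
  have hprim : ∀ {x a : G}, x ∈ X → sigmaCore M ⊓ centralizer ({x} : Set G) ≠ ⊥ → a ∈ zpowers x → ∀ r : ℕ, r.Prime →
      (∃ k : ℕ, a ^ r ^ k = 1) → a ≠ 1 → a ∈ E ∧ r ∈ tau2 M ∧ sigmaCore M ⊓ centralizer ({a} : Set G) ≠ ⊥ := by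
    intro x a hx hxg ha r hr hk ha1
    have haX : a ∈ X := (zpowers_le.2 hx) ha
    have hag : sigmaCore M ⊓ centralizer ({a} : Set G) ≠ ⊥ := fun h => hxg (bad_of_mem_zpowers ha h)
    refine ⟨hXE haX, ?_, hag⟩
    obtain ⟨k, hk⟩ := hk
    obtain ⟨j, -, hj⟩ := (Nat.dvd_prime_pow hr).1 (orderOf_dvd_of_pow_eq_one hk)
    have hj0 : j ≠ 0 := by
      rintro rfl
      rw [pow_zero] at hj
      exact ha1 (orderOf_eq_one_iff.1 hj)
    refine tau2_of_good hG huniq hM hE hXE hh haX hag hr ?_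
    rw [hj]
    exact dvd_pow_self r hj0
  suffices h : e ∈ centralizer ({f} : Set G) from mem_centralizer_singleton_iff.1 h
  refine mem_of_primary_parts fun r hr a ha hak => ?_
  by_cases ha1 : a = 1
  · rw [ha1]
    exact one_mem _
  obtain ⟨haE, hrτ, hag⟩ := hprim he heg ha r hr hak ha1
  rw [mem_centralizer_singleton_iff]
  suffices h : f ∈ centralizer ({a} : Set G) from (mem_centralizer_singleton_iff.1 h).symm
  refine mem_of_primary_parts fun s hs b hb hbk => ?_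
  by_cases hb1 : b = 1
  · rw [hb1]
    exact one_mem _
  obtain ⟨hbE, hsτ, hbg⟩ := hprim hf hfg hb s hs hbk hb1
  rw [mem_centralizer_singleton_iff]
  exact (comm_of_primary hG huniq hpl h1412 hM hE hrτ hsτ haE hbE hak hbk hag hbg).symm

/-- The subgroup generated by the elements of `X` with fixed points on `M_σ` is abelian. -/
theorem closure_good_comm (hG : IsMinSimpleOddOrder G) (huniq : UniquenessThm G)
    (hpl : ∀ (r : ℕ) [Fact r.Prime] (H : Subgroup G), H ≠ ⊤ → PLengthLE r 1 ↥H) (h1412 : Sylow2Struct G)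
    {M E X : Subgroup G} (hM : IsCoatom M) (hE : IsComplIn E (sigmaCore M) M) (hXE : X ≤ E)
    (hh : ∀ e ∈ X, e ≠ 1 → (∀ q : ℕ, q.Prime → q ∣ orderOf e → q ∈ tau1 M ∪ tau3 M) →
      sigmaCore M ⊓ centralizer ({e} : Set G) = ⊥) :
    IsMulCommutative (closure {e : G | e ∈ X ∧ sigmaCore M ⊓ centralizer ({e} : Set G) ≠ ⊥}) := by
  exact Subgroup.isMulCommutative_closure
    (fun x hx y hy => comm_of_good hG huniq hpl h1412 hM hE hXE hh hx.1 hy.1 hx.2 hy.2)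

/-- **S1421**. -/
theorem s1421_core (hG : IsMinSimpleOddOrder G) (huniq : UniquenessThm G)
    (hpl : ∀ (r : ℕ) [Fact r.Prime] (H : Subgroup G), H ≠ ⊤ → PLengthLE r 1 ↥H) (h1412 : Sylow2Struct G)
    (M : Subgroup G) (hM : IsCoatom M) (E : Subgroup G) (hE : IsComplIn E (sigmaCore M) M)
    (h : ∀ e ∈ E, e ≠ 1 → (∀ p : ℕ, p.Prime → p ∣ orderOf e → p ∈ tau1 M ∪ tau3 M) →
      sigmaCore M ⊓ centralizer ({e} : Set G) = ⊥) :
    (∃ A₀ : Subgroup G, A₀ ≤ E ∧ E ≤ normalizer (A₀ : Set G) ∧ IsMulCommutative A₀ ∧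
        ∀ x ∈ sigmaCore M, x ≠ 1 → E ⊓ centralizer ({x} : Set G) ≤ A₀) ∧
      ∃ E₀ : Subgroup G, E₀ ≤ E ∧ Monoid.exponent E₀ = Monoid.exponent E ∧
        ∀ e ∈ E₀, e ≠ 1 → sigmaCore M ⊓ centralizer ({e} : Set G) = ⊥ := by
  classical
  refine ⟨⟨closure {e : G | e ∈ E ∧ sigmaCore M ⊓ centralizer ({e} : Set G) ≠ ⊥}, ?_, ?_,
    closure_good_comm hG huniq hpl h1412 hM hE le_rfl h, ?_⟩,
    exists_free_subgroup hG huniq hpl h1412 hM hE le_rfl (fun r hr => ?_) h⟩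
  · exact (closure_le _).2 fun e he => he.1
  · intro g hg
    apply mem_normalizer_of_conj_le
    intro a ha
    have hle : closure {e : G | e ∈ E ∧ sigmaCore M ⊓ centralizer ({e} : Set G) ≠ ⊥} ≤
        (closure {e : G | e ∈ E ∧ sigmaCore M ⊓ centralizer ({e} : Set G) ≠ ⊥}).comap (MulAut.conj g).toMonoidHom := by
      refine (closure_le _).2 fun e he => subset_closure ⟨?_, fun hb => he.2 (bad_of_conj (hE.1 hg) hb)⟩
      exact E.mul_mem (E.mul_mem hg he.1) (E.inv_mem hg)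
    exact hle ha
  · intro x hx hx1 e he
    refine subset_closure ⟨he.1, fun hb => hx1 ?_⟩
    have h1 : x ∈ sigmaCore M ⊓ centralizer ({e} : Set G) := by
      refine ⟨hx, ?_⟩
      show x ∈ centralizer _
      rw [mem_centralizer_singleton_iff]
      exact (mem_centralizer_singleton_iff.1 he.2).symm
    rwa [hb, Subgroup.mem_bot] at h1
  · haveI : Fact r.Prime := ⟨hr.1⟩
    obtain ⟨P, A, hPE, hPM, -⟩ := exists_tau2_data hG huniq hM hE hr
    exact ⟨P, hPM, hPE.le⟩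

end Cfsg.Agent.Lib.FT
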