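import Cfsg.Agent.Lib.FT.BG11k
import Cfsg.Agent.S1403
import Cfsg.Agent.S1410

/-!
BG section 12, tail (lead): `N_G(P) ≤ M` for noncyclic `p`-subgroups, `p ∈ σ(M)`; the embedding lemma S1424.
-/

set_option autoImplicit false
set_option linter.unusedSectionVars false
set_option linter.style.haveILetI false

namespace Cfsg.Agent.Lib.FT

open Subgroup Cfsg Cfsg.Agent.Lib.OddLocal Cfsg.Agent.Lib.Basic

open Cfsg.Agent.Lib.Coprime (mem_conj_map conj_mem_conj_map conj_map_conj_map conj_map_one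
  conj_map_mono mem_normalizer_of_conj_le conj_map_eq_iff_mem_normalizer)

variable {G : Type*} [Group G] [Finite G]

theorem huniq13 (hG : IsMinSimpleOddOrder G) : UniquenessThm G :=
  fun K hK h2 h3 => Cfsg.Agent.S1403.result hG K hK h2 h3

theorem hpl13 (hG : IsMinSimpleOddOrder G) (r : ℕ) [Fact r.Prime] (H : Subgroup G) (hH : H ≠ ⊤) : PLengthLE r 1 ↥H :=
  Cfsg.Agent.S1410.result hG r H hH

/-- A noncyclic `p`-subgroup of odd order contains an elementary abelian subgroup of order `p²`. -/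
theorem exists_e2_of_not_cyclic (hG : IsMinSimpleOddOrder G) {p : ℕ} [Fact p.Prime] {P : Subgroup G} (hP : IsPGroup p P)
    (hnc : ¬ IsCyclic P) : ∃ A : Subgroup G, A ≤ P ∧ IsElementaryAbelian p A ∧ Nat.card A = p ^ 2 := by
  classical
  have hp : p.Prime := Fact.out
  have hpd : p ∣ Nat.card G := by
    have h1 : Nat.card P ≠ 1 := by
      intro h
      haveI : Subsingleton P := (Nat.card_eq_one_iff_unique.mp h).1
      exact hnc isCyclic_of_subsingleton
    obtain ⟨k, hk⟩ := IsPGroup.iff_card.mp hP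
    have hk0 : k ≠ 0 := by
      rintro rfl
      exact h1 (by simpa using hk)
    have : p ∣ Nat.card P := by
      rw [hk]
      exact dvd_pow_self p hk0
    exact this.trans (Subgroup.card_subgroup_dvd_card P)
  have hp2 : p ≠ 2 := prime_odd hG hp hpd
  have h := not_prank_one_of_not_cyclic hp2 hP hnc
  obtain ⟨E, hEe, hEP, hlt⟩ := exists_of_not_prank h
  have hle : Nat.card E ≥ p ^ 2 := by
    have hpg : IsPGroup p E := isPGroup_of_elem hEe
    obtain ⟨k, hk⟩ := IsPGroup.iff_card.mp hpg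
    have : p ^ 1 < p ^ k := by
      rw [← hk]
      exact hlt
    have hk1 : 1 < k := (Nat.pow_lt_pow_iff_right hp.one_lt).mp this
    rw [hk]
    exact Nat.pow_le_pow_right hp.pos hk1
  -- a subgroup of `E` of order `p²`
  have hpg : IsPGroup p E := isPGroup_of_elem hEe
  obtain ⟨A, hAc, hAE⟩ : ∃ A : Subgroup G, Nat.card A = p ^ 2 ∧ A ≤ E := by
    obtain ⟨k, hk⟩ := IsPGroup.iff_card.mp hpg
    have hk2 : 2 ≤ k := by
      by_contra hcon
      have : k ≤ 1 := by omega
      rw [hk] at hle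
      have := Nat.pow_le_pow_right hp.pos this
      have h3 : p ^ 2 ≤ p ^ 1 := hle.trans this
      have := (Nat.pow_le_pow_iff_right hp.one_lt).mp h3
      omega
    have hdvd : p ^ 2 ∣ Nat.card E := by
      rw [hk]
      exact pow_dvd_pow p hk2
    obtain ⟨B, hB⟩ := Sylow.exists_subgroup_card_pow_prime p hdvd
    refine ⟨B.map E.subtype, ?_, map_subtype_le _⟩
    rw [Subgroup.card_map_of_injective E.subtype_injective]
    exact hB
  refine ⟨A, hAE.trans hEP, ⟨?_, fun x hx => hEe.2 x (hAE hx)⟩, hAc⟩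
  constructor
  constructor
  rintro ⟨a, ha⟩ ⟨b, hb⟩
  apply Subtype.ext
  have := hEe.1.is_comm.comm ⟨a, hAE ha⟩ ⟨b, hAE hb⟩
  simpa using congrArg Subtype.val this

section

variable {M : Subgroup G} {p : ℕ} [Fact p.Prime]

/-- S1420 (c): `N_G(P) ≤ M` for a noncyclic `p`-subgroup `P` of `M`, `p ∈ σ(M)`. -/
theorem normalizer_le_of_not_cyclic (hG : IsMinSimpleOddOrder G) (hM : IsCoatom M) (hp : p ∈ sigma M) {P : Subgroup G}
    (hP : IsPGroup p P) (hPM : P ≤ M) (hnc : ¬ IsCyclic P) : normalizer (P : Set G) ≤ M := by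
  classical
  have h1 : P ≠ ⊥ := by
    rintro rfl
    exact hnc (isCyclic_of_subsingleton)
  obtain ⟨A, hAP, hAe, hAc⟩ := exists_e2_of_not_cyclic hG hP hnc
  have h2 : centralizer (P : Set G) ≤ M :=
    (centralizer_le hAP).trans (s1416_core hG (huniq13 hG) (fun r _ H hH => hpl13 hG r H hH) M hM p A ⟨hAP.trans hPM, hAe, hAc⟩).1
  rw [(s1404_core hG (huniq13 hG) hM hp P hP h1 hPM).2]
  exact sup_le inf_le_left h2

/-- Lemma 12.2(b): `M*` is not conjugate to `M`. -/
theorem not_conj_of_normalizer_le (hG : IsMinSimpleOddOrder G) (hM : IsCoatom M) (hp : p ∈ sigma M) {X Mstar : Subgroup G}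
    (hXp : IsPGroup p X) (hX1 : X ≠ ⊥) (hXM : X ≤ M) (hne : Mstar ≠ M) (hNX : normalizer (X : Set G) ≤ Mstar)
    (g : G) : Mstar ≠ M.map (MulAut.conj g).toMonoidHom := by
  classical
  intro e
  have hX : X ≤ Mstar := le_normalizer.trans hNX
  have h1 : X.map (MulAut.conj g⁻¹).toMonoidHom ≤ M := by
    have := conj_map_mono hX g⁻¹
    rw [e, conj_map_conj_map, inv_mul_cancel, conj_map_one] at this
    exact this
  obtain ⟨m, hm, c, hc, ec⟩ := (s1404_core hG (huniq13 hG) hM hp X hXp hX1 hXM).1 g⁻¹ h1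
  have hcM : c ∈ Mstar := hNX (centralizer_le_normalizer' X hc)
  have eg : g = c⁻¹ * m⁻¹ := by
    have : g = (g⁻¹)⁻¹ := by group
    rw [this, ec]
    group
  have e2 : M.map (MulAut.conj g).toMonoidHom = M.map (MulAut.conj c⁻¹).toMonoidHom := by
    rw [eg, ← conj_map_conj_map]
    congr 1
    exact (conj_map_eq_iff_mem_normalizer M m⁻¹).mpr (le_normalizer (M.inv_mem hm))
  apply hne
  rw [e, e2]
  apply le_antisymm
  · intro x hx
    rw [e, e2] at hcM
    have hc2 : c ∈ M.map (MulAut.conj c⁻¹).toMonoidHom := hcM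
    rw [mem_conj_map] at hc2 hx
    have e3 : c⁻¹⁻¹ * x * c⁻¹ = c * x * c⁻¹ := by group
    have hc3 : c ∈ M := by
      have : c⁻¹⁻¹ * c * c⁻¹ = c := by group
      rwa [this] at hc2
    have := M.mul_mem (M.mul_mem (M.inv_mem hc3) hx) hc3
    have e4 : c⁻¹ * (c⁻¹⁻¹ * x * c⁻¹) * c = x := by group
    rwa [e4] at this
  · intro x hx
    rw [e, e2] at hcM
    have hc2 : c ∈ M.map (MulAut.conj c⁻¹).toMonoidHom := hcM
    rw [mem_conj_map] at hc2 ⊢
    have hc3 : c ∈ M := by
      have : c⁻¹⁻¹ * c * c⁻¹ = c := by group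
      rwa [this] at hc2
    have e3 : c⁻¹⁻¹ * x * c⁻¹ = c * x * c⁻¹ := by group
    rw [e3]
    exact M.mul_mem (M.mul_mem hc3 hx) (M.inv_mem hc3)

/-- `X` characteristic in a cyclic `p`-group `S` containing it. -/
theorem normalizer_le_of_cyclic_ge {S X : Subgroup G} (hS : IsCyclic S) (hXS : X ≤ S) :
    normalizer (S : Set G) ≤ normalizer (X : Set G) := by
  intro g hg
  rw [← conj_map_eq_iff_mem_normalizer]
  have h1 : X.map (MulAut.conj g).toMonoidHom ≤ S := by
    have := conj_map_mono hXS g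
    rwa [(conj_map_eq_iff_mem_normalizer S g).mpr hg] at this
  apply eq_of_card_eq_of_le_isCyclic hS h1 hXS
  rw [Subgroup.card_map_of_injective (MulAut.conj g).injective]

/-- The core of S1424, for `S` a maximal `q`-subgroup of `M ⊓ M*`. -/
theorem s1424_core (hG : IsMinSimpleOddOrder G) (hM : IsCoatom M) (hp : p ∈ sigma M) {X Mstar S : Subgroup G}
    (hXp : IsPGroup p X) (hX1 : X ≠ ⊥) (hXM : X ≤ M) (hMs : IsCoatom Mstar) (hne : Mstar ≠ M)
    (hNX : normalizer (X : Set G) ≤ Mstar) (hS : IsMaxP p S (M ⊓ Mstar)) (hXS : X ≤ S) :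
    normalizer (S : Set G) ≤ M ∧ IsMaxP p S Mstar := by
  classical
  have hSM : S ≤ M := hS.le.trans inf_le_left
  have hSMs : S ≤ Mstar := hS.le.trans inf_le_right
  have hN : normalizer (S : Set G) ≤ M := by
    by_cases hc : IsCyclic S
    · have h1 := normalizer_le_of_cyclic_ge hc hXS
      obtain ⟨T, hT, hST⟩ := exists_isMaxP_ge hSM hS.isP
      have heq : T = S := by
        by_contra hne2
        have hlt : S < T := lt_of_le_of_ne hST (Ne.symm hne2)
        have hgrow := lt_inf_normalizer hT.isP hlt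
        have h2 := hS.max (T ⊓ normalizer (S : Set G))
          (le_inf (inf_le_left.trans hT.le) (inf_le_right.trans (h1.trans hNX))) (hT.isP.to_le inf_le_left) hgrow.le
        exact hgrow.ne h2.symm
      subst heq
      obtain ⟨S', e, hS'⟩ := sigma_sylow hp hT.toSylow
      have e2 : ((hT.toSylow : Subgroup ↥M).map M.subtype) = T := by
        change (T.subgroupOf M).map M.subtype = T
        exact Subgroup.map_subgroupOf_eq_of_le hT.le
      rw [e2] at e
      rw [← e]
      exact hS'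
    · exact normalizer_le_of_not_cyclic hG hM hp hS.isP hSM hc
  refine ⟨hN, hSMs, hS.isP, ?_⟩
  intro D' hD' hD'p hle
  by_contra hne2
  have hlt : S < D' := lt_of_le_of_ne hle (Ne.symm hne2)
  have hgrow := lt_inf_normalizer hD'p hlt
  have h2 := hS.max (D' ⊓ normalizer (S : Set G))
    (le_inf (inf_le_right.trans hN) (inf_le_left.trans hD')) (hD'p.to_le inf_le_left) hgrow.le
  exact hgrow.ne h2.symm

end

end Cfsg.Agent.Lib.FT
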