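import Cfsg.Agent.Lib.FT.BG13a

/-!
BG section 12, tail (lead): the structure of `N_G(X)` for `X ≤ M` of prime order `q ∈ σ(M)` when
`N_G(X) ⊄ M` ("Theorem D"): `N_G(X) = W V`, `V ≤ M`, `W` a normal `σ(M)'`-subgroup.
-/

set_option autoImplicit false
set_option linter.unusedSectionVars false
set_option linter.style.haveILetI false

namespace Cfsg.Agent.Lib.FT

open Subgroup Cfsg Cfsg.Agent.Lib.OddLocal Cfsg.Agent.Lib.Basic

open Cfsg.Agent.Lib.Coprime (mem_conj_map conj_mem_conj_map conj_map_conj_map conj_map_one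
  conj_map_mono mem_normalizer_of_conj_le conj_map_eq_iff_mem_normalizer)

variable {G : Type*} [Group G] [Finite G]

/-- Factorization of `N_H(X)` from a factorization `H = K₀ C₀`, `C₀` normalizing `R ≥ X`, `R ∩ K₀ = 1`. -/
theorem factor_of_core {H K₀ C₀ R X : Subgroup G} (hK : H ≤ normalizer (K₀ : Set G)) (hC : C₀ ≤ H)
    (hCR : C₀ ≤ normalizer (R : Set G)) (hRH : R ≤ H) (hRK : R ⊓ K₀ = ⊥) (hXR : X ≤ R)
    (hf : ∀ h ∈ H, ∃ k ∈ K₀, ∃ c ∈ C₀, h = k * c) {c : G} (hcH : c ∈ H)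
    (hcX : c ∈ normalizer (X : Set G)) :
    ∃ k ∈ K₀, k ∈ centralizer (X : Set G) ∧ ∃ v ∈ C₀, v ∈ normalizer (X : Set G) ∧ c = k * v := by
  obtain ⟨k, hk, v, hv, rfl⟩ := hf c hcH
  have key : ∀ x ∈ X, k * (v * x * v⁻¹) * k⁻¹ = v * x * v⁻¹ := by
    intro x hx
    have hs : v * x * v⁻¹ ∈ R := (mem_normalizer_iff.mp (hCR hv) x).mp (hXR hx)
    have h1 : k * (v * x * v⁻¹) * k⁻¹ ∈ X := by
      have := (mem_normalizer_iff.mp hcX x).mp hx
      convert this using 1
      group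
    have h2 : k * (v * x * v⁻¹) * k⁻¹ * (v * x * v⁻¹)⁻¹ ∈ R := R.mul_mem (hXR h1) (R.inv_mem hs)
    have h3 : k * (v * x * v⁻¹) * k⁻¹ * (v * x * v⁻¹)⁻¹ ∈ K₀ := by
      have := (mem_normalizer_iff.mp (hK (hRH hs)) k⁻¹).mp (K₀.inv_mem hk)
      have h4 := K₀.mul_mem hk this
      convert h4 using 1
      group
    have h5 : k * (v * x * v⁻¹) * k⁻¹ * (v * x * v⁻¹)⁻¹ ∈ R ⊓ K₀ := ⟨h2, h3⟩
    rw [hRK, mem_bot] at h5
    exact mul_inv_eq_one.mp h5
  have hvX : v ∈ normalizer (X : Set G) := by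
    apply mem_normalizer_of_conj_le
    intro x hx
    have := (mem_normalizer_iff.mp hcX x).mp hx
    have e : k * v * x * (k * v)⁻¹ = v * x * v⁻¹ := by
      rw [← key x hx]
      group
    rwa [e] at this
  have hkC : k ∈ centralizer (X : Set G) := by
    rw [mem_centralizer_iff]
    intro x hx
    have hy : v⁻¹ * x * v ∈ X := by
      have := (mem_normalizer_iff.mp ((normalizer (X : Set G)).inv_mem hvX) x).mp hx
      simpa using this
    have := key _ hy
    have e : v * (v⁻¹ * x * v) * v⁻¹ = x := by group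
    rw [e] at this
    exact (mul_inv_eq_iff_eq_mul.mp this).symm
  exact ⟨k, hk, hkC, v, hv, hvX, rfl⟩

/-- If `H_σ` is nilpotent and `r ∈ σ(H) ∩ σ(M)`, then `M`, `H` are conjugate. -/
theorem conj_of_sigma_nilpotent {M H : Subgroup G} {r : ℕ} [Fact r.Prime] (hG : IsMinSimpleOddOrder G) (hM : IsCoatom M)
    (hH : IsCoatom H) (hn : Group.IsNilpotent (sigmaCore H)) (hrH : r ∈ sigma H) (hrM : r ∈ sigma M) :
    ∃ c : G, H.map (MulAut.conj c).toMonoidHom = M := by
  classical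
  obtain ⟨S₂, hS₂H, hN₂⟩ := sigma_exists_sylow hrH
  obtain ⟨S₁, hS₁M, hN₁⟩ := sigma_exists_sylow hrM
  have h1 : IsMaxP r (S₁ : Subgroup G) ⊤ := ⟨le_top, S₁.isPGroup', fun D' _ h2 h3 => S₁.is_maximal' h2 h3⟩
  have h2 : IsMaxP r (S₂ : Subgroup G) ⊤ := ⟨le_top, S₂.isPGroup', fun D' _ h2 h3 => S₂.is_maximal' h2 h3⟩
  obtain ⟨c, -, e⟩ := h2.exists_conj_eq h1
  refine ⟨c, ?_⟩
  have hS₂σ : (S₂ : Subgroup G) ≤ sigmaCore H := le_sigmaCore_of_isPGroup hG (huniq13 hG) hH hrH S₂.isPGroup' hS₂H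
  have hmax : IsMaxP r (S₂ : Subgroup G) (sigmaCore H) :=
    ⟨hS₂σ, S₂.isPGroup', fun D' _ h2 h3 => S₂.is_maximal' h2 h3⟩
  -- `S₂` normal in the nilpotent group `H_σ`
  have hnorm : sigmaCore H ≤ normalizer ((S₂ : Subgroup G) : Set G) := by
    haveI := hn
    have h3 : ((hmax.toSylow : Sylow r ↥(sigmaCore H)) : Subgroup ↥(sigmaCore H)).Normal :=
      Sylow.normal_of_normalizerCondition (Group.normalizerCondition_of_isNilpotent) _
    intro u hu
    rw [mem_normalizer_iff]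
    intro x
    constructor
    · intro hx
      have h4 := h3.conj_mem ⟨x, hS₂σ hx⟩ (by exact hx) ⟨u, hu⟩
      exact h4
    · intro hx
      have hu' : u⁻¹ ∈ sigmaCore H := (sigmaCore H).inv_mem hu
      have h4 := h3.conj_mem ⟨u * x * u⁻¹, hS₂σ hx⟩ (by exact hx) ⟨u⁻¹, hu'⟩
      have e2 : u⁻¹ * (u * x * u⁻¹) * u⁻¹⁻¹ = x := by group
      have h5 : u⁻¹ * (u * x * u⁻¹) * u⁻¹⁻¹ ∈ (S₂ : Subgroup G) := h4
      rwa [e2] at h5
  have hHN : H ≤ normalizer ((S₂ : Subgroup G) : Set G) := by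
    intro h hh
    have hσn : H ≤ normalizer (sigmaCore H : Set G) := le_normalizer_piCoreOf (sigma H) H
    have hconj : (S₂ : Subgroup G).map (MulAut.conj h).toMonoidHom ≤ sigmaCore H := by
      rintro _ ⟨x, hx, rfl⟩
      exact (mem_normalizer_iff.mp (hσn hh) x).mp (hS₂σ hx)
    obtain ⟨n, hn', hle⟩ := hmax.exists_conj_le hconj (Cfsg.Agent.Lib.Coprime.isPGroup_conj_map S₂.isPGroup' h)
    rw [conj_map_conj_map] at hle
    have e3 : (S₂ : Subgroup G).map (MulAut.conj (n * h)).toMonoidHom = (S₂ : Subgroup G) := by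
      apply Subgroup.eq_of_le_of_card_ge hle
      rw [Cfsg.Agent.Lib.Coprime.card_conj_map]
    have h5 := (conj_map_eq_iff_mem_normalizer (S₂ : Subgroup G) (n * h)).mp e3
    have h6 := hnorm hn'
    have e4 : h = n⁻¹ * (n * h) := by group
    rw [e4]
    exact mul_mem (inv_mem h6) h5
  have e5 : normalizer ((S₂ : Subgroup G) : Set G) = H := le_antisymm hN₂ hHN
  -- transport
  have hle : H.map (MulAut.conj c).toMonoidHom ≤ M := by
    refine le_trans ?_ hN₁
    rintro _ ⟨h, hh, rfl⟩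
    have hh' := hHN hh
    rw [← conj_map_eq_iff_mem_normalizer] at hh'
    rw [← conj_map_eq_iff_mem_normalizer, ← e, conj_map_conj_map]
    have e6 : (MulAut.conj c).toMonoidHom h * c = c * h := by
      simp [MulAut.conj_apply]
    rw [e6, ← conj_map_conj_map, hh']
  have hc := coatom_conj hH c
  exact eq_of_le_of_not_lt hle (fun hlt => hM.1 (hc.2 M hlt))

/-- Complementary Hall subgroups factor. -/
theorem exists_mul_of_hall_hall {L B Y : Subgroup G} {π π' : Set ℕ} (hπ : ∀ r ∈ π, r ∉ π') (hB : IsPiHallOf π B L)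
    (hY : IsPiHallOf π' Y L) (hall : ∀ r : ℕ, r.Prime → r ∈ π ∨ r ∈ π') {l : G} (hl : l ∈ L) :
    ∃ b ∈ B, ∃ y ∈ Y, l = b * y := by
  classical
  obtain ⟨hBL, hB1, hB2⟩ := hB
  obtain ⟨hYL, hY1, hY2⟩ := hY
  have e1 : Nat.card B * B.relIndex L = Nat.card L := Cfsg.Agent.Lib.Coprime.card_mul_relIndex hBL
  have e2 : Nat.card Y * Y.relIndex L = Nat.card L := Cfsg.Agent.Lib.Coprime.card_mul_relIndex hYL
  have c1 : (Nat.card B).Coprime (Nat.card Y) := Nat.coprime_of_dvd fun r hr h1 h2 => hπ r (hB1 r hr h1) (hY1 r hr h2)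
  have c2 : (Nat.card B).Coprime (B.relIndex L) := Nat.coprime_of_dvd fun r hr h1 h2 => hB2 r hr (hB1 r hr h1) h2
  have c3 : (Y.relIndex L).Coprime (Nat.card Y) := Nat.coprime_of_dvd fun r hr h1 h2 => hY2 r hr (hY1 r hr h2) h1
  have c4 : (Y.relIndex L).Coprime (B.relIndex L) := Nat.coprime_of_dvd fun r hr h1 h2 => by
    rcases hall r hr with h | h
    · exact hB2 r hr h h2
    · exact hY2 r hr h h1
  have d1 : Nat.card B ∣ Y.relIndex L := by
    apply c1.dvd_of_dvd_mul_left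
    rw [e2, ← e1]
    exact dvd_mul_right _ _
  have d2 : Y.relIndex L ∣ Nat.card B := by
    apply c4.dvd_of_dvd_mul_right
    rw [e1, ← e2]
    exact dvd_mul_left _ _
  have e3 : Nat.card B = Y.relIndex L := Nat.dvd_antisymm d1 d2
  have hBc : Nat.card (B.subgroupOf L) = Nat.card B := Nat.card_congr (Subgroup.subgroupOfEquivOfLe hBL).toEquiv
  have hYc : Nat.card (Y.subgroupOf L) = Nat.card Y := Nat.card_congr (Subgroup.subgroupOfEquivOfLe hYL).toEquiv
  have hcomp : IsComplement' (B.subgroupOf L) (Y.subgroupOf L) := by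
    apply isComplement'_of_coprime
    · rw [hBc, hYc, e3, mul_comm, e2]
    · rw [hBc, hYc]
      exact c1
  obtain ⟨⟨b, y⟩, hby⟩ := hcomp.2 ⟨l, hl⟩
  refine ⟨(b : ↥L), b.2, (y : ↥L), y.2, ?_⟩
  have := congrArg Subtype.val hby
  simpa using this.symm

/-- Dominance in Hall subgroups of a solvable subgroup. -/
theorem IsPiHallOf.exists_conj_ge {π : Set ℕ} {Y L T : Subgroup G} (hs : Group.IsSolvable ↥L) (hY : IsPiHallOf π Y L)
    (hTL : T ≤ L) (hT : ∀ r : ℕ, r.Prime → r ∣ Nat.card T → r ∈ π) :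
    ∃ g ∈ L, T ≤ Y.map (MulAut.conj g).toMonoidHom := by
  classical
  obtain ⟨hYL, hY1, hY2⟩ := hY
  have hYc : Nat.card (Y.subgroupOf L) = Nat.card Y := Nat.card_congr (Subgroup.subgroupOfEquivOfLe hYL).toEquiv
  have hTc : Nat.card (T.subgroupOf L) = Nat.card T := Nat.card_congr (Subgroup.subgroupOfEquivOfLe hTL).toEquiv
  have h1 : (Nat.card (Y.subgroupOf L)).Coprime (Y.subgroupOf L).index := by
    rw [hYc]
    exact Nat.coprime_of_dvd fun r hr h1 h2 => hY2 r hr (hY1 r hr h1) h2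
  have h2 : (Nat.card (T.subgroupOf L)).Coprime (Y.subgroupOf L).index := by
    rw [hTc]
    exact Nat.coprime_of_dvd fun r hr h1 h2 => hY2 r hr (hT r hr h1) h2
  obtain ⟨g, hg⟩ := hall_le_conj _ (Y.subgroupOf L) (T.subgroupOf L) rfl h1 h2
  refine ⟨g, g.2, ?_⟩
  intro x hx
  have hx' : (⟨x, hTL hx⟩ : ↥L) ∈ T.subgroupOf L := hx
  have h3 := hg hx'
  rw [mem_conj_smul] at h3
  rw [mem_conj_map]
  exact h3

/-- Conjugates of Hall subgroups by elements of the ambient subgroup are Hall. -/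
theorem IsPiHallOf.conj_in {π : Set ℕ} {Y L : Subgroup G} (hY : IsPiHallOf π Y L) {g : G} (hg : g ∈ L) :
    IsPiHallOf π (Y.map (MulAut.conj g).toMonoidHom) L := by
  obtain ⟨hYL, hY1, hY2⟩ := hY
  have hle : Y.map (MulAut.conj g).toMonoidHom ≤ L := by
    rintro _ ⟨x, hx, rfl⟩
    exact L.mul_mem (L.mul_mem hg (hYL hx)) (L.inv_mem hg)
  have hc := Cfsg.Agent.Lib.Coprime.card_conj_map Y g
  have e1 := Cfsg.Agent.Lib.Coprime.card_mul_relIndex hYL
  have e2 := Cfsg.Agent.Lib.Coprime.card_mul_relIndex hle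
  have e3 : (Y.map (MulAut.conj g).toMonoidHom).relIndex L = Y.relIndex L := by
    rw [hc, ← e1] at e2
    exact Nat.eq_of_mul_eq_mul_left Nat.card_pos e2
  refine ⟨hle, ?_, ?_⟩
  · rw [hc]
    exact hY1
  · rw [e3]
    exact hY2

/-- A maximal `q`-subgroup of a nilpotent subgroup is normal in it. -/
theorem le_normalizer_of_isMaxP_of_nilpotent {q : ℕ} [Fact q.Prime] {Y S : Subgroup G} (hn : Group.IsNilpotent Y)
    (hS : IsMaxP q S Y) : Y ≤ normalizer (S : Set G) := by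
  haveI := hn
  have h3 : ((hS.toSylow : Sylow q ↥Y) : Subgroup ↥Y).Normal :=
    Sylow.normal_of_normalizerCondition (Group.normalizerCondition_of_isNilpotent) _
  intro u hu
  rw [mem_normalizer_iff]
  intro x
  constructor
  · intro hx
    have h4 := h3.conj_mem ⟨x, hS.le hx⟩ (by exact hx) ⟨u, hu⟩
    exact h4
  · intro hx
    have hu' : u⁻¹ ∈ Y := Y.inv_mem hu
    have h4 := h3.conj_mem ⟨u * x * u⁻¹, hS.le hx⟩ (by exact hx) ⟨u⁻¹, hu'⟩
    have e2 : u⁻¹ * (u * x * u⁻¹) * u⁻¹⁻¹ = x := by group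
    have h5 : u⁻¹ * (u * x * u⁻¹) * u⁻¹⁻¹ ∈ S := h4
    rwa [e2] at h5

/-- `H_β ≤ H_σ`. -/
theorem betaCore_le_sigmaCore {H : Subgroup G} (hG : IsMinSimpleOddOrder G) (hH : IsCoatom H) :
    piCoreOf (beta H) H ≤ sigmaCore H := by
  refine le_piCoreOf (piCoreOf_le _ H) (le_normalizer_piCoreOf _ H) ?_
  intro r hr hd
  have hb := piCoreOf_isPi (beta H) H r hr hd
  haveI : Fact r.Prime := ⟨hr⟩
  exact alpha_sub_sigma hG (huniq13 hG) hH hb.1

/-- `H_β` is a Hall `β(H)`-subgroup of `H_σ`. -/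
theorem betaCore_isHall_sigmaCore {H : Subgroup G} (hG : IsMinSimpleOddOrder G) (hH : IsCoatom H) :
    IsPiHallOf (beta H) (piCoreOf (beta H) H) (sigmaCore H) := by
  obtain ⟨h1, -⟩ := s1414_core hG (huniq13 hG) hH (fun r _ _ => hpl13 hG r H hH.1)
  refine ⟨betaCore_le_sigmaCore hG hH, h1.2.1, fun r hr hrb hd => h1.2.2 r hr hrb ?_⟩
  have hle := betaCore_le_sigmaCore hG hH
  have hσ : sigmaCore H ≤ H := piCoreOf_le _ H
  have := Subgroup.relIndex_mul_relIndex (piCoreOf (beta H) H) (sigmaCore H) H hle hσ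
  rw [← this]
  exact hd.trans (dvd_mul_right _ _)

/-- `N_G(X)` normalizes `C_G(X)`, and anything normalizing `K₀` and `C_G(X)` normalizes the intersection. -/
theorem normalizer_le_normalizer_inf_centralizer {H K₀ X : Subgroup G} (hNX : normalizer (X : Set G) ≤ H)
    (hK : H ≤ normalizer (K₀ : Set G)) :
    normalizer (X : Set G) ≤ normalizer ((K₀ ⊓ centralizer (X : Set G) : Subgroup G) : Set G) := by
  intro c hc
  rw [mem_normalizer_iff]
  intro x
  have h1 := mem_normalizer_iff.mp (hK (hNX hc)) x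
  have h2 := mem_normalizer_iff.mp (Cfsg.Agent.Lib.OddLocal.mem_normalizer_centralizer hc) x
  simp only [mem_inf, h1, h2]

/-- The data of Theorem D. -/
structure NormData (M X W V : Subgroup G) : Prop where
  W_le : W ≤ centralizer (X : Set G)
  norm : normalizer (X : Set G) ≤ normalizer (W : Set G)
  V_le : V ≤ M
  V_norm : V ≤ normalizer (X : Set G)
  fact : ∀ c ∈ normalizer (X : Set G), ∃ w ∈ W, ∃ v ∈ V, c = w * v
  primes : ∀ r : ℕ, r.Prime → r ∣ Nat.card W → r ∉ sigma M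

namespace Tau2Setup

variable {p : ℕ} [hpf : Fact p.Prime] {A H : Subgroup G} (T : Tau2Setup p A H)
include T

/-- `H = H_σ N_H(A)`. -/
theorem exists_fac : ∀ h ∈ H, ∃ k ∈ sigmaCore H, ∃ c ∈ H ⊓ normalizer (A : Set G), h = k * c := by
  have hσH : sigmaCore H ≤ H := piCoreOf_le _ H
  have hσn : H ≤ normalizer (sigmaCore H : Set G) := le_normalizer_piCoreOf (sigma H) H
  have hAH : A ≤ H := T.hAM
  have hAσ : A ⊓ sigmaCore H = ⊥ := T.inf_sigmaCore
  intro h hh
  haveI hKn : ((sigmaCore H).subgroupOf H).Normal := by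
    constructor
    intro n hn g
    rw [Subgroup.mem_subgroupOf] at hn ⊢
    exact (mem_normalizer_iff.mp (hσn g.2) _).mp hn
  have hKc : (Nat.card ((sigmaCore H).subgroupOf H)).Coprime p := by
    rw [Nat.card_congr (Subgroup.subgroupOfEquivOfLe hσH).toEquiv]
    exact T.S.sigmaCore_coprime T.hM T.hpσ
  have hZ : IsPGroup p (A.subgroupOf H) := T.S.hAp.comap_subtype
  have hZ' : IsPGroup p ((A.map (MulAut.conj h).toMonoidHom).subgroupOf H) :=
    (Cfsg.Agent.Lib.Coprime.isPGroup_conj_map T.S.hAp h).comap_subtype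
  have hle : (A.map (MulAut.conj h).toMonoidHom).subgroupOf H ≤ A.subgroupOf H ⊔ (sigmaCore H).subgroupOf H := by
    rintro ⟨x, hxH⟩ hx
    rw [Subgroup.mem_subgroupOf] at hx
    obtain ⟨a, ha, e⟩ := hx
    obtain ⟨u, hu, a', ha', e2⟩ := T.c_elem hh ha
    have e3 : x = u * a' := by
      rw [← e2]
      have e4 : x = (MulAut.conj h).toMonoidHom a := e.symm
      rw [e4]
      simp [MulAut.conj_apply]
    have h1 : (⟨a', hAH ha'⟩ : ↥H) ∈ A.subgroupOf H := ha'
    have h2 : (⟨u, hσH hu⟩ : ↥H) ∈ (sigmaCore H).subgroupOf H := hu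
    have h3 := mul_mem (Subgroup.mem_sup_right (S := A.subgroupOf H) h2) (Subgroup.mem_sup_left h1)
    convert h3 using 1
    exact Subtype.ext e3
  obtain ⟨k, hk, hkx⟩ := Cfsg.Agent.Lib.LocalEven2.exists_conj_le_of_le_sup hKc hZ hZ' hle
  have hkσ : (k : G) ∈ sigmaCore H := hk
  have hc : (k : G) * h ∈ normalizer (A : Set G) := by
    apply mem_normalizer_of_conj_le
    intro a ha
    have h1 : (⟨h * a * h⁻¹, H.mul_mem (H.mul_mem hh (hAH ha)) (H.inv_mem hh)⟩ : ↥H) ∈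
        (A.map (MulAut.conj h).toMonoidHom).subgroupOf H := by
      rw [Subgroup.mem_subgroupOf]
      exact conj_mem_conj_map A h a ha
    have h2 := hkx _ h1
    rw [Subgroup.mem_subgroupOf] at h2
    convert h2 using 1
    simp [mul_assoc]
  refine ⟨(k : G)⁻¹, (sigmaCore H).inv_mem hkσ, (k : G) * h, ⟨H.mul_mem k.2 hh, hc⟩, ?_⟩
  group

/-- `N_H(A)` is a complement of `H_σ` in `H`. -/
theorem isComplIn_inf_normalizer : IsComplIn (H ⊓ normalizer (A : Set G)) (sigmaCore H) H := by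
  have hσH : sigmaCore H ≤ H := piCoreOf_le _ H
  have hσn : H ≤ normalizer (sigmaCore H : Set G) := le_normalizer_piCoreOf (sigma H) H
  have hAH : A ≤ H := T.hAM
  have hAσ : A ⊓ sigmaCore H = ⊥ := T.inf_sigmaCore
  have hfac := T.exists_fac
  refine ⟨inf_le_left, hσH, ?_, ?_⟩
  · rw [eq_bot_iff]
    rintro u ⟨⟨huH, huN⟩, huσ⟩
    have h1 : u ∈ sigmaCore H ⊓ centralizer (A : Set G) := by
      refine ⟨huσ, (mem_centralizer_iff (g := u) (s := (A : Set G))).mpr ?_⟩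
      intro a ha
      have h2 : u * a * u⁻¹ * a⁻¹ ∈ A ⊓ sigmaCore H := by
        constructor
        · exact A.mul_mem ((mem_normalizer_iff.mp huN a).mp ha) (A.inv_mem ha)
        · have := (mem_normalizer_iff.mp (hσn (hAH ha)) u⁻¹).mp ((sigmaCore H).inv_mem huσ)
          have h3 := (sigmaCore H).mul_mem huσ this
          have e : u * a * u⁻¹ * a⁻¹ = u * (a * u⁻¹ * a⁻¹) := by simp only [mul_assoc]
          rw [e]
          exact h3
      rw [hAσ, mem_bot] at h2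
      have e := mul_inv_eq_one.mp h2
      exact (mul_inv_eq_iff_eq_mul.mp e).symm
    rw [T.d, mem_bot] at h1
    exact h1
  · intro m hm
    obtain ⟨k, hk, c, hc, e⟩ := hfac m⁻¹ (H.inv_mem hm)
    refine ⟨c⁻¹, (H ⊓ normalizer (A : Set G)).inv_mem hc, k⁻¹, (sigmaCore H).inv_mem hk, ?_⟩
    have := congrArg (·⁻¹) e
    simpa using this

end Tau2Setup

section

variable {M H X : Subgroup G} {q : ℕ} [Fact q.Prime]

/-- Theorem D, case `q ∈ σ(H)`. -/
theorem thmD_sigma (hG : IsMinSimpleOddOrder G) (hM : IsCoatom M) (hq : q ∈ sigma M)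
    (hX : Nat.card X = q) (hXM : X ≤ M) (hH : IsCoatom H) (hne : H ≠ M) (hNX : normalizer (X : Set G) ≤ H)
    (hqH : q ∈ sigma H) :
    ∃ W V : Subgroup G, NormData M X W V ∧ W ≤ piCoreOf (beta H) H ∧ q ∉ alpha H := by
  classical
  have hqp : q.Prime := Fact.out
  have hXH : X ≤ H := le_normalizer.trans hNX
  have hXp : IsPGroup q X := IsPGroup.of_card (n := 1) (by simpa using hX)
  have hX1 : X ≠ ⊥ := by
    rintro rfl
    simp at hX
    exact hqp.one_lt.ne hX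
  obtain ⟨S, hS, hXS⟩ := exists_isMaxP_ge (le_inf hXM hXH) hXp
  obtain ⟨hNS, hSH⟩ := s1424_core hG hM hq hXp hX1 hXM hH hne hNX hS hXS
  have hnc := not_conj_of_normalizer_le hG hM hq hXp hX1 hXM hne hNX
  have hqα : q ∉ alpha H := fun hα => by
    obtain ⟨c, e⟩ := conj_of_alpha_sigma hG (huniq13 hG) hM hH hα hq
    exact hnc c e
  have hqβ : q ∉ beta H := fun h => hqα h.1
  have hprim : ∀ r : ℕ, r.Prime → r ∈ beta H → r ∉ sigma M := by
    intro r hr hb hrσ
    haveI : Fact r.Prime := ⟨hr⟩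
    obtain ⟨c, e⟩ := conj_of_alpha_sigma hG (huniq13 hG) hM hH hb.1 hrσ
    exact hnc c e
  obtain ⟨h1, -, -, ⟨Y, hY, hYn⟩, -⟩ := s1414_core hG (huniq13 hG) hH (fun r _ _ => hpl13 hG r H hH.1)
  have hσH : sigmaCore H ≤ H := piCoreOf_le _ H
  have hSσ : S ≤ sigmaCore H := le_sigmaCore_of_isPGroup hG (huniq13 hG) hH hqH hSH.isP hSH.le
  have hσs : Group.IsSolvable ↥(sigmaCore H) :=
    IsMinSimpleOddOrder.isSolvable hG (fun h => hH.1 (top_le_iff.1 (h ▸ hσH)))
  have hSprimes : ∀ r : ℕ, r.Prime → r ∣ Nat.card S → r ∈ {q | q.Prime ∧ q ∉ beta H} := by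
    intro r hr hd
    obtain ⟨k, hk⟩ := IsPGroup.iff_card.mp hSH.isP
    rw [hk] at hd
    have := (Nat.prime_dvd_prime_iff_eq hr hqp).mp (hr.dvd_of_dvd_pow hd)
    subst this
    exact ⟨hr, hqβ⟩
  obtain ⟨g, hg, hSY⟩ := IsPiHallOf.exists_conj_ge hσs hY hSσ hSprimes
  have hgH : g ∈ H := hσH hg
  -- `Y^g` normalizes `S`
  have hYg : Y.map (MulAut.conj g).toMonoidHom ≤ normalizer (S : Set G) := by
    have hS1 : S.map (MulAut.conj g⁻¹).toMonoidHom ≤ Y := by
      have := conj_map_mono hSY g⁻¹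
      rwa [conj_map_conj_map, inv_mul_cancel, conj_map_one] at this
    have hYH : Y ≤ H := hY.1.trans hσH
    have hmax : IsMaxP q (S.map (MulAut.conj g⁻¹).toMonoidHom) Y := by
      refine ⟨hS1, Cfsg.Agent.Lib.Coprime.isPGroup_conj_map hSH.isP _, ?_⟩
      intro D' hD' hD'p hle
      have h3 : IsMaxP q (S.map (MulAut.conj g⁻¹).toMonoidHom) H := hSH.conj_in (H.inv_mem hgH)
      exact h3.max D' (hD'.trans hYH) hD'p hle
    have h4 := le_normalizer_of_isMaxP_of_nilpotent hYn hmax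
    rintro _ ⟨y, hy, rfl⟩
    have h5 := h4 hy
    rw [← conj_map_eq_iff_mem_normalizer, conj_map_conj_map] at h5
    rw [← conj_map_eq_iff_mem_normalizer]
    have e : (MulAut.conj g).toMonoidHom y = g * y * g⁻¹ := by simp [MulAut.conj_apply]
    rw [e]
    have e2 : g * y * g⁻¹ * g = g * y := by group
    have h6 := congrArg (fun K : Subgroup G => K.map (MulAut.conj g).toMonoidHom) h5
    simp only [conj_map_conj_map] at h6
    have e3 : g * (y * g⁻¹) = g * y * g⁻¹ := by group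
    rw [e3] at h6
    have e4 : g * g⁻¹ = 1 := by group
    rw [e4, conj_map_one] at h6
    exact h6
  have hYgH : IsPiHallOf {q | q.Prime ∧ q ∉ beta H} (Y.map (MulAut.conj g).toMonoidHom) (sigmaCore H) :=
    IsPiHallOf.conj_in hY hg
  -- factorization of `H`
  have hfac : ∀ h ∈ H, ∃ k ∈ piCoreOf (beta H) H, ∃ c ∈ H ⊓ normalizer (S : Set G), h = k * c := by
    intro h hh
    have hσn : H ≤ normalizer (sigmaCore H : Set G) := le_normalizer_piCoreOf (sigma H) H
    have hSmax : IsMaxP q S (sigmaCore H) := ⟨hSσ, hSH.isP, fun D' h1 h2 h3 => hSH.max D' (h1.trans hσH) h2 h3⟩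
    have hconj : S.map (MulAut.conj h).toMonoidHom ≤ sigmaCore H := by
      rintro _ ⟨x, hx, rfl⟩
      exact (mem_normalizer_iff.mp (hσn hh) x).mp (hSσ hx)
    obtain ⟨n, hn, hle⟩ := hSmax.exists_conj_le hconj (Cfsg.Agent.Lib.Coprime.isPGroup_conj_map hSH.isP h)
    rw [conj_map_conj_map] at hle
    have e3 : S.map (MulAut.conj (n * h)).toMonoidHom = S := by
      apply Subgroup.eq_of_le_of_card_ge hle
      rw [Cfsg.Agent.Lib.Coprime.card_conj_map]
    have hnh := (conj_map_eq_iff_mem_normalizer S (n * h)).mp e3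
    obtain ⟨b, hb, y, hy, hby⟩ := exists_mul_of_hall_hall (π := beta H) (π' := {q | q.Prime ∧ q ∉ beta H})
      (fun r hr h => h.2 hr) (betaCore_isHall_sigmaCore hG hH) hYgH
      (fun r hr => by
        by_cases h : r ∈ beta H
        · exact Or.inl h
        · exact Or.inr ⟨hr, h⟩) ((sigmaCore H).inv_mem hn)
    refine ⟨b, hb, y * (n * h), ⟨?_, ?_⟩, ?_⟩
    · exact H.mul_mem (hσH (hYgH.1 hy)) (H.mul_mem (hσH hn) hh)
    · exact mul_mem (hYg hy) hnh
    · rw [← mul_assoc, ← hby]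
      group
  have hSK : S ⊓ piCoreOf (beta H) H = ⊥ := by
    apply eq_bot_of_isPGroup_of_coprime (r := q) (hSH.isP.to_le inf_le_left) inf_le_right
    exact Nat.Coprime.symm ((Nat.Prime.coprime_iff_not_dvd hqp).mpr fun hd => hqβ (h1.2.1 q hqp hd))
  have hKn : H ≤ normalizer (piCoreOf (beta H) H : Set G) := le_normalizer_piCoreOf _ H
  refine ⟨piCoreOf (beta H) H ⊓ centralizer (X : Set G), H ⊓ normalizer (S : Set G) ⊓ normalizer (X : Set G), ⟨inf_le_right,
    normalizer_le_normalizer_inf_centralizer hNX hKn, inf_le_left.trans (inf_le_right.trans hNS), inf_le_right, ?_, ?_⟩, inf_le_left, hqα⟩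
  · intro c hc
    obtain ⟨k, hk, hkC, v, hv, hvX, e⟩ := factor_of_core hKn inf_le_left inf_le_right hSH.le hSK hXS hfac (hNX hc) hc
    exact ⟨k, ⟨hk, hkC⟩, v, ⟨hv, hvX⟩, e⟩
  · intro r hr hd
    exact hprim r hr (h1.2.1 r hr (hd.trans (Subgroup.card_dvd_of_le inf_le_left)))

/-- Theorem D, case `q ∉ σ(H)`. -/
theorem thmD_not_sigma (hG : IsMinSimpleOddOrder G) (hM : IsCoatom M) (hq : q ∈ sigma M)
    (hX : Nat.card X = q) (hXM : X ≤ M) (hH : IsCoatom H) (hne : H ≠ M) (hNX : normalizer (X : Set G) ≤ H)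
    (hqH : q ∉ sigma H) :
    ∃ W V : Subgroup G, NormData M X W V ∧ W ≤ sigmaCore H ∧ sigmaCore H ⊓ M = ⊥ ∧
      ∃ A : Subgroup G, Tau2Setup q A H ∧ X ≤ A ∧ A ≤ M ∧ normalizer (A : Set G) ≤ M ∧
        H ⊓ normalizer (A : Set G) ≤ M ∧ IsComplIn (H ⊓ normalizer (A : Set G)) (sigmaCore H) H := by
  classical
  have hqp : q.Prime := Fact.out
  have hXH : X ≤ H := le_normalizer.trans hNX
  have hXp : IsPGroup q X := IsPGroup.of_card (n := 1) (by simpa using hX)
  have hX1 : X ≠ ⊥ := by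
    rintro rfl
    simp at hX
    exact hqp.one_lt.ne hX
  obtain ⟨S, hS, hXS⟩ := exists_isMaxP_ge (le_inf hXM hXH) hXp
  obtain ⟨hNS, hSH⟩ := s1424_core hG hM hq hXp hX1 hXM hH hne hNX hS hXS
  have hnc := not_conj_of_normalizer_le hG hM hq hXp hX1 hXM hne hNX
  have hSM : S ≤ M := hS.le.trans inf_le_left
  have hd : q ∣ Nat.card H := by
    rw [← hX]
    exact Subgroup.card_dvd_of_le hXH
  have hScyc : ¬ IsCyclic S := by
    intro hc
    exact hqH (mem_sigma_of_normalizer_le hSH hd ((normalizer_le_of_cyclic_ge hc hXS).trans hNX))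
  obtain ⟨A, hAS, hAe, hAc⟩ := exists_e2_of_not_cyclic hG hSH.isP hScyc
  have hAH : A ≤ H := hAS.trans hSH.le
  have hAM : A ≤ M := hAS.trans hSM
  have T : Tau2Setup q A H := Tau2Setup.mk' hG (huniq13 hG) (fun r _ K hK => hpl13 hG r K hK) hH hAH hAe hAc hqH
  have hXA : X ≤ A := by
    intro x hx
    rw [← T.omega_iff hSH hAS (hXS hx)]
    have h1 : ((⟨x, hx⟩ : X) : G) ^ Nat.card X = 1 := by
      rw [← Subgroup.coe_pow, pow_card_eq_one']
      rfl
    rwa [hX] at h1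
  have hA1 : ¬ IsCyclic A := T.S.not_cyclic
  have hNA : normalizer (A : Set G) ≤ M := normalizer_le_of_not_cyclic hG hM hq T.S.hAp hAM hA1
  have hσH : sigmaCore H ≤ H := piCoreOf_le _ H
  have hσn : H ≤ normalizer (sigmaCore H : Set G) := le_normalizer_piCoreOf (sigma H) H
  have hσM : sigmaCore H ⊓ M = ⊥ := T.e hM hne.symm hAM
  have hAσ : A ⊓ sigmaCore H = ⊥ := T.inf_sigmaCore
  have hfac := T.exists_fac
  have hcompl := T.isComplIn_inf_normalizer
  refine ⟨sigmaCore H ⊓ centralizer (X : Set G), H ⊓ normalizer (A : Set G) ⊓ normalizer (X : Set G), ⟨inf_le_right,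
    normalizer_le_normalizer_inf_centralizer hNX hσn, inf_le_left.trans (inf_le_right.trans hNA), inf_le_right, ?_, ?_⟩, inf_le_left, hσM,
    A, T, hXA, hAM, hNA, inf_le_right.trans hNA, hcompl⟩
  · intro c hc
    obtain ⟨k, hk, hkC, v, hv, hvX, e⟩ := factor_of_core hσn inf_le_left inf_le_right hAH hAσ hXA hfac (hNX hc) hc
    exact ⟨k, ⟨hk, hkC⟩, v, ⟨hv, hvX⟩, e⟩
  · intro r hr hd hrσ
    haveI : Fact r.Prime := ⟨hr⟩
    have hd2 : r ∣ Nat.card (sigmaCore H) := hd.trans (Subgroup.card_dvd_of_le inf_le_left)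
    obtain ⟨c, e⟩ := conj_of_sigma_nilpotent hG hM hH T.nil (piCoreOf_isPi (sigma H) H r hr hd2) hrσ
    apply hnc c⁻¹
    rw [← e, conj_map_conj_map, inv_mul_cancel, conj_map_one]

end

end Cfsg.Agent.Lib.FT
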