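import Cfsg.Agent.Lib.FT.BG13b

/-!
BG section 12, tail (lead): every `σ(M)`-subgroup of `G` is conjugate into `M_σ` (S1425).
-/

set_option autoImplicit false
set_option linter.unusedSectionVars false
set_option linter.style.haveILetI false

namespace Cfsg.Agent.Lib.FT

open Subgroup Cfsg Cfsg.Agent.Lib.OddLocal Cfsg.Agent.Lib.Basic

open Cfsg.Agent.Lib.Coprime (mem_conj_map conj_mem_conj_map conj_map_conj_map conj_map_one
  conj_map_mono mem_normalizer_of_conj_le conj_map_eq_iff_mem_normalizer isPGroup_conj_map)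

variable {G : Type*} [Group G] [Finite G]

/-- If `L = W V` with `W` a `π'`-group, each `π`-subgroup of `L` is conjugate in `L` into `V`. -/
theorem exists_conj_le_of_cover {π : Set ℕ} {L Y W V : Subgroup G} (hs : Group.IsSolvable ↥L) (hYL : Y ≤ L)
    (hY : ∀ r : ℕ, r.Prime → r ∣ Nat.card Y → r ∈ π) (hWL : W ≤ L)
    (hW : ∀ r : ℕ, r.Prime → r ∣ Nat.card W → r ∉ π) (hVL : V ≤ L)
    (hcov : ∀ l ∈ L, ∃ w ∈ W, ∃ v ∈ V, l = w * v) : ∃ g ∈ L, Y ≤ V.map (MulAut.conj g).toMonoidHom := by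
  classical
  have hVs : Group.IsSolvable ↥V := by
    haveI := hs
    exact solvable_of_solvable_injective (f := Subgroup.inclusion hVL) (Subgroup.inclusion_injective hVL)
  have hca : Cfsg.Agent.Lib.Coprime.CoprimeAction (⊥ : Subgroup G) V :=
    ⟨bot_le, by simp, Or.inr hVs⟩
  obtain ⟨T, hT, -, -⟩ := Cfsg.Agent.Lib.Coprime.exists_invariant_hall π _ hca hVs rfl (bot_le (a := V))
    (by simp) (by
      intro p hp hd
      simp at hd
      exact absurd hd hp.one_lt.ne')
  obtain ⟨hTV, hT1, hT2⟩ := hT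
  have hidx : ∀ r : ℕ, r.Prime → r ∈ π → ¬ r ∣ V.relIndex L := by
    intro r hr hrπ hd
    have h1 : (V.subgroupOf L).relIndex (W.subgroupOf L) = (V.subgroupOf L).index := by
      apply Cfsg.Agent.Lib.Basic.relIndex_eq_index_of_mul_eq
      rintro ⟨l, hl⟩
      obtain ⟨w, hw, v, hv, e⟩ := hcov l hl
      exact ⟨⟨w, hWL hw⟩, hw, ⟨v, hVL hv⟩, hv, Subtype.ext e⟩
    have h2 : (V.subgroupOf L).relIndex (W.subgroupOf L) ∣ Nat.card (W.subgroupOf L) := Subgroup.relIndex_dvd_card _ _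
    have h3 : Nat.card (W.subgroupOf L) = Nat.card W := Nat.card_congr (Subgroup.subgroupOfEquivOfLe hWL).toEquiv
    rw [h1, h3] at h2
    exact hW r hr (hd.trans h2) hrπ
  have hTL : IsPiHallOf π T L := by
    refine ⟨hTV.trans hVL, hT1, fun r hr hrπ hd => ?_⟩
    have e := Subgroup.relIndex_mul_relIndex T V L hTV hVL
    rw [← e] at hd
    rcases (Nat.Prime.dvd_mul hr).mp hd with h | h
    · exact hT2 r hr hrπ h
    · exact hidx r hr hrπ h
  obtain ⟨g, hg, hle⟩ := IsPiHallOf.exists_conj_ge hs hTL hYL hY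
  exact ⟨g, hg, hle.trans (conj_map_mono hTV g)⟩

/-- Combined Theorem D. -/
theorem thmD {M H X : Subgroup G} {q : ℕ} [Fact q.Prime] (hG : IsMinSimpleOddOrder G) (hM : IsCoatom M) (hq : q ∈ sigma M)
    (hX : Nat.card X = q) (hXM : X ≤ M) (hH : IsCoatom H) (hne : H ≠ M) (hNX : normalizer (X : Set G) ≤ H) :
    ∃ W V : Subgroup G, NormData M X W V := by
  by_cases hqH : q ∈ sigma H
  · obtain ⟨W, V, h, -⟩ := thmD_sigma hG hM hq hX hXM hH hne hNX hqH
    exact ⟨W, V, h⟩
  · obtain ⟨W, V, h, -⟩ := thmD_not_sigma hG hM hq hX hXM hH hne hNX hqH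
    exact ⟨W, V, h⟩

/-- A `σ(M)`-subgroup of `M` is in `M_σ`. -/
theorem le_sigmaCore_of_pi {M Y : Subgroup G} (hG : IsMinSimpleOddOrder G) (hM : IsCoatom M) (hYM : Y ≤ M)
    (hY : ∀ p : ℕ, p.Prime → p ∣ Nat.card Y → p ∈ sigma M) : Y ≤ sigmaCore M := by
  obtain ⟨h1, -⟩ := s1350_core hG (huniq13 hG) hM
  obtain ⟨g, hg, hle⟩ := IsPiHallOf.exists_conj_ge (coatom_isSolvable hG hM) h1 hYM hY
  rwa [(conj_map_eq_iff_mem_normalizer (sigmaCore M) g).mpr (le_normalizer_piCoreOf _ M hg)] at hle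

/-- A `σ(M)`-subgroup with a normal noncyclic or cyclic `p`-subgroup in `M` is conjugate into `M`. -/
theorem exists_conj_le_of_normal_in {M Y R : Subgroup G} {p : ℕ} [Fact p.Prime] (hG : IsMinSimpleOddOrder G) (hM : IsCoatom M)
    (hY : ∀ r : ℕ, r.Prime → r ∣ Nat.card Y → r ∈ sigma M) (hp : p ∈ sigma M) (hRp : IsPGroup p R) (hR1 : R ≠ ⊥) (hRM : R ≤ M)
    (hYR : Y ≤ normalizer (R : Set G)) : ∃ g : G, Y.map (MulAut.conj g).toMonoidHom ≤ M := by
  classical
  have hpp : p.Prime := Fact.out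
  by_cases hc : IsCyclic R
  · -- subgroup of order `p`
    have hpd : p ∣ Nat.card R := by
      obtain ⟨k, hk⟩ := IsPGroup.iff_card.mp hRp
      have hk0 : k ≠ 0 := by
        rintro rfl
        apply hR1
        rw [pow_zero] at hk
        exact (Subgroup.eq_bot_iff_card _).mpr hk
      rw [hk]
      exact dvd_pow_self p hk0
    obtain ⟨B, hB⟩ := Sylow.exists_subgroup_card_pow_prime (G := R) p (n := 1) (by simpa using hpd)
    have hXc : Nat.card (B.map R.subtype) = p := by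
      rw [Subgroup.card_map_of_injective R.subtype_injective, hB, pow_one]
    set X := B.map R.subtype with hXdef
    have hXR : X ≤ R := map_subtype_le _
    have hYX : Y ≤ normalizer (X : Set G) := hYR.trans (normalizer_le_of_cyclic_ge hc hXR)
    by_cases hN : normalizer (X : Set G) ≤ M
    · exact ⟨1, by rw [conj_map_one]; exact hYX.trans hN⟩
    · have hX1 : X ≠ ⊥ := by
        intro h
        rw [h] at hXc
        simp at hXc
        exact hpp.one_lt.ne hXc
      have hXtop : X ≠ ⊤ := by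
        intro h
        exact hM.1 (top_le_iff.1 (h ▸ hXR.trans hRM))
      have hNtop : normalizer (X : Set G) ≠ ⊤ := IsMinSimpleOddOrder.normalizer_ne_top hG hX1 hXtop
      obtain ⟨H, hH, hNH⟩ := (eq_top_or_exists_le_coatom (normalizer (X : Set G))).resolve_left hNtop
      have hne : H ≠ M := by
        rintro rfl
        exact hN hNH
      obtain ⟨W, V, hD⟩ := thmD hG hM hp hXc (hXR.trans hRM) hH hne hNH
      -- the group `L = Y W`
      have hWN : W ≤ normalizer (X : Set G) := hD.W_le.trans (centralizer_le_normalizer' X)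
      have hLN : Y ⊔ W ≤ normalizer (X : Set G) := sup_le hYX hWN
      have hLs : Group.IsSolvable ↥(Y ⊔ W) :=
        IsMinSimpleOddOrder.isSolvable hG (fun h => hNtop (top_le_iff.1 (h ▸ hLN)))
      obtain ⟨g, hg, hle⟩ := exists_conj_le_of_cover (π := sigma M) (V := V ⊓ (Y ⊔ W)) hLs le_sup_left hY le_sup_right hD.primes inf_le_right
        (fun l hl => by
          obtain ⟨w, hw, v, hv, e⟩ := hD.fact l (hLN hl)
          refine ⟨w, hw, v, ⟨hv, ?_⟩, e⟩
          have e2 : v = w⁻¹ * l := by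
            rw [e]
            group
          rw [e2]
          exact (Y ⊔ W).mul_mem ((Y ⊔ W).inv_mem (mem_sup_right hw)) hl)
      refine ⟨g⁻¹, ?_⟩
      have h2 := conj_map_mono hle g⁻¹
      rw [conj_map_conj_map, inv_mul_cancel, conj_map_one] at h2
      exact h2.trans (inf_le_left.trans hD.V_le)
  · exact ⟨1, by rw [conj_map_one]; exact hYR.trans (normalizer_le_of_not_cyclic hG hM hp hRp hRM hc)⟩

/-- **S1425**. -/
theorem s1425_core {M Y : Subgroup G} (hG : IsMinSimpleOddOrder G) (hM : IsCoatom M) (hY1 : Y ≠ ⊥)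
    (hY : ∀ p : ℕ, p.Prime → p ∣ Nat.card Y → p ∈ sigma M) :
    ∃ g : G, Y.map (MulAut.conj g).toMonoidHom ≤ sigmaCore M := by
  classical
  obtain ⟨h1, h2, -⟩ := s1350_core hG (huniq13 hG) hM
  have hσM : sigmaCore M ≤ M := piCoreOf_le _ M
  have hYtop : Y ≠ ⊤ := by
    rintro rfl
    have hidx : (sigmaCore M).index = 1 := by
      by_contra hne
      obtain ⟨r, hr, hd⟩ := Nat.exists_prime_and_dvd hne
      have hd2 : r ∣ Nat.card (⊤ : Subgroup G) := by
        rw [Subgroup.card_top]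
        exact hd.trans (Subgroup.index_dvd_card _)
      exact h2.2 r hr (hY r hr hd2) hd
    rw [Subgroup.index_eq_one] at hidx
    exact hM.1 (top_le_iff.1 (hidx ▸ hσM))
  haveI hYs : Group.IsSolvable ↥Y := IsMinSimpleOddOrder.isSolvable hG hYtop
  haveI hYn : Nontrivial ↥Y := by
    rw [Subgroup.nontrivial_iff_ne_bot]
    exact hY1
  obtain ⟨p, N, hp, hNn, hN1, -, hNp⟩ := Cfsg.Agent.Lib.Basic.exists_normal_abelian_pSubgroup (G := ↥Y)
  haveI : Fact p.Prime := ⟨hp⟩
  set R := N.map Y.subtype with hR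
  have hRp : IsPGroup p R := hNp.map _
  have hRc : Nat.card R = Nat.card N := Subgroup.card_map_of_injective Y.subtype_injective
  have hR1 : R ≠ ⊥ := by
    intro h
    apply hN1
    rw [Subgroup.eq_bot_iff_card, ← hRc, h]
    simp
  have hpY : p ∣ Nat.card Y := by
    obtain ⟨k, hk⟩ := IsPGroup.iff_card.mp hNp
    have hk0 : k ≠ 0 := by
      rintro rfl
      apply hN1
      rw [pow_zero] at hk
      exact (Subgroup.eq_bot_iff_card _).mpr hk
    have : p ∣ Nat.card N := by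
      rw [hk]
      exact dvd_pow_self p hk0
    exact this.trans (Subgroup.card_subgroup_dvd_card N)
  have hpσ : p ∈ sigma M := hY p hp hpY
  have hYR : Y ≤ normalizer (R : Set G) := by
    intro y hy
    rw [mem_normalizer_iff]
    intro x
    constructor
    · rintro ⟨n, hn, rfl⟩
      exact ⟨⟨y, hy⟩ * n * ⟨y, hy⟩⁻¹, hNn.conj_mem n hn _, by simp⟩
    · rintro ⟨n, hn, e⟩
      refine ⟨⟨y, hy⟩⁻¹ * n * ⟨y, hy⟩⁻¹⁻¹, hNn.conj_mem n hn _, ?_⟩
      have e' : (n : G) = y * x * y⁻¹ := e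
      simp [e']
      group
  -- conjugate `R` into `M`
  obtain ⟨S, hSM, -⟩ := sigma_exists_sylow hpσ
  have hSmax : IsMaxP p (S : Subgroup G) ⊤ := ⟨le_top, S.isPGroup', fun D' _ h2 h3 => S.is_maximal' h2 h3⟩
  obtain ⟨n, -, hn⟩ := hSmax.exists_conj_le (T := R) le_top hRp
  have hY' : ∀ r : ℕ, r.Prime → r ∣ Nat.card (Y.map (MulAut.conj n).toMonoidHom) → r ∈ sigma M := by
    intro r hr hd
    rw [Cfsg.Agent.Lib.Coprime.card_conj_map] at hd
    exact hY r hr hd
  have hYR' : Y.map (MulAut.conj n).toMonoidHom ≤ normalizer ((R.map (MulAut.conj n).toMonoidHom : Subgroup G) : Set G) := by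
    rintro _ ⟨y, hy, rfl⟩
    have h3 := hYR hy
    rw [← conj_map_eq_iff_mem_normalizer] at h3 ⊢
    rw [conj_map_conj_map]
    have e : (MulAut.conj n).toMonoidHom y * n = n * y := by
      simp [MulAut.conj_apply]
    rw [e, ← conj_map_conj_map, h3]
  have hR1' : R.map (MulAut.conj n).toMonoidHom ≠ ⊥ := by
    intro h
    apply hR1
    rw [Subgroup.eq_bot_iff_card, ← Cfsg.Agent.Lib.Coprime.card_conj_map R n, h]
    simp
  obtain ⟨g, hg⟩ := exists_conj_le_of_normal_in hG hM hY' hpσ (isPGroup_conj_map hRp n) hR1' (hn.trans hSM) hYR'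
  refine ⟨g * n, ?_⟩
  rw [← conj_map_conj_map]
  apply le_sigmaCore_of_pi hG hM hg
  intro r hr hd
  rw [Cfsg.Agent.Lib.Coprime.card_conj_map] at hd
  exact hY' r hr hd

end Cfsg.Agent.Lib.FT
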