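import Cfsg.Agent.Lib.FT.BG13c
import Cfsg.Agent.Lib.FT.BG11l

/-!
BG section 12, tail (lead): Lemma Q', and S1427: a cyclic Sylow subgroup of `M/M_σ` acts on `M_σ` in a
prime manner.
-/

set_option autoImplicit false
set_option linter.unusedSectionVars false
set_option linter.style.haveILetI false

namespace Cfsg.Agent.Lib.FT

open Subgroup Cfsg Cfsg.Agent.Lib.OddLocal Cfsg.Agent.Lib.Basic

open Cfsg.Agent.Lib.Coprime (mem_conj_map conj_mem_conj_map conj_map_conj_map conj_map_one
  conj_map_mono mem_normalizer_of_conj_le conj_map_eq_iff_mem_normalizer isPGroup_conj_map)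

variable {G : Type*} [Group G] [Finite G]

/-- Conjugates of elementary abelian subgroups. -/
theorem elem_conj_map {p : ℕ} {A : Subgroup G} (hA : IsElementaryAbelian p A) (g : G) :
    IsElementaryAbelian p (A.map (MulAut.conj g).toMonoidHom) := by
  refine ⟨⟨⟨?_⟩⟩, ?_⟩
  · rintro ⟨_, a, ha, rfl⟩ ⟨_, b, hb, rfl⟩
    apply Subtype.ext
    have := congrArg Subtype.val (hA.1.is_comm.comm ⟨a, ha⟩ ⟨b, hb⟩)
    simp only [MulMemClass.mk_mul_mk] at this ⊢
    change (MulAut.conj g) a * (MulAut.conj g) b = (MulAut.conj g) b * (MulAut.conj g) a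
    rw [← map_mul, ← map_mul]
    exact congrArg _ this
  · rintro _ ⟨a, ha, rfl⟩
    change (MulAut.conj g a) ^ p = 1
    rw [← map_pow, hA.2 a ha, map_one]

/-- **Lemma Q'**: a rank-one prime `p` of `M` which is not ideal cannot act as an `E_{p²}` on a prime-order subgroup of
`M_σ`, with a subgroup of `M` inside. -/
theorem lemmaQ' {M P Q A₂ : Subgroup G} {p q : ℕ} [Fact p.Prime] [Fact q.Prime] (hG : IsMinSimpleOddOrder G) (hM : IsCoatom M)
    (hr : PRankLE p 1 ↥M) (hni : ¬ IsIdealPrime p G) (hPM : P ≤ M) (hP : Nat.card P = p) (hQ : Nat.card Q = q)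
    (hQσ : Q ≤ sigmaCore M) (hA₂e : IsElementaryAbelian p A₂) (hA₂c : Nat.card A₂ = p ^ 2) (hPA : P ≤ A₂)
    (hA₂N : A₂ ≤ normalizer (Q : Set G)) : False := by
  classical
  have hpp : p.Prime := Fact.out
  have hqp : q.Prime := Fact.out
  have hσM : sigmaCore M ≤ M := piCoreOf_le _ M
  have hQM : Q ≤ M := hQσ.trans hσM
  have hqσ : q ∈ sigma M := piCoreOf_isPi (sigma M) M q hqp (by
    rw [← hQ]
    exact Subgroup.card_dvd_of_le hQσ)
  have hnot : ∀ g : G, ¬ A₂.map (MulAut.conj g).toMonoidHom ≤ M := by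
    intro g hg
    have h1 := card_le_of_prank hr (elem_conj_map hA₂e g) hg
    rw [Cfsg.Agent.Lib.Coprime.card_conj_map, hA₂c, pow_one] at h1
    have h2 : p ^ 2 = p * p := by ring
    have h3 := hpp.one_lt
    nlinarith
  by_cases hN : normalizer (Q : Set G) ≤ M
  · apply hnot 1
    rw [conj_map_one]
    exact hA₂N.trans hN
  have hQ1 : Q ≠ ⊥ := by
    intro h
    rw [h] at hQ
    simp at hQ
    exact hqp.one_lt.ne hQ
  have hQtop : Q ≠ ⊤ := fun h => hM.1 (top_le_iff.1 (h ▸ hQM))
  have hNtop : normalizer (Q : Set G) ≠ ⊤ := IsMinSimpleOddOrder.normalizer_ne_top hG hQ1 hQtop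
  obtain ⟨L, hL, hNL⟩ := (eq_top_or_exists_le_coatom (normalizer (Q : Set G))).resolve_left hNtop
  have hne : L ≠ M := by
    rintro rfl
    exact hN hNL
  -- the general cover argument, when `p ∤ |W|`
  have cover : ∀ W V : Subgroup G, NormData M Q W V → p ∣ Nat.card W := by
    intro W V hD
    by_contra hpW
    have hWN : W ≤ normalizer (Q : Set G) := hD.W_le.trans (centralizer_le_normalizer' Q)
    have hLN : A₂ ⊔ W ≤ normalizer (Q : Set G) := sup_le hA₂N hWN
    have hLs : Group.IsSolvable ↥(A₂ ⊔ W) :=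
      IsMinSimpleOddOrder.isSolvable hG (fun h => hNtop (top_le_iff.1 (h ▸ hLN)))
    have hAp : IsPGroup p A₂ := isPGroup_of_elem hA₂e
    obtain ⟨g, hg, hle⟩ := exists_conj_le_of_cover (π := {p}) (V := V ⊓ (A₂ ⊔ W)) hLs (Y := A₂) le_sup_left
      (fun r hr hd => by
        obtain ⟨k, hk⟩ := IsPGroup.iff_card.mp hAp
        rw [hk] at hd
        exact (Nat.prime_dvd_prime_iff_eq hr hpp).mp (hr.dvd_of_dvd_pow hd))
      le_sup_right
      (fun r hr hd hrp => by
        rw [Set.mem_singleton_iff] at hrp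
        subst hrp
        exact hpW hd)
      inf_le_right
      (fun l hl => by
        obtain ⟨w, hw, v, hv, e⟩ := hD.fact l (hLN hl)
        refine ⟨w, hw, v, ⟨hv, ?_⟩, e⟩
        have e2 : v = w⁻¹ * l := by
          rw [e]
          group
        rw [e2]
        exact (A₂ ⊔ W).mul_mem ((A₂ ⊔ W).inv_mem (mem_sup_right hw)) hl)
    apply hnot g⁻¹
    have h2 := conj_map_mono hle g⁻¹
    rw [conj_map_conj_map, inv_mul_cancel, conj_map_one] at h2
    exact h2.trans (inf_le_left.trans hD.V_le)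
  have hPN : P ≤ L := (hPA.trans hA₂N).trans hNL
  by_cases hqL : q ∈ sigma L
  · obtain ⟨W, V, hD, hWβ, -⟩ := thmD_sigma hG hM hqσ hQ hQM hL hne hNL hqL
    have hd := cover W V hD
    have hb := piCoreOf_isPi (beta L) L p hpp (hd.trans (Subgroup.card_dvd_of_le hWβ))
    exact hni hb.2
  · obtain ⟨W, V, hD, hWσ, hLM, -⟩ := thmD_not_sigma hG hM hqσ hQ hQM hL hne hNL hqL
    have hd := cover W V hD
    have hpL : p ∈ sigma L := piCoreOf_isPi (sigma L) L p hpp (hd.trans (Subgroup.card_dvd_of_le hWσ))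
    have hPp : IsPGroup p P := IsPGroup.of_card (n := 1) (by simpa using hP)
    have h1 := le_sigmaCore_of_isPGroup hG (huniq13 hG) hL hpL hPp hPN
    have h2 : P ≤ sigmaCore L ⊓ M := le_inf h1 hPM
    rw [hLM, le_bot_iff] at h2
    rw [h2] at hP
    simp at hP
    exact hpp.one_lt.ne hP

/-- **Lemma A'**: elements of `H_σ` of order prime to `q` normalizing a `q`-subgroup `Q` of `H`, `q ∉ β(H)`, centralize `Q`. -/
theorem comm_of_sigma_element {H Q : Subgroup G} {q : ℕ} [Fact q.Prime] (hG : IsMinSimpleOddOrder G) (hH : IsCoatom H)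
    (hqβ : q ∉ beta H) (hQ : IsPGroup q Q) (hQH : Q ≤ H) {s : G} (hs : s ∈ sigmaCore H) (hc : (orderOf s).Coprime q)
    (hn : s ∈ normalizer (Q : Set G)) : s ∈ centralizer (Q : Set G) := by
  classical
  have hqp : q.Prime := Fact.out
  by_cases hd : q ∣ Nat.card H
  swap
  · have h1 : Q = ⊥ := by
      rw [Subgroup.eq_bot_iff_card]
      obtain ⟨k, hk⟩ := IsPGroup.iff_card.mp hQ
      by_contra h2
      apply hd
      have hk0 : k ≠ 0 := by
        rintro rfl
        exact h2 (by simpa using hk)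
      have h3 : q ∣ Nat.card Q := by
        rw [hk]
        exact dvd_pow_self q hk0
      exact h3.trans (Subgroup.card_dvd_of_le hQH)
    rw [h1, mem_centralizer_iff]
    intro u hu
    have hu1 : u = 1 := by simpa using hu
    simp [hu1]
  obtain ⟨-, -, -, -, h5⟩ := s1414_core hG (huniq13 hG) hH (fun r _ _ => hpl13 hG r H hH.1)
  obtain ⟨-, h6, -⟩ := h5 q hqp hd hqβ
  obtain ⟨Y, hYK, -, hYc, hY⟩ := exists_complement_core h6
  have hσn : H ≤ normalizer (sigmaCore H : Set G) := le_normalizer_piCoreOf (sigma H) H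
  rw [mem_centralizer_iff]
  intro u hu
  have hs1 : s ∈ Y := hY s hs hc
  have hs2 : u * s * u⁻¹ ∈ Y := by
    apply hY
    · exact (mem_normalizer_iff.mp (hσn (hQH hu)) s).mp hs
    · have : orderOf (u * s * u⁻¹) = orderOf s := by
        have e : u * s * u⁻¹ = MulAut.conj u s := rfl
        rw [e, MulEquiv.orderOf_eq]
      rwa [this]
  have h7 : u * s * u⁻¹ * s⁻¹ ∈ Q ⊓ Y := by
    constructor
    · have h8 := Q.mul_mem hu ((mem_normalizer_iff.mp hn u⁻¹).mp (Q.inv_mem hu))
      have e : u * s * u⁻¹ * s⁻¹ = u * (s * u⁻¹ * s⁻¹) := by simp only [mul_assoc]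
      rw [e]
      exact h8
    · exact Y.mul_mem hs2 (Y.inv_mem hs1)
  have h9 : Q ⊓ Y = ⊥ :=
    eq_bot_of_isPGroup_of_coprime (r := q) (hQ.to_le inf_le_left) inf_le_right hYc
  rw [h9, mem_bot] at h7
  have e := mul_inv_eq_one.mp h7
  exact mul_inv_eq_iff_eq_mul.mp e

/-- A `p`-subgroup of index prime to `p` is maximal. -/
theorem isMaxP_of_not_dvd_relIndex {p : ℕ} [Fact p.Prime] {S M : Subgroup G} (hSM : S ≤ M) (hS : IsPGroup p S)
    (hidx : ¬ p ∣ S.relIndex M) : IsMaxP p S M := by
  refine ⟨hSM, hS, fun D hD hDp hle => ?_⟩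
  have e := Subgroup.relIndex_mul_relIndex S D M hle hD
  have h1 : S.relIndex D ∣ Nat.card D := Subgroup.relIndex_dvd_card _ _
  obtain ⟨k, hk⟩ := IsPGroup.iff_card.mp hDp
  rw [hk] at h1
  obtain ⟨j, hj, hj2⟩ := (Nat.dvd_prime_pow Fact.out).mp h1
  have hj0 : j = 0 := by
    by_contra hne
    apply hidx
    rw [← e, hj2]
    exact (dvd_pow_self p hne).trans (dvd_mul_right _ _)
  rw [hj0, pow_zero] at hj2
  exact le_antisymm (Subgroup.relIndex_eq_one.mp hj2) hle

/-- Factor `M = E M_σ`: Sylow subgroups of the complement. -/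
theorem isMaxP_of_compl {M E : Subgroup G} {p : ℕ} [Fact p.Prime] (hG : IsMinSimpleOddOrder G) (hM : IsCoatom M)
    (hE : IsComplIn E (sigmaCore M) M) (P : Sylow p E) (hP1 : (P : Subgroup E) ≠ ⊥) :
    p ∉ sigma M ∧ IsMaxP p ((P : Subgroup E).map E.subtype) M := by
  classical
  have hpp : p.Prime := Fact.out
  obtain ⟨hEM, hσM, hinf, hf⟩ := hE
  set S := (P : Subgroup E).map E.subtype with hS
  have hSp : IsPGroup p S := P.isPGroup'.map _
  have hSE : S ≤ E := map_subtype_le _
  have hpσ : p ∉ sigma M := by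
    intro hpσ
    have h1 := le_sigmaCore_of_isPGroup hG (huniq13 hG) hM hpσ hSp (hSE.trans hEM)
    have h2 : S ≤ E ⊓ sigmaCore M := le_inf hSE h1
    rw [hinf, le_bot_iff] at h2
    apply hP1
    rw [Subgroup.eq_bot_iff_card]
    have h3 : Nat.card S = Nat.card (P : Subgroup E) := Subgroup.card_map_of_injective E.subtype_injective
    rw [← h3, h2]
    simp
  refine ⟨hpσ, isMaxP_of_not_dvd_relIndex (hSE.trans hEM) hSp ?_⟩
  have e := Subgroup.relIndex_mul_relIndex S E M hSE hEM
  rw [← e]
  intro hd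
  rcases (Nat.Prime.dvd_mul hpp).mp hd with h | h
  · have h1 : S.relIndex E = (P : Subgroup E).index := by
      have : S.subgroupOf E = (P : Subgroup E) := Subgroup.comap_map_eq_self_of_injective E.subtype_injective _
      rw [Subgroup.relIndex, this]
    rw [h1] at h
    exact P.not_dvd_index h
  · -- `[M : E] = |M_σ|`
    have hcomp : IsComplement' ((sigmaCore M).subgroupOf M) (E.subgroupOf M) := by
      apply Subgroup.isComplement'_of_disjoint_and_mul_eq_univ
      · rw [Subgroup.disjoint_def]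
        rintro ⟨x, hx⟩ h1 h2
        have h3 : x ∈ E ⊓ sigmaCore M := ⟨Subgroup.mem_subgroupOf.mp h2, Subgroup.mem_subgroupOf.mp h1⟩
        rw [hinf, mem_bot] at h3
        exact Subtype.ext h3
      · rw [Set.eq_univ_iff_forall]
        rintro ⟨x, hx⟩
        obtain ⟨a, ha, b, hb, e⟩ := hf x⁻¹ (M.inv_mem hx)
        refine Set.mem_mul.mpr ⟨⟨b⁻¹, M.inv_mem (hσM hb)⟩, ?_, ⟨a⁻¹, M.inv_mem (hEM ha)⟩, ?_, ?_⟩
        · exact (sigmaCore M).inv_mem hb
        · exact E.inv_mem ha
        · apply Subtype.ext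
          have e2 : x = (x⁻¹)⁻¹ := by simp
          change b⁻¹ * a⁻¹ = x
          rw [e2, e]
          group
    have h2 : E.relIndex M = Nat.card ((sigmaCore M).subgroupOf M) := hcomp.index_eq_card
    rw [h2, Nat.card_congr (Subgroup.subgroupOfEquivOfLe hσM).toEquiv] at h
    exact hpσ (piCoreOf_isPi (sigma M) M p hpp h)

/-- A cyclic `p`-group has `p`-rank one. -/
theorem prank_one_of_cyclic {p : ℕ} [Fact p.Prime] {S : Subgroup G} (hc : IsCyclic S) : PRankLE p 1 ↥S := by
  intro A hAc hAp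
  rw [pow_one]
  have hcA : IsCyclic A := inferInstance
  -- transport to `G`
  have h1 : IsElementaryAbelian p (A.map S.subtype) := by
    refine ⟨⟨⟨?_⟩⟩, ?_⟩
    · rintro ⟨_, a, ha, rfl⟩ ⟨_, b, hb, rfl⟩
      apply Subtype.ext
      have h := congrArg (fun z : ↥A => ((z : ↥S) : G)) (hAc.is_comm.comm ⟨a, ha⟩ ⟨b, hb⟩)
      simpa using h
    · rintro _ ⟨a, ha, rfl⟩
      have := hAp a ha
      have h2 := congrArg Subtype.val this
      simpa using h2
  have h2 : IsCyclic ↥(A.map S.subtype) :=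
    isCyclic_of_surjective (S.subtype.subgroupMap A) (S.subtype.subgroupMap_surjective A)
  have h3 := card_le_of_cyclic_elem h1 h2
  rwa [Subgroup.card_map_of_injective S.subtype_injective] at h3

/-- The key step of S1427 at a rank-one prime. -/
theorem s1427_main {M S X : Subgroup G} {p : ℕ} [Fact p.Prime] (hG : IsMinSimpleOddOrder G) (hM : IsCoatom M) (hpσ : p ∉ sigma M)
    (hS : IsMaxP p S M) (hSc : IsCyclic S) (hXS : X ≤ S) (hX : Nat.card X = p) :
    sigmaCore M ⊓ centralizer (X : Set G) ≤ centralizer (S : Set G) := by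
  classical
  have hpp : p.Prime := Fact.out
  have hr : PRankLE p 1 ↥M := hS.prank_of (prank_one_of_cyclic hSc)
  have hσM : sigmaCore M ≤ M := piCoreOf_le _ M
  have hσn : M ≤ normalizer (sigmaCore M : Set G) := le_normalizer_piCoreOf (sigma M) M
  have hXM : X ≤ M := hXS.trans hS.le
  have hXp : IsPGroup p X := IsPGroup.of_card (n := 1) (by simpa using hX)
  have hX1 : X ≠ ⊥ := by
    rintro rfl
    simp at hX
    exact hpp.one_lt.ne hX
  have hXtop : X ≠ ⊤ := fun h => hM.1 (top_le_iff.1 (h ▸ hXM))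
  have hNtop : normalizer (X : Set G) ≠ ⊤ := IsMinSimpleOddOrder.normalizer_ne_top hG hX1 hXtop
  obtain ⟨H, hH, hNH⟩ := (eq_top_or_exists_le_coatom (normalizer (X : Set G))).resolve_left hNtop
  have hne : H ≠ M := by
    rintro rfl
    exact (s1409_core hG (huniq13 hG) hM hpσ X hX hNH).1.2 hr
  have hSNX : S ≤ normalizer (X : Set G) := le_normalizer.trans (normalizer_le_of_cyclic_ge hSc hXS)
  have hSH : S ≤ H := hSNX.trans hNH
  have hσH : sigmaCore H ≤ H := piCoreOf_le _ H
  have hσHn : H ≤ normalizer (sigmaCore H : Set G) := le_normalizer_piCoreOf (sigma H) H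
  set D := sigmaCore M ⊓ centralizer (X : Set G) with hD
  have hDM : D ≤ sigmaCore M := inf_le_left
  have hDC : D ≤ centralizer (X : Set G) := inf_le_right
  have hDH : D ≤ H := (hDC.trans (centralizer_le_normalizer' X)).trans hNH
  have hSND : S ≤ normalizer (D : Set G) := by
    intro s hs
    rw [mem_normalizer_iff]
    intro x
    have h1 := mem_normalizer_iff.mp (hσn (hS.le hs)) x
    have h2 := mem_normalizer_iff.mp (Cfsg.Agent.Lib.OddLocal.mem_normalizer_centralizer (hSNX hs)) x
    simp only [hD, mem_inf, h1, h2]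
  by_cases hpH : p ∈ sigma H
  · -- `p ∈ σ(H)`: Lemma A'
    have hSσ : S ≤ sigmaCore H := le_sigmaCore_of_isPGroup hG (huniq13 hG) hH hpH hS.isP hSH
    have hDtop : D ≠ ⊤ := fun h => hM.1 (top_le_iff.1 (h ▸ hDM.trans hσM))
    have hDs : Group.IsSolvable ↥D := IsMinSimpleOddOrder.isSolvable hG hDtop
    have hDprimes : ∀ r : ℕ, r.Prime → r ∣ Nat.card D → r ∈ sigma M := fun r hr hd =>
      piCoreOf_isPi (sigma M) M r hr (hd.trans (Subgroup.card_dvd_of_le hDM))
    have hSprimes : ∀ r : ℕ, r.Prime → r ∣ Nat.card S → r = p := by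
      intro r hr hd
      obtain ⟨k, hk⟩ := IsPGroup.iff_card.mp hS.isP
      rw [hk] at hd
      exact (Nat.prime_dvd_prime_iff_eq hr hpp).mp (hr.dvd_of_dvd_pow hd)
    have hcop : (Nat.card S).Coprime (Nat.card D) := Nat.coprime_of_dvd fun r hrp h1 h2 => by
      have e := hSprimes r hrp h1
      rw [e] at h2
      exact hpσ (hDprimes p hpp h2)
    have hca : Cfsg.Agent.Lib.Coprime.CoprimeAction S D := ⟨hSND, hcop, Or.inr hDs⟩
    have hall : ∀ r : ℕ, r.Prime → ∃ Q : Subgroup G, IsPiHallOf {r} Q D ∧ Q ≤ centralizer (S : Set G) := by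
      intro r hr
      haveI : Fact r.Prime := ⟨hr⟩
      obtain ⟨Q, hQ, hSQ, -⟩ := Cfsg.Agent.Lib.Coprime.exists_invariant_hall {r} _ hca hDs rfl (bot_le (a := D))
        (by
          intro s _
          rw [mem_normalizer_iff]
          intro x
          simp) (by
          intro q hq hd
          simp at hd
          exact absurd hd hq.one_lt.ne')
      refine ⟨Q, hQ, ?_⟩
      by_cases hQ1 : Q = ⊥
      · rw [hQ1]
        exact bot_le
      have hQp : IsPGroup r Q := by
        rw [IsPGroup.iff_card]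
        have h1 : ∀ q : ℕ, q.Prime → q ∣ Nat.card Q → q = r := fun q hq hd => by
          simpa using hQ.2.1 q hq hd
        exact ⟨(Nat.card Q).primeFactorsList.length, (Nat.eq_prime_pow_of_unique_prime_dvd Nat.card_pos.ne' (fun {q} hq hd => h1 q hq hd))⟩
      have hrd : r ∣ Nat.card Q := by
        obtain ⟨k, hk⟩ := IsPGroup.iff_card.mp hQp
        have hk0 : k ≠ 0 := by
          rintro rfl
          exact hQ1 ((Subgroup.eq_bot_iff_card _).mpr (by simpa using hk))
        rw [hk]
        exact dvd_pow_self r hk0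
      have hQD : Q ≤ D := hQ.1
      have hrσ : r ∈ sigma M := hDprimes r hr (hrd.trans (Subgroup.card_dvd_of_le hQD))
      have hrβ : r ∉ beta H := by
        intro hb
        obtain ⟨c, e⟩ := conj_of_alpha_sigma hG (huniq13 hG) hM hH hb.1 hrσ
        rw [e] at hpH
        exact hpσ (not_sigma_of_conj hpH)
      have hrp : r ≠ p := fun h => hpσ (h ▸ hrσ)
      intro u hu
      rw [mem_centralizer_iff]
      intro s hs
      have hc : (orderOf s).Coprime r := by
        have hd : orderOf s ∣ Nat.card S := Subgroup.orderOf_dvd_natCard S hs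
        exact Nat.Coprime.symm (Nat.coprime_of_dvd fun q hq h1 h2 => by
          have h3 := (Nat.prime_dvd_prime_iff_eq hq hr).mp h1
          subst h3
          have h4 := hSprimes q hq (h2.trans hd)
          exact hrp h4)
      have h5 := comm_of_sigma_element hG hH hrβ hQp (hQD.trans hDH) (hSσ hs) hc (hSQ hs)
      rw [mem_centralizer_iff] at h5
      exact (h5 u hu).symm
    -- conclude
    have h1 : (D ⊓ centralizer (S : Set G)).relIndex D = 1 := by
      by_contra hne
      obtain ⟨r, hr, hd⟩ := Nat.exists_prime_and_dvd hne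
      obtain ⟨Q, hQ, hQC⟩ := hall r hr
      have h2 : (D ⊓ centralizer (S : Set G)).relIndex D ∣ Q.relIndex D :=
        Subgroup.relIndex_dvd_of_le_left D (le_inf hQ.1 hQC)
      exact hQ.2.2 r hr rfl (hd.trans h2)
    exact (Subgroup.relIndex_eq_one.mp h1).trans inf_le_right
  · -- `p ∉ σ(H)`
    obtain ⟨⟨hr2, hr1⟩, hni, -⟩ := s1409_core hG (huniq13 hG) hH hpH X hX hNH
    obtain ⟨SH, hSHm, hSSH⟩ := exists_isMaxP_ge hSH hS.isP
    have hSHnc : ¬ IsCyclic SH := fun h => hr1 (hSHm.prank_of (prank_one_of_cyclic h))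
    obtain ⟨A, hASH, hAe, hAc⟩ := exists_e2_of_not_cyclic hG hSHm.isP hSHnc
    have hAH : A ≤ H := hASH.trans hSHm.le
    have T : Tau2Setup p A H := Tau2Setup.mk' hG (huniq13 hG) (fun r _ K hK => hpl13 hG r K hK) hH hAH hAe hAc hpH
    have hXA : X ≤ A := by
      intro x hx
      rw [← T.omega_iff hSHm hASH (hSSH (hXS hx))]
      have h1 : ((⟨x, hx⟩ : X) : G) ^ Nat.card X = 1 := by
        rw [← Subgroup.coe_pow, pow_card_eq_one']
        rfl
      rwa [hX] at h1
    have hSCA : S ≤ centralizer (A : Set G) := hSSH.trans (T.b_core hSHm hASH)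
    have hCAX : centralizer (A : Set G) ≤ centralizer (X : Set G) := centralizer_le hXA
    -- `σ(H)` and `σ(M)` are disjoint
    have hdisj : ∀ r : ℕ, r ∈ sigma H → r ∉ sigma M := by
      intro r hrH hrM
      haveI : Fact r.Prime := ⟨hrH.1⟩
      obtain ⟨c, e⟩ := conj_of_sigma_nilpotent hG hM hH T.nil hrH hrM
      have h1 : A.map (MulAut.conj c).toMonoidHom ≤ M := e ▸ conj_map_mono hAH c
      have h2 := card_le_of_prank hr (elem_conj_map hAe c) h1
      rw [Cfsg.Agent.Lib.Coprime.card_conj_map, hAc, pow_one] at h2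
      have h3 := hpp.one_lt
      nlinarith
    set W := sigmaCore H ⊓ centralizer (X : Set G) with hW
    have hWn := normalizer_le_normalizer_inf_centralizer hNH hσHn
    have hCAW : centralizer (A : Set G) ≤ normalizer (W : Set G) :=
      (hCAX.trans (centralizer_le_normalizer' X)).trans hWn
    have hBN : W ⊔ centralizer (A : Set G) ≤ normalizer (X : Set G) :=
      sup_le (inf_le_right.trans (centralizer_le_normalizer' X)) (hCAX.trans (centralizer_le_normalizer' X))
    have hBs : Group.IsSolvable ↥(W ⊔ centralizer (A : Set G)) :=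
      IsMinSimpleOddOrder.isSolvable hG (fun h => hNtop (top_le_iff.1 (h ▸ hBN)))
    intro d hd
    rw [mem_centralizer_iff]
    intro s hs
    by_contra hne
    have hds : d * s * d⁻¹ * s⁻¹ ≠ 1 := by
      intro h
      apply hne
      have e := mul_inv_eq_one.mp h
      exact (mul_inv_eq_iff_eq_mul.mp e).symm
    set w := d * s * d⁻¹ * s⁻¹ with hwdef
    have hwD : w ∈ D := by
      have h1 := (mem_normalizer_iff.mp (hSND hs) d⁻¹).mp (D.inv_mem hd)
      have e : w = d * (s * d⁻¹ * s⁻¹) := by simp only [hwdef, mul_assoc]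
      rw [e]
      exact D.mul_mem hd h1
    -- `w ∈ W C(A)`
    have hwB : w ∈ W ⊔ centralizer (A : Set G) := by
      obtain ⟨k, hk, hkC, v, hv, hvX, e⟩ := factor_of_core hσHn inf_le_left inf_le_right hAH T.inf_sigmaCore hXA T.exists_fac
        (hDH hd) (centralizer_le_normalizer' X (hDC hd))
      have hvN : v ∈ normalizer (A : Set G) := hv.2
      have h1 : v * s * v⁻¹ ∈ centralizer (A : Set G) :=
        (mem_normalizer_iff.mp (Cfsg.Agent.Lib.OddLocal.mem_normalizer_centralizer hvN) s).mp (hSCA hs)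
      have h2 : k ∈ W := ⟨hk, hkC⟩
      have e2 : w = k * (v * s * v⁻¹) * k⁻¹ * s⁻¹ := by
        rw [hwdef, e]
        group
      rw [e2]
      have hk1 : k ∈ W ⊔ centralizer (A : Set G) := mem_sup_left h2
      have hs1 : s ∈ W ⊔ centralizer (A : Set G) := mem_sup_right (hSCA hs)
      have hv1 : v * s * v⁻¹ ∈ W ⊔ centralizer (A : Set G) := mem_sup_right h1
      exact (W ⊔ centralizer (A : Set G)).mul_mem ((W ⊔ centralizer (A : Set G)).mul_mem ((W ⊔ centralizer (A : Set G)).mul_mem hk1 hv1)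
        ((W ⊔ centralizer (A : Set G)).inv_mem hk1)) ((W ⊔ centralizer (A : Set G)).inv_mem hs1)
    obtain ⟨k, q, hq, ho⟩ : ∃ (k q : ℕ), q.Prime ∧ orderOf (w ^ k) = q := by
      have h1 : orderOf w ≠ 1 := fun h => hds (orderOf_eq_one_iff.mp h)
      obtain ⟨q, hq, hqd⟩ := Nat.exists_prime_and_dvd h1
      exact ⟨orderOf w / q, q, hq, orderOf_pow_orderOf_div (orderOf_pos w).ne' hqd⟩
    haveI : Fact q.Prime := ⟨hq⟩
    have hyD : w ^ k ∈ D := D.pow_mem hwD k
    have hyB : w ^ k ∈ W ⊔ centralizer (A : Set G) := pow_mem hwB k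
    set y := w ^ k with hy
    have hQc : Nat.card (zpowers y) = q := by
      rw [Nat.card_zpowers, ho]
    have hQσ : zpowers y ≤ sigmaCore M := zpowers_le.mpr (hDM hyD)
    have hqσ : q ∈ sigma M := piCoreOf_isPi (sigma M) M q hq (by
      rw [← hQc]
      exact Subgroup.card_dvd_of_le hQσ)
    -- conjugate `y` into `C(A)` by an element of `W`
    obtain ⟨g, hg, hle⟩ := exists_conj_le_of_cover (π := {q}) (L := W ⊔ centralizer (A : Set G)) (Y := zpowers y)
      (W := W) (V := centralizer (A : Set G)) hBs (zpowers_le.mpr hyB)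
      (fun r hr hd => by
        rw [hQc] at hd
        exact (Nat.prime_dvd_prime_iff_eq hr hq).mp hd)
      le_sup_left
      (fun r hr hd hrq => by
        rw [Set.mem_singleton_iff] at hrq
        subst hrq
        exact hdisj r (piCoreOf_isPi (sigma H) H r hr (hd.trans (Subgroup.card_dvd_of_le inf_le_left))) hqσ)
      le_sup_right
      (fun l hl => (Cfsg.Agent.Lib.Coprime.mem_sup_iff_of_le_normalizer hCAW l).mp hl)
    obtain ⟨w', hw', a, ha, hga⟩ := (Cfsg.Agent.Lib.Coprime.mem_sup_iff_of_le_normalizer hCAW g).mp hg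
    have hyC : w'⁻¹ * y * w' ∈ centralizer (A : Set G) := by
      have h1 := hle (mem_zpowers y)
      rw [mem_conj_map, hga] at h1
      have h2 : a * (a⁻¹ * (w'⁻¹ * y * w') * a) * a⁻¹ ∈ centralizer (A : Set G) := by
        have h3 := (mem_normalizer_iff.mp (le_normalizer ha : a ∈ normalizer ((centralizer (A : Set G) : Subgroup G) : Set G)) (a⁻¹ * (w'⁻¹ * y * w') * a)).mp
        apply h3
        convert h1 using 1
        group
      convert h2 using 1
      group
    -- the subgroup `A₂ = w' A w'⁻¹`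
    have hA₂N : A.map (MulAut.conj w').toMonoidHom ≤ normalizer ((zpowers y : Subgroup G) : Set G) := by
      rintro _ ⟨b, hb, rfl⟩
      have h4 := (mem_centralizer_iff.mp hyC) b hb
      have hcomm : (MulAut.conj w').toMonoidHom b * y = y * (MulAut.conj w').toMonoidHom b := by
        change w' * b * w'⁻¹ * y = y * (w' * b * w'⁻¹)
        have e5 : b * (w'⁻¹ * y * w') = (w'⁻¹ * y * w') * b := h4
        calc w' * b * w'⁻¹ * y = w' * (b * (w'⁻¹ * y * w')) * w'⁻¹ := by group
          _ = w' * ((w'⁻¹ * y * w') * b) * w'⁻¹ := by rw [e5]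
          _ = y * (w' * b * w'⁻¹) := by group
      exact centralizer_le_normalizer' (zpowers y) ((mem_centralizer_iff.mpr (by
        intro t ht
        obtain ⟨n, rfl⟩ := mem_zpowers_iff.mp ht
        exact (Commute.zpow_left (Commute.symm hcomm) n).eq)))
    have hXA₂ : X ≤ A.map (MulAut.conj w').toMonoidHom := by
      intro x hx
      rw [mem_conj_map]
      have h6 := (mem_centralizer_iff.mp hw'.2) x hx
      have e6 : w'⁻¹ * x * w' = x := by
        rw [mul_assoc, h6]
        group
      rw [e6]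
      exact hXA hx
    exact lemmaQ' hG hM hr hni hXM hX hQc hQσ (elem_conj_map hAe w')
      (by rw [Cfsg.Agent.Lib.Coprime.card_conj_map, hAc]) hXA₂ hA₂N

/-- An element of prime order acting without fixed points forces `M_σ` nilpotent. -/
theorem sigmaCore_nilpotent_of_fpf {M : Subgroup G} {a : G} {p : ℕ} (hp : p.Prime) (haM : a ∈ M) (hap : a ^ p = 1)
    (hf : sigmaCore M ⊓ centralizer ({a} : Set G) = ⊥) : Group.IsNilpotent (sigmaCore M) := by
  classical
  haveI : (piCore (sigma M) ↥M).Normal := piCore_normal _ _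
  have hk : (⟨a, haM⟩ : ↥M) ^ p = 1 := Subtype.ext hap
  have h1 := OddChar.nilpotent_of_fpf_element (piCore (sigma M) ↥M) (k := (⟨a, haM⟩ : ↥M)) hp hk
    (by
      intro h hh hc
      have hc' : a * (h : G) = h * a := congrArg Subtype.val hc
      have h2 : (h : G) ∈ sigmaCore M ⊓ centralizer ({a} : Set G) := by
        exact ⟨⟨h, hh, rfl⟩, mem_centralizer_singleton_iff.2 hc'.symm⟩
      rw [hf] at h2
      exact Subtype.ext (Subgroup.mem_bot.1 h2))
  exact isNilpotent_map_subtype h1

/-- **S1429**. -/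
theorem s1429_core {M : Subgroup G} {p : ℕ} [Fact p.Prime] (hG : IsMinSimpleOddOrder G) (hM : IsCoatom M)
    (hpM : p ∣ Nat.card M) (hp : p ∉ sigma M ∪ kappa M) (S : Sylow p M) :
    Nat.card ↥(closure {x : G | x ∈ (S : Subgroup M).map M.subtype ∧ x ^ p = 1}) ≤ p ^ 2 ∧
      sigmaCore M ⊓ centralizer ((closure {x : G | x ∈ (S : Subgroup M).map M.subtype ∧ x ^ p = 1} : Subgroup G) : Set G) = ⊥ ∧
      Group.IsNilpotent (sigmaCore M) := by
  classical
  have hpp : p.Prime := Fact.out
  have hpσ : p ∉ sigma M := fun h => hp (Or.inl h)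
  have hpκ : p ∉ kappa M := fun h => hp (Or.inr h)
  set S₀ := (S : Subgroup M).map M.subtype with hS₀
  have hS₀max : IsMaxP p S₀ M := isMaxP_of_sylow S
  set A := closure {x : G | x ∈ S₀ ∧ x ^ p = 1} with hA
  have hp2 : p ≠ 2 := prime_odd hG hpp (hpM.trans (Subgroup.card_subgroup_dvd_card M))
  by_cases hcyc : IsCyclic S₀
  · -- rank one
    have hAS : A ≤ S₀ := by
      rw [hA, closure_le]
      exact fun x hx => hx.1
    have hcomm : ∀ x ∈ S₀, ∀ y ∈ S₀, x * y = y * x := fun x hx y hy =>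
      comm_of_isCyclic hcyc hx hy
    have hAp : ∀ a ∈ A, a ^ p = 1 := by
      intro a ha
      induction ha using Subgroup.closure_induction with
      | mem x hx => exact hx.2
      | one => simp
      | mul x y hx hy h1 h2 =>
        have hc : Commute x y := hcomm x (hAS hx) y (hAS hy)
        rw [hc.mul_pow, h1, h2, one_mul]
      | inv x hx h1 =>
        rw [inv_pow, h1, inv_one]
    have hAe : IsElementaryAbelian p A := by
      refine ⟨⟨⟨?_⟩⟩, hAp⟩
      rintro ⟨a, ha⟩ ⟨b, hb⟩
      exact Subtype.ext (hcomm a (hAS ha) b (hAS hb))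
    have hAc : IsCyclic A := by
      have h2 : A.subgroupOf S₀ ≤ ⊤ := le_top
      haveI := hcyc
      have : IsCyclic ↥(A.subgroupOf S₀) := inferInstance
      exact isCyclic_of_surjective (subgroupOfEquivOfLe hAS).toMonoidHom (subgroupOfEquivOfLe hAS).surjective
    have hcard : Nat.card A ≤ p := card_le_of_cyclic_elem hAe hAc
    -- an element of order `p` in `S₀`
    have hS₀1 : (S : Subgroup M) ≠ ⊥ := S.ne_bot_of_dvd_card hpM
    have hS₀d : p ∣ Nat.card S₀ := by
      rw [Subgroup.card_map_of_injective M.subtype_injective]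
      obtain ⟨k, hk⟩ := IsPGroup.iff_card.mp S.isPGroup'
      have hk0 : k ≠ 0 := by
        rintro rfl
        exact hS₀1 ((Subgroup.eq_bot_iff_card _).mpr (by simpa using hk))
      rw [hk]
      exact dvd_pow_self p hk0
    obtain ⟨a', ha'⟩ := exists_prime_orderOf_dvd_card' (G := S₀) p hS₀d
    set a : G := (a' : G) with ha
    have haS : a ∈ S₀ := a'.2
    have hap : orderOf a = p := by
      rw [ha, Subgroup.orderOf_coe, ha']
    have ha1 : a ≠ 1 := by
      intro h
      rw [h, orderOf_one] at hap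
      exact hpp.one_lt.ne hap
    have haA : a ∈ A := subset_closure ⟨haS, by rw [← hap]; exact pow_orderOf_eq_one a⟩
    -- `κ`
    have hfix : sigmaCore M ⊓ centralizer ({a} : Set G) = ⊥ := by
      rw [eq_bot_iff]
      rintro y ⟨hyσ, hyC⟩
      by_contra hy1
      rw [mem_bot] at hy1
      apply hpκ
      refine ⟨hpp, hpM, hpσ, ?_⟩
      intro P
      have hPmax : IsMaxP p ((P : Subgroup M).map M.subtype) M := isMaxP_of_sylow P
      obtain ⟨n, hn, hnS⟩ := hS₀max.exists_conj_eq hPmax
      have hc1 : IsCyclic ↥(S₀.map (MulAut.conj n).toMonoidHom) :=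
        isCyclic_of_surjective ((MulAut.conj n).toMonoidHom.subgroupMap S₀) ((MulAut.conj n).toMonoidHom.subgroupMap_surjective S₀)
      constructor
      · rw [hnS] at hc1
        exact isCyclic_of_surjective (Subgroup.equivMapOfInjective (P : Subgroup M) M.subtype M.subtype_injective).symm.toMonoidHom
          (Subgroup.equivMapOfInjective (P : Subgroup M) M.subtype M.subtype_injective).symm.surjective
      · have h1 : n * a * n⁻¹ ∈ (P : Subgroup M).map M.subtype := by
          rw [← hnS]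
          exact conj_mem_conj_map S₀ n a haS
        obtain ⟨x, hx, ex⟩ := h1
        refine ⟨x, hx, ?_, n * y * n⁻¹, ?_, ?_, ?_⟩
        · intro h
          rw [h] at ex
          simp at ex
          apply ha1
          have e : a = n⁻¹ * (n * a * n⁻¹) * n := by group
          rw [e, ← ex]
          group
        · exact (mem_normalizer_iff.mp (le_normalizer_piCoreOf (sigma M) M hn) y).mp hyσ
        · intro h
          apply hy1
          have e : y = n⁻¹ * (n * y * n⁻¹) * n := by group
          rw [e, h]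
          group
        · have hcomm' : a * y = y * a := ((mem_centralizer_iff.mp hyC) a rfl)
          have ex' : (x : G) = n * a * n⁻¹ := ex
          rw [ex']
          calc n * a * n⁻¹ * (n * y * n⁻¹) = n * (a * y) * n⁻¹ := by group
            _ = n * (y * a) * n⁻¹ := by rw [hcomm']
            _ = n * y * n⁻¹ * (n * a * n⁻¹) := by group
    have hfixA : sigmaCore M ⊓ centralizer (A : Set G) = ⊥ := by
      rw [eq_bot_iff, ← hfix]
      apply inf_le_inf_left
      apply Subgroup.centralizer_le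
      exact Set.singleton_subset_iff.mpr haA
    have hA2 : Nat.card A ≤ p ^ 2 := hcard.trans (by
      rw [pow_two]
      exact Nat.le_mul_of_pos_left p hpp.pos)
    exact ⟨hA2, hfixA, sigmaCore_nilpotent_of_fpf hpp (hS₀max.le haS) (by rw [← hap]; exact pow_orderOf_eq_one a) hfix⟩
  · -- rank two
    have hSnc := hcyc
    obtain ⟨A₂, hA₂S, hA₂e, hA₂c⟩ := exists_e2_of_not_cyclic hG hS₀max.isP hSnc
    have T : Tau2Setup p A₂ M := Tau2Setup.mk' hG (huniq13 hG) (fun r _ K hK => hpl13 hG r K hK) hM (hA₂S.trans hS₀max.le) hA₂e hA₂c hpσ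
    have heq : A = A₂ := by
      apply le_antisymm
      · rw [hA, closure_le]
        rintro x ⟨hx, hxp⟩
        exact (T.omega_iff hS₀max hA₂S hx).mp hxp
      · intro x hx
        exact subset_closure ⟨hA₂S hx, (T.omega_iff hS₀max hA₂S (hA₂S hx)).mpr hx⟩
    rw [heq, hA₂c]
    exact ⟨le_rfl, T.d, T.nil⟩

end Cfsg.Agent.Lib.FT
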