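import Cfsg.Agent.Lib.FT.BG13d

/-!
BG section 12, tail (lead): preliminaries for S1423: generation by centralizers modulo a central subgroup,
normal complements.
-/

set_option autoImplicit false
set_option linter.unusedSectionVars false
set_option linter.style.haveILetI false

namespace Cfsg.Agent.Lib.FT

open Subgroup Cfsg Cfsg.Agent.Lib.OddLocal Cfsg.Agent.Lib.Basic

open Cfsg.Agent.Lib.Coprime (mem_conj_map conj_mem_conj_map conj_map_conj_map conj_map_one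
  conj_map_mono mem_normalizer_of_conj_le conj_map_eq_iff_mem_normalizer isPGroup_conj_map)

open scoped commutatorElement

/-- Generation by centralizers for a group `F` acting coprimely on `K`, where `F` is abelian modulo a central subgroup
`Z`, provided `F/Z` is noncyclic. -/
theorem gen_mod_central {Y : Type*} [Group Y] [Finite Y] {Z F K M₀ : Subgroup Y} [hZn : Z.Normal]
    (hFK : F ≤ normalizer (K : Set Y)) (hcop : (Nat.card F).Coprime (Nat.card K))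
    (hcomm : ∀ f₁ ∈ F, ∀ f₂ ∈ F, f₁ * f₂ * f₁⁻¹ * f₂⁻¹ ∈ Z)
    (hZc : ∀ z ∈ Z, ∀ f ∈ F, z * f = f * z) (hnab : ∃ f₁ ∈ F, ∃ f₂ ∈ F, f₁ * f₂ ≠ f₂ * f₁)
    (hZK : Z ⊓ K = ⊥) (hfix : ∀ f ∈ F, f ∉ Z → K ⊓ centralizer ({f} : Set Y) ≤ M₀) : K ≤ M₀ := by
  classical
  let π : Y →* Y ⧸ Z := QuotientGroup.mk' Z
  have hπ : ∀ x : Y, π x = 1 ↔ x ∈ Z := fun x => QuotientGroup.eq_one_iff x
  set A := F.map π with hA
  set K' := K.map π with hK'
  haveI hAc : IsMulCommutative A := by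
    refine ⟨⟨?_⟩⟩
    rintro ⟨_, f₁, h₁, rfl⟩ ⟨_, f₂, h₂, rfl⟩
    apply Subtype.ext
    have h3 : π (f₁ * f₂ * f₁⁻¹ * f₂⁻¹) = 1 := (hπ _).mpr (hcomm f₁ h₁ f₂ h₂)
    rw [map_mul, map_mul, map_mul, map_inv, map_inv] at h3
    have e := mul_inv_eq_one.mp h3
    exact mul_inv_eq_iff_eq_mul.mp e
  have hAnc : ¬ IsCyclic A := by
    intro hc
    obtain ⟨g, hg⟩ := IsCyclic.exists_generator (α := A)
    obtain ⟨f₀, hf₀, hf₀g⟩ := g.2
    have hdecomp : ∀ f ∈ F, ∃ k : ℤ, ∃ z ∈ Z, f = f₀ ^ k * z := by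
      intro f hf
      have hm : (⟨π f, f, hf, rfl⟩ : A) ∈ zpowers g := hg _
      obtain ⟨k, hk⟩ := mem_zpowers_iff.mp hm
      have h1 : (g : Y ⧸ Z) ^ k = π f := congrArg Subtype.val hk
      rw [← hf₀g, ← map_zpow] at h1
      refine ⟨k, (f₀ ^ k)⁻¹ * f, ?_, by group⟩
      rw [← hπ, map_mul, map_inv, h1, inv_mul_cancel]
    obtain ⟨f₁, h₁, f₂, h₂, hne⟩ := hnab
    obtain ⟨a, z₁, hz₁, e₁⟩ := hdecomp f₁ h₁
    obtain ⟨b, z₂, hz₂, e₂⟩ := hdecomp f₂ h₂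
    apply hne
    have hfa : f₀ ^ a ∈ F := F.zpow_mem hf₀ a
    have hfb : f₀ ^ b ∈ F := F.zpow_mem hf₀ b
    have hz₁F : z₁ ∈ F := by
      have : z₁ = (f₀ ^ a)⁻¹ * f₁ := by
        rw [e₁]
        group
      rw [this]
      exact F.mul_mem (F.inv_mem hfa) h₁
    have c1 : z₁ * f₀ ^ b = f₀ ^ b * z₁ := hZc z₁ hz₁ _ hfb
    have c2 : z₂ * f₀ ^ a = f₀ ^ a * z₂ := hZc z₂ hz₂ _ hfa
    have c3 : z₂ * z₁ = z₁ * z₂ := hZc z₂ hz₂ _ hz₁F
    rw [e₁, e₂]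
    calc f₀ ^ a * z₁ * (f₀ ^ b * z₂) = f₀ ^ a * (z₁ * f₀ ^ b) * z₂ := by group
      _ = f₀ ^ a * (f₀ ^ b * z₁) * z₂ := by rw [c1]
      _ = f₀ ^ (a + b) * (z₁ * z₂) := by
        rw [zpow_add]
        group
      _ = f₀ ^ (b + a) * (z₂ * z₁) := by rw [c3, add_comm]
      _ = f₀ ^ b * (f₀ ^ a * z₂) * z₁ := by
        rw [zpow_add]
        group
      _ = f₀ ^ b * (z₂ * f₀ ^ a) * z₁ := by rw [c2]
      _ = f₀ ^ b * z₂ * (f₀ ^ a * z₁) := by group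
  have hAK : A ≤ normalizer (K' : Set (Y ⧸ Z)) := by
    rintro _ ⟨f, hf, rfl⟩
    rw [mem_normalizer_iff]
    intro x
    constructor
    · rintro ⟨k, hk, rfl⟩
      refine ⟨f * k * f⁻¹, (mem_normalizer_iff.mp (hFK hf) k).mp hk, ?_⟩
      simp [map_mul]
    · rintro ⟨k, hk, e⟩
      refine ⟨f⁻¹ * k * f, ?_, ?_⟩
      · have := (mem_normalizer_iff.mp ((normalizer (K : Set Y)).inv_mem (hFK hf)) k).mp hk
        simpa using this
      · have e' : π k = π f * x * (π f)⁻¹ := e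
        simp only [map_mul, map_inv, e']
        group
  have hcop' : (Nat.card A).Coprime (Nat.card K') := by
    have d1 : Nat.card A ∣ Nat.card F :=
      Subgroup.card_dvd_of_surjective (π.subgroupMap F) (π.subgroupMap_surjective F)
    have d2 : Nat.card K' ∣ Nat.card K :=
      Subgroup.card_dvd_of_surjective (π.subgroupMap K) (π.subgroupMap_surjective K)
    exact Nat.Coprime.coprime_dvd_left d1 (Nat.Coprime.coprime_dvd_right d2 hcop)
  have hgen := generation_by_centralizers A K' hAnc hAK hcop'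
  have hle : K' ≤ (K ⊓ M₀).map π := by
    rw [← hgen]
    refine iSup₂_le ?_
    rintro a ⟨⟨f, hf, rfl⟩, ha1⟩ _ ⟨⟨k, hk, rfl⟩, hc⟩
    have hfZ : f ∉ Z := fun h => ha1 ((hπ f).mpr h)
    have h1 : π f * π k = π k * π f := (mem_centralizer_iff.mp hc) _ rfl
    have h2 : f * k * f⁻¹ * k⁻¹ ∈ Z := by
      rw [← hπ, map_mul, map_mul, map_mul, map_inv, map_inv, h1]
      group
    have h3 : f * k * f⁻¹ * k⁻¹ ∈ K :=
      K.mul_mem ((mem_normalizer_iff.mp (hFK hf) k).mp hk) (K.inv_mem hk)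
    have h4 : f * k * f⁻¹ * k⁻¹ ∈ Z ⊓ K := ⟨h2, h3⟩
    rw [hZK, mem_bot] at h4
    have e := mul_inv_eq_one.mp h4
    have e2 : f * k = k * f := mul_inv_eq_iff_eq_mul.mp e
    have h5 : k ∈ K ⊓ centralizer ({f} : Set Y) := ⟨hk, mem_centralizer_singleton_iff.mpr e2.symm⟩
    exact ⟨k, ⟨hk, hfix f hf hfZ h5⟩, rfl⟩
  intro k hk
  obtain ⟨k₀, ⟨hk₀, hk₀M⟩, e⟩ := hle (⟨k, hk, rfl⟩ : π k ∈ K')
  have h1 : k₀⁻¹ * k ∈ Z := by
    rw [← hπ, map_mul, map_inv, e, inv_mul_cancel]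
  have h2 : k₀⁻¹ * k ∈ Z ⊓ K := ⟨h1, K.mul_mem (K.inv_mem hk₀) hk⟩
  rw [hZK, mem_bot] at h2
  have e3 : k = k₀ := by
    have := inv_mul_eq_one.mp h2
    exact this.symm
  rwa [e3]

variable {G : Type*} [Group G] [Finite G]

/-- Commutators modulo a normal subgroup complemented by `P`. -/
theorem commutator_le_sup_of_factor {K Y P : Subgroup G} (hYK : Y ≤ K) (hn : K ≤ normalizer (Y : Set G)) (hPK : P ≤ K)
    (hf : ∀ u ∈ K, ∃ y ∈ Y, ∃ v ∈ P, u = y * v) : ⁅K, K⁆ ≤ Y ⊔ ⁅P, P⁆ := by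
  classical
  rw [Subgroup.commutator_le]
  intro u hu v hv
  obtain ⟨y₁, hy₁, a, ha, rfl⟩ := hf u hu
  obtain ⟨y₂, hy₂, b, hb, rfl⟩ := hf v hv
  have hconj : ∀ (t y : G), t ∈ K → y ∈ Y → t * y * t⁻¹ ∈ Y := fun t y ht hy =>
    (mem_normalizer_iff.mp (hn ht) y).mp hy
  have haK := hPK ha
  have hbK := hPK hb
  have hy₁K := hYK hy₁
  have hy₂K := hYK hy₂
  -- the commutator of `a`, `b` times an element of `Y`
  have hc : ⁅a, b⁆ ∈ ⁅P, P⁆ := Subgroup.commutator_mem_commutator ha hb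
  have e : ⁅y₁ * a, y₂ * b⁆ =
      (y₁ * (a * y₂ * a⁻¹) * ((a * b * a⁻¹) * y₁⁻¹ * (a * b * a⁻¹)⁻¹) * (⁅a, b⁆ * y₂⁻¹ * ⁅a, b⁆⁻¹)) * ⁅a, b⁆ := by
    simp only [commutatorElement_def]
    group
  rw [e]
  have hdK : a * b * a⁻¹ ∈ K := K.mul_mem (K.mul_mem haK hbK) (K.inv_mem haK)
  have hcK : ⁅a, b⁆ ∈ K := by
    simp only [commutatorElement_def]
    exact K.mul_mem hdK (K.inv_mem hbK)
  apply Subgroup.mul_mem _ _ (mem_sup_right hc)
  apply mem_sup_left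
  exact Y.mul_mem (Y.mul_mem (Y.mul_mem hy₁ (hconj a y₂ haK hy₂)) (hconj _ _ hdK (Y.inv_mem hy₁))) (hconj _ _ hcK (Y.inv_mem hy₂))

/-- The normal `p`-complement of a subgroup, and its factorization with a given Sylow subgroup. -/
theorem exists_complement_factor {K P : Subgroup G} {r : ℕ} [Fact r.Prime] (h : HasNormalPComplement r ↥K) (hP : IsMaxP r P K) :
    ∃ Y : Subgroup G, Y ≤ K ∧ K ≤ normalizer (Y : Set G) ∧ (Nat.card Y).Coprime r ∧
      (∀ x ∈ K, (orderOf x).Coprime r → x ∈ Y) ∧ ∀ u ∈ K, ∃ y ∈ Y, ∃ v ∈ P, u = y * v := by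
  classical
  obtain ⟨P₀, N, hN, hc⟩ := h
  have hcardN : Nat.card N = (P₀ : Subgroup K).index := hc.index_eq_card.symm
  have hNc : (Nat.card N).Coprime r := by
    rw [hcardN, Nat.coprime_comm, Nat.Prime.coprime_iff_not_dvd Fact.out]
    exact P₀.not_dvd_index
  obtain ⟨k, hk⟩ := IsPGroup.iff_card.1 P₀.isPGroup'
  have hNidx : N.index = r ^ k := by
    rw [← hk]
    exact hc.symm.index_eq_card
  refine ⟨N.map K.subtype, Subgroup.map_subtype_le _, ?_, ?_, ?_, ?_⟩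
  · intro t ht
    apply mem_normalizer_of_conj_le
    rintro _ ⟨e, he, rfl⟩
    exact ⟨_, hN.conj_mem e he ⟨t, ht⟩, by simp⟩
  · rwa [Subgroup.card_map_of_injective K.subtype_injective]
  · intro x hx hxc
    have hm : (⟨x, hx⟩ : ↥K) ∈ N := by
      rw [← QuotientGroup.eq_one_iff]
      have h1 : orderOf (((⟨x, hx⟩ : ↥K) : ↥K ⧸ N)) ∣ r ^ k := by
        rw [← hNidx, Subgroup.index_eq_card]
        exact orderOf_dvd_natCard _
      have h2 : orderOf (((⟨x, hx⟩ : ↥K) : ↥K ⧸ N)) ∣ orderOf x := by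
        have := orderOf_map_dvd (QuotientGroup.mk' N) (⟨x, hx⟩ : ↥K)
        rwa [Subgroup.orderOf_mk] at this
      have h3 : (orderOf x).Coprime (r ^ k) := Nat.Coprime.pow_right k hxc
      exact orderOf_eq_one_iff.1 (Nat.eq_one_of_dvd_coprimes h3 h2 h1)
    exact ⟨_, hm, rfl⟩
  · intro u hu
    have hPc : Nat.card (P.subgroupOf K) = Nat.card (P₀ : Subgroup K) := by
      have h1 : Nat.card (hP.toSylow : Subgroup K) = Nat.card (P₀ : Subgroup K) := by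
        rw [Sylow.card_eq_multiplicity, Sylow.card_eq_multiplicity]
      exact h1
    have hcomp : IsComplement' N (P.subgroupOf K) := by
      apply isComplement'_of_coprime
      · rw [hPc]
        exact hc.card_mul_card
      · rw [hPc, hk]
        exact Nat.Coprime.pow_right k hNc
    obtain ⟨⟨n, v⟩, hnv⟩ := hcomp.2 ⟨u, hu⟩
    refine ⟨((n : ↥K) : G), ⟨n, n.2, rfl⟩, ((v : ↥K) : G), v.2, ?_⟩
    exact (congrArg Subtype.val hnv).symm

end Cfsg.Agent.Lib.FT
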