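import Cfsg.Agent.Lib.FT.BG13e

/-!
BG section 12, tail (lead): S1423: `p ∈ β(M)` or `X ≤ M_σ'` gives `C_G(X) ≤ M` uniquely.
-/

set_option autoImplicit false
set_option linter.unusedSectionVars false
set_option linter.style.haveILetI false

namespace Cfsg.Agent.Lib.FT

open Subgroup Cfsg Cfsg.Agent.Lib.OddLocal Cfsg.Agent.Lib.Basic

open Cfsg.Agent.Lib.Coprime (mem_conj_map conj_mem_conj_map conj_map_conj_map conj_map_one
  conj_map_mono mem_normalizer_of_conj_le conj_map_eq_iff_mem_normalizer isPGroup_conj_map)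

open scoped commutatorElement

variable {G : Type*} [Group G] [Finite G]

section

variable {p : ℕ} [Fact p.Prime]

/-- Structure of a nonabelian group of order `p³`. -/
theorem center_of_card_cube {E₁ : Subgroup G} (hE : Nat.card E₁ = p ^ 3) (hna : ¬ IsMulCommutative E₁) :
    Nat.card ↥(E₁ ⊓ centralizer (E₁ : Set G)) = p ∧
      ∀ f₁ ∈ E₁, ∀ f₂ ∈ E₁, f₁ * f₂ * f₁⁻¹ * f₂⁻¹ ∈ E₁ ⊓ centralizer (E₁ : Set G) := by
  classical
  have hpp : p.Prime := Fact.out
  have hEp : IsPGroup p E₁ := IsPGroup.of_card hE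
  haveI : Nontrivial ↥E₁ := by
    apply Finite.one_lt_card_iff_nontrivial.mp
    rw [hE]
    exact Nat.one_lt_pow (by norm_num) hpp.one_lt
  -- the center inside `G`
  have hmap : (Subgroup.center ↥E₁).map E₁.subtype = E₁ ⊓ centralizer (E₁ : Set G) := by
    ext x
    constructor
    · rintro ⟨⟨y, hy⟩, hc, rfl⟩
      refine ⟨hy, (mem_centralizer_iff (g := y) (s := (E₁ : Set G))).mpr ?_⟩
      intro t ht
      have := (Subgroup.mem_center_iff.mp hc) ⟨t, ht⟩
      exact congrArg Subtype.val this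
    · rintro ⟨hx, hc⟩
      refine ⟨⟨x, hx⟩, Subgroup.mem_center_iff.mpr ?_, rfl⟩
      rintro ⟨t, ht⟩
      exact Subtype.ext ((mem_centralizer_iff.mp hc) t ht)
  have hcard : Nat.card ↥(E₁ ⊓ centralizer (E₁ : Set G)) = Nat.card (Subgroup.center ↥E₁) := by
    rw [← hmap, Subgroup.card_map_of_injective E₁.subtype_injective]
  -- not commutative
  have hnc : ∃ a b : ↥E₁, a * b ≠ b * a := by
    by_contra hcon
    push Not at hcon
    exact hna ⟨⟨fun a b => hcon a b⟩⟩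
  have hZ1 : Nontrivial (Subgroup.center ↥E₁) := hEp.center_nontrivial
  obtain ⟨k, hk⟩ := IsPGroup.iff_card.mp (hEp.to_subgroup (Subgroup.center ↥E₁))
  have hd : Nat.card (Subgroup.center ↥E₁) * (Subgroup.center ↥E₁).index = p ^ 3 := by
    rw [Subgroup.card_mul_index, hE]
  have hk3 : k ≤ 3 := by
    have h1 : p ^ k ∣ p ^ 3 := ⟨_, by rw [← hk]; exact hd.symm⟩
    exact (Nat.pow_dvd_pow_iff_le_right hpp.one_lt).mp h1
  have hk0 : k ≠ 0 := by
    rintro rfl
    rw [pow_zero] at hk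
    exact (Finite.one_lt_card_iff_nontrivial.mpr hZ1).ne' hk
  have hidx : (Subgroup.center ↥E₁).index = p ^ (3 - k) := by
    have h1 : p ^ k * (Subgroup.center ↥E₁).index = p ^ k * p ^ (3 - k) := by
      rw [← hk, hd, hk, ← pow_add]
      congr 1
      omega
    exact Nat.eq_of_mul_eq_mul_left (pow_pos hpp.pos k) h1
  have hk1 : k = 1 := by
    by_contra hne
    obtain ⟨a, b, hab⟩ := hnc
    apply hab
    -- cyclic quotient
    have hq : IsCyclic (↥E₁ ⧸ Subgroup.center ↥E₁) := by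
      have hq1 : Nat.card (↥E₁ ⧸ Subgroup.center ↥E₁) = (Subgroup.center ↥E₁).index := rfl
      have hcases : k = 2 ∨ k = 3 := by omega
      rcases hcases with rfl | rfl
      · have : Nat.card (↥E₁ ⧸ Subgroup.center ↥E₁) = p := by
          rw [hq1, hidx]
          norm_num
        haveI : Fact (Nat.card (↥E₁ ⧸ Subgroup.center ↥E₁)).Prime := ⟨this ▸ hpp⟩
        exact isCyclic_of_prime_card rfl
      · have : Nat.card (↥E₁ ⧸ Subgroup.center ↥E₁) = 1 := by
          rw [hq1, hidx]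
          norm_num
        have hs := Nat.card_eq_one_iff_unique.mp this
        haveI := hs.1
        exact isCyclic_of_subsingleton
    have hker : (QuotientGroup.mk' (Subgroup.center ↥E₁)).ker ≤ Subgroup.center ↥E₁ := by
      rw [QuotientGroup.ker_mk']
    exact commutative_of_cyclic_center_quotient (QuotientGroup.mk' (Subgroup.center ↥E₁)) hker a b
  subst hk1
  refine ⟨by rw [hcard, hk, pow_one], ?_⟩
  -- commutators
  have hq2 : Nat.card (↥E₁ ⧸ Subgroup.center ↥E₁) = p ^ 2 := by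
    change (Subgroup.center ↥E₁).index = p ^ 2
    rw [hidx]
  have hqc := IsPGroup.commutative_of_card_eq_prime_sq hq2
  intro f₁ h₁ f₂ h₂
  rw [← hmap]
  refine ⟨⟨f₁, h₁⟩ * ⟨f₂, h₂⟩ * ⟨f₁, h₁⟩⁻¹ * ⟨f₂, h₂⟩⁻¹, (QuotientGroup.eq_one_iff _).mp ?_, rfl⟩
  simp only [QuotientGroup.mk_mul, QuotientGroup.mk_inv]
  rw [hqc ((⟨f₁, h₁⟩ : ↥E₁) : ↥E₁ ⧸ Subgroup.center ↥E₁) ((⟨f₂, h₂⟩ : ↥E₁) : ↥E₁ ⧸ Subgroup.center ↥E₁)]
  group

/-- `Z ⊔ ⟨f⟩` is elementary abelian of order `p²`. -/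
theorem elem_sup_zpowers {Z : Subgroup G} {f : G} (hZ : Nat.card Z = p) (hfp : f ^ p = 1) (hfZ : f ∉ Z)
    (hc : ∀ z ∈ Z, z * f = f * z) :
    IsElementaryAbelian p (Z ⊔ zpowers f) ∧ Nat.card ↥(Z ⊔ zpowers f) = p ^ 2 := by
  classical
  have hpp : p.Prime := Fact.out
  haveI : Fact (Nat.card Z).Prime := ⟨by rw [hZ]; exact hpp⟩
  have hZcyc : IsCyclic Z := isCyclic_of_prime_card rfl
  have hZcomm : ∀ a ∈ Z, ∀ b ∈ Z, a * b = b * a := fun a ha b hb => comm_of_isCyclic hZcyc ha hb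
  have hf1 : f ≠ 1 := fun h => hfZ (h ▸ Z.one_mem)
  have hfo : orderOf f = p := orderOf_eq_prime hfp hf1
  have hZp : ∀ a ∈ Z, a ^ p = 1 := fun a ha => by
    have h1 : ((⟨a, ha⟩ : Z) : G) ^ Nat.card Z = 1 := by
      rw [← Subgroup.coe_pow, pow_card_eq_one']
      rfl
    rwa [hZ] at h1
  have hc2 : ∀ a ∈ Z, ∀ b ∈ zpowers f, a * b = b * a := by
    intro a ha b hb
    obtain ⟨n, rfl⟩ := mem_zpowers_iff.mp hb
    exact (Commute.zpow_right (hc a ha : Commute a f) n).eq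
  have hinf : Z ⊓ zpowers f = ⊥ := by
    rw [eq_bot_iff]
    rintro w ⟨hwZ, hwf⟩
    rw [mem_bot]
    by_contra hw1
    apply hfZ
    have hwo : orderOf w = p := orderOf_eq_prime (hZp w hwZ) hw1
    have hle : zpowers w ≤ zpowers f := zpowers_le.mpr hwf
    have heq : zpowers w = zpowers f := Subgroup.eq_of_le_of_card_ge hle (by
      rw [Nat.card_zpowers, Nat.card_zpowers, hwo, hfo])
    have hfw : f ∈ zpowers w := heq ▸ mem_zpowers f
    exact (zpowers_le.mpr hwZ) hfw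
  have hZN : zpowers f ≤ normalizer (Z : Set G) := by
    intro b hb
    apply centralizer_le_normalizer' Z
    rw [mem_centralizer_iff]
    exact fun a ha => hc2 a ha b hb
  have hcard : Nat.card ↥(Z ⊔ zpowers f) = p ^ 2 := by
    have h1 := card_sup_mul_card_inf hZN
    rw [hinf, Subgroup.card_bot, mul_one, hZ, Nat.card_zpowers, hfo] at h1
    rw [h1, pow_two]
  refine ⟨⟨⟨⟨?_⟩⟩, ?_⟩, hcard⟩
  · rintro ⟨x, hx⟩ ⟨y, hy⟩
    apply Subtype.ext
    obtain ⟨a, ha, b, hb, rfl⟩ := exists_mul_of_mem_sup_of_commute hc2 hx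
    obtain ⟨a', ha', b', hb', rfl⟩ := exists_mul_of_mem_sup_of_commute hc2 hy
    have c1 := hZcomm a ha a' ha'
    have c2 := hc2 a ha b' hb'
    have c3 := hc2 a' ha' b hb
    have c4 : b * b' = b' * b := by
      obtain ⟨m, rfl⟩ := mem_zpowers_iff.mp hb
      obtain ⟨n, rfl⟩ := mem_zpowers_iff.mp hb'
      exact (Commute.zpow_zpow_self f m n).eq
    change a * b * (a' * b') = a' * b' * (a * b)
    calc a * b * (a' * b') = a * (b * a') * b' := by group
      _ = a * (a' * b) * b' := by rw [c3]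
      _ = (a * a') * (b * b') := by group
      _ = (a' * a) * (b' * b) := by rw [c1, c4]
      _ = a' * (a * b') * b := by group
      _ = a' * (b' * a) * b := by rw [c2]
      _ = a' * b' * (a * b) := by group
  · intro x hx
    obtain ⟨a, ha, b, hb, rfl⟩ := exists_mul_of_mem_sup_of_commute hc2 hx
    have hb1 : b ^ p = 1 := by
      obtain ⟨n, rfl⟩ := mem_zpowers_iff.mp hb
      rw [← zpow_natCast, ← zpow_mul, mul_comm, zpow_mul, zpow_natCast, hfp, one_zpow]
    rw [(show Commute a b from hc2 a ha b hb).mul_pow, hZp a ha, hb1, one_mul]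

/-- The good subgroup, containing the derived subgroup. -/
theorem exists_good_sub' (hG : IsMinSimpleOddOrder G) {Q : Subgroup G} (hQ : IsPGroup p Q) (hr : ¬ PRankLE p 2 Q)
    (hp2 : p ≠ 2) :
    ∃ T : Subgroup G, T ≤ Q ∧ (∀ y ∈ T, y ^ p = 1 → ¬ PRankLE p 2 ↥(Q ⊓ centralizer ({y} : Set G))) ∧ ⁅Q, Q⁆ ≤ T := by
  classical
  obtain ⟨T₀, hch, hr', hy, hidx⟩ := exists_good_char hp2 hQ hr
  haveI := hch
  refine ⟨T₀.map Q.subtype, map_subtype_le _, ?_, ?_⟩
  · rintro _ ⟨y₀, hy₀, rfl⟩ hyq h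
    have hyq' : y₀ ^ p = 1 := Subtype.ext hyq
    apply hy y₀ hy₀ hyq'
    let f : ↥(centralizer ({y₀} : Set ↥Q)) →* ↥(Q ⊓ centralizer ({(y₀ : G)} : Set G)) :=
      (Q.subtype.comp (centralizer ({y₀} : Set ↥Q)).subtype).codRestrict _ (by
        rintro ⟨x, hx⟩
        refine ⟨x.2, ?_⟩
        show ((x : G)) ∈ centralizer ({(y₀ : G)} : Set G)
        rw [mem_centralizer_singleton_iff]
        have := mem_centralizer_singleton_iff.1 hx
        exact congrArg Subtype.val this)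
    refine prank_of_injective f ?_ h
    intro a b hab
    apply Subtype.ext
    apply Subtype.ext
    exact congrArg (fun x : ↥(Q ⊓ centralizer ({(y₀ : G)} : Set G)) => (x : G)) hab
  · rcases hidx with rfl | hidx
    · intro x hx
      exact ⟨⟨x, Subgroup.commutator_le_self Q hx⟩, trivial, rfl⟩
    · have hcard : Nat.card (↥Q ⧸ T₀) = p := by
        rw [← hidx]
        rfl
      haveI : Fact (Nat.card (↥Q ⧸ T₀)).Prime := ⟨by rw [hcard]; exact Fact.out⟩
      haveI : IsCyclic (↥Q ⧸ T₀) := isCyclic_of_prime_card rfl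
      rw [Subgroup.commutator_le]
      intro g₁ h₁ g₂ h₂
      refine ⟨⁅(⟨g₁, h₁⟩ : ↥Q), (⟨g₂, h₂⟩ : ↥Q)⁆, ?_, rfl⟩
      apply (QuotientGroup.eq_one_iff _).mp
      simp only [commutatorElement_def, QuotientGroup.mk_mul, QuotientGroup.mk_inv]
      have hcc : ∀ x y : ↥Q ⧸ T₀, x * y = y * x := (IsCyclic.commGroup (α := ↥Q ⧸ T₀)).mul_comm
      rw [hcc ((⟨g₁, h₁⟩ : ↥Q) : ↥Q ⧸ T₀) ((⟨g₂, h₂⟩ : ↥Q) : ↥Q ⧸ T₀)]
      group

/-- Uniqueness from a subgroup of rank three in `M` centralizing `X`. -/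
theorem uniq_of_rank3 {M X B : Subgroup G} (hG : IsMinSimpleOddOrder G) (hM : IsCoatom M) (hX1 : X ≠ ⊥) (hXM : X ≤ M)
    (hBe : IsElementaryAbelian p B) (hBc : p ^ 2 < Nat.card B) (hBM : B ≤ M) (hBC : B ≤ centralizer (X : Set G)) :
    centralizer (X : Set G) ≤ M ∧ ∀ L : Subgroup G, IsCoatom L → centralizer (X : Set G) ≤ L → L = M := by
  classical
  have hpp : p.Prime := Fact.out
  have hXtop : X ≠ ⊤ := fun h => hM.1 (top_le_iff.1 (h ▸ hXM))
  have hNtop : normalizer (X : Set G) ≠ ⊤ := IsMinSimpleOddOrder.normalizer_ne_top hG hX1 hXtop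
  have hCtop : centralizer (X : Set G) ≠ ⊤ := fun h =>
    hNtop (top_le_iff.1 (h ▸ centralizer_le_normalizer' X))
  have hBtop : B ≠ ⊤ := fun h => hM.1 (top_le_iff.1 (h ▸ hBM))
  have hu1 := unique_of_prank (huniq13 hG) hpp hBtop (not_prank_of_ea le_rfl hBe hBc)
  have hu2 := unique_of_prank (huniq13 hG) hpp hCtop (not_prank_of_ea hBC hBe hBc)
  obtain ⟨N, ⟨hN, hCN⟩, huq⟩ := hu2
  have hNM : N = M := uniq_eq hu1 hN (hBC.trans hCN) hM hBM
  subst hNM
  exact ⟨hCN, fun L hL hCL => huq L ⟨hL, hCL⟩⟩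

/-- `N_G(P) ≤ M` for `P` maximal `p`-subgroup of `M`, `p ∈ σ(M)`. -/
theorem normalizer_le_of_isMaxP {M P : Subgroup G} (hp : p ∈ sigma M) (hP : IsMaxP p P M) : normalizer (P : Set G) ≤ M := by
  obtain ⟨S', e, hS'⟩ := sigma_sylow hp hP.toSylow
  have e2 : ((hP.toSylow : Subgroup ↥M).map M.subtype) = P := by
    change (P.subgroupOf M).map M.subtype = P
    exact Subgroup.map_subgroupOf_eq_of_le hP.le
  rw [e2] at e
  rw [← e]
  exact hS'

/-- If `M_σ` is nilpotent, `M` normalizes its maximal `p`-subgroups, for `p ∈ σ(M)`. -/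
theorem le_normalizer_of_sigma_nilpotent {M P : Subgroup G} (hG : IsMinSimpleOddOrder G) (hM : IsCoatom M)
    (hn : Group.IsNilpotent (sigmaCore M)) (hp : p ∈ sigma M) (hP : IsMaxP p P M) : M ≤ normalizer (P : Set G) := by
  classical
  have hPσ : P ≤ sigmaCore M := le_sigmaCore_of_isPGroup hG (huniq13 hG) hM hp hP.isP hP.le
  have hσM : sigmaCore M ≤ M := piCoreOf_le _ M
  have hmax : IsMaxP p P (sigmaCore M) := ⟨hPσ, hP.isP, fun D' h1 h2 h3 => hP.max D' (h1.trans hσM) h2 h3⟩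
  have hnorm := le_normalizer_of_isMaxP_of_nilpotent hn hmax
  intro h hh
  have hσn : M ≤ normalizer (sigmaCore M : Set G) := le_normalizer_piCoreOf (sigma M) M
  have hconj : P.map (MulAut.conj h).toMonoidHom ≤ sigmaCore M := by
    rintro _ ⟨x, hx, rfl⟩
    exact (mem_normalizer_iff.mp (hσn hh) x).mp (hPσ hx)
  obtain ⟨n, hn', hle⟩ := hmax.exists_conj_le hconj (isPGroup_conj_map hP.isP h)
  rw [conj_map_conj_map] at hle
  have e3 : P.map (MulAut.conj (n * h)).toMonoidHom = P := by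
    apply Subgroup.eq_of_le_of_card_ge hle
    rw [Cfsg.Agent.Lib.Coprime.card_conj_map]
  have h5 := (conj_map_eq_iff_mem_normalizer P (n * h)).mp e3
  have h6 := hnorm hn'
  have e4 : h = n⁻¹ * (n * h) := by group
  rw [e4]
  exact mul_mem (inv_mem h6) h5

/-- `gen_mod_central` inside `C_G(Z)`. -/
theorem le_of_gen_central {L Z F K M₀ : Subgroup G} (hLZ : L ≤ centralizer (Z : Set G)) (hZL : Z ≤ L) (hFL : F ≤ L) (hKL : K ≤ L)
    (hFK : F ≤ normalizer (K : Set G)) (hcop : (Nat.card F).Coprime (Nat.card K))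
    (hcomm : ∀ f₁ ∈ F, ∀ f₂ ∈ F, f₁ * f₂ * f₁⁻¹ * f₂⁻¹ ∈ Z) (hnab : ∃ f₁ ∈ F, ∃ f₂ ∈ F, f₁ * f₂ ≠ f₂ * f₁)
    (hZK : Z ⊓ K = ⊥) (hfix : ∀ f ∈ F, f ∉ Z → K ⊓ centralizer ({f} : Set G) ≤ M₀) : K ≤ M₀ := by
  classical
  haveI hZn : (Z.subgroupOf L).Normal := by
    constructor
    intro n hn g
    rw [Subgroup.mem_subgroupOf] at hn ⊢
    have h1 := (mem_centralizer_iff.mp (hLZ g.2)) (n : G) hn
    have e : ((g * n * g⁻¹ : ↥L) : G) = n := by
      change (g : G) * n * (g : G)⁻¹ = n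
      rw [← h1]
      group
    rw [e]
    exact hn
  have hmain : K.subgroupOf L ≤ M₀.subgroupOf L := by
    apply gen_mod_central (Z := Z.subgroupOf L) (F := F.subgroupOf L)
    · intro f hf
      rw [mem_normalizer_iff]
      intro x
      rw [Subgroup.mem_subgroupOf, Subgroup.mem_subgroupOf]
      exact mem_normalizer_iff.mp (hFK (Subgroup.mem_subgroupOf.mp hf)) x
    · rw [Nat.card_congr (Subgroup.subgroupOfEquivOfLe hFL).toEquiv, Nat.card_congr (Subgroup.subgroupOfEquivOfLe hKL).toEquiv]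
      exact hcop
    · intro f₁ h₁ f₂ h₂
      rw [Subgroup.mem_subgroupOf]
      exact hcomm _ (Subgroup.mem_subgroupOf.mp h₁) _ (Subgroup.mem_subgroupOf.mp h₂)
    · intro z hz f _
      apply Subtype.ext
      exact (mem_centralizer_iff.mp (hLZ f.2)) (z : G) (Subgroup.mem_subgroupOf.mp hz)
    · obtain ⟨f₁, h₁, f₂, h₂, hne⟩ := hnab
      exact ⟨⟨f₁, hFL h₁⟩, h₁, ⟨f₂, hFL h₂⟩, h₂, fun h => hne (congrArg Subtype.val h)⟩
    · rw [eq_bot_iff]
      rintro z ⟨h1, h2⟩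
      have h3 : (z : G) ∈ Z ⊓ K := ⟨h1, h2⟩
      rw [hZK, mem_bot] at h3
      exact Subtype.ext h3
    · intro f hf hfZ k hk
      obtain ⟨h1, h2⟩ := hk
      have h3 : (k : G) ∈ K ⊓ centralizer ({(f : G)} : Set G) := by
        refine ⟨h1, mem_centralizer_singleton_iff.mpr ?_⟩
        have := mem_centralizer_singleton_iff.mp h2
        exact congrArg Subtype.val this
      exact hfix f (Subgroup.mem_subgroupOf.mp hf) hfZ h3
  intro k hk
  exact hmain (Subgroup.mem_subgroupOf.mpr hk : (⟨k, hKL hk⟩ : ↥L) ∈ K.subgroupOf L)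

end

/-- The data of a nonabelian Sylow subgroup of rank two. -/
structure NonabData (p : ℕ) (P E₁ Z : Subgroup G) : Prop where
  hG : IsMinSimpleOddOrder G
  hPm : IsMaxP p P ⊤
  hr : PRankLE p 2 ↥P
  hE₁P : E₁ ≤ P
  hE₁c : Nat.card E₁ = p ^ 3
  hna : ¬ IsMulCommutative E₁
  hexp : ∀ x ∈ E₁, x ^ p = 1
  hZ : Z = E₁ ⊓ centralizer (E₁ : Set G)
  hZP : Z ≤ centralizer (P : Set G)

namespace NonabData

variable {p : ℕ} [Fact p.Prime] {P E₁ Z : Subgroup G} (D : NonabData p P E₁ Z)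

include D

theorem hZc : Nat.card Z = p := by
  rw [D.hZ]
  exact (center_of_card_cube D.hE₁c D.hna).1

theorem comm_mem (f₁ f₂ : G) (h₁ : f₁ ∈ E₁) (h₂ : f₂ ∈ E₁) : f₁ * f₂ * f₁⁻¹ * f₂⁻¹ ∈ Z := by
  rw [D.hZ]
  exact (center_of_card_cube D.hE₁c D.hna).2 f₁ h₁ f₂ h₂

theorem hZE : Z ≤ E₁ := by
  rw [D.hZ]
  exact inf_le_left

theorem hZ1 : Z ≠ ⊥ := by
  intro h
  have := D.hZc
  rw [h] at this
  simp at this
  exact (Fact.out : p.Prime).one_lt.ne this

theorem hE₁p : IsPGroup p E₁ := IsPGroup.of_card D.hE₁c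

theorem hZp : IsPGroup p Z := D.hE₁p.to_le D.hZE

/-- An element outside `Z`, and the corresponding `E_{p²}`. -/
theorem exists_line : ∃ e ∈ E₁, e ∉ Z := by
  by_contra hcon
  push Not at hcon
  apply D.hna
  refine ⟨⟨?_⟩⟩
  rintro ⟨a, ha⟩ ⟨b, hb⟩
  apply Subtype.ext
  have h1 := hcon a ha
  rw [D.hZ] at h1
  exact ((mem_centralizer_iff.mp h1.2) b hb).symm

theorem elem_line {e : G} (he : e ∈ E₁) (heZ : e ∉ Z) :
    IsElementaryAbelian p (Z ⊔ zpowers e) ∧ Nat.card ↥(Z ⊔ zpowers e) = p ^ 2 := by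
  apply elem_sup_zpowers D.hZc (D.hexp e he) heZ
  intro z hz
  exact ((mem_centralizer_iff.mp (D.hZP hz)) e (D.hE₁P he)).symm

theorem line_le {e : G} (he : e ∈ E₁) : Z ⊔ zpowers e ≤ E₁ := sup_le D.hZE (zpowers_le.mpr he)

theorem sigma_of_le {H : Subgroup G} (hH : IsCoatom H) (hPH : P ≤ H) : p ∈ sigma H := by
  classical
  by_contra hσ
  have hG := D.hG
  obtain ⟨e, he, heZ⟩ := D.exists_line
  obtain ⟨hAe, hAc⟩ := D.elem_line he heZ
  have hAP := (D.line_le he).trans D.hE₁P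
  have T : Tau2Setup p (Z ⊔ zpowers e) H :=
    Tau2Setup.mk' hG (huniq13 hG) (fun r _ K hK => hpl13 hG r K hK) hH (hAP.trans hPH) hAe hAc hσ
  have hmax : IsMaxP p P H := ⟨hPH, D.hPm.isP, fun D' _ h2 h3 => D.hPm.max D' le_top h2 h3⟩
  have h1 := T.b_core hmax hAP
  apply heZ
  rw [D.hZ]
  refine ⟨he, (mem_centralizer_iff (g := e) (s := (E₁ : Set G))).mpr ?_⟩
  intro t ht
  have h2 := h1 (D.hE₁P ht)
  exact ((mem_centralizer_iff.mp h2) e (le_sup_right (a := Z) (mem_zpowers e))).symm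

theorem cent_le {H : Subgroup G} (hH : IsCoatom H) (hPH : P ≤ H) : centralizer (Z : Set G) ≤ H := by
  classical
  have hG := D.hG
  have hpp : p.Prime := Fact.out
  have hpH := D.sigma_of_le hH hPH
  have hZH : Z ≤ H := D.hZE.trans (D.hE₁P.trans hPH)
  have hZtop : Z ≠ ⊤ := fun h => hH.1 (top_le_iff.1 (h ▸ hZH))
  have hNtop : normalizer (Z : Set G) ≠ ⊤ := IsMinSimpleOddOrder.normalizer_ne_top hG D.hZ1 hZtop
  have hCtop : centralizer (Z : Set G) ≠ ⊤ := fun h =>
    hNtop (top_le_iff.1 (h ▸ centralizer_le_normalizer' Z))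
  have hPL : P ≤ centralizer (Z : Set G) := Subgroup.le_centralizer_iff.mp D.hZP
  have hYm : IsMaxP p P (centralizer (Z : Set G)) := ⟨hPL, D.hPm.isP, fun D' _ h2 h3 => D.hPm.max D' le_top h2 h3⟩
  have hHm : IsMaxP p P H := ⟨hPH, D.hPm.isP, fun D' _ h2 h3 => D.hPm.max D' le_top h2 h3⟩
  have hN := normalizer_le_of_isMaxP hpH hHm
  have hZL : Z ≤ centralizer (Z : Set G) := by
    intro z hz
    rw [mem_centralizer_iff]
    intro t ht
    exact (mem_centralizer_iff.mp (D.hZP hz)) t (D.hE₁P (D.hZE ht))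
  have hKc : (Nat.card (Oq' p (centralizer (Z : Set G)))).Coprime p := by
    exact Oq'_card_coprime p _
  have hKH : Oq' p (centralizer (Z : Set G)) ≤ H := by
    apply le_of_gen_central (L := centralizer (Z : Set G)) (Z := Z) (F := E₁) le_rfl hZL (D.hE₁P.trans hPL) (Oq'_le _ _)
    · exact (D.hE₁P.trans hPL).trans (le_normalizer_Oq' p _)
    · rw [D.hE₁c]
      exact Nat.Coprime.pow_left 3 (Nat.Coprime.symm hKc)
    · exact fun f₁ h₁ f₂ h₂ => D.comm_mem f₁ f₂ h₁ h₂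
    · obtain ⟨e, he, heZ⟩ := D.exists_line
      by_contra hcon
      push Not at hcon
      apply heZ
      rw [D.hZ]
      exact ⟨he, (mem_centralizer_iff (g := e) (s := (E₁ : Set G))).mpr (fun t ht => hcon t ht e he)⟩
    · exact eq_bot_of_isPGroup_of_coprime (r := p) (D.hZp.to_le inf_le_left) inf_le_right hKc
    · intro f hf hfZ k hk
      obtain ⟨hAe, hAc⟩ := D.elem_line hf hfZ
      have hAH := ((D.line_le hf).trans D.hE₁P).trans hPH
      have h1 := (s1416_core hG (huniq13 hG) (fun r _ K hK => hpl13 hG r K hK) H hH p _ ⟨hAH, hAe, hAc⟩).1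
      apply h1
      have hkZ : k ∈ centralizer (Z : Set G) := Oq'_le _ _ hk.1
      have hkf := mem_centralizer_singleton_iff.mp hk.2
      have h2 : Z ⊔ zpowers f ≤ centralizer ({k} : Set G) := by
        apply sup_le
        · intro z hz
          exact mem_centralizer_singleton_iff.mpr ((mem_centralizer_iff.mp hkZ) z hz)
        · rw [zpowers_le]
          exact mem_centralizer_singleton_iff.mpr hkf.symm
      exact (mem_centralizer_iff (g := k) (s := ((Z ⊔ zpowers f : Subgroup G) : Set G))).mpr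
        (fun a ha => (mem_centralizer_singleton_iff.mp (h2 ha)))
  intro d hd
  obtain ⟨n, hn, m, hm, rfl⟩ := frattini_Oq' hYm (hpl13 hG p _ hCtop) hd
  exact H.mul_mem (hKH hn) (hN hm.2)

theorem elem_card_le {B : Subgroup G} (hBe : IsElementaryAbelian p B) : Nat.card B ≤ p ^ 2 := by
  obtain ⟨n, -, hn⟩ := D.hPm.exists_conj_le (T := B) le_top (isPGroup_of_elem hBe)
  have h1 := card_le_of_prank D.hr (elem_conj_map hBe n) hn
  rwa [Cfsg.Agent.Lib.Coprime.card_conj_map] at h1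

/-- The setup attached to a line. -/
theorem setup_line {A : Subgroup G} (hAe : IsElementaryAbelian p A) (hAc : Nat.card A = p ^ 2) : E2Setup p A := by
  classical
  have hG := D.hG
  have hC2 : ∀ z ∈ centralizer (A : Set G), z ^ p = 1 ↔ z ∈ A := by
    intro z hz
    refine ⟨fun hzp => ?_, fun hzA => hAe.2 z hzA⟩
    have hzc : ∀ e ∈ A, z * e = e * z := fun e he => (Subgroup.mem_centralizer_iff.1 hz e he).symm
    have hE := isElementaryAbelian_sup_zpowers hAe hzp hzc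
    have h1 := D.elem_card_le hE
    have h2 : A ⊔ zpowers z = A := by
      symm
      apply Subgroup.eq_of_le_of_card_ge le_sup_left
      rw [hAc]
      exact h1
    rw [← h2]
    exact (le_sup_right : zpowers z ≤ A ⊔ zpowers z) (mem_zpowers z)
  have hAq : IsPGroup p A := isPGroup_of_elem hAe
  have hpd : p ∣ Nat.card G := by
    have : p ∣ Nat.card A := by
      rw [hAc]
      exact dvd_pow_self p (by norm_num)
    exact this.trans (Subgroup.card_subgroup_dvd_card A)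
  have hth := Cfsg.Agent.S1396.result hG p hpd A hAq hAe.1 (Or.inl ⟨hC2, fun H hH => hpl13 hG p H hH⟩)
  exact ⟨hG, huniq13 hG, fun r _ K hK => hpl13 hG r K hK, hAe, hAc, hth⟩

/-- **The key**: `M` is the unique maximal subgroup over `P`. -/
theorem unique_of_le {M H : Subgroup G} (hM : IsCoatom M) (hPM : P ≤ M) (hH : IsCoatom H) (hPH : P ≤ H) : H = M := by
  classical
  by_contra hne
  have hG := D.hG
  have hpp : p.Prime := Fact.out
  have hpM := D.sigma_of_le hM hPM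
  have hpH := D.sigma_of_le hH hPH
  have hCM := D.cent_le hM hPM
  have hCH := D.cent_le hH hPH
  obtain ⟨e, he, heZ⟩ := D.exists_line
  obtain ⟨hAe, hAc⟩ := D.elem_line he heZ
  set A := Z ⊔ zpowers e with hA
  have hAE : A ≤ E₁ := D.line_le he
  have hAP : A ≤ P := hAE.trans D.hE₁P
  have hAM : A ≤ M := hAP.trans hPM
  have hZH : Z ≤ H := D.hZE.trans (D.hE₁P.trans hPH)
  have hNZH : normalizer (Z : Set G) ≤ H := by
    rw [(s1404_core hG (huniq13 hG) hH hpH Z D.hZp D.hZ1 hZH).2]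
    exact sup_le inf_le_left hCH
  have hMm : IsMaxP p P M := ⟨hPM, D.hPm.isP, fun D' _ h2 h3 => D.hPm.max D' le_top h2 h3⟩
  have hHm : IsMaxP p P H := ⟨hPH, D.hPm.isP, fun D' _ h2 h3 => D.hPm.max D' le_top h2 h3⟩
  have hNH := normalizer_le_of_isMaxP hpH hHm
  have hNM := normalizer_le_of_isMaxP hpM hMm
  have h1416 := (s1416_core hG (huniq13 hG) (fun r _ K hK => hpl13 hG r K hK) M hM p A ⟨hAM, hAe, hAc⟩).2
  by_cases hall : ∀ A₀ : Subgroup G, A₀ ≤ A → Nat.card A₀ = p →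
      ¬ (normalizer (A₀ : Set G) ≤ M ∧ ∀ L : Subgroup G, IsCoatom L → normalizer (A₀ : Set G) ≤ L → L = M)
  · obtain ⟨-, -, hnil⟩ := h1416 hall
    have h2 := le_normalizer_of_sigma_nilpotent hG hM hnil hpM hMm
    exact coatom_not_le hM hH (Ne.symm hne) (h2.trans hNH)
  push Not at hall
  obtain ⟨A₀, hA₀A, hA₀c, hA₀N, hA₀u⟩ := hall
  have hA₀Z : A₀ ≠ Z := by
    rintro rfl
    exact hne (hA₀u H hH hNZH)
  -- a generator
  haveI : Fact (Nat.card A₀).Prime := ⟨by rw [hA₀c]; exact hpp⟩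
  obtain ⟨a₀', ha₀'⟩ := (isCyclic_of_prime_card (α := A₀) rfl).exists_generator
  set a₀ : G := (a₀' : G) with ha₀def
  have hA₀gen : A₀ = zpowers a₀ := by
    ext x
    constructor
    · intro hx
      obtain ⟨k, hk⟩ := mem_zpowers_iff.mp (ha₀' ⟨x, hx⟩)
      exact mem_zpowers_iff.mpr ⟨k, by simpa using congrArg Subtype.val hk⟩
    · intro hx
      exact (zpowers_le.mpr a₀'.2) hx
  have ha₀A : a₀ ∈ A := hA₀A a₀'.2
  have ha₀Z : a₀ ∉ Z := by
    intro h
    apply hA₀Z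
    apply Subgroup.eq_of_le_of_card_ge
    · rw [hA₀gen]
      exact zpowers_le.mpr h
    · rw [hA₀c, D.hZc]
  have hCa₀ : centralizer ({a₀} : Set G) ≤ M := by
    refine le_trans ?_ hA₀N
    intro c hc
    apply centralizer_le_normalizer' A₀
    rw [mem_centralizer_iff]
    intro t ht
    rw [hA₀gen] at ht
    obtain ⟨k, rfl⟩ := mem_zpowers_iff.mp ht
    have h2 : c * a₀ = a₀ * c := mem_centralizer_singleton_iff.mp hc
    exact (Commute.zpow_left (show Commute a₀ c from h2.symm) k).eq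
  have S := D.setup_line hAe hAc
  have hE₁A : E₁ ≤ normalizer (A : Set G) := by
    intro t ht
    apply mem_normalizer_of_conj_le
    intro x hx
    have h2 := D.comm_mem t x ht (hAE hx)
    have e2 : t * x * t⁻¹ = (t * x * t⁻¹ * x⁻¹) * x := by group
    rw [e2]
    exact A.mul_mem (le_sup_left (a := Z) h2) hx
  -- a generator of `Z`
  haveI : Fact (Nat.card Z).Prime := ⟨by rw [D.hZc]; exact hpp⟩
  obtain ⟨z₀', hz₀'⟩ := (isCyclic_of_prime_card (α := Z) rfl).exists_generator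
  set z₀ : G := (z₀' : G) with hz₀def
  have hZgen : Z = zpowers z₀ := by
    ext x
    constructor
    · intro hx
      obtain ⟨k, hk⟩ := mem_zpowers_iff.mp (hz₀' ⟨x, hx⟩)
      exact mem_zpowers_iff.mpr ⟨k, by simpa using congrArg Subtype.val hk⟩
    · intro hx
      exact (zpowers_le.mpr z₀'.2) hx
  have hz₀1 : z₀ ≠ 1 := by
    intro h
    apply D.hZ1
    rw [hZgen, h, zpowers_one_eq_bot]
  have hline : ∀ b ∈ A, b ≠ 1 → centralizer ({b} : Set G) ≤ M := by
    intro b hb hb1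
    by_cases hbZ : b ∈ Z
    · refine le_trans ?_ hCM
      intro c hc
      have hbo : orderOf b = p := orderOf_eq_prime (hAe.2 b hb) hb1
      have heq : zpowers b = Z := Subgroup.eq_of_le_of_card_ge (zpowers_le.mpr hbZ) (by
        rw [D.hZc, Nat.card_zpowers, hbo])
      rw [← heq, mem_centralizer_iff]
      intro t ht
      obtain ⟨k, rfl⟩ := mem_zpowers_iff.mp ht
      have h2 : c * b = b * c := mem_centralizer_singleton_iff.mp hc
      exact (Commute.zpow_left (show Commute b c from h2.symm) k).eq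
    · have hbz : b ∉ zpowers z₀ := fun h => hbZ (hZgen ▸ h)
      have ha₀z : a₀ ∉ zpowers z₀ := fun h => ha₀Z (hZgen ▸ h)
      obtain ⟨t, ht, ht1, ht2⟩ := S.exists_conj_line (P := E₁) D.hE₁p hAE hE₁A (z₀ := z₀) (b₀ := a₀) (b := b)
        (le_sup_left (a := Z) z₀'.2) hz₀1
        (by
          have : z₀ ∈ centralizer (P : Set G) := D.hZP z₀'.2
          exact Subgroup.centralizer_le D.hE₁P this)
        (by
          intro u hu huC
          rw [← hZgen, D.hZ]
          exact ⟨hAE hu, huC⟩)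
        ha₀A ha₀z hb hbz
      have h3 : centralizer ({t * a₀ * t⁻¹} : Set G) ≤ M.map (MulAut.conj t).toMonoidHom := cent_conj_le hCa₀
      rw [(conj_map_eq_iff_mem_normalizer M t).mpr (le_normalizer (D.hE₁P.trans hPM ht))] at h3
      refine le_trans ?_ h3
      intro c hc
      obtain ⟨k, hk⟩ := mem_zpowers_iff.mp ht1
      rw [← hk]
      have h2 : c * b = b * c := mem_centralizer_singleton_iff.mp hc
      exact mem_centralizer_singleton_iff.mpr (Commute.zpow_right (show Commute c b from h2) k).eq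
  have hr2 : PRankLE p 2 ↥H := hHm.prank_of D.hr
  have hβ : p ∉ beta H := fun h => h.1.2 hr2
  have hd : p ∣ Nat.card H := by
    have h1 : p ∣ Nat.card E₁ := by
      rw [D.hE₁c]
      exact dvd_pow_self p (by norm_num)
    exact h1.trans (Subgroup.card_dvd_of_le (D.hE₁P.trans hPH))
  obtain ⟨-, -, -, -, h5⟩ := s1414_core hG (huniq13 hG) hH (fun r _ _ => hpl13 hG r H hH.1)
  obtain ⟨-, h6, -⟩ := h5 p hpp hd hβ
  have hσH : sigmaCore H ≤ H := piCoreOf_le _ H
  have hσn : H ≤ normalizer (sigmaCore H : Set G) := le_normalizer_piCoreOf (sigma H) H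
  have hPσ : P ≤ sigmaCore H := le_sigmaCore_of_isPGroup hG (huniq13 hG) hH hpH D.hPm.isP hPH
  have hσmax : IsMaxP p P (sigmaCore H) := ⟨hPσ, D.hPm.isP, fun D' _ h2 h3 => D.hPm.max D' le_top h2 h3⟩
  obtain ⟨Y, hYK, hn, hc, -, hf⟩ := exists_complement_factor h6 hσmax
  haveI hAcomm : IsMulCommutative A := hAe.1
  have hAY : A ≤ normalizer (Y : Set G) := (hAP.trans hPσ).trans hn
  have hcopY : (Nat.card A).Coprime (Nat.card Y) := by
    rw [hAc]
    exact Nat.Coprime.pow_left 2 hc.symm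
  have hgen := generation_by_centralizers A Y S.not_cyclic hAY hcopY
  have hYM : Y ≤ M := by
    rw [← hgen]
    exact iSup₂_le fun a ha => inf_le_right.trans (hline a ha.1 ha.2)
  have hHM : H ≤ M := by
    intro h hh
    obtain ⟨d, hdσ, hdn⟩ := frattini_normal hσmax (hσn hh)
    obtain ⟨y, hy, v, hv, e⟩ := hf d hdσ
    have e2 : h = y * v * (d⁻¹ * h) := by
      rw [← e]
      group
    rw [e2]
    exact M.mul_mem (M.mul_mem (hYM hy) (hPM hv)) (hNM hdn)
  exact coatom_not_le hH hM hne hHM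

end NonabData

/-- In the rank two case, data from S1412. -/
theorem nonabData_of_struct {p : ℕ} [Fact p.Prime] {P P₁ P₂ : Subgroup G} (hG : IsMinSimpleOddOrder G) (hPm : IsMaxP p P ⊤) (hr : PRankLE p 2 ↥P)
    (hsup : P₁ ⊔ P₂ = P) (hcomm : ∀ a ∈ P₁, ∀ b ∈ P₂, a * b = b * a) (hna : ¬ IsMulCommutative P₁)
    (hc : Nat.card P₁ = p ^ 3) (hexp : Monoid.exponent P₁ = p) (hcyc : IsCyclic P₂)
    (hom : closure {x : G | x ∈ P₂ ∧ x ^ p = 1} = P₁ ⊓ centralizer (P₁ : Set G)) :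
    NonabData p P P₁ (P₁ ⊓ centralizer (P₁ : Set G)) ∧ ⁅P, P⁆ ≤ P₁ ⊓ centralizer (P₁ : Set G) := by
  classical
  have hP₁P : P₁ ≤ P := hsup ▸ le_sup_left
  have hP₂P : P₂ ≤ P := hsup ▸ le_sup_right
  have hZP₂ : P₁ ⊓ centralizer (P₁ : Set G) ≤ P₂ := by
    rw [← hom, closure_le]
    exact fun x hx => hx.1
  have hP₂c : ∀ a ∈ P₂, ∀ b ∈ P₂, a * b = b * a := fun a ha b hb => comm_of_isCyclic hcyc ha hb
  have hZc : P₁ ⊓ centralizer (P₁ : Set G) ≤ centralizer (P : Set G) := by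
    intro z hz
    have h1 : P ≤ centralizer ({z} : Set G) := by
      rw [← hsup]
      apply sup_le
      · intro t ht
        exact mem_centralizer_singleton_iff.mpr ((mem_centralizer_iff.mp hz.2) t ht)
      · intro t ht
        exact mem_centralizer_singleton_iff.mpr (hP₂c t ht z (hZP₂ hz))
    rw [mem_centralizer_iff]
    intro t ht
    exact mem_centralizer_singleton_iff.mp (h1 ht)
  refine ⟨⟨hG, hPm, hr, hP₁P, hc, hna, ?_, rfl, hZc⟩, ?_⟩
  · intro x hx
    have h1 := Monoid.pow_exponent_eq_one (⟨x, hx⟩ : P₁)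
    rw [hexp] at h1
    simpa using congrArg Subtype.val h1
  · rw [Subgroup.commutator_le]
    intro a ha b hb
    rw [← hsup] at ha hb
    obtain ⟨a₁, ha₁, a₂, ha₂, rfl⟩ := exists_mul_of_mem_sup_of_commute hcomm ha
    obtain ⟨b₁, hb₁, b₂, hb₂, rfl⟩ := exists_mul_of_mem_sup_of_commute hcomm hb
    have h1 := (center_of_card_cube hc hna).2 a₁ ha₁ b₁ hb₁
    have c1 := hcomm a₁ ha₁ b₂ hb₂
    have c2 := hcomm b₁ hb₁ a₂ ha₂
    have c3 := hP₂c a₂ ha₂ b₂ hb₂
    have e : ⁅a₁ * a₂, b₁ * b₂⁆ = a₁ * b₁ * a₁⁻¹ * b₁⁻¹ := by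
      have s1 : a₂ * (b₁ * b₂) * a₂⁻¹ = b₁ * b₂ := by
        rw [mul_inv_eq_iff_eq_mul, ← mul_assoc, ← c2, mul_assoc, c3, ← mul_assoc, mul_assoc b₁]
      have s2 : b₂ * a₁⁻¹ * b₂⁻¹ = a₁⁻¹ := by
        have hc' : Commute a₁ b₂ := c1
        rw [mul_inv_eq_iff_eq_mul]
        exact (hc'.inv_left).eq.symm
      calc ⁅a₁ * a₂, b₁ * b₂⁆ = a₁ * (a₂ * (b₁ * b₂) * a₂⁻¹) * a₁⁻¹ * b₂⁻¹ * b₁⁻¹ := by
            simp only [commutatorElement_def]
            group
        _ = a₁ * (b₁ * (b₂ * a₁⁻¹ * b₂⁻¹)) * b₁⁻¹ := by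
            rw [s1]
            group
        _ = a₁ * b₁ * a₁⁻¹ * b₁⁻¹ := by
            rw [s2]
            group
    rw [e]
    exact h1

section

variable {p : ℕ} [Fact p.Prime]

/-- The ideal case. -/
theorem exists_rank3_of_ideal {P X : Subgroup G} (hG : IsMinSimpleOddOrder G) (hid : IsIdealPrime p G) (hPm : IsMaxP p P ⊤)
    (hr : ¬ PRankLE p 2 ↥P) (hXP : X ≤ P) (hX : Nat.card X = p) :
    ∃ B : Subgroup G, IsElementaryAbelian p B ∧ p ^ 2 < Nat.card B ∧ B ≤ P ∧ B ≤ centralizer (X : Set G) := by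
  classical
  have hpp : p.Prime := Fact.out
  obtain ⟨E, hEe, hEP, hlt⟩ := exists_of_not_prank hr
  haveI hPnt : Nontrivial ↥P := by
    rw [Subgroup.nontrivial_iff_ne_bot]
    intro h1
    have h2 : E = ⊥ := le_bot_iff.mp (h1 ▸ hEP)
    rw [h2] at hlt
    simp at hlt
    exact absurd hlt (by
      have := hpp.one_lt
      have h3 : 1 < p ^ 2 := Nat.one_lt_pow (by norm_num) this
      omega)
  have hcn : Nontrivial (Subgroup.center ↥P) := hPm.isP.center_nontrivial
  obtain ⟨z₁, hz₁⟩ := exists_ne (1 : Subgroup.center ↥P)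
  -- an element of order `p` in the center
  have hz₁1 : ((z₁ : ↥P) : G) ≠ 1 := by
    intro h
    apply hz₁
    apply Subtype.ext
    apply Subtype.ext
    exact h
  obtain ⟨q, hq, hqd⟩ := Nat.exists_prime_and_dvd (fun h => hz₁1 (orderOf_eq_one_iff.mp h) : orderOf ((z₁ : ↥P) : G) ≠ 1)
  have hzo := orderOf_pow_orderOf_div (orderOf_pos ((z₁ : ↥P) : G)).ne' hqd
  have hqp : q = p := by
    obtain ⟨k, hk⟩ := hPm.isP (z₁ : ↥P)
    have h1 : ((z₁ : ↥P) : G) ^ p ^ k = 1 := by simpa using congrArg Subtype.val hk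
    have h2 : orderOf ((z₁ : ↥P) : G) ∣ p ^ k := orderOf_dvd_of_pow_eq_one h1
    exact (Nat.prime_dvd_prime_iff_eq hq hpp).mp (hq.dvd_of_dvd_pow (hqd.trans h2))
  subst hqp
  set z : G := ((z₁ : ↥P) : G) ^ (orderOf ((z₁ : ↥P) : G) / q) with hz
  have hzP : z ∈ P := P.pow_mem (z₁ : ↥P).2 _
  have hzC : z ∈ centralizer (P : Set G) := by
    rw [mem_centralizer_iff]
    intro t ht
    have h1 := (Subgroup.mem_center_iff.mp z₁.2) ⟨t, ht⟩
    have h2 : t * ((z₁ : ↥P) : G) = ((z₁ : ↥P) : G) * t := congrArg Subtype.val h1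
    have h3 : Commute t ((z₁ : ↥P) : G) := h2
    exact (h3.pow_right _).eq
  have hzp : z ^ q = 1 := by
    rw [← hzo]
    exact pow_orderOf_eq_one z
  by_cases hzX : z ∈ X
  · refine ⟨E, hEe, hlt, hEP, ?_⟩
    have hz1 : z ≠ 1 := by
      intro h
      rw [h, orderOf_one] at hzo
      exact hq.one_lt.ne hzo
    have heq : zpowers z = X := Subgroup.eq_of_le_of_card_ge (zpowers_le.mpr hzX) (by
      rw [hX, Nat.card_zpowers, hzo])
    have h1 : X ≤ centralizer (P : Set G) := by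
      rw [← heq, zpowers_le]
      exact hzC
    exact hEP.trans (Subgroup.le_centralizer_iff.mp h1)
  · obtain ⟨hE₂e, hE₂c⟩ := elem_sup_zpowers hX hzp hzX (fun x hx =>
      ((mem_centralizer_iff.mp hzC) x (hXP hx)))
    obtain ⟨S, hS⟩ : ∃ S : Sylow q G, (S : Subgroup G) = P :=
      ⟨⟨P, hPm.isP, fun {Q} h2 h3 => hPm.max Q le_top h2 h3⟩, rfl⟩
    have hE₂P : X ⊔ zpowers z ≤ (S : Subgroup G) := by
      rw [hS]
      exact sup_le hXP (zpowers_le.mpr hzP)
    obtain ⟨B, hBS, hBe, hBlt⟩ := hid.2.2 S _ hE₂P hE₂e hE₂c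
    refine ⟨B, hBe, ?_, hS ▸ hBS, ?_⟩
    · rw [← hE₂c]
      exact card_lt_of_subgroup_lt hBlt
    · intro b hb
      rw [mem_centralizer_iff]
      intro x hx
      have hxB : x ∈ B := hBlt.le (le_sup_left (a := X) hx)
      exact congrArg Subtype.val (hBe.1.is_comm.comm (⟨x, hxB⟩ : B) ⟨b, hb⟩)

/-- S1423 for `X ≤ P`. -/
theorem s1423_in_P (h1412 : Sylow2Struct G) {M P X : Subgroup G} (hG : IsMinSimpleOddOrder G) (hM : IsCoatom M) (hp : p ∈ sigma M)
    (hP : IsMaxP p P M) (hXP : X ≤ P) (hX : Nat.card X = p) (h : p ∈ beta M ∨ X ≤ ⁅P, P⁆) :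
    (centralizer (X : Set G) ≤ M ∧ ∀ L : Subgroup G, IsCoatom L → centralizer (X : Set G) ≤ L → L = M) ∧
      InUniqueMaximal P := by
  classical
  have hpp : p.Prime := Fact.out
  have hp2 : p ≠ 2 := prime_odd hG hpp (hp.2.1.trans (Subgroup.card_subgroup_dvd_card M))
  obtain ⟨S', e, hS'⟩ := sigma_sylow hp hP.toSylow
  have e2 : ((hP.toSylow : Subgroup ↥M).map M.subtype) = P := by
    change (P.subgroupOf M).map M.subtype = P
    exact Subgroup.map_subgroupOf_eq_of_le hP.le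
  rw [e2] at e
  have hPm : IsMaxP p P ⊤ := by
    rw [← e]
    exact ⟨le_top, S'.isPGroup', fun D' _ h2 h3 => S'.is_maximal' h2 h3⟩
  have hPM : P ≤ M := hP.le
  have hX1 : X ≠ ⊥ := by
    rintro rfl
    simp at hX
    exact hpp.one_lt.ne hX
  have hXM : X ≤ M := hXP.trans hPM
  have hPtop : P ≠ ⊤ := fun h => hM.1 (top_le_iff.1 (h ▸ hPM))
  by_cases hr : PRankLE p 2 ↥P
  · -- rank two
    have hXc : X ≤ ⁅P, P⁆ := by
      rcases h with hb | hc
      · exact absurd (hP.prank_of hr) hb.1.2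
      · exact hc
    rcases h1412 p S' (by rw [e]; exact hr) with hab | ⟨P₁, P₂, hsup, hcomm, hna, hc, hexp, hcyc, hom⟩
    · exfalso
      rw [e] at hab
      apply hX1
      rw [eq_bot_iff]
      refine hXc.trans ?_
      rw [Subgroup.commutator_le]
      intro a ha b hb
      have h1 := hab.is_comm.comm (⟨a, ha⟩ : P) ⟨b, hb⟩
      have h2 : a * b = b * a := congrArg Subtype.val h1
      rw [commutatorElement_def, h2]
      simp
    · rw [e] at hsup
      obtain ⟨D, hle⟩ := nonabData_of_struct hG hPm hr hsup hcomm hna hc hexp hcyc hom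
      have hXZ : X = P₁ ⊓ centralizer (P₁ : Set G) := by
        apply Subgroup.eq_of_le_of_card_ge (hXc.trans hle)
        rw [D.hZc, hX]
      subst hXZ
      refine ⟨⟨D.cent_le hM hPM, ?_⟩, M, ⟨hM, hPM⟩, fun L hL => D.unique_of_le hM hPM hL.1 hL.2⟩
      intro L hL hCL
      exact D.unique_of_le hM hPM hL ((Subgroup.le_centralizer_iff.mp D.hZP).trans hCL)
  · refine ⟨?_, unique_of_prank (huniq13 hG) hpp hPtop hr⟩
    by_cases hb : p ∈ beta M
    · obtain ⟨B, hBe, hBc, hBP, hBC⟩ := exists_rank3_of_ideal hG hb.2 hPm hr hXP hX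
      exact uniq_of_rank3 hG hM hX1 hXM hBe hBc (hBP.trans hPM) hBC
    · have hXc : X ≤ ⁅P, P⁆ := h.resolve_left hb
      obtain ⟨T, hTP, hTy, hPT⟩ := exists_good_sub' hG hPm.isP hr hp2
      -- a generator of `X`
      haveI : Fact (Nat.card X).Prime := ⟨by rw [hX]; exact hpp⟩
      obtain ⟨y', hy'⟩ := (isCyclic_of_prime_card (α := X) rfl).exists_generator
      set y : G := (y' : G) with hy
      have hXgen : X = zpowers y := by
        ext x
        constructor
        · intro hx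
          obtain ⟨k, hk⟩ := mem_zpowers_iff.mp (hy' ⟨x, hx⟩)
          exact mem_zpowers_iff.mpr ⟨k, by simpa using congrArg Subtype.val hk⟩
        · intro hx
          exact (zpowers_le.mpr y'.2) hx
      have hyp : y ^ p = 1 := by
        have h1 : ((y' : X) : G) ^ Nat.card X = 1 := by
          rw [← Subgroup.coe_pow, pow_card_eq_one']
          rfl
        rwa [hX] at h1
      have hyT : y ∈ T := hPT (hXc y'.2)
      obtain ⟨B, hBe, hBle, hBc⟩ := exists_of_not_prank (hTy y hyT hyp)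
      have hBC : B ≤ centralizer (X : Set G) := by
        intro b hb
        rw [hXgen, mem_centralizer_iff]
        intro t ht
        obtain ⟨k, rfl⟩ := mem_zpowers_iff.mp ht
        have h2 : b * y = y * b := mem_centralizer_singleton_iff.mp (hBle hb).2
        exact (Commute.zpow_left (show Commute y b from h2.symm) k).eq
      exact uniq_of_rank3 hG hM hX1 hXM hBe hBc ((hBle.trans inf_le_left).trans hPM) hBC

end

end Cfsg.Agent.Lib.FT
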