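import Cfsg.Agent.Lib.FT.BG13f

/-!
BG section 12, tail (lead): S1423 (general `X`), S1422, S1426, given the structure of Sylow subgroups (S1412).
-/

set_option autoImplicit false
set_option linter.unusedSectionVars false
set_option linter.style.haveILetI false

namespace Cfsg.Agent.Lib.FT

open Subgroup Cfsg Cfsg.Agent.Lib.OddLocal Cfsg.Agent.Lib.Basic

open Cfsg.Agent.Lib.Coprime (mem_conj_map conj_mem_conj_map conj_map_conj_map conj_map_one
  conj_map_mono mem_normalizer_of_conj_le conj_map_eq_iff_mem_normalizer isPGroup_conj_map)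

open scoped commutatorElement

variable {G : Type*} [Group G] [Finite G]

/-- Centralizers of conjugates. -/
theorem centralizer_conj_map (X : Subgroup G) (m : G) :
    centralizer ((X.map (MulAut.conj m).toMonoidHom : Subgroup G) : Set G) =
      (centralizer (X : Set G)).map (MulAut.conj m).toMonoidHom := by
  ext c
  rw [mem_conj_map, mem_centralizer_iff, mem_centralizer_iff]
  constructor
  · intro h x hx
    have h1 := h (m * x * m⁻¹) (conj_mem_conj_map X m x hx)
    calc x * (m⁻¹ * c * m) = m⁻¹ * ((m * x * m⁻¹) * c) * m := by group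
      _ = m⁻¹ * (c * (m * x * m⁻¹)) * m := by rw [h1]
      _ = m⁻¹ * c * m * x := by group
  · intro h y hy
    rw [SetLike.mem_coe, mem_conj_map] at hy
    have h1 := h _ hy
    calc y * c = m * ((m⁻¹ * y * m) * (m⁻¹ * c * m)) * m⁻¹ := by group
      _ = m * ((m⁻¹ * c * m) * (m⁻¹ * y * m)) * m⁻¹ := by rw [h1]
      _ = c * y := by group

section

variable {p : ℕ} [Fact p.Prime]

/-- **S1423**, general `X`, given S1412. -/
theorem s1423_core (h1412 : Sylow2Struct G) {M P X : Subgroup G} (hG : IsMinSimpleOddOrder G) (hM : IsCoatom M) (hp : p ∈ sigma M)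
    (hP : IsMaxP p P M) (hXM : X ≤ M) (hX : Nat.card X = p) (h : p ∈ beta M ∨ X ≤ ⁅sigmaCore M, sigmaCore M⁆) :
    (centralizer (X : Set G) ≤ M ∧ ∀ L : Subgroup G, IsCoatom L → centralizer (X : Set G) ≤ L → L = M) ∧
      InUniqueMaximal P := by
  classical
  have hpp : p.Prime := Fact.out
  have hXp : IsPGroup p X := IsPGroup.of_card (n := 1) (by simpa using hX)
  have hσM : sigmaCore M ≤ M := piCoreOf_le _ M
  obtain ⟨m, hm, hXm, hh⟩ : ∃ m ∈ M, X.map (MulAut.conj m).toMonoidHom ≤ P ∧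
      (p ∈ beta M ∨ X.map (MulAut.conj m).toMonoidHom ≤ ⁅P, P⁆) := by
    by_cases hb : p ∈ beta M
    · obtain ⟨m, hm, hle⟩ := hP.exists_conj_le hXM hXp
      exact ⟨m, hm, hle, Or.inl hb⟩
    · have hXc := h.resolve_left hb
      obtain ⟨-, -, -, -, h5⟩ := s1414_core hG (huniq13 hG) hM (fun r _ _ => hpl13 hG r M hM.1)
      obtain ⟨-, h6, -⟩ := h5 p hpp hp.2.1 hb
      have hPσ : P ≤ sigmaCore M := le_sigmaCore_of_isPGroup hG (huniq13 hG) hM hp hP.isP hP.le
      have hσmax : IsMaxP p P (sigmaCore M) := ⟨hPσ, hP.isP, fun D' h1 h2 h3 => hP.max D' (h1.trans hσM) h2 h3⟩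
      obtain ⟨Y, hYK, hn, hc, -, hf⟩ := exists_complement_factor h6 hσmax
      have hle := commutator_le_sup_of_factor hYK hn hPσ hf
      have hLσ : Y ⊔ ⁅P, P⁆ ≤ sigmaCore M := sup_le hYK ((Subgroup.commutator_le_self P).trans hPσ)
      have hPn : ⁅P, P⁆ ≤ normalizer (Y : Set G) := ((Subgroup.commutator_le_self P).trans hPσ).trans hn
      have hLs : Group.IsSolvable ↥(Y ⊔ ⁅P, P⁆) :=
        IsMinSimpleOddOrder.isSolvable hG (fun h => hM.1 (top_le_iff.1 (h ▸ hLσ.trans hσM)))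
      obtain ⟨g, hg, hle2⟩ := exists_conj_le_of_cover (π := {p}) (L := Y ⊔ ⁅P, P⁆) (Y := X) (W := Y) (V := ⁅P, P⁆) hLs
        (hXc.trans hle)
        (fun r hr hd => by
          rw [hX] at hd
          exact (Nat.prime_dvd_prime_iff_eq hr hpp).mp hd)
        le_sup_left
        (fun r hr hd hrp => by
          rw [Set.mem_singleton_iff] at hrp
          subst hrp
          exact (Nat.Prime.coprime_iff_not_dvd hr).mp hc.symm hd)
        le_sup_right
        (fun l hl => (Cfsg.Agent.Lib.Coprime.mem_sup_iff_of_le_normalizer hPn l).mp hl)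
      refine ⟨g⁻¹, M.inv_mem (hσM (hLσ hg)), ?_, ?_⟩
      · have h2 := conj_map_mono hle2 g⁻¹
        rw [conj_map_conj_map, inv_mul_cancel, conj_map_one] at h2
        exact h2.trans (Subgroup.commutator_le_self P)
      · right
        have h2 := conj_map_mono hle2 g⁻¹
        rwa [conj_map_conj_map, inv_mul_cancel, conj_map_one] at h2
  have hXm' : Nat.card (X.map (MulAut.conj m).toMonoidHom) = p := by
    rw [Cfsg.Agent.Lib.Coprime.card_conj_map, hX]
  obtain ⟨⟨h1, h2⟩, h3⟩ := s1423_in_P h1412 hG hM hp hP hXm hXm' hh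
  refine ⟨⟨?_, ?_⟩, h3⟩
  · rw [centralizer_conj_map] at h1
    have h4 := conj_map_mono h1 m⁻¹
    rw [conj_map_conj_map, inv_mul_cancel, conj_map_one,
      (conj_map_eq_iff_mem_normalizer M m⁻¹).mpr (le_normalizer (M.inv_mem hm))] at h4
    exact h4
  · intro L hL hCL
    have h4 := h2 (L.map (MulAut.conj m).toMonoidHom) (coatom_conj hL m) (by
      rw [centralizer_conj_map]
      exact conj_map_mono hCL m)
    have h5 := congrArg (fun K : Subgroup G => K.map (MulAut.conj m⁻¹).toMonoidHom) h4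
    simp only [conj_map_conj_map, inv_mul_cancel, conj_map_one] at h5
    rw [h5]
    exact (conj_map_eq_iff_mem_normalizer M m⁻¹).mpr (le_normalizer (M.inv_mem hm))

/-- **S1422**, given S1412. -/
theorem s1422_core (h1412 : Sylow2Struct G) {R : Subgroup G} (hG : IsMinSimpleOddOrder G) (hR : IsPGroup p R) (hna : ¬ IsMulCommutative R) :
    InUniqueMaximal R := by
  classical
  have hpp : p.Prime := Fact.out
  have hRtop : R ≠ ⊤ := IsMinSimpleOddOrder.ne_top_of_isPGroup hG hpp hR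
  obtain ⟨M, hM, hRM⟩ := (eq_top_or_exists_le_coatom R).resolve_left hRtop
  -- `p ∈ σ` over `R`
  have hσ : ∀ L : Subgroup G, IsCoatom L → R ≤ L → p ∈ sigma L := by
    intro L hL hRL
    by_contra hpσ
    apply hna
    refine ⟨⟨?_⟩⟩
    rintro ⟨a, ha⟩ ⟨b, hb⟩
    apply Subtype.ext
    exact comm_of_not_sigma hG (huniq13 hG) (fun r _ K hK => hpl13 hG r K hK) h1412 hL hpσ hRL hR ha hb
  -- `R'` has a subgroup of order `p`
  have hR' : ⁅R, R⁆ ≠ ⊥ := by
    intro h
    apply hna
    refine ⟨⟨?_⟩⟩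
    rintro ⟨a, ha⟩ ⟨b, hb⟩
    apply Subtype.ext
    have h1 : ⁅a, b⁆ ∈ ⁅R, R⁆ := Subgroup.commutator_mem_commutator ha hb
    rw [h, mem_bot, commutatorElement_def] at h1
    have e := mul_inv_eq_one.mp h1
    exact mul_inv_eq_iff_eq_mul.mp e
  obtain ⟨R', hR'def⟩ : ∃ R' : Subgroup G, R' = ⁅R, R⁆ := ⟨_, rfl⟩
  rw [← hR'def] at hR'
  have hR'R : R' ≤ R := hR'def ▸ Subgroup.commutator_le_self R
  have hR'p : IsPGroup p R' := hR.to_le hR'R
  have hd : p ∣ Nat.card R' := by
    obtain ⟨k, hk⟩ := IsPGroup.iff_card.mp hR'p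
    have hk0 : k ≠ 0 := by
      rintro rfl
      exact hR' ((Subgroup.eq_bot_iff_card _).mpr (by simpa using hk))
    rw [hk]
    exact dvd_pow_self p hk0
  obtain ⟨B, hB⟩ := Sylow.exists_subgroup_card_pow_prime (G := R') p (n := 1) (by simpa using hd)
  have hXc : Nat.card (B.map R'.subtype) = p := by
    rw [Subgroup.card_map_of_injective (Subgroup.subtype_injective _), hB, pow_one]
  set X := B.map R'.subtype with hXdef
  have hXR' : X ≤ R' := map_subtype_le _
  have huq : ∀ L : Subgroup G, IsCoatom L → R ≤ L → centralizer (X : Set G) ≤ L ∧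
      ∀ L' : Subgroup G, IsCoatom L' → centralizer (X : Set G) ≤ L' → L' = L := by
    intro L hL hRL
    have hpL := hσ L hL hRL
    have hRσ : R ≤ sigmaCore L := le_sigmaCore_of_isPGroup hG (huniq13 hG) hL hpL hR hRL
    have hXL : X ≤ L := (hXR'.trans hR'R).trans hRL
    obtain ⟨P, hP, -⟩ := exists_isMaxP_ge hRL hR
    have hXc' : X ≤ ⁅sigmaCore L, sigmaCore L⁆ := hXR'.trans (hR'def ▸ Subgroup.commutator_mono hRσ hRσ)
    exact (s1423_core h1412 hG hL hpL hP hXL hXc (Or.inr hXc')).1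
  refine ⟨M, ⟨hM, hRM⟩, ?_⟩
  rintro L ⟨hL, hRL⟩
  exact (huq M hM hRM).2 L hL (huq L hL hRL).1

end

section S1426

variable {M E : Subgroup G}

/-- The coprime action of a complement on `M_σ`. -/
theorem coprimeAction_compl (hG : IsMinSimpleOddOrder G) (hM : IsCoatom M) (hE : IsComplIn E (sigmaCore M) M) :
    Cfsg.Agent.Lib.Coprime.CoprimeAction E (sigmaCore M) := by
  classical
  obtain ⟨hEM, hσM, hinf, hf⟩ := hE
  obtain ⟨h1, -⟩ := s1350_core hG (huniq13 hG) hM
  refine ⟨hEM.trans (le_normalizer_piCoreOf (sigma M) M), ?_, Or.inr ?_⟩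
  · -- `|E| = [M : M_σ]`
    have hcomp : IsComplement' ((sigmaCore M).subgroupOf M) (E.subgroupOf M) := by
      apply Subgroup.isComplement'_of_disjoint_and_mul_eq_univ
      · rw [Subgroup.disjoint_def]
        rintro ⟨x, hx⟩ h1 h2
        have h3 : x ∈ E ⊓ sigmaCore M := ⟨Subgroup.mem_subgroupOf.mp h2, Subgroup.mem_subgroupOf.mp h1⟩
        rw [hinf, mem_bot] at h3
        exact Subtype.ext h3
      · rw [Set.eq_univ_iff_forall]
        rintro ⟨x, hx⟩
        obtain ⟨a, ha, b, hb, e⟩ := hf x⁻¹ (M.inv_mem hx)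
        refine Set.mem_mul.mpr ⟨⟨b⁻¹, M.inv_mem (hσM hb)⟩, ?_, ⟨a⁻¹, M.inv_mem (hEM ha)⟩, ?_, ?_⟩
        · exact (sigmaCore M).inv_mem hb
        · exact E.inv_mem ha
        · apply Subtype.ext
          have e2 : x = (x⁻¹)⁻¹ := by simp
          change b⁻¹ * a⁻¹ = x
          rw [e2, e]
          group
    have h2 : (sigmaCore M).relIndex M = Nat.card (E.subgroupOf M) := hcomp.symm.index_eq_card
    rw [Nat.card_congr (Subgroup.subgroupOfEquivOfLe hEM).toEquiv] at h2
    rw [← h2]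
    exact Nat.Coprime.symm (Nat.coprime_of_dvd fun r hr h3 h4 => h1.2.2 r hr (h1.2.1 r hr h3) h4)
  · exact IsMinSimpleOddOrder.isSolvable hG (fun h => hM.1 (top_le_iff.1 (h ▸ hσM)))

/-- `[M_σ, E] = M_σ`. -/
theorem commutator_sigmaCore_compl (hG : IsMinSimpleOddOrder G) (hM : IsCoatom M) (hE : IsComplIn E (sigmaCore M) M) :
    ⁅sigmaCore M, E⁆ = sigmaCore M := by
  classical
  have h := coprimeAction_compl hG hM hE
  obtain ⟨hEM, hσM, hinf, hf⟩ := hE
  have hσn : M ≤ normalizer (sigmaCore M : Set G) := le_normalizer_piCoreOf (sigma M) M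
  set L := ⁅sigmaCore M, E⁆ with hL
  have hLσ : L ≤ sigmaCore M := h.commutator_le_self
  have hEL : E ≤ normalizer (L : Set G) := h.le_normalizer_commutator
  have hσL : sigmaCore M ≤ normalizer (L : Set G) := h.le_normalizer_commutator'
  -- `M ≤ N(E L)`
  set K := L ⊔ E with hK
  have hKM : K ≤ M := sup_le (hLσ.trans hσM) hEM
  have hσK : sigmaCore M ≤ normalizer (K : Set G) := by
    intro b hb
    apply mem_normalizer_of_conj_le
    intro x hx
    obtain ⟨l, hl, e', he', rfl⟩ := (Cfsg.Agent.Lib.Coprime.mem_sup_iff_of_le_normalizer hEL x).mp hx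
    have h1 : b * l * b⁻¹ ∈ L := (mem_normalizer_iff.mp (hσL hb) l).mp hl
    have h2 : ⁅b, e'⁆ ∈ L := Subgroup.commutator_mem_commutator hb he'
    have e : b * (l * e') * b⁻¹ = (b * l * b⁻¹) * ⁅b, e'⁆ * e' := by
      simp only [commutatorElement_def]
      group
    rw [e]
    exact K.mul_mem (K.mul_mem (mem_sup_left h1) (mem_sup_left h2)) (mem_sup_right he')
  have hEK : E ≤ normalizer (K : Set G) := by
    intro e he
    apply mem_normalizer_of_conj_le
    intro x hx
    obtain ⟨l, hl, e', he', rfl⟩ := (Cfsg.Agent.Lib.Coprime.mem_sup_iff_of_le_normalizer hEL x).mp hx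
    have h1 : e * l * e⁻¹ ∈ L := (mem_normalizer_iff.mp (hEL he) l).mp hl
    have e2 : e * (l * e') * e⁻¹ = (e * l * e⁻¹) * (e * e' * e⁻¹) := by group
    rw [e2]
    exact K.mul_mem (mem_sup_left h1) (mem_sup_right (E.mul_mem (E.mul_mem he he') (E.inv_mem he)))
  have hMK : M ≤ normalizer (K : Set G) := by
    intro m hm
    obtain ⟨a, ha, b, hb, rfl⟩ := hf m hm
    exact mul_mem (hEK ha) (hσK hb)
  have hle := commutator_le_sup_of_factor (K := M) (Y := K) (P := sigmaCore M) hKM hMK hσM (fun u hu => by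
    obtain ⟨a, ha, b, hb, rfl⟩ := hf u hu
    exact ⟨a, mem_sup_right ha, b, hb, rfl⟩)
  have hσ' := sigmaCore_le_commutator hG (huniq13 hG) hM
  -- `M_σ ≤ L M_σ'`
  have hσ₂ : sigmaCore M ≤ L ⊔ ⁅sigmaCore M, sigmaCore M⁆ := by
    intro x hx
    have h1 := hle (hσ' hx)
    have hn' : ⁅sigmaCore M, sigmaCore M⁆ ≤ normalizer (K : Set G) :=
      ((Subgroup.commutator_le_self _).trans hσM).trans hMK
    obtain ⟨k, hk, d, hd, e⟩ := (Cfsg.Agent.Lib.Coprime.mem_sup_iff_of_le_normalizer hn' x).mp h1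
    have hdσ : d ∈ sigmaCore M := Subgroup.commutator_le_self _ hd
    have hkσ : k ∈ sigmaCore M := by
      have : k = x * d⁻¹ := by
        rw [e]
        group
      rw [this]
      exact mul_mem hx (inv_mem hdσ)
    have hkL : k ∈ L := by
      obtain ⟨l, hl, e', he', rfl⟩ := (Cfsg.Agent.Lib.Coprime.mem_sup_iff_of_le_normalizer hEL k).mp hk
      have h2 : e' ∈ E ⊓ sigmaCore M := ⟨he', by
        have : e' = l⁻¹ * (l * e') := by group
        rw [this]
        exact (sigmaCore M).mul_mem ((sigmaCore M).inv_mem (hLσ hl)) hkσ⟩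
      rw [hinf, mem_bot] at h2
      rw [h2, mul_one]
      exact hl
    rw [e]
    exact mul_mem (mem_sup_left hkL) (mem_sup_right hd)
  -- perfect and solvable
  apply le_antisymm hLσ
  by_contra hne
  have hs : Group.IsSolvable ↥(sigmaCore M) := IsMinSimpleOddOrder.isSolvable hG (fun h => hM.1 (top_le_iff.1 (h ▸ hσM)))
  haveI hLn : (L.subgroupOf (sigmaCore M)).Normal := by
    rw [Subgroup.normal_subgroupOf_iff_le_normalizer hLσ]
    exact hσL
  let π : ↥(sigmaCore M) →* ↥(sigmaCore M) ⧸ L.subgroupOf (sigmaCore M) := QuotientGroup.mk' _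
  haveI : Group.IsSolvable (↥(sigmaCore M) ⧸ L.subgroupOf (sigmaCore M)) := inferInstance
  haveI hnt : Nontrivial (↥(sigmaCore M) ⧸ L.subgroupOf (sigmaCore M)) := by
    obtain ⟨x, hx, hxL⟩ := SetLike.not_le_iff_exists.mp hne
    refine ⟨π ⟨x, hx⟩, 1, fun e => hxL ?_⟩
    exact (QuotientGroup.eq_one_iff (⟨x, hx⟩ : ↥(sigmaCore M))).mp e
  have hlt := Group.IsSolvable.commutator_lt_top_of_nontrivial (↥(sigmaCore M) ⧸ L.subgroupOf (sigmaCore M))
  obtain ⟨q, -, hq⟩ := SetLike.exists_of_lt hlt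
  apply hq
  obtain ⟨x, rfl⟩ := QuotientGroup.mk_surjective q
  have hx2 := hσ₂ x.2
  have hn'' : ⁅sigmaCore M, sigmaCore M⁆ ≤ normalizer (L : Set G) := (Subgroup.commutator_le_self _).trans hσL
  obtain ⟨l, hl, d, hd, e⟩ := (Cfsg.Agent.Lib.Coprime.mem_sup_iff_of_le_normalizer hn'' _).mp hx2
  have hdm : d ∈ (commutator ↥(sigmaCore M)).map (sigmaCore M).subtype := by
    rw [_root_.commutator_def, Subgroup.map_commutator]
    have e0 : ((⊤ : Subgroup ↥(sigmaCore M)).map (sigmaCore M).subtype) = sigmaCore M := by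
      rw [← MonoidHom.range_eq_map, Subgroup.range_subtype]
    rw [e0]
    exact hd
  obtain ⟨d', hd', rfl⟩ := hdm
  have e2 : x = ⟨l, hLσ hl⟩ * d' := Subtype.ext e
  have h3 : π x = π d' := by
    rw [e2, map_mul]
    have h4 : π ⟨l, hLσ hl⟩ = 1 := (QuotientGroup.eq_one_iff (⟨l, hLσ hl⟩ : ↥(sigmaCore M))).mpr hl
    rw [h4, one_mul]
  change π x ∈ _
  rw [h3]
  have h5 : (commutator ↥(sigmaCore M)).map π ≤ commutator (↥(sigmaCore M) ⧸ L.subgroupOf (sigmaCore M)) := by
    rw [_root_.commutator_def, _root_.commutator_def, Subgroup.map_commutator]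
    exact Subgroup.commutator_mono le_top le_top
  exact h5 ⟨d', hd', rfl⟩

/-- `C_{M_σ}(E) ≤ M_σ'`. -/
theorem inf_centralizer_compl_le (hG : IsMinSimpleOddOrder G) (hM : IsCoatom M) (hE : IsComplIn E (sigmaCore M) M) :
    sigmaCore M ⊓ centralizer (E : Set G) ≤ ⁅sigmaCore M, sigmaCore M⁆ := by
  have h := coprimeAction_compl hG hM hE
  have hc := commutator_sigmaCore_compl hG hM hE
  have hσn : M ≤ normalizer (sigmaCore M : Set G) := le_normalizer_piCoreOf (sigma M) M
  have hDn : M ≤ normalizer ((⁅sigmaCore M, sigmaCore M⁆ : Subgroup G) : Set G) := fun m hm =>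
    Cfsg.Agent.Lib.Coprime.mem_normalizer_commutator (hσn hm) (hσn hm)
  exact h.centralizer_le_of_commutator_eq (Subgroup.commutator_le_self _) (hE.1.trans hDn)
    ((piCoreOf_le _ M).trans hDn) le_rfl hc

/-- A nontrivial element of `M_σ` of prime order `q`, with `C_G(x) ≤ M`, is not in `M^g` for `g ∉ M`. -/
theorem not_mem_conj_of_cent_le {q : ℕ} [Fact q.Prime] {X : Subgroup G} (hG : IsMinSimpleOddOrder G) (hM : IsCoatom M) (hq : q ∈ sigma M)
    (hXp : IsPGroup q X) (hX1 : X ≠ ⊥) (hXM : X ≤ M) (hC : centralizer (X : Set G) ≤ M) {g : G} (hg : g ∉ M) :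
    ¬ X ≤ M.map (MulAut.conj g).toMonoidHom := by
  intro hle
  have h1 : X.map (MulAut.conj g⁻¹).toMonoidHom ≤ M := by
    have := conj_map_mono hle g⁻¹
    rwa [conj_map_conj_map, inv_mul_cancel, conj_map_one] at this
  obtain ⟨m, hm, c, hc, e⟩ := (s1404_core hG (huniq13 hG) hM hq X hXp hX1 hXM).1 g⁻¹ h1
  apply hg
  have : g = (g⁻¹)⁻¹ := by simp
  rw [this, e]
  exact M.inv_mem (M.mul_mem hm (hC hc))

/-- **S1426**, third clause, given S1412. -/
theorem s1426_inter (h1412 : Sylow2Struct G) (hG : IsMinSimpleOddOrder G) (hM : IsCoatom M) {g : G} (hg : g ∉ M) :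
    IsCyclic ↥(sigmaCore M ⊓ M.map (MulAut.conj g).toMonoidHom) ∧
        (∀ p : ℕ, p.Prime → p ∣ Nat.card ↥(sigmaCore M ⊓ M.map (MulAut.conj g).toMonoidHom) → p ∉ beta M) ∧
        sigmaCore M ⊓ M.map (MulAut.conj g).toMonoidHom ⊓ ⁅sigmaCore M, sigmaCore M⁆ = ⊥ := by
  classical
  set D := sigmaCore M ⊓ M.map (MulAut.conj g).toMonoidHom with hD
  have hDσ : D ≤ sigmaCore M := inf_le_left
  have hDg : D ≤ M.map (MulAut.conj g).toMonoidHom := inf_le_right
  have hσM : sigmaCore M ≤ M := piCoreOf_le _ M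
  -- elements of prime order
  have key : ∀ (q : ℕ) (hq : q.Prime) (y : G), y ∈ D → orderOf y = q →
      q ∉ beta M ∧ y ∉ ⁅sigmaCore M, sigmaCore M⁆ := by
    intro q hq y hy ho
    haveI : Fact q.Prime := ⟨hq⟩
    have hXc : Nat.card (zpowers y) = q := by rw [Nat.card_zpowers, ho]
    have hXp : IsPGroup q (zpowers y) := IsPGroup.of_card (n := 1) (by simpa using hXc)
    have hX1 : zpowers y ≠ ⊥ := by
      intro h
      rw [h] at hXc
      simp at hXc
      exact hq.one_lt.ne hXc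
    have hXσ : zpowers y ≤ sigmaCore M := zpowers_le.mpr (hDσ hy)
    have hqσ : q ∈ sigma M := piCoreOf_isPi (sigma M) M q hq (by
      rw [← hXc]
      exact Subgroup.card_dvd_of_le hXσ)
    have hXg : zpowers y ≤ M.map (MulAut.conj g).toMonoidHom := zpowers_le.mpr (hDg hy)
    obtain ⟨P, hP, -⟩ := exists_isMaxP_ge (T := ⊥) (N := M) (p := q) bot_le (IsPGroup.of_bot)
    have main : q ∈ beta M ∨ zpowers y ≤ ⁅sigmaCore M, sigmaCore M⁆ → False := by
      intro h
      have hC := (s1423_core h1412 hG hM hqσ hP (hXσ.trans hσM) hXc h).1.1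
      exact not_mem_conj_of_cent_le hG hM hqσ hXp hX1 (hXσ.trans hσM) hC hg hXg
    exact ⟨fun h => main (Or.inl h), fun h => main (Or.inr (zpowers_le.mpr h))⟩
  have hinf : D ⊓ ⁅sigmaCore M, sigmaCore M⁆ = ⊥ := by
    rw [eq_bot_iff]
    rintro w ⟨hwD, hwc⟩
    rw [mem_bot]
    by_contra hw
    obtain ⟨q, hq, hqd⟩ := Nat.exists_prime_and_dvd (fun h => hw (orderOf_eq_one_iff.mp h) : orderOf w ≠ 1)
    have ho := orderOf_pow_orderOf_div (orderOf_pos w).ne' hqd
    exact (key q hq _ (D.pow_mem hwD _) ho).2 (Subgroup.pow_mem _ hwc _)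
  refine ⟨?_, ?_, hinf⟩
  · -- abelian with cyclic Sylow subgroups
    have hcomm : ∀ a ∈ D, ∀ b ∈ D, a * b = b * a := by
      intro a ha b hb
      have h1 : ⁅a, b⁆ ∈ D ⊓ ⁅sigmaCore M, sigmaCore M⁆ := by
        refine ⟨?_, Subgroup.commutator_mem_commutator (hDσ ha) (hDσ hb)⟩
        rw [commutatorElement_def]
        exact D.mul_mem (D.mul_mem (D.mul_mem ha hb) (D.inv_mem ha)) (D.inv_mem hb)
      rw [hinf, mem_bot, commutatorElement_def] at h1
      have e := mul_inv_eq_one.mp h1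
      exact mul_inv_eq_iff_eq_mul.mp e
    letI : CommGroup ↥D := { (inferInstance : Group ↥D) with mul_comm := fun a b => Subtype.ext (hcomm a a.2 b b.2) }
    haveI hnil : Group.IsNilpotent ↥D := CommGroup.isNilpotent
    haveI hZ : IsZGroup ↥D := by
      refine ⟨fun q hq P => ?_⟩
      haveI : Fact q.Prime := ⟨hq⟩
      by_contra hnc
      set P₀ := (P : Subgroup ↥D).map D.subtype with hP₀
      have hP₀c : ¬ IsCyclic P₀ := by
        intro hc
        apply hnc
        exact isCyclic_of_surjective (Subgroup.equivMapOfInjective (P : Subgroup ↥D) D.subtype D.subtype_injective).symm.toMonoidHom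
          (Subgroup.equivMapOfInjective (P : Subgroup ↥D) D.subtype D.subtype_injective).symm.surjective
      have hP₀p : IsPGroup q P₀ := P.isPGroup'.map _
      have hP₀D : P₀ ≤ D := map_subtype_le _
      have hP₀1 : P₀ ≠ ⊥ := by
        rintro h
        rw [h] at hP₀c
        exact hP₀c isCyclic_of_subsingleton
      have hqd : q ∣ Nat.card P₀ := by
        obtain ⟨k, hk⟩ := IsPGroup.iff_card.mp hP₀p
        have hk0 : k ≠ 0 := by
          rintro rfl
          exact hP₀1 ((Subgroup.eq_bot_iff_card _).mpr (by simpa using hk))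
        rw [hk]
        exact dvd_pow_self q hk0
      have hqσ : q ∈ sigma M := piCoreOf_isPi (sigma M) M q hq (hqd.trans (Subgroup.card_dvd_of_le (hP₀D.trans hDσ)))
      have hN := normalizer_le_of_not_cyclic hG hM hqσ hP₀p ((hP₀D.trans hDσ).trans hσM) hP₀c
      exact not_mem_conj_of_cent_le hG hM hqσ hP₀p hP₀1 ((hP₀D.trans hDσ).trans hσM)
        ((centralizer_le_normalizer' P₀).trans hN) hg (hP₀D.trans hDg)
    infer_instance
  · intro q hq hd
    haveI : Fact q.Prime := ⟨hq⟩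
    obtain ⟨y, hy⟩ := exists_prime_orderOf_dvd_card' (G := D) q hd
    have ho : orderOf ((y : ↥D) : G) = q := by
      rw [Subgroup.orderOf_coe, hy]
    exact (key q hq _ y.2 ho).1

end S1426

end Cfsg.Agent.Lib.FT
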