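import Cfsg.Agent.Lib.FT.BG4e
import Cfsg.Agent.Lib.FT.BG10f
import Cfsg.Agent.Lib.Fusion2.P3

/-!
**S1412**: Sylow subgroups of rank two in a minimal simple group of odd order.
-/

set_option autoImplicit false
set_option linter.unusedSectionVars false
set_option linter.style.haveILetI false

namespace Cfsg.Agent.Lib.FT

open Subgroup Cfsg Cfsg.Agent.Lib.Basic

open scoped commutatorElement

universe u

variable {G : Type u} [Group G] [Finite G]

/-- The derived subgroup of a non-abelian group of order `p ^ 3` is its centre. -/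
theorem comm_eq_inf_centralizer {p : ℕ} [hp : Fact p.Prime] (R₁ : Subgroup G) (hc : Nat.card R₁ = p ^ 3)
    (hnc : ¬ IsMulCommutative R₁) : ⁅R₁, R₁⁆ = R₁ ⊓ centralizer (R₁ : Set G) := by
  have hnc' : ¬ ∀ x y : ↥R₁, x * y = y * x := fun h => hnc ⟨⟨fun a b => h a b⟩⟩
  have hes := Cfsg.Agent.Lib.Fusion2.isExtraspecial_of_card_p3 hc hnc'
  have h1 : commutator ↥R₁ = center ↥R₁ := hes.1.2.2
  rw [← Subgroup.map_subtype_commutator, h1]
  ext x
  constructor
  · rintro ⟨z, hz, rfl⟩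
    refine Subgroup.mem_inf.2 ⟨z.2, ?_⟩
    rw [mem_centralizer_iff]
    intro h hh
    exact congrArg Subtype.val (Subgroup.mem_center_iff.1 hz ⟨h, hh⟩)
  · intro hx
    obtain ⟨h1, h2⟩ := Subgroup.mem_inf.1 hx
    refine ⟨⟨x, h1⟩, ?_, rfl⟩
    show (⟨x, h1⟩ : ↥R₁) ∈ center ↥R₁
    rw [Subgroup.mem_center_iff]
    intro g
    exact Subtype.ext ((mem_centralizer_iff.1 h2) g g.2)

/-- **S1412**. -/
theorem s1412_core (hG : IsMinSimpleOddOrder G) (p : ℕ) [hp : Fact p.Prime] (P : Sylow p G) (hr : PRankLE p 2 (P : Subgroup G)) :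
    IsMulCommutative (P : Subgroup G) ∨ ∃ P₁ P₂ : Subgroup G, P₁ ⊔ P₂ = (P : Subgroup G) ∧ (∀ a ∈ P₁, ∀ b ∈ P₂, a * b = b * a) ∧
        ¬ IsMulCommutative P₁ ∧ Nat.card P₁ = p ^ 3 ∧ Monoid.exponent P₁ = p ∧ IsCyclic P₂ ∧
        Subgroup.closure {x : G | x ∈ P₂ ∧ x ^ p = 1} = P₁ ⊓ Subgroup.centralizer (P₁ : Set G) := by
  classical
  by_cases hP1 : (P : Subgroup G) = ⊥
  · left
    rw [hP1]
    exact ⟨⟨fun a b => Subsingleton.elim _ _⟩⟩
  have hGodd : Odd (Nat.card G) := hG.1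
  obtain ⟨n, hn⟩ := IsPGroup.iff_card.1 P.isPGroup'
  have hn0 : n ≠ 0 := by
    rintro rfl
    apply hP1
    exact Subgroup.eq_bot_of_card_eq _ (by rw [hn, pow_zero])
  have hpd : p ∣ Nat.card G := by
    have h1 : p ∣ Nat.card (P : Subgroup G) := by
      rw [hn]
      exact dvd_pow_self p hn0
    exact h1.trans (Subgroup.card_subgroup_dvd_card _)
  have hp2 : p ≠ 2 := by
    rintro rfl
    exact absurd (Odd.of_dvd_nat hGodd hpd) (by decide)
  set N := normalizer ((P : Subgroup G) : Set G) with hN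
  have hPN : (P : Subgroup G) ≤ N := le_normalizer
  set P₀ : Subgroup ↥N := (P : Subgroup G).subgroupOf N with hP₀
  have hidx : ¬ p ∣ P₀.index := by
    intro hd
    apply P.not_dvd_index
    rw [← Subgroup.relIndex_mul_index hPN]
    exact Dvd.dvd.mul_right hd _
  have hcP₀ : Nat.card P₀ = p ^ n := by
    rw [hP₀, Nat.card_congr (Subgroup.subgroupOfEquivOfLe hPN).toEquiv, hn]
  have hcop : (Nat.card P₀).Coprime P₀.index := by
    rw [hcP₀]
    exact Nat.Coprime.pow_left _ ((Nat.Prime.coprime_iff_not_dvd hp.out).2 hidx)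
  obtain ⟨R₀, hR₀⟩ := Subgroup.exists_right_complement'_of_coprime hcop
  set V := R₀.map N.subtype with hVdef
  have hVN : V ≤ N := Subgroup.map_subtype_le R₀
  have hV : IsComplIn (P : Subgroup G) V N := by
    refine ⟨hPN, hVN, ?_, ?_⟩
    · rw [eq_bot_iff]
      intro x hx
      obtain ⟨hx1, r, hr', rfl⟩ := Subgroup.mem_inf.1 hx
      have h1 : r ∈ P₀ ⊓ R₀ := Subgroup.mem_inf.2 ⟨hx1, hr'⟩
      rw [hR₀.disjoint.eq_bot, Subgroup.mem_bot] at h1
      rw [h1]
      simp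
    · intro m hm
      obtain ⟨⟨a, b⟩, e⟩ := hR₀.2 ⟨m, hm⟩
      refine ⟨a.1.1, a.2, b.1.1, ⟨b.1, b.2, rfl⟩, ?_⟩
      have := congrArg Subtype.val e
      exact this.symm
  have h1411 := s1411_core hG (fun H hH => s1410_final hG p H hH) P V hV
  have hcV : Nat.card V = P₀.index := by
    rw [hVdef, Nat.card_congr (R₀.equivMapOfInjective _ N.subtype_injective).symm.toEquiv]
    exact hR₀.symm.index_eq_card.symm
  have hcopV : (Nat.card V).Coprime p := by
    rw [hcV]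
    exact ((Nat.Prime.coprime_iff_not_dvd hp.out).2 hidx).symm
  have hVodd : Odd (Nat.card V) := Odd.of_dvd_nat hGodd (Subgroup.card_subgroup_dvd_card _)
  rcases s1448_struct p hp2 (P : Subgroup G) V P.isPGroup' hr hVN hcopV hVodd h1411.1.symm with hab | ⟨R₁, R₂, h1, h2, h3, h4, h5, h6, h7⟩
  · exact Or.inl hab
  · right
    refine ⟨R₁, R₂, h1, h2, h3, h4, h5, h6, ?_⟩
    rw [h7]
    exact comm_eq_inf_centralizer R₁ h4 h3

end Cfsg.Agent.Lib.FT
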