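import Cfsg.Agent.Lib.FT.BG13g
import Cfsg.Agent.S1417

/-!
BG section 13 tail (lead): normal `σ(M)'`-subgroups of `M`; the Fitting structure (S1439).
-/

set_option autoImplicit false
set_option linter.unusedSectionVars false
set_option linter.style.haveILetI false

namespace Cfsg.Agent.Lib.FT

open Subgroup Cfsg Cfsg.Agent.Lib.OddLocal Cfsg.Agent.Lib.Basic

open Cfsg.Agent.Lib.Coprime (mem_conj_map conj_mem_conj_map conj_map_conj_map conj_map_one
  conj_map_mono mem_normalizer_of_conj_le conj_map_eq_iff_mem_normalizer isPGroup_conj_map)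

open scoped commutatorElement

variable {G : Type*} [Group G] [Finite G]

/-- A coatom of a minimal simple group is the normalizer of any nontrivial subgroup it normalizes. -/
theorem normalizer_eq_of_coatom_le {M R : Subgroup G} (hG : IsMinSimpleOddOrder G) (hM : IsCoatom M)
    (hR1 : R ≠ ⊥) (hRM : R ≤ M) (hn : M ≤ normalizer (R : Set G)) : normalizer (R : Set G) = M := by
  by_contra hne
  have hlt : M < normalizer (R : Set G) := lt_of_le_of_ne hn (Ne.symm hne)
  exact IsMinSimpleOddOrder.normalizer_ne_top hG hR1 (fun h => hM.1 (top_unique (h ▸ hRM))) (hM.2 _ hlt)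

/-- A cyclic `p`-subgroup has an `M`-invariant subgroup of order `p`. -/
theorem exists_inv_prime_of_cyclic {M R : Subgroup G} {p : ℕ} [Fact p.Prime] (hRp : IsPGroup p R) (hR1 : R ≠ ⊥)
    (hc : IsCyclic R) (hn : M ≤ normalizer (R : Set G)) :
    ∃ X : Subgroup G, X ≤ R ∧ Nat.card X = p ∧ M ≤ normalizer (X : Set G) := by
  classical
  have hp : p.Prime := Fact.out
  have hd : p ∣ Nat.card R := by
    obtain ⟨k, hk⟩ := IsPGroup.iff_card.1 hRp
    have h1 : Nat.card R ≠ 1 := fun h => hR1 ((Subgroup.card_eq_one).1 h)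
    rcases k with _ | k
    · exact absurd (by simpa using hk) h1
    · rw [hk, pow_succ]; exact dvd_mul_left _ _
  obtain ⟨y, hy⟩ := exists_prime_orderOf_dvd_card' (G := R) p hd
  refine ⟨(Subgroup.zpowers y).map R.subtype, Subgroup.map_subtype_le _, ?_, ?_⟩
  · rw [Subgroup.card_map_of_injective R.subtype_injective, Nat.card_zpowers, hy]
  · intro m hm
    apply mem_normalizer_of_conj_le
    intro u hu
    -- in cyclic `R`, the conjugate of the subgroup has to be the same
    have hmR : ∀ w ∈ R, m * w * m⁻¹ ∈ R := fun w hw => (mem_normalizer_iff.1 (hn hm) w).1 hw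
    set f : R →* R :=
      { toFun := fun w => ⟨m * w * m⁻¹, hmR w w.2⟩
        map_one' := by ext; simp
        map_mul' := by intro a b; ext; simp [mul_assoc] } with hf
    have hfinj : Function.Injective f := by
      intro a b hab
      have := congrArg Subtype.val hab
      simp only [hf, MonoidHom.mk'_apply] at this
      apply Subtype.ext
      simpa using this
    have h1 : ((Subgroup.zpowers y).map f) = Subgroup.zpowers y := by
      apply eq_of_card_eq_of_isCyclic
      rw [Subgroup.card_map_of_injective hfinj]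
    obtain ⟨w, hw, rfl⟩ := hu
    have h2 : f w ∈ (Subgroup.zpowers y).map f := Subgroup.mem_map_of_mem _ hw
    rw [h1] at h2
    exact ⟨f w, h2, rfl⟩

/-- A nontrivial normal `p`-subgroup of a maximal subgroup with `p ∉ σ(M)` is cyclic and `p ∈ τ₂(M)`. -/
theorem tau2_of_normal_pgroup {M R : Subgroup G} (hG : IsMinSimpleOddOrder G) (hM : IsCoatom M) {p : ℕ}
    [Fact p.Prime] (hpσ : p ∉ sigma M) (hRp : IsPGroup p R) (hR1 : R ≠ ⊥) (hRM : R ≤ M)
    (hn : M ≤ normalizer (R : Set G)) : p ∈ tau2 M ∧ IsCyclic R := by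
  classical
  have hp : p.Prime := Fact.out
  have h2 : PRankLE p 2 M := by
    by_contra h
    exact hpσ (alpha_sub_sigma hG (huniq13 hG) hM ⟨hp, h⟩)
  by_cases hc : IsCyclic R
  · refine ⟨⟨hp, hpσ, h2, ?_⟩, hc⟩
    obtain ⟨X, hXR, hXc, hXn⟩ := exists_inv_prime_of_cyclic hRp hR1 hc hn
    have hX1 : X ≠ ⊥ := by
      rintro rfl
      simp at hXc
      exact hp.one_lt.ne hXc
    have hNX := normalizer_eq_of_coatom_le hG hM hX1 (hXR.trans hRM) hXn
    exact (s1409_core hG (huniq13 hG) hM hpσ X hXc hNX.le).1.2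
  · exfalso
    obtain ⟨A, hAR, hAe, hAc⟩ := exists_e2_of_not_cyclic hG hRp hc
    have hτ : p ∈ tau2 M := by
      refine ⟨hp, hpσ, h2, ?_⟩
      apply not_prank_of_ea (hAR.trans hRM) hAe
      rw [hAc, pow_one, pow_two]
      exact lt_mul_self hp.one_lt
    have hd := (Cfsg.Agent.S1417.result hG M hM p hτ A ⟨hAR.trans hRM, hAe, hAc⟩).2.2.2.1
    apply sigmaCore_ne_bot hG (huniq13 hG) hM
    rw [eq_bot_iff]
    intro s hs
    have hcomm : s ∈ centralizer (A : Set G) := by
      rw [mem_centralizer_iff]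
      intro a ha
      have haR := hAR ha
      have hsM : s ∈ M := (piCoreOf_le (sigma M) M) hs
      have haM := hRM haR
      have hσn : M ≤ normalizer (sigmaCore M : Set G) := le_normalizer_piCoreOf (sigma M) M
      have h3 : a * s * a⁻¹ * s⁻¹ ∈ sigmaCore M :=
        mul_mem ((mem_normalizer_iff.1 (hσn haM) s).1 hs) (inv_mem hs)
      have h4 : a * s * a⁻¹ * s⁻¹ ∈ R := by
        have : s * a⁻¹ * s⁻¹ ∈ R := (mem_normalizer_iff.1 (hn hsM) _).1 (inv_mem haR)
        have h5 : a * (s * a⁻¹ * s⁻¹) ∈ R := mul_mem haR this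
        simpa [mul_assoc] using h5
      have h5 : a * s * a⁻¹ * s⁻¹ = 1 := by
        have hD : IsPGroup p (R ⊓ sigmaCore M : Subgroup G) :=
          hRp.to_le (inf_le_left : R ⊓ sigmaCore M ≤ R)
        by_contra hne
        have hD1 : (R ⊓ sigmaCore M : Subgroup G) ≠ ⊥ := by
          intro h
          have : a * s * a⁻¹ * s⁻¹ ∈ (R ⊓ sigmaCore M : Subgroup G) := ⟨h4, h3⟩
          rw [h] at this
          exact hne this
        apply hpσ
        obtain ⟨k, hk⟩ := IsPGroup.iff_card.1 hD
        have h6 : Nat.card (R ⊓ sigmaCore M : Subgroup G) ≠ 1 :=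
          fun h => hD1 ((Subgroup.card_eq_one).1 h)
        have h7 : p ∣ Nat.card (R ⊓ sigmaCore M : Subgroup G) := by
          rcases k with _ | k
          · exact absurd (by simpa using hk) h6
          · rw [hk, pow_succ]; exact dvd_mul_left _ _
        exact piCoreOf_isPi (sigma M) M p hp (h7.trans (Subgroup.card_dvd_of_le inf_le_right))
      have h6 : a * s = s * a := by
        have := h5
        rw [mul_inv_eq_one, mul_inv_eq_iff_eq_mul] at this
        exact this
      exact h6.symm ▸ rfl
    rw [← hd]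
    exact ⟨hs, hcomm⟩

/-- All Sylow subgroups inside a subgroup `S`: then `S` is everything. -/
theorem le_of_forall_sylow_le {F S : Subgroup G} (hSF : S ≤ F)
    (h : ∀ (p : ℕ) [Fact p.Prime] (P : Sylow p F), (P : Subgroup F).map F.subtype ≤ S) : F ≤ S := by
  classical
  by_contra hne
  have hi : S.relIndex F ≠ 1 := by
    intro h1
    exact hne (Subgroup.relIndex_eq_one.1 h1)
  obtain ⟨p, hp, hpd⟩ := Nat.exists_prime_and_dvd hi
  haveI : Fact p.Prime := ⟨hp⟩
  obtain ⟨P⟩ : Nonempty (Sylow p F) := inferInstance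
  have hPS : (P : Subgroup F) ≤ S.subgroupOf F := by
    intro x hx
    exact h p P (Subgroup.mem_map_of_mem _ hx)
  have h1 : (S.subgroupOf F).index ∣ (P : Subgroup F).index := Subgroup.index_dvd_of_le hPS
  have h2 : S.relIndex F = (S.subgroupOf F).index := rfl
  exact P.not_dvd_index (hpd.trans (h2 ▸ h1))

/-- The Fitting structure of a maximal subgroup (S1439). -/
theorem s1439_core {M : Subgroup G} (hG : IsMinSimpleOddOrder G) (hM : IsCoatom M) :
    IsCyclic ↥(piCoreOf {q | q.Prime ∧ q ∉ sigma M} (fittingOf M)) ∧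
      (∀ p : ℕ, p.Prime → p ∣ Nat.card ↥(piCoreOf {q | q.Prime ∧ q ∉ sigma M} (fittingOf M)) → p ∈ tau2 M) ∧
      fittingOf M = fittingOf (sigmaCore M) ⊔ piCoreOf {q | q.Prime ∧ q ∉ sigma M} (fittingOf M) := by
  classical
  set τ : Set ℕ := {q | q.Prime ∧ q ∉ sigma M} with hτ
  set Y := piCoreOf τ (fittingOf M) with hY
  have hFM : fittingOf M ≤ M := fittingOf_le M
  have hFn : M ≤ normalizer (fittingOf M : Set G) := fittingOf_normalized M
  have hFnil : Group.IsNilpotent (fittingOf M) := fittingOf_isNilpotent M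
  have hYF : Y ≤ fittingOf M := piCoreOf_le _ _
  have hYnil : Group.IsNilpotent Y := Basic.isNilpotent_of_le hYF hFnil
  have hYn : M ≤ normalizer (Y : Set G) := fun m hm => le_normalizer_piCoreOf_of_normalizer τ (hFn hm)
  have hkey : ∀ (p : ℕ) [Fact p.Prime], p ∣ Nat.card Y → p ∈ tau2 M ∧ IsCyclic (Oq p Y) := by
    intro p _ hd
    have hp : p.Prime := Fact.out
    have hpσ : p ∉ sigma M := (piCoreOf_isPi τ (fittingOf M) p hp hd).2
    have hR1 : Oq p Y ≠ ⊥ := Oq_ne_bot hYnil hd
    exact tau2_of_normal_pgroup hG hM hpσ (Oq_isPGroup p Y) hR1 ((Oq_le p Y).trans (hYF.trans hFM))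
      (fun m hm => mem_normalizer_Oq hYnil (hYn hm))
  refine ⟨?_, ?_, ?_⟩
  · haveI : IsZGroup Y := by
      refine ⟨fun p hp P => ?_⟩
      haveI : Fact p.Prime := ⟨hp⟩
      by_cases hd : p ∣ Nat.card Y
      · have hc := (hkey p hd).2
        have hle : (P : Subgroup Y).map Y.subtype ≤ Oq p Y := by
          rintro _ ⟨x, hx, rfl⟩
          obtain ⟨k, hk⟩ := P.isPGroup' ⟨x, hx⟩
          apply mem_Oq hYnil x.2 (k := k)
          have := congrArg (fun z : ↥(P : Subgroup Y) => ((z : ↥Y) : G)) hk
          simpa using this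
        have h1 : IsCyclic ((P : Subgroup Y).map Y.subtype) :=
          Subgroup.isCyclic_of_le hle
        have e := Subgroup.equivMapOfInjective (P : Subgroup Y) Y.subtype Y.subtype_injective
        exact isCyclic_of_surjective e.symm.toMonoidHom e.symm.surjective
      · have hPc : Nat.card (P : Subgroup Y) = 1 := by
          obtain ⟨k, hk⟩ := IsPGroup.iff_card.1 P.isPGroup'
          rcases k with _ | k
          · simpa using hk
          · exfalso
            apply hd
            have h2 : p ∣ Nat.card (P : Subgroup Y) := by rw [hk, pow_succ]; exact dvd_mul_left _ _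
            exact h2.trans (Subgroup.card_subgroup_dvd_card _)
        haveI : Subsingleton (P : Subgroup Y) := (Nat.card_eq_one_iff_unique.1 hPc).1
        infer_instance
    haveI : Group.IsNilpotent Y := hYnil
    infer_instance
  · intro p hp hd
    haveI : Fact p.Prime := ⟨hp⟩
    exact (hkey p hd).1
  · have hσn : M ≤ normalizer (sigmaCore M : Set G) := le_normalizer_piCoreOf (sigma M) M
    have hσM : sigmaCore M ≤ M := piCoreOf_le (sigma M) M
    have h1 : fittingOf (sigmaCore M) ≤ fittingOf M :=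
      le_fittingOf ((fittingOf_le _).trans hσM)
        (fun m hm => normalizer_le_normalizer_fittingOf _ (hσn hm)) (fittingOf_isNilpotent _)
    apply le_antisymm
    · apply le_of_forall_sylow_le (sup_le h1 hYF)
      intro p _ P
      have hOn : M ≤ normalizer (Oq p (fittingOf M) : Set G) :=
        fun m hm => mem_normalizer_Oq hFnil (hFn hm)
      have hOM : Oq p (fittingOf M) ≤ M := (Oq_le p _).trans hFM
      have hR : (P : Subgroup (fittingOf M)).map (fittingOf M).subtype ≤ Oq p (fittingOf M) := by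
        rintro _ ⟨x, hx, rfl⟩
        obtain ⟨k, hk⟩ := P.isPGroup' ⟨x, hx⟩
        apply mem_Oq hFnil x.2 (k := k)
        have := congrArg (fun z : ↥(P : Subgroup (fittingOf M)) => ((z : ↥(fittingOf M)) : G)) hk
        simpa using this
      refine hR.trans ?_
      by_cases hpσ : p ∈ sigma M
      · refine le_trans ?_ (le_sup_left (a := fittingOf (sigmaCore M)))
        have h2 : Oq p (fittingOf M) ≤ sigmaCore M :=
          le_sigmaCore_of_isPGroup hG (huniq13 hG) hM hpσ (Oq_isPGroup p _) hOM
        exact le_fittingOf h2 (fun m hm => hOn (hσM hm)) (Oq_isPGroup p _).isNilpotent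
      · refine le_trans ?_ (le_sup_right (b := Y))
        apply le_piCoreOf (Oq_le p _) (fun m hm => hOn (hFM hm))
        intro q hq hqd
        have hpq : q = p := by
          obtain ⟨k, hk⟩ := IsPGroup.iff_card.1 (Oq_isPGroup p (fittingOf M))
          rw [hk] at hqd
          exact (Nat.prime_dvd_prime_iff_eq hq Fact.out).1 (hq.dvd_of_dvd_pow hqd)
        subst hpq
        exact ⟨hq, hpσ⟩
    · exact sup_le h1 hYF

end Cfsg.Agent.Lib.FT
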