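import Cfsg.Agent.Lib.FT.BG11s

/-!
BG section 12 in the form of a standard factorisation `M = K U M_σ`: S1358, S1359, S1360, S1361.
-/

set_option autoImplicit false
set_option linter.unusedSectionVars false
set_option linter.style.haveILetI false

namespace Cfsg.Agent.Lib.FT

open Subgroup Cfsg Cfsg.Agent.Lib.OddLocal Cfsg.Agent.Lib.Basic

open Cfsg.Agent.Lib.Coprime (mem_conj_map conj_mem_conj_map conj_map_conj_map conj_map_one
  conj_map_mono mem_normalizer_of_conj_le conj_map_eq_iff_mem_normalizer isPGroup_conj_map)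

variable {G : Type*} [Group G] [Finite G]

section Decomp

variable {M K U : Subgroup G}

/-- The order of `K ⊔ M_σ`, when `K` is a Hall `κ(M)`-subgroup. -/
theorem card_kappa_sup (hG : IsMinSimpleOddOrder G) (huniq : UniquenessThm G) (hM : IsCoatom M)
    (hK : IsPiHallOf (kappa M) K M) : Nat.card ↥(K ⊔ sigmaCore M) = Nat.card K * Nat.card (sigmaCore M) := by
  have hKN : K ≤ normalizer (sigmaCore M : Set G) := hK.1.trans (le_normalizer_piCoreOf _ _)
  have hcop : (Nat.card (sigmaCore M)).Coprime (Nat.card K) := Nat.coprime_of_dvd fun k hk h1 h2 =>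
    (hK.2.1 k hk h2).2.2.1 ((s1350_core hG huniq hM).1.2.1 k hk h1)
  have hinf : sigmaCore M ⊓ K = ⊥ := disjoint_iff.1 (Subgroup.disjoint_of_coprime_natCard hcop)
  have h1 : Nat.card ↥(sigmaCore M ⊔ K) * Nat.card ↥(sigmaCore M ⊓ K) = Nat.card (sigmaCore M) * Nat.card K :=
    card_sup_mul_card_inf hKN
  rw [hinf, Subgroup.card_bot, mul_one, sup_comm] at h1
  rw [h1, mul_comm]

theorem card_decomp (hG : IsMinSimpleOddOrder G) (huniq : UniquenessThm G) (hM : IsCoatom M)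
    (hKU : IsSigmaDecomposition M K U) : Nat.card M = Nat.card U * (Nat.card K * Nat.card (sigmaCore M)) := by
  rw [IsComplIn_card_eq hKU.compl, card_kappa_sup hG huniq hM hKU.hall]

theorem not_sigma_of_dvd_U (hG : IsMinSimpleOddOrder G) (huniq : UniquenessThm G) (hM : IsCoatom M)
    (hKU : IsSigmaDecomposition M K U) {p : ℕ} (hp : p.Prime) (hd : p ∣ Nat.card U) : p ∉ sigma M := by
  intro hpσ
  haveI : Fact p.Prime := ⟨hp⟩
  obtain ⟨u, hu⟩ := exists_prime_orderOf_dvd_card' (G := ↥U) p hd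
  have hu' : orderOf (u : G) = p := by rw [Subgroup.orderOf_coe, hu]
  have hzp : IsPGroup p (zpowers (u : G)) := by
    rw [IsPGroup.iff_card, Nat.card_zpowers, hu']
    exact ⟨1, (pow_one p).symm⟩
  have h1 := le_sigmaCore_of_isPGroup hG huniq hM hpσ hzp (zpowers_le.2 (hKU.compl.1 u.2))
  have h2 : (u : G) ∈ U ⊓ (K ⊔ sigmaCore M) := ⟨u.2, (le_sup_right : sigmaCore M ≤ _) (h1 (mem_zpowers _))⟩
  rw [hKU.compl.2.2.1, Subgroup.mem_bot] at h2
  rw [h2, orderOf_one] at hu'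
  exact hp.one_lt.ne hu'

theorem not_kappa_of_dvd_U (hG : IsMinSimpleOddOrder G) (huniq : UniquenessThm G) (hM : IsCoatom M)
    (hKU : IsSigmaDecomposition M K U) {p : ℕ} (hp : p.Prime) (hd : p ∣ Nat.card U) : p ∉ kappa M := by
  intro hpκ
  apply hKU.hall.2.2 p hp hpκ
  have h1 : Nat.card K * K.relIndex M = Nat.card M := by
    have := Subgroup.card_mul_index (K.subgroupOf M)
    rwa [Cfsg.Agent.Lib.OddLocal.card_subgroupOf_of_le hKU.hall.1] at this
  have h2 := card_decomp hG huniq hM hKU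
  have h3 : K.relIndex M = Nat.card U * Nat.card (sigmaCore M) := by
    have h4 : Nat.card K * K.relIndex M = Nat.card K * (Nat.card U * Nat.card (sigmaCore M)) := by
      rw [h1, h2]
      ring
    exact Nat.eq_of_mul_eq_mul_left Nat.card_pos h4
  rw [h3]
  exact hd.trans (dvd_mul_right _ _)

/-- `K ⊔ U` is a complement of `M_σ`. -/
theorem compl_of_decomp (hG : IsMinSimpleOddOrder G) (huniq : UniquenessThm G) (hM : IsCoatom M)
    (hKU : IsSigmaDecomposition M K U) : IsComplIn (K ⊔ U) (sigmaCore M) M := by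
  classical
  have hKU' : IsSigmaDecomposition M K U := hKU
  obtain ⟨-, hK, hC, hN⟩ := hKU
  refine ⟨sup_le hK.1 hC.1, (s1350_core hG huniq hM).1.1, ?_, ?_⟩
  · have h1 : Nat.card ↥(U ⊔ K) * Nat.card ↥(U ⊓ K) = Nat.card U * Nat.card K := card_sup_mul_card_inf hN
    have hcop : (Nat.card ↥(K ⊔ U)).Coprime (Nat.card (sigmaCore M)) := by
      refine Nat.coprime_of_dvd fun k hk h2 h3 => ?_
      have hkσ := (s1350_core hG huniq hM).1.2.1 k hk h3
      rw [sup_comm] at h2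
      have h4 : k ∣ Nat.card U * Nat.card K := by
        rw [← h1]
        exact h2.trans (dvd_mul_right _ _)
      rcases (Nat.Prime.dvd_mul hk).1 h4 with h5 | h5
      · exact not_sigma_of_dvd_U hG huniq hM hKU' hk h5 hkσ
      · exact (hK.2.1 k hk h5).2.2.1 hkσ
    exact disjoint_iff.1 (Subgroup.disjoint_of_coprime_natCard hcop)
  · intro m hm
    obtain ⟨u, hu, b, hb, rfl⟩ := hC.2.2.2 m hm
    have hb' : b ∈ ((K ⊔ sigmaCore M : Subgroup G) : Set G) := hb
    rw [Subgroup.coe_mul_of_left_le_normalizer_right K (sigmaCore M)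
      (hK.1.trans (le_normalizer_piCoreOf _ _))] at hb'
    obtain ⟨k, hk, s, hs, rfl⟩ := Set.mem_mul.1 hb'
    exact ⟨u * k, Subgroup.mul_mem _ ((le_sup_right : U ≤ K ⊔ U) hu) ((le_sup_left : K ≤ K ⊔ U) hk), s, hs,
      (mul_assoc _ _ _).symm⟩

/-- A prime of `τ₂(M)` is not in `κ(M)`. -/
theorem not_kappa_of_tau2 {r : ℕ} (hr : r ∈ tau2 M) : r ∉ kappa M := by
  classical
  intro hκ
  haveI : Fact r.Prime := ⟨hr.1⟩
  obtain ⟨R, hR, -⟩ := exists_isMaxP_ge (p := r) (T := ⊥) (N := M) bot_le IsPGroup.of_bot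
  obtain ⟨hc, -⟩ := hκ.2.2.2 hR.toSylow
  have hRc : IsCyclic R := by
    haveI : IsCyclic ↥(R.subgroupOf M) := hc
    have e : ↥(R.subgroupOf M) ≃* ↥R := Subgroup.subgroupOfEquivOfLe hR.le
    exact isCyclic_of_surjective e.toMonoidHom e.surjective
  apply hr.2.2.2
  apply hR.prank_of
  intro F hFc hFp
  have h1 : IsCyclic F := by
    haveI : IsCyclic ↥R := hRc
    infer_instance
  have := card_le_of_cyclic_elem (q := r) ⟨hFc, hFp⟩ h1
  simpa using this

/-- `U` contains Sylow subgroups of `M` at the primes of `τ₂(M)`. -/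
theorem tau2_sylow_in_U (hG : IsMinSimpleOddOrder G) (huniq : UniquenessThm G) (hM : IsCoatom M)
    (hKU : IsSigmaDecomposition M K U) {r : ℕ} (hr : r ∈ tau2 M) : ∃ R : Subgroup G, IsMaxP r R M ∧ R ≤ U := by
  classical
  haveI : Fact r.Prime := ⟨hr.1⟩
  obtain ⟨R₀, hR₀, -⟩ := exists_isMaxP_ge (p := r) (T := ⊥) (N := M) bot_le IsPGroup.of_bot
  obtain ⟨R', hR', -⟩ := exists_isMaxP_ge (p := r) (T := ⊥) (N := U) bot_le IsPGroup.of_bot
  refine ⟨R', isMaxP_of_card hR₀ (hR'.le.trans hKU.compl.1) hR'.isP ?_, hR'.le⟩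
  obtain ⟨j, hj⟩ := IsPGroup.iff_card.1 hR₀.isP
  have h1 : r ^ j ∣ Nat.card M := by
    rw [← hj]
    exact Subgroup.card_dvd_of_le hR₀.le
  rw [card_decomp hG huniq hM hKU] at h1
  have hcK : (r ^ j).Coprime (Nat.card K) := Nat.Coprime.pow_left j
    ((Nat.Prime.coprime_iff_not_dvd hr.1).2 fun h => not_kappa_of_tau2 hr (hKU.hall.2.1 r hr.1 h))
  have hcσ : (r ^ j).Coprime (Nat.card (sigmaCore M)) := Nat.Coprime.pow_left j
    ((Nat.Prime.coprime_iff_not_dvd hr.1).2 fun h => hr.2.1 ((s1350_core hG huniq hM).1.2.1 r hr.1 h))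
  have h2 : r ^ j ∣ Nat.card U := (Nat.Coprime.mul_right hcK hcσ).dvd_of_dvd_mul_right h1
  have h5 := hR'.toSylow.pow_dvd_card_of_pow_dvd_card h2
  have hcR : Nat.card (hR'.toSylow : Subgroup ↥U) = Nat.card R' :=
    Cfsg.Agent.Lib.OddLocal.card_subgroupOf_of_le hR'.le
  rw [hcR] at h5
  rw [hj]
  exact Nat.le_of_dvd Nat.card_pos h5

/-- An element of `M` at a prime of `τ₁ ∪ τ₃` with fixed points on `M_σ`: the prime is in `κ(M)`. -/
theorem kappa_of_good (hG : IsMinSimpleOddOrder G) {e : G} (heM : e ∈ M) (he1 : e ≠ 1) {q : ℕ} (hq : q.Prime)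
    (heq : e ^ q = 1) (hσ : q ∉ sigma M) (h1 : PRankLE q 1 M) (hg : sigmaCore M ⊓ centralizer ({e} : Set G) ≠ ⊥) :
    q ∈ kappa M := by
  classical
  haveI : Fact q.Prime := ⟨hq⟩
  have ho : orderOf e = q := orderOf_eq_prime heq he1
  have hdM : q ∣ Nat.card M := by
    rw [← ho]
    exact Subgroup.orderOf_dvd_natCard _ heM
  have hq2 : q ≠ 2 := prime_odd hG hq (hdM.trans (Subgroup.card_subgroup_dvd_card M))
  refine ⟨hq, hdM, hσ, fun P => ⟨?_, ?_⟩⟩
  · by_contra hnc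
    exact not_prank_one_of_not_cyclic hq2 P.isPGroup' hnc
      (Cfsg.Agent.Lib.FT.prank_of_injective (P : Subgroup ↥M).subtype (Subgroup.subtype_injective _) h1)
  · obtain ⟨y, hy, hy1⟩ := (Subgroup.bot_or_exists_ne_one _).resolve_left hg
    have hzp : IsPGroup q (zpowers (⟨e, heM⟩ : ↥M)) := by
      rw [IsPGroup.iff_card, Nat.card_zpowers, Subgroup.orderOf_mk, ho]
      exact ⟨1, (pow_one q).symm⟩
    obtain ⟨S, hS⟩ := hzp.exists_le_sylow
    obtain ⟨g, hg'⟩ := MulAction.exists_smul_eq ↥M S P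
    have hx : g * (⟨e, heM⟩ : ↥M) * g⁻¹ ∈ (P : Subgroup ↥M) := by
      rw [← hg', Sylow.coe_subgroup_smul]
      exact Subgroup.smul_mem_pointwise_smul _ (MulAut.conj g) _ (hS (mem_zpowers _))
    refine ⟨_, hx, ?_, (g : G) * y * (g : G)⁻¹, ?_, ?_, ?_⟩
    · intro h
      apply he1
      have h2 : (g : G) * e * (g : G)⁻¹ = 1 := congrArg Subtype.val h
      have e2 : e = (g : G)⁻¹ * ((g : G) * e * (g : G)⁻¹) * g := by group
      rw [e2, h2]
      group
    · exact (Subgroup.mem_normalizer_iff.1 (le_normalizer_piCoreOf _ _ g.2) y).1 hy.1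
    · intro h
      apply hy1
      have e2 : y = (g : G)⁻¹ * ((g : G) * y * (g : G)⁻¹) * g := by group
      rw [e2, h]
      group
    · have h3 : y * e = e * y := mem_centralizer_singleton_iff.1 hy.2
      change (g : G) * e * (g : G)⁻¹ * _ = _
      calc (g : G) * e * (g : G)⁻¹ * ((g : G) * y * (g : G)⁻¹) = g * (e * y) * (g : G)⁻¹ := by group
        _ = g * (y * e) * (g : G)⁻¹ := by rw [h3]
        _ = (g : G) * y * (g : G)⁻¹ * ((g : G) * e * (g : G)⁻¹) := by group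

/-- Elements of `U` in `τ₁ ∪ τ₃` are free. -/
theorem free_of_tau13_in_U (hG : IsMinSimpleOddOrder G) (huniq : UniquenessThm G) (hM : IsCoatom M)
    (hKU : IsSigmaDecomposition M K U) {e : G} (he : e ∈ U) (he1 : e ≠ 1)
    (hq : ∀ q : ℕ, q.Prime → q ∣ orderOf e → q ∈ tau1 M ∪ tau3 M) : sigmaCore M ⊓ centralizer ({e} : Set G) = ⊥ := by
  classical
  have hord1 : orderOf e ≠ 1 := by rwa [Ne, orderOf_eq_one_iff]
  obtain ⟨q, hqp, hqd⟩ := Nat.exists_prime_and_dvd hord1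
  haveI : Fact q.Prime := ⟨hqp⟩
  have he'o : orderOf (e ^ (orderOf e / q)) = q := orderOf_pow_orderOf_div (orderOf_pos e).ne' hqd
  have he'1 : e ^ (orderOf e / q) ≠ 1 := by
    intro h
    rw [h, orderOf_one] at he'o
    exact hqp.one_lt.ne he'o
  have he'q : (e ^ (orderOf e / q)) ^ q = 1 := orderOf_dvd_iff_pow_eq_one.1 (by rw [he'o])
  have heM : e ∈ M := hKU.compl.1 he
  have hqU : q ∣ Nat.card U := hqd.trans (Subgroup.orderOf_dvd_natCard _ he)
  have hq' := hq q hqp hqd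
  have hσ : q ∉ sigma M := not_sigma_of_dvd_U hG huniq hM hKU hqp hqU
  have h1 : PRankLE q 1 M := by
    rcases hq' with h | h
    · exact h.2.2.2.2
    · exact h.2.2.2
  by_contra hg
  exact not_kappa_of_dvd_U hG huniq hM hKU hqp hqU
    (kappa_of_good hG (M.pow_mem heM _) he'1 hqp he'q hσ h1 fun hb => hg (bad_of_pow hb))

theorem good_of_mem_sigmaHat {x : G} (hx : x ∈ sigmaHat M) : sigmaCore M ⊓ centralizer ({x} : Set G) ≠ ⊥ := by
  obtain ⟨-, y, hy, hy1, hxy⟩ := hx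
  intro h
  have h1 : y ∈ sigmaCore M ⊓ centralizer ({x} : Set G) :=
    ⟨hy, mem_centralizer_singleton_iff.2 hxy.symm⟩
  rw [h, Subgroup.mem_bot] at h1
  exact hy1 h1

/-- **S1358**. -/
theorem s1358_core (hG : IsMinSimpleOddOrder G) (huniq : UniquenessThm G)
    (hpl : ∀ (r : ℕ) [Fact r.Prime] (H : Subgroup G), H ≠ ⊤ → PLengthLE r 1 ↥H) (h1412 : Sylow2Struct G)
    (hM : IsCoatom M) (hKU : IsSigmaDecomposition M K U) :
    ∀ (p : ℕ), p.Prime → ∀ P : Sylow p U, IsMulCommutative (P : Subgroup U) ∧ PRankLE p 2 (P : Subgroup U) := by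
  classical
  intro p hp P
  haveI : Fact p.Prime := ⟨hp⟩
  have hUM : U ≤ M := hKU.compl.1
  by_cases hd : p ∣ Nat.card U
  · have hσ : p ∉ sigma M := not_sigma_of_dvd_U hG huniq hM hKU hp hd
    refine ⟨⟨⟨fun a b => Subtype.ext (Subtype.ext ?_)⟩⟩, ?_⟩
    · have hT : IsPGroup p ((P : Subgroup U).map U.subtype) := P.isPGroup'.map _
      exact comm_of_not_sigma hG huniq hpl h1412 hM hσ (Subgroup.map_subtype_le _ |>.trans hUM) hT
        ⟨(a : ↥U), a.2, rfl⟩ ⟨(b : ↥U), b.2, rfl⟩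
    · exact Cfsg.Agent.Lib.FT.prank_of_injective ((Subgroup.inclusion hUM).comp (P : Subgroup U).subtype)
        ((Subgroup.inclusion_injective hUM).comp (Subgroup.subtype_injective _)) (prank_of_not_sigma hG huniq hM hσ)
  · have hbot : (P : Subgroup U) = ⊥ := by
      obtain ⟨n, hn⟩ := IsPGroup.iff_card.1 P.isPGroup'
      have hcop : (Nat.card ↥(P : Subgroup U)).Coprime p := by
        have h1 : Nat.card ↥(P : Subgroup U) ∣ Nat.card U := Subgroup.card_subgroup_dvd_card _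
        exact Nat.Coprime.coprime_dvd_left h1 ((Nat.Prime.coprime_iff_not_dvd hp).2 hd).symm
      have h2 : Nat.card ↥(P : Subgroup U) = 1 := by
        rw [hn] at hcop ⊢
        rcases n with _ | n
        · simp
        · exfalso
          have h3 : p ∣ Nat.gcd (p ^ (n + 1)) p := Nat.dvd_gcd (dvd_pow_self p (Nat.succ_ne_zero n)) (dvd_refl p)
          rw [hcop] at h3
          exact hp.one_lt.ne' (Nat.dvd_one.1 h3)
      exact Subgroup.card_eq_one.1 h2
    refine ⟨⟨⟨fun a b => Subtype.ext ?_⟩⟩, ?_⟩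
    · obtain ⟨a, ha⟩ := a
      obtain ⟨b, hb⟩ := b
      have ha' : a = 1 := by
        rw [hbot, Subgroup.mem_bot] at ha
        exact ha
      have hb' : b = 1 := by
        rw [hbot, Subgroup.mem_bot] at hb
        exact hb
      change a * b = b * a
      rw [ha', hb']
    · intro F _ hFp
      have h1 : Nat.card F ≤ 1 := by
        haveI : Subsingleton ↥(P : Subgroup U) := by
          rw [hbot]
          infer_instance
        haveI : Subsingleton F := inferInstance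
        simp
      exact h1.trans (Nat.one_le_pow _ _ hp.pos)

/-- **S1359**. -/
theorem s1359_core (hG : IsMinSimpleOddOrder G) (huniq : UniquenessThm G)
    (hpl : ∀ (r : ℕ) [Fact r.Prime] (H : Subgroup G), H ≠ ⊤ → PLengthLE r 1 ↥H) (h1412 : Sylow2Struct G)
    (hM : IsCoatom M) (hKU : IsSigmaDecomposition M K U) :
    IsMulCommutative (closure ((U : Set G) ∩ sigmaHat M)) :=
  Subgroup.isMulCommutative_closure fun _ hx _ hy =>
    comm_of_good hG huniq hpl h1412 hM (compl_of_decomp hG huniq hM hKU) (le_sup_right : U ≤ K ⊔ U)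
      (fun _ he he1 hq => free_of_tau13_in_U hG huniq hM hKU he he1 hq) hx.1 hy.1
      (good_of_mem_sigmaHat hx.2) (good_of_mem_sigmaHat hy.2)

/-- **S1360**. -/
theorem s1360_core (hG : IsMinSimpleOddOrder G) (huniq : UniquenessThm G)
    (hpl : ∀ (r : ℕ) [Fact r.Prime] (H : Subgroup G), H ≠ ⊤ → PLengthLE r 1 ↥H) (h1412 : Sylow2Struct G)
    (hM : IsCoatom M) (hKU : IsSigmaDecomposition M K U) :
    ∃ U₀ : Subgroup G, U₀ ≤ U ∧ Monoid.exponent U₀ = Monoid.exponent U ∧ ∀ u ∈ U₀, u ∈ sigmaHat M → u = 1 := by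
  obtain ⟨E₀, h1, h2, h3⟩ := exists_free_subgroup hG huniq hpl h1412 hM (compl_of_decomp hG huniq hM hKU)
    (le_sup_right : U ≤ K ⊔ U) (fun r hr => tau2_sylow_in_U hG huniq hM hKU hr)
    (fun _ he he1 hq => free_of_tau13_in_U hG huniq hM hKU he he1 hq)
  refine ⟨E₀, h1, h2, fun u hu hσ => ?_⟩
  by_contra hu1
  exact good_of_mem_sigmaHat hσ (h3 u hu hu1)

/-- **S1361**. -/
theorem s1361_core (hG : IsMinSimpleOddOrder G) (huniq : UniquenessThm G)
    (hpl : ∀ (r : ℕ) [Fact r.Prime] (H : Subgroup G), H ≠ ⊤ → PLengthLE r 1 ↥H) (h1412 : Sylow2Struct G)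
    (hM : IsCoatom M) (hKU : IsSigmaDecomposition M K U) (X : Subgroup G) (hXU : X ≤ U) (hX : X ≠ ⊥)
    (hXc : sigmaCore M ⊓ centralizer (X : Set G) ≠ ⊥) :
    centralizer (X : Set G) ≤ M ∧ ∀ L : Subgroup G, IsCoatom L → centralizer (X : Set G) ≤ L → L = M := by
  classical
  have hE := compl_of_decomp hG huniq hM hKU
  have hUE : U ≤ K ⊔ U := le_sup_right
  have hh : ∀ e ∈ U, e ≠ 1 → (∀ q : ℕ, q.Prime → q ∣ orderOf e → q ∈ tau1 M ∪ tau3 M) →
      sigmaCore M ⊓ centralizer ({e} : Set G) = ⊥ := fun _ he he1 hq => free_of_tau13_in_U hG huniq hM hKU he he1 hq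
  obtain ⟨y, hy, hy1⟩ := (Subgroup.bot_or_exists_ne_one _).resolve_left hXc
  have hgood : ∀ x ∈ X, sigmaCore M ⊓ centralizer ({x} : Set G) ≠ ⊥ := by
    intro x hx h
    have h1 : y ∈ sigmaCore M ⊓ centralizer ({x} : Set G) :=
      ⟨hy.1, centralizer_le_of_mem hx hy.2⟩
    rw [h, Subgroup.mem_bot] at h1
    exact hy1 h1
  obtain ⟨x₀, hx₀, hx₀1⟩ := (Subgroup.bot_or_exists_ne_one X).resolve_left hX
  have hord1 : orderOf x₀ ≠ 1 := by rwa [Ne, orderOf_eq_one_iff]
  obtain ⟨q, hqp, hqd⟩ := Nat.exists_prime_and_dvd hord1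
  haveI : Fact q.Prime := ⟨hqp⟩
  have he'o : orderOf (x₀ ^ (orderOf x₀ / q)) = q := orderOf_pow_orderOf_div (orderOf_pos x₀).ne' hqd
  have he'1 : x₀ ^ (orderOf x₀ / q) ≠ 1 := by
    intro h
    rw [h, orderOf_one] at he'o
    exact hqp.one_lt.ne he'o
  have he'X : x₀ ^ (orderOf x₀ / q) ∈ X := X.pow_mem hx₀ _
  generalize x₀ ^ (orderOf x₀ / q) = x' at he'o he'1 he'X
  have hqτ : q ∈ tau2 M := by
    refine tau2_of_good hG huniq hM hE hUE hh (hXU he'X) (hgood x' he'X) hqp ?_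
    rw [he'o]
  obtain ⟨P, A, hPE, hPM, hAP, hAe, hAc⟩ := exists_tau2_data hG huniq hM hE hqτ
  have T : Tau2Setup q A M := Tau2Setup.mk' hG huniq hpl hM (hAP.trans hPM.le) hAe hAc hqτ.2.1
  have hAE : A ≤ K ⊔ U := hAP.trans hPE.le
  have hx'A : x' ∈ A := by
    have h1 := T.order_p_le hE hAE (zpowers_le.2 (hUE (hXU he'X))) (by rw [Nat.card_zpowers, he'o])
    exact h1 (mem_zpowers x')
  have hCx' : centralizer (X : Set G) ≤ centralizer ({x'} : Set G) := centralizer_le_of_mem he'X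
  refine ⟨hCx'.trans (T.cent_le hx'A he'1 (hgood x' he'X)), fun L hL hCL => ?_⟩
  -- `X` centralizes `A`
  obtain ⟨Q, hQE, hAQ, -, hQab, -, hQm⟩ := T.exists_Q h1412 hE hPE hAP
  have hXA : X ≤ centralizer (A : Set G) := by
    intro x hx
    refine mem_of_primary_parts fun r hr a ha hk => ?_
    by_cases ha1 : a = 1
    · rw [ha1]
      exact one_mem _
    have haX : a ∈ X := (zpowers_le.2 hx) ha
    have hag := hgood a haX
    obtain ⟨k, hk'⟩ := hk
    obtain ⟨j, -, hj⟩ := (Nat.dvd_prime_pow hr).1 (orderOf_dvd_of_pow_eq_one hk')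
    have hj0 : j ≠ 0 := by
      rintro rfl
      rw [pow_zero] at hj
      exact ha1 (orderOf_eq_one_iff.1 hj)
    have hrd : r ∣ orderOf a := by
      rw [hj]
      exact dvd_pow_self r hj0
    have hrτ : r ∈ tau2 M := tau2_of_good hG huniq hM hE hUE hh (hXU haX) hag hr hrd
    rw [Subgroup.mem_centralizer_iff]
    intro b hb
    by_cases hrq : r = q
    · subst hrq
      exact hQab b (hAQ hb) a (hQm a (hUE (hXU haX)) ⟨k, hk'⟩ hag)
    · have h1 := T.comm_of_tau2 h1412 hE hAE (hUE (hXU haX)) hrτ hrq hk' hb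
      calc b * a = a * b * a⁻¹ * a := by rw [h1]
        _ = a * b := by group
  have hAC : A ≤ centralizer (X : Set G) := fun a ha => by
    rw [Subgroup.mem_centralizer_iff]
    intro x hx
    exact (Subgroup.mem_centralizer_iff.1 (hXA hx) a ha).symm
  by_contra hne
  have h2 := T.e hL hne (hAC.trans hCL)
  have h3 : y ∈ sigmaCore M ⊓ L := ⟨hy.1, hCL hy.2⟩
  rw [h2, Subgroup.mem_bot] at h3
  exact hy1 h3

end Decomp

end Cfsg.Agent.Lib.FT
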