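import Cfsg.Agent.Lib.FT.BG13g
import Cfsg.Agent.Lib.FT.BG14a

/-!
BG section 12, S1428 (helper1): preliminaries, and the case `p ∉ σ(H)`.
-/

set_option autoImplicit false
set_option linter.unusedSectionVars false
set_option linter.style.haveILetI false

namespace Cfsg.Agent.Lib.FT

open Subgroup Cfsg Cfsg.Agent.Lib.OddLocal Cfsg.Agent.Lib.Basic

open Cfsg.Agent.Lib.Coprime (mem_conj_map conj_mem_conj_map conj_map_conj_map conj_map_one
  conj_map_mono mem_normalizer_of_conj_le conj_map_eq_iff_mem_normalizer isPGroup_conj_map)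

variable {G : Type*} [Group G] [Finite G]

/-- A commutator modulo a normalized subgroup, written out. -/
theorem comm_mod_normal {W L : Subgroup G} (hL : L ≤ normalizer (W : Set G)) {k k' v v' : G} (hk : k ∈ W) (hk' : k' ∈ W)
    (hv : v ∈ L) (hv' : v' ∈ L) :
    ∃ u ∈ W, k * v * (k' * v') * (k * v)⁻¹ * (k' * v')⁻¹ = u * (v * v' * v⁻¹ * v'⁻¹) := by
  have hn : ∀ l ∈ L, ∀ w ∈ W, l * w * l⁻¹ ∈ W := fun l hl w hw => (mem_normalizer_iff.mp (hL hl) w).mp hw
  set c := v * v' * v⁻¹ * v'⁻¹ with hc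
  have hcL : c ∈ L := L.mul_mem (L.mul_mem (L.mul_mem hv hv') (L.inv_mem hv)) (L.inv_mem hv')
  have hy : v * v' * v⁻¹ ∈ L := L.mul_mem (L.mul_mem hv hv') (L.inv_mem hv)
  refine ⟨k * (v * k' * v⁻¹) * ((v * v' * v⁻¹) * k⁻¹ * (v * v' * v⁻¹)⁻¹) * (c * k'⁻¹ * c⁻¹), ?_, ?_⟩
  · exact W.mul_mem (W.mul_mem (W.mul_mem hk (hn v hv k' hk')) (hn _ hy _ (W.inv_mem hk))) (hn c hcL _ (W.inv_mem hk'))
  · rw [hc]
    group

/-- An element of order prime to `p` with a `p`-power in a subgroup lies in that subgroup. -/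
theorem mem_of_pow_mem_of_coprime {T : Subgroup G} {c : G} {p n : ℕ} (hc : (orderOf c).Coprime p) (h : c ^ p ^ n ∈ T) : c ∈ T := by
  have h1 : (orderOf c).Coprime (p ^ n) := Nat.Coprime.pow_right _ hc
  obtain ⟨m, hm⟩ := exists_pow_eq_self_of_coprime h1.symm
  rw [← hm]
  exact T.pow_mem h m


section
variable {p : ℕ} [Fact p.Prime]

/-- A maximal `p`-subgroup of `H`, `p ∈ σ(H)`, is a Sylow subgroup of `G`. -/
theorem isMaxP_top_of_sigma {H S : Subgroup G} (hp : p ∈ sigma H) (hS : IsMaxP p S H) : IsMaxP p S ⊤ := by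
  obtain ⟨S', e, -⟩ := sigma_sylow hp hS.toSylow
  have e2 : ((hS.toSylow : Subgroup ↥H).map H.subtype) = S := by
    change (S.subgroupOf H).map H.subtype = S
    exact Subgroup.map_subgroupOf_eq_of_le hS.le
  rw [e2] at e
  rw [← e]
  exact ⟨le_top, S'.isPGroup', fun D' _ h2 h3 => S'.is_maximal' h2 h3⟩

/-- Swapping the factors of a complement. -/
theorem isComplIn_symm {A B M : Subgroup G} (h : IsComplIn A B M) : IsComplIn B A M := by
  obtain ⟨h1, h2, h3, h4⟩ := h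
  refine ⟨h2, h1, by rw [inf_comm]; exact h3, fun m hm => ?_⟩
  obtain ⟨a, ha, b, hb, e⟩ := h4 m⁻¹ (M.inv_mem hm)
  refine ⟨b⁻¹, B.inv_mem hb, a⁻¹, A.inv_mem ha, ?_⟩
  rw [← mul_inv_rev, ← e, inv_inv]

/-- By S1411, a nontrivial Sylow subgroup of `G` is not centralized by its normalizer. -/
theorem not_norm_le_cent_of_sylow (hG : IsMinSimpleOddOrder G) {S : Subgroup G} (hS : IsMaxP p S ⊤) (hS1 : S ≠ ⊥) :
    ¬ normalizer (S : Set G) ≤ centralizer (S : Set G) := by
  classical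
  intro hN
  have hpp : p.Prime := Fact.out
  let Pst : Sylow p G :=
    { toSubgroup := S, isPGroup' := hS.isP, is_maximal' := fun {Q} hQ hle => hS.max Q le_top hQ hle }
  have hmax : IsMaxP p S (normalizer (S : Set G)) := ⟨le_normalizer, hS.isP, fun D' _ h2 h3 => hS.max D' le_top h2 h3⟩
  have hnd : ¬ p ∣ S.relIndex (normalizer (S : Set G)) := not_dvd_relIndex_of_isMaxP hmax (le_refl S)
  have hcop : (Nat.card S).Coprime (S.relIndex (normalizer (S : Set G))) := by
    obtain ⟨k, hk⟩ := IsPGroup.iff_card.mp hS.isP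
    rw [hk]
    exact Nat.Coprime.pow_left _ ((Nat.Prime.coprime_iff_not_dvd hpp).mpr hnd)
  obtain ⟨V, hV, -⟩ := exists_compl_cop le_normalizer (le_refl _) hcop
  have hV' : IsComplIn (Pst : Subgroup G) V (normalizer ((Pst : Subgroup G) : Set G)) := isComplIn_symm hV
  have h := (s1411_core hG (fun H hH => hpl13 hG p H hH) Pst V hV').1
  have hb : ⁅S, V⁆ = ⊥ := by
    rw [Subgroup.commutator_eq_bot_iff_le_centralizer]
    intro x hx
    rw [mem_centralizer_iff]
    intro v hv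
    exact (mem_centralizer_iff.mp (hN (hV.1 hv)) x hx).symm
  apply hS1
  change (Pst : Subgroup G) = ⊥
  rw [h]
  exact hb

/-- An element `v = k u` normalizing the `p`-group `S`, with `k` in a normalized `p'`-group and `[u, x]` a `p'`-element, fixes `x`. -/
theorem conj_eq_of_factor {H K₀ S : Subgroup G} (hK : H ≤ normalizer (K₀ : Set G)) (hKc : (Nat.card K₀).Coprime p) (hS : IsPGroup p S)
    (hSH : S ≤ H) {v k u x : G} (hvS : v ∈ normalizer (S : Set G)) (hk : k ∈ K₀) (e : v = k * u) (hx : x ∈ S)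
    (htH : u * x * u⁻¹ * x⁻¹ ∈ H) (htc : (orderOf (u * x * u⁻¹ * x⁻¹)).Coprime p) : v * x * v⁻¹ = x := by
  classical
  have hpp : p.Prime := Fact.out
  set t := u * x * u⁻¹ * x⁻¹ with ht
  have hs : v * x * v⁻¹ * x⁻¹ ∈ S := S.mul_mem ((mem_normalizer_iff.mp hvS x).mp hx) (S.inv_mem hx)
  have hn : ∀ l ∈ H, ∀ w ∈ K₀, l * w * l⁻¹ ∈ K₀ := fun l hl w hw => (mem_normalizer_iff.mp (hK hl) w).mp hw
  have hk2 : k * (t * (x * k⁻¹ * x⁻¹) * t⁻¹) ∈ K₀ :=
    K₀.mul_mem hk (hn t htH _ (hn x (hSH hx) _ (K₀.inv_mem hk)))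
  have e2 : v * x * v⁻¹ * x⁻¹ = k * (t * (x * k⁻¹ * x⁻¹) * t⁻¹) * t := by
    rw [e, ht]
    group
  have htN : zpowers t ≤ normalizer (K₀ : Set G) := zpowers_le.mpr (hK htH)
  have hmem : v * x * v⁻¹ * x⁻¹ ∈ K₀ ⊔ zpowers t := by
    rw [e2]
    exact mul_mem (mem_sup_left hk2) (mem_sup_right (mem_zpowers t))
  have hcop : (Nat.card ↥(K₀ ⊔ zpowers t)).Coprime p := by
    apply Nat.Coprime.coprime_dvd_left (card_sup_dvd_of_le_normalizer K₀ (zpowers t) htN)
    rw [Nat.card_zpowers]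
    exact Nat.Coprime.mul_left hKc htc
  have hb := eq_bot_of_isPGroup_of_coprime (r := p) (hS.to_le (inf_le_left : S ⊓ (K₀ ⊔ zpowers t) ≤ S)) inf_le_right hcop
  have h1 : v * x * v⁻¹ * x⁻¹ ∈ S ⊓ (K₀ ⊔ zpowers t) := ⟨hs, hmem⟩
  rw [hb, mem_bot] at h1
  exact mul_inv_eq_one.mp h1

/-- The case `p ∉ σ(H)` of S1428. -/
theorem s1428_not_sigma {M H X : Subgroup G} (hG : IsMinSimpleOddOrder G) (hM : IsCoatom M) (hpσ : p ∉ sigma M)
    (hr : PRankLE p 1 ↥M) (hXM : X ≤ M) (hX : Nat.card X = p) (hH : IsCoatom H) (hNH : normalizer (X : Set G) ≤ H)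
    (hpH : p ∉ sigma H) {d s : G} (hd : d ∈ sigmaCore M ⊓ centralizer (X : Set G)) (hsM : s ∈ M)
    (hsC : s ∈ centralizer (X : Set G)) : d * s * d⁻¹ * s⁻¹ = 1 := by
  classical
  have hpp : p.Prime := Fact.out
  have hσM : sigmaCore M ≤ M := piCoreOf_le _ M
  have hσn : M ≤ normalizer (sigmaCore M : Set G) := le_normalizer_piCoreOf (sigma M) M
  have hXp : IsPGroup p X := IsPGroup.of_card (n := 1) (by simpa using hX)
  have hX1 : X ≠ ⊥ := by
    rintro rfl
    simp at hX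
    exact hpp.one_lt.ne hX
  have hXtop : X ≠ ⊤ := fun h => hM.1 (top_le_iff.1 (h ▸ hXM))
  have hNtop : normalizer (X : Set G) ≠ ⊤ := IsMinSimpleOddOrder.normalizer_ne_top hG hX1 hXtop
  have hXH : X ≤ H := le_normalizer.trans hNH
  have hσH : sigmaCore H ≤ H := piCoreOf_le _ H
  have hσHn : H ≤ normalizer (sigmaCore H : Set G) := le_normalizer_piCoreOf (sigma H) H
  set D := sigmaCore M ⊓ centralizer (X : Set G) with hD
  have hDM : D ≤ sigmaCore M := inf_le_left
  have hDC : D ≤ centralizer (X : Set G) := inf_le_right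
  have hDH : D ≤ H := (hDC.trans (centralizer_le_normalizer' X)).trans hNH
  obtain ⟨⟨hr2, hr1⟩, hni, -⟩ := s1409_core hG (huniq13 hG) hH hpH X hX hNH
  obtain ⟨SH, hSHm, hSSH⟩ := exists_isMaxP_ge hXH hXp
  have hSHnc : ¬ IsCyclic SH := fun h => hr1 (hSHm.prank_of (prank_one_of_cyclic h))
  obtain ⟨A, hASH, hAe, hAc⟩ := exists_e2_of_not_cyclic hG hSHm.isP hSHnc
  have hAH : A ≤ H := hASH.trans hSHm.le
  have T : Tau2Setup p A H := Tau2Setup.mk' hG (huniq13 hG) (fun r _ K hK => hpl13 hG r K hK) hH hAH hAe hAc hpH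
  have hXA : X ≤ A := by
    intro x hx
    rw [← T.omega_iff hSHm hASH (hSSH hx)]
    have h1 : ((⟨x, hx⟩ : X) : G) ^ Nat.card X = 1 := by
      rw [← Subgroup.coe_pow, pow_card_eq_one']
      rfl
    rwa [hX] at h1
  -- `σ(H)` and `σ(M)` are disjoint
  have hdisj : ∀ r : ℕ, r ∈ sigma H → r ∉ sigma M := by
    intro r hrH hrM
    haveI : Fact r.Prime := ⟨hrH.1⟩
    obtain ⟨c, e⟩ := conj_of_sigma_nilpotent hG hM hH T.nil hrH hrM
    have h1 : A.map (MulAut.conj c).toMonoidHom ≤ M := e ▸ conj_map_mono hAH c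
    have h2 := card_le_of_prank hr (elem_conj_map hAe c) h1
    rw [Cfsg.Agent.Lib.Coprime.card_conj_map, hAc, pow_one] at h2
    have h3 := hpp.one_lt
    nlinarith
  set W := sigmaCore H ⊓ centralizer (X : Set G) with hW
  have hWn := normalizer_le_normalizer_inf_centralizer hNH hσHn
  set E' := (H ⊓ normalizer (A : Set G)) ⊓ centralizer (X : Set G) with hE'
  have hE'N : E' ≤ normalizer (X : Set G) := inf_le_right.trans (centralizer_le_normalizer' X)
  have hE'H : E' ≤ H := inf_le_left.trans inf_le_left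
  have hE'top : E' ≠ ⊤ := fun h => hNtop (top_le_iff.1 (h ▸ hE'N))
  set V := ⁅E', E'⁆ with hV
  have hVE' : V ≤ E' := Subgroup.commutator_le_self E'
  have hVW : V ≤ normalizer (W : Set G) := hVE'.trans (hE'N.trans hWn)
  have hBN : W ⊔ V ≤ normalizer (X : Set G) :=
    sup_le (inf_le_right.trans (centralizer_le_normalizer' X)) (hVE'.trans hE'N)
  have hBs : Group.IsSolvable ↥(W ⊔ V) :=
    IsMinSimpleOddOrder.isSolvable hG (fun h => hNtop (top_le_iff.1 (h ▸ hBN)))
  by_contra hne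
  set w := d * s * d⁻¹ * s⁻¹ with hwdef
  have hsN : s ∈ normalizer (D : Set G) := by
    rw [mem_normalizer_iff]
    intro x
    have h1 := mem_normalizer_iff.mp (hσn hsM) x
    have h2 := mem_normalizer_iff.mp (Cfsg.Agent.Lib.OddLocal.mem_normalizer_centralizer (centralizer_le_normalizer' X hsC)) x
    simp only [hD, mem_inf, h1, h2]
  have hwD : w ∈ D := by
    have h1 := (mem_normalizer_iff.mp hsN d⁻¹).mp (D.inv_mem hd)
    have e : w = d * (s * d⁻¹ * s⁻¹) := by simp only [hwdef, mul_assoc]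
    rw [e]
    exact D.mul_mem hd h1
  -- `w ∈ W V`
  have hsH : s ∈ H := hNH (centralizer_le_normalizer' X hsC)
  have hwB : w ∈ W ⊔ V := by
    obtain ⟨k, hk, hkC, v, hv, hvX, e⟩ := factor_of_core hσHn inf_le_left inf_le_right hAH T.inf_sigmaCore hXA T.exists_fac
      (hDH hd) (centralizer_le_normalizer' X (hDC hd))
    obtain ⟨k', hk', hkC', v', hv', hvX', e'⟩ := factor_of_core hσHn inf_le_left inf_le_right hAH T.inf_sigmaCore hXA T.exists_fac
      hsH (centralizer_le_normalizer' X hsC)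
    have hvC : v ∈ E' := by
      refine ⟨hv, ?_⟩
      have h1 : k⁻¹ * d ∈ centralizer (X : Set G) := mul_mem (inv_mem hkC) (hDC hd)
      have e2 : k⁻¹ * d = v := by rw [e]; group
      rwa [e2] at h1
    have hvC' : v' ∈ E' := by
      refine ⟨hv', ?_⟩
      have h1 : k'⁻¹ * s ∈ centralizer (X : Set G) := mul_mem (inv_mem hkC') hsC
      have e2 : k'⁻¹ * s = v' := by rw [e']; group
      rwa [e2] at h1
    obtain ⟨u, hu, e3⟩ := comm_mod_normal (W := W) (hE'N.trans hWn) (k := k) (k' := k') (v := v) (v' := v') ⟨hk, hkC⟩ ⟨hk', hkC'⟩ hvC hvC'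
    have e4 : w = u * (v * v' * v⁻¹ * v'⁻¹) := by
      rw [hwdef, ← e3, ← e, ← e']
    rw [e4]
    refine mul_mem (mem_sup_left hu) (mem_sup_right ?_)
    exact Subgroup.commutator_mem_commutator hvC hvC'
  obtain ⟨k, q, hq, ho⟩ : ∃ (k q : ℕ), q.Prime ∧ orderOf (w ^ k) = q := by
    have h1 : orderOf w ≠ 1 := fun h => hne (orderOf_eq_one_iff.mp h)
    obtain ⟨q, hq, hqd⟩ := Nat.exists_prime_and_dvd h1
    exact ⟨orderOf w / q, q, hq, orderOf_pow_orderOf_div (orderOf_pos w).ne' hqd⟩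
  haveI : Fact q.Prime := ⟨hq⟩
  have hyD : w ^ k ∈ D := D.pow_mem hwD k
  have hyB : w ^ k ∈ W ⊔ V := pow_mem hwB k
  set y := w ^ k with hy
  have hQc : Nat.card (zpowers y) = q := by
    rw [Nat.card_zpowers, ho]
  have hQσ : zpowers y ≤ sigmaCore M := zpowers_le.mpr (hDM hyD)
  have hqσ : q ∈ sigma M := piCoreOf_isPi (sigma M) M q hq (by
    rw [← hQc]
    exact Subgroup.card_dvd_of_le hQσ)
  have hqp : q ≠ p := fun h => hpσ (h ▸ hqσ)
  obtain ⟨g, hg, hle⟩ := exists_conj_le_of_cover (π := {q}) (L := W ⊔ V) (Y := zpowers y)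
      (W := W) (V := V) hBs (zpowers_le.mpr hyB)
      (fun r hr hd => by
        rw [hQc] at hd
        exact (Nat.prime_dvd_prime_iff_eq hr hq).mp hd)
      le_sup_left
      (fun r hr hd hrq => by
        rw [Set.mem_singleton_iff] at hrq
        subst hrq
        exact hdisj r (piCoreOf_isPi (sigma H) H r hr (hd.trans (Subgroup.card_dvd_of_le inf_le_left))) hqσ)
      le_sup_right
      (fun l hl => (Cfsg.Agent.Lib.Coprime.mem_sup_iff_of_le_normalizer hVW l).mp hl)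
  obtain ⟨w', hw', a, ha, hga⟩ := (Cfsg.Agent.Lib.Coprime.mem_sup_iff_of_le_normalizer hVW g).mp hg
  -- the subgroup `V` centralizes `A` on elements of order prime to `p`
  have hE'A : E' ≤ normalizer (A : Set G) := inf_le_left.trans inf_le_right
  have hA2 : PRankLE p 2 ↥A := by
    intro B _ _
    rw [← hAc]
    calc Nat.card B ≤ Nat.card ↥A := Subgroup.card_le_card_group B
      _ = _ := rfl
  have hE's : Group.IsSolvable ↥E' := IsMinSimpleOddOrder.isSolvable hG hE'top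
  have hE'o : Odd (Nat.card ↥E') := subgroup_odd hG E'
  have hVC := s1449_general p T.S.hp2 A E' (isPGroup_of_elem hAe) hA2 hE'A hE's hE'o
  have hcV : ∀ c ∈ V, orderOf c = q → c ∈ centralizer (A : Set G) := by
    intro c hc hco
    obtain ⟨n, hn⟩ := hVC c hc
    exact mem_of_pow_mem_of_coprime (p := p) (n := n) (by rw [hco]; exact (Nat.coprime_primes hq hpp).mpr hqp) hn
  have hyC : w'⁻¹ * y * w' ∈ centralizer (A : Set G) := by
    have h1 := hle (mem_zpowers y)
    rw [mem_conj_map, hga] at h1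
    have h0 : (w' * a)⁻¹ * y * (w' * a) ∈ centralizer (A : Set G) := by
      apply hcV _ h1
      have e0 : (w' * a)⁻¹ * y * (w' * a) = (w' * a)⁻¹ * y * ((w' * a)⁻¹)⁻¹ := by simp
      rw [e0, Cfsg.Agent.Lib.PGroups.orderOf_conj_eq, ho]
    have h2 : a * ((w' * a)⁻¹ * y * (w' * a)) * a⁻¹ ∈ centralizer (A : Set G) := by
      exact (mem_normalizer_iff.mp (Cfsg.Agent.Lib.OddLocal.mem_normalizer_centralizer (hE'A (hVE' ha))) _).mp h0
    convert h2 using 1
    group
  -- the subgroup `A₂ = w' A w'⁻¹`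
  have hA₂N : A.map (MulAut.conj w').toMonoidHom ≤ normalizer ((zpowers y : Subgroup G) : Set G) := by
    rintro _ ⟨b, hb, rfl⟩
    have h4 := (mem_centralizer_iff.mp hyC) b hb
    have hcomm : (MulAut.conj w').toMonoidHom b * y = y * (MulAut.conj w').toMonoidHom b := by
      change w' * b * w'⁻¹ * y = y * (w' * b * w'⁻¹)
      have e5 : b * (w'⁻¹ * y * w') = (w'⁻¹ * y * w') * b := h4
      calc w' * b * w'⁻¹ * y = w' * (b * (w'⁻¹ * y * w')) * w'⁻¹ := by group
        _ = w' * ((w'⁻¹ * y * w') * b) * w'⁻¹ := by rw [e5]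
        _ = y * (w' * b * w'⁻¹) := by group
    exact centralizer_le_normalizer' (zpowers y) ((mem_centralizer_iff.mpr (by
      intro t ht
      obtain ⟨n, rfl⟩ := mem_zpowers_iff.mp ht
      exact (Commute.zpow_left (Commute.symm hcomm) n).eq)))
  have hXA₂ : X ≤ A.map (MulAut.conj w').toMonoidHom := by
    intro x hx
    rw [mem_conj_map]
    have h6 := (mem_centralizer_iff.mp hw'.2) x hx
    have e6 : w'⁻¹ * x * w' = x := by
      rw [mul_assoc, h6]
      group
    rw [e6]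
    exact hXA hx
  exact lemmaQ' hG hM hr hni hXM hX hQc hQσ (elem_conj_map hAe w')
    (by rw [Cfsg.Agent.Lib.Coprime.card_conj_map, hAc]) hXA₂ hA₂N

end

end Cfsg.Agent.Lib.FT
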