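import Cfsg.Agent.Lib.FT.BG14b

/-!
BG section 12, S1428 (helper1): a Frobenius criterion for cyclicity of a Sylow subgroup.
-/

set_option autoImplicit false
set_option linter.unusedSectionVars false
set_option linter.style.haveILetI false

namespace Cfsg.Agent.Lib.FT

open Subgroup Cfsg Cfsg.Agent.Lib.OddLocal Cfsg.Agent.Lib.Basic

open Cfsg.Agent.Lib.Coprime (mem_conj_map conj_mem_conj_map conj_map_conj_map conj_map_one
  conj_map_mono mem_normalizer_of_conj_le conj_map_eq_iff_mem_normalizer isPGroup_conj_map)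

variable {G : Type*} [Group G] [Finite G]

section
variable {p : ℕ} [Fact p.Prime]

/-- The central elements of order dividing `p` of a subgroup. -/
def omegaCenterOf (S : Subgroup G) (p : ℕ) : Subgroup G where
  carrier := {x | x ∈ S ∧ (∀ y ∈ S, x * y = y * x) ∧ x ^ p = 1}
  mul_mem' := by
    rintro a b ⟨ha, ha2, ha3⟩ ⟨hb, hb2, hb3⟩
    refine ⟨S.mul_mem ha hb, ?_, ?_⟩
    · intro y hy
      rw [mul_assoc, hb2 y hy, ← mul_assoc, ha2 y hy, mul_assoc]
    · rw [(show Commute a b from ha2 b hb).mul_pow, ha3, hb3, one_mul]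
  one_mem' := ⟨S.one_mem, by simp, one_pow _⟩
  inv_mem' := by
    rintro a ⟨ha, ha2, ha3⟩
    refine ⟨S.inv_mem ha, ?_, by rw [inv_pow, ha3, inv_one]⟩
    intro y hy
    exact (show Commute a y from ha2 y hy).inv_left

theorem mem_omegaCenterOf {S : Subgroup G} {x : G} :
    x ∈ omegaCenterOf S p ↔ x ∈ S ∧ (∀ y ∈ S, x * y = y * x) ∧ x ^ p = 1 := Iff.rfl

/-- A normalizer of two subgroups normalizes their join. -/
theorem mem_normalizer_sup {A B : Subgroup G} {y : G} (hA : y ∈ normalizer (A : Set G)) (hB : y ∈ normalizer (B : Set G)) :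
    y ∈ normalizer ((A ⊔ B : Subgroup G) : Set G) := by
  rw [← conj_map_eq_iff_mem_normalizer] at hA hB ⊢
  rw [Subgroup.map_sup, hA, hB]

/-- The Frobenius criterion: a `p`-group `S`, `p` odd, with a subgroup `P` of order `p`, and a set `X` such that
`C_S(X)` is cyclic and all `Y`-invariant subgroups of exponent `p` over `P` centralize `X`, is cyclic. -/
theorem cyclic_of_inv {S P X Y : Subgroup G} (hp2 : p ≠ 2) (hS : IsPGroup p S) (hPS : P ≤ S) (hP : Nat.card P = p)
    (hYS : Y ≤ normalizer (S : Set G)) (hYP : Y ≤ centralizer (P : Set G))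
    (hc : IsCyclic ↥(S ⊓ centralizer (X : Set G)))
    (hB : ∀ B : Subgroup G, B ≤ S → Y ≤ normalizer (B : Set G) → (∀ x ∈ B, x ^ p = 1) → P ≤ B → B ≤ centralizer (X : Set G)) :
    IsCyclic S := by
  classical
  have hpp : p.Prime := Fact.out
  have hPp : IsPGroup p P := IsPGroup.of_card (n := 1) (by simpa using hP)
  -- a generator of `P`
  haveI : Fact (Nat.card P).Prime := ⟨hP ▸ hpp⟩
  haveI : IsCyclic P := isCyclic_of_prime_card rfl
  obtain ⟨⟨a, haP⟩, hag⟩ := IsCyclic.exists_generator (α := P)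
  have hPa : P = zpowers a := by
    apply le_antisymm
    · intro x hx
      obtain ⟨k, hk⟩ := hag ⟨x, hx⟩
      exact ⟨k, by simpa using congrArg Subtype.val hk⟩
    · rw [zpowers_le]
      exact haP
  have hPexp : ∀ x ∈ P, x ^ p = 1 := by
    intro x hx
    have h1 : ((⟨x, hx⟩ : P) : G) ^ Nat.card P = 1 := by
      rw [← Subgroup.coe_pow, pow_card_eq_one']
      rfl
    rwa [hP] at h1
  have hap : a ^ p = 1 := hPexp a haP
  set Z := omegaCenterOf S p with hZ
  have hZS : Z ≤ S := fun x hx => hx.1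
  have hZe : IsElementaryAbelian p Z := by
    refine ⟨⟨⟨?_⟩⟩, fun x hx => hx.2.2⟩
    rintro ⟨x, hx⟩ ⟨y, hy⟩
    exact Subtype.ext (hx.2.1 y hy.1)
  -- `Y` normalizes `Z`
  have hYZ : Y ≤ normalizer (Z : Set G) := by
    intro y hy
    apply mem_normalizer_of_conj_le
    rintro x ⟨hx, hx2, hx3⟩
    have hn := mem_normalizer_iff.mp (hYS hy)
    refine ⟨(hn x).mp hx, ?_, ?_⟩
    · intro u hu
      have h1 : y⁻¹ * u * y ∈ S := by
        have := (hn (y⁻¹ * u * y)).mpr
        apply this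
        convert hu using 1
        group
      have h2 := hx2 _ h1
      calc y * x * y⁻¹ * u = y * (x * (y⁻¹ * u * y)) * y⁻¹ := by group
        _ = y * ((y⁻¹ * u * y) * x) * y⁻¹ := by rw [h2]
        _ = u * (y * x * y⁻¹) := by group
    · rw [conj_pow, hx3]
      simp
  have hp1 : 1 < p := hpp.one_lt
  -- the first step: `Z ≤ P`
  have hB₁e : IsElementaryAbelian p (Z ⊔ zpowers a) :=
    isElementaryAbelian_sup_zpowers hZe hap (fun e he => (he.2.1 a (hPS haP)).symm)
  have hB₁S : Z ⊔ zpowers a ≤ S := sup_le hZS (zpowers_le.mpr (hPS haP))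
  have hB₁N : Y ≤ normalizer ((Z ⊔ zpowers a : Subgroup G) : Set G) := by
    intro y hy
    apply mem_normalizer_sup (hYZ hy)
    rw [← hPa]
    exact centralizer_le_normalizer' P (hYP hy)
  have hB₁P : P ≤ Z ⊔ zpowers a := by
    rw [hPa]
    exact le_sup_right
  have hB₁C := hB (Z ⊔ zpowers a) hB₁S hB₁N (fun x hx => hB₁e.2 x hx) hB₁P
  have hB₁c : IsCyclic ↥(Z ⊔ zpowers a) := Subgroup.isCyclic_of_le (le_inf hB₁S hB₁C)
  have hB₁card := card_le_of_cyclic_elem hB₁e hB₁c
  have hB₁eq : Z ⊔ zpowers a = P := (Subgroup.eq_of_le_of_card_ge hB₁P (by rw [hP]; exact hB₁card)).symm ▸ rfl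
  have hZP : Z ≤ P := le_sup_left.trans (le_of_eq hB₁eq)
  -- `P ≤ Z`
  have hS1 : S ≠ ⊥ := by
    intro h
    have h1 : P = ⊥ := le_bot_iff.mp (h ▸ hPS)
    rw [h1] at hP
    simp at hP
    exact hpp.one_lt.ne hP
  have hPZ : P ≤ Z := by
    haveI : Nontrivial ↥S := (Subgroup.nontrivial_iff_ne_bot _).mpr hS1
    haveI : Nontrivial ↥(center ↥S) := IsPGroup.center_nontrivial hS
    obtain ⟨z, hz, hz1, hzp⟩ := exists_order_p_of_ne_bot p (L := center ↥S)
      (IsPGroup.to_subgroup hS _) ((Subgroup.nontrivial_iff_ne_bot _).mp inferInstance)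
    have hzZ : (z : G) ∈ Z := by
      refine ⟨z.2, ?_, by simpa using congrArg Subtype.val hzp⟩
      intro y hy
      have := (Subgroup.mem_center_iff.mp hz) ⟨y, hy⟩
      exact (congrArg Subtype.val this).symm
    have hz1' : (z : G) ≠ 1 := fun h => hz1 (Subtype.ext h)
    have hzP := hZP hzZ
    have h3 : zpowers (z : G) = P := by
      apply Subgroup.eq_of_le_of_card_ge (zpowers_le.mpr hzP)
      rw [hP, Nat.card_zpowers]
      apply le_of_eq
      exact (orderOf_eq_prime (by simpa using congrArg Subtype.val hzp) hz1').symm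
    rw [← h3, zpowers_le]
    exact hzZ
  -- the second step
  by_contra hnc
  have hnc' : ¬ IsCyclic ↥S := hnc
  obtain ⟨E, hEn, hEe, hEc⟩ := Cfsg.Agent.Lib.Transfer.exists_normal_elementary_sq hp2 hS hnc'
  haveI hchar : (omegaZ2 ↥S p hp2).Characteristic := inferInstance
  set W := (omegaZ2 ↥S p hp2).map S.subtype with hW
  have hWS : W ≤ S := map_subtype_le _
  have hYW : Y ≤ normalizer (W : Set G) := hYS.trans (le_normalizer_map_of_characteristic _)
  have hWexp : ∀ x ∈ W, x ^ p = 1 := by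
    rintro _ ⟨w, hw, rfl⟩
    have := (mem_omegaZ2.1 hw).2
    simpa using congrArg Subtype.val this
  have hPW : P ≤ W := by
    intro x hx
    have hxS : x ∈ S := hPS hx
    refine ⟨⟨x, hxS⟩, ?_, rfl⟩
    refine mem_omegaZ2.2 ⟨?_, Subtype.ext (hPexp x hx)⟩
    have h1 : (⟨x, hxS⟩ : S) ∈ center ↥S := by
      rw [Subgroup.mem_center_iff]
      rintro ⟨y, hy⟩
      exact Subtype.ext ((hPZ hx).2.1 y hy).symm
    have h2 : center ↥S ≤ Subgroup.upperCentralSeries ↥S 2 := by
      rw [← Subgroup.upperCentralSeries_one]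
      exact Subgroup.upperCentralSeries_mono _ (by norm_num)
    exact h2 h1
  have hWC := hB W hWS hYW hWexp hPW
  have hEW : E ≤ omegaZ2 ↥S p hp2 := fun e he => ⟨normal_sq_le_Z2 p hS E hEc he, hEe.2 e he⟩
  have hE'W : E.map S.subtype ≤ W := map_mono hEW
  have hE'c : IsCyclic ↥(E.map S.subtype) := Subgroup.isCyclic_of_le ((hE'W.trans (le_inf hWS hWC)))
  have hE'e : IsElementaryAbelian p (E.map S.subtype) := isElementaryAbelian_map _ hEe
  have h1 := card_le_of_cyclic_elem hE'e hE'c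
  rw [Subgroup.card_map_of_injective S.subtype_injective, hEc] at h1
  have h3 : p < p ^ 2 := by
    calc p = p ^ 1 := (pow_one p).symm
      _ < p ^ 2 := Nat.pow_lt_pow_right hp1 (by norm_num)
  omega

/-- A `p`-subgroup of a subgroup of `p`-rank one is cyclic. -/
theorem isCyclic_of_rank_one (hG : IsMinSimpleOddOrder G) {S H : Subgroup G} (hS : IsPGroup p S) (hSH : S ≤ H)
    (hr : PRankLE p 1 ↥H) : IsCyclic S := by
  have hpp : p.Prime := Fact.out
  by_contra hnc
  obtain ⟨A, hAS, hAe, hAc⟩ := exists_e2_of_not_cyclic hG hS hnc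
  have h1 := card_le_of_prank hr hAe (hAS.trans hSH)
  rw [hAc] at h1
  have h3 : p ^ 1 < p ^ 2 := Nat.pow_lt_pow_right hpp.one_lt (by norm_num)
  omega

/-- Rank-one primes of `H` outside `σ(H)`: fixed points on `H_α` form a Z-group. -/
theorem zgroup_of_rank_one (hG : IsMinSimpleOddOrder G) {H : Subgroup G} (hH : IsCoatom H) {b : G} (hbH : b ∈ H) (hb : orderOf b = p)
    (hpσ : p ∉ sigma H) (hr : PRankLE p 1 ↥H) : IsZGroup ↥(alphaCore H ⊓ centralizer ({b} : Set G)) := by
  classical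
  have hpp : p.Prime := Fact.out
  have hbp : IsPGroup p (zpowers b) := by
    rw [IsPGroup.iff_card, Nat.card_zpowers, hb]
    exact ⟨1, (pow_one p).symm⟩
  obtain ⟨S, hS, hbS⟩ := exists_isMaxP_ge (zpowers_le.mpr hbH) hbp
  have hpd : p ∣ Nat.card H := by
    rw [← hb]
    exact Subgroup.orderOf_dvd_natCard H hbH
  obtain ⟨x, hx, hxo, hZ, -⟩ := s1407_core hG (huniq13 hG) hH hpd hpσ hS.toSylow
  have hxS : x ∈ S := by
    obtain ⟨_, ⟨u, hu, rfl⟩, rfl⟩ := hx
    exact Subgroup.mem_subgroupOf.mp u.2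
  have hSc : IsCyclic S := isCyclic_of_rank_one hG hS.isP hS.le hr
  have hx1 : x ≠ 1 := by
    rintro rfl
    simp at hxo
    exact hpp.one_lt.ne hxo
  have hxp : x ^ p = 1 := by
    rw [← hxo]
    exact pow_orderOf_eq_one x
  have hbp' : b ^ p = 1 := by
    rw [← hb]
    exact pow_orderOf_eq_one b
  have hbx : b ∈ zpowers x := mem_zpowers_of_cyclic hSc hxS (hbS (mem_zpowers b)) hx1 hxp hbp'
  have hb1 : b ≠ 1 := by
    rintro rfl
    simp at hb
    exact hpp.one_lt.ne hb
  have hxb : x ∈ zpowers b := mem_zpowers_of_cyclic hSc (hbS (mem_zpowers b)) hxS hb1 hbp' hxp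
  have e : centralizer ({x} : Set G) = centralizer ({b} : Set G) := by
    rw [← centralizer_zpowers_eq x, ← centralizer_zpowers_eq b]
    have : zpowers x = zpowers b := le_antisymm (zpowers_le.mpr hxb) (zpowers_le.mpr hbx)
    rw [this]
  rw [e] at hZ
  exact hZ

/-- Fixed points of a Frobenius complement: the step of the criterion. -/
theorem le_centralizer_of_frob {B K P V : Subgroup G} {b : G} {t q : ℕ} [Fact q.Prime] (hb : orderOf b = t) (ht : t.Prime) (htp : t ≠ p)
    (hqp : q ≠ p) (hBe : ∀ x ∈ B, x ^ p = 1) (hBp : IsPGroup p B) (hPB : P ≤ B) (hP : Nat.card P = p)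
    (hPb : P ≤ centralizer ({b} : Set G)) (hZ : IsZGroup ↥(K ⊓ centralizer ({b} : Set G))) (hBK : B ≤ K)
    (hV : IsPGroup q V) (hbV : b ∈ normalizer (V : Set G)) (hfpf : V ⊓ centralizer ({b} : Set G) = ⊥)
    (hVB : V ≤ normalizer (B : Set G)) (hbB : b ∈ normalizer (B : Set G)) (hPV : P ≤ centralizer (V : Set G)) :
    B ≤ centralizer (V : Set G) := by
  classical
  have hpp : p.Prime := Fact.out
  have hqq : q.Prime := Fact.out
  have hsolv : Group.IsSolvable ↥B := by
    haveI := hBp.isNilpotent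
    infer_instance
  have hcop : Nat.Coprime (Nat.card B) (Nat.card ↥(V ⊔ zpowers b)) := by
    apply Nat.Coprime.coprime_dvd_right (card_sup_dvd_of_le_normalizer V (zpowers b) (zpowers_le.mpr hbV))
    obtain ⟨k, hk⟩ := IsPGroup.iff_card.mp hBp
    obtain ⟨j, hj⟩ := IsPGroup.iff_card.mp hV
    rw [hk, hj, Nat.card_zpowers, hb]
    exact Nat.Coprime.pow_left _ (Nat.Coprime.mul_right (Nat.Coprime.pow_right _ ((Nat.coprime_primes hpp hqq).mpr (Ne.symm hqp)))
      ((Nat.coprime_primes hpp ht).mpr (Ne.symm htp)))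
  refine frob_fixed V B b (by rw [hb]; exact ht) hbV hfpf hVB hbB hsolv hcop ?_
  -- the fixed points are `P`
  set T := B ⊓ centralizer ({b} : Set G) with hT
  have hTP : IsPGroup p T := hBp.to_le inf_le_left
  have hTK : T ≤ K ⊓ centralizer ({b} : Set G) := inf_le_inf_right _ hBK
  have hTc : IsCyclic T := by
    haveI := hZ
    exact isCyclic_of_le_zgroup hTK hTP
  have hTe : IsElementaryAbelian p T := by
    refine ⟨?_, fun x hx => hBe x hx.1⟩
    exact IsCyclic.isMulCommutative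
  have h1 := card_le_of_cyclic_elem hTe hTc
  have hPT : P ≤ T := le_inf hPB hPb
  have h2 : P = T := Subgroup.eq_of_le_of_card_ge hPT (by rw [hP]; exact h1)
  rw [← h2]
  exact hPV

end

end Cfsg.Agent.Lib.FT
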