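import Cfsg.Agent.Lib.FT.BG14c

/-!
BG section 12, S1428 (helper1): the case `q ∈ σ(H)`, `p ∉ β(H)`.
-/

set_option autoImplicit false
set_option linter.unusedSectionVars false
set_option linter.style.haveILetI false

namespace Cfsg.Agent.Lib.FT

open Subgroup Cfsg Cfsg.Agent.Lib.OddLocal Cfsg.Agent.Lib.Basic

open Cfsg.Agent.Lib.Coprime (mem_conj_map conj_mem_conj_map conj_map_conj_map conj_map_one
  conj_map_mono mem_normalizer_of_conj_le conj_map_eq_iff_mem_normalizer isPGroup_conj_map)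

variable {G : Type*} [Group G] [Finite G]

section
variable {p : ℕ} [Fact p.Prime]

/-- **Lemma A'**: a `p`-subgroup of `M ∩ H`, `p ∉ σ(M)`, `p ∈ σ(H)`, centralizes `M_σ ∩ H`. -/
theorem sigma_inf_le_centralizer {M H P : Subgroup G} (hG : IsMinSimpleOddOrder G) (hM : IsCoatom M) (hH : IsCoatom H)
    (hpσ : p ∉ sigma M) (hpH : p ∈ sigma H) (hPM : P ≤ M) (hPH : P ≤ H) (hPp : IsPGroup p P) :
    sigmaCore M ⊓ H ≤ centralizer (P : Set G) := by
  classical
  have hpp : p.Prime := Fact.out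
  have hσM : sigmaCore M ≤ M := piCoreOf_le _ M
  have hσn : M ≤ normalizer (sigmaCore M : Set G) := le_normalizer_piCoreOf (sigma M) M
  set D := sigmaCore M ⊓ H with hD
  have hDM : D ≤ sigmaCore M := inf_le_left
  have hDH : D ≤ H := inf_le_right
  have hSND : P ≤ normalizer (D : Set G) := by
    intro s hs
    rw [mem_normalizer_iff]
    intro x
    have h1 := mem_normalizer_iff.mp (hσn (hPM hs)) x
    have h2 := mem_normalizer_iff.mp (le_normalizer (hPH hs)) x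
    simp only [hD, mem_inf, h1]
    constructor
    · rintro ⟨a, b⟩
      exact ⟨a, H.mul_mem (H.mul_mem (hPH hs) b) (H.inv_mem (hPH hs))⟩
    · rintro ⟨a, b⟩
      refine ⟨a, ?_⟩
      have := H.mul_mem (H.mul_mem (H.inv_mem (hPH hs)) b) (hPH hs)
      simpa [mul_assoc] using this
  have hSσ : P ≤ sigmaCore H := le_sigmaCore_of_isPGroup hG (huniq13 hG) hH hpH hPp hPH
  have hDtop : D ≠ ⊤ := fun h => hM.1 (top_le_iff.1 (h ▸ hDM.trans hσM))
  have hDs : Group.IsSolvable ↥D := IsMinSimpleOddOrder.isSolvable hG hDtop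
  have hDprimes : ∀ r : ℕ, r.Prime → r ∣ Nat.card D → r ∈ sigma M := fun r hr hd =>
    piCoreOf_isPi (sigma M) M r hr (hd.trans (Subgroup.card_dvd_of_le hDM))
  have hSprimes : ∀ r : ℕ, r.Prime → r ∣ Nat.card P → r = p := by
    intro r hr hd
    obtain ⟨k, hk⟩ := IsPGroup.iff_card.mp hPp
    rw [hk] at hd
    exact (Nat.prime_dvd_prime_iff_eq hr hpp).mp (hr.dvd_of_dvd_pow hd)
  have hcop : (Nat.card P).Coprime (Nat.card D) := Nat.coprime_of_dvd fun r hrp h1 h2 => by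
    have e := hSprimes r hrp h1
    rw [e] at h2
    exact hpσ (hDprimes p hpp h2)
  have hca : Cfsg.Agent.Lib.Coprime.CoprimeAction P D := ⟨hSND, hcop, Or.inr hDs⟩
  have hall : ∀ r : ℕ, r.Prime → ∃ Q : Subgroup G, IsPiHallOf {r} Q D ∧ Q ≤ centralizer (P : Set G) := by
    intro r hr
    haveI : Fact r.Prime := ⟨hr⟩
    obtain ⟨Q, hQ, hSQ, -⟩ := Cfsg.Agent.Lib.Coprime.exists_invariant_hall {r} _ hca hDs rfl (bot_le (a := D))
      (by
        intro s _
        rw [mem_normalizer_iff]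
        intro x
        simp) (by
        intro q hq hd
        simp at hd
        exact absurd hd hq.one_lt.ne')
    refine ⟨Q, hQ, ?_⟩
    by_cases hQ1 : Q = ⊥
    · rw [hQ1]
      exact bot_le
    have hQp : IsPGroup r Q := by
      rw [IsPGroup.iff_card]
      have h1 : ∀ q : ℕ, q.Prime → q ∣ Nat.card Q → q = r := fun q hq hd => by
        simpa using hQ.2.1 q hq hd
      exact ⟨(Nat.card Q).primeFactorsList.length, (Nat.eq_prime_pow_of_unique_prime_dvd Nat.card_pos.ne' (fun {q} hq hd => h1 q hq hd))⟩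
    have hrd : r ∣ Nat.card Q := by
      obtain ⟨k, hk⟩ := IsPGroup.iff_card.mp hQp
      have hk0 : k ≠ 0 := by
        rintro rfl
        exact hQ1 ((Subgroup.eq_bot_iff_card _).mpr (by simpa using hk))
      rw [hk]
      exact dvd_pow_self r hk0
    have hQD : Q ≤ D := hQ.1
    have hrσ : r ∈ sigma M := hDprimes r hr (hrd.trans (Subgroup.card_dvd_of_le hQD))
    have hrβ : r ∉ beta H := by
      intro hb
      obtain ⟨c, e⟩ := conj_of_alpha_sigma hG (huniq13 hG) hM hH hb.1 hrσ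
      rw [e] at hpH
      exact hpσ (not_sigma_of_conj hpH)
    have hrp : r ≠ p := fun h => hpσ (h ▸ hrσ)
    intro u hu
    rw [mem_centralizer_iff]
    intro s hs
    have hc : (orderOf s).Coprime r := by
      have hd : orderOf s ∣ Nat.card P := Subgroup.orderOf_dvd_natCard P hs
      exact Nat.Coprime.symm (Nat.coprime_of_dvd fun q hq h1 h2 => by
        have h3 := (Nat.prime_dvd_prime_iff_eq hq hr).mp h1
        subst h3
        have h4 := hSprimes q hq (h2.trans hd)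
        exact hrp h4)
    have h5 := comm_of_sigma_element hG hH hrβ hQp (hQD.trans hDH) (hSσ hs) hc (hSQ hs)
    rw [mem_centralizer_iff] at h5
    exact (h5 u hu).symm
  -- conclude
  have h1 : (D ⊓ centralizer (P : Set G)).relIndex D = 1 := by
    by_contra hne
    obtain ⟨r, hr, hd⟩ := Nat.exists_prime_and_dvd hne
    obtain ⟨Q, hQ, hQC⟩ := hall r hr
    have h2 : (D ⊓ centralizer (P : Set G)).relIndex D ∣ Q.relIndex D :=
      Subgroup.relIndex_dvd_of_le_left D (le_inf hQ.1 hQC)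
    exact hQ.2.2 r hr rfl (hd.trans h2)
  exact (Subgroup.relIndex_eq_one.mp h1).trans inf_le_right

/-- The factorization `H = H_β N_H(S)` at a prime of `σ(H)` outside `β(H)`. -/
theorem factor_of_sigma_sylow {H S : Subgroup G} {q : ℕ} [Fact q.Prime] (hG : IsMinSimpleOddOrder G) (hH : IsCoatom H)
    (hqH : q ∈ sigma H) (hqβ : q ∉ beta H) (hSH : IsMaxP q S H) :
    ∀ h ∈ H, ∃ k ∈ piCoreOf (beta H) H, ∃ c ∈ H ⊓ normalizer (S : Set G), h = k * c := by
  classical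
  have hqp : q.Prime := Fact.out
  obtain ⟨h1, -, -, ⟨Y, hY, hYn⟩, -⟩ := s1414_core hG (huniq13 hG) hH (fun r _ _ => hpl13 hG r H hH.1)
  have hσH : sigmaCore H ≤ H := piCoreOf_le _ H
  have hSσ : S ≤ sigmaCore H := le_sigmaCore_of_isPGroup hG (huniq13 hG) hH hqH hSH.isP hSH.le
  have hσs : Group.IsSolvable ↥(sigmaCore H) :=
    IsMinSimpleOddOrder.isSolvable hG (fun h => hH.1 (top_le_iff.1 (h ▸ hσH)))
  have hSprimes : ∀ r : ℕ, r.Prime → r ∣ Nat.card S → r ∈ {q | q.Prime ∧ q ∉ beta H} := by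
    intro r hr hd
    obtain ⟨k, hk⟩ := IsPGroup.iff_card.mp hSH.isP
    rw [hk] at hd
    have := (Nat.prime_dvd_prime_iff_eq hr hqp).mp (hr.dvd_of_dvd_pow hd)
    subst this
    exact ⟨hr, hqβ⟩
  obtain ⟨g, hg, hSY⟩ := IsPiHallOf.exists_conj_ge hσs hY hSσ hSprimes
  have hgH : g ∈ H := hσH hg
  -- `Y^g` normalizes `S`
  have hYg : Y.map (MulAut.conj g).toMonoidHom ≤ normalizer (S : Set G) := by
    have hS1 : S.map (MulAut.conj g⁻¹).toMonoidHom ≤ Y := by
      have := conj_map_mono hSY g⁻¹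
      rwa [conj_map_conj_map, inv_mul_cancel, conj_map_one] at this
    have hYH : Y ≤ H := hY.1.trans hσH
    have hmax : IsMaxP q (S.map (MulAut.conj g⁻¹).toMonoidHom) Y := by
      refine ⟨hS1, Cfsg.Agent.Lib.Coprime.isPGroup_conj_map hSH.isP _, ?_⟩
      intro D' hD' hD'p hle
      have h3 : IsMaxP q (S.map (MulAut.conj g⁻¹).toMonoidHom) H := hSH.conj_in (H.inv_mem hgH)
      exact h3.max D' (hD'.trans hYH) hD'p hle
    have h4 := le_normalizer_of_isMaxP_of_nilpotent hYn hmax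
    rintro _ ⟨y, hy, rfl⟩
    have h5 := h4 hy
    rw [← conj_map_eq_iff_mem_normalizer, conj_map_conj_map] at h5
    rw [← conj_map_eq_iff_mem_normalizer]
    have e : (MulAut.conj g).toMonoidHom y = g * y * g⁻¹ := by simp [MulAut.conj_apply]
    rw [e]
    have e2 : g * y * g⁻¹ * g = g * y := by group
    have h6 := congrArg (fun K : Subgroup G => K.map (MulAut.conj g).toMonoidHom) h5
    simp only [conj_map_conj_map] at h6
    have e3 : g * (y * g⁻¹) = g * y * g⁻¹ := by group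
    rw [e3] at h6
    have e4 : g * g⁻¹ = 1 := by group
    rw [e4, conj_map_one] at h6
    exact h6
  have hYgH : IsPiHallOf {q | q.Prime ∧ q ∉ beta H} (Y.map (MulAut.conj g).toMonoidHom) (sigmaCore H) :=
    IsPiHallOf.conj_in hY hg
  -- factorization of `H`
  intro h hh
  have hσn : H ≤ normalizer (sigmaCore H : Set G) := le_normalizer_piCoreOf (sigma H) H
  have hSmax : IsMaxP q S (sigmaCore H) := ⟨hSσ, hSH.isP, fun D' h1 h2 h3 => hSH.max D' (h1.trans hσH) h2 h3⟩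
  have hconj : S.map (MulAut.conj h).toMonoidHom ≤ sigmaCore H := by
    rintro _ ⟨x, hx, rfl⟩
    exact (mem_normalizer_iff.mp (hσn hh) x).mp (hSσ hx)
  obtain ⟨n, hn, hle⟩ := hSmax.exists_conj_le hconj (Cfsg.Agent.Lib.Coprime.isPGroup_conj_map hSH.isP h)
  rw [conj_map_conj_map] at hle
  have e3 : S.map (MulAut.conj (n * h)).toMonoidHom = S := by
    apply Subgroup.eq_of_le_of_card_ge hle
    rw [Cfsg.Agent.Lib.Coprime.card_conj_map]
  have hnh := (conj_map_eq_iff_mem_normalizer S (n * h)).mp e3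
  obtain ⟨b, hb, y, hy, hby⟩ := exists_mul_of_hall_hall (π := beta H) (π' := {q | q.Prime ∧ q ∉ beta H})
    (fun r hr h => h.2 hr) (betaCore_isHall_sigmaCore hG hH) hYgH
    (fun r hr => by
      by_cases h : r ∈ beta H
      · exact Or.inl h
      · exact Or.inr ⟨hr, h⟩) ((sigmaCore H).inv_mem hn)
  refine ⟨b, hb, y * (n * h), ⟨?_, ?_⟩, ?_⟩
  · exact H.mul_mem (hσH (hYgH.1 hy)) (H.mul_mem (hσH hn) hh)
  · exact mul_mem (hYg hy) hnh
  · rw [← mul_assoc, ← hby]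
    group

/-- An element of `M` normalizing a subgroup `P` of `M` with `P ∩ M' = 1` centralizes it. -/
theorem cent_of_norm_of_commutator {M P : Subgroup G} (hPM : P ≤ M) (hPp : IsPGroup p P) (hd : ¬ p ∣ Nat.card ↥⁅M, M⁆) {u : G} (huM : u ∈ M)
    (huN : u ∈ normalizer (P : Set G)) : u ∈ centralizer (P : Set G) := by
  classical
  have hpp : p.Prime := Fact.out
  rw [mem_centralizer_iff]
  intro x hx
  have h1 : u * x * u⁻¹ * x⁻¹ ∈ ⁅M, M⁆ := Subgroup.commutator_mem_commutator huM (hPM hx)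
  have h2 : u * x * u⁻¹ * x⁻¹ ∈ P := P.mul_mem ((mem_normalizer_iff.mp huN x).mp hx) (P.inv_mem hx)
  have hcop : (Nat.card ↥⁅M, M⁆).Coprime p := ((Nat.Prime.coprime_iff_not_dvd hpp).mpr hd).symm
  have hb := eq_bot_of_isPGroup_of_coprime (r := p) (hPp.to_le (inf_le_left : P ⊓ ⁅M, M⁆ ≤ P)) inf_le_right hcop
  have h3 : u * x * u⁻¹ * x⁻¹ ∈ P ⊓ ⁅M, M⁆ := ⟨h2, h1⟩
  rw [hb, mem_bot] at h3
  have h4 := mul_inv_eq_one.mp h3
  exact (mul_inv_eq_iff_eq_mul.mp h4).symm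

/-- Case (a): the prime `p` is outside `β(H)`, and `W` is a Sylow subgroup of `G` in `M ∩ H`, at a prime in `σ(M) ∩ σ(H)` outside `β(H)`. -/
theorem s1428_not_beta {M H W : Subgroup G} {q : ℕ} [Fact q.Prime] (hG : IsMinSimpleOddOrder G) (hH : IsCoatom H)
    (hd : ¬ p ∣ Nat.card ↥⁅M, M⁆) (hpH : p ∈ sigma H) (hpβ : p ∉ beta H) (hqM : q ∈ sigma M) (hqH : q ∈ sigma H)
    (hqβ : q ∉ beta H) (hWM : W ≤ M) (hWH : IsMaxP q W H) : False := by
  classical
  have hpp : p.Prime := Fact.out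
  have hσH : sigmaCore H ≤ H := piCoreOf_le _ H
  have hWt := isMaxP_top_of_sigma hqH hWH
  have hWMm : IsMaxP q W M := ⟨hWM, hWt.isP, fun D' _ h2 h3 => hWt.max D' le_top h2 h3⟩
  have hNM : normalizer (W : Set G) ≤ M := normalizer_le_of_isMaxP hqM hWMm
  have hfac := factor_of_sigma_sylow hG hH hqH hqβ hWH
  have hβ : H ≤ normalizer (piCoreOf (beta H) H : Set G) := le_normalizer_piCoreOf _ H
  obtain ⟨h1, -⟩ := s1414_core hG (huniq13 hG) hH (fun r _ _ => hpl13 hG r H hH.1)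
  have hβc : (Nat.card ↥(piCoreOf (beta H) H)).Coprime p :=
    ((Nat.Prime.coprime_iff_not_dvd hpp).mpr fun h => hpβ (h1.2.1 p hpp h)).symm
  obtain ⟨Ŝ, hŜ, -⟩ := exists_isMaxP_ge (p := p) (T := ⊥) (N := H) bot_le IsPGroup.of_bot
  have hHs : Group.IsSolvable ↥H := coatom_isSolvable hG hH
  obtain ⟨g, hg, hle⟩ := exists_conj_le_of_cover (π := {p}) (L := H) (Y := Ŝ) (W := piCoreOf (beta H) H) (V := H ⊓ normalizer (W : Set G)) hHs hŜ.le
    (fun r hr hd2 => by
      obtain ⟨k, hk⟩ := IsPGroup.iff_card.mp hŜ.isP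
      rw [hk] at hd2
      exact (Nat.prime_dvd_prime_iff_eq hr hpp).mp (hr.dvd_of_dvd_pow hd2))
    (piCoreOf_le _ H)
    (fun r hr hd2 hrp => by
      rw [Set.mem_singleton_iff] at hrp
      rw [hrp] at hd2
      exact hpβ (h1.2.1 p hpp hd2))
    inf_le_left hfac
  -- the conjugate of `Ŝ` in `N_H(W)`
  set S₁ := Ŝ.map (MulAut.conj g⁻¹).toMonoidHom with hS₁
  have hS₁H : IsMaxP p S₁ H := hŜ.conj_in (H.inv_mem hg)
  have hS₁N : S₁ ≤ H ⊓ normalizer (W : Set G) := by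
    have := conj_map_mono hle g⁻¹
    rwa [conj_map_conj_map, inv_mul_cancel, conj_map_one] at this
  have hS₁t := isMaxP_top_of_sigma hpH hS₁H
  have hS₁1 : S₁ ≠ ⊥ := by
    rintro h
    have hpd : p ∣ Nat.card H := hpH.2.1
    have h2 := hS₁H.toSylow
    have h3 : ¬ p ∣ (⊥ : Subgroup G).relIndex H := by
      rw [← h]
      exact not_dvd_relIndex_of_isMaxP hS₁H (le_refl _)
    apply h3
    rw [Subgroup.relIndex, Subgroup.bot_subgroupOf, Subgroup.index_bot]
    exact hpd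
  apply not_norm_le_cent_of_sylow hG hS₁t hS₁1
  intro v hv
  rw [mem_centralizer_iff]
  intro x hx
  have hvH : v ∈ H := normalizer_le_of_isMaxP hpH hS₁H hv
  obtain ⟨k, hk, n, hn, e⟩ := hfac v hvH
  have hnM : n ∈ M := hNM hn.2
  have hxN := hS₁N hx
  have hxM : x ∈ M := hNM hxN.2
  have ht : n * x * n⁻¹ * x⁻¹ ∈ H := H.mul_mem (H.mul_mem (H.mul_mem hn.1 hxN.1) (H.inv_mem hn.1)) (H.inv_mem hxN.1)
  have htc : (orderOf (n * x * n⁻¹ * x⁻¹)).Coprime p := by
    have h2 : n * x * n⁻¹ * x⁻¹ ∈ ⁅M, M⁆ := Subgroup.commutator_mem_commutator hnM hxM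
    have h3 : orderOf (n * x * n⁻¹ * x⁻¹) ∣ Nat.card ↥⁅M, M⁆ := Subgroup.orderOf_dvd_natCard _ h2
    exact Nat.Coprime.coprime_dvd_left h3 ((Nat.Prime.coprime_iff_not_dvd hpp).mpr hd).symm
  have := conj_eq_of_factor hβ hβc hS₁H.isP hS₁H.le hv hk e hx ht htc
  exact (mul_inv_eq_iff_eq_mul.mp this).symm

/-- Two subgroups of the same order in a cyclic subgroup are equal. -/
theorem eq_of_card_eq_in_cyclic {A B Y : Subgroup G} (hA : A ≤ Y) (hB : B ≤ Y) (hY : IsCyclic Y) (hc : Nat.card A = Nat.card B) : A = B := by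
  have h1 : Nat.card (A.subgroupOf Y) = Nat.card A := Nat.card_congr (Subgroup.subgroupOfEquivOfLe hA).toEquiv
  have h2 : Nat.card (B.subgroupOf Y) = Nat.card B := Nat.card_congr (Subgroup.subgroupOfEquivOfLe hB).toEquiv
  have h3 : A.subgroupOf Y = B.subgroupOf Y := eq_of_card_eq_of_isCyclic (by rw [h1, h2, hc])
  rw [Subgroup.subgroupOf_inj, inf_eq_left.mpr hA, inf_eq_left.mpr hB] at h3
  exact h3

/-- When `p, q ∉ β(H)`, `M_σ ∩ C_G(P)` contains a Sylow `q`-subgroup of `G`. -/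
theorem exists_sylow_in_cent {M H P : Subgroup G} {q : ℕ} [Fact q.Prime] (hG : IsMinSimpleOddOrder G) (hM : IsCoatom M) (hH : IsCoatom H)
    (hr1 : PRankLE p 1 ↥M) (hPM : P ≤ M) (hPH : P ≤ H) (hP : Nat.card P = p) (hpq : p ≠ q) (hpH : p ∈ sigma H) (hpβ : p ∉ beta H) (hqM : q ∈ sigma M)
    (hqH : q ∈ sigma H) (hqβ : q ∉ beta H) : ∃ W : Subgroup G, W ≤ sigmaCore M ⊓ centralizer (P : Set G) ∧ IsMaxP q W ⊤ := by
  classical
  have hpp : p.Prime := Fact.out
  have hqp : q.Prime := Fact.out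
  have hPp : IsPGroup p P := IsPGroup.of_card (n := 1) (by simpa using hP)
  obtain ⟨h1, -, -, ⟨Y, hY, hYn⟩, -⟩ := s1414_core hG (huniq13 hG) hH (fun r _ _ => hpl13 hG r H hH.1)
  have hσH : sigmaCore H ≤ H := piCoreOf_le _ H
  have hσs : Group.IsSolvable ↥(sigmaCore H) :=
    IsMinSimpleOddOrder.isSolvable hG (fun h => hH.1 (top_le_iff.1 (h ▸ hσH)))
  have hprimes : ∀ (T : Subgroup G) (t : ℕ), t.Prime → t ∉ beta H → IsPGroup t T → ∀ r : ℕ, r.Prime → r ∣ Nat.card T → r ∈ {q | q.Prime ∧ q ∉ beta H} := by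
    intro T t ht htβ hTt r hr hd
    haveI : Fact t.Prime := ⟨ht⟩
    obtain ⟨k, hk⟩ := IsPGroup.iff_card.mp hTt
    rw [hk] at hd
    have := (Nat.prime_dvd_prime_iff_eq hr ht).mp (hr.dvd_of_dvd_pow hd)
    subst this
    exact ⟨hr, htβ⟩
  obtain ⟨Ŝ, hŜ, -⟩ := exists_isMaxP_ge (p := q) (T := ⊥) (N := H) bot_le IsPGroup.of_bot
  have hŜσ : Ŝ ≤ sigmaCore H := le_sigmaCore_of_isPGroup hG (huniq13 hG) hH hqH hŜ.isP hŜ.le
  obtain ⟨g, hg, hŜY⟩ := IsPiHallOf.exists_conj_ge hσs hY hŜσ (hprimes Ŝ q hqp hqβ hŜ.isP)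
  set W₀ := Ŝ.map (MulAut.conj g⁻¹).toMonoidHom with hW₀
  have hW₀Y : W₀ ≤ Y := by
    have := conj_map_mono hŜY g⁻¹
    rwa [conj_map_conj_map, inv_mul_cancel, conj_map_one] at this
  have hW₀H : IsMaxP q W₀ H := hŜ.conj_in (H.inv_mem (hσH hg))
  have hYH : Y ≤ H := hY.1.trans hσH
  have hW₀m : IsMaxP q W₀ Y := ⟨hW₀Y, hW₀H.isP, fun D' h2 h3 h4 => hW₀H.max D' (h2.trans hYH) h3 h4⟩
  have hYN := le_normalizer_of_isMaxP_of_nilpotent hYn hW₀m
  have hPσ : P ≤ sigmaCore H := le_sigmaCore_of_isPGroup hG (huniq13 hG) hH hpH hPp hPH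
  obtain ⟨g₁, hg₁, hPY⟩ := IsPiHallOf.exists_conj_ge hσs hY hPσ (hprimes P p hpp hpβ hPp)
  set P' := P.map (MulAut.conj g₁⁻¹).toMonoidHom with hP'
  have hP'Y : P' ≤ Y := by
    have := conj_map_mono hPY g₁⁻¹
    rwa [conj_map_conj_map, inv_mul_cancel, conj_map_one] at this
  have hP'C : P' ≤ centralizer (W₀ : Set G) := by
    intro x hx
    have hxσ : x ∈ sigmaCore H := hY.1 (hP'Y hx)
    have hP'p : IsPGroup p P' := isPGroup_conj_map hPp _
    have hc : (orderOf x).Coprime q := by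
      obtain ⟨k, hk⟩ := (IsPGroup.iff_orderOf.mp hP'p) ⟨x, hx⟩
      have e : orderOf x = p ^ k := by rw [← hk, Subgroup.orderOf_mk]
      rw [e]
      exact Nat.Coprime.pow_left _ ((Nat.coprime_primes hpp hqp).mpr hpq)
    exact comm_of_sigma_element hG hH hqβ hW₀H.isP hW₀H.le hxσ hc (hYN (hP'Y hx))
  -- back to `P`
  set W₁ := W₀.map (MulAut.conj g₁).toMonoidHom with hW₁
  have hW₁H : IsMaxP q W₁ H := hW₀H.conj_in (hσH hg₁)
  have hW₁t := isMaxP_top_of_sigma hqH hW₁H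
  have hPC : P ≤ centralizer (W₁ : Set G) := by
    have h2 := conj_map_mono hP'C g₁
    rw [← centralizer_conj_map, hP', conj_map_conj_map, mul_inv_cancel, conj_map_one] at h2
    exact h2
  -- to `M`
  obtain ⟨SM, hSM, hSMN⟩ := sigma_exists_sylow hqM
  have hSMt : IsMaxP q (SM : Subgroup G) ⊤ := ⟨le_top, SM.isPGroup', fun D' _ h2 h3 => SM.is_maximal' h2 h3⟩
  obtain ⟨n, -, hn⟩ := hW₁t.exists_conj_eq hSMt
  have hPn : P.map (MulAut.conj n).toMonoidHom ≤ centralizer ((SM : Subgroup G) : Set G) := by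
    have h2 := conj_map_mono hPC n
    rwa [← centralizer_conj_map, hn] at h2
  have hPnM : P.map (MulAut.conj n).toMonoidHom ≤ M :=
    hPn.trans ((centralizer_le_normalizer' _).trans hSMN)
  obtain ⟨Sp, hSp, hPSp⟩ := exists_isMaxP_ge hPM hPp
  have hSpc : IsCyclic Sp := isCyclic_of_rank_one hG hSp.isP hSp.le hr1
  obtain ⟨m, hm, hle⟩ := hSp.exists_conj_le hPnM (isPGroup_conj_map hPp n)
  rw [conj_map_conj_map] at hle
  have hPe : P.map (MulAut.conj (m * n)).toMonoidHom = P :=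
    eq_of_card_eq_in_cyclic hle hPSp hSpc (Cfsg.Agent.Lib.Coprime.card_conj_map _ _)
  set W₂ := (SM : Subgroup G).map (MulAut.conj m).toMonoidHom with hW₂
  have hW₂t : IsMaxP q W₂ ⊤ := hSMt.conj_in (mem_top m)
  have hW₂M : W₂ ≤ M := by
    rintro _ ⟨x, hx, rfl⟩
    exact M.mul_mem (M.mul_mem hm (hSM hx)) (M.inv_mem hm)
  have hPW₂ : P ≤ centralizer (W₂ : Set G) := by
    have h2 := conj_map_mono hPn m
    rw [← centralizer_conj_map, conj_map_conj_map, hPe] at h2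
    exact h2
  refine ⟨W₂, le_inf (le_sigmaCore_of_isPGroup hG (huniq13 hG) hM hqM hW₂t.isP hW₂M) ?_, hW₂t⟩
  exact (Subgroup.le_centralizer_iff).mp hPW₂

end

end Cfsg.Agent.Lib.FT
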