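import Cfsg.Agent.Lib.FT.BG14d

/-!
BG section 12, S1428 (helper1): the case `q ∈ σ(H)`, `p ∈ β(H)`.
-/

set_option autoImplicit false
set_option linter.unusedSectionVars false
set_option linter.style.haveILetI false

namespace Cfsg.Agent.Lib.FT

open Subgroup Cfsg Cfsg.Agent.Lib.OddLocal Cfsg.Agent.Lib.Basic

open Cfsg.Agent.Lib.Coprime (mem_conj_map conj_mem_conj_map conj_map_conj_map conj_map_one
  conj_map_mono mem_normalizer_of_conj_le conj_map_eq_iff_mem_normalizer isPGroup_conj_map)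

open scoped commutatorElement

variable {G : Type*} [Group G] [Finite G]

section
variable {p : ℕ} [Fact p.Prime]

/-- The `α` property passes to a maximal subgroup with `p` in `σ`. -/
theorem alpha_of_sigma_of_alpha {L H : Subgroup G} (hpL : p ∈ sigma L) (hpH : p ∈ alpha H) : p ∈ alpha L := by
  classical
  refine ⟨Fact.out, fun hr => hpH.2 ?_⟩
  intro A hAc hAe
  have hA'e : IsElementaryAbelian p (A.map H.subtype) := isElementaryAbelian_map _ ⟨hAc, hAe⟩
  obtain ⟨S, hSL, -⟩ := sigma_exists_sylow hpL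
  have hSt : IsMaxP p (S : Subgroup G) ⊤ := ⟨le_top, S.isPGroup', fun D' _ h2 h3 => S.is_maximal' h2 h3⟩
  obtain ⟨n, -, hn⟩ := hSt.exists_conj_le le_top (isPGroup_of_elem hA'e)
  have h1 := card_le_of_prank hr (elem_conj_map hA'e n) (hn.trans hSL)
  rwa [Cfsg.Agent.Lib.Coprime.card_conj_map, Subgroup.card_map_of_injective H.subtype_injective] at h1

/-- The normalizer of a `q`-subgroup centralized by `E_{p²}` and `P`, with `p ∈ β(H)` and `N_G(P) ≤ H`, lies in `H`. -/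
theorem norm_le_of_beta (h1412 : Sylow2Struct G) {H V A₂ P : Subgroup G} {q : ℕ} [Fact q.Prime] (hG : IsMinSimpleOddOrder G) (hH : IsCoatom H)
    (hpβ : p ∈ beta H) (hP : Nat.card P = p) (hNH : normalizer (P : Set G) ≤ H) (hV1 : V ≠ ⊥) (hVp : IsPGroup q V)
    (hPV : P ≤ centralizer (V : Set G)) (hA₂ : A₂ ≤ centralizer (V : Set G)) (hA₂e : IsElementaryAbelian p A₂) (hA₂c : Nat.card A₂ = p ^ 2) :
    normalizer (V : Set G) ≤ H := by
  classical
  have hpp : p.Prime := Fact.out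
  have hqq : q.Prime := Fact.out
  have hVtop : V ≠ ⊤ := IsMinSimpleOddOrder.ne_top_of_isPGroup hG hqq hVp
  have hNtop : normalizer (V : Set G) ≠ ⊤ := IsMinSimpleOddOrder.normalizer_ne_top hG hV1 hVtop
  obtain ⟨L, hL, hNL⟩ := (eq_top_or_exists_le_coatom (normalizer (V : Set G))).resolve_left hNtop
  have hCN : centralizer (V : Set G) ≤ L := (centralizer_le_normalizer' V).trans hNL
  have hA₂L : A₂ ≤ L := hA₂.trans hCN
  have hPL : P ≤ L := hPV.trans hCN
  have hpL : p ∈ sigma L := by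
    by_contra hpL
    have hr2 : PRankLE p 2 ↥L := prank_of_not_sigma hG (huniq13 hG) hL hpL
    have hr1 : ¬ PRankLE p 1 ↥L := not_prank_one_of_elem hpp hA₂L hA₂e hA₂c
    exact (s1408_core hG (huniq13 hG) hL hr2 hr1).1 hpβ.2
  have hpβL : p ∈ beta L := ⟨alpha_of_sigma_of_alpha hpL hpβ.1, hpβ.2⟩
  obtain ⟨D, hD, -⟩ := exists_isMaxP_ge (p := p) (T := ⊥) (N := L) bot_le IsPGroup.of_bot
  obtain ⟨⟨-, hu⟩, -⟩ := s1423_core h1412 hG hL hpL hD hPL hP (Or.inl hpβL)
  have e : H = L := hu H hH ((centralizer_le_normalizer' P).trans hNH)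
  rw [e]
  exact hNL

/-- A Hall `{r}`-subgroup is an `r`-group. -/
theorem isPGroup_of_hall {Q D : Subgroup G} {r : ℕ} [Fact r.Prime] (hQ : IsPiHallOf {r} Q D) : IsPGroup r Q := by
  rw [IsPGroup.iff_card]
  have h1 : ∀ q : ℕ, q.Prime → q ∣ Nat.card Q → q = r := fun q hq hd => by
    simpa using hQ.2.1 q hq hd
  exact ⟨(Nat.card Q).primeFactorsList.length, (Nat.eq_prime_pow_of_unique_prime_dvd Nat.card_pos.ne' (fun {q} hq hd => h1 q hq hd))⟩

/-- A cyclic maximal `p`-subgroup contradicts `p ∈ α(H)`. -/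
theorem not_cyclic_of_alpha {H S : Subgroup G} (hS : IsMaxP p S H) (hα : p ∈ alpha H) : ¬ IsCyclic S := by
  intro hc
  have hpp : p.Prime := Fact.out
  apply hα.2
  intro A h1 h2
  have h3 := (hS.prank_of (prank_one_of_cyclic hc)) A h1 h2
  calc Nat.card A ≤ p ^ 1 := h3
    _ ≤ p ^ 2 := Nat.pow_le_pow_right hpp.pos (by norm_num)

/-- An invariant Sylow subgroup of `H_β`. -/
theorem exists_inv_sylow_beta {H Y P : Subgroup G} (hG : IsMinSimpleOddOrder G) (hH : IsCoatom H) (hpβ : p ∈ beta H) (hYH : Y ≤ H)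
    (hY : ∀ l : ℕ, l.Prime → l ∣ Nat.card Y → l ∉ beta H) (hPH : P ≤ H) (hPp : IsPGroup p P) (hYP : Y ≤ centralizer (P : Set G)) :
    ∃ S : Subgroup G, IsMaxP p S H ∧ Y ≤ normalizer (S : Set G) ∧ P ≤ S ∧ S ≤ piCoreOf (beta H) H := by
  classical
  have hpp : p.Prime := Fact.out
  obtain ⟨h1, -⟩ := s1414_core hG (huniq13 hG) hH (fun r _ _ => hpl13 hG r H hH.1)
  have hβH : piCoreOf (beta H) H ≤ H := piCoreOf_le _ H
  have hβn : H ≤ normalizer (piCoreOf (beta H) H : Set G) := le_normalizer_piCoreOf _ H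
  have hβs : Group.IsSolvable ↥(piCoreOf (beta H) H) :=
    IsMinSimpleOddOrder.isSolvable hG (fun h => hH.1 (top_le_iff.1 (h ▸ hβH)))
  have hcop : (Nat.card Y).Coprime (Nat.card ↥(piCoreOf (beta H) H)) := Nat.coprime_of_dvd fun l hl h2 h3 =>
    hY l hl h2 (h1.2.1 l hl h3)
  have hca : Cfsg.Agent.Lib.Coprime.CoprimeAction Y (piCoreOf (beta H) H) := ⟨hYH.trans hβn, hcop, Or.inr hβs⟩
  have hPβ : P ≤ piCoreOf (beta H) H := by
    obtain ⟨g, hg, hle⟩ := IsPiHallOf.exists_conj_ge (coatom_isSolvable hG hH) h1 hPH (by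
      intro l hl hd
      obtain ⟨k, hk⟩ := IsPGroup.iff_card.mp hPp
      rw [hk] at hd
      rw [(Nat.prime_dvd_prime_iff_eq hl hpp).mp (hl.dvd_of_dvd_pow hd)]
      exact hpβ)
    rwa [(conj_map_eq_iff_mem_normalizer (piCoreOf (beta H) H) g).mpr (hβn hg)] at hle
  obtain ⟨S, hS, hYS, hPS⟩ := Cfsg.Agent.Lib.Coprime.exists_invariant_hall {p} _ hca hβs rfl hPβ
    (fun y hy => centralizer_le_normalizer' P (hYP hy)) (by
      intro l hl hd
      obtain ⟨k, hk⟩ := IsPGroup.iff_card.mp hPp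
      rw [hk] at hd
      exact (Nat.prime_dvd_prime_iff_eq hl hpp).mp (hl.dvd_of_dvd_pow hd))
  have hSp : IsPGroup p S := isPGroup_of_hall hS
  refine ⟨S, ?_, hYS, hPS, hS.1⟩
  apply isMaxP_of_not_dvd_relIndex (hS.1.trans hβH) hSp
  rw [← Subgroup.relIndex_mul_relIndex S _ H hS.1 hβH]
  intro hd
  rcases (Nat.Prime.dvd_mul hpp).mp hd with h | h
  · exact hS.2.2 p hpp rfl h
  · exact h1.2.2 p hpp hpβ h

/-- The Frattini factorization of `N_G(W)`. -/
theorem exists_factor_cent {M P W : Subgroup G} (hG : IsMinSimpleOddOrder G) (hr1 : PRankLE p 1 ↥M) (hd : ¬ p ∣ Nat.card ↥⁅M, M⁆)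
    (hNM : normalizer (W : Set G) ≤ M) (hPW : P ≤ centralizer (W : Set G)) (hP : Nat.card P = p) :
    ∀ n ∈ normalizer (W : Set G), ∃ c ∈ normalizer (W : Set G) ⊓ centralizer (W : Set G),
      ∃ y ∈ normalizer (W : Set G) ⊓ centralizer (P : Set G), n = c * y := by
  classical
  have hpp : p.Prime := Fact.out
  have hPp : IsPGroup p P := IsPGroup.of_card (n := 1) (by simpa using hP)
  set N := normalizer (W : Set G) with hN
  set C₃ := N ⊓ centralizer (W : Set G) with hC₃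
  have hCN : centralizer (W : Set G) ≤ N := centralizer_le_normalizer' W
  have hPC₃ : P ≤ C₃ := le_inf (hPW.trans hCN) hPW
  obtain ⟨S', hS', hPS'⟩ := exists_isMaxP_ge hPC₃ hPp
  have hC₃M : C₃ ≤ M := inf_le_left.trans hNM
  have hS'c : IsCyclic S' := isCyclic_of_rank_one hG hS'.isP (hS'.le.trans hC₃M) hr1
  intro n hn
  have hnC : n ∈ normalizer ((centralizer (W : Set G) : Subgroup G) : Set G) :=
    Cfsg.Agent.Lib.OddLocal.mem_normalizer_centralizer hn
  have hconj : S'.map (MulAut.conj n).toMonoidHom ≤ C₃ := by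
    rintro _ ⟨x, hx, rfl⟩
    have hxC := hS'.le hx
    refine ⟨N.mul_mem (N.mul_mem hn hxC.1) (N.inv_mem hn), (mem_normalizer_iff.mp hnC x).mp hxC.2⟩
  obtain ⟨c₀, hc₀, hle⟩ := hS'.exists_conj_le hconj (isPGroup_conj_map hS'.isP n)
  rw [conj_map_conj_map] at hle
  have e3 : S'.map (MulAut.conj (c₀ * n)).toMonoidHom = S' := by
    apply Subgroup.eq_of_le_of_card_ge hle
    rw [Cfsg.Agent.Lib.Coprime.card_conj_map]
  have hy1 := (conj_map_eq_iff_mem_normalizer S' (c₀ * n)).mp e3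
  have hy2 : c₀ * n ∈ normalizer (P : Set G) := normalizer_le_of_cyclic_ge hS'c hPS' hy1
  have hyN : c₀ * n ∈ N := N.mul_mem hc₀.1 hn
  have hy3 := cent_of_norm_of_commutator (hPC₃.trans hC₃M) hPp hd (hNM hyN) hy2
  refine ⟨c₀⁻¹, C₃.inv_mem hc₀, c₀ * n, ⟨hyN, hy3⟩, ?_⟩
  group

/-- A Hall subgroup covering a subgroup modulo a normalized one. -/
theorem exists_factor_of_hall {Y₂ C Y₁ : Subgroup G} {π : Set ℕ} (hY₁ : IsPiHallOf π Y₁ Y₂) (hCn : Y₂ ≤ normalizer (C : Set G))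
    (hC : ∀ l : ℕ, l.Prime → l ∉ π → ∀ T : Subgroup G, IsMaxP l T Y₂ → T ≤ C) : ∀ y ∈ Y₂, ∃ c ∈ C, ∃ y₁ ∈ Y₁, y = c * y₁ := by
  classical
  set L := (C ⊓ Y₂) ⊔ Y₁ with hL
  have hY₁N : Y₁ ≤ normalizer ((C ⊓ Y₂ : Subgroup G) : Set G) := by
    intro y hy
    have hyY := hY₁.1 hy
    rw [mem_normalizer_iff]
    intro x
    have h1 := mem_normalizer_iff.mp (hCn hyY) x
    have h2 := mem_normalizer_iff.mp (le_normalizer hyY) x
    simp only [mem_inf, h1, h2]
  have hLY : L ≤ Y₂ := sup_le inf_le_right hY₁.1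
  have h1 : L.relIndex Y₂ = 1 := by
    by_contra hne
    obtain ⟨l, hl, hd⟩ := Nat.exists_prime_and_dvd hne
    by_cases hlπ : l ∈ π
    · exact hY₁.2.2 l hl hlπ (hd.trans (Subgroup.relIndex_dvd_of_le_left Y₂ le_sup_right))
    · haveI : Fact l.Prime := ⟨hl⟩
      obtain ⟨T, hT, -⟩ := exists_isMaxP_ge (p := l) (T := ⊥) (N := Y₂) bot_le IsPGroup.of_bot
      exact not_dvd_relIndex_of_isMaxP hT (le_sup_of_le_left (le_inf (hC l hl hlπ T hT) hT.le)) hd
  intro y hy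
  have hyL : y ∈ L := Subgroup.relIndex_eq_one.mp h1 hy
  obtain ⟨c, hc, y₁, hy₁, e⟩ := (Cfsg.Agent.Lib.Coprime.mem_sup_iff_of_le_normalizer hY₁N y).mp hyL
  exact ⟨c, hc.1, y₁, hy₁, e⟩

/-- A primary element of rank-one prime acts on an abelian `W ≤ H_σ` through its prime-order power. -/
theorem primary_comm {H W : Subgroup G} {a : G} {l k : ℕ} [Fact l.Prime] (hG : IsMinSimpleOddOrder G) (hH : IsCoatom H)
    (hlσ : l ∉ sigma H) (hr : PRankLE l 1 ↥H) (haH : a ∈ H) (hk : a ^ l ^ k = 1) (ha1 : a ≠ 1) (hWσ : W ≤ sigmaCore H)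
    (hWab : IsMulCommutative W) (haW : a ∈ normalizer (W : Set G)) (hcop : l.Coprime (Nat.card W)) :
    ∃ b₀ ∈ zpowers a, orderOf b₀ = l ∧ ∀ w ∈ W, a * w * a⁻¹ * w⁻¹ ∈ ⁅W, zpowers b₀⁆ := by
  classical
  have hlp : l.Prime := Fact.out
  have hap : IsPGroup l (zpowers a) := by
    rw [IsPGroup.iff_card, Nat.card_zpowers]
    obtain ⟨j, -, hj⟩ := (Nat.dvd_prime_pow hlp).mp (orderOf_dvd_of_pow_eq_one hk)
    exact ⟨j, hj⟩
  obtain ⟨Sl, hSl, haSl⟩ := exists_isMaxP_ge (zpowers_le.mpr haH) hap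
  have hSlc : IsCyclic Sl := isCyclic_of_rank_one hG hSl.isP hSl.le hr
  have hord : orderOf a ≠ 1 := fun h => ha1 (orderOf_eq_one_iff.mp h)
  have hld : l ∣ orderOf a := by
    obtain ⟨j, -, hj⟩ := (Nat.dvd_prime_pow hlp).mp (orderOf_dvd_of_pow_eq_one hk)
    rw [hj]
    apply dvd_pow_self
    rintro rfl
    exact hord (by simpa using hj)
  set b₀ := a ^ (orderOf a / l) with hb₀
  have hb₀o : orderOf b₀ = l := orderOf_pow_orderOf_div (orderOf_pos a).ne' hld
  have hb₀a : b₀ ∈ zpowers a := pow_mem (mem_zpowers a) _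
  refine ⟨b₀, hb₀a, hb₀o, ?_⟩
  set X := zpowers b₀ with hX
  have hXc : Nat.card X = l := by rw [hX, Nat.card_zpowers, hb₀o]
  have hXSl : X ≤ Sl := (zpowers_le.mpr hb₀a).trans haSl
  have h1 := s1427_main hG hH hlσ hSl hSlc hXSl hXc
  have hXN : X ≤ normalizer (W : Set G) := (zpowers_le.mpr hb₀a).trans (zpowers_le.mpr haW)
  have hXs : Group.IsSolvable ↥X := inferInstance
  have hsup := coprime_commutator_sup_centralizer (A := X) (K := W) hXN (by rw [hXc]; exact hcop) (Or.inl hXs)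
  have haCX : a ∈ centralizer (X : Set G) := by
    rw [mem_centralizer_iff]
    intro x hx
    have hxa : x ∈ zpowers a := (zpowers_le.mpr hb₀a) hx
    obtain ⟨i, rfl⟩ := mem_zpowers_iff.mp hxa
    exact ((Commute.refl a).zpow_left i).eq
  have haV : a ∈ normalizer ((⁅W, X⁆ : Subgroup G) : Set G) := mem_normalizer_commutator haW (centralizer_le_normalizer' X haCX)
  have hcN : W ⊓ centralizer (X : Set G) ≤ normalizer ((⁅W, X⁆ : Subgroup G) : Set G) := by
    have hcomm : ∀ u ∈ W, ∀ v ∈ W, u * v = v * u := fun u hu v hv =>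
      congrArg Subtype.val (hWab.is_comm.comm (⟨u, hu⟩ : W) ⟨v, hv⟩)
    intro c hc
    apply mem_normalizer_of_conj_le
    intro v hv
    have hvW : v ∈ W := commutator_le_of_le_normalizer hXN hv
    have : c * v * c⁻¹ = v := by rw [hcomm c hc.1 v hvW]; group
    rw [this]
    exact hv
  intro w hw
  have hw' : w ∈ ⁅W, X⁆ ⊔ (W ⊓ centralizer (X : Set G)) := by rw [hsup]; exact hw
  obtain ⟨v, hv, c, hc, e⟩ := (Cfsg.Agent.Lib.Coprime.mem_sup_iff_of_le_normalizer hcN w).mp hw'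
  have hac : a * c = c * a := by
    have h2 := h1 (⟨hWσ hc.1, hc.2⟩ : c ∈ sigmaCore H ⊓ centralizer (X : Set G))
    exact (mem_centralizer_iff.mp h2 a (haSl (mem_zpowers a)))
  have e2 : a * w * a⁻¹ * w⁻¹ = (a * v * a⁻¹) * v⁻¹ := by
    rw [e]
    have e3 : a * (v * c) * a⁻¹ = a * v * a⁻¹ * (a * c * a⁻¹) := by group
    rw [e3, hac]
    group
  rw [e2]
  exact mul_mem ((mem_normalizer_iff.mp haV v).mp hv) (inv_mem hv)

/-- Away from `M`, when `σ(H)` and `σ(M)` meet, the primes outside `σ(H)` have rank one. -/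
theorem rank_one_of_meet {M H : Subgroup G} {q t : ℕ} [Fact q.Prime] [Fact t.Prime] (hG : IsMinSimpleOddOrder G) (hM : IsCoatom M)
    (hH : IsCoatom H) (hpσ : p ∉ sigma M) (hpH : p ∈ sigma H) (hqM : q ∈ sigma M) (hqH : q ∈ sigma H) (htσ : t ∉ sigma H) :
    PRankLE t 1 ↥H := by
  classical
  by_contra hr1
  have htt : t.Prime := Fact.out
  have hr2 : PRankLE t 2 ↥H := prank_of_not_sigma hG (huniq13 hG) hH htσ
  have hτ : t ∈ tau2 H := ⟨htt, htσ, hr2, hr1⟩
  obtain ⟨S, hS, -⟩ := exists_isMaxP_ge (p := t) (T := ⊥) (N := H) bot_le IsPGroup.of_bot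
  obtain ⟨A, hAS, hAe, hAc⟩ := exists_A_of_maxP hG hτ hS
  have T : Tau2Setup t A H := Tau2Setup.mk' hG (huniq13 hG) (fun r _ K hK => hpl13 hG r K hK) hH (hAS.trans hS.le) hAe hAc htσ
  obtain ⟨c, e⟩ := conj_of_sigma_nilpotent hG hM hH T.nil hqH hqM
  have e2 : H = M.map (MulAut.conj c⁻¹).toMonoidHom := by
    rw [← e, conj_map_conj_map, inv_mul_cancel, conj_map_one]
  rw [e2] at hpH
  exact hpσ (not_sigma_of_conj hpH)

/-- The Frobenius data of a prime-order element acting on an abelian `q`-group. -/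
theorem frob_data {W : Subgroup G} {b : G} {q r : ℕ} [Fact q.Prime] (hr : r.Prime) (hWq : IsPGroup q W) (hWab : IsMulCommutative W)
    (hbW : b ∈ normalizer (W : Set G)) (hbo : orderOf b = r) (hrq : r ≠ q) :
    ⁅W, zpowers b⁆ ≤ W ∧ ⁅W, zpowers b⁆ ⊓ centralizer ({b} : Set G) = ⊥ ∧ b ∈ normalizer ((⁅W, zpowers b⁆ : Subgroup G) : Set G) := by
  classical
  have hqq : q.Prime := Fact.out
  have hAc : Nat.card (zpowers b) = r := by rw [Nat.card_zpowers, hbo]
  have hcopr : r.Coprime (Nat.card W) := by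
    obtain ⟨k, hk⟩ := IsPGroup.iff_card.mp hWq
    rw [hk]
    exact Nat.Coprime.pow_right _ ((Nat.coprime_primes hr hqq).mpr hrq)
  have hca : Cfsg.Agent.Lib.Coprime.CoprimeAction (zpowers b) W :=
    ⟨zpowers_le.mpr hbW, by rw [hAc]; exact hcopr, Or.inl inferInstance⟩
  have hVW : ⁅W, zpowers b⁆ ≤ W := hca.commutator_le_self
  refine ⟨hVW, ?_, mem_normalizer_commutator hbW (le_normalizer (mem_zpowers b))⟩
  have h1 := hca.commutator_inf_centralizer_eq_bot hWab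
  rw [centralizer_zpowers_eq b] at h1
  apply le_bot_iff.mp
  rw [← h1]
  exact le_inf inf_le_left (le_inf (inf_le_left.trans hVW) inf_le_right)

/-- Case (b) of S1428: `p ∈ β(H)`, `q ∈ σ(H)`. -/
theorem s1428_beta (h1412 : Sylow2Struct G) {M H P W : Subgroup G} {b : G} {q r : ℕ} [Fact q.Prime] [Fact r.Prime]
    (hG : IsMinSimpleOddOrder G) (hM : IsCoatom M) (hH : IsCoatom H) (hpσ : p ∉ sigma M) (hr1 : PRankLE p 1 ↥M)
    (hd : ¬ p ∣ Nat.card ↥⁅M, M⁆) (hPM : P ≤ M) (hP : Nat.card P = p) (hNH : normalizer (P : Set G) ≤ H) (hpβ : p ∈ beta H)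
    (hqσ : q ∈ sigma M) (hqH : q ∈ sigma H) (hWm : IsMaxP q W (sigmaCore M ⊓ centralizer (P : Set G)))
    (hbC : b ∈ centralizer (P : Set G)) (hbo : orderOf b = r) (hrσ : r ∉ sigma H) (hbW : b ∈ normalizer (W : Set G))
    (hbn : b ∉ centralizer (W : Set G)) : False := by
  classical
  have hpp : p.Prime := Fact.out
  have hqq : q.Prime := Fact.out
  have hrr : r.Prime := Fact.out
  have hpH : p ∈ sigma H := alpha_sub_sigma hG (huniq13 hG) hH hpβ.1
  have hpd : p ∣ Nat.card G := hpH.2.1.trans (Subgroup.card_subgroup_dvd_card H)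
  have hp2 : p ≠ 2 := prime_odd hG hpp hpd
  have hne : H ≠ M := by
    rintro rfl
    exact hpσ hpH
  have hPH : P ≤ H := le_normalizer.trans hNH
  have hCH : centralizer (P : Set G) ≤ H := (centralizer_le_normalizer' P).trans hNH
  have hPp : IsPGroup p P := IsPGroup.of_card (n := 1) (by simpa using hP)
  have hpq : p ≠ q := fun h => hpσ (h ▸ hqσ)
  have hqα : q ∉ alpha H := by
    intro hα
    obtain ⟨c, e⟩ := conj_of_alpha_sigma hG (huniq13 hG) hM hH hα hqσ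
    rw [e] at hpH
    exact hpσ (not_sigma_of_conj hpH)
  have hqβ : q ∉ beta H := fun h => hqα h.1
  have hrβ : r ∉ beta H := fun h => hrσ (alpha_sub_sigma hG (huniq13 hG) hH h.1)
  have hrq : r ≠ q := fun h => hrσ (h ▸ hqH)
  have hrp : r ≠ p := fun h => hrσ (h ▸ hpH)
  have hσM : sigmaCore M ≤ M := piCoreOf_le _ M
  have hWM : W ≤ M := hWm.le.trans (inf_le_left.trans hσM)
  have hWC : W ≤ centralizer (P : Set G) := hWm.le.trans inf_le_right
  have hWH : W ≤ H := hWC.trans hCH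
  have hPW : P ≤ centralizer (W : Set G) := Subgroup.le_centralizer_iff.mp hWC
  have hWq : IsPGroup q W := hWm.isP
  have hWσ : W ≤ sigmaCore H := le_sigmaCore_of_isPGroup hG (huniq13 hG) hH hqH hWq hWH
  have hWab : IsMulCommutative W := by
    by_contra hna
    obtain ⟨L, -, hu⟩ := s1422_core h1412 hG hWq hna
    exact hne ((hu H ⟨hH, hWH⟩).trans (hu M ⟨hM, hWM⟩).symm)
  have hWcomm : ∀ u ∈ W, ∀ v ∈ W, u * v = v * u := fun u hu v hv =>
    congrArg Subtype.val (hWab.is_comm.comm (⟨u, hu⟩ : W) ⟨v, hv⟩)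
  have hbH : b ∈ H := hCH hbC
  obtain ⟨hVW, hfpf, hbV⟩ := frob_data hrr hWq hWab hbW hbo hrq
  set A := zpowers b with hA
  set V := ⁅W, A⁆ with hV
  have hAc : Nat.card A = r := by rw [hA, Nat.card_zpowers, hbo]
  have hV1 : V ≠ ⊥ := by
    intro h
    apply hbn
    rw [hV, Subgroup.commutator_eq_bot_iff_le_centralizer] at h
    rw [mem_centralizer_iff]
    intro w hw
    exact (mem_centralizer_iff.mp (h hw) b (mem_zpowers b)).symm
  have hVq : IsPGroup q V := hWq.to_le hVW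
  have hrank := rank_one_of_meet (p := p) (q := q) (t := r) hG hM hH hpσ hpH hqσ hqH hrσ
  have hZb : IsZGroup ↥(alphaCore H ⊓ centralizer ({b} : Set G)) := zgroup_of_rank_one hG hH hbH hbo hrσ hrank
  -- the group `F = V⟨b⟩`
  have hFH : V ⊔ A ≤ H := sup_le (hVW.trans hWH) (zpowers_le.mpr hbH)
  have hAV : A ≤ normalizer (V : Set G) := zpowers_le.mpr hbV
  have hFprimes : ∀ l : ℕ, l.Prime → l ∣ Nat.card ↥(V ⊔ A) → l ∉ beta H := by
    intro l hl hdl
    have h1 := hdl.trans (card_sup_dvd_of_le_normalizer V A hAV)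
    rcases (Nat.Prime.dvd_mul hl).mp h1 with h2 | h2
    · obtain ⟨k, hk⟩ := IsPGroup.iff_card.mp hVq
      rw [hk] at h2
      rw [(Nat.prime_dvd_prime_iff_eq hl hqq).mp (hl.dvd_of_dvd_pow h2)]
      exact hqβ
    · rw [hAc] at h2
      rw [(Nat.prime_dvd_prime_iff_eq hl hrr).mp h2]
      exact hrβ
  have hFP : V ⊔ A ≤ centralizer (P : Set G) := sup_le (hVW.trans hWC) (zpowers_le.mpr hbC)
  obtain ⟨S₀, hS₀, hFS₀, hPS₀, -⟩ := exists_inv_sylow_beta hG hH hpβ hFH hFprimes hPH hPp hFP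
  have hS₀α : S₀ ≤ alphaCore H := le_alphaCore_of_isPGroup hG (huniq13 hG) hH hpβ.1 hS₀.isP hS₀.le
  have hPb : P ≤ centralizer ({b} : Set G) := by
    rw [← centralizer_zpowers_eq b]
    exact Subgroup.le_centralizer_iff.mp (zpowers_le.mpr hbC)
  have hPV : P ≤ centralizer (V : Set G) := Subgroup.le_centralizer_iff.mp (hVW.trans hWC)
  have hnotc : ¬ IsCyclic ↥(S₀ ⊓ centralizer (V : Set G)) := by
    intro hc
    apply not_cyclic_of_alpha hS₀ hpβ.1
    refine cyclic_of_inv hp2 hS₀.isP hPS₀ hP hFS₀ hFP hc ?_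
    intro B hBS hFB hBe hPB
    exact le_centralizer_of_frob (K := alphaCore H) hbo hrr hrp (Ne.symm hpq) hBe (hS₀.isP.to_le hBS) hPB hP hPb hZb (hBS.trans hS₀α) hVq hbV hfpf
      (le_sup_left.trans hFB) (hFB (mem_sup_right (mem_zpowers b))) hPV
  obtain ⟨A₂, hA₂S, hA₂e, hA₂c⟩ := exists_e2_of_not_cyclic hG (hS₀.isP.to_le inf_le_left) hnotc
  have hNV : normalizer (V : Set G) ≤ H :=
    norm_le_of_beta h1412 hG hH hpβ hP hNH hV1 hVq hPV (hA₂S.trans inf_le_right) hA₂e hA₂c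
  -- `W` is maximal in `M ∩ H`
  have hWMH : IsMaxP q W (M ⊓ H) := by
    refine ⟨le_inf hWM hWH, hWq, fun D' h1 h2 h3 => ?_⟩
    have h4 : D' ≤ sigmaCore M := le_sigmaCore_of_isPGroup hG (huniq13 hG) hM hqσ h2 (h1.trans inf_le_left)
    have h5 : D' ≤ centralizer (P : Set G) :=
      le_trans (le_inf h4 (h1.trans inf_le_right)) (sigma_inf_le_centralizer hG hM hH hpσ hpH hPM hPH hPp)
    exact hWm.max D' (le_inf h4 h5) h2 h3
  obtain ⟨hNWM, hWHm⟩ := s1424_core hG hM hqσ hVq hV1 (hVW.trans hWM) hH hne hNV hWMH hVW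
  have hWt := isMaxP_top_of_sigma hqH hWHm
  have hNWH : normalizer (W : Set G) ≤ H := normalizer_le_of_isMaxP hqH hWHm
  have hfac1 := exists_factor_cent hG hr1 hd hNWM hPW hP
  set N := normalizer (W : Set G) with hN
  set Y₂ := N ⊓ centralizer (P : Set G) with hY₂
  have hNtop : N ≠ ⊤ := fun h => hH.1 (top_le_iff.1 (h ▸ hNWH))
  have hY₂s : Group.IsSolvable ↥Y₂ := IsMinSimpleOddOrder.isSolvable hG (fun h => hNtop (top_le_iff.1 (h ▸ inf_le_left)))
  have hca₀ : Cfsg.Agent.Lib.Coprime.CoprimeAction (⊥ : Subgroup G) Y₂ := ⟨bot_le, by simp, Or.inr hY₂s⟩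
  have hWY₂ : W ≤ Y₂ := le_inf le_normalizer hWC
  obtain ⟨Y₁, hY₁, -, hWY₁⟩ := Cfsg.Agent.Lib.Coprime.exists_invariant_hall {l | l.Prime ∧ l ∉ beta H} _ hca₀ hY₂s rfl hWY₂
    bot_le (by
      intro l hl hdl
      obtain ⟨k, hk⟩ := IsPGroup.iff_card.mp hWq
      rw [hk] at hdl
      rw [(Nat.prime_dvd_prime_iff_eq hl hqq).mp (hl.dvd_of_dvd_pow hdl)]
      exact ⟨hqq, hqβ⟩)
  have hY₁P : Y₁ ≤ centralizer (P : Set G) := hY₁.1.trans inf_le_right
  have hY₁N : Y₁ ≤ N := hY₁.1.trans inf_le_left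
  have hY₁H : Y₁ ≤ H := hY₁N.trans hNWH
  obtain ⟨S, hS, hY₁S, hPS, -⟩ := exists_inv_sylow_beta hG hH hpβ hY₁H (fun l hl hdl => (hY₁.2.1 l hl hdl).2) hPH hPp hY₁P
  apply not_cyclic_of_alpha hS hpβ.1
  have hSα : S ≤ alphaCore H := le_alphaCore_of_isPGroup hG (huniq13 hG) hH hpβ.1 hS.isP hS.le
  have hc : IsCyclic ↥(S ⊓ centralizer (W : Set G)) :=
    isCyclic_of_rank_one hG (hS.isP.to_le inf_le_left) (inf_le_right.trans ((centralizer_le_normalizer' W).trans hNWM)) hr1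
  refine cyclic_of_inv hp2 hS.isP hPS hP hY₁S hY₁P hc ?_
  intro B hBS hY₁B hBe hPB
  have hBp : IsPGroup p B := hS.isP.to_le hBS
  set W₁ := W ⊓ centralizer (B : Set G) with hW₁
  have hY₁W₁ : ∀ y ∈ Y₁, ∀ w ∈ W₁, y * w * y⁻¹ ∈ W₁ := by
    intro y hy w hw
    exact ⟨(mem_normalizer_iff.mp (hY₁N hy) w).mp hw.1,
      (mem_normalizer_iff.mp (Cfsg.Agent.Lib.OddLocal.mem_normalizer_centralizer (hY₁B hy)) w).mp hw.2⟩
  have key : ∀ y ∈ Y₁, ∀ w ∈ W, y * w * y⁻¹ * w⁻¹ ∈ W₁ := by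
    let K : Subgroup G :=
      { carrier := {y | y ∈ Y₁ ∧ ∀ w ∈ W, y * w * y⁻¹ * w⁻¹ ∈ W₁}
        mul_mem' := by
          rintro y y' ⟨hy, h⟩ ⟨hy', h'⟩
          refine ⟨Y₁.mul_mem hy hy', fun w hw => ?_⟩
          have h1 := W₁.mul_mem (hY₁W₁ y hy _ (h' w hw)) (h w hw)
          convert h1 using 1
          group
        one_mem' := ⟨Y₁.one_mem, fun w _ => by simp⟩
        inv_mem' := by
          rintro y ⟨hy, h⟩
          refine ⟨Y₁.inv_mem hy, fun w hw => ?_⟩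
          have hw' : y⁻¹ * w * y ∈ W := by
            have := (mem_normalizer_iff.mp (N.inv_mem (hY₁N hy)) w).mp hw
            simpa using this
          have h1 := W₁.inv_mem (h _ hw')
          convert h1 using 1
          group }
    intro y hy
    have hyK : y ∈ K := by
      refine mem_of_primary_parts (fun l hl a ha hk => ?_)
      have haY : a ∈ Y₁ := (zpowers_le.mpr hy) ha
      refine ⟨haY, fun w hw => ?_⟩
      haveI : Fact l.Prime := ⟨hl⟩
      obtain ⟨k, hk⟩ := hk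
      by_cases ha1 : a = 1
      · rw [ha1]
        simp
      have hap : IsPGroup l (zpowers a) := by
        rw [IsPGroup.iff_card, Nat.card_zpowers]
        obtain ⟨j, -, hj⟩ := (Nat.dvd_prime_pow hl).mp (orderOf_dvd_of_pow_eq_one hk)
        exact ⟨j, hj⟩
      by_cases hlσ : l ∈ sigma H
      · have haσ : a ∈ sigmaCore H := le_sigmaCore_of_isPGroup hG (huniq13 hG) hH hlσ hap (zpowers_le.mpr (hY₁H haY)) (mem_zpowers a)
        by_cases hlq : l = q
        · have haq : IsPGroup q (zpowers a) := hlq ▸ hap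
          have hsup : IsPGroup q ↥(W ⊔ zpowers a) := hWq.to_sup_of_normal_left' haq (zpowers_le.mpr (hY₁N haY))
          have heq := hWt.max (W ⊔ zpowers a) le_top hsup le_sup_left
          have haW : a ∈ W := by
            rw [← heq]
            exact mem_sup_right (mem_zpowers a)
          rw [hWcomm a haW w hw]
          simp
        · have hco : (orderOf a).Coprime q := by
            obtain ⟨j, -, hj⟩ := (Nat.dvd_prime_pow hl).mp (orderOf_dvd_of_pow_eq_one hk)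
            rw [hj]
            exact Nat.Coprime.pow_left _ ((Nat.coprime_primes hl hqq).mpr hlq)
          have h1 := comm_of_sigma_element hG hH hqβ hWq hWH haσ hco (hY₁N haY)
          have h2 := (mem_centralizer_iff.mp h1) w hw
          rw [← h2]
          simp
      · have hrl := rank_one_of_meet (p := p) (q := q) (t := l) hG hM hH hpσ hpH hqσ hqH hlσ
        have hlq : l ≠ q := fun h => hlσ (h ▸ hqH)
        have hlp : l ≠ p := fun h => hlσ (h ▸ hpH)
        have hco : l.Coprime (Nat.card W) := by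
          obtain ⟨j, hj⟩ := IsPGroup.iff_card.mp hWq
          rw [hj]
          exact Nat.Coprime.pow_right _ ((Nat.coprime_primes hl hqq).mpr hlq)
        obtain ⟨b₀, hb₀a, hb₀o, hb₀w⟩ := primary_comm hG hH hlσ hrl (hY₁H haY) hk ha1 hWσ hWab (hY₁N haY) hco
        have hb₀Y : b₀ ∈ Y₁ := (zpowers_le.mpr haY) hb₀a
        obtain ⟨hV₀W, hfpf₀, hb₀V⟩ := frob_data hl hWq hWab (hY₁N hb₀Y) hb₀o hlq
        have hZ₀ := zgroup_of_rank_one hG hH (hY₁H hb₀Y) hb₀o hlσ hrl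
        have hPb₀ : P ≤ centralizer ({b₀} : Set G) := by
          rw [← centralizer_zpowers_eq b₀]
          exact Subgroup.le_centralizer_iff.mp (zpowers_le.mpr (hY₁P hb₀Y))
        have hfin := le_centralizer_of_frob (K := alphaCore H) hb₀o hl hlp (Ne.symm hpq) hBe hBp hPB hP hPb₀ hZ₀ (hBS.trans hSα)
          (hWq.to_le hV₀W) hb₀V hfpf₀ ((hV₀W.trans hWY₁).trans hY₁B) (hY₁B hb₀Y)
          (Subgroup.le_centralizer_iff.mp (hV₀W.trans hWC))
        exact ⟨hV₀W (hb₀w w hw), (Subgroup.le_centralizer_iff.mp hfin) (hb₀w w hw)⟩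
    exact hyK.2
  -- the factorization of `N`
  have hfac2 : ∀ y ∈ Y₂, ∃ c ∈ centralizer (W : Set G), ∃ y₁ ∈ Y₁, y = c * y₁ := by
    refine exists_factor_of_hall hY₁ ?_ ?_
    · intro y hy
      exact Cfsg.Agent.Lib.OddLocal.mem_normalizer_centralizer hy.1
    · intro l hl hlπ T hT
      have hlβ : l ∈ beta H := by
        by_contra h
        exact hlπ ⟨hl, h⟩
      haveI : Fact l.Prime := ⟨hl⟩
      have hlσ : l ∈ sigma H := alpha_sub_sigma hG (huniq13 hG) hH hlβ.1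
      have hlq : l ≠ q := fun h => hqβ (h ▸ hlβ)
      have hTH : T ≤ H := hT.le.trans (inf_le_left.trans hNWH)
      have hTσ := le_sigmaCore_of_isPGroup hG (huniq13 hG) hH hlσ hT.isP hTH
      intro x hx
      have hco : (orderOf x).Coprime q := by
        obtain ⟨j, hj⟩ := (IsPGroup.iff_orderOf.mp hT.isP) ⟨x, hx⟩
        have e : orderOf x = l ^ j := by rw [← hj, Subgroup.orderOf_mk]
        rw [e]
        exact Nat.Coprime.pow_left _ ((Nat.coprime_primes hl hqq).mpr hlq)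
      exact comm_of_sigma_element hG hH hqβ hWq hWH (hTσ hx) hco (hT.le hx).1
  -- S1411
  have hmax : IsMaxP q W N := ⟨le_normalizer, hWq, fun D' _ h2 h3 => hWt.max D' le_top h2 h3⟩
  have hnd : ¬ q ∣ W.relIndex N := not_dvd_relIndex_of_isMaxP hmax (le_refl W)
  have hcop : (Nat.card W).Coprime (W.relIndex N) := by
    obtain ⟨k, hk⟩ := IsPGroup.iff_card.mp hWq
    rw [hk]
    exact Nat.Coprime.pow_left _ ((Nat.Prime.coprime_iff_not_dvd hqq).mpr hnd)
  obtain ⟨Vc, hVc, -⟩ := exists_compl_cop le_normalizer (le_refl _) hcop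
  let Pst : Sylow q G :=
    { toSubgroup := W, isPGroup' := hWq, is_maximal' := fun {Q} hQ hle => hWt.max Q le_top hQ hle }
  have hVc' : IsComplIn (Pst : Subgroup G) Vc (normalizer ((Pst : Subgroup G) : Set G)) := isComplIn_symm hVc
  have h1411 : W = ⁅W, Vc⁆ := (s1411_core hG (fun K hK => hpl13 hG q K hK) Pst Vc hVc').1
  have hle : ⁅W, Vc⁆ ≤ W₁ := by
    rw [Subgroup.commutator_le]
    intro w hw v hv
    obtain ⟨c, hc, y, hy, e⟩ := hfac1 v (hVc.1 hv)
    obtain ⟨c', hc', y₁, hy₁, e'⟩ := hfac2 y hy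
    have hcc : c * c' ∈ centralizer (W : Set G) := mul_mem hc.2 hc'
    have e2 : v = (c * c') * y₁ := by rw [e, e', mul_assoc]
    have hin : y₁ * w⁻¹ * y₁⁻¹ ∈ W := (mem_normalizer_iff.mp (hY₁N hy₁) _).mp (W.inv_mem hw)
    have e3 : v * w⁻¹ * v⁻¹ = y₁ * w⁻¹ * y₁⁻¹ := by
      rw [e2]
      have h3 := (mem_centralizer_iff.mp hcc) _ hin
      calc (c * c') * y₁ * w⁻¹ * ((c * c') * y₁)⁻¹ = (c * c') * (y₁ * w⁻¹ * y₁⁻¹) * (c * c')⁻¹ := by group
        _ = (y₁ * w⁻¹ * y₁⁻¹) * (c * c') * (c * c')⁻¹ := by rw [h3]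
        _ = _ := by group
    have h4 := key y₁ hy₁ w⁻¹ (W.inv_mem hw)
    have e4 : ⁅w, v⁆ = y₁ * w⁻¹ * y₁⁻¹ * (w⁻¹)⁻¹ := by
      rw [commutatorElement_def]
      have e5 : w * v * w⁻¹ * v⁻¹ = w * (v * w⁻¹ * v⁻¹) := by group
      rw [e5, e3, hWcomm w hw _ hin, inv_inv]
    rw [e4]
    exact h4
  have hWW₁ : W ≤ W₁ := by
    conv_lhs => rw [h1411]
    exact hle
  exact Subgroup.le_centralizer_iff.mp (hWW₁.trans inf_le_right)

end

end Cfsg.Agent.Lib.FT
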