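import Cfsg.Agent.Lib.FT.BG14e

/-!
BG section 12, S1428 (helper1): the case `q ∈ τ₃(H)`.
-/

set_option autoImplicit false
set_option linter.unusedSectionVars false
set_option linter.style.haveILetI false

namespace Cfsg.Agent.Lib.FT

open Subgroup Cfsg Cfsg.Agent.Lib.OddLocal Cfsg.Agent.Lib.Basic

open Cfsg.Agent.Lib.Coprime (mem_conj_map conj_mem_conj_map conj_map_conj_map conj_map_one
  conj_map_mono mem_normalizer_of_conj_le conj_map_eq_iff_mem_normalizer isPGroup_conj_map)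

open scoped commutatorElement

variable {G : Type*} [Group G] [Finite G]

section
variable {p : ℕ} [Fact p.Prime]

/-- A conjugate, inside `M`, of a complement of a normal subgroup is a complement. -/
theorem isComplIn_conj_of_mem {V N M : Subgroup G} (hV : IsComplIn V N M) (hNn : M ≤ normalizer (N : Set G)) {n : G} (hn : n ∈ M) :
    IsComplIn (V.map (MulAut.conj n).toMonoidHom) N M := by
  have hnN : n ∈ normalizer (N : Set G) := hNn hn
  refine ⟨?_, hV.2.1, ?_, ?_⟩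
  · rintro _ ⟨v, hv, rfl⟩
    exact M.mul_mem (M.mul_mem hn (hV.1 hv)) (M.inv_mem hn)
  · rw [eq_bot_iff]
    rintro _ ⟨⟨v, hv, rfl⟩, hu⟩
    have h1 : v ∈ N := by
      have h2 := (Subgroup.mem_normalizer_iff.1 hnN v).2 hu
      simpa [MulAut.conj_apply] using h2
    have h3 : v ∈ V ⊓ N := ⟨hv, h1⟩
    rw [hV.2.2.1, Subgroup.mem_bot] at h3
    rw [Subgroup.mem_bot, h3]
    simp
  · intro m hm
    obtain ⟨a, ha, b, hb, e⟩ := hV.2.2.2 (n⁻¹ * m * n) (M.mul_mem (M.mul_mem (M.inv_mem hn) hm) hn)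
    refine ⟨n * a * n⁻¹, conj_mem_conj_map V n a ha, n * b * n⁻¹, (Subgroup.mem_normalizer_iff.1 hnN b).1 hb, ?_⟩
    have e2 : m = n * (n⁻¹ * m * n) * n⁻¹ := by group
    rw [e2, e]
    group

/-- A `σ(M)'`-subgroup of `M` lies in a complement of `M_σ`. -/
theorem exists_compl_ge_pi (hG : IsMinSimpleOddOrder G) {M F : Subgroup G} (hM : IsCoatom M) (hFM : F ≤ M)
    (hF : ∀ l : ℕ, l.Prime → l ∣ Nat.card F → l ∉ sigma M) : ∃ E : Subgroup G, IsComplIn E (sigmaCore M) M ∧ F ≤ E := by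
  classical
  obtain ⟨hH1, hH2, hH3⟩ := (s1350_core hG (huniq13 hG) hM).1
  have hcop : (Nat.card (sigmaCore M)).Coprime ((sigmaCore M).relIndex M) :=
    Nat.coprime_of_dvd fun k hk h1 h2 => hH3 k hk (hH2 k hk h1) h2
  have hσn : M ≤ normalizer (sigmaCore M : Set G) := le_normalizer_piCoreOf _ _
  obtain ⟨V, hV, hVc⟩ := exists_compl_cop hH1 hσn hcop
  have hidx : V.relIndex M = Nat.card (sigmaCore M) := by
    have h1 := IsComplIn_card_eq hV
    have h2 : Nat.card V * V.relIndex M = Nat.card M := card_mul_relIndex hV.1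
    rw [h1] at h2
    exact Nat.eq_of_mul_eq_mul_left Nat.card_pos h2
  have hVH : IsPiHallOf {l | l.Prime ∧ l ∉ sigma M} V M := by
    refine ⟨hV.1, fun l hl hd => ⟨hl, fun h => hH3 l hl h (hVc ▸ hd)⟩, fun l hl hlπ hd => hlπ.2 (hH2 l hl (hidx ▸ hd))⟩
  obtain ⟨n, hn, hle⟩ := IsPiHallOf.exists_conj_ge (coatom_isSolvable hG hM) hVH hFM (fun l hl hd => ⟨hl, hF l hl hd⟩)
  exact ⟨_, isComplIn_conj_of_mem hV hσn hn, hle⟩

/-- An invariant Sylow subgroup of `H_σ`. -/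
theorem exists_inv_sylow_sigma {H Y P : Subgroup G} (hG : IsMinSimpleOddOrder G) (hH : IsCoatom H) (hpH : p ∈ sigma H) (hYH : Y ≤ H)
    (hY : ∀ l : ℕ, l.Prime → l ∣ Nat.card Y → l ∉ sigma H) (hPH : P ≤ H) (hPp : IsPGroup p P) (hYP : Y ≤ centralizer (P : Set G)) :
    ∃ S : Subgroup G, IsMaxP p S H ∧ IsPiHallOf {p} S (sigmaCore H) ∧ Y ≤ normalizer (S : Set G) ∧ P ≤ S := by
  classical
  have hpp : p.Prime := Fact.out
  have hσH : sigmaCore H ≤ H := piCoreOf_le _ H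
  have hσn : H ≤ normalizer (sigmaCore H : Set G) := le_normalizer_piCoreOf _ H
  have hσs : Group.IsSolvable ↥(sigmaCore H) :=
    IsMinSimpleOddOrder.isSolvable hG (fun h => hH.1 (top_le_iff.1 (h ▸ hσH)))
  have hcop : (Nat.card Y).Coprime (Nat.card ↥(sigmaCore H)) := Nat.coprime_of_dvd fun l hl h2 h3 =>
    hY l hl h2 (piCoreOf_isPi (sigma H) H l hl h3)
  have hca : Cfsg.Agent.Lib.Coprime.CoprimeAction Y (sigmaCore H) := ⟨hYH.trans hσn, hcop, Or.inr hσs⟩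
  have hPσ : P ≤ sigmaCore H := le_sigmaCore_of_isPGroup hG (huniq13 hG) hH hpH hPp hPH
  obtain ⟨S, hS, hYS, hPS⟩ := Cfsg.Agent.Lib.Coprime.exists_invariant_hall {p} _ hca hσs rfl hPσ
    (fun y hy => centralizer_le_normalizer' P (hYP hy)) (by
      intro l hl hd
      obtain ⟨k, hk⟩ := IsPGroup.iff_card.mp hPp
      rw [hk] at hd
      exact (Nat.prime_dvd_prime_iff_eq hl hpp).mp (hl.dvd_of_dvd_pow hd))
  have hSp : IsPGroup p S := isPGroup_of_hall hS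
  refine ⟨S, ?_, hS, hYS, hPS⟩
  have hm : IsMaxP p S (sigmaCore H) := isMaxP_of_not_dvd_relIndex hS.1 hSp (hS.2.2 p hpp rfl)
  refine ⟨hS.1.trans hσH, hSp, fun D' h1 h2 h3 => ?_⟩
  have h4 : D' ≤ sigmaCore H := le_sigmaCore_of_isPGroup hG (huniq13 hG) hH hpH h2 h1
  exact hm.max D' h4 h2 h3

/-- Theorem D, for the case at hand. -/
theorem exists_normData_of_tau3 (h1412 : Sylow2Struct G) {M H P Q₀ : Subgroup G} {q : ℕ} [Fact q.Prime] (hG : IsMinSimpleOddOrder G) (hM : IsCoatom M)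
    (hH : IsCoatom H) (hPM : P ≤ M) (hP : Nat.card P = p) (hNH : normalizer (P : Set G) ≤ H) (hqσ : q ∈ sigma M) (hqH : q ∉ sigma H) (hQ₀ : Nat.card Q₀ = q)
    (hQ₀M : Q₀ ≤ M) (hQ₀C : Q₀ ≤ centralizer (P : Set G)) :
    ∃ W V : Subgroup G, NormData M Q₀ W V ∧ ¬ p ∣ Nat.card W := by
  classical
  have hpp : p.Prime := Fact.out
  have hqq : q.Prime := Fact.out
  have hPp : IsPGroup p P := IsPGroup.of_card (n := 1) (by simpa using hP)
  have hPQ : P ≤ centralizer (Q₀ : Set G) := Subgroup.le_centralizer_iff.mp hQ₀C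
  by_cases hN : normalizer (Q₀ : Set G) ≤ M
  · refine ⟨⊥, normalizer (Q₀ : Set G), ⟨bot_le, ?_, hN, le_refl _, ?_, ?_⟩, ?_⟩
    · intro c _
      rw [mem_normalizer_iff]
      intro x
      simp
    · intro c hc
      exact ⟨1, one_mem _, c, hc, (one_mul c).symm⟩
    · intro r hr hd
      simp at hd
      exact absurd hd hr.one_lt.ne'
    · simp
      exact hpp.one_lt.ne'
  have hQ1 : Q₀ ≠ ⊥ := by
    rintro rfl
    simp at hQ₀
    exact hqq.one_lt.ne hQ₀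
  have hQtop : Q₀ ≠ ⊤ := fun h => hM.1 (top_le_iff.1 (h ▸ hQ₀M))
  have hNtop : normalizer (Q₀ : Set G) ≠ ⊤ := IsMinSimpleOddOrder.normalizer_ne_top hG hQ1 hQtop
  obtain ⟨L, hL, hNL⟩ := (eq_top_or_exists_le_coatom (normalizer (Q₀ : Set G))).resolve_left hNtop
  have hne : L ≠ M := by
    rintro rfl
    exact hN hNL
  have hPL : P ≤ L := hPQ.trans ((centralizer_le_normalizer' Q₀).trans hNL)
  by_cases hqL : q ∈ sigma L
  · obtain ⟨W, V, hD, hWβ, -⟩ := thmD_sigma hG hM hqσ hQ₀ hQ₀M hL hne hNL hqL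
    refine ⟨W, V, hD, fun hd => ?_⟩
    have hb := piCoreOf_isPi (beta L) L p hpp (hd.trans (Subgroup.card_dvd_of_le hWβ))
    have hpL : p ∈ sigma L := alpha_sub_sigma hG (huniq13 hG) hL hb.1
    obtain ⟨D, hD', -⟩ := exists_isMaxP_ge (p := p) (T := ⊥) (N := L) bot_le IsPGroup.of_bot
    obtain ⟨⟨-, hu⟩, -⟩ := s1423_core h1412 hG hL hpL hD' hPL hP (Or.inl hb)
    have e : H = L := hu H hH ((centralizer_le_normalizer' P).trans hNH)
    exact hqH (e ▸ hqL)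
  · obtain ⟨W, V, hD, hWσ, hLM, -⟩ := thmD_not_sigma hG hM hqσ hQ₀ hQ₀M hL hne hNL hqL
    refine ⟨W, V, hD, fun hd => ?_⟩
    have hpL : p ∈ sigma L := piCoreOf_isPi (sigma L) L p hpp (hd.trans (Subgroup.card_dvd_of_le hWσ))
    have h1 := le_sigmaCore_of_isPGroup hG (huniq13 hG) hL hpL hPp hPL
    have h2 : P ≤ sigmaCore L ⊓ M := le_inf h1 hPM
    rw [hLM, le_bot_iff] at h2
    rw [h2] at hP
    simp at hP
    exact hpp.one_lt.ne hP

/-- The `τ₃` case of S1428. -/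
theorem s1428_tau3 (h1412 : Sylow2Struct G) {M H P Q₀ : Subgroup G} {b : G} {q r : ℕ} [Fact q.Prime] [Fact r.Prime]
    (hG : IsMinSimpleOddOrder G) (hM : IsCoatom M) (hH : IsCoatom H) (hr1 : PRankLE p 1 ↥M)
    (hd : ¬ p ∣ Nat.card ↥⁅M, M⁆) (hPM : P ≤ M) (hP : Nat.card P = p) (hNH : normalizer (P : Set G) ≤ H) (hpH : p ∈ sigma H)
    (hqσ : q ∈ sigma M) (hqτ : q ∈ tau3 H) (hQ₀ : Nat.card Q₀ = q) (hQ₀M : Q₀ ≤ M) (hQ₀C : Q₀ ≤ centralizer (P : Set G))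
    (hbC : b ∈ centralizer (P : Set G)) (hbo : orderOf b = r) (hrq : r ≠ q) (hrσ : r ∉ sigma H) (hbQ : b ∈ normalizer (Q₀ : Set G))
    (hfpf : Q₀ ⊓ centralizer ({b} : Set G) = ⊥) : False := by
  classical
  have hpp : p.Prime := Fact.out
  have hqq : q.Prime := Fact.out
  have hrr : r.Prime := Fact.out
  have hqH : q ∉ sigma H := hqτ.2.1
  have hpd : p ∣ Nat.card G := hpH.2.1.trans (Subgroup.card_subgroup_dvd_card H)
  have hp2 : p ≠ 2 := prime_odd hG hpp hpd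
  have hPH : P ≤ H := le_normalizer.trans hNH
  have hCH : centralizer (P : Set G) ≤ H := (centralizer_le_normalizer' P).trans hNH
  have hPp : IsPGroup p P := IsPGroup.of_card (n := 1) (by simpa using hP)
  have hQ₀H : Q₀ ≤ H := hQ₀C.trans hCH
  have hQ₀p : IsPGroup q Q₀ := IsPGroup.of_card (n := 1) (by simpa using hQ₀)
  have hQ1 : Q₀ ≠ ⊥ := by
    rintro rfl
    simp at hQ₀
    exact hqq.one_lt.ne hQ₀
  have hbH : b ∈ H := hCH hbC
  have hpq : p ≠ q := fun h => hqH (h ▸ hpH)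
  have hrp : r ≠ p := fun h => hrσ (h ▸ hpH)
  -- the group `F`
  set A := zpowers b with hA
  have hAc : Nat.card A = r := by rw [hA, Nat.card_zpowers, hbo]
  have hAN : A ≤ normalizer (Q₀ : Set G) := zpowers_le.mpr hbQ
  have hFH : Q₀ ⊔ A ≤ H := sup_le hQ₀H (zpowers_le.mpr hbH)
  have hFσ : ∀ l : ℕ, l.Prime → l ∣ Nat.card ↥(Q₀ ⊔ A) → l ∉ sigma H := by
    intro l hl hdl
    have h1 := hdl.trans (card_sup_dvd_of_le_normalizer Q₀ A hAN)
    rw [hQ₀, hAc] at h1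
    rcases (Nat.Prime.dvd_mul hl).mp h1 with h2 | h2
    · rw [(Nat.prime_dvd_prime_iff_eq hl hqq).mp h2]
      exact hqH
    · rw [(Nat.prime_dvd_prime_iff_eq hl hrr).mp h2]
      exact hrσ
  obtain ⟨EH, hEH, hFE⟩ := exists_compl_ge_pi hG hH hFH hFσ
  have hEHH : EH ≤ H := hEH.1
  have hQE : Q₀ ≤ EH := le_sup_left.trans hFE
  have hbE : b ∈ EH := hFE (mem_sup_right (mem_zpowers b))
  have hEs : Group.IsSolvable ↥EH := IsMinSimpleOddOrder.isSolvable hG (fun h => hH.1 (top_le_iff.1 (h ▸ hEHH)))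
  have hca₀ : Cfsg.Agent.Lib.Coprime.CoprimeAction (⊥ : Subgroup G) EH := ⟨bot_le, by simp, Or.inr hEs⟩
  obtain ⟨E₃, hE₃, -, -⟩ := Cfsg.Agent.Lib.Coprime.exists_invariant_hall (tau3 H) _ hca₀ hEs rfl (bot_le (a := EH))
    (by simp) (by
      intro l hl hdl
      simp at hdl
      exact absurd hdl hl.one_lt.ne')
  obtain ⟨-, -, h153⟩ := s1415_core hG (huniq13 hG) hH EH hEH
  obtain ⟨hE₃c, -, hE₃N⟩ := h153 E₃ hE₃
  have hQE₃ : Q₀ ≤ E₃ := by
    obtain ⟨g, hg, hle⟩ := IsPiHallOf.exists_conj_ge hEs hE₃ hQE (by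
      intro l hl hdl
      rw [hQ₀] at hdl
      rw [(Nat.prime_dvd_prime_iff_eq hl hqq).mp hdl]
      exact hqτ)
    rwa [(conj_map_eq_iff_mem_normalizer E₃ g).mpr (hE₃N hg)] at hle
  have hEQ : EH ≤ normalizer (Q₀ : Set G) := hE₃N.trans (normalizer_le_of_cyclic_ge hE₃c hQE₃)
  -- `r` has rank one in `H`
  have hrr1 : PRankLE r 1 ↥H := by
    by_contra h
    have hτ : r ∈ tau2 H := ⟨hrr, hrσ, prank_of_not_sigma hG (huniq13 hG) hH hrσ, h⟩
    have hAp : IsPGroup r A := by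
      rw [IsPGroup.iff_card, hAc]
      exact ⟨1, (pow_one r).symm⟩
    obtain ⟨Sr, hSr, hbSr⟩ := exists_isMaxP_ge (le_sup_right.trans hFE) hAp
    have hSrH := IsMaxP.of_compl hG (huniq13 hG) hH hEH hrσ hSr
    obtain ⟨A₁, hA₁S, hA₁e, hA₁c⟩ := exists_A_of_maxP hG hτ hSrH
    have T : Tau2Setup r A₁ H := Tau2Setup.mk' hG (huniq13 hG) (fun r _ K hK => hpl13 hG r K hK) hH (hA₁S.trans hSrH.le) hA₁e hA₁c hrσ
    have hbA₁ : b ∈ A₁ := (T.omega_iff hSrH hA₁S (hbSr (mem_zpowers b))).mp (by rw [← hbo]; exact pow_orderOf_eq_one b)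
    have hN₁ := T.compl_le_normalizer hEH (hA₁S.trans hSr.le)
    have hcop : (Nat.card A₁).Coprime q := by
      rw [hA₁c]
      exact Nat.Coprime.pow_left _ ((Nat.coprime_primes hrr hqq).mpr hrq)
    have hinf : Q₀ ⊓ A₁ = ⊥ := eq_bot_of_isPGroup_of_coprime (r := q) (hQ₀p.to_le inf_le_left) inf_le_right hcop
    apply hQ1
    rw [eq_bot_iff]
    intro y hy
    have h1 : y * b * y⁻¹ * b⁻¹ ∈ Q₀ ⊓ A₁ := by
      constructor
      · have h2 := (mem_normalizer_iff.mp hbQ y⁻¹).mp (Q₀.inv_mem hy)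
        have e : y * b * y⁻¹ * b⁻¹ = y * (b * y⁻¹ * b⁻¹) := by group
        rw [e]
        exact Q₀.mul_mem hy h2
      · exact A₁.mul_mem ((mem_normalizer_iff.mp (hN₁ (hQE hy)) b).mp hbA₁) (A₁.inv_mem hbA₁)
    rw [hinf, mem_bot] at h1
    have h2 : y * b * y⁻¹ = b := mul_inv_eq_one.mp h1
    have h3 : y ∈ Q₀ ⊓ centralizer ({b} : Set G) := by
      refine ⟨hy, ?_⟩
      show y ∈ centralizer ({b} : Set G)
      rw [mem_centralizer_singleton_iff]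
      exact (mul_inv_eq_iff_eq_mul.mp h2)
    rwa [hfpf] at h3
  have hZb := zgroup_of_rank_one hG hH hbH hbo hrσ hrr1
  -- Theorem D
  obtain ⟨W₀, V₀, hD, hpW₀⟩ := exists_normData_of_tau3 h1412 hG hM hH hPM hP hNH hqσ hqH hQ₀ hQ₀M hQ₀C
  have hQtop : Q₀ ≠ ⊤ := fun h => hH.1 (top_le_iff.1 (h ▸ hQ₀H))
  have hNtop : normalizer (Q₀ : Set G) ≠ ⊤ := IsMinSimpleOddOrder.normalizer_ne_top hG hQ1 hQtop
  have hNs : Group.IsSolvable ↥(normalizer (Q₀ : Set G)) := IsMinSimpleOddOrder.isSolvable hG hNtop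
  have hcyc : ∀ T : Subgroup G, T ≤ normalizer (Q₀ : Set G) → IsPGroup p T → IsCyclic T := by
    intro T hTN hTp
    by_contra hnc
    obtain ⟨A₂, hA₂T, hA₂e, hA₂c⟩ := exists_e2_of_not_cyclic hG hTp hnc
    obtain ⟨g, hg, hle⟩ := exists_conj_le_of_cover (π := {p}) (L := normalizer (Q₀ : Set G)) (Y := A₂) (W := W₀) (V := V₀) hNs (hA₂T.trans hTN)
      (fun l hl hdl => by
        rw [hA₂c] at hdl
        exact (Nat.prime_dvd_prime_iff_eq hl hpp).mp (hl.dvd_of_dvd_pow hdl))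
      (hD.W_le.trans (centralizer_le_normalizer' Q₀))
      (fun l hl hdl hlp => by
        rw [Set.mem_singleton_iff] at hlp
        rw [hlp] at hdl
        exact hpW₀ hdl)
      hD.V_norm hD.fact
    have h2 := conj_map_mono hle g⁻¹
    rw [conj_map_conj_map, inv_mul_cancel, conj_map_one] at h2
    have h3 := card_le_of_prank hr1 (elem_conj_map hA₂e g⁻¹) (h2.trans hD.V_le)
    rw [Cfsg.Agent.Lib.Coprime.card_conj_map, hA₂c] at h3
    have h4 : p ^ 1 < p ^ 2 := Nat.pow_lt_pow_right hpp.one_lt (by norm_num)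
    omega
  -- the Sylow subgroup `S`
  have hFP : Q₀ ⊔ A ≤ centralizer (P : Set G) := sup_le hQ₀C (zpowers_le.mpr hbC)
  obtain ⟨S, hS, hSh, hFS, hPS⟩ := exists_inv_sylow_sigma hG hH hpH hFH hFσ hPH hPp hFP
  have hSQ : IsCyclic ↥(S ⊓ centralizer (Q₀ : Set G)) :=
    hcyc _ (inf_le_right.trans (centralizer_le_normalizer' Q₀)) (hS.isP.to_le inf_le_left)
  have hPQ : P ≤ centralizer (Q₀ : Set G) := Subgroup.le_centralizer_iff.mp hQ₀C
  have hPb : P ≤ centralizer ({b} : Set G) := by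
    rw [← centralizer_zpowers_eq b]
    exact Subgroup.le_centralizer_iff.mp (zpowers_le.mpr hbC)
  by_cases hpα : p ∈ alpha H
  · have hSα : S ≤ alphaCore H := le_alphaCore_of_isPGroup hG (huniq13 hG) hH hpα hS.isP hS.le
    apply not_cyclic_of_alpha hS hpα
    refine cyclic_of_inv hp2 hS.isP hPS hP hFS hFP hSQ ?_
    intro B hBS hFB hBe hPB
    exact le_centralizer_of_frob (K := alphaCore H) hbo hrr hrp (Ne.symm hpq) hBe (hS.isP.to_le hBS) hPB hP hPb hZb (hBS.trans hSα) hQ₀p hbQ hfpf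
      (le_sup_left.trans hFB) (hFB (mem_sup_right (mem_zpowers b))) hPQ
  -- rank at most two
  have hr2 : PRankLE p 2 ↥H := by
    by_contra h
    exact hpα ⟨hpp, h⟩
  have hr2S : PRankLE p 2 ↥S :=
    prank_of_injective (Subgroup.inclusion hS.le) (Subgroup.inclusion_injective hS.le) hr2
  have hFs : Group.IsSolvable ↥(Q₀ ⊔ zpowers b) := IsMinSimpleOddOrder.isSolvable hG (fun h => hH.1 (top_le_iff.1 (h ▸ hFH)))
  have hFo : Odd (Nat.card ↥(Q₀ ⊔ zpowers b)) := subgroup_odd hG _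
  have hQS : Q₀ ≤ centralizer (S : Set G) := by
    by_contra hnc
    exact not_prank_of_act hp2 hpq S Q₀ b hS.isP hQ₀p (le_sup_left.trans hFS) (hFS (mem_sup_right (mem_zpowers b))) hbQ hfpf
      (by rw [hbo]; exact (Nat.coprime_primes hrr hqq).mpr hrq) hFs hFo hnc hr2S
  have hSC : S ≤ centralizer (Q₀ : Set G) := Subgroup.le_centralizer_iff.mp hQS
  have hSc : IsCyclic S := hcyc S (hSC.trans (centralizer_le_normalizer' Q₀)) hS.isP
  have hpβ : p ∉ beta H := fun h => hpα h.1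
  -- the normal `p`-complement of `H_σ`
  obtain ⟨-, -, -, -, h5⟩ := s1414_core hG (huniq13 hG) hH (fun r _ _ => hpl13 hG r H hH.1)
  obtain ⟨-, h6, -⟩ := h5 p hpp hpH.2.1 hpβ
  obtain ⟨Y₀, hY₀σ, -, hY₀c, hY₀⟩ := exists_complement_core h6
  have hσH : sigmaCore H ≤ H := piCoreOf_le _ H
  have hσHn : H ≤ normalizer (sigmaCore H : Set G) := le_normalizer_piCoreOf (sigma H) H
  have hHY₀ : H ≤ normalizer (Y₀ : Set G) := by
    intro h hh
    apply mem_normalizer_of_conj_le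
    intro y hy
    apply hY₀ _ ((mem_normalizer_iff.mp (hσHn hh) y).mp (hY₀σ hy))
    rw [Cfsg.Agent.Lib.PGroups.orderOf_conj_eq]
    exact Nat.Coprime.coprime_dvd_left (Subgroup.orderOf_dvd_natCard _ hy) hY₀c
  have hSt := isMaxP_top_of_sigma hpH hS
  have hS1 : S ≠ ⊥ := by
    intro h
    have h1 : P = ⊥ := le_bot_iff.mp (h ▸ hPS)
    rw [h1] at hP
    simp at hP
    exact hpp.one_lt.ne hP
  apply not_norm_le_cent_of_sylow hG hSt hS1
  intro v hv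
  rw [mem_centralizer_iff]
  intro x hx
  have hvH : v ∈ H := normalizer_le_of_isMaxP hpH hS hv
  obtain ⟨e, he, σ₀, hσ₀, ev⟩ := hEH.2.2.2 v hvH
  have hσ' : e * σ₀ * e⁻¹ ∈ sigmaCore H := (mem_normalizer_iff.mp (hσHn (hEHH he)) σ₀).mp hσ₀
  obtain ⟨k, hk, x₁, hx₁, e2⟩ := exists_factor_of_hall (π := {p}) hSh (C := Y₀) (hσH.trans hHY₀)
    (fun l hl hlπ T hT => by
      haveI : Fact l.Prime := ⟨hl⟩
      intro y hy
      apply hY₀ _ (hT.le hy)
      obtain ⟨j, hj⟩ := (IsPGroup.iff_orderOf.mp hT.isP) ⟨y, hy⟩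
      have e3 : orderOf y = l ^ j := by rw [← hj, Subgroup.orderOf_mk]
      rw [e3]
      have hlp : l ≠ p := fun h => hlπ h
      exact Nat.Coprime.pow_left _ ((Nat.coprime_primes hl hpp).mpr hlp)) _ hσ'
  have evu : v = k * (x₁ * e) := by
    rw [← mul_assoc, ← e2, ev]
    group
  have huN : x₁ * e ∈ normalizer (Q₀ : Set G) := mul_mem (centralizer_le_normalizer' Q₀ (hSC hx₁)) (hEQ he)
  have hxN : x ∈ normalizer (Q₀ : Set G) := centralizer_le_normalizer' Q₀ (hSC hx)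
  have huH : x₁ * e ∈ H := H.mul_mem (hS.le hx₁) (hEHH he)
  have htH : (x₁ * e) * x * (x₁ * e)⁻¹ * x⁻¹ ∈ H := H.mul_mem (H.mul_mem (H.mul_mem huH (hS.le hx)) (H.inv_mem huH)) (H.inv_mem (hS.le hx))
  obtain ⟨w₁, hw₁, v₁, hv₁, eu⟩ := hD.fact _ huN
  obtain ⟨w₂, hw₂, v₂, hv₂, ex⟩ := hD.fact x hxN
  obtain ⟨t, ht, et⟩ := comm_mod_normal (W := W₀) (L := normalizer (Q₀ : Set G)) hD.norm hw₁ hw₂ (hD.V_norm hv₁) (hD.V_norm hv₂)
  rw [← eu, ← ex] at et
  have hcM : v₁ * v₂ * v₁⁻¹ * v₂⁻¹ ∈ ⁅M, M⁆ := Subgroup.commutator_mem_commutator (hD.V_le hv₁) (hD.V_le hv₂)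
  have hcN : v₁ * v₂ * v₁⁻¹ * v₂⁻¹ ∈ normalizer (Q₀ : Set G) :=
    mul_mem (mul_mem (mul_mem (hD.V_norm hv₁) (hD.V_norm hv₂)) (inv_mem (hD.V_norm hv₁))) (inv_mem (hD.V_norm hv₂))
  have hcW₀ : zpowers (v₁ * v₂ * v₁⁻¹ * v₂⁻¹) ≤ normalizer (W₀ : Set G) := zpowers_le.mpr (hD.norm hcN)
  have hcop : (Nat.card ↥(W₀ ⊔ zpowers (v₁ * v₂ * v₁⁻¹ * v₂⁻¹))).Coprime p := by
    apply Nat.Coprime.coprime_dvd_left (card_sup_dvd_of_le_normalizer W₀ _ hcW₀)
    rw [Nat.card_zpowers]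
    apply Nat.Coprime.mul_left ((Nat.Prime.coprime_iff_not_dvd hpp).mpr hpW₀).symm
    exact Nat.Coprime.coprime_dvd_left (Subgroup.orderOf_dvd_natCard _ hcM) ((Nat.Prime.coprime_iff_not_dvd hpp).mpr hd).symm
  have htm : (x₁ * e) * x * (x₁ * e)⁻¹ * x⁻¹ ∈ W₀ ⊔ zpowers (v₁ * v₂ * v₁⁻¹ * v₂⁻¹) := by
    rw [et]
    exact mul_mem (mem_sup_left ht) (mem_sup_right (mem_zpowers _))
  have htc : (orderOf ((x₁ * e) * x * (x₁ * e)⁻¹ * x⁻¹)).Coprime p :=
    Nat.Coprime.coprime_dvd_left (Subgroup.orderOf_dvd_natCard _ htm) hcop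
  have := conj_eq_of_factor hHY₀ hY₀c hS.isP hS.le hv hk evu hx htH htc
  exact (mul_inv_eq_iff_eq_mul.mp this).symm

end

end Cfsg.Agent.Lib.FT
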