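import Cfsg.Agent.Lib.FT.BG14f

/-!
S1428 assembled: `M_σ ∩ C_G(P) ≤ M_σ ∩ C_G(R)` for `P, R ≤ E`, `p ∈ τ₁(M)`.
-/

set_option autoImplicit false
set_option linter.unusedSectionVars false
set_option linter.style.haveILetI false

namespace Cfsg.Agent.Lib.FT

open Subgroup Cfsg Cfsg.Agent.Lib.OddLocal Cfsg.Agent.Lib.Basic

open Cfsg.Agent.Lib.Coprime (mem_conj_map conj_mem_conj_map conj_map_conj_map conj_map_one
  conj_map_mono mem_normalizer_of_conj_le conj_map_eq_iff_mem_normalizer isPGroup_conj_map)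

variable {G : Type*} [Group G] [Finite G]

/-- A prime-order element `x`, commuting with a non-trivial element of the σ-core of a maximal
subgroup `H` and of `τ₂(H)`-order, has its generated subgroup's normaliser inside `H`. -/
theorem normalizer_zpowers_le_of_tau2 {H : Subgroup G} {x : G} (hG : IsMinSimpleOddOrder G) (hH : IsCoatom H)
    (hxH : x ∈ H) (hx1 : x ≠ 1) (hτ : ∀ p : ℕ, p.Prime → p ∣ orderOf x → p ∈ tau2 H) (hxσ : x ∈ sigmaHat H) :
    normalizer ((zpowers x : Subgroup G) : Set G) ≤ H := by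
  classical
  obtain ⟨h1, h2⟩ := s1420_d hG (huniq13 hG) (hpl13 hG) hH hxH hx1 hτ hxσ
  intro g hg
  have hcz : centralizer ((zpowers x : Subgroup G) : Set G) = centralizer ({x} : Set G) := centralizer_zpowers_eq x
  have hg' : (zpowers x).map (MulAut.conj g).toMonoidHom = zpowers x := (conj_map_eq_iff_mem_normalizer _ g).2 hg
  have h3 : centralizer ({x} : Set G) ≤ H.map (MulAut.conj g).toMonoidHom := by
    have h4 := centralizer_conj_map (zpowers x) g
    rw [hg', hcz] at h4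
    rw [h4]
    exact conj_map_mono h1 g
  have h5 := h2 _ (coatom_conj hH g) h3
  rw [← normalizer_coatom hG hH]
  exact (conj_map_eq_iff_mem_normalizer H g).1 h5

/-- The key assembly of `S1428`. -/
theorem s1428_core (h1412 : Sylow2Struct G) {M E P : Subgroup G} {b : G} {p r : ℕ} [Fact p.Prime] [Fact r.Prime]
    (hG : IsMinSimpleOddOrder G) (hM : IsCoatom M) (hE : IsComplIn E (sigmaCore M) M) (hp : p ∈ tau1 M)
    (hPE : P ≤ E) (hP : Nat.card P = p) (hbE : b ∈ E) (hbC : b ∈ centralizer (P : Set G)) (hbo : orderOf b = r) :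
    sigmaCore M ⊓ centralizer (P : Set G) ≤ centralizer ({b} : Set G) := by
  classical
  obtain ⟨hpp, hpσ, hpd, hd, hr1⟩ := hp
  have hrr : r.Prime := Fact.out
  have hb1 : b ≠ 1 := by
    rintro rfl
    rw [orderOf_one] at hbo
    exact hrr.one_lt.ne hbo
  have hrσM : r ∉ sigma M :=
    not_sigma_of_mem_compl hG (huniq13 hG) hM hE hbE hb1 hrr (k := 1)
      (by rw [pow_one, ← hbo]; exact pow_orderOf_eq_one b)
  have hPM : P ≤ M := hPE.trans hE.1
  have hbM : b ∈ M := hE.1 hbE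
  have hPp : IsPGroup p P := IsPGroup.of_card (n := 1) (by simpa using hP)
  have hσM : sigmaCore M ≤ M := piCoreOf_le _ M
  by_cases hrp : r = p
  · -- `b` lies in `P`
    subst hrp
    have hbz : IsPGroup r (zpowers b) := by
      rw [IsPGroup.iff_card, Nat.card_zpowers, hbo]
      exact ⟨1, (pow_one r).symm⟩
    have hcomm : zpowers b ≤ centralizer (P : Set G) := by
      rw [zpowers_le]; exact hbC
    have hnorm : zpowers b ≤ normalizer (P : Set G) := hcomm.trans (centralizer_le_normalizer' P)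
    have hS : IsPGroup r ((P ⊔ zpowers b : Subgroup G)) := by
      have h1 := hbz.to_sup_of_normal_right' hPp hnorm
      rwa [sup_comm] at h1
    have hSM : P ⊔ zpowers b ≤ M := sup_le hPM (by rw [zpowers_le]; exact hbM)
    have hcy := isCyclic_of_rank_one hG hS hSM hr1
    have hcard : Nat.card P = Nat.card (zpowers b) := by
      rw [hP, Nat.card_zpowers, hbo]
    have hPb : P = zpowers b := eq_of_card_eq_in_cyclic le_sup_left le_sup_right hcy hcard
    rintro d ⟨-, hd⟩
    have hd' : d ∈ centralizer (P : Set G) := hd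
    rw [mem_centralizer_iff] at hd' ⊢
    have hbP : b ∈ P := hPb ▸ mem_zpowers b
    intro y hy
    rw [Set.mem_singleton_iff] at hy
    subst hy
    exact hd' y hbP
  -- the case `r ≠ p`
  have hσn : M ≤ normalizer (sigmaCore M : Set G) := le_normalizer_piCoreOf (sigma M) M
  have hbz : IsPGroup r (zpowers b) := by
    rw [IsPGroup.iff_card, Nat.card_zpowers, hbo]
    exact ⟨1, (pow_one r).symm⟩
  set D : Subgroup G := sigmaCore M ⊓ centralizer (P : Set G) with hD
  have hDpi : IsPiSub (sigma M) D := (piCoreOf_isPi (sigma M) M).mono inf_le_left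
  have hbD : zpowers b ≤ normalizer (D : Set G) := by
    rw [zpowers_le]
    exact Cfsg.Agent.Lib.Basic.mem_normalizer_inf' (hσn hbM)
      (Cfsg.Agent.Lib.Basic.mem_normalizer_centralizer (centralizer_le_normalizer' P hbC))
  have hcop : (Nat.card (zpowers b)).Coprime (Nat.card D) := by
    rw [Nat.card_zpowers, hbo]
    exact (Nat.Prime.coprime_iff_not_dvd hrr).2 (fun h => hrσM (hDpi r hrr h))
  by_contra hcon
  obtain ⟨q, hqf, W₀, hbW₀, hWnle⟩ := exists_inv_sylow_not_le hbD hcop (Or.inl inferInstance) hcon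
  set W : Subgroup G := (W₀ : Subgroup D).map D.subtype with hW
  have hWm : IsMaxP q W D := isMaxP_of_sylow W₀
  have hqq : q.Prime := hqf.out
  have hWne : W ≠ ⊥ := by
    intro h
    rw [h] at hWnle
    exact hWnle bot_le
  have hWq : IsPGroup q W := hWm.isP
  obtain ⟨w₁, hw₁W, hw₁⟩ := SetLike.not_le_iff_exists.1 hWnle
  have hqD : q ∣ Nat.card D := by
    obtain ⟨y, hyW, hy1, hyq⟩ := exists_order_p_of_ne_bot q hWq hWne
    have h1 : orderOf y = q := orderOf_eq_prime hyq hy1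
    rw [← h1]
    exact (Subgroup.orderOf_dvd_natCard D (hWm.le hyW))
  have hqσ : q ∈ sigma M := hDpi q hqq hqD
  have hWM : W ≤ M := hWm.le.trans (inf_le_left.trans hσM)
  have hWC : W ≤ centralizer (P : Set G) := hWm.le.trans inf_le_right
  have hbW : b ∈ normalizer (W : Set G) := hbW₀ (mem_zpowers b)
  have hbn : b ∉ centralizer (W : Set G) := by
    intro h
    apply hw₁
    rw [mem_centralizer_iff] at h
    rw [mem_centralizer_singleton_iff]
    exact h w₁ hw₁W
  have hpq : p ≠ q := fun h => hpσ (h ▸ hqσ)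
  have hrq : r ≠ q := fun h => hrσM (h ▸ hqσ)
  have hP1 : P ≠ ⊥ := by
    rintro rfl
    simp at hP
    exact hpp.one_lt.ne hP
  have hPt : P ≠ ⊤ := fun h => hM.1 (top_le_iff.1 (h ▸ hPM))
  obtain ⟨H, hH, hNH⟩ := exists_coatom_ge (IsMinSimpleOddOrder.normalizer_ne_top hG hP1 hPt)
  have hne : H ≠ M := by
    rintro rfl
    exact (s1409_core hG (huniq13 hG) hM hpσ P hP hNH).1.2 hr1
  have hPH : P ≤ H := le_normalizer.trans hNH
  have hCH : centralizer (P : Set G) ≤ H := (centralizer_le_normalizer' P).trans hNH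
  have hbH : b ∈ H := hCH hbC
  have hWH : W ≤ H := hWC.trans hCH
  by_cases hpH : p ∈ sigma H
  swap
  · have h1 := s1428_not_sigma hG hM hpσ hr1 hPM hP hH hNH hpH (d := w₁) (s := b) (hWm.le hw₁W) hbM hbC
    apply hw₁
    rw [mem_centralizer_singleton_iff]
    have h2 : w₁ * b = b * w₁ := by
      calc w₁ * b = (w₁ * b * w₁⁻¹ * b⁻¹) * (b * w₁) := by group
        _ = b * w₁ := by rw [h1, one_mul]
    exact h2
  have hqβ : q ∉ beta H := by
    intro h
    obtain ⟨c, e⟩ := conj_of_alpha_sigma hG (huniq13 hG) hM hH h.1 hqσ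
    rw [e] at hpH
    exact hpσ (not_sigma_of_conj hpH)
  have hrσ : r ∉ sigma H := by
    intro h
    have hbσ : b ∈ sigmaCore H :=
      le_sigmaCore_of_isPGroup hG (huniq13 hG) hH h hbz (zpowers_le.2 hbH) (mem_zpowers b)
    refine hbn (comm_of_sigma_element hG hH hqβ hWq hWH hbσ ?_ hbW)
    rw [hbo]
    exact (Nat.coprime_primes hrr hqq).2 hrq
  have hPσH : P ≤ sigmaCore H := le_sigmaCore_of_isPGroup hG (huniq13 hG) hH hpH hPp hPH
  by_cases hqH : q ∈ sigma H
  · by_cases hpβ : p ∈ beta H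
    · exact s1428_beta h1412 hG hM hH hpσ hr1 hd hPM hP hNH hpβ hqσ hqH hWm hbC hbo hrσ hbW hbn
    · obtain ⟨W₂, hW₂, hW₂t⟩ := exists_sylow_in_cent hG hM hH hr1 hPM hPH hP hpq hpH hpβ hqσ hqH hqβ
      have hW₂H : IsMaxP q W₂ H :=
        ⟨hW₂.trans (inf_le_right.trans hCH), hW₂t.isP, fun D' h1 h2 h3 => hW₂t.max D' le_top h2 h3⟩
      exact s1428_not_beta hG hH hd hpH hpβ hqσ hqH hqβ (hW₂.trans (inf_le_left.trans hσM)) hW₂H
  -- `q ∉ σ(H)`
  have hr2 : PRankLE q 2 H := prank_of_not_sigma hG (huniq13 hG) hH hqH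
  obtain ⟨x, hxW, hx1, hxq⟩ := exists_order_p_of_ne_bot q hWq hWne
  have hxo : orderOf x = q := orderOf_eq_prime hxq hx1
  have hQ₀c : Nat.card (zpowers x) = q := by rw [Nat.card_zpowers, hxo]
  have hQ₀W : zpowers x ≤ W := zpowers_le.2 hxW
  have hQ₀M : zpowers x ≤ M := hQ₀W.trans hWM
  have hQ₀C : zpowers x ≤ centralizer (P : Set G) := hQ₀W.trans hWC
  by_cases hq1 : PRankLE q 1 ↥H
  swap
  · have hxH : x ∈ H := hWH hxW
    have hτ : ∀ t : ℕ, t.Prime → t ∣ orderOf x → t ∈ tau2 H := by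
      intro t ht hdv
      rw [hxo] at hdv
      obtain rfl := (Nat.prime_dvd_prime_iff_eq ht hqq).1 hdv
      exact ⟨hqq, hqH, hr2, hq1⟩
    have hxσ : x ∈ sigmaHat H := by
      obtain ⟨y, hyP, hy1, -⟩ := exists_order_p_of_ne_bot p hPp hP1
      refine ⟨hxH, y, hPσH hyP, hy1, ?_⟩
      exact (mem_centralizer_iff.1 (hQ₀C (mem_zpowers x)) y hyP).symm
    have hNX := normalizer_zpowers_le_of_tau2 hG hH hxH hx1 hτ hxσ
    obtain ⟨-, -, -, -, hmeet, -⟩ := thmD_not_sigma hG hM hqσ hQ₀c hQ₀M hH hne hNX hqH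
    have h1 : P ≤ sigmaCore H ⊓ M := le_inf hPσH hPM
    rw [hmeet, le_bot_iff] at h1
    exact hP1 h1
  by_cases hqd : q ∣ Nat.card ↥⁅H, H⁆
  swap
  · apply hqd
    have hwH : w₁ ∈ H := hWH hw₁W
    set c : G := w₁ * b * w₁⁻¹ * b⁻¹ with hc
    have hc1 : c ≠ 1 := by
      intro h1
      apply hw₁
      rw [mem_centralizer_singleton_iff]
      have h2 : w₁ * b = b * w₁ := by
        calc w₁ * b = c * (b * w₁) := by rw [hc]; group
          _ = b * w₁ := by rw [h1, one_mul]
      exact h2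
    have hcW : c ∈ W := by
      have h1 : b * w₁⁻¹ * b⁻¹ ∈ W := by
        have := (mem_normalizer_iff.1 hbW w₁⁻¹).1 (W.inv_mem hw₁W)
        exact this
      have h2 : c = w₁ * (b * w₁⁻¹ * b⁻¹) := by rw [hc]; group
      rw [h2]
      exact W.mul_mem hw₁W h1
    have hcH : c ∈ ⁅H, H⁆ := Subgroup.commutator_mem_commutator hwH hbH
    obtain ⟨k, hk⟩ := IsPGroup.iff_orderOf.1 hWq ⟨c, hcW⟩
    have hk0 : k ≠ 0 := by
      rintro rfl
      rw [pow_zero, orderOf_eq_one_iff] at hk
      exact hc1 (congrArg Subtype.val hk)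
    have h3 : orderOf c = q ^ k := by
      rw [← hk, Subgroup.orderOf_mk]
    have h4 : orderOf c ∣ Nat.card ↥⁅H, H⁆ := Subgroup.orderOf_dvd_natCard _ hcH
    rw [h3] at h4
    exact (dvd_pow_self q hk0).trans h4
  have hqτ : q ∈ tau3 H := ⟨hqq, hqH, hqd, hq1⟩
  have hWc : IsCyclic W := isCyclic_of_rank_one hG hWq hWH hq1
  have hbQ : b ∈ normalizer ((zpowers x : Subgroup G) : Set G) := normalizer_le_of_cyclic_ge hWc hQ₀W hbW
  have hfpf : zpowers x ⊓ centralizer ({b} : Set G) = ⊥ := by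
    by_contra hne'
    obtain ⟨⟨y, hy⟩, hy1⟩ := Subgroup.ne_bot_iff_exists_ne_one.1 hne'
    have hy1' : y ≠ 1 := fun h => hy1 (Subtype.ext h)
    have hyW : y ∈ W := hQ₀W hy.1
    have hyq : y ^ q = 1 := by
      obtain ⟨k, rfl⟩ := mem_zpowers_iff.1 hy.1
      rw [← zpow_natCast, zpow_comm, zpow_natCast, hxq, one_zpow]
    have hyC : y ∈ centralizer ({b} : Set G) := hy.2
    rw [mem_centralizer_singleton_iff] at hyC
    have hyc : Commute y b := hyC
    have hom : ∀ u ∈ W, u ^ q = 1 → u ∈ centralizer ((zpowers b : Subgroup G) : Set G) := by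
      intro u hu huq
      haveI := hWc
      have h1 : (⟨u, hu⟩ : W) ∈ zpowers (⟨y, hyW⟩ : W) :=
        Cfsg.Agent.Lib.OddLocal.mem_zpowers_of_cyclic (V := W) (y := ⟨y, hyW⟩) (r := ⟨u, hu⟩) (Subtype.ext hyq) (fun h => hy1' (congrArg Subtype.val h)) (Subtype.ext huq)
      obtain ⟨k, hk⟩ := mem_zpowers_iff.1 h1
      have h2 : y ^ k = u := congrArg Subtype.val hk
      rw [centralizer_zpowers_eq, mem_centralizer_singleton_iff, ← h2]
      exact hyc.zpow_left k
    have hact : Cfsg.Agent.Lib.Coprime.CoprimeAction (zpowers b) W :=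
      ⟨zpowers_le.2 hbW, by
        rw [Nat.card_zpowers, hbo]
        refine (Nat.Prime.coprime_iff_not_dvd hrr).2 (fun h => ?_)
        exact hrσM (hDpi r hrr (h.trans (Subgroup.card_dvd_of_le hWm.le))), Or.inl inferInstance⟩
    have hWab : IsMulCommutative W := IsCyclic.commutative
    have h5 := hact.commutator_eq_bot_of_omega hWab hWq hom
    rw [Subgroup.commutator_eq_bot_iff_le_centralizer] at h5
    apply hbn
    rw [mem_centralizer_iff]
    intro w hw
    have h6 := mem_centralizer_iff.1 (h5 hw) b (mem_zpowers b)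
    exact h6.symm
  exact s1428_tau3 h1412 hG hM hH hr1 hd hPM hP hNH hpH hqσ hqτ hQ₀c hQ₀M hQ₀C hbC hbo hrq hrσ hbQ hfpf

end Cfsg.Agent.Lib.FT
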