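import Cfsg.Agent.Lib.FT.BG14L
import Cfsg.Agent.S1412

/-!
BG15: the statements of Theorem T and Theorem B (see docs/BG15.md).
-/

set_option autoImplicit false
set_option linter.unusedSectionVars false
set_option linter.style.haveILetI false

namespace Cfsg.Agent.Lib.FT

open Subgroup Cfsg Cfsg.Agent.Lib.OddLocal Cfsg.Agent.Lib.Basic

variable {G : Type*} [Group G] [Finite G]

/-- `Config(M,X,p)`: `p ∉ σ(M)`, `r_p(M) ≤ 1`, `#X = p`, `X ≤ M`, `C_{M_σ}(X) ≠ 1`. -/
structure Config (M X : Subgroup G) (p : ℕ) : Prop where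
  hM : IsCoatom M
  hpσ : p ∉ sigma M
  hr : PRankLE p 1 ↥M
  hX : Nat.card X = p
  hXM : X ≤ M
  hD : sigmaCore M ⊓ centralizer (X : Set G) ≠ ⊥

/-- Theorem T below `n`. -/
def ThmTBelow (G : Type*) [Group G] [Finite G] (n : ℕ) : Prop :=
  ∀ (M X H : Subgroup G) (p : ℕ), p.Prime → p < n → Config M X p → IsCoatom H → normalizer (X : Set G) ≤ H → p ∈ sigma H

/-- Theorem T. -/
def ThmT (G : Type*) [Group G] [Finite G] : Prop :=
  ∀ (M X H : Subgroup G) (p : ℕ), p.Prime → Config M X p → IsCoatom H → normalizer (X : Set G) ≤ H → p ∈ sigma H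

/-- Theorem B below `n`: no two distinct maximal subgroups containing the normalizer of a Sylow subgroup for a
prime `< n` in both `σ`. -/
def ThmBBelow (G : Type*) [Group G] [Finite G] (n : ℕ) : Prop :=
  ∀ (M L S : Subgroup G) (q : ℕ), q.Prime → q < n → IsCoatom M → IsCoatom L → q ∈ sigma M → q ∈ sigma L →
    IsPGroup q S → S ≠ ⊥ → S ≤ M → S ≤ L → normalizer (S : Set G) ≤ M → normalizer (S : Set G) ≤ L → L = M

/-- Theorem B. -/
def ThmB (G : Type*) [Group G] [Finite G] : Prop :=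
  ∀ (M L S : Subgroup G) (q : ℕ), q.Prime → IsCoatom M → IsCoatom L → q ∈ sigma M → q ∈ sigma L →
    IsPGroup q S → S ≠ ⊥ → S ≤ M → S ≤ L → normalizer (S : Set G) ≤ M → normalizer (S : Set G) ≤ L → L = M

theorem h1412_of (hG : IsMinSimpleOddOrder G) : Sylow2Struct G := fun p _ P hr => Cfsg.Agent.S1412.result hG p P hr

end Cfsg.Agent.Lib.FT
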