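import Cfsg.Agent.Lib.FT.BG15Defs
import Cfsg.Agent.Lib.Coprime.Omega1
import Cfsg.Agent.Lib.OddLocal.Fpf
import Cfsg.Agent.Lib.OddLocal.Sup

/-!
BG15: the section form of the Frobenius fixed point lemma and Lemma F.
-/

set_option autoImplicit false
set_option linter.unusedSectionVars false
set_option linter.style.haveILetI false

namespace Cfsg.Agent.Lib.FT

open Subgroup Cfsg Cfsg.Agent.Lib.OddLocal Cfsg.Agent.Lib.Basic Cfsg.Agent.Lib.Coprime

open scoped commutatorElement

section Bar

variable {X : Type*} [Group X]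

/-- The action of automorphisms on the Frattini quotient. -/
noncomputable def fratBar : MulAut X →* MulAut (X ⧸ frattini X) where
  toFun α := QuotientGroup.congr (frattini X) (frattini X) α (by
    have := (inferInstance : (frattini X).Characteristic)
    rw [Subgroup.characteristic_iff_map_eq] at this
    exact this α)
  map_one' := by
    ext x
    obtain ⟨x, rfl⟩ := QuotientGroup.mk_surjective x
    rfl
  map_mul' := by
    intro a b
    ext x
    obtain ⟨x, rfl⟩ := QuotientGroup.mk_surjective x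
    rfl

theorem frat_comm {p : ℕ} [Fact p.Prime] [Finite X] (hX : IsPGroup p X) (x y : X ⧸ frattini X) : x * y = y * x := by
  obtain ⟨x, rfl⟩ := QuotientGroup.mk_surjective x
  obtain ⟨y, rfl⟩ := QuotientGroup.mk_surjective y
  rw [← QuotientGroup.mk_mul, ← QuotientGroup.mk_mul, QuotientGroup.eq]
  have h := Cfsg.Agent.Lib.Transfer.commutator_mem_frattini hX y⁻¹ x⁻¹
  simpa [mul_assoc] using h

theorem frat_exp {p : ℕ} [Fact p.Prime] [Finite X] (hX : IsPGroup p X) (x : X ⧸ frattini X) : x ^ p = 1 := by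
  obtain ⟨x, rfl⟩ := QuotientGroup.mk_surjective x
  rw [← QuotientGroup.mk_pow, QuotientGroup.eq_one_iff]
  exact Cfsg.Agent.Lib.Transfer.pow_mem_frattini hX x

end Bar

variable {G : Type*} [Group G] [Finite G]

/-- The action of the normalizer of `T` on `T/Φ(T)`. -/
noncomputable def fratNAct (T : Subgroup G) : normalizer (T : Set G) →* MulAut (↥T ⧸ frattini ↥T) :=
  fratBar.comp T.normalizerMonoidHom

theorem fratNAct_mk (T : Subgroup G) (a : normalizer (T : Set G)) (t : T) :
    fratNAct T a (t : ↥T ⧸ frattini ↥T) = ((T.normalizerMonoidHom a t : T) : ↥T ⧸ frattini ↥T) := rfl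

theorem normalizerMonoidHom_coe (T : Subgroup G) (a : normalizer (T : Set G)) (t : T) :
    ((T.normalizerMonoidHom a t : T) : G) = (a : G) * t * (a : G)⁻¹ := rfl

/-- Fixed points on the Frattini quotient, in commutator form. -/
theorem comm_mem_frattini_of_fixed {T : Subgroup G} (a : normalizer (T : Set G)) (t : T)
    (h : fratNAct T a (t : ↥T ⧸ frattini ↥T) = (t : ↥T ⧸ frattini ↥T)) :
    (t : G) * a * (t : G)⁻¹ * (a : G)⁻¹ ∈ (frattini ↥T).map T.subtype := by
  rw [fratNAct_mk, QuotientGroup.eq_iff_div_mem] at h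
  have h1 : t / T.normalizerMonoidHom a t ∈ frattini ↥T := by
    have := (frattini ↥T).inv_mem h
    simpa using this
  refine ⟨_, h1, ?_⟩
  have e : ((t / T.normalizerMonoidHom a t : T) : G) = (t : G) * ((a : G) * t * (a : G)⁻¹)⁻¹ := by
    rw [div_eq_mul_inv]
    rfl
  rw [subtype_apply, e]
  group

/-- If `T = [T,U]` then `U` has no nontrivial fixed points on `T/Φ(T)`. -/
theorem mem_frattini_of_fixed {q : ℕ} [Fact q.Prime] {T U : Subgroup G} (hT : IsPGroup q T)
    (hUT : U ≤ normalizer (T : Set G)) (hUc : (Nat.card U).Coprime q) (hTU : T ≤ ⁅T, U⁆) (t : T)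
    (hfix : ∀ u (hu : u ∈ U), fratNAct T ⟨u, hUT hu⟩ (t : ↥T ⧸ frattini ↥T) = (t : ↥T ⧸ frattini ↥T)) :
    t ∈ frattini ↥T := by
  classical
  letI inst : CommGroup (↥T ⧸ frattini ↥T) :=
    { (inferInstance : Group (↥T ⧸ frattini ↥T)) with mul_comm := frat_comm hT }
  letI : Fintype U := Fintype.ofFinite U
  let φ : U → ((↥T ⧸ frattini ↥T) →* (↥T ⧸ frattini ↥T)) :=
    fun u => ((fratNAct T ⟨u, hUT u.2⟩ : MulAut (↥T ⧸ frattini ↥T)).toMonoidHom)
  let τ : (↥T ⧸ frattini ↥T) →* (↥T ⧸ frattini ↥T) := ∏ u, φ u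
  have hτ : ∀ v, τ v = ∏ u, φ u v := fun v => by
    simp only [τ, MonoidHom.finset_prod_apply]
  have hφ : ∀ (u u₀ : U) v, φ u (φ u₀ v) = φ (u * u₀) v := by
    intro u u₀ v
    obtain ⟨t', rfl⟩ := QuotientGroup.mk_surjective v
    change (fratNAct T ⟨u, hUT u.2⟩) ((fratNAct T ⟨u₀, hUT u₀.2⟩) _) = (fratNAct T ⟨((u * u₀ : U) : G), hUT (u * u₀).2⟩) _
    rw [← MulAut.mul_apply, ← map_mul]
    rfl
  have hinv : ∀ (u₀ : U) v, τ (φ u₀ v) = τ v := by
    intro u₀ v
    rw [hτ, hτ]
    refine Fintype.prod_equiv (Equiv.mulRight u₀) _ _ (fun u => ?_)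
    simpa using hφ u u₀ v
  let K : Subgroup G := (τ.comp (QuotientGroup.mk' (frattini ↥T))).ker.map T.subtype
  have hle : ⁅T, U⁆ ≤ K := by
    rw [Subgroup.commutator_le]
    intro a ha u hu
    let a₁ : T := ⟨a, ha⟩
    let a₂ : T := T.normalizerMonoidHom ⟨u, hUT hu⟩ a₁⁻¹
    refine ⟨a₁ * a₂, ?_, ?_⟩
    · rw [SetLike.mem_coe, MonoidHom.mem_ker]
      change τ ((a₁ * a₂ : T) : ↥T ⧸ frattini ↥T) = 1
      have e : ((a₂ : T) : ↥T ⧸ frattini ↥T) = φ ⟨u, hu⟩ (a₁⁻¹ : T) := rfl
      rw [QuotientGroup.mk_mul, map_mul, e, hinv, ← map_mul, ← QuotientGroup.mk_mul]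
      simp
    · simp only [subtype_apply, coe_mul, a₁, a₂, normalizerMonoidHom_coe, commutatorElement_def, coe_inv]
      group
  have h1 : τ (t : ↥T ⧸ frattini ↥T) = 1 := by
    obtain ⟨t', ht', e⟩ := hle (hTU t.2)
    have e' : t' = t := Subtype.ext e
    rw [← e']
    exact ht'
  have h2 : τ (t : ↥T ⧸ frattini ↥T) = (t : ↥T ⧸ frattini ↥T) ^ Nat.card U := by
    rw [hτ]
    have : ∀ u : U, φ u (t : ↥T ⧸ frattini ↥T) = (t : ↥T ⧸ frattini ↥T) := fun u => hfix u u.2
    simp only [this]
    rw [Finset.prod_const, Finset.card_univ, Nat.card_eq_fintype_card]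
  have h3 : (t : ↥T ⧸ frattini ↥T) ^ Nat.card U = 1 := h2 ▸ h1
  have h4 : (t : ↥T ⧸ frattini ↥T) ^ q = 1 := frat_exp hT _
  have h5 : (t : ↥T ⧸ frattini ↥T) = 1 := by
    have h6 := (pow_gcd_eq_one).mpr ⟨h3, h4⟩
    rw [hUc.gcd_eq_one, pow_one] at h6
    exact h6
  exact (QuotientGroup.eq_one_iff t).mp h5

/-- `frobenius_action_fixed` for a group known to be commutative. -/
theorem frob_fixed_group {V F : Type*} [Group V] [Finite V] [Group F] [Finite F] (hcomm : ∀ x y : V, x * y = y * x)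
    (φ : F →* MulAut V) (U : Subgroup F) (y : F) {r : ℕ} (hr : r.Prime) (hy : y ^ r = 1)
    (hU : y ∈ normalizer (U : Set F)) (hfpf : ∀ u ∈ U, y * u = u * y → u = 1)
    (hcop : (Nat.card U).Coprime (Nat.card V))
    (hCU : ∀ v : V, (∀ u ∈ U, φ u v = v) → v = 1) (hCy : ∀ v : V, φ y v = v → v = 1) (v : V) : v = 1 := by
  letI inst : CommGroup V := { (inferInstance : Group V) with mul_comm := hcomm }
  exact frobenius_action_fixed φ U y hr hy hU hfpf hcop hCU hCy v

theorem mulAut_zpow_fixed {V : Type*} [Group V] (α : MulAut V) (v : V) (h : α v = v) (k : ℤ) : (α ^ k) v = v := by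
  have hmem : α ∈ MulAction.stabilizer (MulAut V) v := h
  exact (MulAction.stabilizer (MulAut V) v).zpow_mem hmem k

theorem comm_mem_frattini_of_zpowers {T : Subgroup G} {y : G} (hyT : y ∈ normalizer (T : Set G)) (t : T)
    (hw : fratNAct T ⟨y, hyT⟩ (t : ↥T ⧸ frattini ↥T) = (t : ↥T ⧸ frattini ↥T)) {a : G} (ha : a ∈ zpowers y) :
    (t : G) * a * (t : G)⁻¹ * a⁻¹ ∈ (frattini ↥T).map T.subtype := by
  obtain ⟨k, rfl⟩ := mem_zpowers_iff.mp ha
  have hfix : fratNAct T ((⟨y, hyT⟩ : normalizer (T : Set G)) ^ k) (t : ↥T ⧸ frattini ↥T) = (t : ↥T ⧸ frattini ↥T) := by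
    rw [map_zpow]
    exact mulAut_zpow_fixed _ _ hw k
  have h3 := comm_mem_frattini_of_fixed ((⟨y, hyT⟩ : normalizer (T : Set G)) ^ k) t hfix
  rw [Subgroup.coe_zpow] at h3
  exact h3

/-- The section form of the Frobenius lemma. -/
theorem exists_fixed_not_frattini {q r : ℕ} [Fact q.Prime] {T U : Subgroup G} {y : G} (hr : r.Prime) (hy : y ^ r = 1)
    (hT : IsPGroup q T) (hTne : T ≠ ⊥) (hUT : U ≤ normalizer (T : Set G)) (hyT : y ∈ normalizer (T : Set G))
    (hyU : y ∈ normalizer (U : Set G)) (hfpf : ∀ u ∈ U, y * u = u * y → u = 1) (hUc : (Nat.card U).Coprime q)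
    (hrc : r.Coprime q) (hTU : T ≤ ⁅T, U⁆) :
    ∃ e ∈ T, e ∉ (frattini ↥T).map T.subtype ∧ y * e = e * y := by
  classical
  by_contra hcon
  push Not at hcon
  have hFT : (frattini ↥T).map T.subtype ≤ T := frattini_map_le T
  have hFn : normalizer (T : Set G) ≤ normalizer (((frattini ↥T).map T.subtype : Subgroup G) : Set G) :=
    fun a ha => mem_normalizer_map_of_characteristic T (frattini ↥T) ha
  have hall : ∀ v : ↥T ⧸ frattini ↥T, v = 1 := by
    intro v
    refine frob_fixed_group (frat_comm hT) (fratNAct T) (U.subgroupOf (normalizer (T : Set G))) ⟨y, hyT⟩ hr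
      (Subtype.ext (by simpa using hy)) ?_ ?_ ?_ ?_ ?_ v
    · rw [Subgroup.mem_normalizer_iff]
      intro h
      rw [Subgroup.mem_subgroupOf, Subgroup.mem_subgroupOf]
      exact (Subgroup.mem_normalizer_iff.mp hyU _)
    · intro u hu hc
      have h1 := hfpf u (Subgroup.mem_subgroupOf.mp hu) (congrArg Subtype.val hc)
      exact Subtype.ext h1
    · have hcard : Nat.card (U.subgroupOf (normalizer (T : Set G))) = Nat.card U :=
        Nat.card_congr (Subgroup.subgroupOfEquivOfLe hUT).toEquiv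
      rw [hcard]
      obtain ⟨k, hk⟩ := IsPGroup.iff_card.mp hT
      have h1 : Nat.card (↥T ⧸ frattini ↥T) ∣ q ^ k := by
        rw [← hk, ← Subgroup.index_eq_card]
        exact Subgroup.index_dvd_card _
      exact Nat.Coprime.coprime_dvd_right h1 (Nat.Coprime.pow_right k hUc)
    · intro w hw
      obtain ⟨t, rfl⟩ := QuotientGroup.mk_surjective w
      rw [QuotientGroup.eq_one_iff]
      exact mem_frattini_of_fixed hT hUT hUc hTU t (fun u hu => hw ⟨u, hUT hu⟩ (Subgroup.mem_subgroupOf.mpr hu))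
    · intro w hw
      obtain ⟨t, rfl⟩ := QuotientGroup.mk_surjective w
      rw [QuotientGroup.eq_one_iff]
      have hzc : (Nat.card (zpowers y)).Coprime q := by
        rw [Nat.card_zpowers]
        exact Nat.Coprime.coprime_dvd_left (orderOf_dvd_of_pow_eq_one hy) hrc
      have hzN : zpowers y ≤ normalizer (T : Set G) := zpowers_le.mpr hyT
      have hca := coprimeAction_of_isPGroup hT hzc hzN
      obtain ⟨n, hn, c, hc, e⟩ := hca.exists_mul_centralizer hFT (hzN.trans hFn) t.2
        (fun a ha => comm_mem_frattini_of_zpowers hyT t hw ha)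
      have hcF : c ∈ (frattini ↥T).map T.subtype := by
        by_contra hcF
        apply hcon c hc.1 hcF
        have := mem_centralizer_iff.mp hc.2 y (mem_zpowers y)
        exact this
      have htF : (t : G) ∈ (frattini ↥T).map T.subtype := by
        rw [e]
        exact mul_mem hn hcF
      obtain ⟨t', ht', e'⟩ := htF
      have e2 : t' = t := Subtype.ext e'
      rwa [← e2]
  apply frattini_map_ne hTne
  refine le_antisymm hFT fun t ht => ?_
  have h1 := hall ((⟨t, ht⟩ : T) : ↥T ⧸ frattini ↥T)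
  rw [QuotientGroup.eq_one_iff] at h1
  exact ⟨⟨t, ht⟩, h1, rfl⟩

/-- **Lemma FROB**: `[S,U] ≠ 1` implies `C_{[S,U]}(R₀) ≠ 1` when `U R₀` is of Frobenius type. -/
theorem frob_commutator_fixed {q : ℕ} [Fact q.Prime] {S U R₀ : Subgroup G} (hS : IsPGroup q S)
    (hUS : U ≤ normalizer (S : Set G)) (hRS : R₀ ≤ normalizer (S : Set G)) (hRU : R₀ ≤ normalizer (U : Set G))
    (hUc : (Nat.card U).Coprime q) (hR : (Nat.card R₀).Prime) (hRc : (Nat.card R₀).Coprime q)
    (hfpf : ∀ y ∈ R₀, y ≠ 1 → ∀ u ∈ U, y * u = u * y → u = 1) (h : ¬ S ≤ centralizer (U : Set G)) :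
    ⁅S, U⁆ ⊓ centralizer (R₀ : Set G) ≠ ⊥ := by
  classical
  have hHS : ⁅S, U⁆ ≤ S := Cfsg.Agent.Lib.Basic.commutator_le_of_le_normalizer hUS
  have hHp : IsPGroup q ↥⁅S, U⁆ := hS.to_le hHS
  have hca := coprimeAction_of_isPGroup hS hUc hUS
  have hne : ⁅S, U⁆ ≠ ⊥ := by
    intro e
    apply h
    rw [le_centralizer_iff]
    rw [← commutator_eq_bot_iff_le_centralizer, commutator_comm]
    exact e
  obtain ⟨y, hy, hy1⟩ : ∃ y ∈ R₀, y ≠ 1 := by
    haveI : Fact (Nat.card R₀).Prime := ⟨hR⟩
    have h1 : R₀ ≠ ⊥ := by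
      rintro rfl
      simp at hR
      exact Nat.not_prime_one hR
    obtain ⟨y, hy⟩ := (Subgroup.ne_bot_iff_exists_ne_one).mp h1
    exact ⟨y, y.2, fun e => hy (Subtype.ext e)⟩
  have hypow : y ^ Nat.card R₀ = 1 := by
    have : (⟨y, hy⟩ : R₀) ^ Nat.card R₀ = 1 := pow_card_eq_one'
    exact congrArg Subtype.val this
  have hRy : R₀ = zpowers y := by
    haveI : Fact (Nat.card R₀).Prime := ⟨hR⟩
    refine (Subgroup.eq_of_le_of_card_ge (zpowers_le.mpr hy) ?_).symm
    rw [Nat.card_zpowers, orderOf_eq_prime hypow hy1]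
  obtain ⟨e, he, heF, hye⟩ := exists_fixed_not_frattini hR hypow hHp hne
    (fun u hu => mem_normalizer_commutator (hUS hu) (le_normalizer hu))
    (mem_normalizer_commutator (hRS hy) (hRU hy)) (hRU hy) (fun u hu hc => hfpf y hy hy1 u hu hc) hUc hRc
    (hca.commutator_commutator_eq.ge)
  intro hbot
  have he1 : e ∈ ⁅S, U⁆ ⊓ centralizer (R₀ : Set G) := by
    refine Subgroup.mem_inf.mpr ⟨he, ?_⟩
    rw [hRy, mem_centralizer_iff]
    intro t ht
    obtain ⟨k, rfl⟩ := mem_zpowers_iff.mp ht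
    exact ((Commute.zpow_left hye k)).eq
  rw [hbot, mem_bot] at he1
  apply heF
  rw [he1]
  exact one_mem _

/-- **Lemma F**. -/
theorem lemmaF {q : ℕ} [Fact q.Prime] {S U R₀ Q₁ : Subgroup G} (hq2 : q ≠ 2) (hS : IsPGroup q S)
    (hUS : U ≤ normalizer (S : Set G)) (hRS : R₀ ≤ normalizer (S : Set G)) (hRU : R₀ ≤ normalizer (U : Set G))
    (hUc : (Nat.card U).Coprime q) (hR : (Nat.card R₀).Prime) (hRc : (Nat.card R₀).Coprime q)
    (hfpf : ∀ y ∈ R₀, y ≠ 1 → ∀ u ∈ U, y * u = u * y → u = 1)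
    (hcyc : IsCyclic ↥(S ⊓ centralizer (R₀ : Set G))) (hQ₁ : Q₁ ≠ ⊥) (hQS : Q₁ ≤ S)
    (hQU : Q₁ ≤ centralizer (U : Set G)) (hQR : Q₁ ≤ centralizer (R₀ : Set G)) : S ≤ centralizer (U : Set G) := by
  classical
  have hpp : q.Prime := Fact.out
  -- the element of order `q` in `Q₁`
  have hQp : IsPGroup q Q₁ := hS.to_le hQS
  have hqd : q ∣ Nat.card Q₁ := by
    obtain ⟨k, hk⟩ := IsPGroup.iff_card.mp hQp
    have hk0 : k ≠ 0 := by
      rintro rfl
      exact hQ₁ ((Subgroup.eq_bot_iff_card _).mpr (by simpa using hk))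
    rw [hk]
    exact dvd_pow_self q hk0
  obtain ⟨a, ha⟩ := exists_prime_orderOf_dvd_card' q hqd
  have haG : orderOf (a : G) = q := by
    rw [Subgroup.orderOf_coe]
    exact ha
  -- generator of `R₀`
  obtain ⟨y, hy, hy1⟩ : ∃ y ∈ R₀, y ≠ 1 := by
    have h1 : R₀ ≠ ⊥ := by
      rintro rfl
      simp at hR
      exact Nat.not_prime_one hR
    obtain ⟨y, hy⟩ := (Subgroup.ne_bot_iff_exists_ne_one).mp h1
    exact ⟨y, y.2, fun e => hy (Subtype.ext e)⟩
  have hypow : y ^ Nat.card R₀ = 1 := by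
    have : (⟨y, hy⟩ : R₀) ^ Nat.card R₀ = 1 := pow_card_eq_one'
    exact congrArg Subtype.val this
  have hRy : R₀ = zpowers y := by
    haveI : Fact (Nat.card R₀).Prime := ⟨hR⟩
    refine (Subgroup.eq_of_le_of_card_ge (zpowers_le.mpr hy) ?_).symm
    rw [Nat.card_zpowers, orderOf_eq_prime hypow hy1]
  have key : ∀ (n : ℕ) (P : Subgroup G), Nat.card P = n → P ≤ S → U ≤ normalizer (P : Set G) →
      R₀ ≤ normalizer (P : Set G) → U ≤ centralizer (P : Set G) := by
    intro n
    induction n using Nat.strong_induction_on with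
    | _ n IH =>
    intro P hn hPS hAP hRP
    have hP : IsPGroup q P := hS.to_le hPS
    obtain ⟨k, hk⟩ := IsPGroup.iff_card.mp hP
    have hcop : (Nat.card U).Coprime (Nat.card P) := by
      rw [hk]
      exact Nat.Coprime.pow_right k hUc
    have hsolv : Group.IsSolvable U ∨ Group.IsSolvable P := by
      right
      haveI := hP.isNilpotent
      infer_instance
    obtain ⟨H, hHdef⟩ : ∃ H, H = ⁅P, U⁆ := ⟨_, rfl⟩
    have hHP : H ≤ P := hHdef ▸ Cfsg.Agent.Lib.Basic.commutator_le_of_le_normalizer hAP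
    have hAH : U ≤ normalizer (H : Set G) := fun u hu =>
      hHdef ▸ mem_normalizer_commutator (hAP hu) (le_normalizer hu)
    have hRH : R₀ ≤ normalizer (H : Set G) := fun u hu =>
      hHdef ▸ mem_normalizer_commutator (hRP hu) (hRU hu)
    have hsuff : U ≤ centralizer (H : Set G) → U ≤ centralizer (P : Set G) := by
      intro h1
      have h2 : ⁅H, U⁆ = ⊥ := by
        rw [commutator_comm]
        exact commutator_eq_bot_iff_le_centralizer.mpr h1
      have h3 := Cfsg.Agent.Lib.Basic.coprime_commutator_commutator hAP hcop hsolv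
      rw [← hHdef, h2] at h3
      rw [← commutator_eq_bot_iff_le_centralizer, commutator_comm, ← hHdef]
      exact h3.symm
    by_cases hHne : H = P
    · by_cases hbot : P = ⊥
      · rw [hbot]
        intro x _
        rw [mem_centralizer_iff]
        intro y hy
        have : y = 1 := hy
        simp [this]
      exfalso
      obtain ⟨F, hFdef⟩ : ∃ F, F = (frattini P).map P.subtype := ⟨_, rfl⟩
      have hFP : F ≤ P := hFdef ▸ frattini_map_le P
      have hFne : F ≠ P := hFdef ▸ frattini_map_ne hbot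
      have hFlt : F < P := lt_of_le_of_ne hFP hFne
      have hcard : Nat.card F < n := by
        rw [← hn]
        by_contra hlt
        push Not at hlt
        exact hFlt.ne (Subgroup.eq_of_le_of_card_ge hFP hlt)
      have hFnorm : normalizer (P : Set G) ≤ normalizer (F : Set G) := fun a ha =>
        hFdef ▸ mem_normalizer_map_of_characteristic P (frattini P) ha
      have hAF := IH _ hcard F rfl (hFP.trans hPS) (hAP.trans hFnorm) (hRP.trans hFnorm)
      have h1 : ⁅⁅U, F⁆, P⁆ = ⊥ := by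
        rw [commutator_eq_bot_iff_le_centralizer.mpr hAF, commutator_bot_left]
      have h2 : ⁅⁅F, P⁆, U⁆ = ⊥ := by
        have h3 : ⁅F, P⁆ ≤ F := by
          rw [commutator_le]
          intro f hf g hg
          have h4 : g ∈ normalizer (F : Set G) := hFnorm (le_normalizer hg)
          have h5 := (mem_normalizer_iff.mp h4 f⁻¹).mp (inv_mem hf)
          rw [commutatorElement_def, show f * g * f⁻¹ * g⁻¹ = f * (g * f⁻¹ * g⁻¹) by group]
          exact mul_mem hf h5
        rw [commutator_comm]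
        refine le_bot_iff.mp ((commutator_mono le_rfl h3).trans ?_)
        rw [commutator_eq_bot_iff_le_centralizer.mpr hAF]
      have h3 : ⁅⁅P, U⁆, F⁆ = ⊥ := commutator_commutator_eq_bot_of_rotate h1 h2
      rw [← hHdef, hHne] at h3
      have hFcen : ∀ f ∈ F, ∀ x ∈ P, f * x = x * f := by
        intro f hf x hx
        have h6 := commutator_mem_commutator hx hf
        rw [h3, mem_bot, commutatorElement_eq_one_iff_mul_comm] at h6
        exact h6.symm
      have hpowF : ∀ x : P, (x : G) ^ q ∈ F := by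
        intro x
        rw [hFdef]
        exact ⟨x ^ q, Cfsg.Agent.Lib.Transfer.pow_mem_frattini hP x, rfl⟩
      have hcommF : ∀ x y : P, (y : G) * x * (y : G)⁻¹ * (x : G)⁻¹ ∈ F := by
        intro x y
        rw [hFdef]
        exact ⟨y * x * y⁻¹ * x⁻¹, Cfsg.Agent.Lib.Transfer.commutator_mem_frattini hP y x, rfl⟩
      have hmulpow : ∀ x y : P, ((x : G) * y) ^ q = (x : G) ^ q * (y : G) ^ q := by
        intro x y
        obtain ⟨c, hc⟩ : ∃ c, c = (y : G) * x * (y : G)⁻¹ * (x : G)⁻¹ := ⟨_, rfl⟩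
        have hcF : c ∈ F := hc ▸ hcommF x y
        have hc1 : (y : G) * x = c * x * y := by
          rw [hc]
          group
        have hc2 : c * x = x * c := hFcen c hcF x x.2
        have hc3 : c * y = y * c := hFcen c hcF y y.2
        have h4 := mul_pow_of_commutator_central (x : G) (y : G) c hc1 hc2 hc3 q
        have h5 := conj_pow_of_commutator_central (x : G) (y : G) c hc1 hc2 q
        have h6 : c ^ q = 1 := by
          have h7 : (y : G) * (x : G) ^ q * (y : G)⁻¹ = (x : G) ^ q := by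
            have := hFcen _ (hpowF x) y y.2
            rw [← this]
            group
          rw [h7] at h5
          exact (mul_eq_right.mp h5.symm)
        have h8 : q ∣ q.choose 2 := by
          have hodd : Odd q := hpp.odd_of_ne_two hq2
          rw [Nat.choose_two_right]
          obtain ⟨m, hm⟩ := hodd
          have h9 : q * (q - 1) / 2 = q * m := by
            have h10 : q - 1 = 2 * m := by omega
            rw [h10, show q * (2 * m) = 2 * (q * m) by ring]
            simp
          rw [h9]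
          exact dvd_mul_right _ _
        obtain ⟨m, hm⟩ := h8
        rw [h4, hm, pow_mul, h6, one_pow, mul_one]
      -- the commutators have order dividing `q`
      have hcomm_pow : ∀ x ∈ P, ∀ a ∈ U, (x * a * x⁻¹ * a⁻¹) ^ q = 1 := by
        intro x hx a ha
        obtain ⟨w, hw⟩ : ∃ w, w = a * x⁻¹ * a⁻¹ * x := ⟨_, rfl⟩
        have hwP : w ∈ P := by
          rw [hw]
          refine mul_mem ?_ hx
          exact (mem_normalizer_iff.mp (hAP ha) x⁻¹).mp (inv_mem hx)
        have hxw : x * a * x⁻¹ * a⁻¹ = x * w * x⁻¹ := by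
          rw [hw]
          group
        have hwp : w ^ q = 1 := by
          have h4 := hmulpow ⟨w, hwP⟩ ⟨x⁻¹, inv_mem hx⟩
          simp only at h4
          have h5 : w * x⁻¹ = a * x⁻¹ * a⁻¹ := by
            rw [hw]
            group
          rw [h5, show a * x⁻¹ * a⁻¹ = a * x⁻¹ * a⁻¹ from rfl, conj_pow] at h4
          have h6 : (x⁻¹) ^ q ∈ F := hpowF ⟨x⁻¹, inv_mem hx⟩
          have h7 : a * (x⁻¹) ^ q * a⁻¹ = (x⁻¹) ^ q := by
            have := mem_centralizer_iff.mp (hAF ha) _ h6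
            rw [← this]
            group
          rw [h7] at h4
          exact (mul_eq_right.mp h4.symm)
        rw [hxw, conj_pow, hwp]
        group
      -- `P` has exponent `q`
      let Ω : Subgroup G :=
        { carrier := {x | x ∈ P ∧ x ^ q = 1}
          one_mem' := ⟨one_mem _, one_pow _⟩
          mul_mem' := fun {x y} hx hy => ⟨mul_mem hx.1 hy.1, by
            have := hmulpow ⟨x, hx.1⟩ ⟨y, hy.1⟩
            simp only at this
            rw [this, hx.2, hy.2, one_mul]⟩
          inv_mem' := fun {x} hx => ⟨inv_mem hx.1, by rw [inv_pow, hx.2, inv_one]⟩ }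
      have hHΩ : ⁅P, U⁆ ≤ Ω := by
        rw [commutator_le]
        intro x hx a ha
        refine ⟨?_, hcomm_pow x hx a ha⟩
        rw [commutatorElement_def]
        have h5 := (mem_normalizer_iff.mp (hAP ha) x⁻¹).mp (inv_mem hx)
        rw [show x * a * x⁻¹ * a⁻¹ = x * (a * x⁻¹ * a⁻¹) by group]
        exact mul_mem hx h5
      have hPU : P ≤ ⁅P, U⁆ := by
        rw [← hHdef, hHne]
      have hexp : ∀ x ∈ P, x ^ q = 1 := fun x hx => (hHΩ (hPU hx)).2
      -- the fixed element
      obtain ⟨e, he, heF, hye⟩ := exists_fixed_not_frattini hR hypow hP hbot hAP (hRP hy) (hRU hy)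
        (fun u hu hc => hfpf y hy hy1 u hu hc) hUc hRc hPU
      have he1 : e ≠ 1 := by
        rintro rfl
        exact heF (one_mem _)
      have heo : orderOf e = q := orderOf_eq_prime (hexp e he) he1
      have heC : e ∈ centralizer (R₀ : Set G) := by
        rw [hRy, mem_centralizer_iff]
        intro t ht
        obtain ⟨k, rfl⟩ := mem_zpowers_iff.mp ht
        exact ((Commute.zpow_left hye k)).eq
      have hz : zpowers e = zpowers (a : G) := by
        refine eq_of_card_eq_of_le_isCyclic hcyc (zpowers_le.mpr ⟨hPS he, heC⟩)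
          (zpowers_le.mpr ⟨hQS a.2, hQR a.2⟩) ?_
        rw [Nat.card_zpowers, Nat.card_zpowers, heo, haG]
      have hea : e ∈ Q₁ := by
        have h4 : e ∈ zpowers (a : G) := hz ▸ mem_zpowers e
        exact (zpowers_le.mpr a.2) h4
      have heU : e ∈ centralizer (U : Set G) := hQU hea
      apply heF
      have hFeq := hFdef
      have hmem := mem_frattini_of_fixed hP hAP hUc hPU ⟨e, he⟩ (fun u hu => by
        rw [fratNAct_mk]
        congr 1
        apply Subtype.ext
        rw [normalizerMonoidHom_coe]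
        have := mem_centralizer_iff.mp heU u hu
        change u * e * u⁻¹ = e
        rw [this]
        group)
      exact ⟨⟨e, he⟩, hmem, rfl⟩
    · have hlt : H < P := lt_of_le_of_ne hHP hHne
      have hcard : Nat.card H < n := by
        rw [← hn]
        by_contra hle
        push Not at hle
        exact hlt.ne (Subgroup.eq_of_le_of_card_ge hHP hle)
      apply hsuff
      exact IH _ hcard H rfl (hHP.trans hPS) hAH hRH
  exact (le_centralizer_iff).mp (key _ S rfl le_rfl hUS hRS)

end Cfsg.Agent.Lib.FT
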