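import Cfsg.Agent.Lib.FT.BG15Defs
import Cfsg.Agent.Lib.FT.BG14a

/-!
BG15: first steps of Theorem T (see docs/BG15.md).
-/

set_option autoImplicit false
set_option linter.unusedSectionVars false
set_option linter.style.haveILetI false

namespace Cfsg.Agent.Lib.FT

open Subgroup Cfsg Cfsg.Agent.Lib.OddLocal Cfsg.Agent.Lib.Basic

open Cfsg.Agent.Lib.Coprime (mem_conj_map conj_mem_conj_map conj_map_conj_map conj_map_one
  conj_map_mono mem_normalizer_of_conj_le conj_map_eq_iff_mem_normalizer isPGroup_conj_map)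

open scoped commutatorElement

variable {G : Type*} [Group G] [Finite G]

/-- Two subgroups normalizing each other and meeting trivially commute. -/
theorem comm_of_norm_norm {A B : Subgroup G} (hAB : A ≤ normalizer (B : Set G)) (hBA : B ≤ normalizer (A : Set G))
    (h : A ⊓ B = ⊥) : A ≤ centralizer (B : Set G) := by
  intro a ha
  rw [mem_centralizer_iff]
  intro b hb
  have h1 : b * a * b⁻¹ * a⁻¹ ∈ A := A.mul_mem ((mem_normalizer_iff.mp (hBA hb) a).mp ha) (A.inv_mem ha)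
  have h2 : b * a * b⁻¹ * a⁻¹ ∈ B := by
    have h3 := (mem_normalizer_iff.mp (hAB ha) b⁻¹).mp (B.inv_mem hb)
    have e : b * a * b⁻¹ * a⁻¹ = b * (a * b⁻¹ * a⁻¹) := by group
    rw [e]
    exact B.mul_mem hb h3
  have h4 : b * a * b⁻¹ * a⁻¹ ∈ A ⊓ B := ⟨h1, h2⟩
  rw [h, mem_bot] at h4
  have h5 : b * a * b⁻¹ = a := mul_inv_eq_one.mp h4
  calc b * a = b * a * b⁻¹ * b := by group
    _ = a * b := by rw [h5]

/-- A `π`-Hall subgroup of a solvable group `E` exists. -/
theorem exists_isPiHallOf_solvable (π : Set ℕ) {E : Subgroup G} (hs : Group.IsSolvable ↥E) :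
    ∃ H : Subgroup G, IsPiHallOf π H E := by
  classical
  obtain ⟨H, hH, -, -⟩ := Cfsg.Agent.Lib.Coprime.exists_invariant_hall π _
    (A := ⊥) (G := E) (U := ⊥) ⟨bot_le, by simp, Or.inr hs⟩ hs rfl bot_le bot_le (by
      intro p hp hd
      simp at hd
      exact absurd hd hp.one_lt.ne')
  exact ⟨H, hH⟩

/-- A subgroup of order `q ∈ τ₃(M)` of a complement `E` is normal in `E`. -/
theorem normal_of_tau3 {M E Q : Subgroup G} {q : ℕ} [Fact q.Prime] (hG : IsMinSimpleOddOrder G) (hM : IsCoatom M)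
    (hE : IsComplIn E (sigmaCore M) M) (hq : q ∈ tau3 M) (hQE : Q ≤ E) (hQ : Nat.card Q = q) :
    E ≤ normalizer (Q : Set G) := by
  classical
  have hqp : q.Prime := Fact.out
  have hEs : Group.IsSolvable ↥E := by
    have hs := coatom_isSolvable hG hM
    exact solvable_of_solvable_injective (f := Subgroup.inclusion hE.1) (Subgroup.inclusion_injective hE.1)
  obtain ⟨E₃, hE₃⟩ := exists_isPiHallOf_solvable (tau3 M) hEs
  obtain ⟨hc, -, hn⟩ := (s1415_core hG (huniq13 hG) hM E hE).2.2 E₃ hE₃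
  obtain ⟨g, hg, hle⟩ := IsPiHallOf.exists_conj_ge hEs hE₃ hQE (fun r hr hd => by
    rw [hQ] at hd
    rw [(Nat.prime_dvd_prime_iff_eq hr hqp).mp hd]
    exact hq)
  rw [(conj_map_eq_iff_mem_normalizer E₃ g).mpr (hn hg)] at hle
  exact hn.trans (normalizer_le_of_cyclic_ge hc hle)

/-- Two `τ₂`-lines in a complement commute. -/
theorem Tau2Setup.comm_of_two {p q : ℕ} [Fact p.Prime] [Fact q.Prime] {A A' H E : Subgroup G} (T : Tau2Setup p A H)
    (T' : Tau2Setup q A' H) (hpq : p ≠ q) (hE : IsComplIn E (sigmaCore H) H) (hAE : A ≤ E) (hA'E : A' ≤ E) :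
    A ≤ centralizer (A' : Set G) := by
  refine comm_of_norm_norm (hAE.trans (T'.compl_le_normalizer hE hA'E)) (hA'E.trans (T.compl_le_normalizer hE hAE)) ?_
  exact eq_bot_of_isPGroup_of_coprime (T.S.hAp.to_le inf_le_left) (inf_le_right : A ⊓ A' ≤ A') (by
    rw [T'.S.hAc]
    exact Nat.Coprime.pow_left 2 ((Nat.coprime_primes Fact.out Fact.out).mpr hpq.symm))

/-- **`q ∈ τ₁(H)`**. -/
theorem tau1_of_moves {p q : ℕ} [Fact p.Prime] [Fact q.Prime] {A H Q : Subgroup G} (hG : IsMinSimpleOddOrder G)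
    (T : Tau2Setup p A H) (hQ : Nat.card Q = q) (hQN : Q ≤ H ⊓ normalizer (A : Set G)) (hqσ : q ∉ sigma H)
    (hnc : ¬ Q ≤ centralizer (A : Set G)) : ¬ q ∣ Nat.card ↥⁅H, H⁆ ∧ PRankLE q 1 ↥H := by
  classical
  have hqp : q.Prime := Fact.out
  have hE := T.isComplIn_inf_normalizer
  have hAE : A ≤ H ⊓ normalizer (A : Set G) := le_inf T.hAM le_normalizer
  have hQp : IsPGroup q Q := IsPGroup.of_card (n := 1) (by simpa using hQ)
  have hpq : p ≠ q := by
    rintro rfl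
    have h1 := T.order_p_le hE hAE hQN hQ
    apply hnc
    refine h1.trans ?_
    intro a ha
    rw [mem_centralizer_iff]
    intro b hb
    exact congrArg Subtype.val (T.S.hAe.1.is_comm.comm (⟨b, hb⟩ : A) ⟨a, ha⟩)
  have hr1 : PRankLE q 1 ↥H := by
    by_contra hr
    have hr2 : PRankLE q 2 ↥H := by
      by_contra h
      exact hqσ (alpha_sub_sigma hG (huniq13 hG) T.hM ⟨hqp, h⟩)
    obtain ⟨P, hP, hQP⟩ := exists_isMaxP_ge hQN hQp
    have hPH : IsMaxP q P H := hP.of_compl hG (huniq13 hG) T.hM hE hqσ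
    have hPnc : ¬ IsCyclic P := fun h => hr (hPH.prank_of (prank_one_of_cyclic h))
    obtain ⟨A', hA'P, hA'e, hA'c⟩ := exists_e2_of_not_cyclic hG hP.isP hPnc
    have T' : Tau2Setup q A' H := Tau2Setup.mk' hG (huniq13 hG) (fun r _ K hK => hpl13 hG r K hK) T.hM
      (hA'P.trans hPH.le) hA'e hA'c hqσ
    have hQA' : Q ≤ A' := by
      intro x hx
      rw [← T'.omega_iff hPH hA'P (hQP hx)]
      have h1 : ((⟨x, hx⟩ : Q) : G) ^ Nat.card Q = 1 := by
        rw [← Subgroup.coe_pow, pow_card_eq_one']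
        rfl
      rwa [hQ] at h1
    have hc := T.comm_of_two T' hpq hE hAE (hA'P.trans hP.le)
    apply hnc
    intro x hx
    rw [mem_centralizer_iff]
    intro a ha
    exact (mem_centralizer_iff.mp (hc ha) x (hQA' hx)).symm
  refine ⟨fun hd => ?_, hr1⟩
  have hτ : q ∈ tau3 H := ⟨hqp, hqσ, hd, hr1⟩
  have hn := normal_of_tau3 hG T.hM hE hτ hQN hQ
  apply hnc
  have h2 := comm_of_norm_norm (hAE.trans hn) (hQN.trans inf_le_right) (eq_bot_of_isPGroup_of_coprime (T.S.hAp.to_le inf_le_left)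
    (inf_le_right : A ⊓ Q ≤ Q) (by
      rw [hQ]
      exact (Nat.coprime_primes Fact.out Fact.out).mpr hpq.symm))
  intro x hx
  rw [mem_centralizer_iff]
  intro a ha
  exact (mem_centralizer_iff.mp (h2 ha) x hx).symm

/-- A `p`-subgroup of `M`, with `r_p(M) ≤ 1`, is cyclic. -/
theorem cyclic_of_prank_one {p : ℕ} [Fact p.Prime] {M S : Subgroup G} (hG : IsMinSimpleOddOrder G) (hr : PRankLE p 1 ↥M)
    (hS : IsPGroup p S) (hSM : S ≤ M) : IsCyclic S := by
  classical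
  by_contra hnc
  obtain ⟨A, hAS, hAe, hAc⟩ := exists_e2_of_not_cyclic hG hS hnc
  have h2 := card_le_of_prank hr hAe (hAS.trans hSM)
  rw [hAc, pow_one] at h2
  have h3 := (Fact.out : p.Prime).one_lt
  nlinarith

/-- A maximal `q`-subgroup of `M_σ` for `q ∈ σ(M)` is maximal in `M`. -/
theorem IsMaxP.of_sigmaCore {q : ℕ} [Fact q.Prime] {M U : Subgroup G} (hG : IsMinSimpleOddOrder G) (hM : IsCoatom M)
    (hq : q ∈ sigma M) (hU : IsMaxP q U (sigmaCore M)) : IsMaxP q U M :=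
  ⟨hU.le.trans (piCoreOf_le _ M), hU.isP, fun D' h1 h2 h3 =>
    hU.max D' (le_sigmaCore_of_isPGroup hG (huniq13 hG) hM hq h2 h1) h2 h3⟩

/-- A `q`-subgroup Hall in `K`. -/
theorem isMaxP_of_isPiHallOf {q : ℕ} [Fact q.Prime] {U K : Subgroup G} (hU : IsPiHallOf {q} U K) : IsMaxP q U K ∧ IsPGroup q U := by
  have hp : IsPGroup q U := by
    rw [IsPGroup.iff_card]
    have h1 : ∀ r : ℕ, r.Prime → r ∣ Nat.card U → r = q := fun r hr hd => by
      simpa using hU.2.1 r hr hd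
    exact ⟨(Nat.card U).primeFactorsList.length, Nat.eq_prime_pow_of_unique_prime_dvd Nat.card_pos.ne' (fun {r} hr hd => h1 r hr hd)⟩
  exact ⟨isMaxP_of_not_dvd_relIndex hU.1 hp (hU.2.2 q Fact.out rfl), hp⟩

/-- Sylow subgroups of `M` for `q ∈ σ(M)` are maximal `q`-subgroups of `G`, and `N(U) ≤ M`. -/
theorem IsMaxP.top_of_sigma {q : ℕ} [Fact q.Prime] {M U : Subgroup G} (hq : q ∈ sigma M) (hU : IsMaxP q U M) :
    IsMaxP q U ⊤ := by
  obtain ⟨S', e, -⟩ := sigma_sylow hq hU.toSylow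
  have e2 : ((hU.toSylow : Subgroup ↥M).map M.subtype) = U := by
    change (U.subgroupOf M).map M.subtype = U
    exact Subgroup.map_subgroupOf_eq_of_le hU.le
  rw [e2] at e
  rw [← e]
  exact ⟨le_top, S'.isPGroup', fun D' _ h2 h3 => S'.is_maximal' h2 h3⟩

/-- Burnside: a nontrivial maximal `q`-subgroup of `G` is not central in its normalizer. -/
theorem not_normalizer_le_centralizer {q : ℕ} [Fact q.Prime] {U : Subgroup G} (hG : IsMinSimpleOddOrder G) (hU : IsMaxP q U ⊤)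
    (hU1 : U ≠ ⊥) (hUt : U ≠ ⊤) : ¬ normalizer (U : Set G) ≤ centralizer (U : Set G) := by
  classical
  intro h
  let P : Sylow q G := ⟨U, hU.isP, fun {D'} h2 h3 => hU.max D' le_top h2 h3⟩
  have hc := MonoidHom.ker_transferSylow_isComplement' P h
  have hn : (MonoidHom.transferSylow P h).ker.Normal := inferInstance
  rcases IsMinSimpleOddOrder.normal_eq hG hn with h1 | h1
  · rw [h1] at hc
    have hT : (U : Subgroup G) = ⊤ := by
      have := Subgroup.isComplement'_bot_left.mp hc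
      exact this
    exact hUt hT
  · rw [h1] at hc
    have hT : (U : Subgroup G) = ⊥ := by
      have := Subgroup.isComplement'_top_left.mp hc
      exact this
    exact hU1 hT

/-- **Case (a) of Theorem T**: `q ∉ β(M)`. -/
theorem caseA {M X H Q : Subgroup G} {p q : ℕ} [Fact p.Prime] [Fact q.Prime] (hG : IsMinSimpleOddOrder G) (hC : Config M X p)
    (hNX : normalizer (X : Set G) ≤ H) (hQ : Nat.card Q = q) (hQD : Q ≤ sigmaCore M ⊓ centralizer (X : Set G))
    (hqβ : q ∉ beta M) (hqp : q < p) (hq1 : ¬ q ∣ Nat.card ↥⁅H, H⁆) (hr1 : PRankLE q 1 ↥H) : False := by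
  classical
  have hpp : p.Prime := Fact.out
  have hqq : q.Prime := Fact.out
  have hM := hC.hM
  have hσM : sigmaCore M ≤ M := piCoreOf_le _ M
  have hσn : M ≤ normalizer (sigmaCore M : Set G) := le_normalizer_piCoreOf (sigma M) M
  have hQσ : Q ≤ sigmaCore M := hQD.trans inf_le_left
  have hqσ : q ∈ sigma M := piCoreOf_isPi (sigma M) M q hqq (by
    rw [← hQ]
    exact Subgroup.card_dvd_of_le hQσ)
  have hqM : q ∣ Nat.card M := hqσ.2.1
  have hQ1 : Q ≠ ⊥ := by
    rintro rfl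
    simp at hQ
    exact hqq.one_lt.ne hQ
  have hXp : IsPGroup p X := IsPGroup.of_card (n := 1) (by simpa using hC.hX)
  have hQp : IsPGroup q Q := IsPGroup.of_card (n := 1) (by simpa using hQ)
  -- `X ≤ O_{q'}(M)`
  have hidx : ¬ p ∣ (pPrimeCore q ↥M).index := fun hd => by
    have h1 := ((s1414_core hG (huniq13 hG) hM (fun r _ _ => hpl13 hG r M hM.1)).2.2.2.2 q hqq hqM hqβ).2.2 p hpp hd
    omega
  have hXO : X ≤ Oq' q M := le_Oq'_of_isPGroup hidx hC.hXM hXp
  -- an invariant Sylow subgroup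
  have hσtop : sigmaCore M ≠ ⊤ := fun h => hM.1 (top_le_iff.1 (h ▸ hσM))
  have hσs : Group.IsSolvable ↥(sigmaCore M) := IsMinSimpleOddOrder.isSolvable hG hσtop
  have hXcop : (Nat.card X).Coprime (Nat.card (sigmaCore M)) := by
    rw [hC.hX]
    refine Nat.coprime_of_dvd fun r hr h1 h2 => ?_
    rw [(Nat.prime_dvd_prime_iff_eq hr hpp).mp h1] at h2
    exact hC.hpσ (piCoreOf_isPi (sigma M) M p hpp h2)
  have hca : Cfsg.Agent.Lib.Coprime.CoprimeAction X (sigmaCore M) := ⟨hC.hXM.trans hσn, hXcop, Or.inr hσs⟩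
  obtain ⟨U, hU, hXU, hQU⟩ := Cfsg.Agent.Lib.Coprime.exists_invariant_hall {q} _ hca hσs rfl hQσ
    (fun x hx => centralizer_le_normalizer' Q ((mem_centralizer_iff.mpr (fun t ht => by
      exact (mem_centralizer_iff.mp (hQD ht).2 x hx).symm)))) (fun r hr hd => by
      rw [hQ] at hd
      exact (Nat.prime_dvd_prime_iff_eq hr hqq).mp hd)
  obtain ⟨hUσ, hUp⟩ := isMaxP_of_isPiHallOf hU
  have hUM : IsMaxP q U M := hUσ.of_sigmaCore hG hM hqσ
  have hU1 : U ≠ ⊥ := by
    rintro rfl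
    exact hQ1 (le_bot_iff.mp hQU)
  -- `X` centralizes `U`
  have hUX : U ≤ centralizer (X : Set G) := by
    have h1 : ⁅U, X⁆ ≤ U := commutator_le_of_le_normalizer hXU
    have h2 : ⁅U, X⁆ ≤ Oq' q M := by
      rw [Subgroup.commutator_le]
      intro s hs a ha
      rw [commutatorElement_def]
      exact (Oq' q M).mul_mem ((Subgroup.mem_normalizer_iff.1 (le_normalizer_Oq' q M (hUM.le hs)) a).1 (hXO ha))
        ((Oq' q M).inv_mem (hXO ha))
    exact Subgroup.commutator_eq_bot_iff_le_centralizer.1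
      (eq_bot_of_isPGroup_of_coprime (hUp.to_le h1) h2 (Oq'_card_coprime q M))
  have hUH : U ≤ H := hUX.trans ((centralizer_le_normalizer' X).trans hNX)
  have hUc : IsCyclic U := cyclic_of_prank_one hG hr1 hUp hUH
  have hNU : normalizer (U : Set G) ≤ M := normalizer_le_of_isMaxP hqσ hUM
  apply not_normalizer_le_centralizer hG (hUM.top_of_sigma hqσ) hU1 (fun h => hM.1 (top_le_iff.1 (h ▸ hUM.le)))
  intro v hv
  -- Frattini on `C(U)`
  have hXC : X ≤ centralizer (U : Set G) := by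
    rw [Subgroup.le_centralizer_iff]
    exact hUX
  obtain ⟨S₃, hS₃, hXS₃⟩ := exists_isMaxP_ge hXC hXp
  obtain ⟨d, hd, hdv⟩ := frattini_normal hS₃ (Cfsg.Agent.Lib.OddLocal.mem_normalizer_centralizer hv)
  have hS₃M : S₃ ≤ M := hS₃.le.trans ((centralizer_le_normalizer' U).trans hNU)
  have hS₃c : IsCyclic S₃ := cyclic_of_prank_one hG hC.hr hS₃.isP hS₃M
  have hw : d⁻¹ * v ∈ normalizer (X : Set G) := normalizer_le_of_cyclic_ge hS₃c hXS₃ hdv
  have hdN : d ∈ normalizer (U : Set G) := centralizer_le_normalizer' U hd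
  have hwN : d⁻¹ * v ∈ normalizer (U : Set G) := (normalizer (U : Set G)).mul_mem ((normalizer (U : Set G)).inv_mem hdN) hv
  have hwH : d⁻¹ * v ∈ H := hNX hw
  have hwC : d⁻¹ * v ∈ centralizer (U : Set G) := by
    rw [mem_centralizer_iff]
    intro u hu
    have h1 : (d⁻¹ * v) * u * (d⁻¹ * v)⁻¹ * u⁻¹ ∈ ⁅H, H⁆ := by
      have := Subgroup.commutator_mem_commutator hwH (hUH hu)
      rwa [commutatorElement_def] at this
    have h2 : (d⁻¹ * v) * u * (d⁻¹ * v)⁻¹ * u⁻¹ ∈ U := U.mul_mem ((mem_normalizer_iff.mp hwN u).mp hu) (U.inv_mem hu)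
    have h3 : (d⁻¹ * v) * u * (d⁻¹ * v)⁻¹ * u⁻¹ ∈ U ⊓ ⁅H, H⁆ := ⟨h2, h1⟩
    have h4 : U ⊓ ⁅H, H⁆ = ⊥ := eq_bot_of_isPGroup_of_coprime (hUp.to_le inf_le_left) inf_le_right
      ((Nat.Prime.coprime_iff_not_dvd hqq).mpr hq1).symm
    rw [h4, mem_bot] at h3
    have h5 : (d⁻¹ * v) * u * (d⁻¹ * v)⁻¹ = u := mul_inv_eq_one.mp h3
    calc u * (d⁻¹ * v) = (d⁻¹ * v) * u * (d⁻¹ * v)⁻¹ * (d⁻¹ * v) := by rw [h5]
      _ = _ := by group
  have e : v = d * (d⁻¹ * v) := by group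
  rw [e]
  exact (centralizer (U : Set G)).mul_mem hd hwC

end Cfsg.Agent.Lib.FT
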