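import Cfsg.Agent.Lib.FT.BG15b
import Cfsg.Agent.Lib.OddLocal.Rank2D

/-!
BG15: the `GL₂(p)` step of Theorem T.
-/

set_option autoImplicit false
set_option linter.unusedSectionVars false
set_option linter.style.haveILetI false

namespace Cfsg.Agent.Lib.FT

open Subgroup Cfsg Cfsg.Agent.Lib.OddLocal Cfsg.Agent.Lib.Basic

open Cfsg.Agent.Lib.Coprime (mem_conj_map conj_mem_conj_map conj_map_conj_map conj_map_one
  conj_map_mono mem_normalizer_of_conj_le conj_map_eq_iff_mem_normalizer isPGroup_conj_map)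

open scoped commutatorElement

variable {G : Type*} [Group G] [Finite G]

/-- An element outside `K` whose `p`-th power lies in `K` has a `p`-part outside `K`. -/
theorem exists_pelement_not_mem {K : Subgroup G} {p : ℕ} [Fact p.Prime] {c : G} (hc : c ∉ K) (hcp : c ^ p ∈ K) :
    ∃ a ∈ zpowers c, a ∉ K ∧ IsPGroup p (zpowers a) := by
  classical
  have hpp : p.Prime := Fact.out
  obtain ⟨a, ha, b, hb, e, ⟨k, hk⟩, hbc⟩ := exists_primary_decomp c hpp
  have hbK : b ∈ K := by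
    obtain ⟨m, hm⟩ := exists_pow_eq_self_of_coprime hbc.symm
    rw [← hm]
    apply K.pow_mem
    obtain ⟨i, rfl⟩ := mem_zpowers_iff.mp hb
    rw [← zpow_natCast, ← zpow_mul, mul_comm, zpow_mul, zpow_natCast]
    exact K.zpow_mem hcp i
  refine ⟨a, ha, fun haK => hc (e ▸ K.mul_mem haK hbK), ?_⟩
  rw [IsPGroup.iff_card, Nat.card_zpowers]
  obtain ⟨j, -, hj⟩ := (Nat.dvd_prime_pow hpp).mp (orderOf_dvd_of_pow_eq_one hk)
  exact ⟨j, hj⟩

/-- Fixed points of `Q` on `A` are exactly `X`. -/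
theorem Tau2Setup.fix_eq {p : ℕ} [Fact p.Prime] {A H X Q : Subgroup G} (T : Tau2Setup p A H) (hXA : X ≤ A) (hX : Nat.card X = p)
    (hQX : Q ≤ centralizer (X : Set G)) (hnc : ¬ Q ≤ centralizer (A : Set G)) {z : G} (hzA : z ∈ A)
    (hz : z ∈ centralizer (Q : Set G)) : z ∈ X := by
  classical
  have hpp : p.Prime := Fact.out
  set C₁ := A ⊓ centralizer (Q : Set G) with hC₁
  have hXC : X ≤ C₁ := le_inf hXA ((le_centralizer_iff).mp hQX)
  have hCA : C₁ ≤ A := inf_le_left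
  have hne : C₁ ≠ A := by
    intro h
    apply hnc
    rw [le_centralizer_iff]
    rw [← h]
    exact inf_le_right
  have hd1 : Nat.card C₁ ∣ p ^ 2 := by
    rw [← T.S.hAc]
    exact Subgroup.card_dvd_of_le hCA
  obtain ⟨j, hj, hj2⟩ := (Nat.dvd_prime_pow hpp).mp hd1
  have hd2 : p ∣ Nat.card C₁ := by
    rw [← hX]
    exact Subgroup.card_dvd_of_le hXC
  have hj1 : j = 1 := by
    rcases (by omega : j = 0 ∨ j = 1 ∨ j = 2) with rfl | rfl | rfl
    · rw [hj2, pow_zero] at hd2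
      exact absurd (Nat.le_of_dvd one_pos hd2) (by have := hpp.one_lt; omega)
    · rfl
    · exact absurd (Subgroup.eq_of_le_of_card_ge hCA (by rw [T.S.hAc, hj2])) hne
  have e : X = C₁ := Subgroup.eq_of_le_of_card_ge hXC (by rw [hj2, hj1, hX, pow_one])
  rw [e]
  exact ⟨hzA, hz⟩

/-- **The `GL₂(p)` step**: a `Q`-invariant nonabelian `p`-subgroup over `A`. -/
theorem exists_nonab_inv {p q : ℕ} [Fact p.Prime] [Fact q.Prime] {A H X Q : Subgroup G} (hG : IsMinSimpleOddOrder G)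
    (T : Tau2Setup p A H) (hXA : X ≤ A) (hX : Nat.card X = p) (hNX : normalizer (X : Set G) ≤ H) (hQ : Nat.card Q = q)
    (hQN : Q ≤ H ⊓ normalizer (A : Set G)) (hQX : Q ≤ centralizer (X : Set G)) (hnc : ¬ Q ≤ centralizer (A : Set G))
    (hr1 : PRankLE q 1 ↥H) (hqσ : q ∉ sigma H) (hqp : q ≠ p) :
    ∃ P₁ : Subgroup G, IsPGroup p P₁ ∧ A ≤ P₁ ∧ Q ≤ normalizer (P₁ : Set G) ∧ ¬ IsMulCommutative P₁ := by
  classical
  have hpp : p.Prime := Fact.out
  have hqq : q.Prime := Fact.out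
  have hp2 : p ≠ 2 := T.S.hp2
  set Y := normalizer (A : Set G) with hY
  have hAY : A ≤ Y := le_normalizer
  have hA1 : A ≠ ⊥ := by
    rintro h
    have := T.S.hAc
    rw [h] at this
    simp at this
    have h2 := hpp.one_lt
    nlinarith
  have hAtop : A ≠ ⊤ := fun h => T.hM.1 (top_le_iff.1 (h ▸ T.hAM))
  have hYtop : Y ≠ ⊤ := IsMinSimpleOddOrder.normalizer_ne_top hG hA1 hAtop
  have hYs : Group.IsSolvable ↥Y := IsMinSimpleOddOrder.isSolvable hG hYtop
  set ρ := conjHomOf A Y le_rfl with hρ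
  have hcomm : ∀ a b : ↥A, a * b = b * a := T.S.hAe.1.is_comm.comm
  have hexp : ∀ a : ↥A, a ^ p = 1 := fun a => Subtype.ext (T.S.hAe.2 a a.2)
  have h1 := commutator_pow_acts_trivially p hp2 (subgroup_odd hG Y) hYs hcomm hexp T.S.hAc ρ
  have hCA : ∀ y : ↥Y, ρ y = 1 ↔ (y : G) ∈ centralizer (A : Set G) := by
    intro y
    constructor
    · intro h
      rw [mem_centralizer_iff]
      intro a ha
      have h2 := congrArg (fun τ : MulAut ↥A => ((τ ⟨a, ha⟩ : ↥A) : G)) h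
      have h3 : (y : G) * a * (y : G)⁻¹ = a := h2
      calc a * y = y * a * (y : G)⁻¹ * y := by rw [h3]
        _ = y * a := by group
    · intro h
      apply MulEquiv.ext
      intro x
      apply Subtype.ext
      show (y : G) * x * (y : G)⁻¹ = x
      rw [(mem_centralizer_iff.mp h x x.2).symm]
      group
  have hCle : centralizer (A : Set G) ≤ Y := centralizer_le_normalizer' A
  have hYC : Y ≤ normalizer (centralizer (A : Set G) : Set G) := fun y hy =>
    Cfsg.Agent.Lib.OddLocal.mem_normalizer_centralizer hy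
  set D₀ := commutator ↥Y with hD₀
  have hmem : ∀ c ∈ D₀, ((c : G)) ^ p ∈ centralizer (A : Set G) := by
    intro c hc
    have := (hCA (c ^ p)).mp (h1 c hc)
    simpa using this
  set D := D₀.map Y.subtype with hD
  have hDY : D ≤ Y := map_subtype_le _
  have hDn : Y ≤ normalizer (D : Set G) := by
    intro y hy
    apply mem_normalizer_of_conj_le
    rintro _ ⟨d, hd, rfl⟩
    refine ⟨(⟨y, hy⟩ : ↥Y) * d * (⟨y, hy⟩ : ↥Y)⁻¹, ?_, rfl⟩
    exact (inferInstance : D₀.Normal).conj_mem d hd _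
  have hcommD : ∀ a ∈ Y, ∀ b ∈ Y, a * b * a⁻¹ * b⁻¹ ∈ D := by
    intro a ha b hb
    refine ⟨⁅(⟨a, ha⟩ : ↥Y), (⟨b, hb⟩ : ↥Y)⁆, Subgroup.commutator_mem_commutator (mem_top _) (mem_top _), ?_⟩
    simp [commutatorElement_def]
  -- Step I: a commutator acting nontrivially
  have hstep1 : ∃ c ∈ D, c ∉ centralizer (A : Set G) := by
    by_contra hcon
    push Not at hcon
    obtain ⟨g₀, hg₀, hg₀H⟩ := SetLike.not_le_iff_exists.1 T.not_norm_A_le
    apply hg₀H
    apply hNX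
    apply mem_normalizer_of_conj_le
    intro x hx
    refine T.fix_eq hXA hX hQX hnc ((mem_normalizer_iff.mp hg₀ x).mp (hXA hx)) ?_
    rw [mem_centralizer_iff]
    intro y hy
    have hyN : y ∈ Y := (hQN hy).2
    have h2 := hcon _ (hcommD y hyN g₀ hg₀)
    have hzA : g₀ * x * g₀⁻¹ ∈ A := (mem_normalizer_iff.mp hg₀ x).mp (hXA hx)
    have h4 := mem_centralizer_iff.mp h2 (g₀ * x * g₀⁻¹) hzA
    have h5 : y⁻¹ * x * y = x := by
      have := mem_centralizer_iff.mp (hQX hy) x hx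
      rw [mul_assoc, this]
      group
    have h6 : (y * g₀ * y⁻¹ * g₀⁻¹) * (g₀ * x * g₀⁻¹) * (y * g₀ * y⁻¹ * g₀⁻¹)⁻¹ = g₀ * x * g₀⁻¹ := by
      rw [← h4]
      group
    have e7 : (y * g₀ * y⁻¹ * g₀⁻¹) * (g₀ * x * g₀⁻¹) * (y * g₀ * y⁻¹ * g₀⁻¹)⁻¹ =
        y * g₀ * (y⁻¹ * x * y) * g₀⁻¹ * y⁻¹ := by group
    rw [e7, h5] at h6
    have h3 : y * (g₀ * x * g₀⁻¹) = (g₀ * x * g₀⁻¹) * y := by
      calc y * (g₀ * x * g₀⁻¹) = (y * g₀ * x * g₀⁻¹ * y⁻¹) * y := by group
        _ = _ := by rw [h6]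
    exact h3
  obtain ⟨c, hcD, hcC⟩ := hstep1
  -- Step II
  set W₀ := centralizer (A : Set G) ⊔ D with hW₀
  have hW₀Y : W₀ ≤ Y := sup_le hCle hDY
  have hCn : D ≤ normalizer (centralizer (A : Set G) : Set G) := hDY.trans hYC
  have hW₀n : Y ≤ normalizer (W₀ : Set G) := by
    intro y hy
    rw [← conj_map_eq_iff_mem_normalizer, hW₀, Subgroup.map_sup,
      (conj_map_eq_iff_mem_normalizer _ y).mpr (hYC hy), (conj_map_eq_iff_mem_normalizer _ y).mpr (hDn hy)]
  have hpow : ∀ z ∈ W₀, z ^ p ∈ centralizer (A : Set G) := by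
    intro z hz
    obtain ⟨e, he, d, hd, rfl⟩ := (Cfsg.Agent.Lib.Coprime.mem_sup_iff_of_le_normalizer hCn z).mp hz
    obtain ⟨d', hd', rfl⟩ := hd
    have h3 : ρ (⟨e, hCle he⟩ : ↥Y) = 1 := (hCA _).mpr he
    have h4 : ρ (((⟨e, hCle he⟩ : ↥Y) * d') ^ p) = 1 := by
      rw [map_pow, map_mul, h3, one_mul, ← map_pow]
      exact h1 d' hd'
    have h5 := (hCA _).mp h4
    simpa using h5
  have hqW : ¬ q ∣ Nat.card W₀ := by
    intro hd
    obtain ⟨z, hz⟩ := exists_prime_orderOf_dvd_card' (G := ↥W₀) q hd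
    have hz' : orderOf (z : G) = q := by rw [Subgroup.orderOf_coe, hz]
    have hzC : (z : G) ∈ centralizer (A : Set G) := by
      obtain ⟨m, hm⟩ := exists_pow_eq_self_of_coprime (x := (z : G)) (n := p) (by
        rw [hz']
        exact (Nat.coprime_primes hpp hqq).mpr hqp.symm)
      rw [← hm]
      exact pow_mem (hpow z z.2) m
    have hQp : IsPGroup q Q := IsPGroup.of_card (n := 1) (by simpa using hQ)
    obtain ⟨P, hP, hQP⟩ := exists_isMaxP_ge hQN hQp
    have hPc : IsCyclic P := cyclic_of_prank_one hG hr1 hP.isP (hP.le.trans inf_le_left)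
    have hzE : zpowers (z : G) ≤ H ⊓ normalizer (A : Set G) := zpowers_le.mpr
      ⟨T.hCM hzC, hCle hzC⟩
    have hzq : Nat.card (zpowers (z : G)) = q := by rw [Nat.card_zpowers, hz']
    obtain ⟨n, hn, hle⟩ := hP.exists_conj_le hzE (IsPGroup.of_card (n := 1) (by simpa using hzq))
    have e1 : (zpowers (z : G)).map (MulAut.conj n).toMonoidHom = Q :=
      eq_of_card_eq_of_le_isCyclic hPc hle hQP (by rw [Cfsg.Agent.Lib.Coprime.card_conj_map, hzq, hQ])
    apply hnc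
    rw [← e1]
    rintro _ ⟨w, hw, rfl⟩
    have hwC : w ∈ centralizer (A : Set G) := (zpowers_le.mpr hzC) hw
    exact (mem_normalizer_iff.mp (hYC hn.2) w).mp hwC
  -- Step III
  have hWs : Group.IsSolvable ↥W₀ := by
    haveI := hYs
    exact solvable_of_solvable_injective (f := Subgroup.inclusion hW₀Y) (Subgroup.inclusion_injective hW₀Y)
  have hca : Cfsg.Agent.Lib.Coprime.CoprimeAction Q W₀ := ⟨(hQN.trans inf_le_right).trans hW₀n, by
    rw [hQ]
    exact (Nat.Prime.coprime_iff_not_dvd hqq).mpr hqW, Or.inr hWs⟩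
  have hAC : A ≤ centralizer (A : Set G) := by
    intro a ha
    rw [mem_centralizer_iff]
    intro b hb
    exact congrArg Subtype.val (hcomm ⟨b, hb⟩ ⟨a, ha⟩)
  obtain ⟨P₁, hP₁, hQP₁, hAP₁⟩ := Cfsg.Agent.Lib.Coprime.exists_invariant_hall {p} _ hca hWs rfl
    (hAC.trans le_sup_left) (hQN.trans inf_le_right) (fun r hr hd => by
      rw [T.S.hAc] at hd
      exact (Nat.prime_dvd_prime_iff_eq hr hpp).mp (hr.dvd_of_dvd_pow hd))
  obtain ⟨hP₁m, hP₁p⟩ := isMaxP_of_isPiHallOf hP₁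
  refine ⟨P₁, hP₁p, hAP₁, hQP₁, fun hab => ?_⟩
  -- Step IV
  obtain ⟨a, ha, haC, hap⟩ := exists_pelement_not_mem (K := centralizer (A : Set G)) (p := p) hcC
    (hpow c (mem_sup_right hcD))
  have haW : a ∈ W₀ := mem_sup_right ((zpowers_le.mpr hcD) ha)
  obtain ⟨n, hn, hle⟩ := hP₁m.exists_conj_le (zpowers_le.mpr haW) hap
  have h2 : n * a * n⁻¹ ∈ P₁ := hle ⟨a, mem_zpowers a, rfl⟩
  apply haC
  have h3 : n * a * n⁻¹ ∈ centralizer (A : Set G) := by
    rw [mem_centralizer_iff]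
    intro b hb
    exact commute_of_mem_isMulCommutative (hAP₁ hb) h2
  have h4 := (mem_normalizer_iff.mp (hYC (hW₀Y hn)) a).mpr h3
  exact h4

end Cfsg.Agent.Lib.FT
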