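import Cfsg.Agent.Lib.FT.BG15c

/-!
BG15: the mover (Theorem T, case (b)).
-/

set_option autoImplicit false
set_option linter.unusedSectionVars false
set_option linter.style.haveILetI false

namespace Cfsg.Agent.Lib.FT

open Subgroup Cfsg Cfsg.Agent.Lib.OddLocal Cfsg.Agent.Lib.Basic

open Cfsg.Agent.Lib.Coprime (mem_conj_map conj_mem_conj_map conj_map_conj_map conj_map_one
  conj_map_mono mem_normalizer_of_conj_le conj_map_eq_iff_mem_normalizer isPGroup_conj_map)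

open scoped commutatorElement

variable {G : Type*} [Group G] [Finite G]

/-- The Frattini argument for a subgroup of prime order with cyclic Sylow subgroups. -/
theorem frattini_prime_order {q : ℕ} [Fact q.Prime] {V V₀ Q : Subgroup G} (hV₀ : V₀ ≤ V) (hn : V ≤ normalizer (V₀ : Set G))
    (hQV₀ : Q ≤ V₀) (hQ : Nat.card Q = q) (hcyc : ∀ P : Subgroup G, IsMaxP q P V → IsCyclic P) {w : G} (hw : w ∈ V) :
    ∃ v₀ ∈ V₀, v₀⁻¹ * w ∈ normalizer (Q : Set G) := by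
  classical
  have hQp : IsPGroup q Q := IsPGroup.of_card (n := 1) (by simpa using hQ)
  obtain ⟨P, hP, hQP⟩ := exists_isMaxP_ge hQV₀ hQp
  obtain ⟨P', hP', hPP'⟩ := exists_isMaxP_ge (hP.le.trans hV₀) hP.isP
  have hPc : IsCyclic P := by
    haveI := hcyc P' hP'
    exact Subgroup.isCyclic_of_le hPP'
  have hle : Q.map (MulAut.conj w).toMonoidHom ≤ V₀ := by
    rw [← (conj_map_eq_iff_mem_normalizer V₀ w).mpr (hn hw)]
    exact conj_map_mono hQV₀ w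
  obtain ⟨n, hn', hle'⟩ := hP.exists_conj_le hle (isPGroup_conj_map hQp w)
  have e : (Q.map (MulAut.conj w).toMonoidHom).map (MulAut.conj n).toMonoidHom = Q :=
    eq_of_card_eq_of_le_isCyclic hPc hle' hQP (by
      rw [Cfsg.Agent.Lib.Coprime.card_conj_map, Cfsg.Agent.Lib.Coprime.card_conj_map])
  refine ⟨n⁻¹, V₀.inv_mem hn', ?_⟩
  rw [inv_inv, ← conj_map_eq_iff_mem_normalizer]
  rw [conj_map_conj_map] at e
  exact e

/-- **The mover**, given the hyperplane-like subgroup `T`. -/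
theorem mover_core {p q : ℕ} [Fact p.Prime] [Fact q.Prime] {S V Q X T : Subgroup G}
    (hca : Cfsg.Agent.Lib.Coprime.CoprimeAction V S) (hc : ⁅S, V⁆ = S)
    (hQV : Q ≤ V) (hQ : Nat.card Q = q) (hXS : X ≤ S) (hXT : ¬ X ≤ T) (hQX : Q ≤ centralizer (X : Set G)) (hTS : T ≤ S)
    (hVT : V ≤ normalizer (T : Set G)) (hST : S ≤ normalizer (T : Set G)) (hST' : ⁅S, S⁆ ≤ T)
    (hcomm : ∀ c ∈ ⁅V, V⁆, ∀ u ∈ S, c * u * c⁻¹ * u⁻¹ ∈ T) (hC₀ : IsCyclic ↥(S ⊓ centralizer (Q : Set G)))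
    (hcyc : ∀ P : Subgroup G, IsMaxP q P V → IsCyclic P) :
    ∃ v ∈ V, v ∈ normalizer (Q : Set G) ∧ v ∈ normalizer (X : Set G) ∧ v ∉ centralizer (X : Set G) := by
  classical
  have hVS : V ≤ normalizer (S : Set G) := hca.normalizes
  let V₀ : Subgroup G :=
    { carrier := {v | v ∈ V ∧ ∀ x ∈ X, v * x * v⁻¹ * x⁻¹ ∈ T}
      one_mem' := ⟨V.one_mem, fun x _ => by simp [T.one_mem]⟩
      mul_mem' := by
        rintro a b ⟨ha, ha'⟩ ⟨hb, hb'⟩
        refine ⟨V.mul_mem ha hb, fun x hx => ?_⟩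
        have e : (a * b) * x * (a * b)⁻¹ * x⁻¹ = a * (b * x * b⁻¹ * x⁻¹) * a⁻¹ * (a * x * a⁻¹ * x⁻¹) := by group
        rw [e]
        exact T.mul_mem ((mem_normalizer_iff.mp (hVT ha) _).mp (hb' x hx)) (ha' x hx)
      inv_mem' := by
        rintro a ⟨ha, ha'⟩
        refine ⟨V.inv_mem ha, fun x hx => ?_⟩
        have e : a⁻¹ * x * a⁻¹⁻¹ * x⁻¹ = a⁻¹ * (a * x * a⁻¹ * x⁻¹)⁻¹ * a⁻¹⁻¹ := by group
        rw [e]
        exact (mem_normalizer_iff.mp (hVT (V.inv_mem ha)) _).mp (T.inv_mem (ha' x hx)) }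
  have hV₀V : V₀ ≤ V := fun v hv => hv.1
  have hV₀n : V ≤ normalizer (V₀ : Set G) := by
    intro w hw
    apply mem_normalizer_of_conj_le
    rintro v ⟨hv, hv'⟩
    refine ⟨V.mul_mem (V.mul_mem hw hv) (V.inv_mem hw), fun x hx => ?_⟩
    set c := w * v * w⁻¹ * v⁻¹ with hcdef
    have hcV : c ∈ ⁅V, V⁆ := by
      have := Subgroup.commutator_mem_commutator hw hv
      rwa [commutatorElement_def] at this
    have hcV' : c ∈ V := Subgroup.commutator_le_self V hcV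
    have e : w * v * w⁻¹ = c * v := by
      rw [hcdef]
      group
    rw [e]
    have e2 : (c * v) * x * (c * v)⁻¹ * x⁻¹ = c * (v * x * v⁻¹ * x⁻¹) * c⁻¹ * (c * x * c⁻¹ * x⁻¹) := by group
    rw [e2]
    exact T.mul_mem ((mem_normalizer_iff.mp (hVT hcV') _).mp (hv' x hx)) (hcomm c hcV x (hXS hx))
  have hQV₀ : Q ≤ V₀ := by
    intro y hy
    refine ⟨hQV hy, fun x hx => ?_⟩
    have h1 := mem_centralizer_iff.mp (hQX hy) x hx
    have e : y * x * y⁻¹ * x⁻¹ = 1 := by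
      rw [← h1]
      group
    rw [e]
    exact T.one_mem
  obtain ⟨x₀, hx₀, hx₀T⟩ := SetLike.not_le_iff_exists.mp hXT
  have hex : ∃ w ∈ V, w ∉ V₀ := by
    by_contra hcon
    push Not at hcon
    apply hx₀T
    refine hca.mem_of_abelian_mod hTS hVT hST hST' (mem_sup_left (by rw [hc]; exact hXS hx₀)) ?_
    intro a ha
    have h1 := T.inv_mem ((hcon a ha).2 x₀ hx₀)
    have e : (a * x₀ * a⁻¹ * x₀⁻¹)⁻¹ = x₀ * a * x₀⁻¹ * a⁻¹ := by group
    rwa [e] at h1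
  obtain ⟨w, hw, hwV₀⟩ := hex
  obtain ⟨v₀, hv₀, hv⟩ := frattini_prime_order hV₀V hV₀n hQV₀ hQ hcyc hw
  have hvV : v₀⁻¹ * w ∈ V := V.mul_mem (V.inv_mem (hV₀V hv₀)) hw
  refine ⟨v₀⁻¹ * w, hvV, hv, ?_, ?_⟩
  · have hXC : X ≤ S ⊓ centralizer (Q : Set G) := le_inf hXS ((le_centralizer_iff).mp hQX)
    refine normalizer_le_of_cyclic_ge hC₀ hXC ?_
    rw [mem_normalizer_iff]
    intro z
    have h1 := mem_normalizer_iff.mp (hVS hvV) z
    have h2 := mem_normalizer_iff.mp (Cfsg.Agent.Lib.OddLocal.mem_normalizer_centralizer hv) z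
    simp only [SetLike.mem_coe, Subgroup.mem_inf] at h1 h2 ⊢
    rw [h1, h2]
  · intro hC
    apply hwV₀
    have e : w = v₀ * (v₀⁻¹ * w) := by group
    rw [e]
    refine V₀.mul_mem hv₀ ⟨hvV, fun x hx => ?_⟩
    have h1 := mem_centralizer_iff.mp hC x hx
    have e2 : (v₀⁻¹ * w) * x * (v₀⁻¹ * w)⁻¹ * x⁻¹ = 1 := by
      rw [← h1]
      group
    rw [e2]
    exact T.one_mem

/-- The good subgroup of a `q`-subgroup of rank at least three, as a subgroup of `G`. -/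
theorem exists_good_sub_all {q : ℕ} [Fact q.Prime] (hq2 : q ≠ 2) {Q : Subgroup G} (hQ : IsPGroup q Q)
    (hr : ¬ PRankLE q 2 Q) :
    ∃ T : Subgroup G, T ≤ Q ∧ normalizer (Q : Set G) ≤ normalizer (T : Set G) ∧ ¬ PRankLE q 2 T ∧
      (∀ y ∈ T, y ^ q = 1 → ¬ PRankLE q 2 ↥(Q ⊓ centralizer ({y} : Set G))) ∧
      (∀ F : Subgroup G, F ≤ normalizer (Q : Set G) → ∀ c ∈ ⁅F, F⁆, ∀ u ∈ Q, c * u * c⁻¹ * u⁻¹ ∈ T) ∧ ⁅Q, Q⁆ ≤ T := by
  classical
  obtain ⟨T₀, hch, hr', hy, hidx⟩ := exists_good_char hq2 hQ hr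
  haveI := hch
  refine ⟨T₀.map Q.subtype, map_subtype_le _, le_normalizer_map_of_characteristic T₀, ?_, ?_, ?_, ?_⟩
  · intro h
    exact hr' (prank_of_injective (T₀.equivMapOfInjective Q.subtype Q.subtype_injective).toMonoidHom
      (MulEquiv.injective _) h)
  · rintro _ ⟨y₀, hy₀, rfl⟩ hyq h
    have hyq' : y₀ ^ q = 1 := Subtype.ext hyq
    apply hy y₀ hy₀ hyq'
    let f : ↥(centralizer ({y₀} : Set ↥Q)) →* ↥(Q ⊓ centralizer ({(y₀ : G)} : Set G)) :=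
      (Q.subtype.comp (centralizer ({y₀} : Set ↥Q)).subtype).codRestrict _ (by
        rintro ⟨x, hx⟩
        refine ⟨x.2, ?_⟩
        show ((x : G)) ∈ centralizer ({(y₀ : G)} : Set G)
        rw [mem_centralizer_singleton_iff]
        have := mem_centralizer_singleton_iff.1 hx
        exact congrArg Subtype.val this)
    refine prank_of_injective f ?_ h
    intro a b hab
    apply Subtype.ext
    apply Subtype.ext
    exact congrArg (fun x : ↥(Q ⊓ centralizer ({(y₀ : G)} : Set G)) => (x : G)) hab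
  · intro F hF c hc u hu
    rcases hidx with rfl | hidx
    · have hcF : c ∈ normalizer (Q : Set G) := hF (Subgroup.commutator_le_self F hc)
      have h1 : c * u * c⁻¹ ∈ Q := (Subgroup.mem_normalizer_iff.1 hcF u).1 hu
      refine ⟨⟨_, Q.mul_mem h1 (Q.inv_mem hu)⟩, Subgroup.mem_top _, rfl⟩
    · have hcard : Nat.card (↥Q ⧸ T₀) = q := by
        rw [← hidx]
        rfl
      haveI : Fact (Nat.card (↥Q ⧸ T₀)).Prime := ⟨by rw [hcard]; exact Fact.out⟩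
      haveI : IsCyclic (↥Q ⧸ T₀) := isCyclic_of_prime_card rfl
      let f : ↥F →* MulAut (↥Q ⧸ T₀) := (quotAut T₀).comp (conjHomOf Q F hF)
      have hcomm : ⁅F, F⁆ ≤ f.ker.map F.subtype := by
        rw [Subgroup.commutator_le]
        intro g₁ h₁ g₂ h₂
        refine ⟨⁅(⟨g₁, h₁⟩ : ↥F), (⟨g₂, h₂⟩ : ↥F)⁆, ?_, rfl⟩
        show f _ = 1
        simp only [commutatorElement_def, map_mul, map_inv]
        rw [mulAut_comm_of_cyclic (f ⟨g₁, h₁⟩) (f ⟨g₂, h₂⟩)]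
        group
      obtain ⟨c', hc', rfl⟩ := hcomm hc
      have h1 : f c' = 1 := hc'
      have h2 : f c' ((⟨u, hu⟩ : ↥Q) : ↥Q ⧸ T₀) = ((⟨u, hu⟩ : ↥Q) : ↥Q ⧸ T₀) := by
        rw [h1]
        rfl
      have h3 : ((conjHomOf Q F hF c' ⟨u, hu⟩ : ↥Q) : ↥Q ⧸ T₀) = ((⟨u, hu⟩ : ↥Q) : ↥Q ⧸ T₀) := h2
      rw [QuotientGroup.eq] at h3
      set w : ↥Q := conjHomOf Q F hF c' ⟨u, hu⟩ with hw
      have h4 : w * (⟨u, hu⟩ : ↥Q)⁻¹ ∈ T₀ := by
        have h5 := T₀.inv_mem h3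
        have h6 := Subgroup.Normal.conj_mem (inferInstance : T₀.Normal) _ h5 (⟨u, hu⟩ : ↥Q)
        have h7 : (⟨u, hu⟩ : ↥Q) * (w⁻¹ * (⟨u, hu⟩ : ↥Q))⁻¹ * (⟨u, hu⟩ : ↥Q)⁻¹ = w * (⟨u, hu⟩ : ↥Q)⁻¹ := by
          group
        rwa [h7] at h6
      refine ⟨_, h4, ?_⟩
      show ((w : G)) * u⁻¹ = _
      rw [hw, conjHomOf_coe]
      rfl
  · rcases hidx with rfl | hidx
    · intro x hx
      exact ⟨⟨x, Subgroup.commutator_le_self Q hx⟩, trivial, rfl⟩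
    · have hcard : Nat.card (↥Q ⧸ T₀) = q := by
        rw [← hidx]
        rfl
      haveI : Fact (Nat.card (↥Q ⧸ T₀)).Prime := ⟨by rw [hcard]; exact Fact.out⟩
      haveI : IsCyclic (↥Q ⧸ T₀) := isCyclic_of_prime_card rfl
      rw [Subgroup.commutator_le]
      intro g₁ h₁ g₂ h₂
      refine ⟨⁅(⟨g₁, h₁⟩ : ↥Q), (⟨g₂, h₂⟩ : ↥Q)⁆, ?_, rfl⟩
      apply (QuotientGroup.eq_one_iff _).mp
      simp only [commutatorElement_def, QuotientGroup.mk_mul, QuotientGroup.mk_inv]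
      have hcc : ∀ x y : ↥Q ⧸ T₀, x * y = y * x := (IsCyclic.commGroup (α := ↥Q ⧸ T₀)).mul_comm
      rw [hcc ((⟨g₁, h₁⟩ : ↥Q) : ↥Q ⧸ T₀) ((⟨g₂, h₂⟩ : ↥Q) : ↥Q ⧸ T₀)]
      group

end Cfsg.Agent.Lib.FT
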