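import Cfsg.Agent.Lib.FT.BG15d

/-!
BG15: the mover, continued.
-/

set_option autoImplicit false
set_option linter.unusedSectionVars false
set_option linter.style.haveILetI false

namespace Cfsg.Agent.Lib.FT

open Subgroup Cfsg Cfsg.Agent.Lib.OddLocal Cfsg.Agent.Lib.Basic

open Cfsg.Agent.Lib.Coprime (mem_conj_map conj_mem_conj_map conj_map_conj_map conj_map_one
  conj_map_mono mem_normalizer_of_conj_le conj_map_eq_iff_mem_normalizer isPGroup_conj_map)

open scoped commutatorElement

variable {G : Type*} [Group G] [Finite G]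

/-- `N(S) ≤ N(S')`. -/
theorem normalizer_le_normalizer_commutator (S : Subgroup G) :
    normalizer (S : Set G) ≤ normalizer ((⁅S, S⁆ : Subgroup G) : Set G) := by
  intro g hg
  rw [← conj_map_eq_iff_mem_normalizer, Subgroup.map_commutator, (conj_map_eq_iff_mem_normalizer S g).mpr hg]

/-- **The mover.** -/
theorem exists_mover {p q : ℕ} [Fact p.Prime] [Fact q.Prime] {S V Q X M₂ : Subgroup G} (hG : IsMinSimpleOddOrder G)
    (hS : IsMaxP p S ⊤) (hna : ¬ IsMulCommutative S) (hV : IsComplIn S V (normalizer (S : Set G)))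
    (hVp : (Nat.card V).Coprime p) (hQV : Q ≤ V) (hQ : Nat.card Q = q) (hXS : X ≤ S) (hX : Nat.card X = p)
    (hQX : Q ≤ centralizer (X : Set G)) (hC₀ : IsCyclic ↥(S ⊓ centralizer (Q : Set G))) (hVM₂ : V ≤ M₂)
    (hrq : PRankLE q 1 ↥M₂) (hN : ¬ normalizer (S : Set G) ≤ normalizer (X : Set G))
    (hrX : PRankLE p 2 ↥(centralizer (X : Set G))) :
    ∃ v ∈ V, v ∈ normalizer (Q : Set G) ∧ v ∈ normalizer (X : Set G) ∧ v ∉ centralizer (X : Set G) := by
  classical
  have hpp : p.Prime := Fact.out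
  have h1412 := h1412_of hG
  have hp2 : p ≠ 2 := by
    intro h
    have hXd : p ∣ Nat.card G := by
      rw [← hX]
      exact Subgroup.card_subgroup_dvd_card X
    exact prime_odd hG hpp hXd h
  let Pst : Sylow p G := ⟨S, hS.isP, fun {D'} h2 h3 => hS.max D' le_top h2 h3⟩
  have hVN : V ≤ normalizer (S : Set G) := hV.2.1
  have hS1 : S ≠ ⊥ := by
    rintro rfl
    exact hna ⟨⟨fun a b => by
      have h1 : (a : G) = 1 := (mem_bot).mp a.2
      have h2 : (b : G) = 1 := (mem_bot).mp b.2
      apply Subtype.ext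
      change (a : G) * b = b * a
      rw [h1, h2]⟩⟩
  have hStop : S ≠ ⊤ := IsMinSimpleOddOrder.ne_top_of_isPGroup hG hpp hS.isP
  have hNtop : normalizer (S : Set G) ≠ ⊤ := IsMinSimpleOddOrder.normalizer_ne_top hG hS1 hStop
  have hNs : Group.IsSolvable ↥(normalizer (S : Set G)) := IsMinSimpleOddOrder.isSolvable hG hNtop
  have hVs : Group.IsSolvable ↥V := by
    haveI := hNs
    exact solvable_of_solvable_injective (f := Subgroup.inclusion hVN) (Subgroup.inclusion_injective hVN)
  have hVodd : Odd (Nat.card V) := subgroup_odd hG V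
  have hcop : (Nat.card V).Coprime (Nat.card S) := by
    obtain ⟨k, hk⟩ := IsPGroup.iff_card.mp hS.isP
    rw [hk]
    exact Nat.Coprime.pow_right k hVp
  have hca : Cfsg.Agent.Lib.Coprime.CoprimeAction V S := ⟨hVN, hcop, Or.inl hVs⟩
  have hc : ⁅S, V⁆ = S := (s1411_core hG (fun K hK => hpl13 hG p K hK) Pst V hV).1.symm
  have hcyc : ∀ P : Subgroup G, IsMaxP q P V → IsCyclic P := fun P hP =>
    cyclic_of_prank_one hG hrq hP.isP (hP.le.trans hVM₂)
  by_cases hr : PRankLE p 2 ↥S
  · rcases h1412 p Pst hr with hab | ⟨P₁, P₂, h1, h2, h3, h4, h5, h6, h7⟩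
    · exact absurd hab hna
    obtain ⟨D, hder⟩ := nonabData_of_struct hG hS hr h1 h2 h3 h4 h5 h6 h7
    have hZc := D.hZc
    have hTS : ⁅S, S⁆ ≤ S := Subgroup.commutator_le_self S
    have hXT : ¬ X ≤ ⁅S, S⁆ := by
      intro hle
      apply hN
      have hd : Nat.card ↥⁅S, S⁆ ∣ p := by
        rw [← hZc]
        exact Subgroup.card_dvd_of_le hder
      have hd2 : p ∣ Nat.card ↥⁅S, S⁆ := by
        rw [← hX]
        exact Subgroup.card_dvd_of_le hle
      have e : X = ⁅S, S⁆ := Subgroup.eq_of_le_of_card_ge hle (by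
        rw [hX]
        exact Nat.le_of_dvd hpp.pos hd)
      rw [e]
      exact normalizer_le_normalizer_commutator S
    refine mover_core (p := p) (q := q) (T := ⁅S, S⁆) hca hc hQV hQ hXS hXT hQX hTS (hVN.trans (normalizer_le_normalizer_commutator S))
      (le_normalizer.trans (normalizer_le_normalizer_commutator S)) le_rfl ?_ hC₀ hcyc
    intro c hcV u hu
    obtain ⟨n, hn⟩ := s1449_general p hp2 S V hS.isP hr hVN hVs hVodd c hcV
    have hcV' : c ∈ V := Subgroup.commutator_le_self V hcV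
    have hcc : (p ^ n).Coprime (orderOf c) := by
      refine Nat.Coprime.pow_left n ?_
      exact (Nat.Coprime.coprime_dvd_left (Subgroup.orderOf_dvd_natCard V hcV') hVp).symm
    obtain ⟨m, hm⟩ := exists_pow_eq_self_of_coprime hcc
    have hcC : c ∈ centralizer (S : Set G) := by
      rw [← hm]
      exact pow_mem hn m
    have e : c * u * c⁻¹ * u⁻¹ = 1 := by
      rw [← mem_centralizer_iff.mp hcC u hu]
      group
    rw [e]
    exact one_mem _
  · obtain ⟨T, hTS, hNT, -, hy, hF, hder⟩ := exists_good_sub_all hp2 hS.isP hr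
    have hXT : ¬ X ≤ T := by
      intro hle
      obtain ⟨x, hx, hx1⟩ := X.bot_or_exists_ne_one.resolve_left (by
        rintro rfl
        simp at hX
        exact hpp.one_lt.ne hX)
      have hxp : x ^ p = 1 := by
        have := Subgroup.orderOf_dvd_natCard X hx
        rw [hX] at this
        exact orderOf_dvd_iff_pow_eq_one.mp this
      apply hy x (hle hx) hxp
      have hXz : X = zpowers x := by
        refine (Subgroup.eq_of_le_of_card_ge (zpowers_le.mpr hx) ?_).symm
        rw [hX, Nat.card_zpowers, orderOf_eq_prime hxp hx1]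
      have hle2 : S ⊓ centralizer ({x} : Set G) ≤ centralizer (X : Set G) := by
        rw [hXz, centralizer_zpowers_eq]
        exact inf_le_right
      exact prank_of_injective (Subgroup.inclusion hle2) (Subgroup.inclusion_injective hle2) hrX
    exact mover_core (p := p) (q := q) (T := T) hca hc hQV hQ hXS hXT hQX hTS (hVN.trans hNT) (le_normalizer.trans hNT) hder
      (hF V hVN) hC₀ hcyc

/-- An element outside `K` has a prime power power outside `K`. -/
theorem exists_primary_not_mem {K : Subgroup G} : ∀ (n : ℕ) {v : G}, orderOf v = n → v ∉ K →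
    ∃ a ∈ zpowers v, a ∉ K ∧ ∃ r : ℕ, r.Prime ∧ ∃ k : ℕ, a ^ r ^ k = 1 := by
  intro n
  induction n using Nat.strong_induction_on with
  | _ n ih =>
  intro v hn hv
  have h1 : n ≠ 1 := by
    rintro rfl
    exact hv (by rw [orderOf_eq_one_iff.mp hn]; exact K.one_mem)
  obtain ⟨r, hr, hrd⟩ := Nat.exists_prime_and_dvd h1
  obtain ⟨a, ha, b, hb, e, ⟨k, hk⟩, hbc⟩ := exists_primary_decomp v hr
  by_cases haK : a ∈ K
  · have hbK : b ∉ K := fun h => hv (e ▸ K.mul_mem haK h)
    have hbd : orderOf b ∣ n := by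
      rw [← hn]
      exact orderOf_dvd_of_mem_zpowers hb
    have hlt : orderOf b < n := by
      refine lt_of_le_of_ne (Nat.le_of_dvd (by rw [← hn]; exact orderOf_pos v) hbd) ?_
      intro h
      rw [h] at hbc
      exact (Nat.Prime.coprime_iff_not_dvd hr).mp hbc.symm hrd
    obtain ⟨a', ha', haK', r', hr', k', hk'⟩ := ih _ hlt rfl hbK
    exact ⟨a', (zpowers_le.mpr hb) ha', haK', r', hr', k', hk'⟩
  · exact ⟨a, ha, haK, r, hr, k, hk⟩

/-- A prime-power element moving a subgroup of prime order `p`: the prime divides `p - 1`. -/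
theorem prime_dvd_pred_of_moves {p r k : ℕ} [Fact p.Prime] {X : Subgroup G} {a : G} (hr : r.Prime) (hX : Nat.card X = p)
    (haN : a ∈ normalizer (X : Set G)) (hak : a ^ r ^ k = 1) (haC : a ∉ centralizer (X : Set G)) : r ∣ p - 1 := by
  classical
  have hpp : p.Prime := Fact.out
  set A := zpowers a with hA
  have hAN : A ≤ normalizer (X : Set G) := zpowers_le.mpr haN
  set ρ := conjHomOf X A hAN with hρ
  set g : ↥A := ⟨a, mem_zpowers a⟩ with hg
  have h1 : ρ g ≠ 1 := by
    intro h
    apply haC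
    rw [mem_centralizer_iff]
    intro x hx
    have h2 := congrArg (fun τ : MulAut ↥X => ((τ ⟨x, hx⟩ : ↥X) : G)) h
    have h3 : a * x * a⁻¹ = x := h2
    calc x * a = a * x * a⁻¹ * a := by rw [h3]
      _ = a * x := by group
  have h2 : (ρ g) ^ r ^ k = 1 := by
    rw [← map_pow]
    have : g ^ r ^ k = 1 := Subtype.ext hak
    rw [this, map_one]
  obtain ⟨j, -, hj⟩ := (Nat.dvd_prime_pow hr).mp (orderOf_dvd_of_pow_eq_one h2)
  have hj0 : j ≠ 0 := by
    rintro rfl
    rw [pow_zero] at hj
    exact h1 (orderOf_eq_one_iff.mp hj)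
  have h3 : r ∣ orderOf (ρ g) := by
    rw [hj]
    exact dvd_pow_self r hj0
  haveI : IsCyclic ↥X := by
    haveI : Fact (Nat.card X).Prime := ⟨by rw [hX]; exact hpp⟩
    exact isCyclic_of_prime_card rfl
  have h4 : orderOf (ρ g) ∣ Nat.card (MulAut ↥X) := orderOf_dvd_natCard _
  rw [IsCyclic.card_mulAut, hX, Nat.totient_prime hpp] at h4
  exact h3.trans h4

end Cfsg.Agent.Lib.FT
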