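import Cfsg.Agent.Lib.FT.BG15e

/-!
BG15: helpers for case (b) of Theorem T.
-/

set_option autoImplicit false
set_option linter.unusedSectionVars false
set_option linter.style.haveILetI false

namespace Cfsg.Agent.Lib.FT

open Subgroup Cfsg Cfsg.Agent.Lib.OddLocal Cfsg.Agent.Lib.Basic

open Cfsg.Agent.Lib.Coprime (mem_conj_map conj_mem_conj_map conj_map_conj_map conj_map_one
  conj_map_mono mem_normalizer_of_conj_le conj_map_eq_iff_mem_normalizer isPGroup_conj_map)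

open scoped commutatorElement

variable {G : Type*} [Group G] [Finite G]

/-- `σ` of a conjugate. -/
theorem sigma_conj_of_mem {M : Subgroup G} {r : ℕ} [Fact r.Prime] (hr : r ∈ sigma M) (c : G) :
    r ∈ sigma (M.map (MulAut.conj c).toMonoidHom) := by
  apply not_sigma_of_conj (c := c⁻¹)
  rwa [conj_map_conj_map, inv_mul_cancel, conj_map_one]

/-- The unique maximal subgroup over a nonabelian `p`-group. -/
theorem exists_top_of_nonab {p : ℕ} [Fact p.Prime] {P₁ : Subgroup G} (hG : IsMinSimpleOddOrder G) (hP₁ : IsPGroup p P₁)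
    (hna : ¬ IsMulCommutative P₁) :
    ∃ M₂ : Subgroup G, IsCoatom M₂ ∧ P₁ ≤ M₂ ∧ normalizer (P₁ : Set G) ≤ M₂ ∧ p ∈ sigma M₂ := by
  classical
  have hpp : p.Prime := Fact.out
  have hu := s1422_core (h1412_of hG) hG hP₁ hna
  have hP₁1 : P₁ ≠ ⊥ := by
    rintro rfl
    exact hna ⟨⟨fun a b => by
      have h1 : (a : G) = 1 := (mem_bot).mp a.2
      have h2 : (b : G) = 1 := (mem_bot).mp b.2
      apply Subtype.ext
      change (a : G) * b = b * a
      rw [h1, h2]⟩⟩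
  have hP₁t : P₁ ≠ ⊤ := IsMinSimpleOddOrder.ne_top_of_isPGroup hG hpp hP₁
  have hNt := IsMinSimpleOddOrder.normalizer_ne_top hG hP₁1 hP₁t
  obtain ⟨L, hL, hNL⟩ := (eq_top_or_exists_le_coatom (normalizer (P₁ : Set G))).resolve_left hNt
  refine ⟨L, hL, le_normalizer.trans hNL, hNL, ?_⟩
  by_contra hs
  exact hna ⟨⟨fun x y => Subtype.ext (comm_of_not_sigma hG (huniq13 hG) (fun r _ K hK => hpl13 hG r K hK) (h1412_of hG) hL hs
    (le_normalizer.trans hNL) hP₁ x.2 y.2)⟩⟩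

/-- A `Q`-invariant Sylow subgroup over a `Q`-invariant `p`-subgroup, `p ∈ σ(M₂)`, `q ∉ σ(M₂)`. -/
theorem exists_inv_sylow {p q : ℕ} [Fact p.Prime] [Fact q.Prime] {M₂ P₁ Q : Subgroup G} (hG : IsMinSimpleOddOrder G) (hM₂ : IsCoatom M₂)
    (hp : p ∈ sigma M₂) (hP₁ : IsPGroup p P₁) (hP₁M : P₁ ≤ M₂) (hQM : Q ≤ M₂) (hQ : Nat.card Q = q) (hq : q ∉ sigma M₂)
    (hQP₁ : Q ≤ normalizer (P₁ : Set G)) :
    ∃ S : Subgroup G, IsMaxP p S ⊤ ∧ P₁ ≤ S ∧ Q ≤ normalizer (S : Set G) ∧ S ≤ M₂ ∧ normalizer (S : Set G) ≤ M₂ := by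
  classical
  have hpp : p.Prime := Fact.out
  have hqq : q.Prime := Fact.out
  have hσM : sigmaCore M₂ ≤ M₂ := piCoreOf_le _ M₂
  have hσn : M₂ ≤ normalizer (sigmaCore M₂ : Set G) := le_normalizer_piCoreOf (sigma M₂) M₂
  have hσt : sigmaCore M₂ ≠ ⊤ := fun h => hM₂.1 (top_le_iff.1 (h ▸ hσM))
  have hσs : Group.IsSolvable ↥(sigmaCore M₂) := IsMinSimpleOddOrder.isSolvable hG hσt
  have hcop : (Nat.card Q).Coprime (Nat.card (sigmaCore M₂)) := by
    rw [hQ]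
    refine (Nat.Prime.coprime_iff_not_dvd hqq).mpr fun hd => hq (piCoreOf_isPi (sigma M₂) M₂ q hqq hd)
  have hca : Cfsg.Agent.Lib.Coprime.CoprimeAction Q (sigmaCore M₂) := ⟨hQM.trans hσn, hcop, Or.inr hσs⟩
  have hP₁σ : P₁ ≤ sigmaCore M₂ := le_sigmaCore_of_isPGroup hG (huniq13 hG) hM₂ hp hP₁ hP₁M
  obtain ⟨S, hS, hQS, hP₁S⟩ := Cfsg.Agent.Lib.Coprime.exists_invariant_hall {p} _ hca hσs rfl hP₁σ hQP₁ (fun r hr hd => by
    obtain ⟨k, hk⟩ := IsPGroup.iff_card.mp hP₁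
    rw [hk] at hd
    exact (Nat.prime_dvd_prime_iff_eq hr hpp).mp (hr.dvd_of_dvd_pow hd))
  obtain ⟨hSm, -⟩ := isMaxP_of_isPiHallOf hS
  have hSM := hSm.of_sigmaCore hG hM₂ hp
  exact ⟨S, hSM.top_of_sigma hp, hP₁S, hQS, hSM.le, normalizer_le_of_isMaxP hp hSM⟩

/-- A complement of a Sylow subgroup in its normalizer over a given `p'`-subgroup. -/
theorem exists_hall_compl_ge {p q : ℕ} [Fact p.Prime] [Fact q.Prime] {S Q : Subgroup G} (hG : IsMinSimpleOddOrder G) (hS : IsMaxP p S ⊤)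
    (hS1 : S ≠ ⊥) (hQS : Q ≤ normalizer (S : Set G)) (hQ : Nat.card Q = q) (hqp : q ≠ p) :
    ∃ V : Subgroup G, IsComplIn S V (normalizer (S : Set G)) ∧ (Nat.card V).Coprime p ∧ Q ≤ V := by
  classical
  have hpp : p.Prime := Fact.out
  have hqq : q.Prime := Fact.out
  have hSt : S ≠ ⊤ := IsMinSimpleOddOrder.ne_top_of_isPGroup hG hpp hS.isP
  have hNt := IsMinSimpleOddOrder.normalizer_ne_top hG hS1 hSt
  have hNs : Group.IsSolvable ↥(normalizer (S : Set G)) := IsMinSimpleOddOrder.isSolvable hG hNt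
  set π' : Set ℕ := {r | r.Prime ∧ r ≠ p} with hπ'
  obtain ⟨V₁, hV₁⟩ := exists_isPiHallOf_solvable π' hNs
  obtain ⟨g, hg, hle⟩ := IsPiHallOf.exists_conj_ge hNs hV₁ hQS (fun r hr hd => by
    rw [hQ] at hd
    rw [(Nat.prime_dvd_prime_iff_eq hr hqq).mp hd]
    exact ⟨hqq, hqp⟩)
  have hV := IsPiHallOf.conj_in hV₁ hg
  set V := V₁.map (MulAut.conj g).toMonoidHom with hVdef
  have hVp : (Nat.card V).Coprime p := by
    refine Nat.Coprime.symm ((Nat.Prime.coprime_iff_not_dvd hpp).mpr fun hd => ?_)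
    exact (hV.2.1 p hpp hd).2 rfl
  have hSle : S ≤ normalizer (S : Set G) := le_normalizer
  have hSH : IsPiHallOf {p} S (normalizer (S : Set G)) := by
    refine ⟨hSle, fun r hr hd => ?_, fun r hr hrp hd => ?_⟩
    · obtain ⟨k, hk⟩ := IsPGroup.iff_card.mp hS.isP
      rw [hk] at hd
      exact (Nat.prime_dvd_prime_iff_eq hr hpp).mp (hr.dvd_of_dvd_pow hd)
    · rw [Set.mem_singleton_iff] at hrp
      subst hrp
      have h1 : IsMaxP r S (normalizer (S : Set G)) := ⟨hSle, hS.isP, fun D' _ h2 h3 => hS.max D' le_top h2 h3⟩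
      exact not_dvd_relIndex_of_isMaxP h1 le_rfl hd
  refine ⟨V, ⟨hSle, hV.1, ?_, ?_⟩, hVp, hle⟩
  · exact eq_bot_of_isPGroup_of_coprime (hS.isP.to_le inf_le_left) inf_le_right hVp
  · intro m hm
    exact exists_mul_of_hall_hall (π := {p}) (π' := π') (fun r hr h => h.2 hr) hSH hV (fun r hr => by
      by_cases h : r = p
      · exact Or.inl h
      · exact Or.inr ⟨hr, h⟩) hm

/-- A complement of `M_σ` over a `σ(M)'`-subgroup. -/
theorem exists_compl_sigma_ge {M Y : Subgroup G} (hG : IsMinSimpleOddOrder G) (hM : IsCoatom M) (hYM : Y ≤ M)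
    (hY : ∀ r : ℕ, r.Prime → r ∣ Nat.card Y → r ∉ sigma M) : ∃ E : Subgroup G, IsComplIn E (sigmaCore M) M ∧ Y ≤ E := by
  classical
  have huniq := huniq13 hG
  obtain ⟨hH1, hH2, hH3⟩ := (s1350_core hG huniq hM).1
  have hcop : (Nat.card (sigmaCore M)).Coprime ((sigmaCore M).relIndex M) :=
    Nat.coprime_of_dvd fun k hk h1 h2 => hH3 k hk (hH2 k hk h1) h2
  obtain ⟨V, hV, hVc⟩ := exists_compl_cop hH1 (le_normalizer_piCoreOf _ _) hcop
  have hMs := coatom_isSolvable hG hM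
  have hVH : IsPiHallOf {r | r ∉ sigma M} V M := by
    refine ⟨hV.1, fun r hr hd => ?_, fun r hr hrs hd => ?_⟩
    · rw [hVc] at hd
      exact fun h => hH3 r hr h hd
    · have e := IsComplIn_card_eq hV
      have e2 := Cfsg.Agent.Lib.Coprime.card_mul_relIndex hV.1
      have hVpos : 0 < Nat.card V := Nat.card_pos
      have e3 : V.relIndex M = Nat.card (sigmaCore M) := by
        rw [e] at e2
        exact Nat.eq_of_mul_eq_mul_left hVpos e2
      rw [e3] at hd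
      exact hrs (piCoreOf_isPi (sigma M) M r hr hd)
  obtain ⟨n, hn, hle⟩ := IsPiHallOf.exists_conj_ge hMs hVH hYM (fun r hr hd => hY r hr hd)
  have hnN : n ∈ normalizer (sigmaCore M : Set G) := le_normalizer_piCoreOf _ _ hn
  refine ⟨V.map (MulAut.conj n).toMonoidHom, ⟨?_, hV.2.1, ?_, ?_⟩, hle⟩
  · rintro _ ⟨v, hv, rfl⟩
    exact M.mul_mem (M.mul_mem hn (hV.1 hv)) (M.inv_mem hn)
  · rw [eq_bot_iff]
    rintro _ ⟨⟨v, hv, rfl⟩, hu⟩
    have h1 : v ∈ sigmaCore M := by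
      have h2 := (Subgroup.mem_normalizer_iff.1 hnN v).2 hu
      simpa [MulAut.conj_apply] using h2
    have h3 : v ∈ V ⊓ sigmaCore M := ⟨hv, h1⟩
    rw [hV.2.2.1, Subgroup.mem_bot] at h3
    rw [Subgroup.mem_bot, h3]
    simp
  · intro m hm
    obtain ⟨a, ha, b, hb, e⟩ := hV.2.2.2 (n⁻¹ * m * n) (M.mul_mem (M.mul_mem (M.inv_mem hn) hm) hn)
    refine ⟨n * a * n⁻¹, conj_mem_conj_map V n a ha, n * b * n⁻¹, (Subgroup.mem_normalizer_iff.1 hnN b).1 hb, ?_⟩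
    have e2 : m = n * (n⁻¹ * m * n) * n⁻¹ := by group
    rw [e2, e]
    group

/-- If `q ∤ #H'`, elements of `H` normalizing a `q`-subgroup of `H` centralize it. -/
theorem comm_of_not_dvd_commutator {H U : Subgroup G} {q : ℕ} [Fact q.Prime] (hq : ¬ q ∣ Nat.card ↥⁅H, H⁆) (hU : IsPGroup q U)
    (hUH : U ≤ H) {w : G} (hwH : w ∈ H) (hwN : w ∈ normalizer (U : Set G)) : w ∈ centralizer (U : Set G) := by
  have hqq : q.Prime := Fact.out
  rw [mem_centralizer_iff]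
  intro u hu
  have h1 : w * u * w⁻¹ * u⁻¹ ∈ ⁅H, H⁆ := by
    have := Subgroup.commutator_mem_commutator hwH (hUH hu)
    rwa [commutatorElement_def] at this
  have h2 : w * u * w⁻¹ * u⁻¹ ∈ U := U.mul_mem ((mem_normalizer_iff.mp hwN u).mp hu) (U.inv_mem hu)
  have h3 : w * u * w⁻¹ * u⁻¹ ∈ U ⊓ ⁅H, H⁆ := ⟨h2, h1⟩
  have h4 : U ⊓ ⁅H, H⁆ = ⊥ := eq_bot_of_isPGroup_of_coprime (hU.to_le inf_le_left) inf_le_right
    ((Nat.Prime.coprime_iff_not_dvd hqq).mpr hq).symm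
  rw [h4, mem_bot] at h3
  have h5 : w * u * w⁻¹ = u := mul_inv_eq_one.mp h3
  calc u * w = w * u * w⁻¹ * w := by rw [h5]
    _ = _ := by group

end Cfsg.Agent.Lib.FT
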