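import Cfsg.Agent.Lib.FT.BG15f

/-!
BG15: Theorem T, case (b): producing the mover.
-/

set_option autoImplicit false
set_option linter.unusedSectionVars false
set_option linter.style.haveILetI false

namespace Cfsg.Agent.Lib.FT

open Subgroup Cfsg Cfsg.Agent.Lib.OddLocal Cfsg.Agent.Lib.Basic

open Cfsg.Agent.Lib.Coprime (mem_conj_map conj_mem_conj_map conj_map_conj_map conj_map_one
  conj_map_mono mem_normalizer_of_conj_le conj_map_eq_iff_mem_normalizer isPGroup_conj_map)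

open scoped commutatorElement

variable {G : Type*} [Group G] [Finite G]

/-- Case (b), first half. -/
theorem caseB_mover {M X H A Q : Subgroup G} {p q : ℕ} [Fact p.Prime] [Fact q.Prime] (hG : IsMinSimpleOddOrder G)
    (hC : Config M X p) (hH : IsCoatom H) (hNX : normalizer (X : Set G) ≤ H) (hpH : p ∉ sigma H)
    (T : Tau2Setup p A H) (hXA : X ≤ A) (hQ : Nat.card Q = q) (hQD : Q ≤ sigmaCore M ⊓ centralizer (X : Set G))
    (hQN : Q ≤ H ⊓ normalizer (A : Set G)) (hnc : ¬ Q ≤ centralizer (A : Set G)) (hqσ : q ∉ sigma H) (hqβ : q ∈ beta M)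
    (hr1 : PRankLE q 1 ↥H) :
    normalizer (Q : Set G) ≤ M ∧ ∃ a : G, a ∈ normalizer (Q : Set G) ∧ a ∈ normalizer (X : Set G) ∧ a ∉ centralizer (X : Set G) ∧
      ∃ r : ℕ, r.Prime ∧ r < p ∧ ∃ k : ℕ, a ^ r ^ k = 1 := by
  classical
  have h1412 := h1412_of hG
  have huniq := huniq13 hG
  have hpp : p.Prime := Fact.out
  have hqq : q.Prime := Fact.out
  have hM := hC.hM
  have hσM : sigmaCore M ≤ M := piCoreOf_le _ M
  have hQσ : Q ≤ sigmaCore M := hQD.trans inf_le_left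
  have hQM : Q ≤ M := hQσ.trans hσM
  have hQX : Q ≤ centralizer (X : Set G) := hQD.trans inf_le_right
  have hqσM : q ∈ sigma M := piCoreOf_isPi (sigma M) M q hqq (by
    rw [← hQ]
    exact Subgroup.card_dvd_of_le hQσ)
  have hqp : q ≠ p := fun h => hC.hpσ (h ▸ hqσM)
  have hQp : IsPGroup q Q := IsPGroup.of_card (n := 1) (by simpa using hQ)
  have hQ1 : Q ≠ ⊥ := by
    rintro rfl
    simp at hQ
    exact hqq.one_lt.ne hQ
  -- `N(Q) ≤ M`
  obtain ⟨PM, hPM, -⟩ := exists_isMaxP_ge hQM hQp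
  obtain ⟨⟨hCQ, huq⟩, -⟩ := s1423_core h1412 hG hM hqσM hPM hQM hQ (Or.inl hqβ)
  have hQt : Q ≠ ⊤ := IsMinSimpleOddOrder.ne_top_of_isPGroup hG hqq hQp
  have hNQt := IsMinSimpleOddOrder.normalizer_ne_top hG hQ1 hQt
  obtain ⟨L, hL, hNL⟩ := (eq_top_or_exists_le_coatom (normalizer (Q : Set G))).resolve_left hNQt
  have hNQM : normalizer (Q : Set G) ≤ M := by
    rw [← huq L hL ((centralizer_le_normalizer' Q).trans hNL)]
    exact hNL
  refine ⟨hNQM, ?_⟩
  -- the nonabelian subgroup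
  obtain ⟨P₁, hP₁p, hAP₁, hQP₁, hP₁na⟩ := exists_nonab_inv hG T hXA hC.hX hNX hQ hQN hQX hnc hr1 hqσ hqp
  obtain ⟨M₂, hM₂, hP₁M₂, hNM₂, hpσ₂⟩ := exists_top_of_nonab hG hP₁p hP₁na
  have hQM₂ : Q ≤ M₂ := hQP₁.trans hNM₂
  have hqσ₂ : q ∉ sigma M₂ := by
    intro h
    obtain ⟨c, e⟩ := conj_of_alpha_sigma hG huniq hM₂ hM hqβ.1 h
    apply hC.hpσ
    rw [e]
    exact sigma_conj_of_mem hpσ₂ c
  have hrq₂ : PRankLE q 1 ↥M₂ := by
    by_contra hr
    have hr2 : PRankLE q 2 ↥M₂ := by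
      by_contra h
      exact hqσ₂ (alpha_sub_sigma hG huniq hM₂ ⟨hqq, h⟩)
    exact (s1408_core hG huniq hM₂ hr2 hr).1 hqβ.2
  obtain ⟨S, hS, hP₁S, hQS, hSM₂, hNSM₂⟩ := exists_inv_sylow hG hM₂ hpσ₂ hP₁p hP₁M₂ hQM₂ hQ hqσ₂ hQP₁
  have hSna : ¬ IsMulCommutative S := fun hab => hP₁na ⟨⟨fun x y => Subtype.ext
    (commute_of_mem_isMulCommutative (hP₁S x.2) (hP₁S y.2))⟩⟩
  have hS1 : S ≠ ⊥ := by
    rintro rfl
    exact hSna ⟨⟨fun a b => by
      have h1 : (a : G) = 1 := (mem_bot).mp a.2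
      have h2 : (b : G) = 1 := (mem_bot).mp b.2
      apply Subtype.ext
      change (a : G) * b = b * a
      rw [h1, h2]⟩⟩
  obtain ⟨V, hV, hVp, hQV⟩ := exists_hall_compl_ge hG hS hS1 hQS hQ hqp
  have hC₀ : IsCyclic ↥(S ⊓ centralizer (Q : Set G)) := cyclic_of_prank_one hG hC.hr (hS.isP.to_le inf_le_left)
    (inf_le_right.trans ((centralizer_le_normalizer' Q).trans hNQM))
  have hXS : X ≤ S := hXA.trans (hAP₁.trans hP₁S)
  have hN : ¬ normalizer (S : Set G) ≤ normalizer (X : Set G) := fun h => hSna ⟨⟨fun x y => Subtype.ext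
    (comm_of_not_sigma hG huniq (fun r _ K hK => hpl13 hG r K hK) h1412 hH hpH ((le_normalizer.trans h).trans hNX) hS.isP x.2 y.2)⟩⟩
  have hrX : PRankLE p 2 ↥(centralizer (X : Set G)) := by
    have h2 : PRankLE p 2 ↥H := by
      by_contra h
      exact hpH (alpha_sub_sigma hG huniq hH ⟨hpp, h⟩)
    have hle : centralizer (X : Set G) ≤ H := (centralizer_le_normalizer' X).trans hNX
    exact prank_of_injective (Subgroup.inclusion hle) (Subgroup.inclusion_injective hle) h2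
  obtain ⟨v, hvV, hvQ, hvX, hvC⟩ := exists_mover hG hS hSna hV hVp hQV hQ hXS hC.hX hQX hC₀ (hV.2.1.trans hNSM₂) hrq₂ hN hrX
  obtain ⟨a, ha, haC, r, hr, k, hk⟩ := exists_primary_not_mem _ rfl hvC
  have haV : a ∈ V := (zpowers_le.mpr hvV) ha
  have haX : a ∈ normalizer (X : Set G) := (zpowers_le.mpr hvX) ha
  refine ⟨a, (zpowers_le.mpr hvQ) ha, haX, haC, r, hr, ?_, k, hk⟩
  have hrp : r ≠ p := by
    rintro rfl
    have h1 : (orderOf a).Coprime r := Nat.Coprime.coprime_dvd_left (Subgroup.orderOf_dvd_natCard V haV) hVp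
    have h2 : orderOf a ∣ r ^ k := orderOf_dvd_of_pow_eq_one hk
    have h3 : orderOf a = 1 := Nat.Coprime.eq_one_of_dvd (Nat.Coprime.pow_right k h1) h2
    apply haC
    rw [orderOf_eq_one_iff.mp h3]
    exact one_mem _
  have hd := prime_dvd_pred_of_moves (p := p) hr hC.hX haX hk haC
  have h2 := Nat.le_of_dvd (Nat.sub_pos_of_lt hpp.one_lt) hd
  have h3 := hpp.one_lt
  omega

end Cfsg.Agent.Lib.FT
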