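import Cfsg.Agent.Lib.FT.BG15g
import Cfsg.Agent.Lib.FT.BG15a

/-!
BG15: Theorem T, end of case (b), and the theorem.
-/

set_option autoImplicit false
set_option linter.unusedSectionVars false
set_option linter.style.haveILetI false

namespace Cfsg.Agent.Lib.FT

open Subgroup Cfsg Cfsg.Agent.Lib.OddLocal Cfsg.Agent.Lib.Basic

open Cfsg.Agent.Lib.Coprime (mem_conj_map conj_mem_conj_map conj_map_conj_map conj_map_one
  conj_map_mono mem_normalizer_of_conj_le conj_map_eq_iff_mem_normalizer isPGroup_conj_map)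

open scoped commutatorElement

variable {G : Type*} [Group G] [Finite G]

/-- The commutator of a normalizing element with `X`, when trivial intersection with a normal subgroup. -/
theorem mem_centralizer_of_norm_of_inf {K X : Subgroup G} {a : G} (haK : a ∈ K) (haX : a ∈ normalizer (X : Set G))
    (hXK : X ≤ normalizer (K : Set G)) (hinf : X ⊓ K = ⊥) : a ∈ centralizer (X : Set G) := by
  rw [mem_centralizer_iff]
  intro x hx
  have h1 : a * x * a⁻¹ * x⁻¹ ∈ X := X.mul_mem ((mem_normalizer_iff.mp haX x).mp hx) (X.inv_mem hx)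
  have h2 : a * x * a⁻¹ * x⁻¹ ∈ K := by
    have h3 := (mem_normalizer_iff.mp (hXK hx) a⁻¹).mp (K.inv_mem haK)
    have e : a * x * a⁻¹ * x⁻¹ = a * (x * a⁻¹ * x⁻¹) := by group
    rw [e]
    exact K.mul_mem haK h3
  have h4 : a * x * a⁻¹ * x⁻¹ ∈ X ⊓ K := ⟨h1, h2⟩
  rw [hinf, mem_bot] at h4
  have h5 : a * x * a⁻¹ = x := mul_inv_eq_one.mp h4
  calc x * a = a * x * a⁻¹ * a := by rw [h5]
    _ = _ := by group

/-- Case (b), the `τ₂` branch. -/
theorem caseB_tau2 {M X H Q E : Subgroup G} {p q r : ℕ} [Fact p.Prime] [Fact q.Prime] [Fact r.Prime] (hG : IsMinSimpleOddOrder G)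
    (hC : Config M X p) (hNX : normalizer (X : Set G) ≤ H) (hQ : Nat.card Q = q)
    (hQD : Q ≤ sigmaCore M ⊓ centralizer (X : Set G)) (hq1 : ¬ q ∣ Nat.card ↥⁅H, H⁆)
    (hrσ : r ∉ sigma M) (hrr : ¬ PRankLE r 1 ↥M) (hrp : r ≠ p) (hE : IsComplIn E (sigmaCore M) M) (hXE : X ≤ E)
    (hEX : E ≤ normalizer (X : Set G)) : False := by
  classical
  have hpp : p.Prime := Fact.out
  have hqq : q.Prime := Fact.out
  have hrpp : r.Prime := Fact.out
  have huniq := huniq13 hG
  have hM := hC.hM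
  have hσM : sigmaCore M ≤ M := piCoreOf_le _ M
  have hσn : M ≤ normalizer (sigmaCore M : Set G) := le_normalizer_piCoreOf (sigma M) M
  obtain ⟨P, hP, -⟩ := exists_isMaxP_ge (T := ⊥) (N := E) (p := r) bot_le IsPGroup.of_bot
  have hPM : IsMaxP r P M := hP.of_compl hG huniq hM hE hrσ
  have hPnc : ¬ IsCyclic P := fun h => hrr (hPM.prank_of (prank_one_of_cyclic h))
  obtain ⟨A', hA'P, hA'e, hA'c⟩ := exists_e2_of_not_cyclic hG hP.isP hPnc
  have T' : Tau2Setup r A' M := Tau2Setup.mk' hG huniq (fun t _ K hK => hpl13 hG t K hK) hM (hA'P.trans hPM.le) hA'e hA'c hrσ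
  have hA'E : A' ≤ E := hA'P.trans hP.le
  have hA'X : A' ≤ centralizer (X : Set G) := by
    refine comm_of_norm_norm (hA'E.trans hEX) (hXE.trans (T'.compl_le_normalizer hE hA'E)) ?_
    refine eq_bot_of_isPGroup_of_coprime (T'.S.hAp.to_le inf_le_left) (inf_le_right : A' ⊓ X ≤ X) ?_
    rw [hC.hX]
    exact (Nat.coprime_primes hpp hrpp).mpr hrp.symm
  have hA'H : A' ≤ H := hA'X.trans ((centralizer_le_normalizer' X).trans hNX)
  set D := sigmaCore M ⊓ centralizer (X : Set G) with hD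
  have hDM : D ≤ sigmaCore M := inf_le_left
  have hA'M : A' ≤ M := hE.1.trans' hA'E
  have hA'D : A' ≤ normalizer (D : Set G) := by
    intro a ha
    rw [mem_normalizer_iff]
    intro z
    have h1 := mem_normalizer_iff.mp (hσn (hA'M ha)) z
    have h2 := mem_normalizer_iff.mp (Cfsg.Agent.Lib.OddLocal.mem_normalizer_centralizer (centralizer_le_normalizer' X (hA'X ha))) z
    simp only [hD, mem_inf, h1, h2]
  have hDt : D ≠ ⊤ := fun h => hM.1 (top_le_iff.1 (h ▸ hDM.trans hσM))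
  have hDs : Group.IsSolvable ↥D := IsMinSimpleOddOrder.isSolvable hG hDt
  have hcop : (Nat.card A').Coprime (Nat.card D) := by
    rw [hA'c]
    refine Nat.Coprime.pow_left 2 ((Nat.Prime.coprime_iff_not_dvd hrpp).mpr fun hd => hrσ ?_)
    exact piCoreOf_isPi (sigma M) M r hrpp (hd.trans (Subgroup.card_dvd_of_le hDM))
  have hca : Cfsg.Agent.Lib.Coprime.CoprimeAction A' D := ⟨hA'D, hcop, Or.inr hDs⟩
  obtain ⟨Dq, hDq, hA'Dq, -⟩ := Cfsg.Agent.Lib.Coprime.exists_invariant_hall {q} _ hca hDs rfl (U := ⊥) bot_le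
    (fun a _ => by
      rw [mem_normalizer_iff]
      intro z
      simp) (fun t ht hd => by
      simp at hd
      exact absurd hd ht.one_lt.ne')
  obtain ⟨hDqm, hDqp⟩ := isMaxP_of_isPiHallOf hDq
  have hDqH : Dq ≤ H := hDq.1.trans (inf_le_right.trans ((centralizer_le_normalizer' X).trans hNX))
  have hC' : Dq ≤ centralizer (A' : Set G) := by
    rw [le_centralizer_iff]
    intro a ha
    exact comm_of_not_dvd_commutator hq1 hDqp hDqH (hA'H ha) (hA'Dq ha)
  have hbot : Dq = ⊥ := by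
    rw [eq_bot_iff, ← T'.d]
    exact le_inf (hDq.1.trans hDM) hC'
  have hqd : q ∣ Nat.card D := by
    rw [← hQ]
    exact Subgroup.card_dvd_of_le hQD
  apply hDq.2.2 q hqq rfl
  rw [hbot, Subgroup.relIndex_bot_left]
  exact hqd

/-- Case (b), end. -/
theorem caseB_end {M X H Q : Subgroup G} {p q r k : ℕ} [Fact p.Prime] [Fact q.Prime] [Fact r.Prime] (hG : IsMinSimpleOddOrder G)
    (IH : ThmTBelow G p) (hC : Config M X p) (hH : IsCoatom H) (hNX : normalizer (X : Set G) ≤ H) (hpH : p ∉ sigma H)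
    (hQ : Nat.card Q = q) (hQD : Q ≤ sigmaCore M ⊓ centralizer (X : Set G)) (hqβ : q ∈ beta M) (hq1 : ¬ q ∣ Nat.card ↥⁅H, H⁆) (hqH : PRankLE q 1 ↥H)
    (hNQM : normalizer (Q : Set G) ≤ M) {a : G} (haQ : a ∈ normalizer (Q : Set G)) (haX : a ∈ normalizer (X : Set G))
    (haC : a ∉ centralizer (X : Set G)) (hrlt : r < p) (hk : a ^ r ^ k = 1) : False := by
  classical
  have h1412 := h1412_of hG
  have huniq := huniq13 hG
  have hpp : p.Prime := Fact.out
  have hqq : q.Prime := Fact.out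
  have hrr' : r.Prime := Fact.out
  have hrp : r ≠ p := hrlt.ne
  have hM := hC.hM
  have hσM : sigmaCore M ≤ M := piCoreOf_le _ M
  have hσn : M ≤ normalizer (sigmaCore M : Set G) := le_normalizer_piCoreOf (sigma M) M
  have hQσ : Q ≤ sigmaCore M := hQD.trans inf_le_left
  have hQM : Q ≤ M := hQσ.trans hσM
  have hQX : Q ≤ centralizer (X : Set G) := hQD.trans inf_le_right
  have hqσM : q ∈ sigma M := piCoreOf_isPi (sigma M) M q hqq (by
    rw [← hQ]
    exact Subgroup.card_dvd_of_le hQσ)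
  have hqp : q ≠ p := fun h => hC.hpσ (h ▸ hqσM)
  have hQp : IsPGroup q Q := IsPGroup.of_card (n := 1) (by simpa using hQ)
  have hQ1 : Q ≠ ⊥ := by
    rintro rfl
    simp at hQ
    exact hqq.one_lt.ne hQ
  have hXp : IsPGroup p X := IsPGroup.of_card (n := 1) (by simpa using hC.hX)
  have hq2 : q ≠ 2 := prime_odd hG hqq (hqσM.2.1.trans (Subgroup.card_subgroup_dvd_card M))
  have haM : a ∈ M := hNQM haQ
  have haH : a ∈ H := hNX haX
  have haCQ : a ∈ centralizer (Q : Set G) :=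
    comm_of_not_dvd_commutator hq1 hQp (hQX.trans ((centralizer_le_normalizer' X).trans hNX)) haH haQ
  have hzr : IsPGroup r (zpowers a) := by
    rw [IsPGroup.iff_card, Nat.card_zpowers]
    obtain ⟨j, -, hj⟩ := (Nat.dvd_prime_pow hrr').mp (orderOf_dvd_of_pow_eq_one hk)
    exact ⟨j, hj⟩
  have hinfσ : X ⊓ sigmaCore M = ⊥ := eq_bot_of_isPGroup_of_coprime (hXp.to_le inf_le_left) inf_le_right (by
    refine Nat.Coprime.symm ((Nat.Prime.coprime_iff_not_dvd hpp).mpr fun hd => hC.hpσ ?_)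
    exact piCoreOf_isPi (sigma M) M p hpp hd)
  have hrσ : r ∉ sigma M := by
    intro h
    have hz : zpowers a ≤ sigmaCore M := le_sigmaCore_of_isPGroup hG huniq hM h hzr (zpowers_le.mpr haM)
    exact haC (mem_centralizer_of_norm_of_inf (hz (mem_zpowers a)) haX (hC.hXM.trans hσn) hinfσ)
  -- `R₀`
  have ha1 : a ≠ 1 := by
    rintro rfl
    exact haC (one_mem _)
  have hrdvd : r ∣ Nat.card (zpowers a) := by
    obtain ⟨j, hj⟩ := IsPGroup.iff_card.mp hzr
    have hj0 : j ≠ 0 := by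
      rintro rfl
      rw [pow_zero, Nat.card_zpowers] at hj
      exact ha1 (orderOf_eq_one_iff.mp hj)
    rw [hj]
    exact dvd_pow_self r hj0
  obtain ⟨g₀, hg₀⟩ := exists_prime_orderOf_dvd_card' (G := ↥(zpowers a)) r hrdvd
  set a₀ : G := (g₀ : G) with ha₀
  have ha₀o : orderOf a₀ = r := by rw [ha₀, Subgroup.orderOf_coe, hg₀]
  set R₀ := zpowers a₀ with hR₀
  have hR₀c : Nat.card R₀ = r := by rw [hR₀, Nat.card_zpowers, ha₀o]
  have hR₀a : R₀ ≤ zpowers a := zpowers_le.mpr g₀.2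
  have hR₀p : IsPGroup r R₀ := hzr.to_le hR₀a
  have hR₀M : R₀ ≤ M := hR₀a.trans (zpowers_le.mpr haM)
  have hR₀X : R₀ ≤ normalizer (X : Set G) := hR₀a.trans (zpowers_le.mpr haX)
  have hR₀Q : R₀ ≤ centralizer (Q : Set G) := hR₀a.trans (zpowers_le.mpr haCQ)
  have hR₀1 : R₀ ≠ ⊥ := by
    intro h
    rw [h] at hR₀c
    simp at hR₀c
    exact hrr'.one_lt.ne hR₀c
  -- `p ∈ τ₃(M)`
  obtain ⟨x, hx, hxa⟩ : ∃ x ∈ X, a * x * a⁻¹ * x⁻¹ ≠ 1 := by
    by_contra hcon
    push Not at hcon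
    apply haC
    rw [mem_centralizer_iff]
    intro x hx
    have h5 : a * x * a⁻¹ = x := mul_inv_eq_one.mp (hcon x hx)
    calc x * a = a * x * a⁻¹ * a := by rw [h5]
      _ = _ := by group
  have hwX : a * x * a⁻¹ * x⁻¹ ∈ X := X.mul_mem ((mem_normalizer_iff.mp haX x).mp hx) (X.inv_mem hx)
  have hwo : orderOf (a * x * a⁻¹ * x⁻¹) = p := by
    have h1 := Subgroup.orderOf_dvd_natCard X hwX
    rw [hC.hX] at h1
    rcases (Nat.dvd_prime hpp).mp h1 with h2 | h2
    · exact absurd (orderOf_eq_one_iff.mp h2) hxa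
    · exact h2
  have hXeq : X = zpowers (a * x * a⁻¹ * x⁻¹) := by
    refine (Subgroup.eq_of_le_of_card_ge (zpowers_le.mpr hwX) ?_).symm
    rw [hC.hX, Nat.card_zpowers, hwo]
  have hpd : p ∣ Nat.card ↥⁅M, M⁆ := by
    rw [← hwo]
    refine Subgroup.orderOf_dvd_natCard _ ?_
    have := Subgroup.commutator_mem_commutator haM (hC.hXM hx)
    rwa [commutatorElement_def] at this
  have hτ₃ : p ∈ tau3 M := ⟨hpp, hC.hpσ, hpd, hC.hr⟩
  -- the complement
  set Y := X ⊔ zpowers a with hY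
  have hYM : Y ≤ M := sup_le hC.hXM (zpowers_le.mpr haM)
  have hzN : zpowers a ≤ normalizer (X : Set G) := zpowers_le.mpr haX
  have hYprimes : ∀ t : ℕ, t.Prime → t ∣ Nat.card Y → t ∉ sigma M := by
    intro t ht hd
    have h1 := card_sup_mul_card_inf hzN
    have h2 : t ∣ Nat.card X * Nat.card (zpowers a) := by
      rw [← h1]
      exact hd.trans (dvd_mul_right _ _)
    rcases (Nat.Prime.dvd_mul ht).mp h2 with h3 | h3
    · rw [hC.hX] at h3
      rw [(Nat.prime_dvd_prime_iff_eq ht hpp).mp h3]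
      exact hC.hpσ
    · obtain ⟨j, hj⟩ := IsPGroup.iff_card.mp hzr
      rw [hj] at h3
      rw [(Nat.prime_dvd_prime_iff_eq ht hrr').mp (ht.dvd_of_dvd_pow h3)]
      exact hrσ
  obtain ⟨E, hE, hYE⟩ := exists_compl_sigma_ge hG hM hYM hYprimes
  have hXE : X ≤ E := le_sup_left.trans hYE
  have hEX : E ≤ normalizer (X : Set G) := normal_of_tau3 hG hM hE hτ₃ hXE hC.hX
  by_cases hrr : PRankLE r 1 ↥M
  swap
  · exact caseB_tau2 hG hC hNX hQ hQD hq1 hrσ hrr hrp hE hXE hEX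
  -- `Config(M, R₀, r)`
  have hD' : sigmaCore M ⊓ centralizer (R₀ : Set G) ≠ ⊥ := by
    intro h
    apply hQ1
    rw [eq_bot_iff, ← h]
    exact le_inf hQσ ((le_centralizer_iff).mp hR₀Q)
  have hConf : Config M R₀ r := ⟨hM, hrσ, hrr, hR₀c, hR₀M, hD'⟩
  have hR₀t : R₀ ≠ ⊤ := IsMinSimpleOddOrder.ne_top_of_isPGroup hG hrr' hR₀p
  obtain ⟨P₀, hP₀, hNP₀⟩ := (eq_top_or_exists_le_coatom (normalizer (R₀ : Set G))).resolve_left
    (IsMinSimpleOddOrder.normalizer_ne_top hG hR₀1 hR₀t)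
  have hrP₀ : r ∈ sigma P₀ := IH M R₀ P₀ r hrr' hrlt hConf hP₀ hNP₀
  have hCR₀ : centralizer (R₀ : Set G) ≤ P₀ := (centralizer_le_normalizer' R₀).trans hNP₀
  have hσP₀ : sigmaCore P₀ ≤ P₀ := piCoreOf_le _ P₀
  have hσP₀n : P₀ ≤ normalizer (sigmaCore P₀ : Set G) := le_normalizer_piCoreOf (sigma P₀) P₀
  by_cases hR₀C : R₀ ≤ centralizer (X : Set G)
  · -- Case 2
    have haR₀ : a ∈ centralizer (R₀ : Set G) := by
      rw [mem_centralizer_iff]
      intro t ht
      obtain ⟨i, rfl⟩ := mem_zpowers_iff.mp (hR₀a ht)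
      exact ((Commute.refl a).zpow_left i).eq
    have haP₀ : a ∈ P₀ := hCR₀ haR₀
    have hzσ : zpowers a ≤ sigmaCore P₀ := le_sigmaCore_of_isPGroup hG huniq hP₀ hrP₀ hzr (zpowers_le.mpr haP₀)
    have haσ : a ∈ sigmaCore P₀ := hzσ (mem_zpowers a)
    have hXP₀ : X ≤ P₀ := ((le_centralizer_iff).mp hR₀C).trans hCR₀
    have hwσ : a * x * a⁻¹ * x⁻¹ ∈ sigmaCore P₀ := by
      have h3 := (mem_normalizer_iff.mp (hσP₀n (hXP₀ hx)) a⁻¹).mp ((sigmaCore P₀).inv_mem haσ)
      have e : a * x * a⁻¹ * x⁻¹ = a * (x * a⁻¹ * x⁻¹) := by group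
      rw [e]
      exact (sigmaCore P₀).mul_mem haσ h3
    have hXσ : X ≤ sigmaCore P₀ := by
      rw [hXeq]
      exact zpowers_le.mpr hwσ
    have hX' : X ≤ ⁅sigmaCore P₀, sigmaCore P₀⁆ := by
      rw [hXeq, zpowers_le]
      have := Subgroup.commutator_mem_commutator haσ (hXσ hx)
      rwa [commutatorElement_def] at this
    have hpσP₀ : p ∈ sigma P₀ := piCoreOf_isPi (sigma P₀) P₀ p hpp (by
      rw [← hC.hX]
      exact Subgroup.card_dvd_of_le hXσ)
    obtain ⟨PP, hPP, -⟩ := exists_isMaxP_ge hXP₀ hXp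
    obtain ⟨⟨-, huq⟩, -⟩ := s1423_core h1412 hG hP₀ hpσP₀ hPP hXP₀ hC.hX (Or.inr hX')
    have e := huq H hH ((centralizer_le_normalizer' X).trans hNX)
    apply hpH
    rw [e]
    exact hpσP₀
  · -- Case 1
    have hqσP₀ : q ∉ sigma P₀ := by
      intro h
      obtain ⟨c, e⟩ := conj_of_alpha_sigma hG huniq hP₀ hM hqβ.1 h
      apply hrσ
      rw [e]
      exact sigma_conj_of_mem hrP₀ c
    have hrqP₀ : PRankLE q 1 ↥P₀ := by
      by_contra hr
      have hr2 : PRankLE q 2 ↥P₀ := by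
        by_contra h
        exact hqσP₀ (alpha_sub_sigma hG huniq hP₀ ⟨hqq, h⟩)
      exact (s1408_core hG huniq hP₀ hr2 hr).1 hqβ.2
    set Y₁ := X ⊔ R₀ with hY₁
    have hY₁M : Y₁ ≤ M := sup_le hC.hXM hR₀M
    have hσt : sigmaCore M ≠ ⊤ := fun h => hM.1 (top_le_iff.1 (h ▸ hσM))
    have hσs : Group.IsSolvable ↥(sigmaCore M) := IsMinSimpleOddOrder.isSolvable hG hσt
    have hY₁cop : (Nat.card Y₁).Coprime (Nat.card (sigmaCore M)) := by
      refine Nat.coprime_of_dvd fun t ht h1 h2 => ?_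
      have h3 := card_sup_mul_card_inf hR₀X
      have h4 : t ∣ Nat.card X * Nat.card R₀ := by
        rw [← h3]
        exact h1.trans (dvd_mul_right _ _)
      have htσ : t ∈ sigma M := piCoreOf_isPi (sigma M) M t ht h2
      rcases (Nat.Prime.dvd_mul ht).mp h4 with h5 | h5
      · rw [hC.hX] at h5
        rw [(Nat.prime_dvd_prime_iff_eq ht hpp).mp h5] at htσ
        exact hC.hpσ htσ
      · rw [hR₀c] at h5
        rw [(Nat.prime_dvd_prime_iff_eq ht hrr').mp h5] at htσ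
        exact hrσ htσ
    have hca : Cfsg.Agent.Lib.Coprime.CoprimeAction Y₁ (sigmaCore M) := ⟨hY₁M.trans hσn, hY₁cop, Or.inr hσs⟩
    have hY₁Q : Y₁ ≤ normalizer (Q : Set G) := sup_le
      (((le_centralizer_iff).mp hQX).trans (centralizer_le_normalizer' Q)) (hR₀Q.trans (centralizer_le_normalizer' Q))
    obtain ⟨Tq, hTq, hY₁T, hQT⟩ := Cfsg.Agent.Lib.Coprime.exists_invariant_hall {q} _ hca hσs rfl hQσ hY₁Q (fun t ht hd => by
      rw [hQ] at hd
      exact (Nat.prime_dvd_prime_iff_eq ht hqq).mp hd)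
    obtain ⟨hTm, hTp⟩ := isMaxP_of_isPiHallOf hTq
    have hTM := hTm.of_sigmaCore hG hM hqσM
    have hnc : ¬ Tq ≤ centralizer (X : Set G) := by
      intro h
      have hTc : IsCyclic Tq := by
        exact cyclic_of_prank_one hG hqH hTp (h.trans ((centralizer_le_normalizer' X).trans hNX))
      exact hqβ.1.2 (hTM.prank_of (prank_mono hqq.pos (by norm_num) (prank_one_of_cyclic hTc)))
    apply hnc
    have hcyc : IsCyclic ↥(Tq ⊓ centralizer (R₀ : Set G)) :=
      cyclic_of_prank_one hG hrqP₀ (hTp.to_le inf_le_left) (inf_le_right.trans hCR₀)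
    refine (le_centralizer_iff).mpr ?_
    refine (le_centralizer_iff).mp (lemmaF (U := X) (R₀ := R₀) (Q₁ := Q) hq2 hTp (le_sup_left.trans hY₁T) (le_sup_right.trans hY₁T) hR₀X ?_ ?_ ?_ ?_ hcyc hQ1 hQT hQX ?_)
    · rw [hC.hX]
      exact (Nat.coprime_primes hpp hqq).mpr hqp.symm
    · rw [hR₀c]
      exact hrr'
    · rw [hR₀c]
      refine (Nat.coprime_primes hrr' hqq).mpr ?_
      rintro rfl
      exact hrσ hqσM
    · intro y hy hy1 u hu hyu
      by_contra hu1
      apply hR₀C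
      have hyg : R₀ = zpowers y := by
        refine (Subgroup.eq_of_le_of_card_ge (zpowers_le.mpr hy) ?_).symm
        rw [hR₀c, Nat.card_zpowers]
        have h1 := Subgroup.orderOf_dvd_natCard R₀ hy
        rw [hR₀c] at h1
        rcases (Nat.dvd_prime hrr').mp h1 with h2 | h2
        · exact absurd (orderOf_eq_one_iff.mp h2) hy1
        · exact h2.ge
      have hug : X = zpowers u := by
        refine (Subgroup.eq_of_le_of_card_ge (zpowers_le.mpr hu) ?_).symm
        rw [hC.hX, Nat.card_zpowers]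
        have h1 := Subgroup.orderOf_dvd_natCard X hu
        rw [hC.hX] at h1
        rcases (Nat.dvd_prime hpp).mp h1 with h2 | h2
        · exact absurd (orderOf_eq_one_iff.mp h2) hu1
        · exact h2.ge
      rw [hyg, hug]
      intro t ht
      rw [mem_centralizer_iff]
      intro w hw
      obtain ⟨i, rfl⟩ := mem_zpowers_iff.mp ht
      obtain ⟨j, rfl⟩ := mem_zpowers_iff.mp hw
      have hcomm : Commute y u := hyu
      exact ((hcomm.symm.zpow_zpow j i)).eq
    · exact (le_centralizer_iff).mp hR₀Q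

end Cfsg.Agent.Lib.FT
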