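import Cfsg.Agent.Lib.FT.BG15h

/-!
BG15: Theorem T.
-/

set_option autoImplicit false
set_option linter.unusedSectionVars false
set_option linter.style.haveILetI false

namespace Cfsg.Agent.Lib.FT

open Subgroup Cfsg Cfsg.Agent.Lib.OddLocal Cfsg.Agent.Lib.Basic

open Cfsg.Agent.Lib.Coprime (mem_conj_map conj_mem_conj_map conj_map_conj_map conj_map_one
  conj_map_mono mem_normalizer_of_conj_le conj_map_eq_iff_mem_normalizer isPGroup_conj_map)

open scoped commutatorElement

variable {G : Type*} [Group G] [Finite G]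

/-- The core of Theorem T: no element of `M_σ` of prime order centralizing `X` normalizes and moves `A`. -/
theorem T_core {M X H A Q : Subgroup G} {p q : ℕ} [Fact p.Prime] [Fact q.Prime] (hG : IsMinSimpleOddOrder G)
    (IH : ThmTBelow G p) (hC : Config M X p) (hH : IsCoatom H) (hNX : normalizer (X : Set G) ≤ H) (hpH : p ∉ sigma H)
    (T : Tau2Setup p A H) (hXA : X ≤ A) (hQ : Nat.card Q = q) (hQD : Q ≤ sigmaCore M ⊓ centralizer (X : Set G))
    (hQN : Q ≤ H ⊓ normalizer (A : Set G)) (hnc : ¬ Q ≤ centralizer (A : Set G)) (hqσ : q ∉ sigma H)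
    (hA2 : PRankLE p 2 ↥A) (hAp : IsPGroup p A) : False := by
  classical
  have hpp : p.Prime := Fact.out
  have hqq : q.Prime := Fact.out
  obtain ⟨hq1, hqH⟩ := tau1_of_moves hG T hQ hQN hqσ hnc
  have hqσM : q ∈ sigma M := piCoreOf_isPi (sigma M) M q hqq (by
    rw [← hQ]
    exact Subgroup.card_dvd_of_le (hQD.trans inf_le_left))
  have hqne : q ≠ p := fun h => hC.hpσ (h ▸ hqσM)
  have hp2 : p ≠ 2 := prime_odd hG hpp (by
    rw [← hC.hX]
    exact Subgroup.card_subgroup_dvd_card X)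
  have hq2 : q ≠ 2 := prime_odd hG hqq (by
    rw [← hQ]
    exact Subgroup.card_subgroup_dvd_card Q)
  have hqp : q < p := by
    obtain ⟨x, hx, hxC⟩ := SetLike.not_le_iff_exists.mp hnc
    have hord : orderOf x = q := by
      have h1 := Subgroup.orderOf_dvd_natCard Q hx
      rw [hQ] at h1
      rcases (Nat.dvd_prime hqq).mp h1 with h2 | h2
      · rw [orderOf_eq_one_iff.mp h2] at hxC
        exact absurd (Subgroup.one_mem _) hxC
      · exact h2
    exact lt_of_le_of_ne (prime_le_of_act p hp2 A hAp hA2 x (hQN hx).2 hxC q hqq hq2 hqne hord) hqne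
  by_cases hqβ : q ∈ beta M
  · obtain ⟨hNQM, a, haQ, haX, haC, r, hr, hrlt, k, hk⟩ := caseB_mover hG hC hH hNX hpH T hXA hQ hQD hQN hnc hqσ hqβ hqH
    haveI : Fact r.Prime := ⟨hr⟩
    exact caseB_end hG IH hC hH hNX hpH hQ hQD hqβ hq1 hqH hNQM haQ haX haC hrlt hk
  · exact caseA hG hC hNX hQ hQD hqβ hqp hq1 hqH

/-- The inductive step of Theorem T. -/
theorem thmT_step {M X H : Subgroup G} {p : ℕ} [Fact p.Prime] (hG : IsMinSimpleOddOrder G) (IH : ThmTBelow G p)
    (hC : Config M X p) (hH : IsCoatom H) (hNX : normalizer (X : Set G) ≤ H) : p ∈ sigma H := by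
  classical
  by_contra hpH
  have huniq := huniq13 hG
  have hpp : p.Prime := Fact.out
  have hM := hC.hM
  have hr := hC.hr
  obtain ⟨⟨hr2, hr1⟩, hni, -⟩ := s1409_core hG huniq hH hpH X hC.hX hNX
  have hXp : IsPGroup p X := IsPGroup.of_card (n := 1) (by simpa using hC.hX)
  have hXH : X ≤ H := le_normalizer.trans hNX
  have hXM := hC.hXM
  have hX1 : X ≠ ⊥ := by
    intro h
    have := hC.hX
    rw [h] at this
    simp at this
    exact hpp.one_lt.ne this
  have hXtop : X ≠ ⊤ := fun h => hM.1 (top_le_iff.1 (h ▸ hXM))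
  have hNtop : normalizer (X : Set G) ≠ ⊤ := IsMinSimpleOddOrder.normalizer_ne_top hG hX1 hXtop
  obtain ⟨SH, hSHm, hXSH⟩ := exists_isMaxP_ge hXH hXp
  have hSHnc : ¬ IsCyclic SH := fun h => hr1 (hSHm.prank_of (prank_one_of_cyclic h))
  obtain ⟨A, hASH, hAe, hAc⟩ := exists_e2_of_not_cyclic hG hSHm.isP hSHnc
  have hAH : A ≤ H := hASH.trans hSHm.le
  have T : Tau2Setup p A H := Tau2Setup.mk' hG huniq (fun r _ K hK => hpl13 hG r K hK) hH hAH hAe hAc hpH
  have hXA : X ≤ A := by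
    intro x hx
    rw [← T.omega_iff hSHm hASH (hXSH hx)]
    have h1 : ((⟨x, hx⟩ : X) : G) ^ Nat.card X = 1 := by
      rw [← Subgroup.coe_pow, pow_card_eq_one']
      rfl
    rwa [hC.hX] at h1
  have hdisj : ∀ r : ℕ, r ∈ sigma H → r ∉ sigma M := by
    intro r hrH hrM
    haveI : Fact r.Prime := ⟨hrH.1⟩
    obtain ⟨c, e⟩ := conj_of_sigma_nilpotent hG hM hH T.nil hrH hrM
    have h1 : A.map (MulAut.conj c).toMonoidHom ≤ M := e ▸ conj_map_mono hAH c
    have h2 := card_le_of_prank hr (elem_conj_map hAe c) h1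
    rw [Cfsg.Agent.Lib.Coprime.card_conj_map, hAc, pow_one] at h2
    have h3 := hpp.one_lt
    nlinarith
  have hσHn : H ≤ normalizer (sigmaCore H : Set G) := le_normalizer_piCoreOf (sigma H) H
  -- an element of prime order of `D`
  obtain ⟨y, hyD, hy1⟩ : ∃ y ∈ sigmaCore M ⊓ centralizer (X : Set G), y ≠ 1 :=
    (Subgroup.ne_bot_iff_exists_ne_one).mp hC.hD |>.elim fun y hy => ⟨y, y.2, fun h => hy (Subtype.ext h)⟩
  obtain ⟨k, q, hq, ho⟩ : ∃ (k q : ℕ), q.Prime ∧ orderOf (y ^ k) = q := by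
    have h1 : orderOf y ≠ 1 := fun h => hy1 (orderOf_eq_one_iff.mp h)
    obtain ⟨q, hq, hqd⟩ := Nat.exists_prime_and_dvd h1
    exact ⟨orderOf y / q, q, hq, orderOf_pow_orderOf_div (orderOf_pos y).ne' hqd⟩
  haveI : Fact q.Prime := ⟨hq⟩
  have hzD : y ^ k ∈ sigmaCore M ⊓ centralizer (X : Set G) := pow_mem hyD k
  set z := y ^ k with hz
  have hQc : Nat.card (zpowers z) = q := by
    rw [Nat.card_zpowers, ho]
  have hQD : zpowers z ≤ sigmaCore M ⊓ centralizer (X : Set G) := zpowers_le.mpr hzD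
  have hqσM : q ∈ sigma M := piCoreOf_isPi (sigma M) M q hq (by
    rw [← hQc]
    exact Subgroup.card_dvd_of_le (hQD.trans inf_le_left))
  have hqσH : q ∉ sigma H := fun h => hdisj q h hqσM
  -- conjugate `z` into `N(A)` by an element of `W = C_{H_σ}(X)`
  set W := sigmaCore H ⊓ centralizer (X : Set G) with hW
  set V := (H ⊓ normalizer (A : Set G)) ⊓ normalizer (X : Set G) with hV
  have hWL : W ≤ normalizer (X : Set G) := inf_le_right.trans (centralizer_le_normalizer' X)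
  have hVL : V ≤ normalizer (X : Set G) := inf_le_right
  have hLs : Group.IsSolvable ↥(normalizer (X : Set G)) := IsMinSimpleOddOrder.isSolvable hG hNtop
  have hzL : z ∈ normalizer (X : Set G) := centralizer_le_normalizer' X hzD.2
  have hcov : ∀ l ∈ normalizer (X : Set G), ∃ w ∈ W, ∃ v ∈ V, l = w * v := by
    intro l hl
    obtain ⟨k, hk, hkC, v, hv, hvX, e⟩ := factor_of_core hσHn inf_le_left inf_le_right hAH T.inf_sigmaCore hXA T.exists_fac
      (hNX hl) hl
    exact ⟨k, ⟨hk, hkC⟩, v, ⟨hv, hvX⟩, e⟩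
  obtain ⟨g, hg, hle⟩ := exists_conj_le_of_cover (π := {q}) (L := normalizer (X : Set G)) (Y := zpowers z)
      (W := W) (V := V) hLs (zpowers_le.mpr hzL)
      (fun r hr hd => by
        rw [hQc] at hd
        exact (Nat.prime_dvd_prime_iff_eq hr hq).mp hd)
      hWL
      (fun r hr hd hrq => by
        rw [Set.mem_singleton_iff] at hrq
        subst hrq
        exact hqσH (piCoreOf_isPi (sigma H) H r hr (hd.trans (Subgroup.card_dvd_of_le inf_le_left))))
      hVL hcov
  obtain ⟨w, hw, a, ha, hga⟩ := hcov g hg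
  have hwH : w ∈ H := piCoreOf_le _ H hw.1
  have hzV : w⁻¹ * z * w ∈ V := by
    have h1 := hle (mem_zpowers z)
    rw [mem_conj_map, hga] at h1
    have h3 := (mem_normalizer_iff.mp (le_normalizer ha : a ∈ normalizer (V : Set G)) (a⁻¹ * (w⁻¹ * z * w) * a)).mp
    have h2 : a * (a⁻¹ * (w⁻¹ * z * w) * a) * a⁻¹ ∈ V := by
      apply h3
      convert h1 using 1
      group
    convert h2 using 1
    group
  set A₂ := A.map (MulAut.conj w).toMonoidHom with hA₂
  have hA₂H : A₂ ≤ H := by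
    rintro _ ⟨b, hb, rfl⟩
    exact H.mul_mem (H.mul_mem hwH (hAH hb)) (H.inv_mem hwH)
  have hA₂e : IsElementaryAbelian p A₂ := elem_conj_map hAe w
  have hA₂c : Nat.card A₂ = p ^ 2 := by
    rw [hA₂, Cfsg.Agent.Lib.Coprime.card_conj_map, hAc]
  have hXA₂ : X ≤ A₂ := by
    intro x hx
    rw [hA₂, mem_conj_map]
    have h6 := (mem_centralizer_iff.mp hw.2) x hx
    have e6 : w⁻¹ * x * w = x := by
      rw [mul_assoc, h6]
      group
    rw [e6]
    exact hXA hx
  have hzA₂ : z ∈ normalizer (A₂ : Set G) := by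
    rw [mem_normalizer_iff]
    intro b
    rw [hA₂, mem_conj_map, mem_conj_map]
    have h1 := mem_normalizer_iff.mp hzV.1.2 (w⁻¹ * b * w)
    rw [h1]
    have e : w⁻¹ * z * w * (w⁻¹ * b * w) * (w⁻¹ * z * w)⁻¹ = w⁻¹ * (z * b * z⁻¹) * w := by group
    rw [e]
  have hzH : z ∈ H := hNX hzL
  have T₂ : Tau2Setup p A₂ H := Tau2Setup.mk' hG huniq (fun r _ K hK => hpl13 hG r K hK) hH hA₂H hA₂e hA₂c hpH
  have hA₂p : IsPGroup p A₂ := IsPGroup.of_card (n := 2) hA₂c
  have hnc : ¬ zpowers z ≤ centralizer (A₂ : Set G) := by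
    intro h
    exact lemmaQ' hG hM hr hni hXM hC.hX hQc (hQD.trans inf_le_left) hA₂e hA₂c hXA₂
      (((le_centralizer_iff).mp h).trans (centralizer_le_normalizer' (zpowers z)))
  exact T_core hG IH hC hH hNX hpH T₂ hXA₂ hQc hQD (zpowers_le.mpr ⟨hzH, hzA₂⟩) hnc hqσH
    (prank_of_le hA₂H hr2) hA₂p

/-- **Theorem T**: If `Config(M,X,p)` holds and `N(X) ≤ H` is maximal, then `p ∈ σ(H)`. -/
theorem thmT (hG : IsMinSimpleOddOrder G) : ThmT G := by
  intro M X H p hp
  induction p using Nat.strong_induction_on generalizing M X H with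
  | _ p ih =>
    intro hC hH hNX
    haveI : Fact p.Prime := ⟨hp⟩
    exact thmT_step hG (fun M' X' H' p' hp' hlt hC' hH' hNX' => ih p' hlt M' X' H' hp' hC' hH' hNX') hC hH hNX

end Cfsg.Agent.Lib.FT
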