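import Cfsg.Agent.Lib.FT.BG17a

/-!
BG17: prime-order movers: basic facts, and the dichotomy in `C(R₀)`.  See `docs/BG17.md`.
-/

set_option autoImplicit false
set_option linter.unusedSectionVars false
set_option linter.style.haveILetI false

namespace Cfsg.Agent.Lib.FT

open Subgroup Cfsg Cfsg.Agent.Lib.OddLocal Cfsg.Agent.Lib.Basic

open Cfsg.Agent.Lib.Coprime (mem_conj_map conj_mem_conj_map conj_map_conj_map conj_map_one
  conj_map_mono mem_normalizer_of_conj_le conj_map_eq_iff_mem_normalizer isPGroup_conj_map)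

open scoped commutatorElement

variable {G : Type*} [Group G] [Finite G]

/-- A prime-order `R₀ ≤ M` normalizing but not centralizing `X`, for `Config M X p`. -/
structure Mover (M X R₀ : Subgroup G) (p r : ℕ) : Prop where
  hC : Config M X p
  hR₀ : Nat.card R₀ = r
  hRM : R₀ ≤ M
  hRN : R₀ ≤ normalizer (X : Set G)
  hnc : ¬ R₀ ≤ centralizer (X : Set G)

theorem Config.inf_sigma {M X : Subgroup G} {p : ℕ} [Fact p.Prime] (hC : Config M X p) : X ⊓ sigmaCore M = ⊥ := by
  have hpp : p.Prime := Fact.out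
  have hXp : IsPGroup p X := IsPGroup.of_card (n := 1) (by simpa using hC.hX)
  refine eq_bot_of_isPGroup_of_coprime (hXp.to_le inf_le_left) inf_le_right ?_
  refine Nat.Coprime.symm ((Nat.Prime.coprime_iff_not_dvd hpp).mpr fun hd => hC.hpσ ?_)
  exact piCoreOf_isPi (sigma M) M p hpp hd

theorem isPGroup_of_card_prime {Q : Subgroup G} {q : ℕ} (hQ : Nat.card Q = q) : IsPGroup q Q :=
  IsPGroup.of_card (n := 1) (by simpa using hQ)

/-- Primes of a join. -/
theorem prime_dvd_sup {A B : Subgroup G} (hAB : A ≤ normalizer (B : Set G)) {t : ℕ} (ht : t.Prime)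
    (hd : t ∣ Nat.card ↥(B ⊔ A)) : t ∣ Nat.card B ∨ t ∣ Nat.card A := by
  have h1 := card_sup_mul_card_inf hAB
  have h2 : t ∣ Nat.card B * Nat.card A := by
    rw [← h1]
    exact hd.trans (dvd_mul_right _ _)
  exact (Nat.Prime.dvd_mul ht).mp h2

/-- Prime order subgroups moved: fixed point freeness. -/
theorem fpf_of_card_prime {R₀ U : Subgroup G} {r u : ℕ} (hr : r.Prime) (hu : u.Prime) (hR₀ : Nat.card R₀ = r) (hU : Nat.card U = u)
    (hnc : ¬ R₀ ≤ centralizer (U : Set G)) {y : G} (hy : y ∈ R₀) (hy1 : y ≠ 1) {v : G} (hv : v ∈ U) (hyv : y * v = v * y) : v = 1 := by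
  by_contra hv1
  apply hnc
  have hyg : R₀ = zpowers y := by
    haveI : Fact r.Prime := ⟨hr⟩
    exact eq_zpowers_of_card_prime hR₀ hy hy1
  have hug : U = zpowers v := by
    haveI : Fact u.Prime := ⟨hu⟩
    exact eq_zpowers_of_card_prime hU hv hv1
  rw [hyg, hug]
  intro t ht
  rw [mem_centralizer_iff]
  intro w hw
  obtain ⟨i, rfl⟩ := mem_zpowers_iff.mp ht
  obtain ⟨j, rfl⟩ := mem_zpowers_iff.mp hw
  have hcomm : Commute y v := hyv
  exact ((hcomm.symm.zpow_zpow j i)).eq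

/-- A conjugate of a subgroup centralizing `U` by an element centralizing `U` centralizes `U`. -/
theorem conj_le_centralizer {T U : Subgroup G} (hT : T ≤ centralizer (U : Set G)) {c : G} (hc : c ∈ centralizer (U : Set G)) :
    T.map (MulAut.conj c).toMonoidHom ≤ centralizer (U : Set G) := by
  rintro _ ⟨t, ht, rfl⟩
  exact (centralizer (U : Set G)).mul_mem ((centralizer (U : Set G)).mul_mem hc (hT ht)) ((centralizer (U : Set G)).inv_mem hc)

/-- Order of a conjugate is a conjugate: subgroups of prime order in `M`, with `r_p(M) ≤ 1`, are conjugate in `M`. -/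
theorem conj_of_card_of_prank {M X Z : Subgroup G} {p : ℕ} [Fact p.Prime] (hG : IsMinSimpleOddOrder G) (hr : PRankLE p 1 ↥M)
    (hX : Nat.card X = p) (hZ : Nat.card Z = p) (hXM : X ≤ M) (hZM : Z ≤ M) : ∃ g ∈ M, X.map (MulAut.conj g).toMonoidHom = Z := by
  obtain ⟨P, hP, hZP⟩ := exists_isMaxP_ge hZM (isPGroup_of_card_prime hZ)
  obtain ⟨g, hg, hle⟩ := hP.exists_conj_le hXM (isPGroup_of_card_prime hX)
  refine ⟨g, hg, ?_⟩
  have hc : IsCyclic P := cyclic_of_prank_one hG hr hP.isP hP.le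
  refine Cfsg.Agent.Lib.OddLocal.eq_of_card_eq_of_le_isCyclic hc hle hZP ?_
  rw [Cfsg.Agent.Lib.Coprime.card_conj_map, hX, hZ]

/-- `M ≤ N(M_σ ⊔ X)`. -/
theorem le_normalizer_sup_of_compl {M E X : Subgroup G} (hE : IsComplIn E (sigmaCore M) M) (hEX : E ≤ normalizer (X : Set G)) :
    M ≤ normalizer ((sigmaCore M ⊔ X : Subgroup G) : Set G) := by
  intro m hm
  obtain ⟨a, ha, b, hb, rfl⟩ := hE.2.2.2 m hm
  have hσn : M ≤ normalizer (sigmaCore M : Set G) := le_normalizer_piCoreOf (sigma M) M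
  refine (normalizer ((sigmaCore M ⊔ X : Subgroup G) : Set G)).mul_mem ?_ ?_
  · rw [← conj_map_eq_iff_mem_normalizer, Subgroup.map_sup, (conj_map_eq_iff_mem_normalizer _ a).mpr (hσn (hE.1 ha)),
      (conj_map_eq_iff_mem_normalizer _ a).mpr (hEX ha)]
  · exact le_normalizer (mem_sup_left hb)

/-- `X` is a Hall `{p}`-subgroup of `M_σ ⊔ X`. -/
theorem Config.isHall_sup {M X : Subgroup G} {p : ℕ} [Fact p.Prime] (hC : Config M X p) :
    IsPiHallOf {p} X (sigmaCore M ⊔ X) := by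
  classical
  have hpp : p.Prime := Fact.out
  have hσn : M ≤ normalizer (sigmaCore M : Set G) := le_normalizer_piCoreOf (sigma M) M
  refine ⟨le_sup_right, fun t ht hd => ?_, fun t ht htp hd => ?_⟩
  · rw [hC.hX] at hd
    exact (Nat.prime_dvd_prime_iff_eq ht hpp).mp hd
  · rw [Set.mem_singleton_iff] at htp
    subst htp
    have h1 := card_sup_mul_card_inf (hC.hXM.trans hσn)
    have h2 : sigmaCore M ⊓ X = ⊥ := by
      rw [inf_comm]
      exact hC.inf_sigma
    rw [h2] at h1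
    simp only [Subgroup.card_bot, mul_one] at h1
    have h3 := Cfsg.Agent.Lib.Coprime.card_mul_relIndex (le_sup_right : X ≤ sigmaCore M ⊔ X)
    rw [h1, hC.hX, mul_comm] at h3
    have hp0 : 0 < t := hpp.pos
    have h4 : Nat.card (sigmaCore M) = X.relIndex (sigmaCore M ⊔ X) := Nat.eq_of_mul_eq_mul_left hp0 (by
      rw [mul_comm] at h3
      rw [mul_comm]
      linarith)
    rw [← h4] at hd
    exact hC.hpσ (piCoreOf_isPi (sigma M) M t hpp hd)

/-- Transport of Hall property along equality of cardinalities. -/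
theorem isPiHallOf_of_card {π : Set ℕ} {X Z K : Subgroup G} (hX : IsPiHallOf π X K) (hZ : Z ≤ K) (hc : Nat.card Z = Nat.card X) :
    IsPiHallOf π Z K := by
  refine ⟨hZ, fun t ht hd => hX.2.1 t ht (hc ▸ hd), fun t ht htp hd => hX.2.2 t ht htp ?_⟩
  have h1 := Cfsg.Agent.Lib.Coprime.card_mul_relIndex hZ
  have h2 := Cfsg.Agent.Lib.Coprime.card_mul_relIndex hX.1
  rw [hc] at h1
  have h3 : Z.relIndex K = X.relIndex K := Nat.eq_of_mul_eq_mul_left Nat.card_pos (h1.trans h2.symm)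
  rwa [← h3]

theorem ord_conj_bg17 (c x : G) : orderOf (c * x * c⁻¹) = orderOf x := by
  have := orderOf_injective (MulAut.conj c).toMonoidHom (MulAut.conj c).injective x
  simpa [MulAut.conj_apply] using this

/-- A nontrivial `t`-group has an element of order `t`. -/
theorem exists_orderOf_of_isPGroup {t : ℕ} [Fact t.Prime] {W : Subgroup G} (hW : IsPGroup t W) (h1 : W ≠ ⊥) : ∃ y ∈ W, orderOf y = t := by
  have htt : t.Prime := Fact.out
  have hd : t ∣ Nat.card W := by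
    obtain ⟨k, hk⟩ := IsPGroup.iff_card.mp hW
    have hk0 : k ≠ 0 := by
      rintro rfl
      rw [pow_zero] at hk
      exact h1 ((Subgroup.card_eq_one).mp hk)
    rw [hk]
    exact dvd_pow_self t hk0
  obtain ⟨g₀, hg₀⟩ := exists_prime_orderOf_dvd_card' (G := ↥W) t hd
  refine ⟨g₀, g₀.2, ?_⟩
  rw [Subgroup.orderOf_coe, hg₀]

namespace Mover

variable {M X R₀ : Subgroup G} {p r : ℕ} [Fact p.Prime] [Fact r.Prime]

theorem exists_gen (R : Mover M X R₀ p r) : ∃ a ∈ R₀, a ∉ centralizer (X : Set G) := by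
  by_contra h
  push Not at h
  exact R.hnc (fun a ha => h a ha)

theorem dvd_pred (R : Mover M X R₀ p r) : r ∣ p - 1 := by
  obtain ⟨a, ha, hac⟩ := R.exists_gen
  have h1 : a ^ r ^ 1 = 1 := by
    rw [pow_one]
    have := Subgroup.orderOf_dvd_natCard R₀ ha
    rw [R.hR₀] at this
    exact orderOf_dvd_iff_pow_eq_one.mp this
  exact prime_dvd_pred_of_moves Fact.out R.hC.hX (R.hRN ha) h1 hac

theorem lt (R : Mover M X R₀ p r) : r < p := by
  have hpp : p.Prime := Fact.out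
  have h1 := Nat.le_of_dvd (by have := hpp.one_lt; omega) R.dvd_pred
  have := hpp.one_lt
  omega

theorem ne (R : Mover M X R₀ p r) : r ≠ p := R.lt.ne

theorem tau3 (R : Mover M X R₀ p r) : p ∈ tau3 M := by
  obtain ⟨a, haR, haC⟩ := R.exists_gen
  have hpp : p.Prime := Fact.out
  have haM := R.hRM haR
  have haX := R.hRN haR
  obtain ⟨x, hx, hxa⟩ : ∃ x ∈ X, a * x * a⁻¹ * x⁻¹ ≠ 1 := by
    by_contra hcon
    push Not at hcon
    apply haC
    rw [mem_centralizer_iff]
    intro x hx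
    have h5 : a * x * a⁻¹ = x := mul_inv_eq_one.mp (hcon x hx)
    calc x * a = a * x * a⁻¹ * a := by rw [h5]
      _ = _ := by group
  have hwX : a * x * a⁻¹ * x⁻¹ ∈ X := X.mul_mem ((mem_normalizer_iff.mp haX x).mp hx) (X.inv_mem hx)
  have hwo : orderOf (a * x * a⁻¹ * x⁻¹) = p := orderOf_eq_of_card_prime hpp R.hC.hX hwX hxa
  have hpd : p ∣ Nat.card ↥⁅M, M⁆ := by
    rw [← hwo]
    refine Subgroup.orderOf_dvd_natCard _ ?_
    have := Subgroup.commutator_mem_commutator haM (R.hC.hXM hx)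
    rwa [commutatorElement_def] at this
  exact ⟨hpp, R.hC.hpσ, hpd, R.hC.hr⟩

theorem not_sigma (R : Mover M X R₀ p r) (hG : IsMinSimpleOddOrder G) : r ∉ sigma M := by
  intro h
  have hz : R₀ ≤ sigmaCore M := le_sigmaCore_of_isPGroup hG (huniq13 hG) R.hC.hM h (isPGroup_of_card_prime R.hR₀) R.hRM
  obtain ⟨a, haR, haC⟩ := R.exists_gen
  exact haC (mem_centralizer_of_norm_of_inf (hz haR) (R.hRN haR) (R.hC.hXM.trans (le_normalizer_piCoreOf (sigma M) M)) R.hC.inf_sigma)

/-- A complement through `X ⊔ R₀`. -/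
theorem exists_compl (R : Mover M X R₀ p r) (hG : IsMinSimpleOddOrder G) :
    ∃ E : Subgroup G, IsComplIn E (sigmaCore M) M ∧ X ≤ E ∧ R₀ ≤ E ∧ E ≤ normalizer (X : Set G) := by
  classical
  have hpp : p.Prime := Fact.out
  have hrr : r.Prime := Fact.out
  obtain ⟨E, hE, hYE⟩ := exists_compl_sigma_ge (Y := X ⊔ R₀) hG R.hC.hM (sup_le R.hC.hXM R.hRM) (fun t ht hd => by
    rcases prime_dvd_sup R.hRN ht hd with h3 | h3
    · rw [R.hC.hX] at h3
      rw [(Nat.prime_dvd_prime_iff_eq ht hpp).mp h3]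
      exact R.hC.hpσ
    · rw [R.hR₀] at h3
      rw [(Nat.prime_dvd_prime_iff_eq ht hrr).mp h3]
      exact R.not_sigma hG)
  have hXE : X ≤ E := le_sup_left.trans hYE
  exact ⟨E, hE, hXE, le_sup_right.trans hYE, normal_of_tau3 hG R.hC.hM hE R.tau3 hXE R.hC.hX⟩

/-- `r_r(M) ≤ 1`. -/
theorem prank (R : Mover M X R₀ p r) (hG : IsMinSimpleOddOrder G) : PRankLE r 1 ↥M := by
  classical
  by_contra hr
  have hpp : p.Prime := Fact.out
  have hrr : r.Prime := Fact.out
  have huniq := huniq13 hG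
  obtain ⟨E, hE, hXE, hRE, hEX⟩ := R.exists_compl hG
  have hrσ := R.not_sigma hG
  obtain ⟨P, hP, hRP⟩ := exists_isMaxP_ge hRE (isPGroup_of_card_prime R.hR₀)
  have hPM : IsMaxP r P M := hP.of_compl hG huniq R.hC.hM hE hrσ
  have hPnc : ¬ IsCyclic P := fun h => hr (hPM.prank_of (prank_one_of_cyclic h))
  obtain ⟨A', hA'P, hA'e, hA'c⟩ := exists_e2_of_not_cyclic hG hP.isP hPnc
  have T' : Tau2Setup r A' M := Tau2Setup.mk' hG huniq (fun t _ K hK => hpl13 hG t K hK) R.hC.hM (hA'P.trans hPM.le) hA'e hA'c hrσ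
  have hA'E : A' ≤ E := hA'P.trans hP.le
  have hA'X : A' ≤ centralizer (X : Set G) := by
    refine comm_of_norm_norm (hA'E.trans hEX) (hXE.trans (T'.compl_le_normalizer hE hA'E)) ?_
    refine eq_bot_of_isPGroup_of_coprime (T'.S.hAp.to_le inf_le_left) (inf_le_right : A' ⊓ X ≤ X) ?_
    rw [R.hC.hX]
    exact (Nat.coprime_primes hpp hrr).mpr R.ne.symm
  apply R.hnc
  intro x hx
  refine hA'X ?_
  rw [← T'.omega_iff hPM hA'P (hRP hx)]
  have h1 : ((⟨x, hx⟩ : R₀) : G) ^ Nat.card R₀ = 1 := by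
    rw [← Subgroup.coe_pow, pow_card_eq_one']
    rfl
  rwa [R.hR₀] at h1

/-- `M_σ` is not centralized by `X`. -/
theorem not_le_centralizer (R : Mover M X R₀ p r) (hG : IsMinSimpleOddOrder G) {H : Subgroup G} (P : Partner M H X p) :
    ¬ sigmaCore M ≤ centralizer (X : Set G) := by
  intro h
  obtain ⟨E, hE, -, -, hEX⟩ := R.exists_compl hG
  have hMH : M ≤ H := by
    intro m hm
    obtain ⟨a, ha, b, hb, rfl⟩ := hE.2.2.2 m hm
    exact H.mul_mem (P.hN (hEX ha)) (P.centralizer_le (h hb))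
  exact P.ne ((IsCoatom.le_iff_eq P.hC.hM P.hH.1).mp hMH)

/-- `X ⊔ R₀` acts coprimely on `M_σ`. -/
theorem coprimeAction (R : Mover M X R₀ p r) (hG : IsMinSimpleOddOrder G) :
    Cfsg.Agent.Lib.Coprime.CoprimeAction (X ⊔ R₀) (sigmaCore M) := by
  classical
  have hpp : p.Prime := Fact.out
  have hrr : r.Prime := Fact.out
  have hM := R.hC.hM
  have hσM : sigmaCore M ≤ M := piCoreOf_le _ M
  have hσt : sigmaCore M ≠ ⊤ := fun h => hM.1 (top_le_iff.1 (h ▸ hσM))
  have hσs : Group.IsSolvable ↥(sigmaCore M) := IsMinSimpleOddOrder.isSolvable hG hσt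
  have hcop : (Nat.card ↥(X ⊔ R₀)).Coprime (Nat.card (sigmaCore M)) := by
    refine Nat.coprime_of_dvd fun t ht h1 h2 => ?_
    have htσ : t ∈ sigma M := piCoreOf_isPi (sigma M) M t ht h2
    rcases prime_dvd_sup R.hRN ht h1 with h5 | h5
    · rw [R.hC.hX] at h5
      rw [(Nat.prime_dvd_prime_iff_eq ht hpp).mp h5] at htσ
      exact R.hC.hpσ htσ
    · rw [R.hR₀] at h5
      rw [(Nat.prime_dvd_prime_iff_eq ht hrr).mp h5] at htσ
      exact R.not_sigma hG htσ
  exact ⟨(sup_le R.hC.hXM R.hRM).trans (le_normalizer_piCoreOf (sigma M) M), hcop, Or.inr hσs⟩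

/-- A prime Sylow-level moved subgroup with a fixed element. -/
theorem exists_moved (R : Mover M X R₀ p r) (hG : IsMinSimpleOddOrder G) {H : Subgroup G} (P : Partner M H X p) :
    ∃ t : ℕ, t.Prime ∧ ∃ (T : Subgroup G) (y : G), IsPiHallOf {t} T (sigmaCore M) ∧ X ≤ normalizer (T : Set G) ∧
      R₀ ≤ normalizer (T : Set G) ∧ ¬ T ≤ centralizer (X : Set G) ∧ y ∈ sigmaCore M ∧ y ∈ centralizer (R₀ : Set G) ∧ orderOf y = t := by
  classical
  have hpp : p.Prime := Fact.out
  have hrr : r.Prime := Fact.out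
  have hca := R.coprimeAction hG
  have hM := R.hC.hM
  have hσM : sigmaCore M ≤ M := piCoreOf_le _ M
  have hσt : sigmaCore M ≠ ⊤ := fun h => hM.1 (top_le_iff.1 (h ▸ hσM))
  have hσs : Group.IsSolvable ↥(sigmaCore M) := IsMinSimpleOddOrder.isSolvable hG hσt
  have hex : ∃ t : ℕ, t.Prime ∧ ∃ T : Subgroup G, IsPiHallOf {t} T (sigmaCore M) ∧ X ⊔ R₀ ≤ normalizer (T : Set G) ∧
      ¬ T ≤ centralizer (X : Set G) := by
    by_contra hcon
    push Not at hcon
    apply R.not_le_centralizer hG P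
    have h1 : (sigmaCore M ⊓ centralizer (X : Set G)).relIndex (sigmaCore M) = 1 := by
      by_contra hne
      obtain ⟨t, ht, hd⟩ := Nat.exists_prime_and_dvd hne
      haveI := Fact.mk ht
      obtain ⟨T, hT, hA, -⟩ := Cfsg.Agent.Lib.Coprime.exists_invariant_hall {t} _ hca hσs rfl (U := ⊥) bot_le
        (fun a _ => by
          rw [mem_normalizer_iff]
          intro z
          simp) (fun t ht hd => by
          simp at hd
          exact absurd hd ht.one_lt.ne')
      have hle := hcon t ht T hT hA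
      exact not_dvd_relIndex_of_isMaxP (isMaxP_of_isPiHallOf hT).1 (le_inf hT.1 hle) hd
    exact (Subgroup.relIndex_eq_one.mp h1).trans inf_le_right
  obtain ⟨t, ht, T, hT, hA, hnc⟩ := hex
  haveI := Fact.mk ht
  obtain ⟨hTm, hTp⟩ := isMaxP_of_isPiHallOf hT
  have hT1 : T ≠ ⊥ := by
    rintro rfl
    exact hnc bot_le
  have htσ : t ∈ sigma M := by
    refine piCoreOf_isPi (sigma M) M t ht ?_
    obtain ⟨a, ha⟩ := (Subgroup.ne_bot_iff_exists_ne_one).mp hT1
    have h1 : orderOf (a : G) ≠ 1 := fun h => ha (Subtype.ext (orderOf_eq_one_iff.mp h))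
    obtain ⟨k, hk⟩ := IsPGroup.iff_card.mp (hTp)
    have hk0 : k ≠ 0 := by
      rintro rfl
      rw [pow_zero] at hk
      apply ha
      exact Subtype.ext ((Nat.card_eq_one_iff_unique.mp hk).1.elim a 1 ▸ rfl)
    have h2 : t ∣ Nat.card T := by
      rw [hk]
      exact dvd_pow_self t hk0
    exact h2.trans (Subgroup.card_dvd_of_le hT.1)
  have htp : t ≠ p := fun h => R.hC.hpσ (h ▸ htσ)
  have htr : t ≠ r := fun h => R.not_sigma hG (h ▸ htσ)
  have hfr := frob_commutator_fixed (q := t) hTp (le_sup_left.trans hA) (le_sup_right.trans hA) R.hRN (by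
      rw [R.hC.hX]
      exact (Nat.coprime_primes hpp ht).mpr htp.symm) (by
      rw [R.hR₀]
      exact hrr) (by
      rw [R.hR₀]
      exact (Nat.coprime_primes hrr ht).mpr htr.symm)
      (fun y hy hy1 u hu hyu => fpf_of_card_prime hrr hpp R.hR₀ R.hC.hX R.hnc hy hy1 hu hyu) hnc
  have hWp : IsPGroup t ↥(⁅T, X⁆ ⊓ centralizer (R₀ : Set G)) :=
    hTp.to_le (inf_le_left.trans (commutator_le_of_le_normalizer (le_sup_left.trans hA)))
  obtain ⟨y, hy, hyo⟩ := exists_orderOf_of_isPGroup hWp hfr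
  have hyT : y ∈ T := commutator_le_of_le_normalizer (le_sup_left.trans hA) hy.1
  exact ⟨t, ht, T, y, hT, le_sup_left.trans hA, le_sup_right.trans hA, hnc, hT.1 hyT, hy.2, hyo⟩

end Mover

/-- A subgroup of prime order inside a group with cyclic `t`-subgroups and a normal `t`-subgroup is normal. -/
theorem normalizer_of_cyclic_of_normal {t : ℕ} [Fact t.Prime] {J V Z : Subgroup G} (hZ : Nat.card Z = t) (hZJ : Z ≤ J) (hVJ : V ≤ J)
    (hVn : J ≤ normalizer (V : Set G)) (hVp : IsPGroup t V) (hV1 : V ≠ ⊥) (hcyc : ∀ P : Subgroup G, IsPGroup t P → P ≤ J → IsCyclic P) :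
    J ≤ normalizer (Z : Set G) := by
  classical
  have htt : t.Prime := Fact.out
  obtain ⟨a, ha, hao⟩ := exists_orderOf_of_isPGroup hVp hV1
  have hAc : Nat.card (zpowers a) = t := by rw [Nat.card_zpowers, hao]
  obtain ⟨P, hP, hVP⟩ := exists_isMaxP_ge hVJ hVp
  have hPc : IsCyclic P := hcyc P hP.isP hP.le
  have hA : ∀ j ∈ J, (zpowers a).map (MulAut.conj j).toMonoidHom = zpowers a := by
    intro j hj
    refine Cfsg.Agent.Lib.OddLocal.eq_of_card_eq_of_le_isCyclic hPc ?_ ((zpowers_le.mpr ha).trans hVP) ?_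
    · rintro _ ⟨v, hv, rfl⟩
      apply hVP
      exact (mem_normalizer_iff.mp (hVn hj) v).mp ((zpowers_le.mpr ha) hv)
    · rw [Cfsg.Agent.Lib.Coprime.card_conj_map]
  obtain ⟨n, hn, hle⟩ := hP.exists_conj_le hZJ (isPGroup_of_card_prime hZ)
  have e : Z.map (MulAut.conj n).toMonoidHom = zpowers a := by
    refine Cfsg.Agent.Lib.OddLocal.eq_of_card_eq_of_le_isCyclic hPc hle ((zpowers_le.mpr ha).trans hVP) ?_
    rw [Cfsg.Agent.Lib.Coprime.card_conj_map, hZ, hAc]
  have e2 : Z = zpowers a := by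
    have h3 := congrArg (Subgroup.map (MulAut.conj n⁻¹).toMonoidHom) e
    rw [conj_map_conj_map, inv_mul_cancel, conj_map_one, hA _ (J.inv_mem hn)] at h3
    exact h3
  intro j hj
  rw [e2, ← conj_map_eq_iff_mem_normalizer]
  exact hA j hj

/-- **The dichotomy**: two primes with cyclic Sylow subgroups in a subgroup `C₀`. -/
theorem dichotomy {C₀ : Subgroup G} {t t' : ℕ} [Fact t.Prime] [Fact t'.Prime] (hG : IsMinSimpleOddOrder G) (hC₀ : C₀ ≠ ⊤)
    (htt' : t ≠ t') (hrt : ∀ P : Subgroup G, IsPGroup t P → P ≤ C₀ → IsCyclic P) (hrt' : ∀ P : Subgroup G, IsPGroup t' P → P ≤ C₀ → IsCyclic P)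
    {y y' : G} (hy : y ∈ C₀) (hy' : y' ∈ C₀) (hyo : orderOf y = t) (hy'o : orderOf y' = t') :
    ∃ c ∈ C₀, c * y' * c⁻¹ ∈ normalizer (zpowers y : Set G) ∨ y ∈ normalizer (zpowers (c * y' * c⁻¹) : Set G) := by
  classical
  have htt : t.Prime := Fact.out
  have htt2 : t'.Prime := Fact.out
  have hs : Group.IsSolvable ↥C₀ := IsMinSimpleOddOrder.isSolvable hG hC₀
  obtain ⟨J₀, hJ₀⟩ := exists_isPiHallOf_solvable {t, t'} hs
  have hz : ∀ z : G, (orderOf z = t ∨ orderOf z = t') → ∀ r : ℕ, r.Prime → r ∣ Nat.card (zpowers z) → r ∈ ({t, t'} : Set ℕ) := by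
    intro z hz r hr hd
    rw [Nat.card_zpowers] at hd
    rcases hz with h | h
    · rw [h] at hd
      exact Or.inl ((Nat.prime_dvd_prime_iff_eq hr htt).mp hd)
    · rw [h] at hd
      exact Or.inr ((Nat.prime_dvd_prime_iff_eq hr htt2).mp hd)
  obtain ⟨g, hg, hle⟩ := IsPiHallOf.exists_conj_ge hs hJ₀ (zpowers_le.mpr hy) (hz y (Or.inl hyo))
  have hJ := IsPiHallOf.conj_in hJ₀ hg
  set J := J₀.map (MulAut.conj g).toMonoidHom with hJdef
  obtain ⟨h, hh, hle2⟩ := IsPiHallOf.exists_conj_ge hs hJ (zpowers_le.mpr hy') (hz y' (Or.inr hy'o))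
  have hy'J : h⁻¹ * y' * h ∈ J := by
    have h3 := hle2 (mem_zpowers y')
    rw [mem_conj_map] at h3
    exact h3
  refine ⟨h⁻¹, C₀.inv_mem hh, ?_⟩
  rw [inv_inv]
  set y'' := h⁻¹ * y' * h with hy''
  have hy''o : orderOf y'' = t' := by
    rw [hy'', ← hy'o]
    have e : h⁻¹ * y' * h = h⁻¹ * y' * (h⁻¹)⁻¹ := by group
    rw [e]
    exact ord_conj_bg17 _ _
  have hyJ : y ∈ J := hle (mem_zpowers y)
  have hJC : J ≤ C₀ := hJ.1
  haveI : Group.IsSolvable ↥J := by
    haveI := hs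
    exact solvable_of_solvable_injective (f := Subgroup.inclusion hJC) (Subgroup.inclusion_injective hJC)
  haveI : Nontrivial ↥J := by
    refine ⟨⟨⟨y, hyJ⟩, 1, fun e => ?_⟩⟩
    have : y = 1 := congrArg Subtype.val e
    rw [this, orderOf_one] at hyo
    exact htt.one_lt.ne hyo
  obtain ⟨s, hs', R, hRn, hR1, hRp⟩ := Cfsg.Agent.Lib.Coprime.exists_normal_pGroup_of_solvable ↥J
  set V := R.map J.subtype with hV
  have hVJ : V ≤ J := Subgroup.map_subtype_le _
  have hVn : J ≤ normalizer (V : Set G) := by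
    intro j hj
    apply mem_normalizer_of_conj_le
    rintro _ ⟨e, he, rfl⟩
    exact ⟨_, hRn.conj_mem e he ⟨j, hj⟩, by simp⟩
  have hVp : IsPGroup s V := hRp.map J.subtype
  have hV1 : V ≠ ⊥ := by
    intro h
    apply hR1
    exact (Subgroup.map_eq_bot_iff_of_injective _ J.subtype_injective).mp h
  have hsd : s ∣ Nat.card V := by
    haveI := Fact.mk hs'
    obtain ⟨a, ha, hao⟩ := exists_orderOf_of_isPGroup hVp hV1
    rw [← hao]
    exact Subgroup.orderOf_dvd_natCard V ha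
  have hsπ := hJ.2.1 s hs' (hsd.trans (Subgroup.card_dvd_of_le hVJ))
  have hzyc : Nat.card (zpowers y) = t := by rw [Nat.card_zpowers, hyo]
  have hzy'c : Nat.card (zpowers y'') = t' := by rw [Nat.card_zpowers, hy''o]
  rcases hsπ with rfl | hs2
  · left
    exact normalizer_of_cyclic_of_normal hzyc (zpowers_le.mpr hyJ) hVJ hVn hVp hV1 (fun P hP hPJ => hrt P hP (hPJ.trans hJC)) hy'J
  · right
    have hs3 : s = t' := hs2
    subst hs3
    exact normalizer_of_cyclic_of_normal hzy'c (zpowers_le.mpr hy'J) hVJ hVn hVp hV1 (fun P hP hPJ => hrt' P hP (hPJ.trans hJC)) hyJ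

end Cfsg.Agent.Lib.FT
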