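import Cfsg.Agent.Lib.FT.BG15i
import Cfsg.Agent.Lib.FT.BG17b

/-!
BG16: Theorem B, first part.  (`docs/BG15.md`).
-/

set_option autoImplicit false
set_option linter.unusedSectionVars false
set_option linter.style.haveILetI false

namespace Cfsg.Agent.Lib.FT

open Subgroup Cfsg Cfsg.Agent.Lib.OddLocal Cfsg.Agent.Lib.Basic

open Cfsg.Agent.Lib.Coprime (mem_conj_map conj_mem_conj_map conj_map_conj_map conj_map_one
  conj_map_mono mem_normalizer_of_conj_le conj_map_eq_iff_mem_normalizer isPGroup_conj_map)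

open scoped commutatorElement

variable {G : Type*} [Group G] [Finite G]

/-- **L1**, without Theorem B. -/
theorem prank_one_of {M H X Q : Subgroup G} {p q : ℕ} [Fact p.Prime] [Fact q.Prime] (hG : IsMinSimpleOddOrder G) (hC : Config M X p)
    (hH : IsCoatom H) (hN : normalizer (X : Set G) ≤ H) (hpH : p ∈ sigma H) (hQ : Nat.card Q = q)
    (hQD : Q ≤ sigmaCore M ⊓ centralizer (X : Set G)) (hqσH : q ∉ sigma H) : PRankLE q 1 ↥H := by
  classical
  have hqq : q.Prime := Fact.out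
  have huniq := huniq13 hG
  have hpp : p.Prime := hpH.1
  by_contra hr
  have hqσM : q ∈ sigma M := piCoreOf_isPi (sigma M) M q hqq (by
    rw [← hQ]
    exact Subgroup.card_dvd_of_le (hQD.trans inf_le_left))
  have hr2 : PRankLE q 2 ↥H := by
    by_contra h
    exact hqσH (alpha_sub_sigma hG huniq hH ⟨hqq, h⟩)
  have hτ : q ∈ tau2 H := ⟨hqq, hqσH, hr2, hr⟩
  obtain ⟨x, hx, hx1⟩ := exists_ne_one_of_card_prime hqq hQ
  have hxo : orderOf x = q := orderOf_eq_of_card_prime hqq hQ hx hx1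
  have hCN : centralizer (X : Set G) ≤ H := (centralizer_le_normalizer' X).trans hN
  have hQH : Q ≤ H := hQD.trans (inf_le_right.trans hCN)
  obtain ⟨y, hy, hy1⟩ := exists_ne_one_of_card_prime hpp hC.hX
  have hXp : IsPGroup p X := isPGroup_of_card_prime hC.hX
  have hXσ : X ≤ sigmaCore H := le_sigmaCore_of_isPGroup hG huniq hH hpH hXp (le_normalizer.trans hN)
  have hxσ : x ∈ sigmaHat H := by
    refine ⟨hQH hx, y, hXσ hy, hy1, ?_⟩
    have := mem_centralizer_iff.mp (hQD hx).2 y hy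
    exact this.symm
  obtain ⟨hC1, hC2⟩ := s1420_d hG huniq (fun r _ K hK => hpl13 hG r K hK) hH (hQH hx) hx1 (fun t ht hd => by
    rw [hxo] at hd
    rw [(Nat.prime_dvd_prime_iff_eq ht hqq).mp hd]
    exact hτ) hxσ
  have hQz : Q = zpowers x := eq_zpowers_of_card_prime hQ hx hx1
  have hQ1 : Q ≠ ⊥ := ne_bot_of_card_prime hqq hQ
  have hM := hC.hM
  have hQM : Q ≤ M := hQD.trans (inf_le_left.trans (piCoreOf_le _ M))
  have hQt : Q ≠ ⊤ := fun h => hM.1 (top_le_iff.1 (h ▸ hQM))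
  obtain ⟨H', hH', hNH'⟩ := (eq_top_or_exists_le_coatom (normalizer (Q : Set G))).resolve_left
    (IsMinSimpleOddOrder.normalizer_ne_top hG hQ1 hQt)
  have hCH' : centralizer ({x} : Set G) ≤ H' := by
    refine le_trans ?_ hNH'
    rw [hQz]
    exact cent_le_norm x
  have e := hC2 H' hH' hCH'
  subst e
  have hne : H' ≠ M := by
    rintro rfl
    exact hC.hpσ hpH
  obtain ⟨_, _, -, -, h3, -⟩ := thmD_not_sigma hG hM hqσM hQ hQM hH hne hNH' hqσH
  have h4 : y ∈ sigmaCore H' ⊓ M := ⟨hXσ hy, hC.hXM hy⟩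
  rw [h3, mem_bot] at h4
  exact hy1 h4

/-- The Sylow subgroups of a nilpotent subgroup are normal. -/
theorem le_normalizer_of_nilpotent {q : ℕ} [Fact q.Prime] {K S : Subgroup G} (hK : Group.IsNilpotent ↥K) (hS : IsMaxP q S K) :
    K ≤ normalizer (S : Set G) := by
  classical
  have hn : (hS.toSylow : Subgroup ↥K).Normal := Sylow.normal_of_normalizerCondition normalizerCondition_of_isNilpotent hS.toSylow
  intro k hk
  apply mem_normalizer_of_conj_le
  intro s hs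
  have h1 : (⟨s, hS.le hs⟩ : ↥K) ∈ (hS.toSylow : Subgroup ↥K) := by
    change (⟨s, hS.le hs⟩ : ↥K) ∈ S.subgroupOf K
    simpa [Subgroup.mem_subgroupOf] using hs
  have h2 := hn.conj_mem _ h1 ⟨k, hk⟩
  have h3 : ((⟨k, hk⟩ : ↥K) * ⟨s, hS.le hs⟩ * (⟨k, hk⟩ : ↥K)⁻¹ : ↥K) ∈ S.subgroupOf K := h2
  simpa [Subgroup.mem_subgroupOf] using h3

/-- A subgroup of `M` with primes in `π` lies in a normal Hall `π`-subgroup. -/
theorem le_hall_of_primes {π : Set ℕ} {M H Y : Subgroup G} (hG : IsMinSimpleOddOrder G) (hM : IsCoatom M) (hH : IsPiHallOf π H M)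
    (hn : M ≤ normalizer (H : Set G)) (hYM : Y ≤ M) (hY : ∀ t : ℕ, t.Prime → t ∣ Nat.card Y → t ∈ π) : Y ≤ H := by
  obtain ⟨g, hg, hle⟩ := IsPiHallOf.exists_conj_ge (coatom_isSolvable hG hM) hH hYM hY
  rwa [(conj_map_eq_iff_mem_normalizer H g).mpr (hn hg)] at hle

/-- Conjugacy for primes in `σ` below a bound. -/
theorem conj_of_below {n : ℕ} (IH : ThmBBelow G n) {M L : Subgroup G} {q : ℕ} [Fact q.Prime] (hq : q < n) (hM : IsCoatom M) (hL : IsCoatom L)
    (hqM : q ∈ sigma M) (hqL : q ∈ sigma L) : ∃ c : G, L.map (MulAut.conj c).toMonoidHom = M := by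
  classical
  have hqp : q.Prime := Fact.out
  obtain ⟨S₂, hS₂L, hN₂⟩ := sigma_exists_sylow hqL
  obtain ⟨S₁, hS₁M, hN₁⟩ := sigma_exists_sylow hqM
  have h1 : IsMaxP q (S₁ : Subgroup G) ⊤ := ⟨le_top, S₁.isPGroup', fun D' _ h2 h3 => S₁.is_maximal' h2 h3⟩
  have h2 : IsMaxP q (S₂ : Subgroup G) ⊤ := ⟨le_top, S₂.isPGroup', fun D' _ h2 h3 => S₂.is_maximal' h2 h3⟩
  obtain ⟨c, -, e⟩ := h2.exists_conj_eq h1
  refine ⟨c, ?_⟩
  have hL' : IsCoatom (L.map (MulAut.conj c).toMonoidHom) := coatom_conj hL c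
  have hqL' : q ∈ sigma (L.map (MulAut.conj c).toMonoidHom) := sigma_conj_of_mem hqL c
  have hS₁L' : (S₁ : Subgroup G) ≤ L.map (MulAut.conj c).toMonoidHom := e ▸ conj_map_mono hS₂L c
  have hN₁L' : normalizer ((S₁ : Subgroup G) : Set G) ≤ L.map (MulAut.conj c).toMonoidHom := by
    rw [← e, normalizer_conj_map]
    exact conj_map_mono hN₂ c
  have hS1 : (S₁ : Subgroup G) ≠ ⊥ := by
    intro h
    have hd : q ∣ Nat.card G := hqM.2.1.trans (Subgroup.card_subgroup_dvd_card M)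
    have h3 := Sylow.dvd_card_of_dvd_card S₁ hd
    rw [h] at h3
    simp at h3
    exact hqp.one_lt.ne' h3
  exact IH M _ S₁ q hqp hq hM hL' hqM hqL' S₁.isPGroup' hS1 hS₁M hS₁L' hN₁ hN₁L'

/-- The configuration of Theorem B. -/
structure BData (M L S V : Subgroup G) (q : ℕ) : Prop where
  hM : IsCoatom M
  hL : IsCoatom L
  hne : L ≠ M
  hqM : q ∈ sigma M
  hqL : q ∈ sigma L
  hS : IsMaxP q S ⊤
  hS1 : S ≠ ⊥
  hSM : S ≤ M
  hSL : S ≤ L
  hNM : normalizer (S : Set G) ≤ M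
  hNL : normalizer (S : Set G) ≤ L
  hV : IsComplIn S V (normalizer (S : Set G))
  hVq : (Nat.card V).Coprime q

namespace BData

variable {M L S V : Subgroup G} {q : ℕ} [Fact q.Prime]

theorem symm (D : BData M L S V q) : BData L M S V q :=
  ⟨D.hL, D.hM, D.hne.symm, D.hqL, D.hqM, D.hS, D.hS1, D.hSL, D.hSM, D.hNL, D.hNM, D.hV, D.hVq⟩

theorem not_unique (D : BData M L S V q) (h : InUniqueMaximal S) : False :=
  D.hne (h.unique ⟨D.hL, D.hSL⟩ ⟨D.hM, D.hSM⟩)

theorem hab (D : BData M L S V q) (hG : IsMinSimpleOddOrder G) : IsMulCommutative S := by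
  by_contra hna
  exact D.not_unique (s1422_core (h1412_of hG) hG D.hS.isP hna)

theorem ne_top (D : BData M L S V q) : S ≠ ⊤ := fun h => D.hM.1 (top_le_iff.1 (h ▸ D.hSM))

theorem prank (D : BData M L S V q) (hG : IsMinSimpleOddOrder G) : PRankLE q 2 ↥S := by
  have hqq : q.Prime := Fact.out
  by_contra hr
  exact D.not_unique (huniq13 hG S D.ne_top (not_rankLE_of_not_prank hqq fun h => hr (prank_mono hqq.pos (by norm_num) h))
    (Or.inl (not_rankLE_of_not_prank hqq hr)))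

theorem prank_coatom (D : BData M L S V q) (hG : IsMinSimpleOddOrder G) (X : Subgroup G) : PRankLE q 2 ↥X := by
  have h1 : PRankLE q 2 ↥(⊤ : Subgroup G) := D.hS.prank_of (D.prank hG)
  exact prank_of_injective (Subgroup.inclusion (le_top : X ≤ ⊤)) (Subgroup.inclusion_injective _) h1

theorem not_beta (D : BData M L S V q) (hG : IsMinSimpleOddOrder G) (X : Subgroup G) : q ∉ beta X :=
  fun h => h.1.2 (D.prank_coatom hG X)

theorem le_sigma (D : BData M L S V q) (hG : IsMinSimpleOddOrder G) : S ≤ sigmaCore M :=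
  le_sigmaCore_of_isPGroup hG (huniq13 hG) D.hM D.hqM D.hS.isP D.hSM

theorem isMaxP_sigma (D : BData M L S V q) (hG : IsMinSimpleOddOrder G) : IsMaxP q S (sigmaCore M) :=
  ⟨D.le_sigma hG, D.hS.isP, fun D' _ h2 h3 => D.hS.max D' le_top h2 h3⟩

/-- If `L` is conjugate to `M`, then `L = M`. -/
theorem not_conj (D : BData M L S V q) {c : G} (e : M.map (MulAut.conj c).toMonoidHom = L) : False := by
  classical
  have h1 : IsMaxP q S L := ⟨D.hSL, D.hS.isP, fun D' _ h2 h3 => D.hS.max D' le_top h2 h3⟩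
  have h2 : IsMaxP q (S.map (MulAut.conj c).toMonoidHom) L := by
    refine ⟨e ▸ conj_map_mono D.hSM c, isPGroup_conj_map D.hS.isP c, fun D' _ h3 h4 => ?_⟩
    have h5 := (D.hS.conj c).max D' (by
      intro x _
      exact ⟨c⁻¹ * x * c, mem_top _, by simp [MulAut.conj_apply, mul_assoc]⟩) h3 h4
    exact h5
  obtain ⟨l, hl, e2⟩ := h2.exists_conj_eq h1
  rw [conj_map_conj_map] at e2
  have hm : l * c ∈ M := D.hNM ((conj_map_eq_iff_mem_normalizer S (l * c)).mp e2)
  apply D.hne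
  have e3 : L.map (MulAut.conj l).toMonoidHom = L := (conj_map_eq_iff_mem_normalizer L l).mpr (le_normalizer hl)
  rw [← e3, ← e, conj_map_conj_map]
  exact (conj_map_eq_iff_mem_normalizer M (l * c)).mpr (le_normalizer hm)

theorem not_nil (D : BData M L S V q) (hG : IsMinSimpleOddOrder G) : ¬ Group.IsNilpotent (sigmaCore M) := by
  intro hn
  obtain ⟨c, e⟩ := conj_of_sigma_nilpotent hG D.hL D.hM hn D.hqM D.hqL
  exact D.not_conj e

theorem rank_one (D : BData M L S V q) (hG : IsMinSimpleOddOrder G) {r : ℕ} [Fact r.Prime] (hr : r ∉ sigma M) : PRankLE r 1 ↥M := by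
  classical
  by_contra h
  obtain ⟨P, hP, -⟩ := exists_isMaxP_ge (T := ⊥) (N := M) (p := r) bot_le IsPGroup.of_bot
  have hPnc : ¬ IsCyclic P := fun hc => h (hP.prank_of (prank_one_of_cyclic hc))
  obtain ⟨A', hA'P, hA'e, hA'c⟩ := exists_e2_of_not_cyclic hG hP.isP hPnc
  have T' : Tau2Setup r A' M := Tau2Setup.mk' hG (huniq13 hG) (fun t _ K hK => hpl13 hG t K hK) D.hM (hA'P.trans hP.le) hA'e hA'c hr
  exact D.not_nil hG T'.nil

/-- Every subgroup of prime order of `M` outside `σ(M)` is in `Config`. -/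
theorem config (D : BData M L S V q) (hG : IsMinSimpleOddOrder G) {R₀ : Subgroup G} {r : ℕ} [Fact r.Prime] (hR₀ : Nat.card R₀ = r)
    (hrσ : r ∉ sigma M) (hRM : R₀ ≤ M) : Config M R₀ r := by
  classical
  have hrr : r.Prime := Fact.out
  refine ⟨D.hM, hrσ, D.rank_one hG hrσ, hR₀, hRM, ?_⟩
  obtain ⟨y, hy, hy1⟩ := exists_ne_one_of_card_prime hrr hR₀
  have hyo := orderOf_eq_of_card_prime hrr hR₀ hy hy1
  have hyp : y ^ r = 1 := by
    rw [← hyo]
    exact pow_orderOf_eq_one y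
  rw [eq_zpowers_of_card_prime hR₀ hy hy1, centralizer_zpowers_eq]
  intro hf
  exact D.not_nil hG (sigmaCore_nilpotent_of_fpf hrr (hRM hy) hyp hf)

end BData

end Cfsg.Agent.Lib.FT
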