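import Cfsg.Agent.Lib.FT.BG18c

/-!
BG18: `σ(M)`-subgroups of `G`; the cores of S1428, S1352-54, S1430, S1431.
-/

set_option autoImplicit false
set_option linter.unusedSectionVars false
set_option linter.style.haveILetI false

namespace Cfsg.Agent.Lib.FT

open Subgroup Cfsg Cfsg.Agent.Lib.OddLocal Cfsg.Agent.Lib.Basic

open Cfsg.Agent.Lib.Coprime (mem_conj_map conj_mem_conj_map conj_map_conj_map conj_map_one
  conj_map_mono mem_normalizer_of_conj_le conj_map_eq_iff_mem_normalizer isPGroup_conj_map)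

open scoped commutatorElement

variable {G : Type*} [Group G] [Finite G]

/-- A maximal `q`-subgroup is a Hall `{q}`-subgroup. -/
theorem isPiHallOf_of_isMaxP {q : ℕ} [Fact q.Prime] {S K : Subgroup G} (hS : IsMaxP q S K) : IsPiHallOf {q} S K := by
  have hqq : q.Prime := Fact.out
  refine ⟨hS.le, fun t ht hd => ?_, fun t ht htq hd => ?_⟩
  · obtain ⟨k, hk⟩ := IsPGroup.iff_card.mp hS.isP
    rw [hk] at hd
    exact (Nat.prime_dvd_prime_iff_eq ht hqq).mp (ht.dvd_of_dvd_pow hd)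
  · rw [Set.mem_singleton_iff] at htq
    subst htq
    exact not_dvd_relIndex_of_isMaxP hS le_rfl hd

/-- A complement of `M_σ` is a Hall subgroup. -/
theorem isPiHallOf_compl {M E : Subgroup G} (hG : IsMinSimpleOddOrder G) (hM : IsCoatom M) (hE : IsComplIn E (sigmaCore M) M) :
    IsPiHallOf {u | u ∉ sigma M} E M := by
  classical
  refine ⟨hE.1, fun t ht hd => compl_prime_not_sigma hG hM hE ht hd, fun t ht htσ hd => ?_⟩
  have e := IsComplIn_card_eq hE
  have e2 := Cfsg.Agent.Lib.Coprime.card_mul_relIndex hE.1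
  have e3 : E.relIndex M = Nat.card (sigmaCore M) := by
    rw [e] at e2
    exact Nat.eq_of_mul_eq_mul_left Nat.card_pos e2
  rw [e3] at hd
  exact htσ (piCoreOf_isPi (sigma M) M t ht hd)

namespace Partner

variable {M H X : Subgroup G} {p : ℕ} [Fact p.Prime]

/-- The Sylow subgroups of `M_σ` for primes of `C_{M_σ}(X)` lie in a unique maximal subgroup, and are not in `C(X)`. -/
theorem sylow_unique (hB : ThmB G) (hG : IsMinSimpleOddOrder G) (PX : Partner M H X p) {Q S : Subgroup G} {q : ℕ} [Fact q.Prime]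
    (hQ : Nat.card Q = q) (hQD : Q ≤ sigmaCore M ⊓ centralizer (X : Set G)) (hS : IsMaxP q S (sigmaCore M)) :
    InUniqueMaximal S ∧ ¬ S ≤ sigmaCore M ⊓ centralizer (X : Set G) := by
  classical
  have hpp : p.Prime := Fact.out
  have hqq : q.Prime := Fact.out
  have huniq := huniq13 hG
  have hC := PX.hC
  have hM := hC.hM
  have hσM : sigmaCore M ≤ M := piCoreOf_le _ M
  have hσn : M ≤ normalizer (sigmaCore M : Set G) := le_normalizer_piCoreOf (sigma M) M
  have hσt : sigmaCore M ≠ ⊤ := fun h => hM.1 (top_le_iff.1 (h ▸ hσM))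
  have hσs : Group.IsSolvable ↥(sigmaCore M) := IsMinSimpleOddOrder.isSolvable hG hσt
  have hQσ : Q ≤ sigmaCore M := hQD.trans inf_le_left
  have hQX : Q ≤ centralizer (X : Set G) := hQD.trans inf_le_right
  have hca : Cfsg.Agent.Lib.Coprime.CoprimeAction X (sigmaCore M) := by
    refine ⟨hC.hXM.trans hσn, ?_, Or.inr hσs⟩
    rw [hC.hX]
    exact (Nat.Prime.coprime_iff_not_dvd hpp).mpr fun hd => hC.hpσ (piCoreOf_isPi (sigma M) M p hpp hd)
  obtain ⟨T₁, hT₁, hXT₁, hQT₁⟩ := Cfsg.Agent.Lib.Coprime.exists_invariant_hall {q} _ hca hσs rfl hQσ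
    (((le_centralizer_iff).mp hQX).trans (centralizer_le_normalizer' Q)) (fun t ht hd => by
    rw [hQ] at hd
    exact (Nat.prime_dvd_prime_iff_eq ht hqq).mp hd)
  obtain ⟨hT₁m, hT₁p⟩ := isMaxP_of_isPiHallOf hT₁
  have hnot := PX.sylow_not_small hB hG hQ hQD hT₁ hXT₁ hQT₁
  have hT₁t : T₁ ≠ ⊤ := IsMinSimpleOddOrder.ne_top_of_isPGroup hG hqq hT₁p
  have hu : InUniqueMaximal T₁ := by
    by_cases hna : IsMulCommutative T₁
    · have hr : ¬ PRankLE q 2 ↥T₁ := hnot hna
      refine huniq T₁ hT₁t (not_rankLE_of_not_prank hqq fun h => hr (prank_mono hqq.pos (by norm_num) h)) (Or.inl (not_rankLE_of_not_prank hqq hr))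
    · exact s1422_core (h1412_of hG) hG hT₁p hna
  obtain ⟨n, hn, e⟩ := hT₁m.exists_conj_eq hS
  have hSM : S ≤ M := hS.le.trans hσM
  have hT₁M : T₁ ≤ M := hT₁m.le.trans hσM
  have hnM : n ∈ M := hσM hn
  refine ⟨?_, ?_⟩
  · refine ⟨M, ⟨hM, hSM⟩, ?_⟩
    rintro L ⟨hL, hSL⟩
    have h1 : T₁ ≤ L.map (MulAut.conj n⁻¹).toMonoidHom := by
      have h2 := conj_map_mono hSL n⁻¹
      rwa [← e, conj_map_conj_map, inv_mul_cancel, conj_map_one] at h2
    have h2 : L.map (MulAut.conj n⁻¹).toMonoidHom = M := hu.unique ⟨coatom_conj hL n⁻¹, h1⟩ ⟨hM, hT₁M⟩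
    rw [← (conj_map_eq_iff_mem_normalizer M n).mpr (le_normalizer hnM), ← h2, conj_map_conj_map, mul_inv_cancel, conj_map_one]
  · intro hle
    have hSc : IsCyclic S := cyclic_of_prank_one hG (PX.prank_one hG hQ hQD) hS.isP (hle.trans (inf_le_right.trans PX.centralizer_le))
    have hS1 : S ≠ ⊥ := by
      rw [← e]
      intro h
      have hT₁1 : T₁ = ⊥ := (Subgroup.map_eq_bot_iff_of_injective _ (MulAut.conj n).injective).mp h
      exact ne_bot_of_card_prime hqq hQ (le_bot_iff.mp (hT₁1 ▸ hQT₁))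
    obtain ⟨a, ha, hao⟩ := exists_orderOf_of_isPGroup hS.isP hS1
    have hza : Nat.card (zpowers a) = q := by rw [Nat.card_zpowers, hao]
    have hab : IsMulCommutative S := ⟨⟨fun a b => by
      letI := IsCyclic.commGroup (α := ↥S)
      exact mul_comm a b⟩⟩
    have h3 : X ≤ centralizer (S : Set G) := (le_centralizer_iff).mp (hle.trans inf_le_right)
    exact PX.sylow_not_small hB hG hza ((zpowers_le.mpr ha).trans hle) (isPiHallOf_of_isMaxP hS)
      (h3.trans (centralizer_le_normalizer' S)) (zpowers_le.mpr ha) hab (prank_mono hqq.pos (by norm_num) (prank_one_of_cyclic hSc))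

end Partner

/-- **`σ(M)`-subgroups lie in conjugates of `M`.** -/
theorem sigma_subgroup_le_conj (hB : ThmB G) {M Y : Subgroup G} (hG : IsMinSimpleOddOrder G) (hM : IsCoatom M)
    (hY : ∀ t : ℕ, t.Prime → t ∣ Nat.card Y → t ∈ sigma M) (hYt : Y ≠ ⊤) : ∃ g : G, Y ≤ M.map (MulAut.conj g).toMonoidHom := by
  classical
  have huniq := huniq13 hG
  have hpl : ∀ (r : ℕ) [Fact r.Prime] (H : Subgroup G), H ≠ ⊤ → PLengthLE r 1 ↥H := fun r _ K hK => hpl13 hG r K hK
  by_cases hY1 : Y = ⊥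
  · exact ⟨1, by rw [hY1]; exact bot_le⟩
  haveI hYs : Group.IsSolvable ↥Y := IsMinSimpleOddOrder.isSolvable hG hYt
  haveI : Nontrivial ↥Y := by
    obtain ⟨y, hy⟩ := (Subgroup.ne_bot_iff_exists_ne_one).mp hY1
    exact ⟨⟨y, 1, hy⟩⟩
  obtain ⟨t, ht, R, hRn, hR1, hRp⟩ := Cfsg.Agent.Lib.Coprime.exists_normal_pGroup_of_solvable ↥Y
  haveI := Fact.mk ht
  set W₀ := R.map Y.subtype with hW₀
  have hW₀Y : W₀ ≤ Y := Subgroup.map_subtype_le _
  have hYn : Y ≤ normalizer (W₀ : Set G) := by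
    intro j hj
    apply mem_normalizer_of_conj_le
    rintro _ ⟨e, he, rfl⟩
    exact ⟨_, hRn.conj_mem e he ⟨j, hj⟩, by simp⟩
  have hW₀p : IsPGroup t W₀ := hRp.map Y.subtype
  have hW₀1 : W₀ ≠ ⊥ := fun h => hR1 ((Subgroup.map_eq_bot_iff_of_injective _ Y.subtype_injective).mp h)
  obtain ⟨a, ha, hao⟩ := exists_orderOf_of_isPGroup hW₀p hW₀1
  have htσ : t ∈ sigma M := hY t ht (by
    rw [← hao]
    exact Subgroup.orderOf_dvd_natCard Y (hW₀Y ha))
  obtain ⟨S₁, hS₁M, -⟩ := sigma_exists_sylow htσ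
  have hS₁ : IsMaxP t (S₁ : Subgroup G) ⊤ := ⟨le_top, S₁.isPGroup', fun D' _ h2 h3 => S₁.is_maximal' h2 h3⟩
  obtain ⟨n, -, hle⟩ := hS₁.exists_conj_le le_top hW₀p
  set M₂ := M.map (MulAut.conj n⁻¹).toMonoidHom with hM₂def
  have hM₂ : IsCoatom M₂ := coatom_conj hM n⁻¹
  have htσ₂ : t ∈ sigma M₂ := sigma_conj_of_mem htσ n⁻¹
  have hW₀M₂ : W₀ ≤ M₂ := by
    have h1 := conj_map_mono (hle.trans hS₁M) n⁻¹
    rwa [conj_map_conj_map, inv_mul_cancel, conj_map_one] at h1
  have hM₂conj : ∀ l : G, ∃ g : G, M₂.map (MulAut.conj l).toMonoidHom = M.map (MulAut.conj g).toMonoidHom := fun l =>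
    ⟨l * n⁻¹, by rw [hM₂def, conj_map_conj_map]⟩
  by_cases hcyc : IsCyclic W₀
  · set T₂ := zpowers a with hT₂
    have hT₂c : Nat.card T₂ = t := by rw [hT₂, Nat.card_zpowers, hao]
    have hT₂W : T₂ ≤ W₀ := zpowers_le.mpr ha
    have hT₂M₂ : T₂ ≤ M₂ := hT₂W.trans hW₀M₂
    have hYT₂ : Y ≤ normalizer (T₂ : Set G) := by
      intro y hy
      rw [← conj_map_eq_iff_mem_normalizer]
      refine Cfsg.Agent.Lib.OddLocal.eq_of_card_eq_of_le_isCyclic hcyc ?_ hT₂W ?_
      · rw [← (conj_map_eq_iff_mem_normalizer W₀ y).mpr (hYn hy)]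
        exact conj_map_mono hT₂W y
      · rw [Cfsg.Agent.Lib.Coprime.card_conj_map]
    have hT₂1 : T₂ ≠ ⊥ := ne_bot_of_card_prime ht hT₂c
    have hT₂t : T₂ ≠ ⊤ := fun h => hM₂.1 (top_le_iff.1 (h ▸ hT₂M₂))
    obtain ⟨L, hL, hNL⟩ := (eq_top_or_exists_le_coatom (normalizer (T₂ : Set G))).resolve_left
      (IsMinSimpleOddOrder.normalizer_ne_top hG hT₂1 hT₂t)
    have hYL : Y ≤ L := hYT₂.trans hNL
    by_cases htL : t ∈ sigma L
    · have e := eq_of_sigma_of_norm hB hG hM₂ htσ₂ hT₂c hT₂M₂ hL hNL htL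
      exact ⟨n⁻¹, by rw [← hM₂def, ← e]; exact hYL⟩
    · have hne : L ≠ M₂ := fun h => htL (h ▸ htσ₂)
      obtain ⟨W, V, -, -, -, A, hT, hT₂A, hAM₂, hNA, hLNA, hcompl⟩ := thmD_not_sigma hG hM₂ htσ₂ hT₂c hT₂M₂ hL hne hNL htL
      have hYprimes : ∀ u : ℕ, u.Prime → u ∣ Nat.card Y → u ∈ {u | u ∉ sigma L} := by
        intro u hu hd huL
        haveI := Fact.mk hu
        obtain ⟨c, e⟩ := conj_of_sigma_sigma hB hM hL (hY u hu hd) huL
        apply htL
        have e2 : L = M.map (MulAut.conj c⁻¹).toMonoidHom := by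
          rw [← e, conj_map_conj_map, inv_mul_cancel, conj_map_one]
        rw [e2]
        exact sigma_conj_of_mem htσ c⁻¹
      obtain ⟨l, hl, hle2⟩ := IsPiHallOf.exists_conj_ge (coatom_isSolvable hG hL) (isPiHallOf_compl hG hL hcompl) hYL hYprimes
      obtain ⟨g, hg⟩ := hM₂conj l
      refine ⟨g, ?_⟩
      rw [← hg]
      exact hle2.trans (conj_map_mono (inf_le_right.trans hNA) l)
  · exact ⟨n⁻¹, hYn.trans (s1420_c hG huniq hpl hM₂ t W₀ htσ₂ hW₀p hW₀M₂ hcyc)⟩

section Cores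

variable {M K U : Subgroup G}

/-- **S1431 core.** -/
theorem s1431_core (hB : ThmB G) (hG : IsMinSimpleOddOrder G) (hM : IsCoatom M) (hK : IsPiHallOf (kappa M) K M) (hK1 : K ≠ ⊥) :
    (∀ g : G, g ∉ M → (sigmaCore M ⊓ centralizer (K : Set G)) ⊓ M.map (MulAut.conj g).toMonoidHom = ⊥) ∧
      (∀ g ∈ M, g ∉ K ⊔ (sigmaCore M ⊓ centralizer (K : Set G)) → K ⊓ K.map (MulAut.conj g).toMonoidHom = ⊥) ∧
      (∀ (p : ℕ), p.Prime → p ∣ Nat.card ↥(sigmaCore M ⊓ centralizer (K : Set G)) → ∀ S : Sylow p ↥(sigmaCore M),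
        InUniqueMaximal ((S : Subgroup ↥(sigmaCore M)).map (sigmaCore M).subtype) ∧
        (S : Subgroup ↥(sigmaCore M)).map (sigmaCore M).subtype ≤ M ∧
        ¬ (S : Subgroup ↥(sigmaCore M)).map (sigmaCore M).subtype ≤ (sigmaCore M ⊓ centralizer (K : Set G))) ∧
      ∀ Y : Subgroup G, (∀ p : ℕ, p.Prime → p ∣ Nat.card Y → p ∈ sigma M) → Y ⊓ (sigmaCore M ⊓ centralizer (K : Set G)) ≠ ⊥ → Y ≤ sigmaCore M := by
  classical
  have hσM : sigmaCore M ≤ M := piCoreOf_le _ M
  obtain ⟨p, hp, X, hXK, hX⟩ := exists_prime_subgroup hK1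
  haveI := Fact.mk hp
  have hC : Config M X p := config_of_kappa hG hM (prime_mem_kappa hK hp hXK hX) hX (hXK.trans hK.1)
  obtain ⟨H, PX⟩ := exists_partner hB hG hC
  have hKs : sigmaCore M ⊓ centralizer (K : Set G) = sigmaCore M ⊓ centralizer (X : Set G) := (kappa_Kstar_eq hB hG hM hK hXK hX).symm
  have hkey : ∀ {Q : Subgroup G} {q : ℕ} [Fact q.Prime], Nat.card Q = q → Q ≤ sigmaCore M ⊓ centralizer (K : Set G) → ∀ g : G, Q ≤ M.map (MulAut.conj g).toMonoidHom →
      M.map (MulAut.conj g).toMonoidHom = M := by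
    intro Q q _ hQ hQD g hQg
    have hqq : q.Prime := Fact.out
    rw [hKs] at hQD
    obtain ⟨PQ, -⟩ := PX.config_of_le hB hG hQ hQD
    have hqσ : q ∈ sigma M := piCoreOf_isPi (sigma M) M q hqq (by
      rw [← hQ]
      exact Subgroup.card_dvd_of_le (hQD.trans inf_le_left))
    exact (eq_of_sigma_of_norm hB hG (coatom_conj hM g) (sigma_conj_of_mem hqσ g) hQ hQg hM PQ.hN hqσ).symm
  refine ⟨?_, ?_, ?_, ?_⟩
  · intro g hg
    by_contra hne
    obtain ⟨q, hq, Q, hQle, hQ⟩ := exists_prime_subgroup hne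
    haveI := Fact.mk hq
    have e := hkey hQ (hQle.trans inf_le_left) g (hQle.trans inf_le_right)
    apply hg
    rw [← normalizer_coatom hG hM]
    exact (conj_map_eq_iff_mem_normalizer M g).mp e
  · intro g hg hgK
    by_contra hne
    obtain ⟨q, hq, Q, hQle, hQ⟩ := exists_prime_subgroup hne
    haveI := Fact.mk hq
    have hQK : Q ≤ K := hQle.trans inf_le_left
    have h1 : Q.map (MulAut.conj g⁻¹).toMonoidHom ≤ K := by
      have h2 := conj_map_mono (hQle.trans inf_le_right) g⁻¹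
      rwa [conj_map_conj_map, inv_mul_cancel, conj_map_one] at h2
    have e := kappa_unique_prime hB hG hM hK h1 (by rw [Cfsg.Agent.Lib.Coprime.card_conj_map, hQ]) hQK hQ
    apply hgK
    rw [← kappa_normalizer_prime hB hG hM hK hQK hQ]
    refine ⟨hg, ?_⟩
    have h3 := (conj_map_eq_iff_mem_normalizer Q g⁻¹).mp e
    have h4 := (normalizer (Q : Set G)).inv_mem h3
    rwa [inv_inv] at h4
  · intro q hq hd S
    haveI := Fact.mk hq
    obtain ⟨y, hy⟩ := exists_prime_orderOf_dvd_card' (G := ↥(sigmaCore M ⊓ centralizer (K : Set G))) q hd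
    have hzc : Nat.card (zpowers (y : G)) = q := by rw [Nat.card_zpowers, Subgroup.orderOf_coe, hy]
    have hzD : zpowers (y : G) ≤ sigmaCore M ⊓ centralizer (X : Set G) := by
      rw [← hKs]
      exact zpowers_le.mpr y.2
    obtain ⟨h1, h2⟩ := PX.sylow_unique hB hG hzc hzD (isMaxP_map S)
    refine ⟨h1, (Subgroup.map_subtype_le _).trans hσM, ?_⟩
    rw [hKs]
    exact h2
  · intro Y hY hne
    have hYt : Y ≠ ⊤ := by
      rintro rfl
      have hd : p ∣ Nat.card (⊤ : Subgroup G) := by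
        rw [← hX]
        exact Subgroup.card_dvd_of_le le_top
      exact hC.hpσ (hY p hp hd)
    obtain ⟨g, hg⟩ := sigma_subgroup_le_conj hB hG hM hY hYt
    obtain ⟨q, hq, Q, hQle, hQ⟩ := exists_prime_subgroup hne
    haveI := Fact.mk hq
    have e := hkey hQ (hQle.trans inf_le_right) g ((hQle.trans inf_le_left).trans hg)
    rw [e] at hg
    exact le_sigmaCore_of_pi hG hM hg hY

/-- **S1430 core.** -/
theorem s1430_core (hB : ThmB G) (hG : IsMinSimpleOddOrder G) (hM : IsCoatom M) (hK : IsPiHallOf (kappa M) K M) (hK1 : K ≠ ⊥) :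
    (∀ k ∈ K, k ≠ 1 → sigmaCore M ⊓ centralizer ({k} : Set G) = (sigmaCore M ⊓ centralizer (K : Set G))) ∧
      (∃ U : Subgroup G, IsMulCommutative U ∧ IsPiHallOf {q | q.Prime ∧ q ∉ kappa M ∧ q ∉ sigma M} U M ∧
        K ≤ normalizer (U : Set G) ∧ ∀ k ∈ K, k ≠ 1 → U ⊓ centralizer ({k} : Set G) = ⊥) ∧
      ∀ X : Subgroup G, X ≤ K → (Nat.card X).Prime →
        M ⊓ normalizer (X : Set G) = K ⊔ (sigmaCore M ⊓ centralizer (K : Set G)) ∧ M ⊓ normalizer (K : Set G) = K ⊔ (sigmaCore M ⊓ centralizer (K : Set G)) ∧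
        ∀ Mstar : Subgroup G, IsCoatom Mstar → normalizer (X : Set G) ≤ Mstar → X ≤ sigmaCore Mstar := by
  classical
  refine ⟨fun k hk hk1 => kappa_prime_action hB hG hM hK hk hk1, kappa_exists_U hB hG hM hK hK1, ?_⟩
  intro X hXK hX
  haveI : Fact (Nat.card X).Prime := ⟨hX⟩
  refine ⟨kappa_normalizer_prime hB hG hM hK hXK rfl, kappa_normalizer_K hB hG hM hK hXK rfl, ?_⟩
  intro L hL hNL
  have hC : Config M X (Nat.card X) := config_of_kappa hG hM (prime_mem_kappa hK hX hXK rfl) rfl (hXK.trans hK.1)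
  exact (partner_of_config hB hG hC hL hNL).hXσ

/-- `K ⊔ M_σ` is a Hall `κ ∪ σ`-subgroup. -/
theorem isPiHallOf_kappa_sup (hG : IsMinSimpleOddOrder G) (hM : IsCoatom M) (hK : IsPiHallOf (kappa M) K M) :
    IsPiHallOf (kappa M ∪ sigma M) (K ⊔ sigmaCore M) M := by
  classical
  have huniq := huniq13 hG
  have hσH := (s1350_core hG huniq hM).1
  refine ⟨sup_le hK.1 hσH.1, fun t ht hd => ?_, fun t ht htπ hd => ?_⟩
  · rw [sup_comm] at hd
    rcases prime_dvd_sup (hK.1.trans (le_normalizer_piCoreOf (sigma M) M)) ht hd with h | h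
    · exact Or.inr (hσH.2.1 t ht h)
    · exact Or.inl (hK.2.1 t ht h)
  · rcases htπ with h | h
    · exact hK.2.2 t ht h (hd.trans (Subgroup.relIndex_dvd_of_le_left M le_sup_left))
    · exact hσH.2.2 t ht h (hd.trans (Subgroup.relIndex_dvd_of_le_left M le_sup_right))

/-- **S1352 core.** -/
theorem s1352_core (hB : ThmB G) (hG : IsMinSimpleOddOrder G) (hM : IsCoatom M) (hKc : IsCyclic K) (hK : IsPiHallOf (kappa M) K M) :
    (∃ U : Subgroup G, IsSigmaDecomposition M K U) ∧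
      ∀ U : Subgroup G, IsSigmaDecomposition M K U → M ≤ normalizer ((U ⊔ sigmaCore M : Subgroup G) : Set G) := by
  classical
  have huniq := huniq13 hG
  have hσM : sigmaCore M ≤ M := piCoreOf_le _ M
  have hσn : M ≤ normalizer (sigmaCore M : Set G) := le_normalizer_piCoreOf (sigma M) M
  refine ⟨?_, ?_⟩
  · by_cases hK1 : K = ⊥
    · obtain ⟨E, hE, -⟩ := exists_compl_sigma_ge (Y := ⊥) hG hM bot_le (fun t ht hd => by
        simp at hd
        exact absurd hd ht.one_lt.ne')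
      refine ⟨E, hKc, hK, ?_, ?_⟩
      · rw [hK1, bot_sup_eq]
        exact hE
      · rw [hK1]
        exact bot_le
    · obtain ⟨U, -, hUH, hUN, -⟩ := kappa_exists_U hB hG hM hK hK1
      refine ⟨U, hKc, hK, ⟨hUH.1, sup_le hK.1 hσM, ?_, ?_⟩, hUN⟩
      · have hH := isPiHallOf_kappa_sup hG hM hK
        have hcop : (Nat.card U).Coprime (Nat.card ↥(K ⊔ sigmaCore M)) := by
          refine Nat.coprime_of_dvd fun t ht h1 h2 => ?_
          have h3 := hUH.2.1 t ht h1
          rcases hH.2.1 t ht h2 with h | h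
          · exact h3.2.1 h
          · exact h3.2.2 h
        exact disjoint_iff.1 (Subgroup.disjoint_of_coprime_natCard hcop)
      · intro m hm
        exact exists_mul_of_hall_hall (π := {q | q.Prime ∧ q ∉ kappa M ∧ q ∉ sigma M}) (π' := kappa M ∪ sigma M)
          (fun r hr h => by
            rcases h with h | h
            · exact hr.2.1 h
            · exact hr.2.2 h) hUH (isPiHallOf_kappa_sup hG hM hK) (fun r hr => by
            by_cases h1 : r ∈ kappa M
            · exact Or.inr (Or.inl h1)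
            · by_cases h2 : r ∈ sigma M
              · exact Or.inr (Or.inr h2)
              · exact Or.inl ⟨hr, h1, h2⟩) hm
  · intro U hU m hm
    obtain ⟨u, hu, b, hb, rfl⟩ := hU.compl.2.2.2 m hm
    refine Subgroup.mul_mem _ (le_normalizer (mem_sup_left hu)) ?_
    have h1 : K ⊔ sigmaCore M ≤ normalizer ((U ⊔ sigmaCore M : Subgroup G) : Set G) := by
      refine sup_le ?_ ?_
      · intro k hk
        rw [← conj_map_eq_iff_mem_normalizer, Subgroup.map_sup, (conj_map_eq_iff_mem_normalizer _ k).mpr (hU.normal hk),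
          (conj_map_eq_iff_mem_normalizer _ k).mpr (hσn (hK.1 hk))]
      · exact le_sup_right.trans le_normalizer
    exact h1 hb

/-- **S1353 core.** -/
theorem s1353_core (hB : ThmB G) (hG : IsMinSimpleOddOrder G) (hM : IsCoatom M) (hKU : IsSigmaDecomposition M K U) :
    ∀ k ∈ K, k ≠ 1 → U ⊓ centralizer ({k} : Set G) = ⊥ := by
  classical
  have huniq := huniq13 hG
  intro k hk hk1
  by_contra hne
  obtain ⟨t, ht, Y, hYU, hY⟩ := exists_prime_subgroup hne
  have hz1 : zpowers k ≠ ⊥ := fun h => hk1 (zpowers_eq_bot.mp h)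
  obtain ⟨p, hp, X, hXz, hX⟩ := exists_prime_subgroup hz1
  haveI := Fact.mk ht
  haveI := Fact.mk hp
  have hXK : X ≤ K := hXz.trans (zpowers_le.mpr hk)
  have hC : Config M X p := config_of_kappa hG hM (prime_mem_kappa hKU.hall hp hXK hX) hX (hXK.trans hKU.hall.1)
  obtain ⟨H, PX⟩ := exists_partner hB hG hC
  have htd : t ∣ Nat.card U := by
    rw [← hY]
    exact Subgroup.card_dvd_of_le (hYU.trans inf_le_left)
  have hYN : Y ≤ normalizer (X : Set G) := by
    refine le_trans ?_ (centralizer_le_normalizer' X)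
    refine (hYU.trans inf_le_right).trans ?_
    rw [← centralizer_zpowers_eq]
    exact Subgroup.centralizer_le hXz
  exact not_kappa_of_dvd_U hG huniq hM hKU ht htd
    (PX.kappa_of_norm hB hG hY (not_sigma_of_dvd_U hG huniq hM hKU ht htd) ((hYU.trans inf_le_left).trans hKU.compl.1) hYN)

/-- **S1354 core.** -/
theorem s1354_core (hB : ThmB G) (hG : IsMinSimpleOddOrder G) (hM : IsCoatom M) (hKc : IsCyclic K) (hK : IsPiHallOf (kappa M) K M) :
    sigmaCore M ⊓ centralizer (K : Set G) ≠ ⊥ ∧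
      (K ≠ ⊥ → ∀ k ∈ K, k ≠ 1 →
        M ⊓ centralizer ({k} : Set G) = K ⊔ (sigmaCore M ⊓ centralizer (K : Set G))) := by
  classical
  have huniq := huniq13 hG
  have hσM : sigmaCore M ≤ M := piCoreOf_le _ M
  refine ⟨?_, ?_⟩
  · by_cases hK1 : K = ⊥
    · rw [hK1]
      intro h
      apply sigmaCore_ne_bot hG huniq hM
      rw [eq_bot_iff, ← h]
      refine le_inf le_rfl ?_
      intro x _
      rw [mem_centralizer_iff]
      intro y hy
      have h1 : y = 1 := (mem_bot).mp hy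
      rw [h1]
      simp
    · obtain ⟨p, hp, X, hXK, hX⟩ := exists_prime_subgroup hK1
      haveI := Fact.mk hp
      have hC : Config M X p := config_of_kappa hG hM (prime_mem_kappa hK hp hXK hX) hX (hXK.trans hK.1)
      rw [← kappa_Kstar_eq hB hG hM hK hXK hX]
      exact hC.hD
  · intro _ k hk hk1
    have hz1 : zpowers k ≠ ⊥ := fun h => hk1 (zpowers_eq_bot.mp h)
    obtain ⟨p, hp, X, hXz, hX⟩ := exists_prime_subgroup hz1
    haveI := Fact.mk hp
    have hXK : X ≤ K := hXz.trans (zpowers_le.mpr hk)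
    apply le_antisymm
    · rw [← kappa_normalizer_prime hB hG hM hK hXK hX]
      refine inf_le_inf_left _ ?_
      refine le_trans ?_ (centralizer_le_normalizer' X)
      rw [← centralizer_zpowers_eq]
      exact Subgroup.centralizer_le hXz
    · refine sup_le (le_inf hK.1 ?_) (le_inf (inf_le_left.trans hσM) ?_)
      · intro a ha
        rw [mem_centralizer_singleton_iff]
        have hab := hKc
        letI := IsCyclic.commGroup (α := ↥K)
        exact congrArg Subtype.val (mul_comm (⟨a, ha⟩ : ↥K) ⟨k, hk⟩)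
      · refine inf_le_right.trans (Subgroup.centralizer_le ?_)
        simpa using hk

end Cores

end Cfsg.Agent.Lib.FT
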