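import Cfsg.Agent.Lib.FT.BG16a
import Cfsg.Agent.Lib.FT.BG18d

/-!
BG16: Theorem B, basic facts on a counterexample (some of it after a draft by helper1).
-/

set_option autoImplicit false
set_option linter.unusedSectionVars false
set_option linter.style.haveILetI false

namespace Cfsg.Agent.Lib.FT

open Subgroup Cfsg Cfsg.Agent.Lib.OddLocal Cfsg.Agent.Lib.Basic

open Cfsg.Agent.Lib.Coprime (mem_conj_map conj_mem_conj_map conj_map_conj_map conj_map_one
  conj_map_mono mem_normalizer_of_conj_le conj_map_eq_iff_mem_normalizer isPGroup_conj_map)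

open scoped commutatorElement

variable {G : Type*} [Group G] [Finite G]

/-- An element all of whose prime divisors are in `π` lies in a normal Hall `π`-subgroup. -/
theorem mem_of_normal_hall {π : Set ℕ} {A K : Subgroup G} (hA : IsPiHallOf π A K) (hn : K ≤ normalizer (A : Set G)) {y : G}
    (hyK : y ∈ K) (hy : ∀ r : ℕ, r.Prime → r ∣ orderOf y → r ∈ π) : y ∈ A := by
  classical
  obtain ⟨hAK, hA1, hA2⟩ := hA
  have hzN : zpowers y ≤ normalizer (A : Set G) := zpowers_le.mpr (hn hyK)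
  set U := A ⊔ zpowers y with hU
  have hUK : U ≤ K := sup_le hAK (zpowers_le.mpr hyK)
  have hAU : A ≤ U := le_sup_left
  have h1 : Nat.card U ∣ Nat.card A * Nat.card (zpowers y) := card_sup_dvd_of_le_normalizer A _ hzN
  have h2 : A.relIndex U = 1 := by
    by_contra hne
    obtain ⟨r, hr, hd⟩ := Nat.exists_prime_and_dvd hne
    have e1 : Nat.card A * A.relIndex U = Nat.card U := Cfsg.Agent.Lib.Coprime.card_mul_relIndex hAU
    have hdU : r ∣ Nat.card U := hd.trans ⟨Nat.card A, by rw [← e1, mul_comm]⟩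
    have hrπ : r ∈ π := by
      rcases (Nat.Prime.dvd_mul hr).mp (hdU.trans h1) with h3 | h3
      · exact hA1 r hr h3
      · rw [Nat.card_zpowers] at h3
        exact hy r hr h3
    apply hA2 r hr hrπ
    have e2 : A.relIndex K = A.relIndex U * U.relIndex K := (Subgroup.relIndex_mul_relIndex A U K hAU hUK).symm
    rw [e2]
    exact hd.trans (dvd_mul_right _ _)
  have h3 : U ≤ A := Subgroup.relIndex_eq_one.mp h2
  exact h3 (mem_sup_right (mem_zpowers y))

/-- `H = H_β N_H(S)` for a Sylow subgroup of `H`, `q ∈ σ(H) \ β(H)`; more precisely `h = k * c` where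
`c` has a `σ(H)`-part normalizing `S`. -/
theorem fac_of_beta {H S : Subgroup G} {q : ℕ} [Fact q.Prime] (hG : IsMinSimpleOddOrder G) (hH : IsCoatom H) (hqH : q ∈ sigma H)
    (hqβ : q ∉ beta H) (hSH : IsMaxP q S H) {h : G} (hh : h ∈ H) :
    ∃ k ∈ piCoreOf (beta H) H, ∃ c ∈ H ⊓ normalizer (S : Set G), h = k * c := by
  classical
  have hqp : q.Prime := Fact.out
  obtain ⟨h1, -, -, ⟨Y, hY, hYn⟩, -⟩ := s1414_core hG (huniq13 hG) hH (fun r _ _ => hpl13 hG r H hH.1)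
  have hσH : sigmaCore H ≤ H := piCoreOf_le _ H
  have hSσ : S ≤ sigmaCore H := le_sigmaCore_of_isPGroup hG (huniq13 hG) hH hqH hSH.isP hSH.le
  have hσs : Group.IsSolvable ↥(sigmaCore H) :=
    IsMinSimpleOddOrder.isSolvable hG (fun h => hH.1 (top_le_iff.1 (h ▸ hσH)))
  have hSprimes : ∀ r : ℕ, r.Prime → r ∣ Nat.card S → r ∈ {q | q.Prime ∧ q ∉ beta H} := by
    intro r hr hd
    obtain ⟨k, hk⟩ := IsPGroup.iff_card.mp hSH.isP
    rw [hk] at hd
    have := (Nat.prime_dvd_prime_iff_eq hr hqp).mp (hr.dvd_of_dvd_pow hd)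
    subst this
    exact ⟨hr, hqβ⟩
  obtain ⟨g, hg, hSY⟩ := IsPiHallOf.exists_conj_ge hσs hY hSσ hSprimes
  have hgH : g ∈ H := hσH hg
  -- `Y^g` normalizes `S`
  have hYg : Y.map (MulAut.conj g).toMonoidHom ≤ normalizer (S : Set G) := by
    have hS1 : S.map (MulAut.conj g⁻¹).toMonoidHom ≤ Y := by
      have := conj_map_mono hSY g⁻¹
      rwa [conj_map_conj_map, inv_mul_cancel, conj_map_one] at this
    have hYH : Y ≤ H := hY.1.trans hσH
    have hmax : IsMaxP q (S.map (MulAut.conj g⁻¹).toMonoidHom) Y := by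
      refine ⟨hS1, Cfsg.Agent.Lib.Coprime.isPGroup_conj_map hSH.isP _, ?_⟩
      intro D' hD' hD'p hle
      have h3 : IsMaxP q (S.map (MulAut.conj g⁻¹).toMonoidHom) H := hSH.conj_in (H.inv_mem hgH)
      exact h3.max D' (hD'.trans hYH) hD'p hle
    have h4 := le_normalizer_of_isMaxP_of_nilpotent hYn hmax
    rintro _ ⟨y, hy, rfl⟩
    have h5 := h4 hy
    rw [← conj_map_eq_iff_mem_normalizer, conj_map_conj_map] at h5
    rw [← conj_map_eq_iff_mem_normalizer]
    have e : (MulAut.conj g).toMonoidHom y = g * y * g⁻¹ := by simp [MulAut.conj_apply]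
    rw [e]
    have e2 : g * y * g⁻¹ * g = g * y := by group
    have h6 := congrArg (fun K : Subgroup G => K.map (MulAut.conj g).toMonoidHom) h5
    simp only [conj_map_conj_map] at h6
    have e3 : g * (y * g⁻¹) = g * y * g⁻¹ := by group
    rw [e3] at h6
    have e4 : g * g⁻¹ = 1 := by group
    rw [e4, conj_map_one] at h6
    exact h6
  have hYgH : IsPiHallOf {q | q.Prime ∧ q ∉ beta H} (Y.map (MulAut.conj g).toMonoidHom) (sigmaCore H) :=
    IsPiHallOf.conj_in hY hg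
  have hσn : H ≤ normalizer (sigmaCore H : Set G) := le_normalizer_piCoreOf (sigma H) H
  have hSmax : IsMaxP q S (sigmaCore H) := ⟨hSσ, hSH.isP, fun D' h1 h2 h3 => hSH.max D' (h1.trans hσH) h2 h3⟩
  have hconj : S.map (MulAut.conj h).toMonoidHom ≤ sigmaCore H := by
    rintro _ ⟨x, hx, rfl⟩
    exact (mem_normalizer_iff.mp (hσn hh) x).mp (hSσ hx)
  obtain ⟨n, hn, hle⟩ := hSmax.exists_conj_le hconj (Cfsg.Agent.Lib.Coprime.isPGroup_conj_map hSH.isP h)
  rw [conj_map_conj_map] at hle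
  have e3 : S.map (MulAut.conj (n * h)).toMonoidHom = S := by
    apply Subgroup.eq_of_le_of_card_ge hle
    rw [Cfsg.Agent.Lib.Coprime.card_conj_map]
  have hnh := (conj_map_eq_iff_mem_normalizer S (n * h)).mp e3
  obtain ⟨b, hb, y, hy, hby⟩ := exists_mul_of_hall_hall (π := beta H) (π' := {q | q.Prime ∧ q ∉ beta H})
    (fun r hr h => h.2 hr) (betaCore_isHall_sigmaCore hG hH) hYgH
    (fun r hr => by
      by_cases h : r ∈ beta H
      · exact Or.inl h
      · exact Or.inr ⟨hr, h⟩) ((sigmaCore H).inv_mem hn)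
  refine ⟨b, hb, y * (n * h), ⟨?_, ?_⟩, ?_⟩
  · exact H.mul_mem (hσH (hYgH.1 hy)) (H.mul_mem (hσH hn) hh)
  · exact mul_mem (hYg hy) hnh
  · rw [← mul_assoc, ← hby]
    group

namespace BData

variable {M L S V : Subgroup G} {q : ℕ} [Fact q.Prime]

theorem not_sigma_of_alpha (D : BData M L S V q) (hG : IsMinSimpleOddOrder G) {t : ℕ} [Fact t.Prime] (ht : t ∈ alpha L) : t ∉ sigma M := fun h => by
  obtain ⟨c, e⟩ := conj_of_alpha_sigma hG (huniq13 hG) D.hM D.hL ht h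
  exact D.not_conj e.symm

theorem comm_S (D : BData M L S V q) (hG : IsMinSimpleOddOrder G) {a b : G} (ha : a ∈ S) (hb : b ∈ S) : a * b = b * a := by
  have h := (D.hab hG).is_comm.comm (⟨a, ha⟩ : S) (⟨b, hb⟩ : S)
  exact congrArg Subtype.val h

theorem hSm (D : BData M L S V q) : IsMaxP q S M := ⟨D.hSM, D.hS.isP, fun D' _ h2 h3 => D.hS.max D' le_top h2 h3⟩

theorem fac (D : BData M L S V q) (hG : IsMinSimpleOddOrder G) {m : G} (hm : m ∈ M) :
    ∃ b ∈ piCoreOf (beta M) M, ∃ n ∈ normalizer (S : Set G), m = b * n := by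
  obtain ⟨k, hk, c, hc, e⟩ := fac_of_beta hG D.hM D.hqM (D.not_beta hG M) D.hSm hm
  exact ⟨k, hk, c, hc.2, e⟩

theorem bcore_le (D : BData M L S V q) : piCoreOf (beta M) M ≤ M := piCoreOf_le _ M

theorem bcore_norm (D : BData M L S V q) : M ≤ normalizer (piCoreOf (beta M) M : Set G) := le_normalizer_piCoreOf _ M

theorem bcore_hall (D : BData M L S V q) (hG : IsMinSimpleOddOrder G) : IsPiHallOf (beta M) (piCoreOf (beta M) M) M :=
  (s1414_core hG (huniq13 hG) D.hM (fun r _ _ => hpl13 hG r M D.hM.1)).1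

theorem bcore_coprime (D : BData M L S V q) (hG : IsMinSimpleOddOrder G) : (Nat.card (piCoreOf (beta M) M)).Coprime q :=
  have hqp : q.Prime := Fact.out
  Nat.Coprime.symm ((Nat.Prime.coprime_iff_not_dvd hqp).mpr fun hd => D.not_beta hG M ((D.bcore_hall hG).2.1 q hqp hd))

theorem mem_bcore (D : BData M L S V q) (hG : IsMinSimpleOddOrder G) {y : G} {t : ℕ} (ht : t ∈ beta M) (hyM : y ∈ M) (hyo : orderOf y = t) :
    y ∈ piCoreOf (beta M) M := by
  refine mem_of_normal_hall (D.bcore_hall hG) D.bcore_norm hyM fun r hr hd => ?_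
  rw [hyo] at hd
  have htp : t.Prime := ht.2.1
  rw [(Nat.prime_dvd_prime_iff_eq hr htp).mp hd]
  exact ht

/-- `S ∩ M_β = 1`. -/
theorem inf_bcore (D : BData M L S V q) (hG : IsMinSimpleOddOrder G) : S ⊓ piCoreOf (beta M) M = ⊥ := by
  have hqp : q.Prime := Fact.out
  exact eq_bot_of_isPGroup_of_coprime (r := q) (D.hS.isP.to_le inf_le_left) inf_le_right
    (D.bcore_coprime hG)

/-- `M_β ≠ 1`. -/
theorem exists_beta (D : BData M L S V q) (hG : IsMinSimpleOddOrder G) : ∃ t : ℕ, t ∈ beta M := by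
  by_contra hcon
  push Not at hcon
  apply D.not_nil hG
  obtain ⟨-, -, -, ⟨Y, hY, hYn⟩, -⟩ := s1414_core hG (huniq13 hG) D.hM (fun r _ _ => hpl13 hG r M D.hM.1)
  have e : Y = sigmaCore M := by
    have h1 : Y.relIndex (sigmaCore M) = 1 := by
      by_contra hne
      obtain ⟨r, hr, hd⟩ := Nat.exists_prime_and_dvd hne
      exact hY.2.2 r hr ⟨hr, hcon r⟩ hd
    exact le_antisymm hY.1 (Subgroup.relIndex_eq_one.mp h1)
  rw [← e]
  exact hYn

/-- For `y ∈ M` of order `t ∈ β(M)`, `N(⟨y⟩) ≤ M`. -/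
theorem normalizer_zpowers_le (D : BData M L S V q) (hG : IsMinSimpleOddOrder G) {t : ℕ} [Fact t.Prime] (ht : t ∈ beta M) {y : G} (hyM : y ∈ M) (hyo : orderOf y = t) :
    normalizer (zpowers y : Set G) ≤ M := by
  classical
  have htt : t.Prime := Fact.out
  have htσ : t ∈ sigma M := alpha_sub_sigma hG (huniq13 hG) D.hM ht.1
  obtain ⟨P, hP, -⟩ := exists_isMaxP_ge (T := zpowers y) (N := M) (p := t) (zpowers_le.mpr hyM) (by
    apply isPGroup_of_card_prime
    rw [Nat.card_zpowers, hyo])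
  have hzc : Nat.card (zpowers y) = t := by rw [Nat.card_zpowers, hyo]
  obtain ⟨⟨h1, h2⟩, -⟩ := s1423_core (h1412_of hG) hG D.hM htσ hP (zpowers_le.mpr hyM) hzc (Or.inl ht)
  have hz1 : zpowers y ≠ ⊥ := ne_bot_of_card_prime htt hzc
  have hzt : zpowers y ≠ ⊤ := fun h => D.hM.1 (top_le_iff.1 (h ▸ zpowers_le.mpr hyM))
  obtain ⟨K, hK, hNK⟩ := (eq_top_or_exists_le_coatom (normalizer (zpowers y : Set G))).resolve_left
    (IsMinSimpleOddOrder.normalizer_ne_top hG hz1 hzt)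
  have e := h2 K hK ((centralizer_le_normalizer' _).trans hNK)
  exact e ▸ hNK

theorem hNS (D : BData M L S V q) : V ≤ normalizer (S : Set G) := D.hV.2.1

end BData

/-- The data of an admissible prime mover in a counterexample to Theorem B. -/
structure BMove (M L S V R₀ P₀ : Subgroup G) (q r : ℕ) : Prop where
  D : BData M L S V q
  hR₀ : Nat.card R₀ = r
  hRV : R₀ ≤ V
  hrM : r ∉ sigma M
  hrL : r ∉ sigma L
  hnc : ¬ R₀ ≤ centralizer (S : Set G)
  hP₀ : IsCoatom P₀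
  hNP₀ : normalizer (R₀ : Set G) ≤ P₀
  hrP₀ : r ∈ sigma P₀

namespace BMove

variable {M L S V R₀ P₀ : Subgroup G} {q r : ℕ} [Fact q.Prime] [Fact r.Prime]

theorem symm (A : BMove M L S V R₀ P₀ q r) : BMove L M S V R₀ P₀ q r :=
  ⟨A.D.symm, A.hR₀, A.hRV, A.hrL, A.hrM, A.hnc, A.hP₀, A.hNP₀, A.hrP₀⟩

theorem hRN (A : BMove M L S V R₀ P₀ q r) : R₀ ≤ normalizer (S : Set G) := A.hRV.trans A.D.hNS

theorem hRM (A : BMove M L S V R₀ P₀ q r) : R₀ ≤ M := A.hRN.trans A.D.hNM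

theorem hRσ (A : BMove M L S V R₀ P₀ q r) (hG : IsMinSimpleOddOrder G) : R₀ ≤ sigmaCore P₀ :=
  le_sigmaCore_of_isPGroup hG (huniq13 hG) A.hP₀ A.hrP₀ (isPGroup_of_card_prime A.hR₀) (le_normalizer.trans A.hNP₀)

theorem hcardR (A : BMove M L S V R₀ P₀ q r) : (Nat.card R₀).Coprime q :=
  Nat.Coprime.coprime_dvd_left (Subgroup.card_dvd_of_le A.hRV) A.D.hVq

theorem hrq (A : BMove M L S V R₀ P₀ q r) : r ≠ q := by
  have hrr : r.Prime := Fact.out
  intro h
  have := A.hcardR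
  rw [A.hR₀, h] at this
  have hqq : q.Prime := Fact.out
  exact hqq.one_lt.ne' (by simpa using this)

theorem caS (A : BMove M L S V R₀ P₀ q r) : Cfsg.Agent.Lib.Coprime.CoprimeAction R₀ S :=
  Cfsg.Agent.Lib.Coprime.coprimeAction_of_isPGroup A.D.hS.isP A.hcardR A.hRN

/-- For `t ∈ α(M)`, `t ∉ σ(P₀)`. -/
theorem not_sigma_of_alpha (A : BMove M L S V R₀ P₀ q r) (hG : IsMinSimpleOddOrder G) {t : ℕ} [Fact t.Prime] (ht : t ∈ alpha M) : t ∉ sigma P₀ := by
  intro h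
  obtain ⟨c, e⟩ := conj_of_alpha_sigma hG (huniq13 hG) A.hP₀ A.D.hM ht h
  apply A.hrM
  rw [e]
  exact sigma_conj_of_mem A.hrP₀ c

/-- For `t ∈ β(M)`, `r_t(P₀) ≤ 1`. -/
theorem prank_of_beta (A : BMove M L S V R₀ P₀ q r) (hG : IsMinSimpleOddOrder G) {t : ℕ} [Fact t.Prime] (ht : t ∈ beta M) : PRankLE t 1 ↥P₀ := by
  by_contra hr
  have h2 : PRankLE t 2 ↥P₀ := by
    by_contra h
    exact A.not_sigma_of_alpha hG ht.1 (alpha_sub_sigma hG (huniq13 hG) A.hP₀ ⟨ht.1.1, h⟩)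
  exact (s1408_core hG (huniq13 hG) A.hP₀ h2 hr).1 ht.2

/-- `t`-subgroups of `C(R₀)` are cyclic, for `t ∈ β(M)`. -/
theorem cyclic_of_beta (A : BMove M L S V R₀ P₀ q r) (hG : IsMinSimpleOddOrder G) {t : ℕ} [Fact t.Prime] (ht : t ∈ beta M) {T : Subgroup G}
    (hT : IsPGroup t T) (hTC : T ≤ centralizer (R₀ : Set G)) : IsCyclic T :=
  cyclic_of_prank_one hG (A.prank_of_beta hG ht) hT (hTC.trans ((centralizer_le_normalizer' _).trans A.hNP₀))

theorem hX_le (A : BMove M L S V R₀ P₀ q r) : ⁅S, R₀⁆ ≤ S := commutator_le_of_le_normalizer A.hRN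

theorem hX_p (A : BMove M L S V R₀ P₀ q r) : IsPGroup q ↥(⁅S, R₀⁆) := A.D.hS.isP.to_le A.hX_le

theorem hRX (A : BMove M L S V R₀ P₀ q r) : R₀ ≤ normalizer ((⁅S, R₀⁆ : Subgroup G) : Set G) := fun _ ha =>
  Cfsg.Agent.Lib.Coprime.mem_normalizer_commutator (A.hRN ha) (le_normalizer ha)

/-- `C_{[S,R₀]}(R₀) = 1`. -/
theorem fpf (A : BMove M L S V R₀ P₀ q r) (hG : IsMinSimpleOddOrder G) {y u : G} (hy : y ∈ R₀) (hy1 : y ≠ 1) (hu : u ∈ ⁅S, R₀⁆) (h : y * u = u * y) : u = 1 := by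
  classical
  have hrr : r.Prime := Fact.out
  have hbot := A.caS.commutator_inf_centralizer_eq_bot (A.D.hab hG)
  have hz : R₀ = zpowers y := eq_zpowers_of_card_prime A.hR₀ hy hy1
  have hm : u ∈ ⁅S, R₀⁆ ⊓ (S ⊓ centralizer (R₀ : Set G)) := by
    refine Subgroup.mem_inf.mpr ⟨hu, Subgroup.mem_inf.mpr ⟨A.hX_le hu, mem_centralizer_iff.mpr ?_⟩⟩
    intro z hz'
    rw [hz] at hz'
    obtain ⟨i, rfl⟩ := mem_zpowers_iff.mp hz'
    have h2 : Commute u y := h.symm
    exact (h2.zpow_right i).eq.symm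
  rw [hbot, mem_bot] at hm
  exact hm

/-- `[S,R₀] ≠ 1` -/
theorem hX_ne (A : BMove M L S V R₀ P₀ q r) : ⁅S, R₀⁆ ≠ ⊥ := by
  intro h
  apply A.hnc
  intro a ha
  rw [mem_centralizer_iff]
  intro s hs
  have h1 : s * a * s⁻¹ * a⁻¹ ∈ ⁅S, R₀⁆ := Subgroup.commutator_mem_commutator hs ha
  rw [h, mem_bot] at h1
  have h2 : s * a * s⁻¹ = a := by
    rw [mul_inv_eq_one] at h1
    exact h1
  rw [mul_inv_eq_iff_eq_mul] at h2
  exact h2

end BMove

end Cfsg.Agent.Lib.FT
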