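import Cfsg.Agent.Lib.FT.BG16b

/-!
BG16: Theorem B, the core lemma and the main lemma.
-/

set_option autoImplicit false
set_option linter.unusedSectionVars false
set_option linter.style.haveILetI false

namespace Cfsg.Agent.Lib.FT

open Subgroup Cfsg Cfsg.Agent.Lib.OddLocal Cfsg.Agent.Lib.Basic

open Cfsg.Agent.Lib.Coprime (mem_conj_map conj_mem_conj_map conj_map_conj_map conj_map_one
  conj_map_mono mem_normalizer_of_conj_le conj_map_eq_iff_mem_normalizer isPGroup_conj_map)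

open scoped commutatorElement

variable {G : Type*} [Group G] [Finite G]

namespace BMove

variable {M L S V R₀ P₀ : Subgroup G} {q r : ℕ} [Fact q.Prime] [Fact r.Prime]

/-- **Core lemma.** -/
theorem core (A : BMove M L S V R₀ P₀ q r) (hG : IsMinSimpleOddOrder G) {T₂ : Subgroup G} {t' : ℕ} [Fact t'.Prime] {y₂ : G}
    (ht' : t' ∈ beta L) (hy₂M : y₂ ∈ M) (hy₂C : y₂ ∈ centralizer (R₀ : Set G)) (hy₂o : orderOf y₂ = t')
    (hT₂ : IsPiHallOf {t'} T₂ (piCoreOf (beta L) L)) (hST₂ : S ≤ normalizer (T₂ : Set G)) (hRT₂ : R₀ ≤ normalizer (T₂ : Set G)) :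
    T₂ ≤ centralizer ((⁅S, R₀⁆ : Subgroup G) : Set G) := by
  classical
  have hqq : q.Prime := Fact.out
  have hrr : r.Prime := Fact.out
  have htt : t'.Prime := Fact.out
  have D := A.D
  have huniq := huniq13 hG
  have hM := D.hM
  have hL := D.hL
  have hσM : sigmaCore M ≤ M := piCoreOf_le _ M
  have hσn : M ≤ normalizer (sigmaCore M : Set G) := le_normalizer_piCoreOf (sigma M) M
  have hσt : sigmaCore M ≠ ⊤ := fun h => hM.1 (top_le_iff.1 (h ▸ hσM))
  have hσs : Group.IsSolvable ↥(sigmaCore M) := IsMinSimpleOddOrder.isSolvable hG hσt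
  have ht'M : t' ∉ sigma M := D.not_sigma_of_alpha hG ht'.1
  have ht'L : t' ∈ sigma L := alpha_sub_sigma hG huniq hL ht'.1
  have ht'q : t' ≠ q := fun h => D.not_beta hG L (h ▸ ht')
  have ht'r : t' ≠ r := fun h => A.hrL (h ▸ ht'L)
  have hRz : ∀ {u : G}, u ∈ centralizer (R₀ : Set G) → R₀ ≤ normalizer (zpowers u : Set G) := by
    intro u hu
    have h1 : R₀ ≤ centralizer (zpowers u : Set G) := by
      intro a ha
      rw [mem_centralizer_iff]
      intro z hz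
      obtain ⟨i, rfl⟩ := mem_zpowers_iff.mp hz
      have h2 : Commute a u := (mem_centralizer_iff.mp hu a ha)
      exact (h2.zpow_right i).eq.symm
    exact h1.trans (centralizer_le_normalizer' _)
  -- the action of `B₀ = ⟨y₂⟩R₀` on `M_σ`
  set B₀ := zpowers y₂ ⊔ R₀ with hB₀
  have hzyN : R₀ ≤ normalizer (zpowers y₂ : Set G) := hRz hy₂C
  have hB₀M : B₀ ≤ M := sup_le (zpowers_le.mpr hy₂M) A.hRM
  have hB₀a : Cfsg.Agent.Lib.Coprime.CoprimeAction B₀ (sigmaCore M) := by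
    refine ⟨hB₀M.trans hσn, ?_, Or.inr hσs⟩
    refine Nat.coprime_of_dvd fun u hu h1 h2 => ?_
    have hu2 : u ∈ sigma M := piCoreOf_isPi (sigma M) M u hu h2
    rcases prime_dvd_sup hzyN hu h1 with h3 | h3
    · rw [Nat.card_zpowers, hy₂o] at h3
      exact ht'M ((Nat.prime_dvd_prime_iff_eq hu htt).mp h3 ▸ hu2)
    · rw [A.hR₀] at h3
      exact A.hrM ((Nat.prime_dvd_prime_iff_eq hu hrr).mp h3 ▸ hu2)
  have hRσ : Cfsg.Agent.Lib.Coprime.CoprimeAction R₀ (sigmaCore M) := by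
    refine ⟨A.hRM.trans hσn, ?_, Or.inr hσs⟩
    refine Nat.coprime_of_dvd fun u hu h1 h2 => ?_
    have hu2 : u ∈ sigma M := piCoreOf_isPi (sigma M) M u hu h2
    rw [A.hR₀] at h1
    exact A.hrM ((Nat.prime_dvd_prime_iff_eq hu hrr).mp h1 ▸ hu2)
  obtain ⟨T, hT, hB₀T, -⟩ := Cfsg.Agent.Lib.Coprime.exists_invariant_hall {q} _ hB₀a hσs rfl (U := ⊥) bot_le
    (fun a _ => by
      rw [mem_normalizer_iff]
      intro z
      simp) (fun t ht hd => by
      simp at hd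
      exact absurd hd ht.one_lt.ne')
  have hSH : IsPiHallOf {q} S (sigmaCore M) := isPiHallOf_of_isMaxP (D.isMaxP_sigma hG)
  obtain ⟨m, hm, e3⟩ := Cfsg.Agent.Lib.Coprime.invariant_hall_conj hRσ hσs hSH A.hRN hT (le_sup_right.trans hB₀T)
  have hy₂N : y₂ ∈ normalizer (T : Set G) := hB₀T (mem_sup_left (mem_zpowers y₂))
  rw [e3, normalizer_conj_map, mem_conj_map] at hy₂N
  set y₃ := m⁻¹ * y₂ * m with hy₃
  have hmM : m ∈ M := hσM hm.1
  have hy₃L : y₃ ∈ L := D.hNL hy₂N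
  have hy₃o : orderOf y₃ = t' := by
    have e : y₃ = m⁻¹ * y₂ * (m⁻¹)⁻¹ := by
      rw [hy₃]
      group
    rw [e, ord_conj_bg17, hy₂o]
  have hy₃C : y₃ ∈ centralizer (R₀ : Set G) :=
    (centralizer (R₀ : Set G)).mul_mem ((centralizer (R₀ : Set G)).mul_mem ((centralizer (R₀ : Set G)).inv_mem hm.2) hy₂C) hm.2
  have hy₃Lb : y₃ ∈ piCoreOf (beta L) L := D.symm.mem_bcore hG ht' hy₃L hy₃o
  have hLbσ : piCoreOf (beta L) L ≤ sigmaCore L := by
    refine le_sigmaCore_of_pi hG hL (piCoreOf_le _ L) fun u hu hd => ?_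
    haveI := Fact.mk hu
    exact alpha_sub_sigma hG huniq hL (piCoreOf_isPi (beta L) L u hu hd).1
  have hy₃S : y₃ ∈ centralizer (S : Set G) := comm_of_sigma_element hG hL (D.not_beta hG L) D.hS.isP D.hSL (hLbσ hy₃Lb)
    (by rw [hy₃o]; exact (Nat.coprime_primes htt hqq).mpr ht'q) hy₂N
  -- `S R₀` on `L_β`
  have hLbL : piCoreOf (beta L) L ≤ L := piCoreOf_le _ L
  have hLbn : L ≤ normalizer (piCoreOf (beta L) L : Set G) := le_normalizer_piCoreOf _ L
  have hLbt : piCoreOf (beta L) L ≠ ⊤ := fun h => hL.1 (top_le_iff.1 (h ▸ hLbL))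
  have hLbs : Group.IsSolvable ↥(piCoreOf (beta L) L) := IsMinSimpleOddOrder.isSolvable hG hLbt
  have hAa : Cfsg.Agent.Lib.Coprime.CoprimeAction (S ⊔ R₀) (piCoreOf (beta L) L) := by
    refine ⟨(sup_le D.hSL (A.hRN.trans D.hNL)).trans hLbn, ?_, Or.inr hLbs⟩
    refine Nat.coprime_of_dvd fun u hu h1 h2 => ?_
    have hu2 : u ∈ beta L := piCoreOf_isPi (beta L) L u hu h2
    rcases prime_dvd_sup A.hRN hu h1 with h3 | h3
    · obtain ⟨k, hk⟩ := IsPGroup.iff_card.mp D.hS.isP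
      rw [hk] at h3
      have e := (Nat.prime_dvd_prime_iff_eq hu hqq).mp (hu.dvd_of_dvd_pow h3)
      exact D.not_beta hG L (e ▸ hu2)
    · rw [A.hR₀] at h3
      have e := (Nat.prime_dvd_prime_iff_eq hu hrr).mp h3
      haveI := Fact.mk hu
      exact A.hrL (e ▸ alpha_sub_sigma hG huniq hL hu2.1)
  have hAz : S ⊔ R₀ ≤ normalizer (zpowers y₃ : Set G) := by
    refine sup_le ?_ (hRz hy₃C)
    intro s hs
    refine (centralizer_le_normalizer' _) ?_
    rw [mem_centralizer_iff]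
    intro z hz
    obtain ⟨i, rfl⟩ := mem_zpowers_iff.mp hz
    have h2 : Commute s y₃ := (mem_centralizer_iff.mp hy₃S s hs)
    exact (h2.zpow_right i).eq.symm
  obtain ⟨T'', hT'', hAT'', hzT''⟩ := Cfsg.Agent.Lib.Coprime.exists_invariant_hall {t'} _ hAa hLbs rfl (zpowers_le.mpr hy₃Lb) hAz (fun u hu hd => by
    rw [Nat.card_zpowers, hy₃o] at hd
    exact (Nat.prime_dvd_prime_iff_eq hu htt).mp hd)
  obtain ⟨-, hT''p⟩ := isMaxP_of_isPiHallOf hT''
  have ht'2 : t' ≠ 2 := prime_odd hG htt (ht'L.2.1.trans (Subgroup.card_subgroup_dvd_card L))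
  have hy₃1 : zpowers y₃ ≠ ⊥ := by
    intro h
    have h2 : y₃ = 1 := (zpowers_eq_bot).mp h
    rw [h2, orderOf_one] at hy₃o
    exact htt.one_lt.ne hy₃o
  have hCT'' : T'' ≤ centralizer ((⁅S, R₀⁆ : Subgroup G) : Set G) := by
    refine lemmaF (q := t') (U := ⁅S, R₀⁆) (R₀ := R₀) (Q₁ := zpowers y₃) ht'2 hT''p (A.hX_le.trans (le_sup_left.trans hAT'')) (le_sup_right.trans hAT'') A.hRX
      ?_ (by rw [A.hR₀]; exact hrr)
      (by rw [A.hR₀]; exact (Nat.coprime_primes hrr htt).mpr ht'r.symm)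
      (fun y hy hy1 u hu hyu => A.fpf hG hy hy1 hu hyu)
      (A.symm.cyclic_of_beta hG ht' (hT''p.to_le inf_le_left) inf_le_right)
      hy₃1 hzT'' ?_ ?_
    · refine Nat.Coprime.symm ?_
      refine Nat.Coprime.coprime_dvd_right (Subgroup.card_dvd_of_le A.hX_le) ?_
      obtain ⟨k, hk⟩ := IsPGroup.iff_card.mp D.hS.isP
      rw [hk]
      exact Nat.Coprime.pow_right _ ((Nat.coprime_primes htt hqq).mpr ht'q)
    · rw [zpowers_le, mem_centralizer_iff]
      intro x hx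
      exact (mem_centralizer_iff.mp hy₃S x (A.hX_le hx))
    · rw [zpowers_le]
      exact hy₃C
  obtain ⟨n, hn, e4⟩ := Cfsg.Agent.Lib.Coprime.invariant_hall_conj hAa hLbs hT'' hAT'' hT₂ (sup_le hST₂ hRT₂)
  rw [e4]
  refine conj_le_centralizer hCT'' ?_
  exact centralizer_le (s := ((⁅S, R₀⁆ : Subgroup G) : Set G)) (t := ((S ⊔ R₀ : Subgroup G) : Set G)) (fun z hz => (le_sup_left : S ≤ S ⊔ R₀) (A.hX_le hz)) hn.2

/-- A Sylow subgroup of `M_β` moved by `[S,R₀]` and a fixed point. -/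
theorem exists_moved (A : BMove M L S V R₀ P₀ q r) (hG : IsMinSimpleOddOrder G) (hnc : ¬ piCoreOf (beta M) M ≤ centralizer ((⁅S, R₀⁆ : Subgroup G) : Set G)) :
    ∃ t : ℕ, t ∈ beta M ∧ ∃ (T : Subgroup G) (y : G), IsPiHallOf {t} T (piCoreOf (beta M) M) ∧ S ≤ normalizer (T : Set G) ∧
      R₀ ≤ normalizer (T : Set G) ∧ ¬ T ≤ centralizer ((⁅S, R₀⁆ : Subgroup G) : Set G) ∧ y ∈ M ∧ y ∈ centralizer (R₀ : Set G) ∧ orderOf y = t := by
  classical
  have hqq : q.Prime := Fact.out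
  have hrr : r.Prime := Fact.out
  have D := A.D
  have huniq := huniq13 hG
  have hM := D.hM
  have hbL : piCoreOf (beta M) M ≤ M := piCoreOf_le _ M
  have hbn : M ≤ normalizer (piCoreOf (beta M) M : Set G) := le_normalizer_piCoreOf _ M
  have hbt : piCoreOf (beta M) M ≠ ⊤ := fun h => hM.1 (top_le_iff.1 (h ▸ hbL))
  have hbs : Group.IsSolvable ↥(piCoreOf (beta M) M) := IsMinSimpleOddOrder.isSolvable hG hbt
  have hAa : Cfsg.Agent.Lib.Coprime.CoprimeAction (S ⊔ R₀) (piCoreOf (beta M) M) := by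
    refine ⟨(sup_le D.hSM A.hRM).trans hbn, ?_, Or.inr hbs⟩
    refine Nat.coprime_of_dvd fun u hu h1 h2 => ?_
    have hu2 : u ∈ beta M := piCoreOf_isPi (beta M) M u hu h2
    rcases prime_dvd_sup A.hRN hu h1 with h3 | h3
    · obtain ⟨k, hk⟩ := IsPGroup.iff_card.mp D.hS.isP
      rw [hk] at h3
      have e := (Nat.prime_dvd_prime_iff_eq hu hqq).mp (hu.dvd_of_dvd_pow h3)
      exact D.not_beta hG M (e ▸ hu2)
    · rw [A.hR₀] at h3
      have e := (Nat.prime_dvd_prime_iff_eq hu hrr).mp h3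
      haveI := Fact.mk hu
      exact A.hrM (e ▸ alpha_sub_sigma hG huniq hM hu2.1)
  have hex : ∃ t : ℕ, t.Prime ∧ ∃ T : Subgroup G, IsPiHallOf {t} T (piCoreOf (beta M) M) ∧ S ⊔ R₀ ≤ normalizer (T : Set G) ∧
      ¬ T ≤ centralizer ((⁅S, R₀⁆ : Subgroup G) : Set G) := by
    by_contra hcon
    push Not at hcon
    apply hnc
    have h1 : (piCoreOf (beta M) M ⊓ centralizer ((⁅S, R₀⁆ : Subgroup G) : Set G)).relIndex (piCoreOf (beta M) M) = 1 := by
      by_contra hne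
      obtain ⟨t, ht, hd⟩ := Nat.exists_prime_and_dvd hne
      haveI := Fact.mk ht
      obtain ⟨T, hT, hA, -⟩ := Cfsg.Agent.Lib.Coprime.exists_invariant_hall {t} _ hAa hbs rfl (U := ⊥) bot_le
        (fun a _ => by
          rw [mem_normalizer_iff]
          intro z
          simp) (fun t ht hd => by
          simp at hd
          exact absurd hd ht.one_lt.ne')
      have hle := hcon t ht T hT hA
      exact not_dvd_relIndex_of_isMaxP (isMaxP_of_isPiHallOf hT).1 (le_inf hT.1 hle) hd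
    exact (Subgroup.relIndex_eq_one.mp h1).trans inf_le_right
  obtain ⟨t, ht, T, hT, hA, hnc'⟩ := hex
  haveI := Fact.mk ht
  obtain ⟨hTm, hTp⟩ := isMaxP_of_isPiHallOf hT
  have hT1 : T ≠ ⊥ := by
    rintro rfl
    exact hnc' bot_le
  have htβ : t ∈ beta M := by
    refine piCoreOf_isPi (beta M) M t ht ?_
    have hne : Nat.card T ≠ 1 := fun h => hT1 ((Subgroup.card_eq_one).mp h)
    obtain ⟨u, hu, hd⟩ := Nat.exists_prime_and_dvd hne
    obtain ⟨k, hk⟩ := IsPGroup.iff_card.mp hTp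
    have e : u = t := by
      rw [hk] at hd
      exact (Nat.prime_dvd_prime_iff_eq hu ht).mp (hu.dvd_of_dvd_pow hd)
    rw [e] at hd
    exact hd.trans (Subgroup.card_dvd_of_le hT.1)
  have htσ : t ∈ sigma M := alpha_sub_sigma hG huniq hM htβ.1
  have htq : t ≠ q := fun h => D.not_beta hG M (h ▸ htβ)
  have htr : t ≠ r := fun h => A.hrM (h ▸ htσ)
  have hfr := frob_commutator_fixed (q := t) hTp (A.hX_le.trans (le_sup_left.trans hA)) (le_sup_right.trans hA) A.hRX (by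
      refine Nat.Coprime.symm ?_
      refine Nat.Coprime.coprime_dvd_right (Subgroup.card_dvd_of_le A.hX_le) ?_
      obtain ⟨k, hk⟩ := IsPGroup.iff_card.mp D.hS.isP
      rw [hk]
      exact Nat.Coprime.pow_right _ ((Nat.coprime_primes ht hqq).mpr htq)) (by
      rw [A.hR₀]
      exact hrr) (by
      rw [A.hR₀]
      exact (Nat.coprime_primes hrr ht).mpr htr.symm)
      (fun y hy hy1 u hu hyu => A.fpf hG hy hy1 hu hyu) hnc'
  have hTX : ⁅S, R₀⁆ ≤ normalizer (T : Set G) := A.hX_le.trans (le_sup_left.trans hA)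
  have hle : ⁅T, ⁅S, R₀⁆⁆ ≤ T := commutator_le_of_le_normalizer hTX
  have hWp : IsPGroup t ↥(⁅T, ⁅S, R₀⁆⁆ ⊓ centralizer (R₀ : Set G)) :=
    hTp.to_le (inf_le_left.trans hle)
  obtain ⟨y, hy, hyo⟩ := exists_orderOf_of_isPGroup hWp hfr
  have hyT : y ∈ T := hle hy.1
  exact ⟨t, htβ, T, y, hT, le_sup_left.trans hA, le_sup_right.trans hA, hnc', hbL (hT.1 hyT), hy.2, hyo⟩

/-- **Main lemma.** `[S,R₀]` centralizes `M_β` or `L_β`. -/
theorem main (A : BMove M L S V R₀ P₀ q r) (hG : IsMinSimpleOddOrder G) :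
    piCoreOf (beta M) M ≤ centralizer ((⁅S, R₀⁆ : Subgroup G) : Set G) ∨
      piCoreOf (beta L) L ≤ centralizer ((⁅S, R₀⁆ : Subgroup G) : Set G) := by
  classical
  by_contra hcon
  push Not at hcon
  obtain ⟨hn1, hn2⟩ := hcon
  obtain ⟨t, ht, T₁, y, hT₁, hST₁, hRT₁, hT₁nc, hyM, hyC, hyo⟩ := A.exists_moved hG hn1
  obtain ⟨t', ht', T₂, y', hT₂, hST₂, hRT₂, hT₂nc, hy'L, hy'C, hy'o⟩ := A.symm.exists_moved hG hn2
  haveI := Fact.mk ht.1.1
  haveI := Fact.mk ht'.1.1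
  have D := A.D
  have huniq := huniq13 hG
  have htt' : t ≠ t' := fun h => D.symm.not_sigma_of_alpha hG ht.1 (h ▸ alpha_sub_sigma hG huniq D.hL ht'.1)
  have hCP₀ : centralizer (R₀ : Set G) ≤ P₀ := (centralizer_le_normalizer' R₀).trans A.hNP₀
  have hCt : centralizer (R₀ : Set G) ≠ ⊤ := fun h => A.hP₀.1 (top_le_iff.1 (h ▸ hCP₀))
  obtain ⟨c, hc, hd⟩ := dichotomy hG hCt htt' (fun P hP hle => A.cyclic_of_beta hG ht hP hle)
    (fun P hP hle => A.symm.cyclic_of_beta hG ht' hP hle) hyC hy'C hyo hy'o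
  rcases hd with hd | hd
  · have hy₂M : c * y' * c⁻¹ ∈ M := D.normalizer_zpowers_le hG ht hyM hyo hd
    exact hT₂nc (A.core hG ht' hy₂M ((centralizer (R₀ : Set G)).mul_mem ((centralizer (R₀ : Set G)).mul_mem hc hy'C) ((centralizer (R₀ : Set G)).inv_mem hc))
      (by rw [ord_conj_bg17, hy'o]) hT₂ hST₂ hRT₂)
  · have hy₂H : c⁻¹ * y * c ∈ L := by
      have h1 : y ∈ (normalizer (zpowers y' : Set G)).map (MulAut.conj c).toMonoidHom := by
        have e : (zpowers y').map (MulAut.conj c).toMonoidHom = zpowers (c * y' * c⁻¹) := by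
          rw [MonoidHom.map_zpowers]
          rfl
        rw [← normalizer_conj_map, e]
        exact hd
      rw [mem_conj_map] at h1
      exact D.symm.normalizer_zpowers_le hG ht' hy'L hy'o h1
    have e : c⁻¹ * y * c = c⁻¹ * y * (c⁻¹)⁻¹ := by group
    exact hT₁nc (A.symm.core hG ht hy₂H ((centralizer (R₀ : Set G)).mul_mem ((centralizer (R₀ : Set G)).mul_mem ((centralizer (R₀ : Set G)).inv_mem hc) hyC) hc)
      (by rw [e, ord_conj_bg17, hyo]) hT₁ hST₁ hRT₁)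

end BMove

end Cfsg.Agent.Lib.FT
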