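import Cfsg.Agent.Lib.FT.BG16c

/-!
BG16: Theorem B, the subgroups `Z₀ = C_S(M_β)` and `Z₁ = C_S(L_β)`.
-/

set_option autoImplicit false
set_option linter.unusedSectionVars false
set_option linter.style.haveILetI false

namespace Cfsg.Agent.Lib.FT

open Subgroup Cfsg Cfsg.Agent.Lib.OddLocal Cfsg.Agent.Lib.Basic

open Cfsg.Agent.Lib.Coprime (mem_conj_map conj_mem_conj_map conj_map_conj_map conj_map_one
  conj_map_mono mem_normalizer_of_conj_le conj_map_eq_iff_mem_normalizer isPGroup_conj_map)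

open scoped commutatorElement

variable {G : Type*} [Group G] [Finite G]

/-- `C_S(M_β)`. -/
abbrev bzOf (M S : Subgroup G) : Subgroup G := S ⊓ centralizer (piCoreOf (beta M) M : Set G)

theorem mem_normalizer_inf_bg16 {A B : Subgroup G} {g : G} (hA : g ∈ normalizer (A : Set G)) (hB : g ∈ normalizer (B : Set G)) :
    g ∈ normalizer ((A ⊓ B : Subgroup G) : Set G) := by
  rw [mem_normalizer_iff] at hA hB ⊢
  intro x
  exact and_congr (hA x) (hB x)

namespace BData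

variable {M L S V : Subgroup G} {q : ℕ} [Fact q.Prime]

/-- A subgroup of prime order of `V` moving `S` gives the data of a mover. -/
theorem exists_bmove_of_prime (D : BData M L S V q) (hG : IsMinSimpleOddOrder G) {R₀ : Subgroup G} {r : ℕ} [Fact r.Prime]
    (hcard : Nat.card R₀ = r) (hRV : R₀ ≤ V) (hnc : ¬ R₀ ≤ centralizer (S : Set G)) :
    ∃ P₀, BMove M L S V R₀ P₀ q r ∧ r < q := by
  classical
  have hrr : r.Prime := Fact.out
  have hqq : q.Prime := Fact.out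
  have huniq := huniq13 hG
  have hRN : R₀ ≤ normalizer (S : Set G) := hRV.trans D.hNS
  have hord : ∀ x ∈ R₀, (orderOf x).Coprime q := fun x hx =>
    Nat.Coprime.coprime_dvd_left (Subgroup.orderOf_dvd_natCard V (hRV hx)) D.hVq
  have hnot : ∀ {K : Subgroup G}, IsCoatom K → S ≤ K → normalizer (S : Set G) ≤ K → r ∉ sigma K := by
    intro K hK hSK hNK hrK
    apply hnc
    intro a ha
    have hRσ : R₀ ≤ sigmaCore K := le_sigmaCore_of_isPGroup hG huniq hK hrK (isPGroup_of_card_prime hcard) (hRN.trans hNK)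
    exact comm_of_sigma_element hG hK (D.not_beta hG K) D.hS.isP hSK (hRσ ha) (hord a ha) (hRN ha)
  have hrM := hnot D.hM D.hSM D.hNM
  have hrL := hnot D.hL D.hSL D.hNL
  have hC := D.config hG hcard hrM (hRN.trans D.hNM)
  have hR₀1 : R₀ ≠ ⊥ := ne_bot_of_card_prime hrr hcard
  have hR₀t : R₀ ≠ ⊤ := fun h => D.hM.1 (top_le_iff.1 (h ▸ (hRN.trans D.hNM)))
  obtain ⟨P₀, hP₀, hNP₀⟩ := (eq_top_or_exists_le_coatom (normalizer (R₀ : Set G))).resolve_left
    (IsMinSimpleOddOrder.normalizer_ne_top hG hR₀1 hR₀t)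
  have hrP₀ := thmT hG M R₀ P₀ r hrr hC hP₀ hNP₀
  have hA : BMove M L S V R₀ P₀ q r := ⟨D, hcard, hRV, hrM, hrL, hnc, hP₀, hNP₀, hrP₀⟩
  refine ⟨P₀, hA, ?_⟩
  obtain ⟨-, -, -, -, hlast⟩ := s1414_core hG huniq D.hM (fun r _ _ => hpl13 hG r M D.hM.1)
  obtain ⟨-, -, hle⟩ := hlast q hqq (D.hqM.2.1) (D.not_beta hG M)
  have hd : r ∣ (pPrimeCore q ↥M).index := by
    by_contra hnd
    have hRO : R₀ ≤ Oq' q M := le_Oq'_of_isPGroup hnd (hRN.trans D.hNM) (isPGroup_of_card_prime hcard)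
    apply hnc
    intro a ha
    rw [mem_centralizer_iff]
    intro s hs
    have h3 : S ⊓ Oq' q M = ⊥ := eq_bot_of_isPGroup_of_coprime (r := q) (D.hS.isP.to_le inf_le_left) inf_le_right (Oq'_card_coprime q M)
    have h1 : s * a * s⁻¹ * a⁻¹ ∈ S := by
      have h4 : a * s⁻¹ * a⁻¹ ∈ S := (mem_normalizer_iff.mp (hRN ha) s⁻¹).mp (S.inv_mem hs)
      have e : s * a * s⁻¹ * a⁻¹ = s * (a * s⁻¹ * a⁻¹) := by group
      rw [e]
      exact S.mul_mem hs h4
    have h2 : s * a * s⁻¹ * a⁻¹ ∈ Oq' q M := by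
      have h4 : s * a * s⁻¹ ∈ Oq' q M := (mem_normalizer_iff.mp (le_normalizer_Oq' q M (D.hSM hs)) a).mp (hRO ha)
      exact (Oq' q M).mul_mem h4 ((Oq' q M).inv_mem (hRO ha))
    have h5 : s * a * s⁻¹ * a⁻¹ ∈ S ⊓ Oq' q M := ⟨h1, h2⟩
    rw [h3, mem_bot] at h5
    have h6 : s * a * s⁻¹ = a := by
      rwa [mul_inv_eq_one] at h5
    rw [mul_inv_eq_iff_eq_mul] at h6
    exact h6
  exact lt_of_le_of_ne (hle r hrr hd) hA.hrq

/-- A primary element of `V` moving `S`. -/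
theorem exists_bmove (D : BData M L S V q) (hG : IsMinSimpleOddOrder G) {v : G} {r k : ℕ} [Fact r.Prime]
    (hvV : v ∈ V) (hvk : v ^ r ^ k = 1) (hvS : v ∉ centralizer (S : Set G)) :
    ∃ R₀ P₀, BMove M L S V R₀ P₀ q r ∧ r < q ∧ R₀ ≤ zpowers v ∧ ∀ s ∈ S, s * v * s⁻¹ * v⁻¹ ∈ ⁅S, R₀⁆ := by
  classical
  have hrr : r.Prime := Fact.out
  have hqq : q.Prime := Fact.out
  have huniq := huniq13 hG
  have hvN : v ∈ normalizer (S : Set G) := D.hNS hvV
  have hvM : v ∈ M := D.hNM hvN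
  have hvp : IsPGroup r (zpowers v) := isPGroup_zpowers_of_pow hvk
  have hvc : (orderOf v).Coprime q := Nat.Coprime.coprime_dvd_left (Subgroup.orderOf_dvd_natCard V hvV) D.hVq
  have hv1 : zpowers v ≠ ⊥ := by
    intro h
    have h1 : v = 1 := zpowers_eq_bot.mp h
    exact hvS (h1 ▸ (centralizer (S : Set G)).one_mem)
  obtain ⟨a, ha, hao⟩ := exists_orderOf_of_isPGroup hvp hv1
  have hcard : Nat.card (zpowers a) = r := by rw [Nat.card_zpowers, hao]
  have hRv : zpowers a ≤ zpowers v := zpowers_le.mpr ha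
  have hRV : zpowers a ≤ V := hRv.trans (zpowers_le.mpr hvV)
  have hvC : v ∈ centralizer ((zpowers a : Subgroup G) : Set G) := by
    rw [mem_centralizer_iff]
    intro z hz
    obtain ⟨i, hi⟩ := mem_zpowers_iff.mp (hRv hz)
    rw [← hi]
    exact (Commute.refl v).zpow_left i |>.eq
  have hrM : r ∉ sigma M := by
    intro hrM
    have h1 := le_sigmaCore_of_isPGroup hG huniq D.hM hrM hvp (zpowers_le.mpr hvM)
    exact hvS (comm_of_sigma_element hG D.hM (D.not_beta hG M) D.hS.isP D.hSM (h1 (mem_zpowers v)) hvc hvN)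
  have hC := D.config hG hcard hrM (hRV.trans (D.hNS.trans D.hNM))
  have hR₀1 : zpowers a ≠ ⊥ := ne_bot_of_card_prime hrr hcard
  have hR₀t : zpowers a ≠ ⊤ := fun h => D.hM.1 (top_le_iff.1 (h ▸ (hRV.trans (D.hNS.trans D.hNM))))
  have hcomm : ∀ {P₀ : Subgroup G}, IsCoatom P₀ → normalizer ((zpowers a : Subgroup G) : Set G) ≤ P₀ → r ∈ sigma P₀ → ∀ {Q : Subgroup G}, IsPGroup q Q → Q ≤ P₀ →
      v ∈ normalizer (Q : Set G) → v ∈ centralizer (Q : Set G) := by
    intro P₀ hP₀ hNP₀ hrP₀ Q hQ hQP hvQ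
    have h1 : zpowers v ≤ P₀ := zpowers_le.mpr (hNP₀ ((centralizer_le_normalizer' _) hvC))
    have h2 := le_sigmaCore_of_isPGroup hG huniq hP₀ hrP₀ hvp h1
    exact comm_of_sigma_element hG hP₀ (D.not_beta hG P₀) hQ hQP (h2 (mem_zpowers v)) hvc hvQ
  have hnc : ¬ zpowers a ≤ centralizer (S : Set G) := by
    intro hle
    obtain ⟨P₀, hP₀, hNP₀⟩ := (eq_top_or_exists_le_coatom (normalizer ((zpowers a : Subgroup G) : Set G))).resolve_left
      (IsMinSimpleOddOrder.normalizer_ne_top hG hR₀1 hR₀t)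
    have hrP₀ := thmT hG M _ P₀ r hrr hC hP₀ hNP₀
    have hSC : S ≤ centralizer ((zpowers a : Subgroup G) : Set G) := le_centralizer_iff.mp hle
    exact hvS (hcomm hP₀ hNP₀ hrP₀ D.hS.isP (hSC.trans ((centralizer_le_normalizer' _).trans hNP₀)) hvN)
  obtain ⟨P₀, A, hrq⟩ := D.exists_bmove_of_prime hG hcard hRV hnc
  refine ⟨zpowers a, P₀, A, hrq, hRv, ?_⟩
  have hvNR : v ∈ normalizer ((zpowers a : Subgroup G) : Set G) := (centralizer_le_normalizer' _) hvC
  have hvQ : v ∈ centralizer ((S ⊓ centralizer ((zpowers a : Subgroup G) : Set G) : Subgroup G) : Set G) :=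
    hcomm A.hP₀ A.hNP₀ A.hrP₀ (D.hS.isP.to_le inf_le_left) (inf_le_right.trans ((centralizer_le_normalizer' _).trans A.hNP₀))
      (mem_normalizer_inf_bg16 hvN (Cfsg.Agent.Lib.OddLocal.mem_normalizer_centralizer hvNR))
  have hsup := A.caS.commutator_sup_centralizer
  have hSX : S ≤ normalizer ((⁅S, zpowers a⁆ : Subgroup G) : Set G) := by
    intro s hs
    refine (centralizer_le_normalizer' _) ?_
    rw [mem_centralizer_iff]
    intro x hx
    exact D.comm_S hG (A.hX_le hx) hs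
  intro s hs
  have hs' : s ∈ ⁅S, zpowers a⁆ ⊔ S ⊓ centralizer ((zpowers a : Subgroup G) : Set G) := by
    rw [hsup]
    exact hs
  obtain ⟨s₁, hs₁, s₂, hs₂, e⟩ := (Cfsg.Agent.Lib.Coprime.mem_sup_iff_of_le_normalizer (inf_le_left.trans hSX) s).mp hs'
  have hv2 : v * s₂ = s₂ * v := (mem_centralizer_iff.mp hvQ s₂ hs₂).symm
  have hv3 : v ∈ normalizer ((⁅S, zpowers a⁆ : Subgroup G) : Set G) :=
    Cfsg.Agent.Lib.Coprime.mem_normalizer_commutator hvN hvNR
  have e2 : s * v * s⁻¹ * v⁻¹ = s₁ * (v * s₁⁻¹ * v⁻¹) := by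
    rw [e]
    calc s₁ * s₂ * v * (s₁ * s₂)⁻¹ * v⁻¹ = s₁ * (s₂ * v) * s₂⁻¹ * s₁⁻¹ * v⁻¹ := by group
      _ = s₁ * (v * s₂) * s₂⁻¹ * s₁⁻¹ * v⁻¹ := by rw [hv2]
      _ = s₁ * (v * s₁⁻¹ * v⁻¹) := by group
  rw [e2]
  exact mul_mem hs₁ ((mem_normalizer_iff.mp hv3 s₁⁻¹).mp (inv_mem hs₁))

theorem bz_norm (D : BData M L S V q) {n : G} (hn : n ∈ normalizer (S : Set G)) : n ∈ normalizer ((bzOf M S : Subgroup G) : Set G) :=
  mem_normalizer_inf_bg16 hn (Cfsg.Agent.Lib.OddLocal.mem_normalizer_centralizer (D.bcore_norm (D.hNM hn)))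

theorem bz_le_of_main {R₀ : Subgroup G} (h : piCoreOf (beta M) M ≤ centralizer ((⁅S, R₀⁆ : Subgroup G) : Set G))
    (hle : ⁅S, R₀⁆ ≤ S) : ⁅S, R₀⁆ ≤ bzOf M S :=
  le_inf hle (le_centralizer_iff.mp h)

/-- The Sylow subgroup as an element of `Sylow q G`. -/
theorem eq_commutator (D : BData M L S V q) (hG : IsMinSimpleOddOrder G) : S = ⁅S, V⁆ := by
  let P : Sylow q G := ⟨S, D.hS.isP, fun {D'} h2 h3 => D.hS.max D' le_top h2 h3⟩
  exact (s1411_core hG (fun H hH => hpl13 hG q H hH) P V D.hV).1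

/-- `S = Z₀ Z₁`. -/
theorem sup_bz (D : BData M L S V q) (hG : IsMinSimpleOddOrder G) : bzOf M S ⊔ bzOf L S = S := by
  classical
  have hqq : q.Prime := Fact.out
  set K := bzOf M S ⊔ bzOf L S with hK
  have hKS : K ≤ S := sup_le inf_le_left inf_le_left
  have hVK : ∀ {v : G}, v ∈ normalizer (S : Set G) → v ∈ normalizer (K : Set G) := by
    intro v hv
    rw [hK]
    rw [mem_normalizer_iff]
    intro x
    have h1 : (bzOf M S ⊔ bzOf L S).map (MulAut.conj v).toMonoidHom = bzOf M S ⊔ bzOf L S := by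
      rw [Subgroup.map_sup, (conj_map_eq_iff_mem_normalizer _ v).mpr (D.bz_norm hv), (conj_map_eq_iff_mem_normalizer _ v).mpr (D.symm.bz_norm hv)]
    constructor
    · intro hx
      rw [← h1]
      exact conj_mem_conj_map _ v x hx
    · intro hx
      rw [← h1, mem_conj_map] at hx
      have e : v⁻¹ * (v * x * v⁻¹) * v = x := by group
      rwa [e] at hx
  -- the subgroup of `V` acting trivially on `S/K`
  let CV : Subgroup G :=
    { carrier := {v | v ∈ V ∧ ∀ s ∈ S, s * v * s⁻¹ * v⁻¹ ∈ K}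
      mul_mem' := by
        rintro v w ⟨hv, hv'⟩ ⟨hw, hw'⟩
        refine ⟨V.mul_mem hv hw, fun s hs => ?_⟩
        have e : s * (v * w) * s⁻¹ * (v * w)⁻¹ = (s * v * s⁻¹ * v⁻¹) * (v * (s * w * s⁻¹ * w⁻¹) * v⁻¹) := by group
        rw [e]
        exact K.mul_mem (hv' s hs) ((mem_normalizer_iff.mp (hVK (D.hNS hv)) _).mp (hw' s hs))
      one_mem' := by
        refine ⟨V.one_mem, fun s _ => ?_⟩
        have e : s * 1 * s⁻¹ * (1 : G)⁻¹ = 1 := by group
        rw [e]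
        exact K.one_mem
      inv_mem' := by
        rintro v ⟨hv, hv'⟩
        refine ⟨V.inv_mem hv, fun s hs => ?_⟩
        have h1 : v⁻¹ * (s * v * s⁻¹ * v⁻¹)⁻¹ * (v⁻¹)⁻¹ ∈ K :=
          (mem_normalizer_iff.mp (hVK (D.hNS (V.inv_mem hv))) _).mp (K.inv_mem (hv' s hs))
        have e : s * v⁻¹ * s⁻¹ * (v⁻¹)⁻¹ = v⁻¹ * (s * v * s⁻¹ * v⁻¹)⁻¹ * (v⁻¹)⁻¹ := by group
        rw [e]
        exact h1 }
  have hVCV : V ≤ CV := by
    intro v hv
    by_contra hnv
    obtain ⟨a, ha, hna, r, hr, k, hak⟩ := exists_primary_not_mem _ rfl hnv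
    haveI := Fact.mk hr
    have haV : a ∈ V := (zpowers_le.mpr hv) ha
    apply hna
    refine ⟨haV, fun s hs => ?_⟩
    by_cases hac : a ∈ centralizer (S : Set G)
    · have h1 : a * s = s * a := (mem_centralizer_iff.mp hac s hs).symm
      have e : s * a * s⁻¹ * a⁻¹ = 1 := by
        rw [← h1]
        group
      rw [e]
      exact K.one_mem
    · obtain ⟨R₀, P₀, A, -, -, h⟩ := D.exists_bmove hG haV hak hac
      have h1 := h s hs
      rcases A.main hG with h2 | h2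
      · exact (mem_sup_left ((bz_le_of_main h2 A.hX_le) h1))
      · exact (mem_sup_right ((bz_le_of_main h2 A.hX_le) h1))
  apply le_antisymm hKS
  have h1 : ⁅S, V⁆ ≤ K := by
    rw [Subgroup.commutator_le]
    intro s hs v hv
    exact (hVCV hv).2 s hs
  rw [← D.eq_commutator hG] at h1
  exact h1

/-- A maximal subgroup containing `M_β` is `M`. -/
theorem coatom_eq_of_le (D : BData M L S V q) (hG : IsMinSimpleOddOrder G) {K : Subgroup G} (hK : IsCoatom K)
    (h : piCoreOf (beta M) M ≤ K) : K = M := by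
  classical
  obtain ⟨t, ht⟩ := D.exists_beta hG
  haveI := Fact.mk ht.1.1
  have htt : t.Prime := Fact.out
  obtain ⟨P, hP, -⟩ := exists_isMaxP_ge (T := ⊥) (N := M) (p := t) bot_le IsPGroup.of_bot
  have hPb : P ≤ piCoreOf (beta M) M := le_hall_of_primes hG D.hM (D.bcore_hall hG) D.bcore_norm hP.le (fun u hu hd => by
    obtain ⟨k, hk⟩ := IsPGroup.iff_card.mp hP.isP
    rw [hk] at hd
    rw [(Nat.prime_dvd_prime_iff_eq hu htt).mp (hu.dvd_of_dvd_pow hd)]
    exact ht)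
  have hr : ¬ PRankLE t 2 ↥P := fun hr => ht.1.2 (hP.prank_of hr)
  have hPt : P ≠ ⊤ := fun h => D.hM.1 (top_le_iff.1 (h ▸ hP.le))
  have hun := huniq13 hG P hPt (not_rankLE_of_not_prank htt fun h => hr (prank_mono htt.pos (by norm_num) h))
    (Or.inl (not_rankLE_of_not_prank htt hr))
  exact hun.unique ⟨hK, hPb.trans h⟩ ⟨D.hM, hP.le⟩

/-- `Z₀ ∩ Z₁ = 1`. -/
theorem inf_bz (D : BData M L S V q) (hG : IsMinSimpleOddOrder G) : bzOf M S ⊓ bzOf L S = ⊥ := by
  classical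
  by_contra hne
  obtain ⟨⟨z, hz⟩, hz1'⟩ := (Subgroup.ne_bot_iff_exists_ne_one).mp hne
  have hz1 : z ≠ 1 := fun h => hz1' (Subtype.ext h)
  have hzM : z ∈ M := D.hSM hz.1.1
  have hz1' : zpowers z ≠ ⊥ := fun h => hz1 (zpowers_eq_bot.mp h)
  have hzt : zpowers z ≠ ⊤ := fun h => D.hM.1 (top_le_iff.1 (h ▸ zpowers_le.mpr hzM))
  obtain ⟨K, hK, hNK⟩ := (eq_top_or_exists_le_coatom (normalizer (zpowers z : Set G))).resolve_left
    (IsMinSimpleOddOrder.normalizer_ne_top hG hz1' hzt)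
  have hC : ∀ {X : Subgroup G}, z ∈ centralizer (X : Set G) → X ≤ K := by
    intro X hX x hx
    refine hNK ((centralizer_le_normalizer' _) ?_)
    rw [mem_centralizer_iff]
    intro y hy
    obtain ⟨i, rfl⟩ := mem_zpowers_iff.mp hy
    have h2 : Commute z x := (mem_centralizer_iff.mp hX x hx).symm
    exact (h2.zpow_left i).eq
  have h1 := D.coatom_eq_of_le hG hK (hC hz.1.2)
  have h2 := D.symm.coatom_eq_of_le hG hK (hC hz.2.2)
  exact D.hne (h2.symm.trans h1)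

/-- `Z₀ ≠ S`. -/
theorem bz_ne (D : BData M L S V q) (hG : IsMinSimpleOddOrder G) : bzOf M S ≠ S := by
  intro h
  have h1 : piCoreOf (beta M) M ≤ centralizer (S : Set G) := by
    have h2 : S ≤ centralizer (piCoreOf (beta M) M : Set G) := by
      rw [← h]
      exact inf_le_right
    exact le_centralizer_iff.mp h2
  have h3 : M ≤ L := by
    intro m hm
    obtain ⟨b, hb, n, hn, rfl⟩ := D.fac hG hm
    exact L.mul_mem (D.hNL ((centralizer_le_normalizer' _) (h1 hb))) (D.hNL hn)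
  exact D.hL.1 (D.hM.2 L (lt_of_le_of_ne h3 fun e => D.hne e.symm))

end BData

end Cfsg.Agent.Lib.FT
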