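import Cfsg.Agent.Lib.FT.BG16d

/-!
BG16: Theorem B, the two movers `R₀` and `R₁`.
-/

set_option autoImplicit false
set_option linter.unusedSectionVars false
set_option linter.style.haveILetI false

namespace Cfsg.Agent.Lib.FT

open Subgroup Cfsg Cfsg.Agent.Lib.OddLocal Cfsg.Agent.Lib.Basic

open Cfsg.Agent.Lib.Coprime (mem_conj_map conj_mem_conj_map conj_map_conj_map conj_map_one
  conj_map_mono mem_normalizer_of_conj_le conj_map_eq_iff_mem_normalizer isPGroup_conj_map)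

open scoped commutatorElement

variable {G : Type*} [Group G] [Finite G]

theorem mem_centralizer_sup_bg16 {A B : Subgroup G} {x : G} (hA : x ∈ centralizer (A : Set G)) (hB : x ∈ centralizer (B : Set G)) :
    x ∈ centralizer ((A ⊔ B : Subgroup G) : Set G) := by
  have h : A ⊔ B ≤ centralizer (zpowers x : Set G) :=
    sup_le (le_centralizer_iff.mp (zpowers_le.mpr hA)) (le_centralizer_iff.mp (zpowers_le.mpr hB))
  exact (le_centralizer_iff.mp h) (mem_zpowers x)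

namespace BData

variable {M L S V : Subgroup G} {q : ℕ} [Fact q.Prime]

theorem bz_ne_bot (D : BData M L S V q) (hG : IsMinSimpleOddOrder G) : bzOf L S ≠ ⊥ := by
  intro h
  have h1 := D.sup_bz hG
  rw [h, sup_bot_eq] at h1
  exact D.bz_ne hG h1

theorem bz_ne_bot' (D : BData M L S V q) (hG : IsMinSimpleOddOrder G) : bzOf M S ≠ ⊥ := D.symm.bz_ne_bot hG

theorem bz_cyclic (D : BData M L S V q) (hG : IsMinSimpleOddOrder G) : IsCyclic (bzOf M S) := by
  classical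
  by_contra hnc
  have hqq : q.Prime := Fact.out
  obtain ⟨A, hAZ, hAe, hAc⟩ := exists_e2_of_not_cyclic hG (D.hS.isP.to_le inf_le_left) hnc
  have hZp : IsPGroup q (bzOf L S) := D.hS.isP.to_le inf_le_left
  obtain ⟨z, hz, hzo⟩ := exists_orderOf_of_isPGroup hZp (D.bz_ne_bot hG)
  have hAS : A ≤ S := hAZ.trans inf_le_left
  have hzS : z ∈ S := hz.1
  have hzN : zpowers z ≤ normalizer (A : Set G) := by
    rw [zpowers_le]
    refine (centralizer_le_normalizer' _) ?_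
    rw [mem_centralizer_iff]
    intro a ha
    exact D.comm_S hG (hAS ha) hzS
  have hES : A ⊔ zpowers z ≤ S := sup_le hAS (zpowers_le.mpr hzS)
  have hEe : IsElementaryAbelian q (A ⊔ zpowers z) := by
    refine ⟨⟨⟨fun a b => Subtype.ext (D.comm_S hG (hES a.2) (hES b.2))⟩⟩, ?_⟩
    intro x hx
    obtain ⟨a, ha, y, hy, rfl⟩ := (Cfsg.Agent.Lib.Coprime.mem_sup_iff_of_le_normalizer hzN x).mp hx
    have hyS : y ∈ S := (zpowers_le.mpr hzS) hy
    have hc : Commute a y := D.comm_S hG (hAS ha) hyS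
    rw [hc.mul_pow, hAe.2 a ha, one_mul]
    obtain ⟨i, rfl⟩ := mem_zpowers_iff.mp hy
    rw [← zpow_natCast, ← zpow_mul, mul_comm, zpow_mul, zpow_natCast, ← hzo, pow_orderOf_eq_one, one_zpow]
  have hinf : A ⊓ zpowers z = ⊥ := by
    have h1 := D.inf_bz hG
    rw [eq_bot_iff, ← h1]
    exact le_inf (inf_le_left.trans hAZ) (inf_le_right.trans (zpowers_le.mpr hz))
  have hcard := card_sup_mul_card_inf hzN
  rw [hinf, card_bot, mul_one, hAc, Nat.card_zpowers, hzo] at hcard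
  have hle := card_le_of_prank (D.prank hG) hEe hES
  rw [hcard] at hle
  have h2 : 0 < q ^ 2 := by
    have := hqq.pos
    positivity
  have h3 := hqq.one_lt
  nlinarith

theorem commutator_V (D : BData M L S V q) (hG : IsMinSimpleOddOrder G) {a b : G} (ha : a ∈ normalizer (S : Set G)) (hb : b ∈ normalizer (S : Set G)) :
    a * b * a⁻¹ * b⁻¹ ∈ centralizer (S : Set G) := by
  have h0 := commutator_mem_centralizer_of_cyclic (D.bz_cyclic hG) (D.bz_norm ha) (D.bz_norm hb)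
  have h1 := commutator_mem_centralizer_of_cyclic (D.symm.bz_cyclic hG) (D.symm.bz_norm ha) (D.symm.bz_norm hb)
  have h2 := mem_centralizer_sup_bg16 h0 h1
  rwa [D.sup_bz hG] at h2

theorem not_le_centralizer_bz (D : BData M L S V q) (hG : IsMinSimpleOddOrder G) : ¬ V ≤ centralizer ((bzOf L S : Subgroup G) : Set G) := by
  intro h
  have hca : Cfsg.Agent.Lib.Coprime.CoprimeAction V S := Cfsg.Agent.Lib.Coprime.coprimeAction_of_isPGroup D.hS.isP D.hVq D.hNS
  have hbot := hca.commutator_inf_centralizer_eq_bot (D.hab hG)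
  rw [← D.eq_commutator hG] at hbot
  apply D.bz_ne_bot hG
  rw [eq_bot_iff, ← hbot]
  intro z hz
  exact ⟨hz.1, hz.1, (le_centralizer_iff.mp h) hz⟩

/-- A mover fixing `Z₀` and moving `Z₁`. -/
theorem exists_Z_mover (D : BData M L S V q) (hG : IsMinSimpleOddOrder G) :
    ∃ r : ℕ, r.Prime ∧ ∃ R₀ P₀, BMove M L S V R₀ P₀ q r ∧ r < q ∧ R₀ ≤ centralizer ((bzOf M S : Subgroup G) : Set G) ∧
      ¬ R₀ ≤ centralizer ((bzOf L S : Subgroup G) : Set G) := by
  classical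
  obtain ⟨v, hv, hvn⟩ := SetLike.not_le_iff_exists.mp (D.not_le_centralizer_bz hG)
  obtain ⟨a, ha, hna, r, hr, k, hak⟩ := exists_primary_not_mem _ rfl hvn
  haveI := Fact.mk hr
  have haV : a ∈ V := (zpowers_le.mpr hv) ha
  have haN : a ∈ normalizer (S : Set G) := D.hNS haV
  have hacS : a ∉ centralizer (S : Set G) := fun h => hna
    (centralizer_le (s := ((bzOf L S : Subgroup G) : Set G)) (t := (S : Set G)) (fun z hz => hz.1) h)
  obtain ⟨R₀, P₀, A, hrq, hRa, h⟩ := D.exists_bmove hG haV hak hacS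
  have hcomm : ∀ {x y : G}, x * y * x⁻¹ * y⁻¹ = 1 → y * x = x * y := by
    intro x y hxy
    have h1 : x * y * x⁻¹ = y := by rwa [mul_inv_eq_one] at hxy
    rw [mul_inv_eq_iff_eq_mul] at h1
    exact h1.symm
  obtain ⟨z, hz, hz'⟩ : ∃ z ∈ bzOf L S, z * a * z⁻¹ * a⁻¹ ≠ 1 := by
    by_contra hcon
    push Not at hcon
    apply hna
    rw [mem_centralizer_iff]
    intro x hx
    exact (hcomm (hcon x hx)).symm
  have hmem := h z hz.1
  have hmem2 : z * a * z⁻¹ * a⁻¹ ∈ bzOf L S := by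
    have h4 : a * z⁻¹ * a⁻¹ ∈ bzOf L S := (mem_normalizer_iff.mp (D.symm.bz_norm haN) z⁻¹).mp (inv_mem hz)
    have e : z * a * z⁻¹ * a⁻¹ = z * (a * z⁻¹ * a⁻¹) := by group
    rw [e]
    exact mul_mem hz h4
  have hinf := D.inf_bz hG
  rcases A.main hG with h0 | h0
  · exfalso
    have h5 : z * a * z⁻¹ * a⁻¹ ∈ bzOf M S ⊓ bzOf L S := ⟨bz_le_of_main h0 A.hX_le hmem, hmem2⟩
    rw [hinf, mem_bot] at h5
    exact hz' h5
  · have hX1 := bz_le_of_main h0 A.hX_le
    have hR1 : R₀ ≤ centralizer ((bzOf M S : Subgroup G) : Set G) := by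
      intro b hb
      rw [mem_centralizer_iff]
      intro x hx
      have hbN : b ∈ normalizer (S : Set G) := A.hRN hb
      have h6 : x * b * x⁻¹ * b⁻¹ ∈ bzOf L S := hX1 (Subgroup.commutator_mem_commutator hx.1 hb)
      have h7 : x * b * x⁻¹ * b⁻¹ ∈ bzOf M S := by
        have h4 : b * x⁻¹ * b⁻¹ ∈ bzOf M S := (mem_normalizer_iff.mp (D.bz_norm hbN) x⁻¹).mp (inv_mem hx)
        have e : x * b * x⁻¹ * b⁻¹ = x * (b * x⁻¹ * b⁻¹) := by group
        rw [e]
        exact mul_mem hx h4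
      have h8 : x * b * x⁻¹ * b⁻¹ ∈ bzOf M S ⊓ bzOf L S := ⟨h7, h6⟩
      rw [hinf, mem_bot] at h8
      exact (hcomm h8).symm
    refine ⟨r, hr, R₀, P₀, A, hrq, hR1, fun hR2 => A.hnc ?_⟩
    intro b hb
    have h9 := mem_centralizer_sup_bg16 (hR1 hb) (hR2 hb)
    rwa [D.sup_bz hG] at h9

/-- Two commuting movers. -/
theorem exists_two_movers (D : BData M L S V q) (hG : IsMinSimpleOddOrder G) :
    ∃ r : ℕ, r.Prime ∧ ∃ r₁ : ℕ, r₁.Prime ∧ r ≠ r₁ ∧ ∃ R₀ P₀ R₁ : Subgroup G, BMove M L S V R₀ P₀ q r ∧ r < q ∧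
      R₀ ≤ centralizer ((bzOf M S : Subgroup G) : Set G) ∧ ¬ R₀ ≤ centralizer ((bzOf L S : Subgroup G) : Set G) ∧
      Nat.card R₁ = r₁ ∧ R₁ ≤ V ∧ R₁ ≤ centralizer ((bzOf L S : Subgroup G) : Set G) ∧
      ¬ R₁ ≤ centralizer ((bzOf M S : Subgroup G) : Set G) ∧ R₀ ≤ centralizer (R₁ : Set G) := by
  classical
  obtain ⟨r, hr, R₀, P₀, A, hrq, h1, h2⟩ := D.exists_Z_mover hG
  obtain ⟨r₁, hr₁, R₁, P₁, A₁, -, h3, h4⟩ := D.symm.exists_Z_mover hG
  haveI := Fact.mk hr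
  haveI := Fact.mk hr₁
  have hVM : V ≤ M := D.hNS.trans D.hNM
  have hinjV : Function.Injective (Subgroup.inclusion hVM) := Subgroup.inclusion_injective _
  have hrV : ∀ {u : ℕ} [Fact u.Prime], u ∉ sigma M → ∀ P : Subgroup G, IsPGroup u P → P ≤ V → IsCyclic P := by
    intro u _ hu P hP hle
    exact cyclic_of_prank_one hG (D.rank_one hG hu) hP (hle.trans hVM)
  have hrr₁ : r ≠ r₁ := by
    intro e
    have hc₁ : Nat.card R₁ = r := by rw [A₁.hR₀, e]
    have hV1 : PRankLE r 1 ↥V := prank_of_injective (Subgroup.inclusion hVM) hinjV (D.rank_one hG A.hrM)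
    obtain ⟨g, hg, e2⟩ := conj_of_card_of_prank hG hV1 A.hR₀ hc₁ A.hRV A₁.hRV
    apply h4
    rw [← e2]
    exact conj_le_centralizer_of_norm h1 (D.bz_norm (D.hNS hg))
  have hVt : V ≠ ⊤ := fun h => D.hM.1 (top_le_iff.1 (h ▸ hVM))
  obtain ⟨y, hy, hy1⟩ := exists_ne_one_of_card_prime hr A.hR₀
  obtain ⟨y₁, hy₁, hy₁1⟩ := exists_ne_one_of_card_prime hr₁ A₁.hR₀
  have hyo := orderOf_eq_of_card_prime hr A.hR₀ hy hy1
  have hy₁o := orderOf_eq_of_card_prime hr₁ A₁.hR₀ hy₁ hy₁1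
  have hR₀z := eq_zpowers_of_card_prime A.hR₀ hy hy1
  have hR₁z := eq_zpowers_of_card_prime A₁.hR₀ hy₁ hy₁1
  obtain ⟨c, hc, hd⟩ := dichotomy hG hVt hrr₁ (hrV A.hrM) (hrV A₁.symm.hrM) (A.hRV hy) (A₁.hRV hy₁) hyo hy₁o
  have hcN : c ∈ normalizer (S : Set G) := D.hNS hc
  set y' := c * y₁ * c⁻¹ with hy'
  have hy'V : y' ∈ V := V.mul_mem (V.mul_mem hc (A₁.hRV hy₁)) (V.inv_mem hc)
  have hy'N : y' ∈ normalizer (S : Set G) := D.hNS hy'V
  have hy'o : orderOf y' = r₁ := by rw [hy', ord_conj_bg17, hy₁o]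
  have hcardz : Nat.card (zpowers y') = r₁ := by rw [Nat.card_zpowers, hy'o]
  have e1 : zpowers y' = R₁.map (MulAut.conj c).toMonoidHom := by
    rw [hR₁z, MonoidHom.map_zpowers]
    rfl
  have h5 : zpowers y' ≤ centralizer ((bzOf L S : Subgroup G) : Set G) := by
    rw [e1]
    exact conj_le_centralizer_of_norm h3 (D.symm.bz_norm hcN)
  have h6 : ¬ zpowers y' ≤ centralizer ((bzOf M S : Subgroup G) : Set G) := by
    intro h
    apply h4
    have h7 := conj_le_centralizer_of_norm h (g := c⁻¹) (D.bz_norm (inv_mem hcN))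
    rw [e1, conj_map_conj_map, inv_mul_cancel, conj_map_one] at h7
    exact h7
  have h8 : ¬ zpowers y' ≤ centralizer (S : Set G) := fun h => h6
    (h.trans (centralizer_le (s := ((bzOf M S : Subgroup G) : Set G)) (t := (S : Set G)) (fun z hz => hz.1)))
  have hinf0 := inf_centralizer_eq_bot hr A.hR₀ A.hnc
  have hinf1 := inf_centralizer_eq_bot hr₁ hcardz h8
  have hcomm : y' * y = y * y' := by
    rcases hd with hd | hd
    · have h9 : y' * y * y'⁻¹ * y⁻¹ ∈ R₀ ⊓ centralizer (S : Set G) := by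
        refine Subgroup.mem_inf.mpr ⟨?_, D.commutator_V hG hy'N (A.hRN hy)⟩
        rw [hR₀z]
        exact mul_mem ((mem_normalizer_iff.mp hd y).mp (mem_zpowers y)) (inv_mem (mem_zpowers y))
      rw [hinf0, mem_bot] at h9
      have h10 : y' * y * y'⁻¹ = y := by rwa [mul_inv_eq_one] at h9
      rwa [mul_inv_eq_iff_eq_mul] at h10
    · have h9 : y * y' * y⁻¹ * y'⁻¹ ∈ zpowers y' ⊓ centralizer (S : Set G) := by
        refine Subgroup.mem_inf.mpr ⟨?_, D.commutator_V hG (A.hRN hy) hy'N⟩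
        exact mul_mem ((mem_normalizer_iff.mp hd y').mp (mem_zpowers y')) (inv_mem (mem_zpowers y'))
      rw [hinf1, mem_bot] at h9
      have h10 : y * y' * y⁻¹ = y' := by rwa [mul_inv_eq_one] at h9
      rw [mul_inv_eq_iff_eq_mul] at h10
      exact h10.symm
  refine ⟨r, hr, r₁, hr₁, hrr₁, R₀, P₀, zpowers y', A, hrq, h1, h2, hcardz, zpowers_le.mpr hy'V, h5, h6, ?_⟩
  intro a ha
  rw [mem_centralizer_iff]
  intro b hb
  rw [hR₀z] at ha
  obtain ⟨i, rfl⟩ := mem_zpowers_iff.mp ha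
  obtain ⟨j, rfl⟩ := mem_zpowers_iff.mp hb
  have h11 : Commute y' y := hcomm
  exact (h11.zpow_zpow j i).eq

end BData

end Cfsg.Agent.Lib.FT
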