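import Cfsg.Agent.Lib.FT.BG16e

/-!
BG16: Theorem B, the end of the proof.
-/

set_option autoImplicit false
set_option linter.unusedSectionVars false
set_option linter.style.haveILetI false

namespace Cfsg.Agent.Lib.FT

open Subgroup Cfsg Cfsg.Agent.Lib.OddLocal Cfsg.Agent.Lib.Basic

open Cfsg.Agent.Lib.Coprime (mem_conj_map conj_mem_conj_map conj_map_conj_map conj_map_one
  conj_map_mono mem_normalizer_of_conj_le conj_map_eq_iff_mem_normalizer isPGroup_conj_map)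

open scoped commutatorElement

variable {G : Type*} [Group G] [Finite G]

/-- Powers modulo a normalized subgroup. -/
theorem exists_mul_pow_bg16 {K : Subgroup G} {d u : G} (hd : d ∈ K) (hu : u ∈ normalizer (K : Set G)) (n : ℕ) :
    ∃ d' ∈ K, (d * u) ^ n = d' * u ^ n := by
  induction n with
  | zero => exact ⟨1, K.one_mem, by simp⟩
  | succ n ih =>
    obtain ⟨d', hd', e⟩ := ih
    have h1 : u ^ n ∈ normalizer (K : Set G) := pow_mem hu n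
    refine ⟨d' * (u ^ n * d * (u ^ n)⁻¹), K.mul_mem hd' ((mem_normalizer_iff.mp h1 d).mp hd), ?_⟩
    rw [pow_succ, e, pow_succ]
    group

/-- An element of `τ₂(H)` centralizing a nontrivial element of `H_σ`. -/
theorem eq_of_tau2_commute {H K : Subgroup G} {x y : G} {u : ℕ} (hG : IsMinSimpleOddOrder G) (hH : IsCoatom H) (hK : IsCoatom K) (hx : x ∈ H)
    (hxo : orderOf x = u) (hup : u.Prime) (hτ : u ∈ tau2 H) (hy : y ∈ sigmaCore H) (hy1 : y ≠ 1) (hc : x * y = y * x)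
    (hCK : centralizer ({x} : Set G) ≤ K) : K = H := by
  have hx1 : x ≠ 1 := by
    intro h
    rw [h, orderOf_one] at hxo
    exact hup.one_lt.ne hxo
  obtain ⟨-, hC2⟩ := s1420_d hG (huniq13 hG) (fun r _ K hK => hpl13 hG r K hK) hH hx hx1 (fun t ht hd => by
    rw [hxo] at hd
    rw [(Nat.prime_dvd_prime_iff_eq ht hup).mp hd]
    exact hτ) ⟨hx, y, hy, hy1, hc⟩
  exact hC2 K hK hCK

namespace BMove

variable {M L S V R₀ P₀ : Subgroup G} {q r : ℕ} [Fact q.Prime] [Fact r.Prime]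

/-- `q ∉ σ(P₀)`. -/
theorem not_sigma_P₀ (A : BMove M L S V R₀ P₀ q r) (hG : IsMinSimpleOddOrder G) {Q₀ : Subgroup G} (hQ₀ : Nat.card Q₀ = q) (hQ₀P : Q₀ ≤ P₀)
    (hNQ : normalizer (Q₀ : Set G) ≤ M) : q ∉ sigma P₀ := by
  classical
  intro hqP
  have hqq : q.Prime := Fact.out
  have huniq := huniq13 hG
  have D := A.D
  have hQ₀p : IsPGroup q Q₀ := isPGroup_of_card_prime hQ₀
  have hQ₀σ : Q₀ ≤ sigmaCore P₀ := le_sigmaCore_of_isPGroup hG huniq A.hP₀ hqP hQ₀p hQ₀P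
  obtain ⟨S', hS', hQS'⟩ := exists_isMaxP_ge hQ₀σ hQ₀p
  have hS'top : IsMaxP q S' ⊤ := IsMaxP.top_of_sigma hqP (IsMaxP.of_sigmaCore hG A.hP₀ hqP hS')
  obtain ⟨c, -, e⟩ := D.hS.exists_conj_eq hS'top
  have hS'ab : ∀ {a b : G}, a ∈ S' → b ∈ S' → a * b = b * a := by
    intro a b ha hb
    rw [← e, mem_conj_map] at ha hb
    have h1 := D.comm_S hG ha hb
    have h2 : c * (c⁻¹ * a * c * (c⁻¹ * b * c)) * c⁻¹ = c * (c⁻¹ * b * c * (c⁻¹ * a * c)) * c⁻¹ := by rw [h1]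
    have h3 : c * (c⁻¹ * a * c * (c⁻¹ * b * c)) * c⁻¹ = a * b := by group
    have h4 : c * (c⁻¹ * b * c * (c⁻¹ * a * c)) * c⁻¹ = b * a := by group
    rwa [h3, h4] at h2
  have hS'C : S' ≤ centralizer (Q₀ : Set G) := by
    intro s hs
    rw [mem_centralizer_iff]
    intro x hx
    exact hS'ab (hQS' hx) hs
  have hS'M : S' ≤ M := hS'C.trans ((centralizer_le_normalizer' _).trans hNQ)
  have hS'σM : S' ≤ sigmaCore M := le_sigmaCore_of_isPGroup hG huniq D.hM D.hqM hS'.isP hS'M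
  have hS'm : IsMaxP q S' (sigmaCore M) := ⟨hS'σM, hS'.isP, fun D' _ h2 h3 => hS'top.max D' le_top h2 h3⟩
  obtain ⟨m, hm, e2⟩ := (D.isMaxP_sigma hG).exists_conj_eq hS'm
  obtain ⟨b, hb, n, hn, rfl⟩ := D.fac hG (piCoreOf_le _ M hm)
  have e3 : S.map (MulAut.conj b).toMonoidHom = S' := by
    rw [← e2, ← conj_map_conj_map, (conj_map_eq_iff_mem_normalizer S n).mpr hn]
  obtain ⟨-, -, -, -, hlast⟩ := s1414_core hG huniq A.hP₀ (fun r _ _ => hpl13 hG r P₀ A.hP₀.1)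
  obtain ⟨-, hcomp, -⟩ := hlast q hqq (hqP.2.1) (D.not_beta hG P₀)
  obtain ⟨Y, hYσ, hYn, hYc, hYm⟩ := exists_complement_core hcomp
  have hRY : R₀ ≤ Y := fun a ha => hYm a (A.hRσ hG ha)
    (Nat.Coprime.coprime_dvd_left (Subgroup.orderOf_dvd_natCard R₀ ha) A.hcardR)
  apply A.hnc
  intro a ha
  rw [mem_centralizer_iff]
  intro s₀ hs₀
  have haN : a ∈ normalizer (S : Set G) := A.hRN ha
  have haM : a ∈ M := D.hNM haN
  set s := b * s₀ * b⁻¹ with hs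
  have hsS' : s ∈ S' := e3 ▸ conj_mem_conj_map S b s₀ hs₀
  have hg : s * a * s⁻¹ * a⁻¹ ∈ Y :=
    Y.mul_mem ((mem_normalizer_iff.mp (hYn (hS'.le hsS')) a).mp (hRY ha)) (Y.inv_mem (hRY ha))
  set u := s₀ * a * s₀⁻¹ * a⁻¹ with hu
  have huS : u ∈ S := by
    have h4 : a * s₀⁻¹ * a⁻¹ ∈ S := (mem_normalizer_iff.mp haN s₀⁻¹).mp (S.inv_mem hs₀)
    have e : u = s₀ * (a * s₀⁻¹ * a⁻¹) := by
      rw [hu]
      group
    rw [e]
    exact S.mul_mem hs₀ h4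
  have huM : u ∈ M := D.hSM huS
  have hnM := D.bcore_norm
  have hs₀M : s₀ ∈ M := D.hSM hs₀
  set c' := b * s₀ * b⁻¹ * s₀⁻¹ with hc'
  have hc'b : c' ∈ piCoreOf (beta M) M := by
    have e : c' = b * (s₀ * b⁻¹ * s₀⁻¹) := by
      rw [hc']
      group
    rw [e]
    exact mul_mem hb ((mem_normalizer_iff.mp (hnM hs₀M) b⁻¹).mp (inv_mem hb))
  set d := c' * (u * (a * c'⁻¹ * a⁻¹) * u⁻¹) with hd
  have hdb : d ∈ piCoreOf (beta M) M := by
    refine mul_mem hc'b ((mem_normalizer_iff.mp (hnM huM) _).mp ?_)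
    exact (mem_normalizer_iff.mp (hnM haM) _).mp (inv_mem hc'b)
  have e4 : s * a * s⁻¹ * a⁻¹ = d * u := by
    have e5 : s = c' * s₀ := by
      rw [hs, hc']
      group
    have e6 : s₀ * a * s₀⁻¹ = u * a := by
      rw [hu]
      group
    calc s * a * s⁻¹ * a⁻¹ = c' * (s₀ * a * s₀⁻¹) * c'⁻¹ * a⁻¹ := by
          rw [e5]
          group
      _ = c' * (u * a) * c'⁻¹ * a⁻¹ := by rw [e6]
      _ = d * u := by
          rw [hd]
          group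
  set n' := orderOf (s * a * s⁻¹ * a⁻¹) with hn'
  have hgc : n'.Coprime q := Nat.Coprime.coprime_dvd_left (Subgroup.orderOf_dvd_natCard Y hg) hYc
  obtain ⟨d', hd', e5⟩ := exists_mul_pow_bg16 hdb (hnM huM) n'
  have h6 : d' * u ^ n' = 1 := by
    rw [← e5, ← e4, hn', pow_orderOf_eq_one]
  have h7 : u ^ n' ∈ S ⊓ piCoreOf (beta M) M := by
    refine Subgroup.mem_inf.mpr ⟨pow_mem huS n', ?_⟩
    have e6 : u ^ n' = d'⁻¹ := eq_inv_of_mul_eq_one_right h6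
    rw [e6]
    exact inv_mem hd'
  rw [D.inf_bcore hG, mem_bot] at h7
  have h8 : orderOf u ∣ n' := orderOf_dvd_of_pow_eq_one h7
  obtain ⟨k, hk⟩ := IsPGroup.iff_card.mp D.hS.isP
  have h9 : orderOf u ∣ q ^ k := by
    rw [← hk]
    exact Subgroup.orderOf_dvd_natCard S huS
  have h10 : (orderOf u).Coprime (q ^ k) := Nat.Coprime.coprime_dvd_left h8 (hgc.pow_right k)
  have h11 : orderOf u = 1 := Nat.Coprime.eq_one_of_dvd h10 h9
  have h12 : u = 1 := orderOf_eq_one_iff.mp h11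
  rw [hu] at h12
  have h13 : s₀ * a * s₀⁻¹ = a := by rwa [mul_inv_eq_one] at h12
  rw [mul_inv_eq_iff_eq_mul] at h13
  exact h13

end BMove

namespace BData

variable {M L S V : Subgroup G} {q : ℕ} [Fact q.Prime]

/-- The final contradiction. -/
theorem final (D : BData M L S V q) (hG : IsMinSimpleOddOrder G) (IH : ThmBBelow G q) {r r₁ : ℕ} [Fact r.Prime] [Fact r₁.Prime]
    {R₀ P₀ R₁ : Subgroup G} (A : BMove M L S V R₀ P₀ q r) (hrq : r < q) (hrr₁ : r ≠ r₁)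
    (h1 : R₀ ≤ centralizer ((bzOf M S : Subgroup G) : Set G)) (h2 : ¬ R₀ ≤ centralizer ((bzOf L S : Subgroup G) : Set G))
    (hR₁ : Nat.card R₁ = r₁) (hR₁V : R₁ ≤ V) (h3 : R₁ ≤ centralizer ((bzOf L S : Subgroup G) : Set G))
    (h4 : ¬ R₁ ≤ centralizer ((bzOf M S : Subgroup G) : Set G)) (h5 : R₀ ≤ centralizer (R₁ : Set G)) : False := by
  classical
  have hqq : q.Prime := Fact.out
  have hrr : r.Prime := Fact.out
  have hrr1 : r₁.Prime := Fact.out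
  have huniq := huniq13 hG
  have hZ₀c := D.bz_cyclic hG
  have hZ₁c := D.symm.bz_cyclic hG
  have hZ₀1 := D.bz_ne_bot' hG
  have hZ₀p : IsPGroup q (bzOf M S) := D.hS.isP.to_le inf_le_left
  have hM := D.hM
  have hP₀ := A.hP₀
  obtain ⟨x₀, hx₀, hx₀o⟩ := exists_orderOf_of_isPGroup hZ₀p hZ₀1
  have hQ₀c : Nat.card (zpowers x₀) = q := by rw [Nat.card_zpowers, hx₀o]
  set Q₀ := zpowers x₀ with hQ₀def
  have hQ₀1 : Q₀ ≠ ⊥ := ne_bot_of_card_prime hqq hQ₀c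
  have hQ₀Z : Q₀ ≤ bzOf M S := zpowers_le.mpr hx₀
  have hQ₀S : Q₀ ≤ S := hQ₀Z.trans inf_le_left
  have hQ₀M : Q₀ ≤ M := hQ₀S.trans D.hSM
  have hQ₀p : IsPGroup q Q₀ := isPGroup_of_card_prime hQ₀c
  have huniqQ : ∀ Z' : Subgroup G, Z' ≤ bzOf M S → Nat.card Z' = q → Z' = Q₀ := fun Z' h h' =>
    eq_of_card_eq_of_le_isCyclic hZ₀c h hQ₀Z (by rw [h', hQ₀c])
  have hNQ₀ : normalizer (S : Set G) ≤ normalizer (Q₀ : Set G) := by
    intro n hn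
    rw [← conj_map_eq_iff_mem_normalizer]
    apply huniqQ
    · rintro _ ⟨x, hx, rfl⟩
      exact (mem_normalizer_iff.mp (D.bz_norm hn) x).mp (hQ₀Z hx)
    · rw [Cfsg.Agent.Lib.Coprime.card_conj_map, hQ₀c]
  have hbQ₀ : piCoreOf (beta M) M ≤ centralizer (Q₀ : Set G) :=
    le_centralizer_iff.mp (hQ₀Z.trans inf_le_right)
  have hMQ₀ : M ≤ normalizer (Q₀ : Set G) := by
    intro m hm
    obtain ⟨b, hb, n, hn, rfl⟩ := D.fac hG hm
    exact mul_mem ((centralizer_le_normalizer' _) (hbQ₀ hb)) (hNQ₀ hn)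
  have hNeq : normalizer (Q₀ : Set G) = M := normalizer_eq_of_coatom_le hG hM hQ₀1 hQ₀M hMQ₀
  have hCQ₀M : centralizer (Q₀ : Set G) ≤ M := (centralizer_le_normalizer' _).trans hNeq.le
  have hCR₀ : centralizer (R₀ : Set G) ≤ P₀ := (centralizer_le_normalizer' _).trans A.hNP₀
  have hR₀Q₀ : R₀ ≤ centralizer (Q₀ : Set G) :=
    h1.trans (centralizer_le (s := (Q₀ : Set G)) (t := ((bzOf M S : Subgroup G) : Set G)) (fun z hz => hQ₀Z hz))
  have hQ₀CR₀ : Q₀ ≤ centralizer (R₀ : Set G) := le_centralizer_iff.mp hR₀Q₀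
  have hR₁CR₀ : R₁ ≤ centralizer (R₀ : Set G) := le_centralizer_iff.mp h5
  have hQ₀P : Q₀ ≤ P₀ := hQ₀CR₀.trans hCR₀
  have hR₁P : R₁ ≤ P₀ := hR₁CR₀.trans hCR₀
  have hRσ := A.hRσ hG
  have hqP : q ∉ sigma P₀ := A.not_sigma_P₀ hG hQ₀c hQ₀P hNeq.le
  obtain ⟨y, hy, hy1⟩ := exists_ne_one_of_card_prime hrr A.hR₀
  -- the `q`-rank of `P₀`
  have hrqP : PRankLE q 1 ↥P₀ := by
    by_contra hr
    have hτ : q ∈ tau2 P₀ := ⟨hqq, hqP, D.prank_coatom hG P₀, hr⟩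
    have e := eq_of_tau2_commute hG hP₀ hM (hQ₀P (mem_zpowers x₀)) hx₀o hqq hτ (hRσ hy) hy1
      ((mem_centralizer_iff.mp (hQ₀CR₀ (mem_zpowers x₀)) y hy).symm)
      ((cent_le_norm x₀).trans hNeq.le)
    exact A.hrM (e ▸ A.hrP₀)
  have hD₀ : sigmaCore P₀ ⊓ centralizer (Q₀ : Set G) ≠ ⊥ := by
    intro h
    have h6 : y ∈ sigmaCore P₀ ⊓ centralizer (Q₀ : Set G) := ⟨hRσ hy, hR₀Q₀ hy⟩
    rw [h, mem_bot] at h6
    exact hy1 h6
  have hCQ : Config P₀ Q₀ q := ⟨hP₀, hqP, hrqP, hQ₀c, hQ₀P, hD₀⟩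
  -- `R₁` moves `Q₀`
  have hcR₁q : (Nat.card R₁).Coprime q := Nat.Coprime.coprime_dvd_left (Subgroup.card_dvd_of_le hR₁V) D.hVq
  have hq2 : q ≠ 2 := prime_odd hG hqq (D.hqM.2.1.trans (Subgroup.card_subgroup_dvd_card M))
  have hr2 : r ≠ 2 := prime_odd hG hrr (A.hrP₀.2.1.trans (Subgroup.card_subgroup_dvd_card P₀))
  have hR₁N : R₁ ≤ normalizer ((bzOf M S : Subgroup G) : Set G) := fun a ha => D.bz_norm (D.hNS (hR₁V ha))
  obtain ⟨y₀, hy₀, hy₀o, hR₁N', hR₁nc⟩ := exists_prime_moved hq2 hcR₁q hZ₀p hR₁N hZ₀c h4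
  have e₀ : zpowers y₀ = Q₀ := huniqQ _ (zpowers_le.mpr hy₀) (by rw [Nat.card_zpowers, hy₀o])
  rw [e₀] at hR₁N' hR₁nc
  have hσP : sigmaCore P₀ ≤ P₀ := piCoreOf_le _ P₀
  have hσn : P₀ ≤ normalizer (sigmaCore P₀ : Set G) := le_normalizer_piCoreOf (sigma P₀) P₀
  have hσt : sigmaCore P₀ ≠ ⊤ := fun h => hP₀.1 (top_le_iff.1 (h ▸ hσP))
  have hσs : Group.IsSolvable ↥(sigmaCore P₀) := IsMinSimpleOddOrder.isSolvable hG hσt
  have hcomm' : ∀ {x a : G}, x * a * x⁻¹ * a⁻¹ = 1 → a * x = x * a := by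
    intro x a hxy
    have h1 : x * a * x⁻¹ = a := by rwa [mul_inv_eq_one] at hxy
    rw [mul_inv_eq_iff_eq_mul] at h1
    exact h1.symm
  -- `r₁ ∉ σ(P₀)`
  have hr₁P : r₁ ∉ sigma P₀ := by
    intro hr₁
    have hR₁σ := le_sigmaCore_of_isPGroup hG huniq hP₀ hr₁ (isPGroup_of_card_prime hR₁) hR₁P
    obtain ⟨a, ha, hna⟩ := SetLike.not_le_iff_exists.mp hR₁nc
    obtain ⟨x, hx, hxa⟩ : ∃ x ∈ Q₀, x * a * x⁻¹ * a⁻¹ ≠ 1 := by
      by_contra hcon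
      push Not at hcon
      apply hna
      rw [mem_centralizer_iff]
      intro x hx
      exact (hcomm' (hcon x hx)).symm
    have h6 : x * a * x⁻¹ * a⁻¹ ∈ sigmaCore P₀ :=
      mul_mem ((mem_normalizer_iff.mp (hσn (hQ₀P hx)) a).mp (hR₁σ ha)) (inv_mem (hR₁σ ha))
    have h7 : x * a * x⁻¹ * a⁻¹ ∈ Q₀ := by
      have e : x * a * x⁻¹ * a⁻¹ = x * (a * x⁻¹ * a⁻¹) := by group
      rw [e]
      exact mul_mem hx ((mem_normalizer_iff.mp (hR₁N' ha) x⁻¹).mp (inv_mem hx))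
    have h8 := orderOf_eq_of_card_prime hqq hQ₀c h7 hxa
    apply hqP
    refine piCoreOf_isPi (sigma P₀) P₀ q hqq ?_
    rw [← h8]
    exact Subgroup.orderOf_dvd_natCard _ h6
  have hMv : Mover P₀ Q₀ R₁ q r₁ := ⟨hCQ, hR₁, hR₁P, hR₁N', hR₁nc⟩
  have hτ₃ := hMv.tau3
  obtain ⟨E, hE, hQ₀E⟩ := exists_compl_sigma_ge hG hP₀ hQ₀P (fun u hu hd => by
    rw [hQ₀c] at hd
    rw [(Nat.prime_dvd_prime_iff_eq hu hqq).mp hd]
    exact hqP)
  have hEN := normal_of_tau3 hG hP₀ hE hτ₃ hQ₀E hQ₀c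
  -- `T₀`
  have hR₁Q₀' : R₁ ≤ normalizer (Q₀ : Set G) := hR₁N'
  have hB₁a : Cfsg.Agent.Lib.Coprime.CoprimeAction (Q₀ ⊔ R₁) (sigmaCore P₀) := by
    refine ⟨(sup_le hQ₀P hR₁P).trans hσn, ?_, Or.inr hσs⟩
    refine Nat.coprime_of_dvd fun u hu h6 h7 => ?_
    have hu2 : u ∈ sigma P₀ := piCoreOf_isPi (sigma P₀) P₀ u hu h7
    rcases prime_dvd_sup hR₁Q₀' hu h6 with h8 | h8
    · rw [hQ₀c] at h8
      exact hqP ((Nat.prime_dvd_prime_iff_eq hu hqq).mp h8 ▸ hu2)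
    · rw [hR₁] at h8
      exact hr₁P ((Nat.prime_dvd_prime_iff_eq hu hrr1).mp h8 ▸ hu2)
  have hB₁R : Q₀ ⊔ R₁ ≤ normalizer (R₀ : Set G) :=
    sup_le (hQ₀CR₀.trans (centralizer_le_normalizer' _)) (hR₁CR₀.trans (centralizer_le_normalizer' _))
  obtain ⟨T₀, hT₀, hB₁T, hRT⟩ := Cfsg.Agent.Lib.Coprime.exists_invariant_hall {r} _ hB₁a hσs rfl hRσ hB₁R (fun u hu hd => by
    rw [A.hR₀] at hd
    exact (Nat.prime_dvd_prime_iff_eq hu hrr).mp hd)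
  obtain ⟨hT₀m, hT₀p⟩ := isMaxP_of_isPiHallOf hT₀
  have hR₀1 : R₀ ≠ ⊥ := ne_bot_of_card_prime hrr A.hR₀
  have hT₀1 : T₀ ≠ ⊥ := fun h => hR₀1 (le_bot_iff.mp (h ▸ hRT))
  -- `P₁`
  have hR₁S : ¬ R₁ ≤ centralizer (S : Set G) := fun h => h4
    (h.trans (centralizer_le (s := ((bzOf M S : Subgroup G) : Set G)) (t := (S : Set G)) (fun z hz => hz.1)))
  obtain ⟨P₁, A₁, -⟩ := D.exists_bmove_of_prime hG hR₁ hR₁V hR₁S
  obtain ⟨y₁, hy₁, hy₁1⟩ := exists_ne_one_of_card_prime hrr1 hR₁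
  have hy₁o := orderOf_eq_of_card_prime hrr1 hR₁ hy₁ hy₁1
  have hrr1P : PRankLE r₁ 1 ↥P₀ := by
    by_contra hr
    have hpr2 : PRankLE r₁ 2 ↥P₀ := by
      by_contra h
      exact hr₁P (alpha_sub_sigma hG huniq hP₀ ⟨hrr1, h⟩)
    have hτ : r₁ ∈ tau2 P₀ := ⟨hrr1, hr₁P, hpr2, hr⟩
    have e := eq_of_tau2_commute hG hP₀ A₁.hP₀ (hR₁P hy₁) hy₁o hrr1 hτ (hRσ hy) hy1
      ((mem_centralizer_iff.mp (hR₁CR₀ hy₁) y hy).symm)
      ((eq_zpowers_of_card_prime hR₁ hy₁ hy₁1 ▸ (cent_le_norm y₁)).trans A₁.hNP₀)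
    exact hr₁P (e ▸ A₁.hrP₀)
  have hD₁ : sigmaCore P₀ ⊓ centralizer (R₁ : Set G) ≠ ⊥ := by
    intro h
    have h6 : y ∈ sigmaCore P₀ ⊓ centralizer (R₁ : Set G) := ⟨hRσ hy, h5 hy⟩
    rw [h, mem_bot] at h6
    exact hy1 h6
  have hCR₁ : Config P₀ R₁ r₁ := ⟨hP₀, hr₁P, hrr1P, hR₁, hR₁P, hD₁⟩
  have hrσP₁ : r ∉ sigma P₁ := by
    intro h
    obtain ⟨c, e⟩ := conj_of_below IH hrq hP₀ A₁.hP₀ A.hrP₀ h
    exact hr₁P (e ▸ sigma_conj_of_mem A₁.hrP₀ c)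
  have hPR : PRankLE r 1 ↥P₁ := prank_one_of hG hCR₁ A₁.hP₀ A₁.hNP₀ A₁.hrP₀ A.hR₀ (le_inf hRσ h5) hrσP₁
  have hcyc : IsCyclic ↥(T₀ ⊓ centralizer (R₁ : Set G)) :=
    cyclic_of_prank_one hG hPR (hT₀p.to_le inf_le_left) (inf_le_right.trans ((centralizer_le_normalizer' _).trans A₁.hNP₀))
  have hqr : q ≠ r := A.hrq.symm
  have hT₀C : T₀ ≤ centralizer (Q₀ : Set G) := by
    refine lemmaF (q := r) (U := Q₀) (R₀ := R₁) (Q₁ := R₀) hr2 hT₀p (le_sup_left.trans hB₁T) (le_sup_right.trans hB₁T) hR₁N'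
      (by rw [hQ₀c]; exact (Nat.coprime_primes hqq hrr).mpr hqr) (by rw [hR₁]; exact hrr1)
      (by rw [hR₁]; exact (Nat.coprime_primes hrr1 hrr).mpr hrr₁.symm)
      (fun y hy hy1 u hu hyu => fpf_of_card_prime hrr1 hqq hR₁ hQ₀c hR₁nc hy hy1 hu hyu)
      hcyc hR₀1 hRT hR₀Q₀ h5
  -- `T₀` is a cyclic Sylow subgroup of `G` in `M`
  have hT₀P : IsMaxP r T₀ P₀ := IsMaxP.of_sigmaCore hG hP₀ A.hrP₀ hT₀m
  have hT₀top : IsMaxP r T₀ ⊤ := IsMaxP.top_of_sigma A.hrP₀ hT₀P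
  have hT₀M : T₀ ≤ M := hT₀C.trans hCQ₀M
  have hT₀c : IsCyclic T₀ := cyclic_of_prank_one hG (D.rank_one hG A.hrM) hT₀p hT₀M
  have hT₀t : T₀ ≠ ⊤ := fun h => hM.1 (top_le_iff.1 (h ▸ hT₀M))
  have hT₀ab : ∀ {a b : G}, a ∈ T₀ → b ∈ T₀ → a * b = b * a := by
    intro a b ha hb
    letI := IsCyclic.commGroup (α := ↥T₀)
    exact congrArg Subtype.val (mul_comm (⟨a, ha⟩ : T₀) ⟨b, hb⟩)
  obtain ⟨w, hw, hwn⟩ := SetLike.not_le_iff_exists.mp (not_normalizer_le_centralizer hG hT₀top hT₀1 hT₀t)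
  have hwP : w ∈ P₀ := normalizer_le_of_isMaxP A.hrP₀ hT₀P hw
  obtain ⟨a₀, ha₀, b₀, hb₀, e₀'⟩ := hE.2.2.2 w⁻¹ (inv_mem hwP)
  set n := a₀⁻¹ with hn
  set k := b₀⁻¹ with hk
  have hw2 : w = k * n := by
    have h6 : w = (a₀ * b₀)⁻¹ := by rw [← e₀', inv_inv]
    rw [h6, hk, hn]
    group
  have hnE : n ∈ E := inv_mem ha₀
  have hkσ : k ∈ sigmaCore P₀ := inv_mem hb₀
  have hnN : n ∈ normalizer (Q₀ : Set G) := hEN hnE
  have hnP : n ∈ P₀ := hE.1 hnE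
  have hT₀K : IsMaxP r T₀ (sigmaCore P₀ ⊓ centralizer (Q₀ : Set G)) :=
    ⟨le_inf hT₀.1 hT₀C, hT₀p, fun D' _ h6 h7 => hT₀top.max D' le_top h6 h7⟩
  have hle' : T₀.map (MulAut.conj n).toMonoidHom ≤ sigmaCore P₀ ⊓ centralizer (Q₀ : Set G) := by
    rintro _ ⟨t, ht, rfl⟩
    refine Subgroup.mem_inf.mpr ⟨?_, ?_⟩
    · exact (mem_normalizer_iff.mp (hσn hnP) t).mp (hT₀.1 ht)
    · exact (mem_normalizer_iff.mp (Cfsg.Agent.Lib.OddLocal.mem_normalizer_centralizer hnN) t).mp (hT₀C ht)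
  obtain ⟨c, hc, hle⟩ := hT₀K.exists_conj_le hle' (isPGroup_conj_map hT₀p n)
  rw [conj_map_conj_map] at hle
  have e₂ : T₀.map (MulAut.conj (c * n)).toMonoidHom = T₀ := by
    apply Subgroup.eq_of_le_of_card_ge hle
    rw [Cfsg.Agent.Lib.Coprime.card_conj_map]
  have hn₁T : c * n ∈ normalizer (T₀ : Set G) := (conj_map_eq_iff_mem_normalizer T₀ (c * n)).mp e₂
  have hn₁Q : c * n ∈ normalizer (Q₀ : Set G) := mul_mem ((centralizer_le_normalizer' _) hc.2) hnN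
  have hn₁M : c * n ∈ M := hNeq.le hn₁Q
  have hgσ : k * c⁻¹ ∈ sigmaCore P₀ := mul_mem hkσ (inv_mem hc.1)
  have hw3 : w = (k * c⁻¹) * (c * n) := by
    rw [hw2]
    group
  have hgN : k * c⁻¹ ∈ normalizer (T₀ : Set G) := by
    have h6 : k * c⁻¹ = w * (c * n)⁻¹ := by
      rw [hw3]
      group
    rw [h6]
    exact mul_mem hw (inv_mem hn₁T)
  -- `k c⁻¹` centralizes `T₀`
  have hrβ : r ∉ beta P₀ := by
    intro h
    exact h.1.2 (hT₀P.prank_of (prank_mono hrr.pos (by norm_num) (prank_one_of_cyclic hT₀c)))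
  obtain ⟨-, -, -, -, hlast⟩ := s1414_core hG huniq hP₀ (fun r _ _ => hpl13 hG r P₀ hP₀.1)
  obtain ⟨-, hcomp, -⟩ := hlast r hrr (A.hrP₀.2.1) hrβ
  obtain ⟨Y, hYσ, hYn, hYc, hYm, hfac⟩ := exists_complement_factor hcomp hT₀m
  obtain ⟨y₂, hy₂, v, hv, e₃⟩ := hfac _ hgσ
  have hy₂N : y₂ ∈ normalizer (T₀ : Set G) := by
    have h6 : y₂ = (k * c⁻¹) * v⁻¹ := by
      rw [e₃]
      group
    rw [h6]
    exact mul_mem hgN (inv_mem (le_normalizer hv))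
  have hy₂C : y₂ ∈ centralizer (T₀ : Set G) := comm_of_sigma_element hG hP₀ hrβ hT₀p hT₀P.le (hYσ hy₂)
    (Nat.Coprime.coprime_dvd_left (Subgroup.orderOf_dvd_natCard Y hy₂) hYc) hy₂N
  have hvC : v ∈ centralizer (T₀ : Set G) := by
    rw [mem_centralizer_iff]
    intro t ht
    exact hT₀ab ht hv
  have hgC : k * c⁻¹ ∈ centralizer (T₀ : Set G) := by
    rw [e₃]
    exact mul_mem hy₂C hvC
  have hn₁nc : c * n ∉ centralizer (T₀ : Set G) := by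
    intro h
    apply hwn
    rw [hw3]
    exact mul_mem hgC h
  -- the `r'`-part of `n₁`
  obtain ⟨a, ha, b, hb, e₄, ⟨j, haj⟩, hbc⟩ := exists_primary_decomp (c * n) hrr
  have hzn : zpowers (c * n) ≤ normalizer (T₀ : Set G) := zpowers_le.mpr hn₁T
  have hazp : IsPGroup r (zpowers a) := isPGroup_zpowers_of_pow haj
  have haT : a ∈ T₀ := by
    have h6 := hT₀top.max (T₀ ⊔ zpowers a) le_top (hT₀p.to_sup_of_normal_left' hazp (zpowers_le.mpr (hzn ha))) le_sup_left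
    rw [← h6]
    exact mem_sup_right (mem_zpowers a)
  have haC : a ∈ centralizer (T₀ : Set G) := by
    rw [mem_centralizer_iff]
    intro t ht
    exact hT₀ab ht haT
  have hbnc : b ∉ centralizer (T₀ : Set G) := by
    intro h
    apply hn₁nc
    rw [e₄]
    exact mul_mem haC h
  have hbM : b ∈ M := (zpowers_le.mpr hn₁M) hb
  have hzb : zpowers b ≤ normalizer (T₀ : Set G) := zpowers_le.mpr (hzn hb)
  obtain ⟨y₃, hy₃, hy₃o, hA₂N, hA₂nc⟩ := exists_prime_moved (A := zpowers b) hr2 (by rw [Nat.card_zpowers]; exact hbc) hT₀p hzb hT₀c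
    (fun h => hbnc (h (mem_zpowers b)))
  have e₅ : zpowers y₃ = R₀ := eq_of_card_eq_of_le_isCyclic hT₀c (zpowers_le.mpr hy₃) hRT (by rw [Nat.card_zpowers, hy₃o, A.hR₀])
  rw [e₅] at hA₂N hA₂nc
  have hbNR : b ∈ normalizer (R₀ : Set G) := hA₂N (mem_zpowers b)
  have hbCR : b ∉ centralizer (R₀ : Set G) := fun h => hA₂nc (zpowers_le.mpr h)
  obtain ⟨x, hx, hxb⟩ : ∃ x ∈ R₀, x * b * x⁻¹ * b⁻¹ ≠ 1 := by
    by_contra hcon
    push Not at hcon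
    apply hbCR
    rw [mem_centralizer_iff]
    intro x hx
    exact (hcomm' (hcon x hx)).symm
  set c₀ := x * b * x⁻¹ * b⁻¹ with hc₀
  have hc₀R : c₀ ∈ R₀ := by
    have e : c₀ = x * (b * x⁻¹ * b⁻¹) := by
      rw [hc₀]
      group
    rw [e]
    exact mul_mem hx ((mem_normalizer_iff.mp hbNR x⁻¹).mp (inv_mem hx))
  have hR₀c₀ : R₀ = zpowers c₀ := eq_zpowers_of_card_prime A.hR₀ hc₀R hxb
  -- `R₀` acts trivially on `Z₁` modulo `M_β`
  obtain ⟨b₀', hb₀', n', hn', e₆⟩ := D.fac hG hbM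
  have hxN : x ∈ normalizer (S : Set G) := A.hRN hx
  have hxM : x ∈ M := D.hNM hxN
  have hn'M : n' ∈ M := D.hNM hn'
  set e' := x * n' * x⁻¹ * n'⁻¹ with he'
  have he'C : e' ∈ centralizer ((bzOf L S : Subgroup G) : Set G) :=
    commutator_mem_centralizer_of_cyclic hZ₁c (D.symm.bz_norm hxN) (D.symm.bz_norm hn')
  have he'M : e' ∈ M := mul_mem (mul_mem (mul_mem hxM hn'M) (inv_mem hxM)) (inv_mem hn'M)
  set W₁ := M ⊓ centralizer ((bzOf L S : Subgroup G) : Set G) with hW₁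
  have hW₁N : W₁ ≤ normalizer (piCoreOf (beta M) M : Set G) := inf_le_left.trans D.bcore_norm
  have hc₀W : c₀ ∈ piCoreOf (beta M) M ⊔ W₁ := by
    have e : c₀ = ((x * b₀' * x⁻¹) * (e' * b₀'⁻¹ * e'⁻¹)) * e' := by
      rw [hc₀, e₆, he']
      group
    rw [e]
    refine mul_mem (mem_sup_left (mul_mem ?_ ?_)) (mem_sup_right ⟨he'M, he'C⟩)
    · exact (mem_normalizer_iff.mp (D.bcore_norm hxM) _).mp hb₀'
    · exact (mem_normalizer_iff.mp (D.bcore_norm he'M) _).mp (inv_mem hb₀')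
  have hR₀W : R₀ ≤ piCoreOf (beta M) M ⊔ W₁ := by
    rw [hR₀c₀]
    exact zpowers_le.mpr hc₀W
  apply h2
  intro u hu
  rw [mem_centralizer_iff]
  intro z hz
  obtain ⟨b', hb', e'', he'', e₇⟩ := (Cfsg.Agent.Lib.Coprime.mem_sup_iff_of_le_normalizer hW₁N u).mp (hR₀W hu)
  have hzM : z ∈ M := D.hSM hz.1
  have he''z : e'' * z = z * e'' := (mem_centralizer_iff.mp he''.2 z hz).symm
  have huN : u ∈ normalizer (S : Set G) := A.hRN hu
  have h6 : u * z * u⁻¹ * z⁻¹ ∈ piCoreOf (beta M) M := by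
    have e : u * z * u⁻¹ * z⁻¹ = b' * (z * b'⁻¹ * z⁻¹) := by
      rw [e₇]
      calc b' * e'' * z * (b' * e'')⁻¹ * z⁻¹ = b' * (e'' * z) * e''⁻¹ * b'⁻¹ * z⁻¹ := by group
        _ = b' * (z * e'') * e''⁻¹ * b'⁻¹ * z⁻¹ := by rw [he''z]
        _ = b' * (z * b'⁻¹ * z⁻¹) := by group
    rw [e]
    exact mul_mem hb' ((mem_normalizer_iff.mp (D.bcore_norm hzM) _).mp (inv_mem hb'))
  have h7 : u * z * u⁻¹ * z⁻¹ ∈ S :=
    S.mul_mem ((mem_normalizer_iff.mp huN z).mp hz.1) (S.inv_mem hz.1)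
  have h8 : u * z * u⁻¹ * z⁻¹ ∈ S ⊓ piCoreOf (beta M) M := ⟨h7, h6⟩
  rw [D.inf_bcore hG, mem_bot] at h8
  exact hcomm' h8

/-- A configuration of Theorem B is impossible. -/
theorem false_of_below (D : BData M L S V q) (hG : IsMinSimpleOddOrder G) (IH : ThmBBelow G q) : False := by
  obtain ⟨r, hr, r₁, hr₁, hrr₁, R₀, P₀, R₁, A, hrq, h1, h2, hR₁, hR₁V, h3, h4, h5⟩ := D.exists_two_movers hG
  haveI := Fact.mk hr
  haveI := Fact.mk hr₁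
  exact D.final hG IH A hrq hrr₁ h1 h2 hR₁ hR₁V h3 h4 h5

end BData

/-- **Theorem B.** -/
theorem thmB (hG : IsMinSimpleOddOrder G) : ThmB G := by
  classical
  intro M L S q hq
  induction q using Nat.strong_induction_on generalizing M L S with
  | _ q ih =>
    intro hM hL hqM hqL hSp hS1 hSM hSL hNM hNL
    haveI := Fact.mk hq
    by_contra hne
    have IH : ThmBBelow G q := fun M' L' S' u hu huq => ih u huq M' L' S' hu
    obtain ⟨S', hS', hSS'⟩ := exists_isMaxP_ge (le_inf hSM hSL) hSp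
    obtain ⟨hN1, hS'L⟩ := s1424_core hG hM hqM hSp hS1 hSM hL hne hNL hS' hSS'
    have hN2 : normalizer (S' : Set G) ≤ L := normalizer_le_of_isMaxP hqL hS'L
    have hS'top : IsMaxP q S' ⊤ := IsMaxP.top_of_sigma hqL hS'L
    have hS'1 : S' ≠ ⊥ := fun h => hS1 (le_bot_iff.mp (h ▸ hSS'))
    have hS'N : IsMaxP q S' (normalizer (S' : Set G)) :=
      ⟨le_normalizer, hS'.isP, fun D' _ h2 h3 => hS'top.max D' le_top h2 h3⟩
    have hcop : (Nat.card S').Coprime (S'.relIndex (normalizer (S' : Set G))) := by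
      obtain ⟨k, hk⟩ := IsPGroup.iff_card.mp hS'.isP
      rw [hk]
      exact Nat.Coprime.pow_left _ ((Nat.Prime.coprime_iff_not_dvd hq).mpr (not_dvd_relIndex_of_isMaxP hS'N le_rfl))
    obtain ⟨V, hV, hVc⟩ := exists_compl_cop (le_normalizer : S' ≤ normalizer (S' : Set G)) le_rfl hcop
    have hV' : IsComplIn S' V (normalizer (S' : Set G)) := by
      refine ⟨hV.2.1, hV.1, by rw [inf_comm]; exact hV.2.2.1, fun m hm => ?_⟩
      obtain ⟨a, ha, b, hb, e⟩ := hV.2.2.2 m⁻¹ (inv_mem hm)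
      refine ⟨b⁻¹, inv_mem hb, a⁻¹, inv_mem ha, ?_⟩
      have e2 : m = (a * b)⁻¹ := by rw [← e, inv_inv]
      rw [e2]
      group
    have hVq : (Nat.card V).Coprime q := by
      rw [hVc]
      exact Nat.Coprime.symm ((Nat.Prime.coprime_iff_not_dvd hq).mpr (not_dvd_relIndex_of_isMaxP hS'N le_rfl))
    exact BData.false_of_below ⟨hM, hL, hne, hqM, hqL, hS'top, hS'1, hS'.le.trans inf_le_left, hS'.le.trans inf_le_right, hN1, hN2, hV', hVq⟩ hG IH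

end Cfsg.Agent.Lib.FT
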