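import Cfsg.Agent.Lib.FT.BG15i

/-!
BG17: partner theory, conditional on Theorem B.  See `docs/BG17.md`.
-/

set_option autoImplicit false
set_option linter.unusedSectionVars false
set_option linter.style.haveILetI false

namespace Cfsg.Agent.Lib.FT

open Subgroup Cfsg Cfsg.Agent.Lib.OddLocal Cfsg.Agent.Lib.Basic

open Cfsg.Agent.Lib.Coprime (mem_conj_map conj_mem_conj_map conj_map_conj_map conj_map_one
  conj_map_mono mem_normalizer_of_conj_le conj_map_eq_iff_mem_normalizer isPGroup_conj_map)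

open scoped commutatorElement

variable {G : Type*} [Group G] [Finite G]

/-- A subgroup of prime order is generated by any non-identity element. -/
theorem eq_zpowers_of_card_prime {Q : Subgroup G} {q : ℕ} [Fact q.Prime] (hQ : Nat.card Q = q) {x : G} (hx : x ∈ Q)
    (hx1 : x ≠ 1) : Q = zpowers x := by
  have hqq : q.Prime := Fact.out
  refine (Subgroup.eq_of_le_of_card_ge (zpowers_le.mpr hx) ?_).symm
  rw [hQ, Nat.card_zpowers]
  have h1 := Subgroup.orderOf_dvd_natCard Q hx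
  rw [hQ] at h1
  rcases (Nat.dvd_prime hqq).mp h1 with h2 | h2
  · exact absurd (orderOf_eq_one_iff.mp h2) hx1
  · exact h2.ge

/-- A subgroup of prime order contains a non-identity element. -/
theorem exists_ne_one_of_card_prime {Q : Subgroup G} {q : ℕ} (hq : q.Prime) (hQ : Nat.card Q = q) : ∃ x ∈ Q, x ≠ 1 := by
  have h1 : Q ≠ ⊥ := by
    rintro rfl
    simp at hQ
    exact hq.one_lt.ne hQ
  obtain ⟨y, hy⟩ := (Subgroup.ne_bot_iff_exists_ne_one).mp h1
  exact ⟨y, y.2, fun e => hy (Subtype.ext e)⟩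

theorem ne_bot_of_card_prime {Q : Subgroup G} {q : ℕ} (hq : q.Prime) (hQ : Nat.card Q = q) : Q ≠ ⊥ := by
  rintro rfl
  simp at hQ
  exact hq.one_lt.ne hQ

/-- A `p`-element has prime-power order. The order of an element of prime order. -/
theorem orderOf_eq_of_card_prime {Q : Subgroup G} {q : ℕ} (hq : q.Prime) (hQ : Nat.card Q = q) {x : G} (hx : x ∈ Q)
    (hx1 : x ≠ 1) : orderOf x = q := by
  have h1 := Subgroup.orderOf_dvd_natCard Q hx
  rw [hQ] at h1
  rcases (Nat.dvd_prime hq).mp h1 with h2 | h2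
  · exact absurd (orderOf_eq_one_iff.mp h2) hx1
  · exact h2

/-- `q ∈ σ(M) ∩ σ(H)` and `N(X) ≤ H` for `X ≤ M` of order `q` force `H = M`. -/
theorem eq_of_sigma_of_norm (hB : ThmB G) {M H X : Subgroup G} {q : ℕ} [Fact q.Prime] (hG : IsMinSimpleOddOrder G)
    (hM : IsCoatom M) (hq : q ∈ sigma M) (hX : Nat.card X = q) (hXM : X ≤ M) (hH : IsCoatom H)
    (hNX : normalizer (X : Set G) ≤ H) (hqH : q ∈ sigma H) : H = M := by
  classical
  by_contra hne
  have hqp : q.Prime := Fact.out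
  have hXH : X ≤ H := le_normalizer.trans hNX
  have hXp : IsPGroup q X := IsPGroup.of_card (n := 1) (by simpa using hX)
  have hX1 : X ≠ ⊥ := ne_bot_of_card_prime hqp hX
  obtain ⟨S, hS, hXS⟩ := exists_isMaxP_ge (le_inf hXM hXH) hXp
  obtain ⟨hNS, hSH⟩ := s1424_core hG hM hq hXp hX1 hXM hH hne hNX hS hXS
  have hNSH : normalizer (S : Set G) ≤ H := normalizer_le_of_isMaxP hqH hSH
  have hS1 : S ≠ ⊥ := fun h => hX1 (le_bot_iff.mp (h ▸ hXS))
  exact hne (hB M H S q hqp hM hH hq hqH hS.isP hS1 (hS.le.trans inf_le_left) (hS.le.trans inf_le_right) hNS hNSH)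

/-- **S1378 core**: two maximal subgroups whose `σ`'s meet are conjugate. -/
theorem conj_of_sigma_sigma (hB : ThmB G) {M L : Subgroup G} {q : ℕ} [Fact q.Prime] (hM : IsCoatom M) (hL : IsCoatom L)
    (hqM : q ∈ sigma M) (hqL : q ∈ sigma L) : ∃ c : G, L.map (MulAut.conj c).toMonoidHom = M := by
  classical
  have hqp : q.Prime := Fact.out
  obtain ⟨S₂, hS₂L, hN₂⟩ := sigma_exists_sylow hqL
  obtain ⟨S₁, hS₁M, hN₁⟩ := sigma_exists_sylow hqM
  have h1 : IsMaxP q (S₁ : Subgroup G) ⊤ := ⟨le_top, S₁.isPGroup', fun D' _ h2 h3 => S₁.is_maximal' h2 h3⟩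
  have h2 : IsMaxP q (S₂ : Subgroup G) ⊤ := ⟨le_top, S₂.isPGroup', fun D' _ h2 h3 => S₂.is_maximal' h2 h3⟩
  obtain ⟨c, -, e⟩ := h2.exists_conj_eq h1
  refine ⟨c, ?_⟩
  have hL' : IsCoatom (L.map (MulAut.conj c).toMonoidHom) := coatom_conj hL c
  have hqL' : q ∈ sigma (L.map (MulAut.conj c).toMonoidHom) := sigma_conj_of_mem hqL c
  have hS₁L' : (S₁ : Subgroup G) ≤ L.map (MulAut.conj c).toMonoidHom := e ▸ conj_map_mono hS₂L c
  have hN₁L' : normalizer ((S₁ : Subgroup G) : Set G) ≤ L.map (MulAut.conj c).toMonoidHom := by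
    rw [← e, normalizer_conj_map]
    exact conj_map_mono hN₂ c
  have hS1 : (S₁ : Subgroup G) ≠ ⊥ := by
    intro h
    have hd : q ∣ Nat.card G := hqM.2.1.trans (Subgroup.card_subgroup_dvd_card M)
    have h3 := Sylow.dvd_card_of_dvd_card S₁ hd
    rw [h] at h3
    simp at h3
    exact hqp.one_lt.ne' h3
  exact hB M _ S₁ q hqp hM hL' hqM hqL' S₁.isPGroup' hS1 hS₁M hS₁L' hN₁ hN₁L'

/-! ### A `Config` with its partner. -/

/-- The partner data. -/
structure Partner (M H X : Subgroup G) (p : ℕ) : Prop where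
  hC : Config M X p
  hH : IsCoatom H
  hN : normalizer (X : Set G) ≤ H
  hpH : p ∈ sigma H
  hXσ : X ≤ sigmaCore H
  disj : ∀ r : ℕ, r ∈ sigma H → r ∉ sigma M

theorem partner_of_config (hB : ThmB G) {M H X : Subgroup G} {p : ℕ} [Fact p.Prime] (hG : IsMinSimpleOddOrder G)
    (hC : Config M X p) (hH : IsCoatom H) (hN : normalizer (X : Set G) ≤ H) : Partner M H X p := by
  classical
  have hpp : p.Prime := Fact.out
  have hpH : p ∈ sigma H := thmT hG M X H p hpp hC hH hN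
  have hXp : IsPGroup p X := IsPGroup.of_card (n := 1) (by simpa using hC.hX)
  refine ⟨hC, hH, hN, hpH, le_sigmaCore_of_isPGroup hG (huniq13 hG) hH hpH hXp (le_normalizer.trans hN), ?_⟩
  intro r hrH hrM
  haveI : Fact r.Prime := ⟨hrH.1⟩
  obtain ⟨c, e⟩ := conj_of_sigma_sigma hB hC.hM hH hrM hrH
  apply hC.hpσ
  rw [← e]
  exact sigma_conj_of_mem hpH c

namespace Partner

variable {M H X : Subgroup G} {p : ℕ}

theorem ne (P : Partner M H X p) : H ≠ M := by
  rintro rfl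
  exact P.hC.hpσ P.hpH

/-- `H_σ ∩ M_σ = 1`. -/
theorem sigma_inf (P : Partner M H X p) : sigmaCore H ⊓ sigmaCore M = ⊥ := by
  classical
  by_contra hne
  obtain ⟨y, hy⟩ := (Subgroup.ne_bot_iff_exists_ne_one).mp hne
  have h1 : orderOf (y : G) ≠ 1 := fun h => hy (Subtype.ext (orderOf_eq_one_iff.mp h))
  obtain ⟨r, hr, hd⟩ := Nat.exists_prime_and_dvd h1
  have hd1 : r ∣ Nat.card (sigmaCore H) := hd.trans (Subgroup.orderOf_dvd_natCard _ y.2.1)
  have hd2 : r ∣ Nat.card (sigmaCore M) := hd.trans (Subgroup.orderOf_dvd_natCard _ y.2.2)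
  exact P.disj r (piCoreOf_isPi (sigma H) H r hr hd1) (piCoreOf_isPi (sigma M) M r hr hd2)

/-- **(P2)**: `[H_σ ∩ M, M_σ ∩ H] = 1`. -/
theorem comm (P : Partner M H X p) {a b : G} (ha : a ∈ sigmaCore H ⊓ M) (hb : b ∈ sigmaCore M ⊓ H) : a * b = b * a := by
  have hσH : H ≤ normalizer (sigmaCore H : Set G) := le_normalizer_piCoreOf (sigma H) H
  have hσM : M ≤ normalizer (sigmaCore M : Set G) := le_normalizer_piCoreOf (sigma M) M
  have h1 : a * b * a⁻¹ * b⁻¹ ∈ sigmaCore H := by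
    have e : a * b * a⁻¹ * b⁻¹ = a * (b * a⁻¹ * b⁻¹) := by group
    rw [e]
    exact (sigmaCore H).mul_mem ha.1 ((mem_normalizer_iff.mp (hσH hb.2) a⁻¹).mp ((sigmaCore H).inv_mem ha.1))
  have h2 : a * b * a⁻¹ * b⁻¹ ∈ sigmaCore M := by
    refine (sigmaCore M).mul_mem ?_ ((sigmaCore M).inv_mem hb.1)
    exact (mem_normalizer_iff.mp (hσM ha.2) b).mp hb.1
  have h3 : a * b * a⁻¹ * b⁻¹ ∈ sigmaCore H ⊓ sigmaCore M := ⟨h1, h2⟩
  rw [P.sigma_inf, mem_bot] at h3
  have h5 : a * b * a⁻¹ = b := mul_inv_eq_one.mp h3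
  calc a * b = a * b * a⁻¹ * a := by group
    _ = b * a := by rw [h5]

theorem X_le (P : Partner M H X p) : X ≤ sigmaCore H ⊓ M := le_inf P.hXσ P.hC.hXM

theorem centralizer_le (P : Partner M H X p) : centralizer (X : Set G) ≤ H :=
  (centralizer_le_normalizer' X).trans P.hN

/-- `M_σ ∩ H = C_{M_σ}(X)`. -/
theorem inf_eq (P : Partner M H X p) : sigmaCore M ⊓ H = sigmaCore M ⊓ centralizer (X : Set G) := by
  apply le_antisymm
  · intro b hb
    refine ⟨hb.1, (mem_centralizer_iff.mpr ?_ : b ∈ centralizer (X : Set G))⟩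
    intro x hx
    exact P.comm (P.X_le hx) hb
  · exact inf_le_inf_left _ P.centralizer_le

/-- **L1**. -/
theorem prank_one (hG : IsMinSimpleOddOrder G) (P : Partner M H X p) {Q : Subgroup G} {q : ℕ} [Fact q.Prime]
    (hQ : Nat.card Q = q) (hQD : Q ≤ sigmaCore M ⊓ centralizer (X : Set G)) : PRankLE q 1 ↥H := by
  classical
  have hqq : q.Prime := Fact.out
  have huniq := huniq13 hG
  have hpp : p.Prime := P.hpH.1
  by_contra hr
  have hqσM : q ∈ sigma M := piCoreOf_isPi (sigma M) M q hqq (by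
    rw [← hQ]
    exact Subgroup.card_dvd_of_le (hQD.trans inf_le_left))
  have hqσH : q ∉ sigma H := fun h => P.disj q h hqσM
  have hr2 : PRankLE q 2 ↥H := by
    by_contra h
    exact hqσH (alpha_sub_sigma hG huniq P.hH ⟨hqq, h⟩)
  have hτ : q ∈ tau2 H := ⟨hqq, hqσH, hr2, hr⟩
  obtain ⟨x, hx, hx1⟩ := exists_ne_one_of_card_prime hqq hQ
  have hxo : orderOf x = q := orderOf_eq_of_card_prime hqq hQ hx hx1
  have hQH : Q ≤ H := hQD.trans (inf_le_right.trans P.centralizer_le)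
  obtain ⟨y, hy, hy1⟩ := exists_ne_one_of_card_prime hpp P.hC.hX
  have hxσ : x ∈ sigmaHat H := by
    refine ⟨hQH hx, y, P.hXσ hy, hy1, ?_⟩
    have := mem_centralizer_iff.mp (hQD hx).2 y hy
    exact this.symm
  obtain ⟨hC1, hC2⟩ := s1420_d hG huniq (fun r _ K hK => hpl13 hG r K hK) P.hH (hQH hx) hx1 (fun t ht hd => by
    rw [hxo] at hd
    rw [(Nat.prime_dvd_prime_iff_eq ht hqq).mp hd]
    exact hτ) hxσ
  have hQz : Q = zpowers x := eq_zpowers_of_card_prime hQ hx hx1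
  have hQ1 : Q ≠ ⊥ := ne_bot_of_card_prime hqq hQ
  have hM := P.hC.hM
  have hQM : Q ≤ M := hQD.trans (inf_le_left.trans (piCoreOf_le _ M))
  have hQt : Q ≠ ⊤ := fun h => hM.1 (top_le_iff.1 (h ▸ hQM))
  obtain ⟨H', hH', hNH'⟩ := (eq_top_or_exists_le_coatom (normalizer (Q : Set G))).resolve_left
    (IsMinSimpleOddOrder.normalizer_ne_top hG hQ1 hQt)
  have hCH' : centralizer ({x} : Set G) ≤ H' := by
    refine le_trans ?_ hNH'
    rw [hQz]
    exact cent_le_norm x
  have e := hC2 H' hH' hCH'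
  subst e
  obtain ⟨_, _, -, -, h3, -⟩ := thmD_not_sigma hG hM hqσM hQ hQM P.hH P.ne hNH' hqσH
  have h4 : y ∈ sigmaCore H' ⊓ M := P.X_le hy
  rw [h3, mem_bot] at h4
  exact hy1 h4

/-- **(P3)**: the partner of a prime-order `Q ≤ D`. -/
theorem config_of_le (hB : ThmB G) (hG : IsMinSimpleOddOrder G) (P : Partner M H X p) {Q : Subgroup G} {q : ℕ} [Fact q.Prime]
    (hQ : Nat.card Q = q) (hQD : Q ≤ sigmaCore M ⊓ centralizer (X : Set G)) :
    Partner H M Q q ∧ ∀ M' : Subgroup G, IsCoatom M' → normalizer (Q : Set G) ≤ M' → M' = M := by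
  classical
  have hqq : q.Prime := Fact.out
  have hpp : p.Prime := P.hpH.1
  have hqσM : q ∈ sigma M := piCoreOf_isPi (sigma M) M q hqq (by
    rw [← hQ]
    exact Subgroup.card_dvd_of_le (hQD.trans inf_le_left))
  have hqσH : q ∉ sigma H := fun h => P.disj q h hqσM
  have hQH : Q ≤ H := hQD.trans (inf_le_right.trans P.centralizer_le)
  have hM := P.hC.hM
  have hQM : Q ≤ M := hQD.trans (inf_le_left.trans (piCoreOf_le _ M))
  have hCQ : Config H Q q := by
    refine ⟨P.hH, hqσH, P.prank_one hG hQ hQD, hQ, hQH, ?_⟩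
    intro hbot
    obtain ⟨y, hy, hy1⟩ := exists_ne_one_of_card_prime hpp P.hC.hX
    have h1 : y ∈ sigmaCore H ⊓ centralizer (Q : Set G) := by
      refine Subgroup.mem_inf.mpr ⟨P.hXσ hy, ?_⟩
      rw [mem_centralizer_iff]
      intro z hz
      exact (mem_centralizer_iff.mp (hQD hz).2 y hy).symm
    rw [hbot, mem_bot] at h1
    exact hy1 h1
  have huq : ∀ M' : Subgroup G, IsCoatom M' → normalizer (Q : Set G) ≤ M' → M' = M := by
    intro M' hM' hNM'
    have h1 : q ∈ sigma M' := thmT hG H Q M' q hqq hCQ hM' hNM'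
    exact eq_of_sigma_of_norm hB hG hM hqσM hQ hQM hM' hNM' h1
  have hQ1 : Q ≠ ⊥ := ne_bot_of_card_prime hqq hQ
  have hQt : Q ≠ ⊤ := fun h => hM.1 (top_le_iff.1 (h ▸ hQM))
  obtain ⟨H', hH', hNH'⟩ := (eq_top_or_exists_le_coatom (normalizer (Q : Set G))).resolve_left
    (IsMinSimpleOddOrder.normalizer_ne_top hG hQ1 hQt)
  have hNM : normalizer (Q : Set G) ≤ M := huq H' hH' hNH' ▸ hNH'
  exact ⟨partner_of_config hB hG hCQ hM hNM, huq⟩

end Partner

end Cfsg.Agent.Lib.FT
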