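import Cfsg.Agent.Lib.FT.BG17b

/-!
BG17: case (β) of "no prime mover": `R₀` cannot move a prime-order subgroup of `C_{M_σ}(X)`.
-/

set_option autoImplicit false
set_option linter.unusedSectionVars false
set_option linter.style.haveILetI false

namespace Cfsg.Agent.Lib.FT

open Subgroup Cfsg Cfsg.Agent.Lib.OddLocal Cfsg.Agent.Lib.Basic

open Cfsg.Agent.Lib.Coprime (mem_conj_map conj_mem_conj_map conj_map_conj_map conj_map_one
  conj_map_mono mem_normalizer_of_conj_le conj_map_eq_iff_mem_normalizer isPGroup_conj_map)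

open scoped commutatorElement

variable {G : Type*} [Group G] [Finite G]

/-- The half of case (β). -/
theorem beta_half {M H X Q R₀ T₂ P₀ : Subgroup G} {p q r t' : ℕ} [Fact p.Prime] [Fact q.Prime] [Fact r.Prime] [Fact t'.Prime]
    (hG : IsMinSimpleOddOrder G) (PX : Partner M H X p) (R : Mover M X R₀ p r) (hQ : Nat.card Q = q)
    (hQD : Q ≤ sigmaCore M ⊓ centralizer (X : Set G)) (hRQ : R₀ ≤ normalizer (Q : Set G)) (hRQc : ¬ R₀ ≤ centralizer (Q : Set G))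
    (hrH : r ∉ sigma H) (hP₀ : IsCoatom P₀) (hNP₀ : normalizer (R₀ : Set G) ≤ P₀) (hrt : PRankLE t' 1 ↥P₀)
    {y' c : G} (hy'σ : y' ∈ sigmaCore H) (hy'C : y' ∈ centralizer (R₀ : Set G)) (hy'o : orderOf y' = t')
    (hc : c ∈ centralizer (R₀ : Set G)) (hy₂M : c * y' * c⁻¹ ∈ M) (hT₂ : IsPiHallOf {t'} T₂ (sigmaCore H))
    (hQT₂ : Q ≤ normalizer (T₂ : Set G)) (hRT₂ : R₀ ≤ normalizer (T₂ : Set G)) : T₂ ≤ centralizer (Q : Set G) := by
  classical
  have hpp : p.Prime := Fact.out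
  have hqq : q.Prime := Fact.out
  have hrr : r.Prime := Fact.out
  have htt : t'.Prime := Fact.out
  have huniq := huniq13 hG
  have hM := R.hC.hM
  have hC := R.hC
  have hH := PX.hH
  have hσM : sigmaCore M ≤ M := piCoreOf_le _ M
  have hσn : M ≤ normalizer (sigmaCore M : Set G) := le_normalizer_piCoreOf (sigma M) M
  have hσH : sigmaCore H ≤ H := piCoreOf_le _ H
  have hσHn : H ≤ normalizer (sigmaCore H : Set G) := le_normalizer_piCoreOf (sigma H) H
  set y₂ := c * y' * c⁻¹ with hy₂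
  have hy₂o : orderOf y₂ = t' := by rw [hy₂, ord_conj_bg17, hy'o]
  have hy₂C : y₂ ∈ centralizer (R₀ : Set G) :=
    (centralizer (R₀ : Set G)).mul_mem ((centralizer (R₀ : Set G)).mul_mem hc hy'C) ((centralizer (R₀ : Set G)).inv_mem hc)
  have ht'σ : t' ∈ sigma H := piCoreOf_isPi (sigma H) H t' htt (by
    rw [← hy'o]
    exact Subgroup.orderOf_dvd_natCard _ hy'σ)
  have ht'M : t' ∉ sigma M := PX.disj t' ht'σ
  have hRz : ∀ {u : G}, u ∈ centralizer (R₀ : Set G) → R₀ ≤ normalizer (zpowers u : Set G) := by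
    intro u hu
    have h1 : R₀ ≤ centralizer (zpowers u : Set G) := by
      intro a ha
      rw [mem_centralizer_iff]
      intro z hz
      obtain ⟨i, rfl⟩ := mem_zpowers_iff.mp hz
      have h2 : Commute a u := (mem_centralizer_iff.mp hu a ha)
      exact (h2.zpow_right i).eq.symm
    exact h1.trans (centralizer_le_normalizer' _)
  obtain ⟨E, hE, hXE, hRE, hEX⟩ := R.exists_compl hG
  set N₁ := sigmaCore M ⊔ X with hN₁
  have hN₁M : N₁ ≤ M := sup_le hσM hC.hXM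
  have hN₁n : M ≤ normalizer (N₁ : Set G) := le_normalizer_sup_of_compl hE hEX
  have hN₁t : N₁ ≠ ⊤ := fun h => hM.1 (top_le_iff.1 (h ▸ hN₁M))
  have hN₁s : Group.IsSolvable ↥N₁ := IsMinSimpleOddOrder.isSolvable hG hN₁t
  have hXH : IsPiHallOf {p} X N₁ := hC.isHall_sup
  have hN₁d : ∀ u : ℕ, u.Prime → u ∣ Nat.card N₁ → u ∈ sigma M ∨ u = p := by
    intro u hu hd
    rcases prime_dvd_sup (hC.hXM.trans hσn) hu hd with h | h
    · exact Or.inl (piCoreOf_isPi (sigma M) M u hu h)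
    · rw [hC.hX] at h
      exact Or.inr ((Nat.prime_dvd_prime_iff_eq hu hpp).mp h)
  have hRN₁ : Cfsg.Agent.Lib.Coprime.CoprimeAction R₀ N₁ := by
    refine ⟨R.hRM.trans hN₁n, ?_, Or.inr hN₁s⟩
    rw [R.hR₀]
    refine (Nat.Prime.coprime_iff_not_dvd hrr).mpr fun hd => ?_
    rcases hN₁d r hrr hd with h | h
    · exact R.not_sigma hG h
    · exact R.ne h
  have ht'p : t' ≠ p := by
    intro ht
    have hzc : Nat.card (zpowers y₂) = p := by rw [Nat.card_zpowers, hy₂o, ht]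
    obtain ⟨g, hg, e⟩ := conj_of_card_of_prank hG hC.hr hC.hX hzc hC.hXM (zpowers_le.mpr hy₂M)
    have hzN : zpowers y₂ ≤ N₁ := by
      rw [← e]
      rintro _ ⟨x, hx, rfl⟩
      exact (mem_normalizer_iff.mp (hN₁n hg) x).mp (mem_sup_right hx)
    have hzH : IsPiHallOf {p} (zpowers y₂) N₁ := isPiHallOf_of_card hXH hzN (by rw [hzc, hC.hX])
    obtain ⟨m, hm, e2⟩ := Cfsg.Agent.Lib.Coprime.invariant_hall_conj hRN₁ hN₁s hXH R.hRN hzH (hRz hy₂C)
    apply R.hnc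
    intro a ha
    rw [mem_centralizer_iff]
    intro x hx
    have h1 : m * x * m⁻¹ ∈ zpowers y₂ := by
      rw [e2]
      exact conj_mem_conj_map X m x hx
    obtain ⟨i, hi⟩ := mem_zpowers_iff.mp h1
    have h2 : a * (m * x * m⁻¹) = (m * x * m⁻¹) * a := by
      rw [← hi]
      have h3 : Commute a y₂ := (mem_centralizer_iff.mp hy₂C a ha)
      exact (h3.zpow_right i).eq
    have h4 : a * m = m * a := mem_centralizer_iff.mp hm.2 a ha
    have h8 : m⁻¹ * a * m = a := by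
      rw [mul_assoc, h4]
      group
    have h5 : a * x = x * a := by
      have h6 : m * (a * x) * m⁻¹ = m * (x * a) * m⁻¹ := by
        calc m * (a * x) * m⁻¹ = (m * a) * x * m⁻¹ := by group
          _ = (a * m) * x * m⁻¹ := by rw [h4]
          _ = a * (m * x * m⁻¹) := by group
          _ = (m * x * m⁻¹) * a := h2
          _ = m * x * (m⁻¹ * a * m) * m⁻¹ := by group
          _ = m * x * a * m⁻¹ := by rw [h8]
          _ = m * (x * a) * m⁻¹ := by group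
      have h7 := mul_right_cancel h6
      exact mul_left_cancel h7
    exact h5.symm
  -- the action of `B₀ = ⟨y₂⟩R₀` on `N₁`
  set B₀ := zpowers y₂ ⊔ R₀ with hB₀
  have hzyN : R₀ ≤ normalizer (zpowers y₂ : Set G) := hRz hy₂C
  have hB₀M : B₀ ≤ M := sup_le (zpowers_le.mpr hy₂M) R.hRM
  have hB₀a : Cfsg.Agent.Lib.Coprime.CoprimeAction B₀ N₁ := by
    refine ⟨hB₀M.trans hN₁n, ?_, Or.inr hN₁s⟩
    refine Nat.coprime_of_dvd fun u hu h1 h2 => ?_
    rcases prime_dvd_sup hzyN hu h1 with h3 | h3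
    · rw [Nat.card_zpowers, hy₂o] at h3
      have e := (Nat.prime_dvd_prime_iff_eq hu htt).mp h3
      rcases hN₁d u hu h2 with h | h
      · exact ht'M (e ▸ h)
      · exact ht'p (e.symm.trans h)
    · rw [R.hR₀] at h3
      have e := (Nat.prime_dvd_prime_iff_eq hu hrr).mp h3
      rcases hN₁d u hu h2 with h | h
      · exact R.not_sigma hG (e ▸ h)
      · exact R.ne (e.symm.trans h)
  obtain ⟨T, hT, hB₀T, -⟩ := Cfsg.Agent.Lib.Coprime.exists_invariant_hall {p} _ hB₀a hN₁s rfl (U := ⊥) bot_le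
    (fun a _ => by
      rw [mem_normalizer_iff]
      intro z
      simp) (fun t ht hd => by
      simp at hd
      exact absurd hd ht.one_lt.ne')
  obtain ⟨m, hm, e3⟩ := Cfsg.Agent.Lib.Coprime.invariant_hall_conj hRN₁ hN₁s hXH R.hRN hT (le_sup_right.trans hB₀T)
  have hy₂N : y₂ ∈ normalizer (T : Set G) := hB₀T (mem_sup_left (mem_zpowers y₂))
  rw [e3, normalizer_conj_map, mem_conj_map] at hy₂N
  set y₃ := m⁻¹ * y₂ * m with hy₃
  have hmM : m ∈ M := hN₁M hm.1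
  have hy₃M : y₃ ∈ M := M.mul_mem (M.mul_mem (M.inv_mem hmM) hy₂M) hmM
  have hy₃H : y₃ ∈ H := PX.hN hy₂N
  have hy₃o : orderOf y₃ = t' := by
    have e : y₃ = m⁻¹ * y₂ * (m⁻¹)⁻¹ := by
      rw [hy₃]
      group
    rw [e, ord_conj_bg17, hy₂o]
  have hy₃C : y₃ ∈ centralizer (R₀ : Set G) :=
    (centralizer (R₀ : Set G)).mul_mem ((centralizer (R₀ : Set G)).mul_mem ((centralizer (R₀ : Set G)).inv_mem hm.2) hy₂C) hm.2
  have hzp : IsPGroup t' (zpowers y₃) := by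
    apply isPGroup_of_card_prime
    rw [Nat.card_zpowers, hy₃o]
  have hzσ : zpowers y₃ ≤ sigmaCore H := le_sigmaCore_of_isPGroup hG huniq hH ht'σ hzp (zpowers_le.mpr hy₃H)
  have hy₃σ : y₃ ∈ sigmaCore H := hzσ (mem_zpowers y₃)
  have hQH : Q ≤ H := hQD.trans (inf_le_right.trans PX.centralizer_le)
  have hy₃Q : zpowers y₃ ≤ centralizer (Q : Set G) := by
    rw [zpowers_le, mem_centralizer_iff]
    intro b hb
    exact (PX.comm ⟨hy₃σ, hy₃M⟩ ⟨(hQD hb).1, hQH hb⟩).symm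
  have hRH : R₀ ≤ H := R.hRN.trans PX.hN
  have hqH : q ∉ sigma H := fun h => PX.disj q h (piCoreOf_isPi (sigma M) M q hqq (by
    rw [← hQ]
    exact Subgroup.card_dvd_of_le (hQD.trans inf_le_left)))
  have hσHt : sigmaCore H ≠ ⊤ := fun h => hH.1 (top_le_iff.1 (h ▸ hσH))
  have hσHs : Group.IsSolvable ↥(sigmaCore H) := IsMinSimpleOddOrder.isSolvable hG hσHt
  have hA : Cfsg.Agent.Lib.Coprime.CoprimeAction (Q ⊔ R₀) (sigmaCore H) := by
    refine ⟨(sup_le hQH hRH).trans hσHn, ?_, Or.inr hσHs⟩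
    refine Nat.coprime_of_dvd fun u hu h1 h2 => ?_
    have hu2 : u ∈ sigma H := piCoreOf_isPi (sigma H) H u hu h2
    rcases prime_dvd_sup hRQ hu h1 with h3 | h3
    · rw [hQ] at h3
      exact hqH ((Nat.prime_dvd_prime_iff_eq hu hqq).mp h3 ▸ hu2)
    · rw [R.hR₀] at h3
      exact hrH ((Nat.prime_dvd_prime_iff_eq hu hrr).mp h3 ▸ hu2)
  have hAz : Q ⊔ R₀ ≤ normalizer (zpowers y₃ : Set G) := by
    refine sup_le ?_ (hRz hy₃C)
    have h1 : Q ≤ centralizer (zpowers y₃ : Set G) := (le_centralizer_iff).mp hy₃Q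
    exact h1.trans (centralizer_le_normalizer' _)
  obtain ⟨T'', hT'', hAT'', hzT''⟩ := Cfsg.Agent.Lib.Coprime.exists_invariant_hall {t'} _ hA hσHs rfl hzσ hAz (fun u hu hd => by
    rw [Nat.card_zpowers, hy₃o] at hd
    exact (Nat.prime_dvd_prime_iff_eq hu htt).mp hd)
  obtain ⟨-, hT''p⟩ := isMaxP_of_isPiHallOf hT''
  have ht'2 : t' ≠ 2 := prime_odd hG htt (ht'σ.2.1.trans (Subgroup.card_subgroup_dvd_card H))
  have hqt' : q ≠ t' := fun h => hqH (h ▸ ht'σ)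
  have hrt' : r ≠ t' := fun h => hrH (h ▸ ht'σ)
  have hy₃1 : zpowers y₃ ≠ ⊥ := by
    intro h
    have h2 : y₃ = 1 := (zpowers_eq_bot).mp h
    rw [h2, orderOf_one] at hy₃o
    exact htt.one_lt.ne hy₃o
  have hCT'' : T'' ≤ centralizer (Q : Set G) := by
    refine lemmaF (q := t') (U := Q) (R₀ := R₀) (Q₁ := zpowers y₃) ht'2 hT''p (le_sup_left.trans hAT'') (le_sup_right.trans hAT'') hRQ
      (by rw [hQ]; exact (Nat.coprime_primes hqq htt).mpr hqt') (by rw [R.hR₀]; exact hrr)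
      (by rw [R.hR₀]; exact (Nat.coprime_primes hrr htt).mpr hrt')
      (fun y hy hy1 u hu hyu => fpf_of_card_prime hrr hqq R.hR₀ hQ hRQc hy hy1 hu hyu)
      (cyclic_of_prank_one hG hrt (hT''p.to_le inf_le_left) (inf_le_right.trans ((centralizer_le_normalizer' R₀).trans hNP₀)))
      hy₃1 hzT'' hy₃Q ?_
    rw [zpowers_le]
    exact hy₃C
  obtain ⟨n, hn, e4⟩ := Cfsg.Agent.Lib.Coprime.invariant_hall_conj hA hσHs hT'' hAT'' hT₂ (sup_le hQT₂ hRT₂)
  rw [e4]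
  refine conj_le_centralizer hCT'' ?_
  exact centralizer_le (s := (Q : Set G)) (t := ((Q ⊔ R₀ : Subgroup G) : Set G)) (fun z hz => (le_sup_left : Q ≤ Q ⊔ R₀) hz) hn.2

/-- **Case (β)**: a prime mover of `X` cannot move a prime-order subgroup of `C_{M_σ}(X)`. -/
theorem beta_false {M H X Q R₀ : Subgroup G} {p q r : ℕ} [Fact p.Prime] [Fact q.Prime] [Fact r.Prime] (hB : ThmB G)
    (hG : IsMinSimpleOddOrder G) (PX : Partner M H X p) (R : Mover M X R₀ p r) (hQ : Nat.card Q = q)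
    (hQD : Q ≤ sigmaCore M ⊓ centralizer (X : Set G)) (hRQ : R₀ ≤ normalizer (Q : Set G)) (hRQc : ¬ R₀ ≤ centralizer (Q : Set G)) : False := by
  classical
  have hpp : p.Prime := Fact.out
  have hqq : q.Prime := Fact.out
  have hrr : r.Prime := Fact.out
  have hM := R.hC.hM
  have hH := PX.hH
  obtain ⟨PQ, -⟩ := PX.config_of_le hB hG hQ hQD
  have hRH : R₀ ≤ H := R.hRN.trans PX.hN
  have R' : Mover H Q R₀ q r := ⟨PQ.hC, R.hR₀, hRH, hRQ, hRQc⟩
  have hrM := R.not_sigma hG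
  have hrH := R'.not_sigma hG
  obtain ⟨t, ht, T₁, y, hT₁, hXT₁, hRT₁, hT₁nc, hyσ, hyC, hyo⟩ := R.exists_moved hG PX
  obtain ⟨t', ht', T₂, y', hT₂, hQT₂, hRT₂, hT₂nc, hy'σ, hy'C, hy'o⟩ := R'.exists_moved hG PQ
  haveI := Fact.mk ht
  haveI := Fact.mk ht'
  have hσ1 : ∀ {M' : Subgroup G} {u : G}, u ∈ sigmaCore M' → u ∈ centralizer (R₀ : Set G) → orderOf u ≠ 1 →
      sigmaCore M' ⊓ centralizer (R₀ : Set G) ≠ ⊥ := by
    intro M' u hu hu' ho h
    have h1 : u ∈ sigmaCore M' ⊓ centralizer (R₀ : Set G) := ⟨hu, hu'⟩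
    rw [h, mem_bot] at h1
    rw [h1, orderOf_one] at ho
    exact ho rfl
  have hCM : Config M R₀ r := ⟨hM, hrM, R.prank hG, R.hR₀, R.hRM, hσ1 hyσ hyC (by rw [hyo]; exact ht.one_lt.ne')⟩
  have hCH : Config H R₀ r := ⟨hH, hrH, R'.prank hG, R.hR₀, hRH, hσ1 hy'σ hy'C (by rw [hy'o]; exact ht'.one_lt.ne')⟩
  have hR₀1 : R₀ ≠ ⊥ := ne_bot_of_card_prime hrr R.hR₀
  have hR₀t : R₀ ≠ ⊤ := fun h => hM.1 (top_le_iff.1 (h ▸ R.hRM))
  obtain ⟨P₀, hP₀, hNP₀⟩ := (eq_top_or_exists_le_coatom (normalizer (R₀ : Set G))).resolve_left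
    (IsMinSimpleOddOrder.normalizer_ne_top hG hR₀1 hR₀t)
  have PM : Partner M P₀ R₀ r := partner_of_config hB hG hCM hP₀ hNP₀
  have PH : Partner H P₀ R₀ r := partner_of_config hB hG hCH hP₀ hNP₀
  have hzy : Nat.card (zpowers y) = t := by rw [Nat.card_zpowers, hyo]
  have hzy' : Nat.card (zpowers y') = t' := by rw [Nat.card_zpowers, hy'o]
  have hzD : zpowers y ≤ sigmaCore M ⊓ centralizer (R₀ : Set G) := zpowers_le.mpr ⟨hyσ, hyC⟩
  have hzD' : zpowers y' ≤ sigmaCore H ⊓ centralizer (R₀ : Set G) := zpowers_le.mpr ⟨hy'σ, hy'C⟩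
  obtain ⟨PMy, -⟩ := PM.config_of_le hB hG hzy hzD
  obtain ⟨PHy, -⟩ := PH.config_of_le hB hG hzy' hzD'
  have hrt : PRankLE t 1 ↥P₀ := PM.prank_one hG hzy hzD
  have hrt' : PRankLE t' 1 ↥P₀ := PH.prank_one hG hzy' hzD'
  have htσ : t ∈ sigma M := piCoreOf_isPi (sigma M) M t ht (by
    rw [← hyo]
    exact Subgroup.orderOf_dvd_natCard _ hyσ)
  have ht'σ : t' ∈ sigma H := piCoreOf_isPi (sigma H) H t' ht' (by
    rw [← hy'o]
    exact Subgroup.orderOf_dvd_natCard _ hy'σ)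
  have htt' : t ≠ t' := fun h => PX.disj t' ht'σ (h ▸ htσ)
  have hCP₀ : centralizer (R₀ : Set G) ≤ P₀ := (centralizer_le_normalizer' R₀).trans hNP₀
  have hCt : centralizer (R₀ : Set G) ≠ ⊤ := fun h => hP₀.1 (top_le_iff.1 (h ▸ hCP₀))
  obtain ⟨c, hc, hd⟩ := dichotomy hG hCt htt' (fun P hP hle => cyclic_of_prank_one hG hrt hP (hle.trans hCP₀))
    (fun P hP hle => cyclic_of_prank_one hG hrt' hP (hle.trans hCP₀)) hyC hy'C hyo hy'o
  rcases hd with hd | hd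
  · -- `y''` normalizes `⟨y⟩`
    have hy₂M : c * y' * c⁻¹ ∈ M := PMy.hN hd
    exact hT₂nc (beta_half hG PX R hQ hQD hRQ hRQc hrH hP₀ hNP₀ hrt' hy'σ hy'C hy'o hc hy₂M hT₂ hQT₂ hRT₂)
  · -- `y` normalizes `⟨y''⟩`
    have hzX : X ≤ sigmaCore H ⊓ centralizer (Q : Set G) :=
      le_inf PX.hXσ ((le_centralizer_iff).mp (hQD.trans inf_le_right))
    have hy₂H : c⁻¹ * y * c ∈ H := by
      have h1 : y ∈ (normalizer (zpowers y' : Set G)).map (MulAut.conj c).toMonoidHom := by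
        have e : (zpowers y').map (MulAut.conj c).toMonoidHom = zpowers (c * y' * c⁻¹) := by
          rw [MonoidHom.map_zpowers]
          rfl
        rw [← normalizer_conj_map, e]
        exact hd
      rw [mem_conj_map] at h1
      exact PHy.hN h1
    have hy₂H' : c⁻¹ * y * (c⁻¹)⁻¹ ∈ H := by
      rw [inv_inv]
      exact hy₂H
    exact hT₁nc (beta_half hG PQ R' PX.hC.hX hzX R.hRN R.hnc hrM hP₀ hNP₀ hrt hyσ hyC hyo
      ((centralizer (R₀ : Set G)).inv_mem hc) hy₂H' hT₁ hXT₁ hRT₁)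

end Cfsg.Agent.Lib.FT
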