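import Cfsg.Agent.Lib.FT.BG17c

/-!
BG17: **No prime mover**.  If `Config(M,X,p)`, no subgroup of prime order of `M` normalizes `X` without centralizing it.
-/

set_option autoImplicit false
set_option linter.unusedSectionVars false
set_option linter.style.haveILetI false

namespace Cfsg.Agent.Lib.FT

open Subgroup Cfsg Cfsg.Agent.Lib.OddLocal Cfsg.Agent.Lib.Basic

open Cfsg.Agent.Lib.Coprime (mem_conj_map conj_mem_conj_map conj_map_conj_map conj_map_one
  conj_map_mono mem_normalizer_of_conj_le conj_map_eq_iff_mem_normalizer isPGroup_conj_map)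

open scoped commutatorElement

variable {G : Type*} [Group G] [Finite G]

/-- A `u'`-group moving a cyclic `u`-group moves its subgroup of order `u`. -/
theorem exists_prime_moved {A P : Subgroup G} {u : ℕ} [Fact u.Prime] (hu2 : u ≠ 2) (hAc : (Nat.card A).Coprime u) (hP : IsPGroup u P)
    (hAP : A ≤ normalizer (P : Set G)) (hPc : IsCyclic P) (hnc : ¬ A ≤ centralizer (P : Set G)) :
    ∃ y ∈ P, orderOf y = u ∧ A ≤ normalizer (zpowers y : Set G) ∧ ¬ A ≤ centralizer (zpowers y : Set G) := by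
  classical
  by_contra hcon
  push Not at hcon
  apply hnc
  refine Cfsg.Agent.Lib.Coprime.Omega1.omega_trivial hu2 A P hAc hP hAP ?_
  intro y hy hyo a ha
  have hN : A ≤ normalizer (zpowers y : Set G) := by
    intro b hb
    rw [← conj_map_eq_iff_mem_normalizer]
    refine Cfsg.Agent.Lib.OddLocal.eq_of_card_eq_of_le_isCyclic hPc ?_ (zpowers_le.mpr hy) ?_
    · rintro _ ⟨v, hv, rfl⟩
      exact (mem_normalizer_iff.mp (hAP hb) v).mp ((zpowers_le.mpr hy) hv)
    · rw [Cfsg.Agent.Lib.Coprime.card_conj_map]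
  have h1 := hcon y hy hyo hN
  have h2 := mem_centralizer_iff.mp (h1 ha) y (mem_zpowers y)
  exact h2.symm

/-- A nontrivial subgroup contains a subgroup of prime order. -/
theorem exists_prime_subgroup {D : Subgroup G} (hD : D ≠ ⊥) : ∃ q : ℕ, q.Prime ∧ ∃ Q : Subgroup G, Q ≤ D ∧ Nat.card Q = q := by
  classical
  have h1 : 1 < Nat.card D := (Subgroup.one_lt_card_iff_ne_bot D).mpr hD
  obtain ⟨q, hq, hd⟩ := Nat.exists_prime_and_dvd h1.ne'
  haveI := Fact.mk hq
  obtain ⟨g₀, hg₀⟩ := exists_prime_orderOf_dvd_card' (G := ↥D) q hd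
  refine ⟨q, hq, zpowers (g₀ : G), zpowers_le.mpr g₀.2, ?_⟩
  rw [Nat.card_zpowers, Subgroup.orderOf_coe, hg₀]

/-- Elements normalizing a cyclic subgroup induce commuting automorphisms. -/
theorem commutator_mem_centralizer_of_cyclic {X : Subgroup G} (hX : IsCyclic X) {a b : G} (ha : a ∈ normalizer (X : Set G))
    (hb : b ∈ normalizer (X : Set G)) : a * b * a⁻¹ * b⁻¹ ∈ centralizer (X : Set G) := by
  classical
  obtain ⟨g, hg⟩ := hX.exists_generator
  have hgen : ∀ x ∈ X, ∃ i : ℤ, (g : G) ^ i = x := by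
    intro x hx
    obtain ⟨i, hi⟩ := mem_zpowers_iff.mp (hg ⟨x, hx⟩)
    exact ⟨i, by simpa using congrArg Subtype.val hi⟩
  have hact : ∀ {c : G}, c ∈ normalizer (X : Set G) → ∃ i : ℤ, ∀ x ∈ X, c * x * c⁻¹ = x ^ i := by
    intro c hc
    obtain ⟨i, hi⟩ := hgen (c * g * c⁻¹) ((mem_normalizer_iff.mp hc g).mp g.2)
    refine ⟨i, fun x hx => ?_⟩
    obtain ⟨j, rfl⟩ := hgen x hx
    rw [← conj_zpow, ← hi, ← zpow_mul, ← zpow_mul, mul_comm]
  obtain ⟨i, hi⟩ := hact ha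
  obtain ⟨j, hj⟩ := hact hb
  have hc : ∀ x ∈ X, a * (b * x * b⁻¹) * a⁻¹ = b * (a * x * a⁻¹) * b⁻¹ := by
    intro x hx
    rw [hj x hx, hi x hx, ← conj_zpow, ← conj_zpow, hi x hx, hj x hx, ← zpow_mul, ← zpow_mul, mul_comm]
  rw [mem_centralizer_iff]
  intro x' hx'
  have hba : (b * a)⁻¹ ∈ normalizer (X : Set G) := (normalizer (X : Set G)).inv_mem ((normalizer (X : Set G)).mul_mem hb ha)
  have hx : (b * a)⁻¹ * x' * (b * a) ∈ X := by
    have := (mem_normalizer_iff.mp hba x').mp hx'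
    simpa using this
  have h := hc _ hx
  have e1 : b * (a * ((b * a)⁻¹ * x' * (b * a)) * a⁻¹) * b⁻¹ = x' := by group
  rw [e1] at h
  calc x' * (a * b * a⁻¹ * b⁻¹) = a * (b * ((b * a)⁻¹ * x' * (b * a)) * b⁻¹) * a⁻¹ * (a * b * a⁻¹ * b⁻¹) := by rw [h]
    _ = _ := by group

/-- A conjugate of a subgroup centralizing `U` by an element normalizing `U` centralizes `U`. -/
theorem conj_le_centralizer_of_norm {T U : Subgroup G} (hT : T ≤ centralizer (U : Set G)) {g : G} (hg : g ∈ normalizer (U : Set G)) :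
    T.map (MulAut.conj g).toMonoidHom ≤ centralizer (U : Set G) := by
  rintro _ ⟨t, ht, rfl⟩
  rw [mem_centralizer_iff]
  intro u hu
  have hu' : g⁻¹ * u * g ∈ U := by
    have := (mem_normalizer_iff.mp ((normalizer (U : Set G)).inv_mem hg) u).mp hu
    simpa using this
  have h1 := mem_centralizer_iff.mp (hT ht) _ hu'
  have e : MulAut.conj g t = g * t * g⁻¹ := MulAut.conj_apply g t
  change u * (MulAut.conj g t) = (MulAut.conj g t) * u
  rw [e]
  calc u * (g * t * g⁻¹) = g * ((g⁻¹ * u * g) * t) * g⁻¹ := by group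
    _ = g * (t * (g⁻¹ * u * g)) * g⁻¹ := by rw [h1]
    _ = _ := by group

namespace Mover

variable {M H X R₀ : Subgroup G} {p r : ℕ} [Fact p.Prime] [Fact r.Prime]

/-- **`R₀` centralizes `C_{M_σ}(X)`**: case (β) excluded. -/
theorem centralizes_D (hB : ThmB G) (hG : IsMinSimpleOddOrder G) (PX : Partner M H X p) (R : Mover M X R₀ p r) :
    R₀ ≤ centralizer ((sigmaCore M ⊓ centralizer (X : Set G) : Subgroup G) : Set G) := by
  classical
  have hrr : r.Prime := Fact.out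
  have hM := R.hC.hM
  have hσM : sigmaCore M ≤ M := piCoreOf_le _ M
  have hσn : M ≤ normalizer (sigmaCore M : Set G) := le_normalizer_piCoreOf (sigma M) M
  set D := sigmaCore M ⊓ centralizer (X : Set G) with hD
  have hDσ : D ≤ sigmaCore M := inf_le_left
  have hDt : D ≠ ⊤ := fun h => hM.1 (top_le_iff.1 (h ▸ hDσ.trans hσM))
  have hDs : Group.IsSolvable ↥D := IsMinSimpleOddOrder.isSolvable hG hDt
  have hRD : R₀ ≤ normalizer (D : Set G) := by
    intro a ha
    rw [mem_normalizer_iff]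
    intro z
    have h1 := mem_normalizer_iff.mp (hσn (R.hRM ha)) z
    have h2 := mem_normalizer_iff.mp (Cfsg.Agent.Lib.OddLocal.mem_normalizer_centralizer (R.hRN ha)) z
    simp only [hD, mem_inf, h1, h2]
  have hrσ := R.not_sigma hG
  have hca : Cfsg.Agent.Lib.Coprime.CoprimeAction R₀ D := by
    refine ⟨hRD, ?_, Or.inr hDs⟩
    rw [R.hR₀]
    exact (Nat.Prime.coprime_iff_not_dvd hrr).mpr fun hd =>
      hrσ (piCoreOf_isPi (sigma M) M r hrr (hd.trans (Subgroup.card_dvd_of_le hDσ)))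
  by_contra hcon
  have hex : ∃ u : ℕ, u.Prime ∧ ∃ T : Subgroup G, IsPiHallOf {u} T D ∧ R₀ ≤ normalizer (T : Set G) ∧ ¬ R₀ ≤ centralizer (T : Set G) := by
    by_contra hcon2
    push Not at hcon2
    apply hcon
    rw [le_centralizer_iff]
    have h1 : (D ⊓ centralizer (R₀ : Set G)).relIndex D = 1 := by
      by_contra hne
      obtain ⟨t, ht, hd⟩ := Nat.exists_prime_and_dvd hne
      haveI := Fact.mk ht
      obtain ⟨T, hT, hA, -⟩ := Cfsg.Agent.Lib.Coprime.exists_invariant_hall {t} _ hca hDs rfl (U := ⊥) bot_le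
        (fun a _ => by
          rw [mem_normalizer_iff]
          intro z
          simp) (fun t ht hd => by
          simp at hd
          exact absurd hd ht.one_lt.ne')
      have hle := hcon2 t ht T hT hA
      exact not_dvd_relIndex_of_isMaxP (isMaxP_of_isPiHallOf hT).1 (le_inf hT.1 ((le_centralizer_iff).mp hle)) hd
    exact (Subgroup.relIndex_eq_one.mp h1).trans inf_le_right
  obtain ⟨u, hu, T, hT, hRT, hRTc⟩ := hex
  haveI := Fact.mk hu
  obtain ⟨hTm, hTp⟩ := isMaxP_of_isPiHallOf hT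
  have hT1 : T ≠ ⊥ := by
    rintro rfl
    exact hRTc (fun a _ => mem_centralizer_iff.mpr (fun t ht => by
      have h1 : t = 1 := (mem_bot).mp ht
      rw [h1]
      simp))
  obtain ⟨y₀, hy₀, hy₀o⟩ := exists_orderOf_of_isPGroup hTp hT1
  have hzc : Nat.card (zpowers y₀) = u := by rw [Nat.card_zpowers, hy₀o]
  have hTD : T ≤ D := hT.1
  have hzD : zpowers y₀ ≤ D := (zpowers_le.mpr hy₀).trans hTD
  have hTc : IsCyclic T := cyclic_of_prank_one hG (PX.prank_one hG hzc hzD) hTp (hTD.trans (inf_le_right.trans PX.centralizer_le))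
  have huσ : u ∈ sigma M := piCoreOf_isPi (sigma M) M u hu (by
    rw [← hzc]
    exact Subgroup.card_dvd_of_le (hzD.trans hDσ))
  have hu2 : u ≠ 2 := prime_odd hG hu (huσ.2.1.trans (Subgroup.card_subgroup_dvd_card M))
  have hur : r ≠ u := fun h => hrσ (h ▸ huσ)
  obtain ⟨y, hy, hyo, hyN, hync⟩ := exists_prime_moved hu2 (by rw [R.hR₀]; exact (Nat.coprime_primes hrr hu).mpr hur) hTp hRT hTc hRTc
  exact beta_false hB hG PX R (Q := zpowers y) (q := u) (by rw [Nat.card_zpowers, hyo]) ((zpowers_le.mpr hy).trans hTD) hyN hync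

end Mover

/-- **Lemma A.** -/
theorem lemmaA {M H X R₀ Q : Subgroup G} {p r q : ℕ} [Fact p.Prime] [Fact r.Prime] [Fact q.Prime] (hB : ThmB G) (hG : IsMinSimpleOddOrder G)
    (PX : Partner M H X p) (R : Mover M X R₀ p r)
    (hRD : R₀ ≤ centralizer ((sigmaCore M ⊓ centralizer (X : Set G) : Subgroup G) : Set G)) (hQ : Nat.card Q = q)
    (hQD : Q ≤ sigmaCore M ⊓ centralizer (X : Set G)) : ∃ (s : ℕ) (R₁ : Subgroup G), s.Prime ∧ Mover H Q R₁ q s := by
  classical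
  have hpp : p.Prime := Fact.out
  have hrr : r.Prime := Fact.out
  have hqq : q.Prime := Fact.out
  have huniq := huniq13 hG
  have hM := R.hC.hM
  have hH := PX.hH
  have hC := R.hC
  have hσM : sigmaCore M ≤ M := piCoreOf_le _ M
  have hσn : M ≤ normalizer (sigmaCore M : Set G) := le_normalizer_piCoreOf (sigma M) M
  have hσt : sigmaCore M ≠ ⊤ := fun h => hM.1 (top_le_iff.1 (h ▸ hσM))
  have hσs : Group.IsSolvable ↥(sigmaCore M) := IsMinSimpleOddOrder.isSolvable hG hσt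
  have hQσ : Q ≤ sigmaCore M := hQD.trans inf_le_left
  have hQX : Q ≤ centralizer (X : Set G) := hQD.trans inf_le_right
  have hQR : Q ≤ centralizer (R₀ : Set G) := hQD.trans ((le_centralizer_iff).mp hRD)
  have hQp : IsPGroup q Q := isPGroup_of_card_prime hQ
  have hQ1 : Q ≠ ⊥ := ne_bot_of_card_prime hqq hQ
  have hqσ : q ∈ sigma M := piCoreOf_isPi (sigma M) M q hqq (by
    rw [← hQ]
    exact Subgroup.card_dvd_of_le hQσ)
  have hqM : q ∣ Nat.card M := hqσ.2.1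
  have hq2 : q ≠ 2 := prime_odd hG hqq (hqM.trans (Subgroup.card_subgroup_dvd_card M))
  have hqp : q ≠ p := fun h => hC.hpσ (h ▸ hqσ)
  have hrσ := R.not_sigma hG
  have hqr : q ≠ r := fun h => hrσ (h ▸ hqσ)
  have hD' : sigmaCore M ⊓ centralizer (R₀ : Set G) ≠ ⊥ := by
    intro h
    apply hQ1
    rw [eq_bot_iff, ← h]
    exact le_inf hQσ hQR
  have hCM : Config M R₀ r := ⟨hM, hrσ, R.prank hG, R.hR₀, R.hRM, hD'⟩
  have hR₀1 : R₀ ≠ ⊥ := ne_bot_of_card_prime hrr R.hR₀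
  have hR₀t : R₀ ≠ ⊤ := fun h => hM.1 (top_le_iff.1 (h ▸ R.hRM))
  obtain ⟨P₀, hP₀, hNP₀⟩ := (eq_top_or_exists_le_coatom (normalizer (R₀ : Set G))).resolve_left
    (IsMinSimpleOddOrder.normalizer_ne_top hG hR₀1 hR₀t)
  have PM : Partner M P₀ R₀ r := partner_of_config hB hG hCM hP₀ hNP₀
  have hrq : PRankLE q 1 ↥P₀ := PM.prank_one hG hQ (le_inf hQσ hQR)
  -- the Sylow subgroup `T₁`
  have hAQ : X ⊔ R₀ ≤ normalizer (Q : Set G) := sup_le
    (((le_centralizer_iff).mp hQX).trans (centralizer_le_normalizer' Q)) (((le_centralizer_iff).mp hQR).trans (centralizer_le_normalizer' Q))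
  obtain ⟨T₁, hT₁, hAT₁, hQT₁⟩ := Cfsg.Agent.Lib.Coprime.exists_invariant_hall {q} _ (R.coprimeAction hG) hσs rfl hQσ hAQ (fun t ht hd => by
    rw [hQ] at hd
    exact (Nat.prime_dvd_prime_iff_eq ht hqq).mp hd)
  obtain ⟨hT₁m, hT₁p⟩ := isMaxP_of_isPiHallOf hT₁
  have hT₁M : IsMaxP q T₁ M := hT₁m.of_sigmaCore hG hM hqσ
  have hT₁X : T₁ ≤ centralizer (X : Set G) := by
    refine lemmaF (q := q) (U := X) (R₀ := R₀) (Q₁ := Q) hq2 hT₁p (le_sup_left.trans hAT₁) (le_sup_right.trans hAT₁) R.hRN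
      (by rw [hC.hX]; exact (Nat.coprime_primes hpp hqq).mpr hqp.symm) (by rw [R.hR₀]; exact hrr)
      (by rw [R.hR₀]; exact (Nat.coprime_primes hrr hqq).mpr hqr.symm)
      (fun y hy hy1 u hu hyu => fpf_of_card_prime hrr hpp R.hR₀ hC.hX R.hnc hy hy1 hu hyu)
      (cyclic_of_prank_one hG hrq (hT₁p.to_le inf_le_left) (inf_le_right.trans ((centralizer_le_normalizer' R₀).trans hNP₀)))
      hQ1 hQT₁ hQX hQR
  have hT₁H : T₁ ≤ H := hT₁X.trans PX.centralizer_le
  have hT₁c : IsCyclic T₁ := cyclic_of_prank_one hG (PX.prank_one hG hQ hQD) hT₁p hT₁H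
  have hT₁G : IsMaxP q T₁ ⊤ := hT₁M.top_of_sigma hqσ
  have hNT₁ : normalizer (T₁ : Set G) ≤ M := normalizer_le_of_isMaxP hqσ hT₁M
  have hT₁1 : T₁ ≠ ⊥ := fun h => hQ1 (le_bot_iff.mp (h ▸ hQT₁))
  have hqβ : q ∉ beta M := fun h => h.1.2 (hT₁M.prank_of (prank_mono hqq.pos (by norm_num) (prank_one_of_cyclic hT₁c)))
  have hXT₁ : X ≤ centralizer (T₁ : Set G) := (le_centralizer_iff).mp hT₁X
  -- the complement of `T₁` in its normalizer and a moving element
  have hXNT : X ≤ normalizer (T₁ : Set G) := hXT₁.trans (centralizer_le_normalizer' T₁)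
  obtain ⟨V, hV, hVq, hXV⟩ := exists_hall_compl_ge hG hT₁G hT₁1 hXNT hC.hX hqp.symm
  let Pst : Sylow q G := ⟨T₁, hT₁G.isP, fun {D'} h2 h3 => hT₁G.max D' le_top h2 h3⟩
  have hc : T₁ = ⁅T₁, V⁆ := (s1411_core hG (fun K hK => hpl13 hG q K hK) Pst V hV).1
  have hnV : ¬ V ≤ centralizer (T₁ : Set G) := by
    intro h
    apply hT₁1
    rw [hc]
    exact Subgroup.commutator_eq_bot_iff_le_centralizer.mpr ((le_centralizer_iff).mp h)
  obtain ⟨v, hv, hvC⟩ : ∃ v ∈ V, v ∉ centralizer (T₁ : Set G) := by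
    by_contra hcon
    push Not at hcon
    exact hnV hcon
  obtain ⟨w, hw, hwC, s, hs, k, hk⟩ := exists_primary_not_mem _ rfl hvC
  haveI := Fact.mk hs
  have hwV : w ∈ V := (zpowers_le.mpr hv) hw
  have hVN : V ≤ normalizer (T₁ : Set G) := hV.2.1
  have hwN : w ∈ normalizer (T₁ : Set G) := hVN hwV
  have hw1 : w ≠ 1 := by
    rintro rfl
    exact hwC (one_mem _)
  have hsq : s ≠ q := by
    rintro rfl
    have h1 : orderOf w ∣ s ^ k := orderOf_dvd_of_pow_eq_one hk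
    have h2 : (orderOf w).Coprime s := Nat.Coprime.coprime_dvd_left (Subgroup.orderOf_dvd_natCard V hwV) hVq
    have h3 : orderOf w = 1 := by
      have := Nat.Coprime.eq_one_of_dvd (h2.pow_right k) h1
      exact this
    exact hw1 (orderOf_eq_one_iff.mp h3)
  have hzw : IsPGroup s (zpowers w) := by
    rw [IsPGroup.iff_card, Nat.card_zpowers]
    obtain ⟨j, -, hj⟩ := (Nat.dvd_prime_pow hs).mp (orderOf_dvd_of_pow_eq_one hk)
    exact ⟨j, hj⟩
  -- `s ∉ σ(M)`
  have hsσ : s ∉ sigma M := by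
    intro h
    have hz : zpowers w ≤ sigmaCore M := le_sigmaCore_of_isPGroup hG huniq hM h hzw (zpowers_le.mpr (hNT₁ hwN))
    have hnpc := ((s1414_core hG huniq hM (fun r _ _ => hpl13 hG r M hM.1)).2.2.2.2 q hqq hqM hqβ).2.1
    obtain ⟨Y, hYσ, hYn, hYc, hYm⟩ := exists_complement_core hnpc
    have hwo : (orderOf w).Coprime q := by
      obtain ⟨j, -, hj⟩ := (Nat.dvd_prime_pow hs).mp (orderOf_dvd_of_pow_eq_one hk)
      rw [hj]
      exact Nat.Coprime.pow_left j ((Nat.coprime_primes hs hqq).mpr hsq)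
    have hwY : w ∈ Y := hYm w (hz (mem_zpowers w)) hwo
    refine hwC (mem_centralizer_of_norm_of_inf hwY hwN (hT₁.1.trans hYn) ?_)
    exact eq_bot_of_isPGroup_of_coprime (hT₁p.to_le inf_le_left) inf_le_right hYc
  -- replacing `w` by a conjugate in a complement of `M_σ` through `X`.
  have hNT₁t : normalizer (T₁ : Set G) ≠ ⊤ := fun h => hM.1 (top_le_iff.1 (h ▸ hNT₁))
  have hNT₁s : Group.IsSolvable ↥(normalizer (T₁ : Set G)) := IsMinSimpleOddOrder.isSolvable hG hNT₁t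
  obtain ⟨E₀, hE₀⟩ := exists_isPiHallOf_solvable {u | u ∉ sigma M} hNT₁s
  obtain ⟨g, hg, hXE₀⟩ := IsPiHallOf.exists_conj_ge hNT₁s hE₀ hXNT (fun t ht hd => by
    rw [hC.hX] at hd
    rw [Set.mem_setOf_eq, (Nat.prime_dvd_prime_iff_eq ht hpp).mp hd]
    exact hC.hpσ)
  have hE₂ := IsPiHallOf.conj_in hE₀ hg
  set E₂ := E₀.map (MulAut.conj g).toMonoidHom with hE₂def
  obtain ⟨n, hn, hwE₂⟩ := IsPiHallOf.exists_conj_ge hNT₁s hE₂ (zpowers_le.mpr hwN) (fun t ht hd => by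
    obtain ⟨j, hj⟩ := IsPGroup.iff_card.mp hzw
    rw [hj] at hd
    rw [Set.mem_setOf_eq, (Nat.prime_dvd_prime_iff_eq ht hs).mp (ht.dvd_of_dvd_pow hd)]
    exact hsσ)
  obtain ⟨E, hE, hE₂E⟩ := exists_compl_sigma_ge hG hM (hE₂.1.trans hNT₁) (fun t ht hd => hE₂.2.1 t ht hd)
  have hXE : X ≤ E := hXE₀.trans hE₂E
  have hw'E₂ : n⁻¹ * w * n ∈ E₂ := by
    have h3 := hwE₂ (mem_zpowers w)
    rw [mem_conj_map] at h3
    exact h3
  set w' := n⁻¹ * w * n with hw'
  have hw'E : w' ∈ E := hE₂E hw'E₂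
  have hw'N : w' ∈ normalizer (T₁ : Set G) := hE₂.1 hw'E₂
  have hτ₃ : p ∈ tau3 M := R.tau3
  have hEX : E ≤ normalizer (X : Set G) := normal_of_tau3 hG hM hE hτ₃ hXE hC.hX
  have hw'X : w' ∈ normalizer (X : Set G) := hEX hw'E
  have hw'H : w' ∈ H := PX.hN hw'X
  have hw'M : w' ∈ M := hNT₁ hw'N
  have hw'C : w' ∉ centralizer (T₁ : Set G) := by
    intro h
    apply hwC
    have h2 : w = n * w' * n⁻¹ := by
      rw [hw']
      group
    rw [h2]
    rw [mem_centralizer_iff]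
    intro t ht
    have h3 : n⁻¹ * t * n ∈ T₁ := by
      have := (mem_normalizer_iff.mp ((normalizer (T₁ : Set G)).inv_mem hn) t).mp ht
      simpa using this
    have h4 := mem_centralizer_iff.mp h _ h3
    calc t * (n * w' * n⁻¹) = n * ((n⁻¹ * t * n) * w') * n⁻¹ := by group
      _ = n * (w' * (n⁻¹ * t * n)) * n⁻¹ := by rw [h4]
      _ = _ := by group
  have hk' : w' ^ s ^ k = 1 := by
    rw [hw']
    have e : n⁻¹ * w * n = n⁻¹ * w * n⁻¹⁻¹ := by group
    rw [e, conj_pow, hk]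
    group
  have hzw' : IsPGroup s (zpowers w') := by
    rw [IsPGroup.iff_card, Nat.card_zpowers]
    obtain ⟨j, -, hj⟩ := (Nat.dvd_prime_pow hs).mp (orderOf_dvd_of_pow_eq_one hk')
    exact ⟨j, hj⟩
  -- `w'` moves `Q`
  have hzw'c : (Nat.card (zpowers w')).Coprime q := by
    obtain ⟨j, hj⟩ := IsPGroup.iff_card.mp hzw'
    rw [hj]
    exact Nat.Coprime.pow_left j ((Nat.coprime_primes hs hqq).mpr hsq)
  have hnc' : ¬ zpowers w' ≤ centralizer (T₁ : Set G) := fun h => hw'C (h (mem_zpowers w'))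
  obtain ⟨y, hy, hyo, hyN, hync⟩ := exists_prime_moved hq2 hzw'c hT₁p (zpowers_le.mpr hw'N) hT₁c hnc'
  have hzQ : zpowers y = Q := Cfsg.Agent.Lib.OddLocal.eq_of_card_eq_of_le_isCyclic hT₁c (zpowers_le.mpr hy) hQT₁ (by
    rw [Nat.card_zpowers, hyo, hQ])
  rw [hzQ] at hyN hync
  have hw'Cn : w' ∉ centralizer (Q : Set G) := fun h => hync (zpowers_le.mpr h)
  -- `R₁`
  have hw'1 : zpowers w' ≠ ⊥ := by
    intro h
    apply hnc'
    rw [h]
    exact bot_le
  obtain ⟨a₁, ha₁, ha₁o⟩ := exists_orderOf_of_isPGroup hzw' hw'1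
  set R₁ := zpowers a₁ with hR₁
  have hR₁c : Nat.card R₁ = s := by rw [hR₁, Nat.card_zpowers, ha₁o]
  have hR₁w : R₁ ≤ zpowers w' := zpowers_le.mpr ha₁
  have hR₁E : R₁ ≤ E := hR₁w.trans (zpowers_le.mpr hw'E)
  have hR₁H : R₁ ≤ H := hR₁w.trans (zpowers_le.mpr hw'H)
  have hR₁M : R₁ ≤ M := hR₁w.trans (zpowers_le.mpr hw'M)
  have hR₁Q : R₁ ≤ normalizer (Q : Set G) := hR₁w.trans hyN
  have hQH : Q ≤ H := hQX.trans PX.centralizer_le
  have hmoves : ¬ R₁ ≤ centralizer (Q : Set G) := by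
    intro hcen
    by_cases hrk : PRankLE s 1 ↥M
    · -- rank one
      have hDs : sigmaCore M ⊓ centralizer (R₁ : Set G) ≠ ⊥ := by
        intro h
        apply hQ1
        rw [eq_bot_iff, ← h]
        exact le_inf hQσ ((le_centralizer_iff).mp hcen)
      have hCs : Config M R₁ s := ⟨hM, hsσ, hrk, hR₁c, hR₁M, hDs⟩
      have hR₁1 : R₁ ≠ ⊥ := ne_bot_of_card_prime hs hR₁c
      have hR₁t : R₁ ≠ ⊤ := fun h => hM.1 (top_le_iff.1 (h ▸ hR₁M))
      obtain ⟨P₁, hP₁, hNP₁⟩ := (eq_top_or_exists_le_coatom (normalizer (R₁ : Set G))).resolve_left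
        (IsMinSimpleOddOrder.normalizer_ne_top hG hR₁1 hR₁t)
      have PM₁ : Partner M P₁ R₁ s := partner_of_config hB hG hCs hP₁ hNP₁
      have hCP₁ : centralizer (R₁ : Set G) ≤ P₁ := PM₁.centralizer_le
      have hw'R₁ : w' ∈ centralizer (R₁ : Set G) := by
        rw [mem_centralizer_iff]
        intro t ht
        obtain ⟨i, rfl⟩ := mem_zpowers_iff.mp (hR₁w ht)
        exact ((Commute.refl w').zpow_left i).eq
      have hzσ : zpowers w' ≤ sigmaCore P₁ := le_sigmaCore_of_isPGroup hG huniq hP₁ PM₁.hpH hzw' (zpowers_le.mpr (hCP₁ hw'R₁))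
      have hw'σ : w' ∈ sigmaCore P₁ := hzσ (mem_zpowers w')
      have hQP₁ : Q ≤ P₁ := ((le_centralizer_iff).mp hcen).trans hCP₁
      have hσn1 : P₁ ≤ normalizer (sigmaCore P₁ : Set G) := le_normalizer_piCoreOf (sigma P₁) P₁
      obtain ⟨u, hu, hua⟩ : ∃ u ∈ Q, w' * u * w'⁻¹ * u⁻¹ ≠ 1 := by
        by_contra hcon
        push Not at hcon
        apply hw'Cn
        rw [mem_centralizer_iff]
        intro x hx
        have h5 : w' * x * w'⁻¹ = x := mul_inv_eq_one.mp (hcon x hx)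
        calc x * w' = w' * x * w'⁻¹ * w' := by rw [h5]
          _ = _ := by group
      have hcQ : w' * u * w'⁻¹ * u⁻¹ ∈ Q := Q.mul_mem ((mem_normalizer_iff.mp (hyN (mem_zpowers w')) u).mp hu) (Q.inv_mem hu)
      have hcσ : w' * u * w'⁻¹ * u⁻¹ ∈ sigmaCore P₁ := by
        have h3 := (mem_normalizer_iff.mp (hσn1 (hQP₁ hu)) w'⁻¹).mp ((sigmaCore P₁).inv_mem hw'σ)
        have e : w' * u * w'⁻¹ * u⁻¹ = w' * (u * w'⁻¹ * u⁻¹) := by group
        rw [e]
        exact (sigmaCore P₁).mul_mem hw'σ h3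
      have hQz : Q = zpowers (w' * u * w'⁻¹ * u⁻¹) := eq_zpowers_of_card_prime hQ hcQ hua
      have hQσ1 : Q ≤ sigmaCore P₁ := by
        rw [hQz]
        exact zpowers_le.mpr hcσ
      have hqP₁ : q ∈ sigma P₁ := piCoreOf_isPi (sigma P₁) P₁ q hqq (by
        rw [← hQ]
        exact Subgroup.card_dvd_of_le hQσ1)
      exact PM₁.disj q hqP₁ hqσ
    · -- `τ₂`
      have hsp : s ≠ p := by
        rintro rfl
        exact hrk hC.hr
      obtain ⟨P, hP, hR₁P⟩ := exists_isMaxP_ge hR₁E (isPGroup_of_card_prime hR₁c)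
      have hPM : IsMaxP s P M := hP.of_compl hG huniq hM hE hsσ
      have hPnc : ¬ IsCyclic P := fun h => hrk (hPM.prank_of (prank_one_of_cyclic h))
      obtain ⟨A', hA'P, hA'e, hA'c⟩ := exists_e2_of_not_cyclic hG hP.isP hPnc
      have T' : Tau2Setup s A' M := Tau2Setup.mk' hG huniq (fun t _ K hK => hpl13 hG t K hK) hM (hA'P.trans hPM.le) hA'e hA'c hsσ
      have hA'E : A' ≤ E := hA'P.trans hP.le
      have hA'X : A' ≤ centralizer (X : Set G) := by
        refine comm_of_norm_norm (hA'E.trans hEX) (hXE.trans (T'.compl_le_normalizer hE hA'E)) ?_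
        refine eq_bot_of_isPGroup_of_coprime (T'.S.hAp.to_le inf_le_left) (inf_le_right : A' ⊓ X ≤ X) ?_
        rw [hC.hX]
        exact (Nat.coprime_primes hpp hs).mpr hsp.symm
      have h0 := T'.e hH PX.ne (hA'X.trans PX.centralizer_le)
      apply hQ1
      rw [eq_bot_iff, ← h0]
      exact le_inf hQσ hQH
  obtain ⟨PQ, -⟩ := PX.config_of_le hB hG hQ hQD
  exact ⟨s, R₁, hs, PQ.hC, hR₁c, hR₁H, hR₁Q, hmoves⟩

end Cfsg.Agent.Lib.FT
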