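import Cfsg.Agent.Lib.FT.BG17d

/-!
BG17: **No prime mover** (the theorem).
-/

set_option autoImplicit false
set_option linter.unusedSectionVars false
set_option linter.style.haveILetI false

namespace Cfsg.Agent.Lib.FT

open Subgroup Cfsg Cfsg.Agent.Lib.OddLocal Cfsg.Agent.Lib.Basic

open Cfsg.Agent.Lib.Coprime (mem_conj_map conj_mem_conj_map conj_map_conj_map conj_map_one
  conj_map_mono mem_normalizer_of_conj_le conj_map_eq_iff_mem_normalizer isPGroup_conj_map)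

open scoped commutatorElement

variable {G : Type*} [Group G] [Finite G]

theorem isCyclic_of_card_prime {Q : Subgroup G} {q : ℕ} (hq : q.Prime) (hQ : Nat.card Q = q) : IsCyclic Q := by
  haveI : Fact (Nat.card Q).Prime := ⟨by rw [hQ]; exact hq⟩
  exact isCyclic_of_prime_card rfl

/-- A subgroup of prime order moving `X` meets `C(X)` trivially. -/
theorem inf_centralizer_eq_bot {R₀ X : Subgroup G} {r : ℕ} (hr : r.Prime) (hR₀ : Nat.card R₀ = r) (hnc : ¬ R₀ ≤ centralizer (X : Set G)) :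
    R₀ ⊓ centralizer (X : Set G) = ⊥ := by
  by_contra hne
  obtain ⟨d, hd⟩ := (Subgroup.ne_bot_iff_exists_ne_one).mp hne
  apply hnc
  haveI : Fact r.Prime := ⟨hr⟩
  have hd1 : (d : G) ≠ 1 := fun h => hd (Subtype.ext h)
  rw [eq_zpowers_of_card_prime hR₀ d.2.1 hd1]
  exact zpowers_le.mpr d.2.2

/-- **No prime mover.** -/
theorem npm (hB : ThmB G) (hG : IsMinSimpleOddOrder G) (p : ℕ) (hp : p.Prime) :
    ∀ (M X R₀ : Subgroup G) (r : ℕ), r.Prime → Mover M X R₀ p r → False := by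
  classical
  induction p using Nat.strong_induction_on with
  | _ p IH =>
  intro M X R₀ r hrr R
  haveI := Fact.mk hp
  haveI := Fact.mk hrr
  have hM := R.hC.hM
  have hC := R.hC
  have hX1 : X ≠ ⊥ := ne_bot_of_card_prime hp hC.hX
  have hXt : X ≠ ⊤ := fun h => hM.1 (top_le_iff.1 (h ▸ hC.hXM))
  obtain ⟨H, hH, hNH⟩ := (eq_top_or_exists_le_coatom (normalizer (X : Set G))).resolve_left
    (IsMinSimpleOddOrder.normalizer_ne_top hG hX1 hXt)
  have PX : Partner M H X p := partner_of_config hB hG hC hH hNH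
  have hRD := R.centralizes_D hB hG PX
  obtain ⟨q, hq, Q, hQD, hQ⟩ := exists_prime_subgroup hC.hD
  haveI := Fact.mk hq
  have hQσ : Q ≤ sigmaCore M := hQD.trans inf_le_left
  have hQR : Q ≤ centralizer (R₀ : Set G) := hQD.trans ((le_centralizer_iff).mp hRD)
  have hQ1 : Q ≠ ⊥ := ne_bot_of_card_prime hq hQ
  have hrσ := R.not_sigma hG
  have hD' : sigmaCore M ⊓ centralizer (R₀ : Set G) ≠ ⊥ := by
    intro h
    apply hQ1
    rw [eq_bot_iff, ← h]
    exact le_inf hQσ hQR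
  have hCM : Config M R₀ r := ⟨hM, hrσ, R.prank hG, R.hR₀, R.hRM, hD'⟩
  have hR₀1 : R₀ ≠ ⊥ := ne_bot_of_card_prime hrr R.hR₀
  have hR₀t : R₀ ≠ ⊤ := fun h => hM.1 (top_le_iff.1 (h ▸ R.hRM))
  obtain ⟨P₀, hP₀, hNP₀⟩ := (eq_top_or_exists_le_coatom (normalizer (R₀ : Set G))).resolve_left
    (IsMinSimpleOddOrder.normalizer_ne_top hG hR₀1 hR₀t)
  have PM : Partner M P₀ R₀ r := partner_of_config hB hG hCM hP₀ hNP₀
  obtain ⟨PQ, -⟩ := PX.config_of_le hB hG hQ hQD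
  obtain ⟨s, R₁, hs, R₁'⟩ := lemmaA hB hG PX R hRD hQ hQD
  haveI := Fact.mk hs
  -- `R₁` centralizes `X`
  have hXD : X ≤ sigmaCore H ⊓ centralizer (Q : Set G) := le_inf PX.hXσ ((le_centralizer_iff).mp (hQD.trans inf_le_right))
  have hR₁X : R₁ ≤ centralizer (X : Set G) := by
    have h1 := R₁'.centralizes_D hB hG PQ
    exact (le_centralizer_iff).mp (hXD.trans ((le_centralizer_iff).mp h1))
  have hΓM : normalizer (X : Set G) ⊓ normalizer (Q : Set G) ≤ M := inf_le_right.trans PQ.hN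
  have hΓH : normalizer (X : Set G) ⊓ normalizer (Q : Set G) ≤ H := inf_le_left.trans hNH
  set Γ := normalizer (X : Set G) ⊓ normalizer (Q : Set G) with hΓ
  have hΓt : Γ ≠ ⊤ := fun h => hM.1 (top_le_iff.1 (h ▸ hΓM))
  have hR₀Q : R₀ ≤ centralizer (Q : Set G) := (le_centralizer_iff).mp hQR
  have hR₀Γ : R₀ ≤ Γ := le_inf R.hRN (hR₀Q.trans (centralizer_le_normalizer' Q))
  have hR₁Γ : R₁ ≤ Γ := le_inf (hR₁X.trans (centralizer_le_normalizer' X)) R₁'.hRN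
  -- `r ≠ s`
  have hrs : r ≠ s := by
    rintro rfl
    obtain ⟨P, hP, hR₀P⟩ := exists_isMaxP_ge hR₀Γ (isPGroup_of_card_prime R.hR₀)
    have hPc : IsCyclic P := cyclic_of_prank_one hG (R.prank hG) hP.isP (hP.le.trans hΓM)
    obtain ⟨g, hg, hle⟩ := hP.exists_conj_le hR₁Γ (isPGroup_of_card_prime R₁'.hR₀)
    have e : R₁.map (MulAut.conj g).toMonoidHom = R₀ := Cfsg.Agent.Lib.OddLocal.eq_of_card_eq_of_le_isCyclic hPc hle hR₀P (by
      rw [Cfsg.Agent.Lib.Coprime.card_conj_map, R₁'.hR₀, R.hR₀])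
    have e2 : R₀.map (MulAut.conj g⁻¹).toMonoidHom = R₁ := by
      rw [← e, conj_map_conj_map, inv_mul_cancel, conj_map_one]
    apply R₁'.hnc
    rw [← e2]
    exact conj_le_centralizer_of_norm hR₀Q ((normalizer (Q : Set G)).inv_mem hg.2)
  -- commuting generators
  obtain ⟨y, hy, hy1⟩ := exists_ne_one_of_card_prime hrr R.hR₀
  obtain ⟨y', hy', hy'1⟩ := exists_ne_one_of_card_prime hs R₁'.hR₀
  have hyo : orderOf y = r := orderOf_eq_of_card_prime hrr R.hR₀ hy hy1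
  have hy'o : orderOf y' = s := orderOf_eq_of_card_prime hs R₁'.hR₀ hy' hy'1
  obtain ⟨c, hc, hd⟩ := dichotomy hG hΓt hrs (fun P hP hle => cyclic_of_prank_one hG (R.prank hG) hP (hle.trans hΓM))
    (fun P hP hle => cyclic_of_prank_one hG (R₁'.prank hG) hP (hle.trans hΓH)) (hR₀Γ hy) (hR₁Γ hy') hyo hy'o
  have hR₀z : R₀ = zpowers y := eq_zpowers_of_card_prime R.hR₀ hy hy1
  have hR₁z : R₁ = zpowers y' := eq_zpowers_of_card_prime R₁'.hR₀ hy' hy'1
  set y'' := c * y' * c⁻¹ with hy''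
  have hR₂ : R₁.map (MulAut.conj c).toMonoidHom = zpowers y'' := by
    rw [hR₁z, MonoidHom.map_zpowers]
    rfl
  set R₂ := R₁.map (MulAut.conj c).toMonoidHom with hR₂def
  have hy''Γ : y'' ∈ Γ := Γ.mul_mem (Γ.mul_mem hc (hR₁Γ hy')) (Γ.inv_mem hc)
  have hyΓ : y ∈ Γ := hR₀Γ hy
  have hR₂c : Nat.card R₂ = s := by rw [hR₂def, Cfsg.Agent.Lib.Coprime.card_conj_map, R₁'.hR₀]
  have hR₂Q : R₂ ≤ normalizer (Q : Set G) := by
    rw [hR₂]
    exact zpowers_le.mpr hy''Γ.2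
  have hR₂nc : ¬ R₂ ≤ centralizer (Q : Set G) := by
    intro h
    apply R₁'.hnc
    have h3 := conj_le_centralizer_of_norm h ((normalizer (Q : Set G)).inv_mem hc.2)
    rwa [hR₂def, conj_map_conj_map, inv_mul_cancel, conj_map_one] at h3
  have hcomm : y * y'' = y'' * y := by
    rcases hd with hd | hd
    · -- `y''` normalizes `R₀`
      have h1 : y'' * y * y''⁻¹ * y⁻¹ ∈ R₀ := by
        rw [hR₀z]
        exact (zpowers y).mul_mem ((mem_normalizer_iff.mp hd y).mp (mem_zpowers y)) ((zpowers y).inv_mem (mem_zpowers y))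
      have h2 : y'' * y * y''⁻¹ * y⁻¹ ∈ centralizer (X : Set G) :=
        commutator_mem_centralizer_of_cyclic (isCyclic_of_card_prime hp hC.hX) hy''Γ.1 hyΓ.1
      have h3 : y'' * y * y''⁻¹ * y⁻¹ ∈ R₀ ⊓ centralizer (X : Set G) := ⟨h1, h2⟩
      rw [inf_centralizer_eq_bot hrr R.hR₀ R.hnc, mem_bot] at h3
      have h5 : y'' * y * y''⁻¹ = y := mul_inv_eq_one.mp h3
      calc y * y'' = y'' * y * y''⁻¹ * y'' := by rw [h5]
        _ = _ := by group
    · have h1 : y * y'' * y⁻¹ * y''⁻¹ ∈ R₂ := by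
        rw [hR₂]
        exact (zpowers y'').mul_mem ((mem_normalizer_iff.mp hd y'').mp (mem_zpowers y'')) ((zpowers y'').inv_mem (mem_zpowers y''))
      have h2 : y * y'' * y⁻¹ * y''⁻¹ ∈ centralizer (Q : Set G) :=
        commutator_mem_centralizer_of_cyclic (isCyclic_of_card_prime hq hQ) hyΓ.2 hy''Γ.2
      have h3 : y * y'' * y⁻¹ * y''⁻¹ ∈ R₂ ⊓ centralizer (Q : Set G) := ⟨h1, h2⟩
      rw [inf_centralizer_eq_bot hs hR₂c hR₂nc, mem_bot] at h3
      have h5 : y * y'' * y⁻¹ = y'' := mul_inv_eq_one.mp h3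
      calc y * y'' = y * y'' * y⁻¹ * y := by group
        _ = _ := by rw [h5]
  have hR₂R₀ : R₂ ≤ centralizer (R₀ : Set G) := by
    rw [hR₂, zpowers_le, hR₀z, mem_centralizer_iff]
    intro z hz
    obtain ⟨i, rfl⟩ := mem_zpowers_iff.mp hz
    have h1 : Commute y y'' := hcomm
    exact (h1.zpow_left i).eq
  have hCP₀ : centralizer (R₀ : Set G) ≤ P₀ := PM.centralizer_le
  have hQD₀ : Q ≤ sigmaCore M ⊓ centralizer (R₀ : Set G) := le_inf hQσ hQR
  obtain ⟨PQ₀, -⟩ := PM.config_of_le hB hG hQ hQD₀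
  have R₂' : Mover P₀ Q R₂ q s := ⟨PQ₀.hC, hR₂c, hR₂R₀.trans hCP₀, hR₂Q, hR₂nc⟩
  have hRD₂ := R₂'.centralizes_D hB hG PQ₀
  have hR₀D : R₀ ≤ sigmaCore P₀ ⊓ centralizer (Q : Set G) := le_inf PM.hXσ hR₀Q
  obtain ⟨s₂, R₃, hs₂, R₃'⟩ := lemmaA hB hG PQ₀ R₂' hRD₂ R.hR₀ hR₀D
  exact IH r R.lt hrr M R₀ R₃ s₂ hs₂ R₃'

end Cfsg.Agent.Lib.FT
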