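import Cfsg.Agent.Lib.FT.BG17e

/-!
BG18: consequences of "no prime mover".  All conditional on Theorem B.
-/

set_option autoImplicit false
set_option linter.unusedSectionVars false
set_option linter.style.haveILetI false

namespace Cfsg.Agent.Lib.FT

open Subgroup Cfsg Cfsg.Agent.Lib.OddLocal Cfsg.Agent.Lib.Basic

open Cfsg.Agent.Lib.Coprime (mem_conj_map conj_mem_conj_map conj_map_conj_map conj_map_one
  conj_map_mono mem_normalizer_of_conj_le conj_map_eq_iff_mem_normalizer isPGroup_conj_map)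

open scoped commutatorElement

variable {G : Type*} [Group G] [Finite G]

/-- The subgroup of prime order of `M` for `p ∈ κ(M)` is in `Config`. -/
theorem config_of_kappa {M X : Subgroup G} {p : ℕ} [Fact p.Prime] (hG : IsMinSimpleOddOrder G) (hM : IsCoatom M) (hp : p ∈ kappa M)
    (hX : Nat.card X = p) (hXM : X ≤ M) : Config M X p := by
  classical
  have hpp : p.Prime := Fact.out
  have hXp : IsPGroup p X := isPGroup_of_card_prime hX
  obtain ⟨P, hP, hXP⟩ := exists_isMaxP_ge hXM hXp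
  have hc := hp.2.2.2 hP.toSylow
  have hPc : IsCyclic P := by
    have h1 : IsCyclic ↥(P.subgroupOf M) := hc.1
    exact (Subgroup.subgroupOfEquivOfLe hP.le).isCyclic.mp h1
  refine ⟨hM, hp.2.2.1, hP.prank_of (prank_one_of_cyclic hPc), hX, hXM, ?_⟩
  obtain ⟨⟨x, hxM⟩, hxP, hx1, y, hy, hy1, hxy⟩ := hc.2
  have hxP' : x ∈ P := hxP
  have hx1' : x ≠ 1 := fun h => hx1 (Subtype.ext h)
  have hzp : IsPGroup p (zpowers x) := hP.isP.to_le (zpowers_le.mpr hxP')
  have hz1 : zpowers x ≠ ⊥ := fun h => hx1' (zpowers_eq_bot.mp h)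
  obtain ⟨a, ha, hao⟩ := exists_orderOf_of_isPGroup hzp hz1
  have e : zpowers a = X := Cfsg.Agent.Lib.OddLocal.eq_of_card_eq_of_le_isCyclic hPc ((zpowers_le.mpr ha).trans (zpowers_le.mpr hxP')) hXP (by
    rw [Nat.card_zpowers, hao, hX])
  intro h
  have hyD : y ∈ sigmaCore M ⊓ centralizer (X : Set G) := by
    refine ⟨hy, (mem_centralizer_iff.mpr ?_ : y ∈ centralizer (X : Set G))⟩
    intro z hz
    rw [← e] at hz
    obtain ⟨i, rfl⟩ := mem_zpowers_iff.mp hz
    obtain ⟨j, rfl⟩ := mem_zpowers_iff.mp ha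
    have h2 : Commute x y := hxy
    exact ((h2.zpow_left j).zpow_left i).eq
  rw [h, mem_bot] at hyD
  exact hy1 hyD

namespace Partner

variable {M H X : Subgroup G} {p : ℕ} [Fact p.Prime]

/-- **(IV)**: a prime-order `σ(M)'`-subgroup of `M` normalizing `X` centralizes `C_{M_σ}(X)`. -/
theorem centralizes_of_norm (hB : ThmB G) (hG : IsMinSimpleOddOrder G) (PX : Partner M H X p) {R₀ : Subgroup G} {r : ℕ} [Fact r.Prime]
    (hR₀ : Nat.card R₀ = r) (hrσ : r ∉ sigma M) (hRM : R₀ ≤ M) (hRN : R₀ ≤ normalizer (X : Set G)) :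
    R₀ ≤ centralizer ((sigmaCore M ⊓ centralizer (X : Set G) : Subgroup G) : Set G) := by
  classical
  have hpp : p.Prime := Fact.out
  have hrr : r.Prime := Fact.out
  have hM := PX.hC.hM
  have hRX : R₀ ≤ centralizer (X : Set G) := by
    by_contra h
    exact npm hB hG p hpp M X R₀ r hrr ⟨PX.hC, hR₀, hRM, hRN, h⟩
  have hσM : sigmaCore M ≤ M := piCoreOf_le _ M
  have hσn : M ≤ normalizer (sigmaCore M : Set G) := le_normalizer_piCoreOf (sigma M) M
  set D := sigmaCore M ⊓ centralizer (X : Set G) with hD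
  have hDσ : D ≤ sigmaCore M := inf_le_left
  have hDt : D ≠ ⊤ := fun h => hM.1 (top_le_iff.1 (h ▸ hDσ.trans hσM))
  have hDs : Group.IsSolvable ↥D := IsMinSimpleOddOrder.isSolvable hG hDt
  have hRD : R₀ ≤ normalizer (D : Set G) := by
    intro a ha
    rw [mem_normalizer_iff]
    intro z
    have h1 := mem_normalizer_iff.mp (hσn (hRM ha)) z
    have h2 := mem_normalizer_iff.mp (Cfsg.Agent.Lib.OddLocal.mem_normalizer_centralizer (hRN ha)) z
    simp only [hD, mem_inf, h1, h2]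
  have hca : Cfsg.Agent.Lib.Coprime.CoprimeAction R₀ D := by
    refine ⟨hRD, ?_, Or.inr hDs⟩
    rw [hR₀]
    exact (Nat.Prime.coprime_iff_not_dvd hrr).mpr fun hd =>
      hrσ (piCoreOf_isPi (sigma M) M r hrr (hd.trans (Subgroup.card_dvd_of_le hDσ)))
  by_contra hcon
  have hex : ∃ u : ℕ, u.Prime ∧ ∃ T : Subgroup G, IsPiHallOf {u} T D ∧ R₀ ≤ normalizer (T : Set G) ∧ ¬ R₀ ≤ centralizer (T : Set G) := by
    by_contra hcon2
    push Not at hcon2
    apply hcon
    rw [le_centralizer_iff]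
    have h1 : (D ⊓ centralizer (R₀ : Set G)).relIndex D = 1 := by
      by_contra hne
      obtain ⟨t, ht, hd⟩ := Nat.exists_prime_and_dvd hne
      haveI := Fact.mk ht
      obtain ⟨T, hT, hA, -⟩ := Cfsg.Agent.Lib.Coprime.exists_invariant_hall {t} _ hca hDs rfl (U := ⊥) bot_le
        (fun a _ => by
          rw [mem_normalizer_iff]
          intro z
          simp) (fun t ht hd => by
          simp at hd
          exact absurd hd ht.one_lt.ne')
      have hle := hcon2 t ht T hT hA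
      exact not_dvd_relIndex_of_isMaxP (isMaxP_of_isPiHallOf hT).1 (le_inf hT.1 ((le_centralizer_iff).mp hle)) hd
    exact (Subgroup.relIndex_eq_one.mp h1).trans inf_le_right
  obtain ⟨u, hu, T, hT, hRT, hRTc⟩ := hex
  haveI := Fact.mk hu
  obtain ⟨hTm, hTp⟩ := isMaxP_of_isPiHallOf hT
  have hT1 : T ≠ ⊥ := by
    rintro rfl
    exact hRTc (fun a _ => mem_centralizer_iff.mpr (fun t ht => by
      have h1 : t = 1 := (mem_bot).mp ht
      rw [h1]
      simp))
  obtain ⟨y₀, hy₀, hy₀o⟩ := exists_orderOf_of_isPGroup hTp hT1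
  have hzc : Nat.card (zpowers y₀) = u := by rw [Nat.card_zpowers, hy₀o]
  have hTD : T ≤ D := hT.1
  have hzD : zpowers y₀ ≤ D := (zpowers_le.mpr hy₀).trans hTD
  have hTc : IsCyclic T := cyclic_of_prank_one hG (PX.prank_one hG hzc hzD) hTp (hTD.trans (inf_le_right.trans PX.centralizer_le))
  have huσ : u ∈ sigma M := piCoreOf_isPi (sigma M) M u hu (by
    rw [← hzc]
    exact Subgroup.card_dvd_of_le (hzD.trans hDσ))
  have hu2 : u ≠ 2 := prime_odd hG hu (huσ.2.1.trans (Subgroup.card_subgroup_dvd_card M))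
  have hur : r ≠ u := fun h => hrσ (h ▸ huσ)
  obtain ⟨y, hy, hyo, hyN, hync⟩ := exists_prime_moved hu2 (by rw [hR₀]; exact (Nat.coprime_primes hrr hu).mpr hur) hTp hRT hTc hRTc
  have hzy : Nat.card (zpowers y) = u := by rw [Nat.card_zpowers, hyo]
  obtain ⟨PQ, -⟩ := PX.config_of_le hB hG hzy ((zpowers_le.mpr hy).trans hTD)
  exact npm hB hG u hu H (zpowers y) R₀ r hrr ⟨PQ.hC, hR₀, hRX.trans PX.centralizer_le, hyN, hync⟩

/-- A prime-order `σ(M)'`-subgroup of `M` normalizing `X` has `t`-rank one in `M`. -/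
theorem prank_of_norm (hB : ThmB G) (hG : IsMinSimpleOddOrder G) (PX : Partner M H X p) {Y : Subgroup G} {t : ℕ} [Fact t.Prime]
    (hY : Nat.card Y = t) (htσ : t ∉ sigma M) (hYM : Y ≤ M) (hYN : Y ≤ normalizer (X : Set G)) : PRankLE t 1 ↥M := by
  classical
  by_contra hr
  have hpp : p.Prime := Fact.out
  have htt : t.Prime := Fact.out
  have huniq := huniq13 hG
  have hM := PX.hC.hM
  have hH := PX.hH
  have hpl : ∀ (r : ℕ) [Fact r.Prime] (H : Subgroup G), H ≠ ⊤ → PLengthLE r 1 ↥H := fun r _ K hK => hpl13 hG r K hK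
  have hr2 : PRankLE t 2 ↥M := prank_of_not_sigma hG huniq hM htσ
  have hτ : t ∈ tau2 M := ⟨htt, htσ, hr2, hr⟩
  obtain ⟨y, hy, hy1⟩ := exists_ne_one_of_card_prime htt hY
  have hyo : orderOf y = t := orderOf_eq_of_card_prime htt hY hy hy1
  have hYz : Y = zpowers y := eq_zpowers_of_card_prime hY hy hy1
  obtain ⟨x, hx⟩ := (Subgroup.ne_bot_iff_exists_ne_one).mp PX.hC.hD
  have hx1 : (x : G) ≠ 1 := fun h => hx (Subtype.ext h)
  have hYD := PX.centralizes_of_norm hB hG hY htσ hYM hYN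
  have hyx : y * x = x * y := (mem_centralizer_iff.mp (hYD hy) x x.2).symm
  have hτ' : ∀ s : ℕ, s.Prime → s ∣ orderOf y → s ∈ tau2 M := fun s hs hd => by
    rw [hyo] at hd
    rw [(Nat.prime_dvd_prime_iff_eq hs htt).mp hd]
    exact hτ
  obtain ⟨hC1, hC2⟩ := s1420_d hG huniq hpl hM (hYM hy) hy1 hτ' ⟨hYM hy, x, x.2.1, hx1, hyx⟩
  have hYt : Y ≠ ⊤ := fun h => hM.1 (top_le_iff.1 (h ▸ hYM))
  have hY1 : Y ≠ ⊥ := ne_bot_of_card_prime htt hY
  have hNY : normalizer (Y : Set G) ≤ M := by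
    obtain ⟨L, hL, hNL⟩ := (eq_top_or_exists_le_coatom (normalizer (Y : Set G))).resolve_left
      (IsMinSimpleOddOrder.normalizer_ne_top hG hY1 hYt)
    have hCL : centralizer ({y} : Set G) ≤ L := by
      refine le_trans ?_ hNL
      rw [hYz]
      exact cent_le_norm y
    rwa [hC2 L hL hCL] at hNL
  have hYX : Y ≤ centralizer (X : Set G) := by
    by_contra h
    exact npm hB hG p hpp M X Y t htt ⟨PX.hC, hY, hYM, hYN, h⟩
  have hYH : Y ≤ H := hYX.trans PX.centralizer_le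
  by_cases htH : t ∈ sigma H
  · obtain ⟨_, _, -, -, h3, -⟩ := thmD_not_sigma hG hH htH hY hYH hM PX.ne.symm hNY htσ
    have h4 : (x : G) ∈ sigmaCore M ⊓ H := ⟨x.2.1, PX.centralizer_le x.2.2⟩
    rw [h3, mem_bot] at h4
    exact hx1 h4
  · obtain ⟨z, hz, hz1⟩ := exists_ne_one_of_card_prime hpp PX.hC.hX
    have hzy : y * z = z * y := (mem_centralizer_iff.mp (hYX hy) z hz).symm
    by_cases hrH : PRankLE t 1 ↥H
    · have hCf : Config H Y t := by
        refine ⟨hH, htH, hrH, hY, hYH, ?_⟩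
        intro h
        have h4 : z ∈ sigmaCore H ⊓ centralizer (Y : Set G) := by
          refine Subgroup.mem_inf.mpr ⟨PX.hXσ hz, ?_⟩
          rw [mem_centralizer_iff]
          intro w hw
          exact (mem_centralizer_iff.mp (hYX hw) z hz).symm
        rw [h, mem_bot] at h4
        exact hz1 h4
      exact htσ (thmT hG H Y M t htt hCf hM hNY)
    · have hr2H : PRankLE t 2 ↥H := prank_of_not_sigma hG huniq hH htH
      have hτH : t ∈ tau2 H := ⟨htt, htH, hr2H, hrH⟩
      obtain ⟨hC3, -⟩ := s1420_d hG huniq hpl hH (hYH hy) hy1 (fun s hs hd => by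
        rw [hyo] at hd
        rw [(Nat.prime_dvd_prime_iff_eq hs htt).mp hd]
        exact hτH) ⟨hYH hy, z, PX.hXσ hz, hz1, hzy⟩
      exact PX.ne (hC2 H hH hC3)

/-- A prime-order `σ(M)'`-subgroup of `M` normalizing `X` has prime in `κ(M)`. -/
theorem kappa_of_norm (hB : ThmB G) (hG : IsMinSimpleOddOrder G) (PX : Partner M H X p) {Y : Subgroup G} {t : ℕ} [Fact t.Prime]
    (hY : Nat.card Y = t) (htσ : t ∉ sigma M) (hYM : Y ≤ M) (hYN : Y ≤ normalizer (X : Set G)) : t ∈ kappa M := by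
  classical
  have htt : t.Prime := Fact.out
  obtain ⟨y, hy, hy1⟩ := exists_ne_one_of_card_prime htt hY
  have hyo : orderOf y = t := orderOf_eq_of_card_prime htt hY hy hy1
  have hyp : y ^ t = 1 := by
    rw [← hyo]
    exact pow_orderOf_eq_one y
  refine kappa_of_good hG (hYM hy) hy1 htt hyp htσ (PX.prank_of_norm hB hG hY htσ hYM hYN) ?_
  intro h
  obtain ⟨x, hx⟩ := (Subgroup.ne_bot_iff_exists_ne_one).mp PX.hC.hD
  have hx1 : (x : G) ≠ 1 := fun h => hx (Subtype.ext h)
  have hYD := PX.centralizes_of_norm hB hG hY htσ hYM hYN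
  have h4 : (x : G) ∈ sigmaCore M ⊓ centralizer ({y} : Set G) := by
    refine Subgroup.mem_inf.mpr ⟨x.2.1, ?_⟩
    rw [mem_centralizer_singleton_iff]
    exact (mem_centralizer_iff.mp (hYD hy) x x.2)
  rw [h, mem_bot] at h4
  exact hx1 h4

end Partner

/-- The existence of a partner. -/
theorem exists_partner {M X : Subgroup G} {p : ℕ} [Fact p.Prime] (hB : ThmB G) (hG : IsMinSimpleOddOrder G) (hC : Config M X p) :
    ∃ H : Subgroup G, Partner M H X p := by
  classical
  have hpp : p.Prime := Fact.out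
  have hX1 : X ≠ ⊥ := ne_bot_of_card_prime hpp hC.hX
  have hXt : X ≠ ⊤ := fun h => hC.hM.1 (top_le_iff.1 (h ▸ hC.hXM))
  obtain ⟨H, hH, hNH⟩ := (eq_top_or_exists_le_coatom (normalizer (X : Set G))).resolve_left
    (IsMinSimpleOddOrder.normalizer_ne_top hG hX1 hXt)
  exact ⟨H, partner_of_config hB hG hC hH hNH⟩

/-- **S1428 core.** -/
theorem npm_s1428_core (hB : ThmB G) {M E : Subgroup G} (hG : IsMinSimpleOddOrder G) (hM : IsCoatom M) (hE : IsComplIn E (sigmaCore M) M) {p : ℕ} [Fact p.Prime]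
    (hσ : p ∉ sigma M) (hr : PRankLE p 1 ↥M) {P R : Subgroup G} (hPE : P ≤ E) (hP : Nat.card P = p)
    (hRE : R ≤ E ⊓ centralizer (P : Set G)) (hR : (Nat.card R).Prime) :
    sigmaCore M ⊓ centralizer (P : Set G) ≤ sigmaCore M ⊓ centralizer (R : Set G) := by
  classical
  by_cases hD : sigmaCore M ⊓ centralizer (P : Set G) = ⊥
  · rw [hD]
    exact bot_le
  have hC : Config M P p := ⟨hM, hσ, hr, hP, hPE.trans hE.1, hD⟩
  obtain ⟨H, PX⟩ := exists_partner hB hG hC
  haveI : Fact (Nat.card R).Prime := ⟨hR⟩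
  have hrσ : Nat.card R ∉ sigma M := by
    intro h
    have h1 : R ≤ sigmaCore M := le_sigmaCore_of_isPGroup hG (huniq13 hG) hM h (isPGroup_of_card_prime rfl) (hRE.trans (inf_le_left.trans hE.1))
    have h2 : R ≤ E ⊓ sigmaCore M := le_inf (hRE.trans inf_le_left) h1
    rw [hE.2.2.1] at h2
    exact ne_bot_of_card_prime hR rfl (le_bot_iff.mp h2)
  have h := PX.centralizes_of_norm hB hG rfl hrσ (hRE.trans (inf_le_left.trans hE.1)) (hRE.trans (inf_le_right.trans (centralizer_le_normalizer' P)))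
  exact le_inf inf_le_left ((le_centralizer_iff).mp h)

end Cfsg.Agent.Lib.FT
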