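import Cfsg.Agent.Lib.FT.BG18a

/-!
BG18: the Hall `κ(M)`-subgroup of a maximal subgroup.  All conditional on Theorem B.
-/

set_option autoImplicit false
set_option linter.unusedSectionVars false
set_option linter.style.haveILetI false

namespace Cfsg.Agent.Lib.FT

open Subgroup Cfsg Cfsg.Agent.Lib.OddLocal Cfsg.Agent.Lib.Basic

open Cfsg.Agent.Lib.Coprime (mem_conj_map conj_mem_conj_map conj_map_conj_map conj_map_one
  conj_map_mono mem_normalizer_of_conj_le conj_map_eq_iff_mem_normalizer isPGroup_conj_map)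

open scoped commutatorElement

variable {G : Type*} [Group G] [Finite G]

/-- `N₀ ⊓ M_σ` is a Hall `σ(M)`-subgroup of `N₀ ≤ M`. -/
theorem isPiHallOf_inf_sigmaCore {M N₀ : Subgroup G} (hG : IsMinSimpleOddOrder G) (hM : IsCoatom M) (hN₀ : N₀ ≤ M) :
    IsPiHallOf (sigma M) (N₀ ⊓ sigmaCore M) N₀ := by
  classical
  refine ⟨inf_le_left, fun t ht hd => piCoreOf_isPi (sigma M) M t ht (hd.trans (Subgroup.card_dvd_of_le inf_le_right)), fun t ht htσ hd => ?_⟩
  haveI := Fact.mk ht
  obtain ⟨T, hT, -⟩ := exists_isMaxP_ge (T := ⊥) (N := N₀) (p := t) bot_le IsPGroup.of_bot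
  have hTσ : T ≤ sigmaCore M := le_sigmaCore_of_isPGroup hG (huniq13 hG) hM htσ hT.isP (hT.le.trans hN₀)
  exact not_dvd_relIndex_of_isMaxP hT (le_inf hT.le hTσ) hd

/-- A `π`-group over a Hall `π`-subgroup is the Hall subgroup. -/
theorem le_of_isPiHallOf_of_primes {π : Set ℕ} {K E₀ M : Subgroup G} (hK : IsPiHallOf π K M) (hKE : K ≤ E₀) (hE₀M : E₀ ≤ M)
    (hE₀ : ∀ t : ℕ, t.Prime → t ∣ Nat.card E₀ → t ∈ π) : E₀ ≤ K := by
  by_contra hne
  have h1 : K.relIndex E₀ ≠ 1 := fun h => hne (Subgroup.relIndex_eq_one.mp h)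
  obtain ⟨t, ht, hd⟩ := Nat.exists_prime_and_dvd h1
  have h2 := Cfsg.Agent.Lib.Coprime.card_mul_relIndex hKE
  have h3 : t ∣ Nat.card E₀ := by
    rw [← h2]
    exact hd.trans (dvd_mul_left _ _)
  apply hK.2.2 t ht (hE₀ t ht h3)
  have h4 := Subgroup.relIndex_mul_relIndex K E₀ M hKE hE₀M
  rw [← h4]
  exact hd.trans (dvd_mul_right _ _)

/-- The primes of a complement are not in `σ(M)`. -/
theorem compl_prime_not_sigma {M E : Subgroup G} (hG : IsMinSimpleOddOrder G) (hM : IsCoatom M) (hE : IsComplIn E (sigmaCore M) M) {t : ℕ} (ht : t.Prime)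
    (hd : t ∣ Nat.card E) : t ∉ sigma M := by
  classical
  intro hσ
  haveI := Fact.mk ht
  obtain ⟨y, hy⟩ := exists_prime_orderOf_dvd_card' (G := ↥E) t hd
  have hyo : orderOf (y : G) = t := by rw [Subgroup.orderOf_coe, hy]
  have hzp : IsPGroup t (zpowers (y : G)) := isPGroup_of_card_prime (by rw [Nat.card_zpowers, hyo])
  have h1 := le_sigmaCore_of_isPGroup hG (huniq13 hG) hM hσ hzp (zpowers_le.mpr (hE.1 y.2))
  have h2 : (y : G) ∈ E ⊓ sigmaCore M := ⟨y.2, h1 (mem_zpowers _)⟩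
  rw [hE.2.2.1, mem_bot] at h2
  rw [h2, orderOf_one] at hyo
  exact ht.one_lt.ne hyo

section KappaHall

variable {M K : Subgroup G}

theorem prime_mem_kappa (hK : IsPiHallOf (kappa M) K M) {X : Subgroup G} {p : ℕ} (hp : p.Prime) (hXK : X ≤ K) (hX : Nat.card X = p) :
    p ∈ kappa M := hK.2.1 p hp (by
  rw [← hX]
  exact Subgroup.card_dvd_of_le hXK)

theorem primes_kappa_not_sigma (hK : IsPiHallOf (kappa M) K M) : ∀ r : ℕ, r.Prime → r ∣ Nat.card K → r ∉ sigma M :=
  fun r hr hd => (hK.2.1 r hr hd).2.2.1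

/-- Every subgroup of prime order of `K` is normal in `K`. -/
theorem kappa_normal_prime (hB : ThmB G) (hG : IsMinSimpleOddOrder G) (hM : IsCoatom M) (hK : IsPiHallOf (kappa M) K M) {X : Subgroup G} {p : ℕ} [Fact p.Prime]
    (hXK : X ≤ K) (hX : Nat.card X = p) : K ≤ normalizer (X : Set G) := by
  classical
  have hpp : p.Prime := Fact.out
  have hpκ := prime_mem_kappa hK hpp hXK hX
  have hC : Config M X p := config_of_kappa hG hM hpκ hX (hXK.trans hK.1)
  by_cases hd : p ∣ Nat.card ↥⁅M, M⁆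
  · have hτ : p ∈ tau3 M := ⟨hpp, hC.hpσ, hd, hC.hr⟩
    obtain ⟨E, hE, hKE⟩ := exists_compl_sigma_ge hG hM hK.1 (primes_kappa_not_sigma hK)
    exact hKE.trans (normal_of_tau3 hG hM hE hτ (hXK.trans hKE) hX)
  -- `τ₁`
  set N := ⁅K, K⁆ with hN
  have hNK : N ≤ K := Subgroup.commutator_le_self K
  have hNM : N ≤ ⁅M, M⁆ := Subgroup.commutator_mono hK.1 hK.1
  have hpN : ¬ p ∣ Nat.card N := fun h => hd (h.trans (Subgroup.card_dvd_of_le hNM))
  have hNt : N ≠ ⊤ := fun h => hM.1 (top_le_iff.1 (h ▸ hNK.trans hK.1))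
  have hNs : Group.IsSolvable ↥N := IsMinSimpleOddOrder.isSolvable hG hNt
  have hKn : K ≤ normalizer (N : Set G) := by
    intro k hk
    rw [← conj_map_eq_iff_mem_normalizer, hN, Subgroup.map_commutator, (conj_map_eq_iff_mem_normalizer K k).mpr (le_normalizer hk)]
  have hca : Cfsg.Agent.Lib.Coprime.CoprimeAction X N := by
    refine ⟨hXK.trans hKn, ?_, Or.inr hNs⟩
    rw [hX]
    exact (Nat.Prime.coprime_iff_not_dvd hpp).mpr hpN
  have hXN : N ≤ centralizer (X : Set G) := by
    have h1 : (N ⊓ centralizer (X : Set G)).relIndex N = 1 := by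
      by_contra hne
      obtain ⟨s, hs, hd⟩ := Nat.exists_prime_and_dvd hne
      haveI := Fact.mk hs
      obtain ⟨T, hT, hA, -⟩ := Cfsg.Agent.Lib.Coprime.exists_invariant_hall {s} _ hca hNs rfl (U := ⊥) bot_le
        (fun a _ => by
          rw [mem_normalizer_iff]
          intro z
          simp) (fun t ht hd => by
          simp at hd
          exact absurd hd ht.one_lt.ne')
      obtain ⟨hTm, hTp⟩ := isMaxP_of_isPiHallOf hT
      refine not_dvd_relIndex_of_isMaxP hTm (le_inf hT.1 ?_) hd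
      by_cases hT1 : T = ⊥
      · rw [hT1]
        exact bot_le
      obtain ⟨y₀, hy₀, hy₀o⟩ := exists_orderOf_of_isPGroup hTp hT1
      have hsd : s ∣ Nat.card N := by
        rw [← hy₀o]
        exact Subgroup.orderOf_dvd_natCard _ (hT.1 hy₀)
      have hsκ : s ∈ kappa M := hK.2.1 s hs (hsd.trans (Subgroup.card_dvd_of_le hNK))
      have hzy₀ : Nat.card (zpowers y₀) = s := by rw [Nat.card_zpowers, hy₀o]
      have hCs : Config M (zpowers y₀) s := config_of_kappa hG hM hsκ hzy₀ (zpowers_le.mpr (hK.1 (hNK (hT.1 hy₀))))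
      have hTc : IsCyclic T := cyclic_of_prank_one hG hCs.hr hTp (hT.1.trans (hNK.trans hK.1))
      have hs2 : s ≠ 2 := prime_odd hG hs (hsd.trans (Subgroup.card_subgroup_dvd_card N))
      have hsp : s ≠ p := fun h => hpN (h ▸ hsd)
      have hXC : X ≤ centralizer (T : Set G) := by
        by_contra hnc
        obtain ⟨y, hy, hyo, hyN, hync⟩ := exists_prime_moved hs2 (by rw [hX]; exact (Nat.coprime_primes hpp hs).mpr hsp.symm) hTp hA hTc hnc
        have hzy : Nat.card (zpowers y) = s := by rw [Nat.card_zpowers, hyo]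
        have hCy : Config M (zpowers y) s := config_of_kappa hG hM hsκ hzy (zpowers_le.mpr (hK.1 (hNK (hT.1 hy))))
        exact npm hB hG s hs M (zpowers y) X p hpp ⟨hCy, hX, hXK.trans hK.1, hyN, hync⟩
      exact (le_centralizer_iff).mp hXC
    exact (Subgroup.relIndex_eq_one.mp h1).trans inf_le_right
  have hKC : K ≤ centralizer (X : Set G) := by
    intro k hk
    rw [mem_centralizer_iff]
    intro x hx
    have hxK : x ∈ K := hXK hx
    set c := k * x * k⁻¹ * x⁻¹ with hc
    have hcN : c ∈ N := by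
      have := Subgroup.commutator_mem_commutator hk hxK
      rwa [commutatorElement_def] at this
    have hcx : Commute c x := by
      have h1 := mem_centralizer_iff.mp (hXN hcN) x hx
      exact h1.symm
    have e1 : k * x * k⁻¹ = c * x := by
      rw [hc]
      group
    have hxp : x ^ p = 1 := by
      have := Subgroup.orderOf_dvd_natCard X hx
      rw [hX] at this
      exact orderOf_dvd_iff_pow_eq_one.mp this
    have hcp : c ^ p = 1 := by
      have h2 : (k * x * k⁻¹) ^ p = 1 := by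
        rw [conj_pow, hxp]
        group
      rw [e1, hcx.mul_pow, hxp, mul_one] at h2
      exact h2
    have hc1 : c = 1 := by
      have h3 : orderOf c ∣ p := orderOf_dvd_of_pow_eq_one hcp
      have h4 : orderOf c ∣ Nat.card N := Subgroup.orderOf_dvd_natCard N hcN
      rcases (Nat.dvd_prime hpp).mp h3 with h5 | h5
      · exact orderOf_eq_one_iff.mp h5
      · exact absurd (h5 ▸ h4) hpN
    have e2 : k * x * k⁻¹ = x := by
      rw [e1, hc1, one_mul]
    calc x * k = k * x * k⁻¹ * k := by rw [e2]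
      _ = _ := by group
  exact hKC.trans (centralizer_le_normalizer' X)

/-- Uniqueness of subgroups of prime order in `K`. -/
theorem kappa_unique_prime (hB : ThmB G) (hG : IsMinSimpleOddOrder G) (hM : IsCoatom M) (hK : IsPiHallOf (kappa M) K M) {X Y : Subgroup G} {p : ℕ} [Fact p.Prime]
    (hXK : X ≤ K) (hX : Nat.card X = p) (hYK : Y ≤ K) (hY : Nat.card Y = p) : X = Y := by
  classical
  have hpp : p.Prime := Fact.out
  have hC : Config M X p := config_of_kappa hG hM (prime_mem_kappa hK hpp hXK hX) hX (hXK.trans hK.1)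
  obtain ⟨P, hP, hYP⟩ := exists_isMaxP_ge hYK (isPGroup_of_card_prime hY)
  have hXP : X ≤ P := by
    obtain ⟨n, hn', hWn⟩ := hP.exists_conj_le hXK (isPGroup_of_card_prime hX)
    rwa [(conj_map_eq_iff_mem_normalizer X n).2 (kappa_normal_prime hB hG hM hK hXK hX hn')] at hWn
  have hPc : IsCyclic P := cyclic_of_prank_one hG hC.hr hP.isP (hP.le.trans hK.1)
  exact Cfsg.Agent.Lib.OddLocal.eq_of_card_eq_of_le_isCyclic hPc hXP hYP (by rw [hX, hY])

/-- Two subgroups of prime order of `K` have the same centralizer in `M_σ`. -/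
theorem kappa_D_le (hB : ThmB G) (hG : IsMinSimpleOddOrder G) (hM : IsCoatom M) (hK : IsPiHallOf (kappa M) K M) {X Y : Subgroup G} {p t : ℕ} [Fact p.Prime] [Fact t.Prime]
    (hXK : X ≤ K) (hX : Nat.card X = p) (hYK : Y ≤ K) (hY : Nat.card Y = t) :
    sigmaCore M ⊓ centralizer (X : Set G) ≤ sigmaCore M ⊓ centralizer (Y : Set G) := by
  classical
  have hpp : p.Prime := Fact.out
  have htt : t.Prime := Fact.out
  have hC : Config M X p := config_of_kappa hG hM (prime_mem_kappa hK hpp hXK hX) hX (hXK.trans hK.1)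
  obtain ⟨H, PX⟩ := exists_partner hB hG hC
  have h := PX.centralizes_of_norm hB hG hY (prime_mem_kappa hK htt hYK hY).2.2.1 (hYK.trans hK.1) (hYK.trans (kappa_normal_prime hB hG hM hK hXK hX))
  exact le_inf inf_le_left ((le_centralizer_iff).mp h)

/-- `K` centralizes `C_{M_σ}(X)`. -/
theorem kappa_le_centralizer_D (hB : ThmB G) (hG : IsMinSimpleOddOrder G) (hM : IsCoatom M) (hK : IsPiHallOf (kappa M) K M) {X : Subgroup G} {p : ℕ} [Fact p.Prime]
    (hXK : X ≤ K) (hX : Nat.card X = p) : K ≤ centralizer ((sigmaCore M ⊓ centralizer (X : Set G) : Subgroup G) : Set G) := by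
  classical
  intro k hk
  by_contra hkC
  obtain ⟨a, ha, haC, r, hr, j, hj⟩ := exists_primary_not_mem _ rfl hkC
  haveI := Fact.mk hr
  have haK : a ∈ K := (zpowers_le.mpr hk) ha
  have hzr : IsPGroup r (zpowers a) := by
    rw [IsPGroup.iff_card, Nat.card_zpowers]
    obtain ⟨i, -, hi⟩ := (Nat.dvd_prime_pow hr).mp (orderOf_dvd_of_pow_eq_one hj)
    exact ⟨i, hi⟩
  have ha1 : zpowers a ≠ ⊥ := by
    intro h
    have h1 : a = 1 := zpowers_eq_bot.mp h
    rw [h1] at haC
    exact haC (one_mem _)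
  obtain ⟨a₁, ha₁, ha₁o⟩ := exists_orderOf_of_isPGroup hzr ha1
  set Y := zpowers a₁ with hY
  have hYc : Nat.card Y = r := by rw [hY, Nat.card_zpowers, ha₁o]
  have hYa : Y ≤ zpowers a := zpowers_le.mpr ha₁
  have hYK : Y ≤ K := hYa.trans (zpowers_le.mpr haK)
  have hCY : Config M Y r := config_of_kappa hG hM (prime_mem_kappa hK hr hYK hYc) hYc (hYK.trans hK.1)
  obtain ⟨P₀, PY⟩ := exists_partner hB hG hCY
  have haY : a ∈ centralizer (Y : Set G) := by
    rw [mem_centralizer_iff]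
    intro t ht
    obtain ⟨i, rfl⟩ := mem_zpowers_iff.mp (hYa ht)
    exact ((Commute.refl a).zpow_left i).eq
  have hzσ : zpowers a ≤ sigmaCore P₀ := le_sigmaCore_of_isPGroup hG (huniq13 hG) PY.hH PY.hpH hzr (zpowers_le.mpr (PY.centralizer_le haY))
  apply haC
  rw [mem_centralizer_iff]
  intro b hb
  have hb' := kappa_D_le hB hG hM hK hXK hX hYK hYc hb
  have h1 := PY.comm ⟨hzσ (mem_zpowers a), hK.1 haK⟩ ⟨hb'.1, PY.centralizer_le hb'.2⟩
  exact h1.symm

/-- `K* = C_{M_σ}(X)`. -/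
theorem kappa_Kstar_eq (hB : ThmB G) (hG : IsMinSimpleOddOrder G) (hM : IsCoatom M) (hK : IsPiHallOf (kappa M) K M) {X : Subgroup G} {p : ℕ} [Fact p.Prime]
    (hXK : X ≤ K) (hX : Nat.card X = p) : sigmaCore M ⊓ centralizer (X : Set G) = sigmaCore M ⊓ centralizer (K : Set G) := by
  apply le_antisymm
  · exact le_inf inf_le_left ((le_centralizer_iff).mp (kappa_le_centralizer_D hB hG hM hK hXK hX))
  · exact inf_le_inf_left _ (Subgroup.centralizer_le hXK)

/-- **Prime action**. -/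
theorem kappa_prime_action (hB : ThmB G) (hG : IsMinSimpleOddOrder G) (hM : IsCoatom M) (hK : IsPiHallOf (kappa M) K M) {k : G} (hk : k ∈ K) (hk1 : k ≠ 1) :
    sigmaCore M ⊓ centralizer ({k} : Set G) = sigmaCore M ⊓ centralizer (K : Set G) := by
  classical
  have hz1 : zpowers k ≠ ⊥ := fun h => hk1 (zpowers_eq_bot.mp h)
  obtain ⟨p, hp, X, hXz, hX⟩ := exists_prime_subgroup hz1
  haveI := Fact.mk hp
  have hXK : X ≤ K := hXz.trans (zpowers_le.mpr hk)
  apply le_antisymm
  · rw [← kappa_Kstar_eq hB hG hM hK hXK hX]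
    refine inf_le_inf_left _ ?_
    rw [← centralizer_zpowers_eq]
    exact Subgroup.centralizer_le hXz
  · refine inf_le_inf_left _ (Subgroup.centralizer_le ?_)
    simpa using hk

/-- `N_M(X) = K K*`. -/
theorem kappa_normalizer_prime (hB : ThmB G) (hG : IsMinSimpleOddOrder G) (hM : IsCoatom M) (hK : IsPiHallOf (kappa M) K M) {X : Subgroup G} {p : ℕ} [Fact p.Prime]
    (hXK : X ≤ K) (hX : Nat.card X = p) :
    M ⊓ normalizer (X : Set G) = K ⊔ (sigmaCore M ⊓ centralizer (K : Set G)) := by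
  classical
  have hpp : p.Prime := Fact.out
  have hC : Config M X p := config_of_kappa hG hM (prime_mem_kappa hK hpp hXK hX) hX (hXK.trans hK.1)
  obtain ⟨H, PX⟩ := exists_partner hB hG hC
  have hσM : sigmaCore M ≤ M := piCoreOf_le _ M
  have hσn : M ≤ normalizer (sigmaCore M : Set G) := le_normalizer_piCoreOf (sigma M) M
  have hKn := kappa_normal_prime hB hG hM hK hXK hX
  have hKs : sigmaCore M ⊓ centralizer (K : Set G) = sigmaCore M ⊓ centralizer (X : Set G) := (kappa_Kstar_eq hB hG hM hK hXK hX).symm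
  apply le_antisymm
  · set N₀ := M ⊓ normalizer (X : Set G) with hN₀
    have hN₀M : N₀ ≤ M := inf_le_left
    have hN₀t : N₀ ≠ ⊤ := fun h => hM.1 (top_le_iff.1 (h ▸ hN₀M))
    have hN₀s : Group.IsSolvable ↥N₀ := IsMinSimpleOddOrder.isSolvable hG hN₀t
    have hKN₀ : K ≤ N₀ := le_inf hK.1 hKn
    obtain ⟨E₀', hE₀'⟩ := exists_isPiHallOf_solvable {u | u ∉ sigma M} hN₀s
    obtain ⟨g, hg, hKE⟩ := IsPiHallOf.exists_conj_ge hN₀s hE₀' hKN₀ (fun t ht hd => primes_kappa_not_sigma hK t ht hd)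
    have hE₀ := IsPiHallOf.conj_in hE₀' hg
    set E₀ := E₀'.map (MulAut.conj g).toMonoidHom with hE₀def
    have hE₀K : E₀ ≤ K := by
      refine le_of_isPiHallOf_of_primes hK hKE (hE₀.1.trans hN₀M) ?_
      intro t ht hd
      haveI := Fact.mk ht
      obtain ⟨y, hy⟩ := exists_prime_orderOf_dvd_card' (G := ↥E₀) t hd
      have hyc : Nat.card (zpowers (y : G)) = t := by rw [Nat.card_zpowers, Subgroup.orderOf_coe, hy]
      have hyN₀ : (y : G) ∈ N₀ := hE₀.1 y.2
      exact PX.kappa_of_norm hB hG hyc (hE₀.2.1 t ht hd) (zpowers_le.mpr hyN₀.1) (zpowers_le.mpr hyN₀.2)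
    have hall : IsPiHallOf (sigma M) (N₀ ⊓ sigmaCore M) N₀ := isPiHallOf_inf_sigmaCore hG hM hN₀M
    intro z hz
    obtain ⟨b, hb, y, hy, rfl⟩ := exists_mul_of_hall_hall (π := sigma M) (π' := {u | u ∉ sigma M}) (fun r hr h => h hr) hall hE₀
      (fun r _ => by
        by_cases h : r ∈ sigma M
        · exact Or.inl h
        · exact Or.inr h) hz
    refine Subgroup.mul_mem _ (mem_sup_right ?_) (mem_sup_left (hE₀K hy))
    rw [hKs]
    refine ⟨hb.2, ?_⟩
    exact mem_centralizer_of_norm_of_inf hb.2 hb.1.2 (hC.hXM.trans hσn) hC.inf_sigma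
  · refine sup_le (le_inf hK.1 hKn) ?_
    rw [hKs]
    exact le_inf (inf_le_left.trans hσM) (inf_le_right.trans (centralizer_le_normalizer' X))

/-- `N_M(K) = K K*`. -/
theorem kappa_normalizer_K (hB : ThmB G) (hG : IsMinSimpleOddOrder G) (hM : IsCoatom M) (hK : IsPiHallOf (kappa M) K M) {X : Subgroup G} {p : ℕ} [Fact p.Prime]
    (hXK : X ≤ K) (hX : Nat.card X = p) :
    M ⊓ normalizer (K : Set G) = K ⊔ (sigmaCore M ⊓ centralizer (K : Set G)) := by
  classical
  have hσM : sigmaCore M ≤ M := piCoreOf_le _ M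
  apply le_antisymm
  · rw [← kappa_normalizer_prime hB hG hM hK hXK hX]
    intro z hz
    refine ⟨hz.1, (conj_map_eq_iff_mem_normalizer X z).mp ?_⟩
    have h1 : X.map (MulAut.conj z).toMonoidHom ≤ K := by
      rw [← (conj_map_eq_iff_mem_normalizer K z).mpr hz.2]
      exact conj_map_mono hXK z
    exact kappa_unique_prime hB hG hM hK h1 (by rw [Cfsg.Agent.Lib.Coprime.card_conj_map, hX]) hXK hX
  · refine sup_le (le_inf hK.1 le_normalizer) ?_
    exact le_inf (inf_le_left.trans hσM) (inf_le_right.trans (centralizer_le_normalizer' K))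

/-- The Hall subgroup for the primes outside `κ ∪ σ` is normalized by `K` and free under `K`. -/
theorem kappa_exists_U (hB : ThmB G) (hG : IsMinSimpleOddOrder G) (hM : IsCoatom M) (hK : IsPiHallOf (kappa M) K M) (hK1 : K ≠ ⊥) :
    ∃ U : Subgroup G, IsMulCommutative U ∧ IsPiHallOf {q | q.Prime ∧ q ∉ kappa M ∧ q ∉ sigma M} U M ∧
      K ≤ normalizer (U : Set G) ∧ ∀ k ∈ K, k ≠ 1 → U ⊓ centralizer ({k} : Set G) = ⊥ := by
  classical
  have huniq := huniq13 hG
  obtain ⟨E, hE, hKE⟩ := exists_compl_sigma_ge hG hM hK.1 (primes_kappa_not_sigma hK)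
  have hEs : Group.IsSolvable ↥E := by
    have hs := coatom_isSolvable hG hM
    exact solvable_of_solvable_injective (f := Subgroup.inclusion hE.1) (Subgroup.inclusion_injective hE.1)
  obtain ⟨U, hU⟩ := exists_isPiHallOf_solvable {q | q.Prime ∧ q ∉ kappa M ∧ q ∉ sigma M} hEs
  have hcardM := IsComplIn_card_eq hE
  -- `U` is a Hall subgroup of `M`
  have hUM : IsPiHallOf {q | q.Prime ∧ q ∉ kappa M ∧ q ∉ sigma M} U M := by
    refine ⟨hU.1.trans hE.1, hU.2.1, fun t ht htπ hd => ?_⟩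
    apply hU.2.2 t ht htπ
    have h1 := Cfsg.Agent.Lib.Coprime.card_mul_relIndex hU.1
    have h2 := Cfsg.Agent.Lib.Coprime.card_mul_relIndex (hU.1.trans hE.1)
    rw [hcardM, ← h1, mul_assoc] at h2
    have h3 : U.relIndex M = U.relIndex E * Nat.card (sigmaCore M) := Nat.eq_of_mul_eq_mul_left Nat.card_pos h2
    rw [h3] at hd
    rcases (Nat.Prime.dvd_mul ht).mp hd with h | h
    · exact h
    · exact absurd (piCoreOf_isPi (sigma M) M t ht h) htπ.2.2
  -- a prime of `U` cannot normalize a subgroup of prime order of `K`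
  have hfree : ∀ {Y X : Subgroup G} {t p : ℕ} [Fact t.Prime] [Fact p.Prime], Y ≤ U → Nat.card Y = t → X ≤ K → Nat.card X = p → ¬ Y ≤ normalizer (X : Set G) := by
    intro Y X t p _ _ hYU hY hXK hX hYN
    have hpp : p.Prime := Fact.out
    have htt : t.Prime := Fact.out
    have hC : Config M X p := config_of_kappa hG hM (prime_mem_kappa hK hpp hXK hX) hX (hXK.trans hK.1)
    obtain ⟨H, PX⟩ := exists_partner hB hG hC
    have htd : t ∣ Nat.card U := by
      rw [← hY]
      exact Subgroup.card_dvd_of_le hYU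
    have htπ := hUM.2.1 t htt htd
    exact htπ.2.1 (PX.kappa_of_norm hB hG hY htπ.2.2 (hYU.trans hUM.1) hYN)
  have hfree' : ∀ k ∈ K, k ≠ 1 → U ⊓ centralizer ({k} : Set G) = ⊥ := by
    intro k hk hk1
    by_contra hne
    obtain ⟨t, ht, Y, hYU, hY⟩ := exists_prime_subgroup hne
    have hz1 : zpowers k ≠ ⊥ := fun h => hk1 (zpowers_eq_bot.mp h)
    obtain ⟨p, hp, X, hXz, hX⟩ := exists_prime_subgroup hz1
    haveI := Fact.mk ht
    haveI := Fact.mk hp
    refine hfree (hYU.trans inf_le_left) hY (hXz.trans (zpowers_le.mpr hk)) hX ?_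
    refine le_trans ?_ (centralizer_le_normalizer' X)
    refine (hYU.trans inf_le_right).trans ?_
    rw [← centralizer_zpowers_eq]
    exact Subgroup.centralizer_le hXz
  by_cases hU1 : U = ⊥
  · refine ⟨U, ?_, hUM, ?_, hfree'⟩
    · rw [hU1]
      exact ⟨⟨fun a b => by
        have h1 : (a : G) = 1 := (mem_bot).mp a.2
        have h2 : (b : G) = 1 := (mem_bot).mp b.2
        apply Subtype.ext
        change (a : G) * b = b * a
        rw [h1, h2]⟩⟩
    · rw [hU1]
      intro a _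
      rw [mem_normalizer_iff]
      intro z
      simp
  -- `U ≠ 1`: all primes of `K` avoid `M'`
  obtain ⟨t, ht, Y, hYU, hY⟩ := exists_prime_subgroup hU1
  haveI := Fact.mk ht
  have hKM' : Nat.Coprime (Nat.card K) (Nat.card ↥⁅M, M⁆) := by
    refine Nat.coprime_of_dvd fun p hp h1 h2 => ?_
    haveI := Fact.mk hp
    obtain ⟨x, hx⟩ := exists_prime_orderOf_dvd_card' (G := ↥K) p h1
    have hzx : Nat.card (zpowers (x : G)) = p := by rw [Nat.card_zpowers, Subgroup.orderOf_coe, hx]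
    have hXK : zpowers (x : G) ≤ K := zpowers_le.mpr x.2
    have hC : Config M (zpowers (x : G)) p := config_of_kappa hG hM (prime_mem_kappa hK hp hXK hzx) hzx (hXK.trans hK.1)
    have hτ : p ∈ tau3 M := ⟨hp, hC.hpσ, h2, hC.hr⟩
    refine hfree hYU hY hXK hzx ?_
    have hYE : Y ≤ E := hYU.trans hU.1
    exact hYE.trans (normal_of_tau3 hG hM hE hτ (hXK.trans hKE) hzx)
  -- `E'` is a `π`-group
  have hEEM : ⁅E, E⁆ ≤ ⁅M, M⁆ := Subgroup.commutator_mono hE.1 hE.1
  have hE'E : ⁅E, E⁆ ≤ E := Subgroup.commutator_le_self E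
  have hEn : E ≤ normalizer ((⁅E, E⁆ : Subgroup G) : Set G) := by
    intro e he
    rw [← conj_map_eq_iff_mem_normalizer, Subgroup.map_commutator, (conj_map_eq_iff_mem_normalizer E e).mpr (le_normalizer he)]
  have hE'π : ⁅E, E⁆ ≤ U := by
    obtain ⟨g, hg, hle⟩ := IsPiHallOf.exists_conj_ge hEs hU hE'E (fun t ht hd => by
      refine ⟨ht, fun hκ => ?_, fun hσ => ?_⟩
      · have hdK : t ∣ Nat.card K := by
          by_contra hnd
          apply hK.2.2 t ht hκ
          have hdM : t ∣ Nat.card M := hκ.2.1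
          have h2 := Cfsg.Agent.Lib.Coprime.card_mul_relIndex hK.1
          rw [← h2] at hdM
          exact ((Nat.Prime.dvd_mul ht).mp hdM).resolve_left hnd
        exact (Nat.Prime.coprime_iff_not_dvd ht).mp (Nat.Coprime.coprime_dvd_left hdK hKM') (hd.trans (Subgroup.card_dvd_of_le hEEM))
      · exact compl_prime_not_sigma hG hM hE ht (hd.trans (Subgroup.card_dvd_of_le hE'E)) hσ)
    intro z hz
    have h1 := (mem_normalizer_iff.mp (hEn hg) z).mp hz
    have h2 := hle h1
    rw [mem_conj_map] at h2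
    have e : g⁻¹ * (g * z * g⁻¹) * g = z := by group
    rwa [e] at h2
  have hEU : E ≤ normalizer (U : Set G) := by
    intro e he
    apply mem_normalizer_of_conj_le
    intro u hu
    have h1 : e * u * e⁻¹ * u⁻¹ ∈ U := by
      apply hE'π
      have := Subgroup.commutator_mem_commutator he (hU.1 hu)
      rwa [commutatorElement_def] at this
    have e2 : e * u * e⁻¹ = (e * u * e⁻¹ * u⁻¹) * u := by
      group
    rw [e2]
    exact U.mul_mem h1 hu
  -- `U` is nilpotent and abelian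
  obtain ⟨k, hk⟩ := (Subgroup.ne_bot_iff_exists_ne_one).mp hK1
  have hk1 : (k : G) ≠ 1 := fun h => hk (Subtype.ext h)
  have hz1 : zpowers (k : G) ≠ ⊥ := fun h => hk1 (zpowers_eq_bot.mp h)
  obtain ⟨p, hp, X, hXz, hX⟩ := exists_prime_subgroup hz1
  haveI := Fact.mk hp
  have hXK : X ≤ K := hXz.trans (zpowers_le.mpr k.2)
  obtain ⟨x, hx, hx1⟩ := exists_ne_one_of_card_prime hp hX
  have hxo := orderOf_eq_of_card_prime hp hX hx hx1
  have hxp : x ^ p = 1 := by
    rw [← hxo]
    exact pow_orderOf_eq_one x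
  have hUs : (U.subgroupOf E).Normal := by
    refine ⟨fun u hu e => ?_⟩
    rw [Subgroup.mem_subgroupOf] at hu ⊢
    exact (mem_normalizer_iff.mp (hEU e.2) u).mp hu
  have hfx := hfree' x (hXK hx) hx1
  have hnil : Group.IsNilpotent ↥(U.subgroupOf E) := by
    refine OddChar.nilpotent_of_fpf_element (U.subgroupOf E) (k := (⟨x, hKE (hXK hx)⟩ : ↥E)) hp (Subtype.ext hxp) ?_
    intro h hh hc
    have hc' : x * (h : G) = h * x := congrArg Subtype.val hc
    have h2 : (h : G) ∈ U ⊓ centralizer ({x} : Set G) :=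
      ⟨Subgroup.mem_subgroupOf.mp hh, mem_centralizer_singleton_iff.2 hc'.symm⟩
    rw [hfx] at h2
    exact Subtype.ext (Subgroup.mem_bot.1 h2)
  have hnilU : Group.IsNilpotent ↥U := by
    have e : ↥(U.subgroupOf E) ≃* ↥U := Subgroup.subgroupOfEquivOfLe hU.1
    haveI := hnil
    exact nilpotent_of_surjective e.toMonoidHom e.surjective
  refine ⟨U, s1420_a hG huniq (fun r _ K hK => hpl13 hG r K hK) (h1412_of hG) hM U hUM.1 hnilU (fun t ht hd => (hUM.2.1 t ht hd).2.2), hUM, hKE.trans hEU, hfree'⟩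

end KappaHall

end Cfsg.Agent.Lib.FT
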