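import Cfsg.Agent.Lib.FT.BG18b

/-!
BG18: Sylow subgroups of `M_σ` for the primes of `C_{M_σ}(X)`, `σ(M)`-subgroups of `G`.
-/

set_option autoImplicit false
set_option linter.unusedSectionVars false
set_option linter.style.haveILetI false

namespace Cfsg.Agent.Lib.FT

open Subgroup Cfsg Cfsg.Agent.Lib.OddLocal Cfsg.Agent.Lib.Basic

open Cfsg.Agent.Lib.Coprime (mem_conj_map conj_mem_conj_map conj_map_conj_map conj_map_one
  conj_map_mono mem_normalizer_of_conj_le conj_map_eq_iff_mem_normalizer isPGroup_conj_map)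

open scoped commutatorElement

variable {G : Type*} [Group G] [Finite G]

namespace Partner

variable {M H X : Subgroup G} {p : ℕ} [Fact p.Prime]

/-- The Sylow subgroups of `M_σ` for primes of `C_{M_σ}(X)` are not small. -/
theorem sylow_not_small (hB : ThmB G) (hG : IsMinSimpleOddOrder G) (PX : Partner M H X p) {Q T₁ : Subgroup G} {q : ℕ} [Fact q.Prime]
    (hQ : Nat.card Q = q) (hQD : Q ≤ sigmaCore M ⊓ centralizer (X : Set G)) (hT₁ : IsPiHallOf {q} T₁ (sigmaCore M))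
    (hXT₁ : X ≤ normalizer (T₁ : Set G)) (hQT₁ : Q ≤ T₁) (hab : IsMulCommutative T₁) (hr2 : PRankLE q 2 ↥T₁) : False := by
  classical
  have hpp : p.Prime := Fact.out
  have hqq : q.Prime := Fact.out
  have huniq := huniq13 hG
  have hC := PX.hC
  have hM := hC.hM
  have hH := PX.hH
  have hσM : sigmaCore M ≤ M := piCoreOf_le _ M
  have hσn : M ≤ normalizer (sigmaCore M : Set G) := le_normalizer_piCoreOf (sigma M) M
  have hQσ : Q ≤ sigmaCore M := hQD.trans inf_le_left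
  have hQX : Q ≤ centralizer (X : Set G) := hQD.trans inf_le_right
  have hQ1 : Q ≠ ⊥ := ne_bot_of_card_prime hqq hQ
  have hqσ : q ∈ sigma M := piCoreOf_isPi (sigma M) M q hqq (by
    rw [← hQ]
    exact Subgroup.card_dvd_of_le hQσ)
  have hqM : q ∣ Nat.card M := hqσ.2.1
  have hq2 : q ≠ 2 := prime_odd hG hqq (hqM.trans (Subgroup.card_subgroup_dvd_card M))
  have hqp : q ≠ p := fun h => hC.hpσ (h ▸ hqσ)
  obtain ⟨hT₁m, hT₁p⟩ := isMaxP_of_isPiHallOf hT₁
  have hT₁M : IsMaxP q T₁ M := hT₁m.of_sigmaCore hG hM hqσ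
  have hT₁G : IsMaxP q T₁ ⊤ := hT₁M.top_of_sigma hqσ
  have hNT₁ : normalizer (T₁ : Set G) ≤ M := normalizer_le_of_isMaxP hqσ hT₁M
  have hT₁1 : T₁ ≠ ⊥ := fun h => hQ1 (le_bot_iff.mp (h ▸ hQT₁))
  have hqβ : q ∉ beta M := fun h => h.1.2 (hT₁M.prank_of hr2)
  obtain ⟨PQ, -⟩ := PX.config_of_le hB hG hQ hQD
  obtain ⟨V, hV, hVq, hXV⟩ := exists_hall_compl_ge hG hT₁G hT₁1 hXT₁ hC.hX hqp.symm
  let Pst : Sylow q G := ⟨T₁, hT₁G.isP, fun {D'} h2 h3 => hT₁G.max D' le_top h2 h3⟩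
  have hc : T₁ = ⁅T₁, V⁆ := (s1411_core hG (fun K hK => hpl13 hG q K hK) Pst V hV).1
  have hVN : V ≤ normalizer (T₁ : Set G) := hV.2.1
  have hVM : V ≤ M := hVN.trans hNT₁
  have hVt : V ≠ ⊤ := fun h => hM.1 (top_le_iff.1 (h ▸ hVM))
  have hVs : Group.IsSolvable ↥V := IsMinSimpleOddOrder.isSolvable hG hVt
  have hVodd : Odd (Nat.card V) := subgroup_odd hG V
  -- the derived subgroup of `V` centralizes `T₁`
  have hV'C : ∀ c ∈ ⁅V, V⁆, c ∈ centralizer (T₁ : Set G) := by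
    intro c hcV
    obtain ⟨n, hn⟩ := s1449_general q hq2 T₁ V hT₁p hr2 hVN hVs hVodd c hcV
    have hcV' : c ∈ V := Subgroup.commutator_le_self V hcV
    have hcc : (q ^ n).Coprime (orderOf c) := by
      refine Nat.Coprime.pow_left n ?_
      exact (Nat.Coprime.coprime_dvd_left (Subgroup.orderOf_dvd_natCard V hcV') hVq).symm
    obtain ⟨m, hm⟩ := exists_pow_eq_self_of_coprime hcc
    rw [← hm]
    exact pow_mem hn m
  have hDc : IsCyclic ↥(T₁ ⊓ centralizer (X : Set G)) :=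
    cyclic_of_prank_one hG (PX.prank_one hG hQ hQD) (hT₁p.to_le inf_le_left) (inf_le_right.trans PX.centralizer_le)
  -- `V` normalizes `Q`
  have hVQ : V ≤ normalizer (Q : Set G) := by
    intro v hv
    apply mem_normalizer_of_conj_le
    intro u hu
    by_cases hu1 : u = 1
    · rw [hu1]
      simp
    have huT : u ∈ T₁ := hQT₁ hu
    have hvT : v * u * v⁻¹ ∈ T₁ := (mem_normalizer_iff.mp (hVN hv) u).mp huT
    have hvC : v * u * v⁻¹ ∈ centralizer (X : Set G) := by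
      rw [mem_centralizer_iff]
      intro x hx
      have hxV : x ∈ V := hXV hx
      have hcm : v⁻¹ * x * v * x⁻¹ ∈ ⁅V, V⁆ := by
        have := Subgroup.commutator_mem_commutator (V.inv_mem hv) hxV
        rw [commutatorElement_def, inv_inv] at this
        exact this
      have h1 := mem_centralizer_iff.mp (hV'C _ hcm) u huT
      have h2 := mem_centralizer_iff.mp (hQX hu) x hx
      -- `x (v u v⁻¹) x⁻¹ = v u v⁻¹`
      set c := v⁻¹ * x * v * x⁻¹ with hcdef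
      have e1 : v⁻¹ * x * v = c * x := by
        rw [hcdef]
        group
      have e2 : x * (v * u * v⁻¹) = v * ((v⁻¹ * x * v) * u) * v⁻¹ := by group
      have e3 : (v * u * v⁻¹) * x = v * (u * (v⁻¹ * x * v)) * v⁻¹ := by group
      rw [e2, e3, e1]
      congr 2
      calc c * x * u = c * (x * u) := by group
        _ = c * (u * x) := by rw [h2]
        _ = (c * u) * x := by group
        _ = (u * c) * x := by rw [h1]
        _ = u * (c * x) := by group
    have hmem : v * u * v⁻¹ ∈ T₁ ⊓ centralizer (X : Set G) := ⟨hvT, hvC⟩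
    have hv1 : v * u * v⁻¹ ≠ 1 := by
      intro h
      apply hu1
      have h3 : u = v⁻¹ * (v * u * v⁻¹) * v := by group
      rw [h3, h]
      group
    have hzc : Nat.card (zpowers (v * u * v⁻¹)) = q := by
      rw [Nat.card_zpowers, ord_conj_bg17, orderOf_eq_of_card_prime hqq hQ hu hu1]
    have hQle : Q ≤ T₁ ⊓ centralizer (X : Set G) := le_inf hQT₁ hQX
    have e : zpowers (v * u * v⁻¹) = Q := Cfsg.Agent.Lib.OddLocal.eq_of_card_eq_of_le_isCyclic hDc (zpowers_le.mpr hmem) hQle (by rw [hzc, hQ])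
    rw [← e]
    exact mem_zpowers _
  -- `V` moves `Q`
  have hcop : (Nat.card V).Coprime (Nat.card T₁) := by
    obtain ⟨k, hk⟩ := IsPGroup.iff_card.mp hT₁p
    rw [hk]
    exact Nat.Coprime.pow_right k hVq
  have hca : Cfsg.Agent.Lib.Coprime.CoprimeAction V T₁ := ⟨hVN, hcop, Or.inl hVs⟩
  have hVnc : ¬ V ≤ centralizer (Q : Set G) := by
    intro h
    apply hQ1
    rw [eq_bot_iff, ← hca.commutator_inf_centralizer_eq_bot hab, ← hc]
    exact le_inf hQT₁ (le_inf hQT₁ ((le_centralizer_iff).mp h))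
  obtain ⟨v, hv, hvC⟩ : ∃ v ∈ V, v ∉ centralizer (Q : Set G) := by
    by_contra hcon
    push Not at hcon
    exact hVnc hcon
  -- Frattini
  set W₁ := V ⊓ centralizer (Q : Set G) with hW₁
  have hXW₁ : X ≤ W₁ := le_inf hXV ((le_centralizer_iff).mp hQX)
  have hvW₁ : v ∈ normalizer (W₁ : Set G) := by
    rw [mem_normalizer_iff]
    intro z
    have h1 := mem_normalizer_iff.mp (le_normalizer hv) z
    have h2 := mem_normalizer_iff.mp (Cfsg.Agent.Lib.OddLocal.mem_normalizer_centralizer (hVQ hv)) z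
    simp only [hW₁, mem_inf, h1, h2]
  obtain ⟨S₃, hS₃, hXS₃⟩ := exists_isMaxP_ge hXW₁ (isPGroup_of_card_prime hC.hX)
  obtain ⟨d, hd, hdv⟩ := frattini_normal hS₃ hvW₁
  have hS₃c : IsCyclic S₃ := cyclic_of_prank_one hG hC.hr hS₃.isP (hS₃.le.trans (inf_le_left.trans hVM))
  have hn : d⁻¹ * v ∈ normalizer (X : Set G) := normalizer_le_of_cyclic_ge hS₃c hXS₃ hdv
  have hnV : d⁻¹ * v ∈ V := V.mul_mem (V.inv_mem hd.1) hv
  have hnC : d⁻¹ * v ∉ centralizer (Q : Set G) := by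
    intro h
    apply hvC
    have e : v = d * (d⁻¹ * v) := by group
    rw [e]
    exact (centralizer (Q : Set G)).mul_mem hd.2 h
  obtain ⟨w, hw, hwC, s, hs, k, hk⟩ := exists_primary_not_mem _ rfl hnC
  haveI := Fact.mk hs
  have hzn : zpowers (d⁻¹ * v) ≤ V ⊓ normalizer (X : Set G) := zpowers_le.mpr ⟨hnV, hn⟩
  have hwV : w ∈ V := (hzn hw).1
  have hwX : w ∈ normalizer (X : Set G) := (hzn hw).2
  have hwQ : w ∈ normalizer (Q : Set G) := hVQ hwV
  have hwM : w ∈ M := hVM hwV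
  have hw1 : w ≠ 1 := by
    rintro rfl
    exact hwC (one_mem _)
  have hsq : s ≠ q := by
    rintro rfl
    have h1 : orderOf w ∣ s ^ k := orderOf_dvd_of_pow_eq_one hk
    have h2 : (orderOf w).Coprime s := Nat.Coprime.coprime_dvd_left (Subgroup.orderOf_dvd_natCard V hwV) hVq
    have h3 : orderOf w = 1 := Nat.Coprime.eq_one_of_dvd (h2.pow_right k) h1
    exact hw1 (orderOf_eq_one_iff.mp h3)
  have hzw : IsPGroup s (zpowers w) := by
    rw [IsPGroup.iff_card, Nat.card_zpowers]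
    obtain ⟨j, -, hj⟩ := (Nat.dvd_prime_pow hs).mp (orderOf_dvd_of_pow_eq_one hk)
    exact ⟨j, hj⟩
  have hsσ : s ∉ sigma M := by
    intro h
    have hz : zpowers w ≤ sigmaCore M := le_sigmaCore_of_isPGroup hG huniq hM h hzw (zpowers_le.mpr hwM)
    have hnpc := ((s1414_core hG huniq hM (fun r _ _ => hpl13 hG r M hM.1)).2.2.2.2 q hqq hqM hqβ).2.1
    obtain ⟨Y, hYσ, hYn, hYc, hYm⟩ := exists_complement_core hnpc
    have hwo : (orderOf w).Coprime q := by
      obtain ⟨j, -, hj⟩ := (Nat.dvd_prime_pow hs).mp (orderOf_dvd_of_pow_eq_one hk)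
      rw [hj]
      exact Nat.Coprime.pow_left j ((Nat.coprime_primes hs hqq).mpr hsq)
    have hwY : w ∈ Y := hYm w (hz (mem_zpowers w)) hwo
    have hwT : w ∈ centralizer (T₁ : Set G) := mem_centralizer_of_norm_of_inf hwY (hVN hwV) (hT₁.1.trans hYn)
      (eq_bot_of_isPGroup_of_coprime (hT₁p.to_le inf_le_left) inf_le_right hYc)
    exact hwC (Subgroup.centralizer_le hQT₁ hwT)
  have hw'1 : zpowers w ≠ ⊥ := fun h => hw1 (zpowers_eq_bot.mp h)
  obtain ⟨a₁, ha₁, ha₁o⟩ := exists_orderOf_of_isPGroup hzw hw'1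
  set R₁ := zpowers a₁ with hR₁
  have hR₁c : Nat.card R₁ = s := by rw [hR₁, Nat.card_zpowers, ha₁o]
  have hR₁w : R₁ ≤ zpowers w := zpowers_le.mpr ha₁
  have hR₁M : R₁ ≤ M := hR₁w.trans (zpowers_le.mpr hwM)
  have hR₁Q : R₁ ≤ normalizer (Q : Set G) := hR₁w.trans (zpowers_le.mpr hwQ)
  have hR₁X : R₁ ≤ normalizer (X : Set G) := hR₁w.trans (zpowers_le.mpr hwX)
  have hR₁H : R₁ ≤ H := hR₁X.trans PX.hN
  have hmoves : ¬ R₁ ≤ centralizer (Q : Set G) := by
    intro hcen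
    have hrk : PRankLE s 1 ↥M := PX.prank_of_norm hB hG hR₁c hsσ hR₁M hR₁X
    have hDs : sigmaCore M ⊓ centralizer (R₁ : Set G) ≠ ⊥ := by
      intro h
      apply hQ1
      rw [eq_bot_iff, ← h]
      exact le_inf hQσ ((le_centralizer_iff).mp hcen)
    have hCs : Config M R₁ s := ⟨hM, hsσ, hrk, hR₁c, hR₁M, hDs⟩
    obtain ⟨P₁, PM₁⟩ := exists_partner hB hG hCs
    have hCP₁ : centralizer (R₁ : Set G) ≤ P₁ := PM₁.centralizer_le
    have hwR₁ : w ∈ centralizer (R₁ : Set G) := by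
      rw [mem_centralizer_iff]
      intro t ht
      obtain ⟨i, rfl⟩ := mem_zpowers_iff.mp (hR₁w ht)
      exact ((Commute.refl w).zpow_left i).eq
    have hzσ : zpowers w ≤ sigmaCore P₁ := le_sigmaCore_of_isPGroup hG huniq PM₁.hH PM₁.hpH hzw (zpowers_le.mpr (hCP₁ hwR₁))
    have hwσ : w ∈ sigmaCore P₁ := hzσ (mem_zpowers w)
    have hQP₁ : Q ≤ P₁ := ((le_centralizer_iff).mp hcen).trans hCP₁
    have hσn1 : P₁ ≤ normalizer (sigmaCore P₁ : Set G) := le_normalizer_piCoreOf (sigma P₁) P₁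
    obtain ⟨u, hu, hua⟩ : ∃ u ∈ Q, w * u * w⁻¹ * u⁻¹ ≠ 1 := by
      by_contra hcon
      push Not at hcon
      apply hwC
      rw [mem_centralizer_iff]
      intro x hx
      have h5 : w * x * w⁻¹ = x := mul_inv_eq_one.mp (hcon x hx)
      calc x * w = w * x * w⁻¹ * w := by rw [h5]
        _ = _ := by group
    have hcQ : w * u * w⁻¹ * u⁻¹ ∈ Q := Q.mul_mem ((mem_normalizer_iff.mp hwQ u).mp hu) (Q.inv_mem hu)
    have hcσ : w * u * w⁻¹ * u⁻¹ ∈ sigmaCore P₁ := by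
      have h3 := (mem_normalizer_iff.mp (hσn1 (hQP₁ hu)) w⁻¹).mp ((sigmaCore P₁).inv_mem hwσ)
      have e : w * u * w⁻¹ * u⁻¹ = w * (u * w⁻¹ * u⁻¹) := by group
      rw [e]
      exact (sigmaCore P₁).mul_mem hwσ h3
    have hQz : Q = zpowers (w * u * w⁻¹ * u⁻¹) := eq_zpowers_of_card_prime hQ hcQ hua
    have hQσ1 : Q ≤ sigmaCore P₁ := by
      rw [hQz]
      exact zpowers_le.mpr hcσ
    have hqP₁ : q ∈ sigma P₁ := piCoreOf_isPi (sigma P₁) P₁ q hqq (by
      rw [← hQ]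
      exact Subgroup.card_dvd_of_le hQσ1)
    exact PM₁.disj q hqP₁ hqσ
  exact npm hB hG q hqq H Q R₁ s hs ⟨PQ.hC, hR₁c, hR₁H, hR₁Q, hmoves⟩

end Partner

end Cfsg.Agent.Lib.FT
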