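import Cfsg.Agent.Lib.FT.BG18d
import Cfsg.Agent.Lib.FT.BG14b

/-!
BG19: S1365 etc. (conditional on Theorem B).
-/

set_option autoImplicit false
set_option linter.unusedSectionVars false
set_option linter.style.haveILetI false

namespace Cfsg.Agent.Lib.FT

open Subgroup Cfsg Cfsg.Agent.Lib.OddLocal Cfsg.Agent.Lib.Basic

open Cfsg.Agent.Lib.Coprime (mem_conj_map conj_mem_conj_map conj_map_conj_map conj_map_one
  conj_map_mono mem_normalizer_of_conj_le conj_map_eq_iff_mem_normalizer isPGroup_conj_map)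

variable {G : Type*} [Group G] [Finite G]

section NormMap

variable {L A : Subgroup G}

/-- The conjugation by an element of `A ≤ N(L)` followed by the abelianization. -/
noncomputable def normFactorBG19 (hAL : A ≤ normalizer (L : Set G)) (a : A) : ↥L →* Abelianization ↥L :=
  Abelianization.of.comp
    { toFun := fun x => ⟨(a : G) * x * (a : G)⁻¹, (mem_normalizer_iff.mp (hAL a.2) x).mp x.2⟩
      map_one' := by
        apply Subtype.ext
        simp
      map_mul' := fun x y => by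
        apply Subtype.ext
        simp only [Subgroup.coe_mul]
        group }

theorem normFactorBG19_apply (hAL : A ≤ normalizer (L : Set G)) (a : A) (x : ↥L) :
    normFactorBG19 hAL a x = Abelianization.of ⟨(a : G) * x * (a : G)⁻¹, (mem_normalizer_iff.mp (hAL a.2) x).mp x.2⟩ := rfl

/-- A fixed point of a coprime action lies in the derived subgroup if `L = [L, A] L'`. -/
theorem mem_commutator_of_fixed (hAL : A ≤ normalizer (L : Set G)) (hc : (Nat.card A).Coprime (Nat.card L))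
    (hL : L ≤ ⁅L, A⁆ ⊔ ⁅L, L⁆) {z : G} (hz : z ∈ L) (hzA : z ∈ centralizer (A : Set G)) : z ∈ ⁅L, L⁆ := by
  classical
  letI : Fintype A := Fintype.ofFinite A
  set τ : ↥L →* Abelianization ↥L := ∏ a : A, normFactorBG19 hAL a with hτ
  have hτa : ∀ x : ↥L, τ x = ∏ a : A, normFactorBG19 hAL a x := by
    intro x
    rw [hτ, MonoidHom.finset_prod_apply]
  have hshift : ∀ (a₀ : A) (x : ↥L) (hx : (a₀ : G) * x * (a₀ : G)⁻¹ ∈ L), τ ⟨(a₀ : G) * x * (a₀ : G)⁻¹, hx⟩ = τ x := by
    intro a₀ x hx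
    rw [hτa, hτa]
    refine Fintype.prod_equiv (Equiv.mulRight a₀) _ _ fun a => ?_
    rw [normFactorBG19_apply, normFactorBG19_apply]
    congr 1
    apply Subtype.ext
    simp only [Equiv.coe_mulRight, Subgroup.coe_mul, mul_inv_rev]
    group
  set K₀ : Subgroup G := τ.ker.map L.subtype with hK₀
  have hLK : L ≤ K₀ := by
    refine hL.trans (sup_le ?_ ?_)
    · rw [Subgroup.commutator_le]
      intro g hg a ha
      have hn : a * g⁻¹ * a⁻¹ ∈ L := (mem_normalizer_iff.mp (hAL ha) g⁻¹).mp (L.inv_mem hg)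
      have hmem : g * a * g⁻¹ * a⁻¹ ∈ L := by
        have e : g * a * g⁻¹ * a⁻¹ = g * (a * g⁻¹ * a⁻¹) := by group
        rw [e]
        exact L.mul_mem hg hn
      rw [commutatorElement_def]
      refine ⟨⟨_, hmem⟩, ?_, rfl⟩
      rw [SetLike.mem_coe, MonoidHom.mem_ker]
      have e : (⟨g * a * g⁻¹ * a⁻¹, hmem⟩ : ↥L) = ⟨g, hg⟩ * ⟨a * g⁻¹ * a⁻¹, hn⟩ := by
        apply Subtype.ext
        simp only [Subgroup.coe_mul]
        group
      rw [e, map_mul, hshift ⟨a, ha⟩ ⟨g⁻¹, L.inv_mem hg⟩ hn]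
      rw [← map_mul]
      have e2 : (⟨g, hg⟩ : ↥L) * ⟨g⁻¹, L.inv_mem hg⟩ = 1 := by
        apply Subtype.ext
        simp
      rw [e2, map_one]
    · rw [Subgroup.commutator_le]
      intro g hg h hh
      have hmem : g * h * g⁻¹ * h⁻¹ ∈ L := L.mul_mem (L.mul_mem (L.mul_mem hg hh) (L.inv_mem hg)) (L.inv_mem hh)
      rw [commutatorElement_def]
      refine ⟨⟨_, hmem⟩, ?_, rfl⟩
      rw [SetLike.mem_coe, MonoidHom.mem_ker]
      have e : (⟨g * h * g⁻¹ * h⁻¹, hmem⟩ : ↥L) = ⟨g, hg⟩ * ⟨h, hh⟩ * ⟨g, hg⟩⁻¹ * ⟨h, hh⟩⁻¹ := by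
        apply Subtype.ext
        simp
      rw [e, map_mul, map_mul, map_mul, map_inv, map_inv, mul_comm (τ ⟨g, hg⟩) (τ ⟨h, hh⟩)]
      group
  obtain ⟨z', hz', hzz⟩ := hLK hz
  have hzz2 : z' = ⟨z, hz⟩ := Subtype.ext hzz
  subst hzz2
  rw [SetLike.mem_coe, MonoidHom.mem_ker, hτa] at hz'
  have h3 : ∀ a : A, normFactorBG19 hAL a ⟨z, hz⟩ = Abelianization.of ⟨z, hz⟩ := by
    intro a
    rw [normFactorBG19_apply]
    congr 1
    apply Subtype.ext
    have h4 := mem_centralizer_iff.mp hzA a a.2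
    change (a : G) * z * (a : G)⁻¹ = z
    rw [h4]
    group
  simp only [h3, Finset.prod_const, Finset.card_univ] at hz'
  have h5 : (Abelianization.of ⟨z, hz⟩ : Abelianization ↥L) ^ Nat.card L = 1 := by
    rw [← map_pow, pow_card_eq_one', map_one]
  have h6 : Fintype.card A = Nat.card A := (Nat.card_eq_fintype_card).symm
  rw [h6] at hz'
  have h7 : (Abelianization.of ⟨z, hz⟩ : Abelianization ↥L) = 1 := by
    have := pow_gcd_eq_one.mpr ⟨hz', h5⟩
    rwa [Nat.Coprime.gcd_eq_one hc, pow_one] at this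
  have h8 : (⟨z, hz⟩ : ↥L) ∈ commutator ↥L := by
    have := (QuotientGroup.eq_one_iff (N := commutator ↥L) (⟨z, hz⟩ : ↥L)).mp h7
    exact this
  have h9 := Subgroup.map_subtype_commutator L
  rw [← h9]
  exact ⟨_, h8, rfl⟩

end NormMap

section S1365

variable {M K U : Subgroup G}

/-- `K ≤ N(U M_σ)`. -/
theorem sup_norm_of_decomp (hKU : IsSigmaDecomposition M K U) :
    M ≤ normalizer ((U ⊔ sigmaCore M : Subgroup G) : Set G) := by
  classical
  have hσn : M ≤ normalizer (sigmaCore M : Set G) := le_normalizer_piCoreOf (sigma M) M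
  intro m hm
  obtain ⟨u, hu, b, hb, rfl⟩ := hKU.compl.2.2.2 m hm
  have hb' : b ∈ ((K ⊔ sigmaCore M : Subgroup G) : Set G) := hb
  rw [Subgroup.coe_mul_of_left_le_normalizer_right K (sigmaCore M)
      (hKU.hall.1.trans (le_normalizer_piCoreOf _ _))] at hb'
  obtain ⟨k, hk, s, hs, rfl⟩ := Set.mem_mul.1 hb'
  have hU : u ∈ normalizer ((U ⊔ sigmaCore M : Subgroup G) : Set G) := le_normalizer (mem_sup_left hu)
  have hS : s ∈ normalizer ((U ⊔ sigmaCore M : Subgroup G) : Set G) := le_normalizer (mem_sup_right hs)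
  have hK : k ∈ normalizer ((U ⊔ sigmaCore M : Subgroup G) : Set G) := by
    rw [← conj_map_eq_iff_mem_normalizer, Subgroup.map_sup,
      (conj_map_eq_iff_mem_normalizer U k).mpr (hKU.normal hk),
      (conj_map_eq_iff_mem_normalizer (sigmaCore M) k).mpr (hσn (hKU.hall.1 hk))]
  exact mul_mem hU (mul_mem hK hS)

/-- `M = (U M_σ) K`. -/
theorem exists_mul_of_decomp (hKU : IsSigmaDecomposition M K U) {m : G} (hm : m ∈ M) :
    ∃ l ∈ U ⊔ sigmaCore M, ∃ k ∈ K, m = l * k := by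
  classical
  have hσn : M ≤ normalizer (sigmaCore M : Set G) := le_normalizer_piCoreOf (sigma M) M
  obtain ⟨u, hu, b, hb, rfl⟩ := hKU.compl.2.2.2 m hm
  have hb' : b ∈ ((K ⊔ sigmaCore M : Subgroup G) : Set G) := hb
  rw [Subgroup.coe_mul_of_left_le_normalizer_right K (sigmaCore M)
      (hKU.hall.1.trans (le_normalizer_piCoreOf _ _))] at hb'
  obtain ⟨k, hk, s, hs, rfl⟩ := Set.mem_mul.1 hb'
  have hs2 : k * s * k⁻¹ ∈ sigmaCore M := (mem_normalizer_iff.mp (hσn (hKU.hall.1 hk)) s).mp hs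
  refine ⟨u * (k * s * k⁻¹), mul_mem (mem_sup_left hu) (mem_sup_right hs2), k, hk, ?_⟩
  group

/-- `U ≤ M'` when `K ≠ 1`. -/
theorem U_le_commutator (hB : ThmB G) (hG : IsMinSimpleOddOrder G) (hM : IsCoatom M) (hKU : IsSigmaDecomposition M K U) (hK1 : K ≠ ⊥) :
    U ≤ ⁅M, M⁆ := by
  classical
  have huniq := huniq13 hG
  obtain ⟨⟨k, hk⟩, hk1⟩ := (Subgroup.ne_bot_iff_exists_ne_one).mp hK1
  have hk1' : k ≠ 1 := fun h => hk1 (Subtype.ext h)
  have hfree := s1353_core hB hG hM hKU k hk hk1'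
  have hcop : (Nat.card K).Coprime (Nat.card U) := by
    refine Nat.coprime_of_dvd fun t ht h1 h2 => ?_
    exact not_kappa_of_dvd_U hG huniq hM hKU ht h2 (hKU.hall.2.1 t ht h1)
  have h1 := coprime_commutator_sup_centralizer hKU.normal hcop (Or.inl (by
    haveI := hKU.cyclic
    infer_instance))
  have h2 : U ⊓ centralizer (K : Set G) = ⊥ := by
    rw [eq_bot_iff, ← hfree]
    refine inf_le_inf_left _ (Subgroup.centralizer_le ?_)
    simpa using hk
  rw [h2, sup_bot_eq] at h1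
  rw [← h1]
  exact Subgroup.commutator_mono hKU.compl.1 hKU.hall.1

/-- `M' = U M_σ`. -/
theorem commutator_eq_of_decomp (hB : ThmB G) (hG : IsMinSimpleOddOrder G) (hM : IsCoatom M) (hKU : IsSigmaDecomposition M K U) (hK1 : K ≠ ⊥) :
    ⁅M, M⁆ = U ⊔ sigmaCore M := by
  classical
  have huniq := huniq13 hG
  apply le_antisymm
  · rw [Subgroup.commutator_le]
    intro a ha b hb
    obtain ⟨l, hl, k, hk, rfl⟩ := exists_mul_of_decomp hKU ha
    obtain ⟨l', hl', k', hk', rfl⟩ := exists_mul_of_decomp hKU hb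
    have hKN : K ≤ normalizer ((U ⊔ sigmaCore M : Subgroup G) : Set G) :=
      hKU.hall.1.trans (sup_norm_of_decomp hKU)
    obtain ⟨u, hu, e⟩ := comm_mod_normal hKN hl hl' hk hk'
    rw [commutatorElement_def, e]
    have hcomm : k * k' * k⁻¹ * k'⁻¹ = 1 := by
      haveI := hKU.cyclic
      have h1 := IsCyclic.commutative (α := K)
      have h2 := h1.is_comm.comm (⟨k, hk⟩ : K) (⟨k', hk'⟩ : K)
      have h3 : k * k' = k' * k := congrArg Subtype.val h2
      rw [h3]
      group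
    rw [hcomm, mul_one]
    exact hu
  · exact sup_le (U_le_commutator hB hG hM hKU hK1) (sigmaCore_le_commutator hG huniq hM)

/-- **S1365 core**. -/
theorem s1365_core (hB : ThmB G) (hG : IsMinSimpleOddOrder G) (hM : IsCoatom M) (hKU : IsSigmaDecomposition M K U) (hK1 : K ≠ ⊥) :
    ⁅M, M⁆ = U ⊔ sigmaCore M ∧ (sigmaCore M ⊓ centralizer (K : Set G)) ≤ ⁅⁅M, M⁆, ⁅M, M⁆⁆ := by
  classical
  have huniq := huniq13 hG
  have e := commutator_eq_of_decomp hB hG hM hKU hK1
  refine ⟨e, ?_⟩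
  set L := U ⊔ sigmaCore M with hLdef
  have hKN : K ≤ normalizer (L : Set G) := hKU.hall.1.trans (sup_norm_of_decomp hKU)
  have hcop : (Nat.card K).Coprime (Nat.card L) := by
    refine Nat.coprime_of_dvd fun t ht h1 h2 => ?_
    have hκ := hKU.hall.2.1 t ht h1
    have hUσ : U ≤ normalizer (sigmaCore M : Set G) := hKU.compl.1.trans (le_normalizer_piCoreOf _ _)
    have h3 : t ∣ Nat.card ↥(sigmaCore M ⊔ U) := by
      rw [sup_comm]
      exact h2
    rcases prime_dvd_sup hUσ ht h3 with h4 | h4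
    · exact hκ.2.2.1 (piCoreOf_isPi (sigma M) M t ht h4)
    · exact not_kappa_of_dvd_U hG huniq hM hKU ht h4 hκ
  have hLM : L ≤ M := by
    rw [← e]
    exact Subgroup.commutator_le_self M
  -- `L = [L, K] L'`
  have hLK : L ≤ ⁅L, K⁆ ⊔ ⁅L, L⁆ := by
    set W := ⁅L, K⁆ ⊔ ⁅L, L⁆ with hW
    have hWL : W ≤ L := sup_le (commutator_le_of_le_normalizer hKN) (Subgroup.commutator_le_self L)
    have hWn : ∀ x ∈ L, ∀ w ∈ W, x * w * x⁻¹ ∈ W := by
      intro x hx w hw
      have h1 : x * w * x⁻¹ * w⁻¹ ∈ W := mem_sup_right (by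
        have := Subgroup.commutator_mem_commutator hx (hWL hw)
        rwa [commutatorElement_def] at this)
      have e2 : x * w * x⁻¹ = (x * w * x⁻¹ * w⁻¹) * w := by group
      rw [e2]
      exact W.mul_mem h1 hw
    rw [← e, Subgroup.commutator_le]
    intro a ha b hb
    obtain ⟨l, hl, k, hk, rfl⟩ := exists_mul_of_decomp hKU ha
    obtain ⟨l', hl', k', hk', rfl⟩ := exists_mul_of_decomp hKU hb
    have hkk : k * k' = k' * k := by
      haveI := hKU.cyclic
      have h1 := IsCyclic.commutative (α := K)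
      exact congrArg Subtype.val (h1.is_comm.comm (⟨k, hk⟩ : K) (⟨k', hk'⟩ : K))
    have hkk2 : k' * k⁻¹ = k⁻¹ * k' := by
      rw [mul_inv_eq_iff_eq_mul, mul_assoc, ← hkk]
      group
    have hw₁ : k * l' * k⁻¹ * l'⁻¹ ∈ W := mem_sup_left (by
      have h1 := Subgroup.commutator_mem_commutator hk hl'
      rw [Subgroup.commutator_comm] at h1
      rwa [commutatorElement_def] at h1)
    have hw₂ : k' * l⁻¹ * k'⁻¹ * l ∈ W := mem_sup_left (by
      have h1 := Subgroup.commutator_mem_commutator hk' (L.inv_mem hl)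
      rw [Subgroup.commutator_comm] at h1
      rw [commutatorElement_def, inv_inv] at h1
      exact h1)
    have hw₃ : l * l' * l⁻¹ * l'⁻¹ ∈ W := mem_sup_right (by
      have h1 := Subgroup.commutator_mem_commutator hl hl'
      rwa [commutatorElement_def] at h1)
    have e3 : (l * k) * (l' * k') * (l * k)⁻¹ * (l' * k')⁻¹ =
        (l * (k * l' * k⁻¹ * l'⁻¹) * l⁻¹) * ((l * l') * (k' * l⁻¹ * k'⁻¹ * l) * (l * l')⁻¹) * (l * l' * l⁻¹ * l'⁻¹) := by
      have e4 : (l * k) * (l' * k') * (l * k)⁻¹ * (l' * k')⁻¹ = l * k * l' * (k' * k⁻¹) * l⁻¹ * k'⁻¹ * l'⁻¹ := by group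
      rw [e4, hkk2]
      group
    rw [commutatorElement_def, e3]
    exact W.mul_mem (W.mul_mem (hWn l hl _ hw₁) (hWn (l * l') (L.mul_mem hl hl') _ hw₂)) hw₃
  intro z hz
  rw [e]
  exact mem_commutator_of_fixed hKN hcop hLK (mem_sup_right hz.1) hz.2

end S1365

end Cfsg.Agent.Lib.FT
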