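import Cfsg.Agent.Lib.FT.BG15a
import Cfsg.Agent.Lib.FT.BG15b
import Cfsg.Agent.Lib.Coprime.HHFix2
import Cfsg.Agent.Lib.Coprime.Hall
import Cfsg.Agent.Lib.OddLocal.NilParts
import Cfsg.Agent.Lib.OddLocal.PLength
import Cfsg.Agent.Lib.OddChar.ThompsonFpf
import Cfsg.Agent.Lib.Coprime.PLen

/-!
BG19b: an element of prime order whose fixed points on a normal solvable subgroup `N` form an abelian
`q`-group contained in `N'`: the Sylow `q`-subgroup of `N` is normal. (Uses the Hall-Higman fixed point lemma.)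
-/

set_option autoImplicit false
set_option linter.unusedSectionVars false
set_option linter.style.haveILetI false

namespace Cfsg.Agent.Lib.FT

open Subgroup Cfsg Cfsg.Agent.Lib.OddLocal Cfsg.Agent.Lib.Basic Cfsg.Agent.Lib.Coprime

open scoped commutatorElement

variable {Γ : Type*} [Group Γ] [Finite Γ]

/-- An element acting trivially on `T/Φ(T)` with coprime order centralizes `T`. -/
theorem mem_centralizer_of_frat_fixed {t : ℕ} [Fact t.Prime] {T : Subgroup Γ} {z : Γ} (hT : IsPGroup t T)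
    (hzT : z ∈ normalizer (T : Set Γ)) (hzc : (orderOf z).Coprime t)
    (hfix : ∀ a : ↥T ⧸ frattini ↥T, fratNAct T ⟨z, hzT⟩ a = a) : z ∈ centralizer (T : Set Γ) := by
  classical
  have hzc' : (Nat.card (zpowers z)).Coprime t := by
    rwa [Nat.card_zpowers]
  have hzN : zpowers z ≤ normalizer (T : Set Γ) := zpowers_le.mpr hzT
  have hca := coprimeAction_of_isPGroup hT hzc' hzN
  have hFT : (frattini ↥T).map T.subtype ≤ T := frattini_map_le T
  have hFn : normalizer (T : Set Γ) ≤ normalizer (((frattini ↥T).map T.subtype : Subgroup Γ) : Set Γ) :=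
    fun a ha => mem_normalizer_map_of_characteristic T (frattini ↥T) ha
  have h1 : (T ⊓ centralizer (zpowers z : Set Γ)) ⊔ (frattini ↥T).map T.subtype = T := by
    apply le_antisymm (sup_le inf_le_left hFT)
    intro t ht
    obtain ⟨n, hn, c, hc, e⟩ := hca.exists_mul_centralizer hFT (hzN.trans hFn) ht
      (fun a ha => comm_mem_frattini_of_zpowers hzT ⟨t, ht⟩ (hfix _) ha)
    have e' : t = n * c := e
    rw [e', sup_comm]
    exact Subgroup.mul_mem_sup hn hc
  have h2 := eq_of_sup_frattini_eq inf_le_left h1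
  rw [mem_centralizer_iff]
  intro t ht
  have h3 : t ∈ T ⊓ centralizer (zpowers z : Set Γ) := by
    rw [h2]
    exact ht
  exact (mem_centralizer_iff.mp h3.2 z (mem_zpowers z)).symm

/-- A fixed point on `T/Φ(T)` of a coprime element is trivial when the element is fixed point free on `T`. -/
theorem frat_fixed_eq_one {t : ℕ} [Fact t.Prime] {T : Subgroup Γ} {x : Γ} (hT : IsPGroup t T)
    (hxT : x ∈ normalizer (T : Set Γ)) (hxc : (orderOf x).Coprime t) (hfix : T ⊓ centralizer ({x} : Set Γ) = ⊥)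
    (a : ↥T ⧸ frattini ↥T) (ha : fratNAct T ⟨x, hxT⟩ a = a) : a = 1 := by
  classical
  obtain ⟨t₀, rfl⟩ := QuotientGroup.mk_surjective a
  rw [QuotientGroup.eq_one_iff]
  have hzc' : (Nat.card (zpowers x)).Coprime t := by
    rwa [Nat.card_zpowers]
  have hzN : zpowers x ≤ normalizer (T : Set Γ) := zpowers_le.mpr hxT
  have hca := coprimeAction_of_isPGroup hT hzc' hzN
  have hFT : (frattini ↥T).map T.subtype ≤ T := frattini_map_le T
  have hFn : normalizer (T : Set Γ) ≤ normalizer (((frattini ↥T).map T.subtype : Subgroup Γ) : Set Γ) :=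
    fun a ha => mem_normalizer_map_of_characteristic T (frattini ↥T) ha
  obtain ⟨n, hn, c, hc, e⟩ := hca.exists_mul_centralizer hFT (hzN.trans hFn) t₀.2
    (fun a ha' => comm_mem_frattini_of_zpowers hxT t₀ ha ha')
  have hc1 : c = 1 := by
    have h3 : c ∈ T ⊓ centralizer ({x} : Set Γ) := by
      refine Subgroup.mem_inf.mpr ⟨hc.1, ?_⟩
      rw [mem_centralizer_singleton_iff]
      exact (mem_centralizer_iff.mp hc.2 x (mem_zpowers x)).symm
    rw [hfix] at h3
    exact h3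
  have ht₀ : (t₀ : Γ) ∈ (frattini ↥T).map T.subtype := by
    rw [e, hc1, mul_one]
    exact hn
  obtain ⟨t', ht', e'⟩ := ht₀
  have e2 : t' = t₀ := Subtype.ext e'
  rwa [← e2]

/-- **Hall-Higman**, section form: if `x` of prime order is fixed point free on the `t`-group `T`, and `K`
is an `x`-invariant solvable subgroup of odd order prime to `t` and `p` normalizing `T`, then `[x, K]` centralizes `T`. -/
theorem comm_centralizes_of_fix {t p : ℕ} [Fact t.Prime] {T K : Subgroup Γ} {x : Γ} (hT : IsPGroup t T)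
    (hKT : K ≤ normalizer (T : Set Γ)) (hxT : x ∈ normalizer (T : Set Γ)) (hxK : x ∈ normalizer (K : Set Γ))
    (hp : p.Prime) (hx : x ^ p = 1) (hpt : p ≠ t) (hKs : Group.IsSolvable K) (hodd : Odd (Nat.card K))
    (htK : ¬ t ∣ Nat.card K) (hpK : ¬ p ∣ Nat.card K) (hfix : T ⊓ centralizer ({x} : Set Γ) = ⊥) :
    ∀ k ∈ K, x * k * x⁻¹ * k⁻¹ ∈ centralizer (T : Set Γ) := by
  classical
  intro k hk
  set F : Subgroup Γ := normalizer (T : Set Γ) ⊓ normalizer (K : Set Γ) with hF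
  have hFle : F ≤ normalizer (T : Set Γ) := inf_le_left
  set α : ↥F →* MulAut (↥T ⧸ frattini ↥T) := (fratNAct T).comp (Subgroup.inclusion hFle) with hα
  set K' : Subgroup ↥F := K.subgroupOf F with hK'
  haveI hK'n : K'.Normal := by
    refine ⟨fun n hn g => ?_⟩
    rw [hK', Subgroup.mem_subgroupOf] at hn ⊢
    exact (mem_normalizer_iff.mp g.2.2 _).mp hn
  have hKF : Nat.card K' ∣ Nat.card K := by
    have : Nat.card K' = Nat.card ↥(K ⊓ F) := by
      rw [hK', ← Nat.card_congr (Subgroup.subgroupOfEquivOfLe (inf_le_right : K ⊓ F ≤ F)).toEquiv]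
      congr 2
      rw [← Subgroup.inf_subgroupOf_right]
    rw [this]
    exact Subgroup.card_dvd_of_le inf_le_left
  have hK's : Group.IsSolvable K' := by
    haveI := hKs
    let f : K' →* K := { toFun := fun a => ⟨a.1.1, a.2⟩, map_one' := rfl, map_mul' := fun _ _ => rfl }
    exact solvable_of_solvable_injective (f := f) (by
      intro a b hab
      apply Subtype.ext
      apply Subtype.ext
      have := congrArg Subtype.val hab
      exact this)
  have hpp : p.Prime := hp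
  have hxo : (orderOf x).Coprime t := by
    have h1 : orderOf x ∣ p := orderOf_dvd_of_pow_eq_one hx
    exact Nat.Coprime.coprime_dvd_left h1 ((Nat.coprime_primes hp Fact.out).mpr hpt)
  let xb : ↥F := ⟨x, hxT, hxK⟩
  have hfix' : ∀ a : ↥T ⧸ frattini ↥T, α xb a = a → a = 1 := fun a ha =>
    frat_fixed_eq_one hT hxT hxo hfix a ha
  have h1 := HHFix.comm_normal_of_fix (p := t) (r := p) (frat_comm hT) (frat_exp hT) α K' hK's
    (Odd.of_dvd_nat hodd hKF) (fun h => htK (h.trans hKF)) hp hpt (fun h => hpK (h.trans hKF)) xb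
    (Subtype.ext (by simpa [xb] using hx)) hfix' ⟨k, hKT hk, le_normalizer hk⟩ hk
  -- the commutator lies in `K`
  have hzK : x * k * x⁻¹ * k⁻¹ ∈ K := mul_mem ((mem_normalizer_iff.mp hxK k).mp hk) (inv_mem hk)
  have hzo : (orderOf (x * k * x⁻¹ * k⁻¹)).Coprime t := by
    refine Nat.Coprime.coprime_dvd_left (Subgroup.orderOf_dvd_natCard K hzK) ?_
    exact ((Nat.Prime.coprime_iff_not_dvd Fact.out).mpr htK).symm
  have hzT : x * k * x⁻¹ * k⁻¹ ∈ normalizer (T : Set Γ) :=
    mul_mem (mul_mem (mul_mem hxT (hKT hk)) (inv_mem hxT)) (inv_mem (hKT hk))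
  refine mem_centralizer_of_frat_fixed hT hzT hzo fun a => ?_
  have e : (⟨x * k * x⁻¹ * k⁻¹, hzT⟩ : normalizer (T : Set Γ)) =
      (Subgroup.inclusion hFle (xb * ⟨k, hKT hk, le_normalizer hk⟩)) *
        (Subgroup.inclusion hFle (⟨k, hKT hk, le_normalizer hk⟩ * xb))⁻¹ := by
    apply Subtype.ext
    simp [xb, mul_assoc]
  have h2 : fratNAct T ⟨x * k * x⁻¹ * k⁻¹, hzT⟩ = 1 := by
    rw [e, map_mul, map_inv]
    have h3 : fratNAct T (Subgroup.inclusion hFle (xb * ⟨k, hKT hk, le_normalizer hk⟩)) =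
        fratNAct T (Subgroup.inclusion hFle (⟨k, hKT hk, le_normalizer hk⟩ * xb)) := h1
    rw [h3, mul_inv_cancel]
  rw [h2]
  rfl

/-- `[B ⊔ Y, B ⊔ Y] ≤ B` for an abelian `Y` normalizing `B`. -/
theorem commutator_sup_le_of_comm {B Y : Subgroup Γ} (hYB : Y ≤ normalizer (B : Set Γ))
    (hY : ∀ a ∈ Y, ∀ b ∈ Y, a * b = b * a) : ⁅B ⊔ Y, B ⊔ Y⁆ ≤ B := by
  rw [commutator_le]
  intro a ha c hc
  obtain ⟨k₁, hk₁, y₁, hy₁, rfl⟩ := (mem_sup_iff_of_le_normalizer hYB _).mp ha
  obtain ⟨k₂, hk₂, y₂, hy₂, rfl⟩ := (mem_sup_iff_of_le_normalizer hYB _).mp hc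
  have h1 : y₁ * k₂ * y₁⁻¹ ∈ B := (mem_normalizer_iff.mp (hYB hy₁) k₂).mp hk₂
  have h2 : y₂ * k₁⁻¹ * y₂⁻¹ ∈ B := (mem_normalizer_iff.mp (hYB hy₂) k₁⁻¹).mp (inv_mem hk₁)
  have e0 : y₁ * y₂ * y₁⁻¹ = y₂ := by
    rw [hY y₁ hy₁ y₂ hy₂]
    group
  have e : ⁅k₁ * y₁, k₂ * y₂⁆ = k₁ * (y₁ * k₂ * y₁⁻¹) * (y₂ * k₁⁻¹ * y₂⁻¹) * k₂⁻¹ := by
    rw [commutatorElement_def]
    calc k₁ * y₁ * (k₂ * y₂) * (k₁ * y₁)⁻¹ * (k₂ * y₂)⁻¹
        = k₁ * (y₁ * k₂ * y₁⁻¹) * (y₁ * y₂ * y₁⁻¹) * k₁⁻¹ * y₂⁻¹ * k₂⁻¹ := by group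
      _ = k₁ * (y₁ * k₂ * y₁⁻¹) * (y₂ * k₁⁻¹ * y₂⁻¹) * k₂⁻¹ := by
        rw [e0]
        group
  rw [e]
  exact mul_mem (mul_mem (mul_mem hk₁ h1) h2) (inv_mem hk₂)

/-- An element whose order is coprime to the index of a normal subgroup lies in it. -/
theorem mem_of_coprime_relIndex_aux {F N : Subgroup Γ} (hn : N ≤ normalizer (F : Set Γ)) {d : Γ} (hd : d ∈ N)
    (h : (F.relIndex N).Coprime (orderOf d)) : d ∈ F := by
  haveI : (F.subgroupOf N).Normal := Subgroup.normal_subgroupOf_of_le_normalizer hn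
  have h1 := Subgroup.pow_index_mem (F.subgroupOf N) (⟨d, hd⟩ : N)
  have h2 : d ^ F.relIndex N ∈ F := by
    have := Subgroup.mem_subgroupOf.mp h1
    simpa [Subgroup.relIndex] using this
  obtain ⟨m, hm⟩ := exists_pow_eq_self_of_coprime h
  rw [← hm]
  exact F.pow_mem h2 m

theorem comm_mem_of_mem_zpowers {C S : Subgroup Γ} [hC : C.Normal] {x : Γ}
    (h : ∀ s ∈ S, x * s * x⁻¹ * s⁻¹ ∈ C) {a : Γ} (ha : a ∈ zpowers x) {s : Γ} (hs : s ∈ S) :
    a * s * a⁻¹ * s⁻¹ ∈ C := by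
  obtain ⟨k, rfl⟩ := mem_zpowers_iff.mp ha
  set π := QuotientGroup.mk' C with hπ
  have hker : ∀ g, π g = 1 ↔ g ∈ C := fun g => QuotientGroup.eq_one_iff g
  have h1 : Commute (π x) (π s) := by
    have h2 : π (x * s * x⁻¹ * s⁻¹) = 1 := (hker _).mpr (h s hs)
    rw [map_mul, map_mul, map_mul, map_inv, map_inv] at h2
    have h3 : π x * π s = π s * π x := by
      calc π x * π s = (π x * π s * (π x)⁻¹ * (π s)⁻¹) * (π s * π x) := by group
        _ = π s * π x := by rw [h2, one_mul]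
    exact h3
  have h4 : Commute (π (x ^ k)) (π s) := by
    rw [map_zpow]
    exact h1.zpow_left k
  rw [← hker, map_mul, map_mul, map_mul, map_inv, map_inv, h4.eq]
  group

/-- The main step: `S` centralizes the normal `t`-subgroup `T ≤ W`. -/
theorem sylow_centralizes_of_fix {N W T S D Y : Subgroup Γ} {x : Γ} {p q t : ℕ} [Fact q.Prime] [Fact t.Prime]
    (hWn : W.Normal) (hTn : T.Normal) (hTW : T ≤ W) (hWD : W ≤ D) (hWS : ∀ n ∈ N, ∀ s ∈ S, n * s * n⁻¹ ∈ W ⊔ S)
    (hDN : D ≤ N) (hN : N ≤ D ⊔ S) (hSp : IsPGroup q S) (hDc : (Nat.card D).Coprime q) (hTp : IsPGroup t T)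
    (htq : t ≠ q) (hp : p.Prime) (hx : x ^ p = 1) (hxS : x ∈ normalizer (S : Set Γ)) (hxD : x ∈ normalizer (D : Set Γ))
    (hpt : p ≠ t) (hpq : p ≠ q) (hpD : ¬ p ∣ Nat.card D) (hq2 : q ≠ 2) (hYc : ∀ a ∈ Y, ∀ b ∈ Y, a * b = b * a)
    (hYS : Y ≤ S) (hSY : S ⊓ centralizer ({x} : Set Γ) ≤ Y) (hYN : Y ≤ ⁅N, N⁆) (hDfix : D ⊓ centralizer ({x} : Set Γ) = ⊥) :
    S ≤ centralizer (T : Set Γ) := by
  classical
  have hqq : q.Prime := Fact.out
  have htt : t.Prime := Fact.out
  -- normality of `T`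
  have hTnorm : ∀ g : Γ, g ∈ normalizer (T : Set Γ) := fun g => by
    rw [mem_normalizer_iff]
    intro h
    exact ⟨fun hh => hTn.conj_mem _ hh g, fun hh => by
      have := hTn.conj_mem _ hh g⁻¹
      simpa [mul_assoc] using this⟩
  have hTfix : T ⊓ centralizer ({x} : Set Γ) = ⊥ :=
    le_bot_iff.mp ((inf_le_inf_right _ (hTW.trans hWD)).trans hDfix.le)
  -- orders
  obtain ⟨k, hk⟩ := IsPGroup.iff_card.mp hSp
  have htS : ¬ t ∣ Nat.card S := by
    rw [hk]
    intro h
    exact htq ((Nat.prime_dvd_prime_iff_eq htt hqq).mp (htt.dvd_of_dvd_pow h))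
  have hpS : ¬ p ∣ Nat.card S := by
    rw [hk]
    intro h
    exact hpq ((Nat.prime_dvd_prime_iff_eq hp hqq).mp (hp.dvd_of_dvd_pow h))
  have hSodd : Odd (Nat.card S) := by
    rw [hk]
    exact (hqq.odd_of_ne_two hq2).pow
  have hSsolv : Group.IsSolvable S := by
    haveI := hSp.isNilpotent
    infer_instance
  -- Hall-Higman
  have h1 := comm_centralizes_of_fix (K := S) hTp (fun g _ => hTnorm g) (hTnorm x) hxS hp hx hpt hSsolv hSodd htS hpS hTfix
  set C := centralizer (T : Set Γ) with hC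
  have h1' : ∀ a ∈ zpowers x, ∀ s ∈ S, a * s * a⁻¹ * s⁻¹ ∈ C := fun a ha s hs => comm_mem_of_mem_zpowers h1 ha hs
  -- the quotient by `J`
  set J : Subgroup Γ := W ⊔ C with hJ
  haveI hJn : J.Normal := by
    haveI := hWn
    rw [hJ]
    infer_instance
  set π := QuotientGroup.mk' J with hπ
  have hker : ∀ g, π g = 1 ↔ g ∈ J := fun g => QuotientGroup.eq_one_iff g
  have hπW : ∀ w ∈ W, π w = 1 := fun w hw => (hker w).mpr (Subgroup.mem_sup_left hw)
  have hπC : ∀ c ∈ C, π c = 1 := fun c hc => (hker c).mpr (Subgroup.mem_sup_right hc)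
  have hac : ∀ a ∈ zpowers x, ∀ s ∈ S, π a * π s = π s * π a := by
    intro a ha s hs
    have h2 := hπC _ (h1' a ha s hs)
    rw [map_mul, map_mul, map_mul, map_inv, map_inv] at h2
    calc π a * π s = (π a * π s * (π a)⁻¹ * (π s)⁻¹) * (π s * π a) := by group
      _ = π s * π a := by rw [h2, one_mul]
  have hdS : ∀ d ∈ D, ∀ s ∈ S, ∃ s₁ ∈ S, π (d * s * d⁻¹) = π s₁ := by
    intro d hd s hs
    have h2 := hWS d (hDN hd) s hs
    have hSW : S ≤ normalizer (W : Set Γ) := fun g _ => by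
      rw [mem_normalizer_iff]
      intro h
      exact ⟨fun hh => hWn.conj_mem _ hh g, fun hh => by
        have := hWn.conj_mem _ hh g⁻¹
        simpa [mul_assoc] using this⟩
    obtain ⟨w, hw, s₁, hs₁, e⟩ := (mem_sup_iff_of_le_normalizer hSW _).mp h2
    exact ⟨s₁, hs₁, by rw [e, map_mul, hπW w hw, one_mul]⟩
  -- the commutators act trivially
  set E : Subgroup Γ := (centralizer ((S.map π : Subgroup _) : Set _)).comap π with hE
  have hEmem : ∀ g, (∀ s ∈ S, π g * π s = π s * π g) → g ∈ E := by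
    intro g hg
    rw [hE, Subgroup.mem_comap, mem_centralizer_iff]
    rintro _ ⟨s, hs, rfl⟩
    exact (hg s hs).symm
  have hEmem' : ∀ g ∈ E, ∀ s ∈ S, π g * π s = π s * π g := by
    intro g hg s hs
    rw [hE, Subgroup.mem_comap, mem_centralizer_iff] at hg
    exact (hg (π s) ⟨s, hs, rfl⟩).symm
  have hcomm : ⁅D, zpowers x⁆ ≤ E := by
    rw [commutator_le]
    intro d hd a ha
    apply hEmem
    intro s hs
    rw [commutatorElement_def, map_mul, map_mul, map_mul, map_inv, map_inv]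
    obtain ⟨s₂, hs₂, e₂⟩ := hdS d⁻¹ (inv_mem hd) s hs
    have e₂' : (π d)⁻¹ * π s * π d = π s₂ := by
      simpa using e₂
    have h3 : π s = π d * π s₂ * (π d)⁻¹ := by
      rw [← e₂']
      group
    have h4 : (π a)⁻¹ * π s = π s * (π a)⁻¹ := by
      have := hac a ha s hs
      calc (π a)⁻¹ * π s = (π a)⁻¹ * (π s * π a) * (π a)⁻¹ := by group
        _ = (π a)⁻¹ * (π a * π s) * (π a)⁻¹ := by rw [this]
        _ = π s * (π a)⁻¹ := by group
    have h5 : π a * π s₂ = π s₂ * π a := hac a ha s₂ hs₂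
    calc π d * π a * (π d)⁻¹ * (π a)⁻¹ * π s
        = π d * π a * (π d)⁻¹ * ((π a)⁻¹ * π s) := by group
      _ = π d * π a * (π d)⁻¹ * (π s * (π a)⁻¹) := by rw [h4]
      _ = π d * π a * ((π d)⁻¹ * π s * π d) * (π d)⁻¹ * (π a)⁻¹ := by group
      _ = π d * (π a * π s₂) * (π d)⁻¹ * (π a)⁻¹ := by rw [e₂']; group
      _ = π d * (π s₂ * π a) * (π d)⁻¹ * (π a)⁻¹ := by rw [h5]
      _ = (π d * π s₂ * (π d)⁻¹) * (π d * π a * (π d)⁻¹ * (π a)⁻¹) := by group
      _ = π s * (π d * π a * (π d)⁻¹ * (π a)⁻¹) := by rw [← h3]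
  have hzc : (Nat.card (zpowers x)).Coprime (Nat.card D) := by
    have h2 : Nat.card (zpowers x) ∣ p := by
      rw [Nat.card_zpowers]
      exact orderOf_dvd_of_pow_eq_one hx
    exact Nat.Coprime.coprime_dvd_left h2 ((Nat.Prime.coprime_iff_not_dvd hp).mpr hpD)
  have hca : CoprimeAction (zpowers x) D :=
    ⟨zpowers_le.mpr hxD, hzc, Or.inl inferInstance⟩
  have hDE : D ≤ E := by
    have h2 := hca.commutator_sup_centralizer
    have h3 : D ⊓ centralizer (zpowers x : Set Γ) = ⊥ := by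
      rw [show centralizer (zpowers x : Set Γ) = centralizer ({x} : Set Γ) from centralizer_zpowers_eq x]
      exact hDfix
    rw [h3, sup_bot_eq] at h2
    rw [← h2]
    exact hcomm
  have hDS : ∀ d ∈ D, ∀ s ∈ S, d * s * d⁻¹ * s⁻¹ ∈ J := by
    intro d hd s hs
    rw [← hker, map_mul, map_mul, map_mul, map_inv, map_inv, hEmem' d (hDE hd) s hs]
    group
  -- the subgroup `B = D C(T)`
  have hCn : ∀ g : Γ, g ∈ normalizer (C : Set Γ) := fun g => by
    rw [mem_normalizer_iff]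
    intro h
    haveI : C.Normal := inferInstance
    exact ⟨fun hh => Subgroup.Normal.conj_mem inferInstance _ hh g, fun hh => by
      have := Subgroup.Normal.conj_mem (inferInstance : C.Normal) _ hh g⁻¹
      simpa [mul_assoc] using this⟩
  set B : Subgroup Γ := C ⊔ D with hB
  have hJB : J ≤ B := sup_le (hWD.trans le_sup_right) le_sup_left
  have hSB : S ≤ normalizer (B : Set Γ) := by
    intro s hs
    apply mem_normalizer_of_conj_le
    intro b hb
    obtain ⟨c, hc, d, hd, rfl⟩ := (mem_sup_iff_of_le_normalizer (fun g _ => hCn g) _).mp hb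
    have h2 : s * c * s⁻¹ ∈ B := le_sup_left (a := C) ((mem_normalizer_iff.mp (hCn s) c).mp hc)
    have h3 : s * d * s⁻¹ ∈ B := by
      have h4 := hJB (hDS d hd s hs)
      have e : s * d * s⁻¹ = (d * s * d⁻¹ * s⁻¹)⁻¹ * d := by group
      rw [e]
      exact mul_mem (inv_mem h4) (le_sup_right (a := C) hd)
    have e : s * (c * d) * s⁻¹ = (s * c * s⁻¹) * (s * d * s⁻¹) := by group
    rw [e]
    exact mul_mem h2 h3
  -- `S = C_S(T) Y`
  have hzS : (Nat.card (zpowers x)).Coprime q := by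
    have h2 : Nat.card (zpowers x) ∣ p := by
      rw [Nat.card_zpowers]
      exact orderOf_dvd_of_pow_eq_one hx
    exact Nat.Coprime.coprime_dvd_left h2 ((Nat.coprime_primes hp hqq).mpr hpq)
  have hcaS := coprimeAction_of_isPGroup hSp hzS (zpowers_le.mpr hxS)
  have hxI : x ∈ normalizer ((S ⊓ C : Subgroup Γ) : Set Γ) := by
    rw [mem_normalizer_iff]
    intro n
    have h2 := mem_normalizer_iff.mp hxS n
    have h3 := mem_normalizer_iff.mp (hCn x) n
    constructor
    · rintro ⟨h4, h5⟩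
      exact ⟨h2.mp h4, h3.mp h5⟩
    · rintro ⟨h4, h5⟩
      exact ⟨h2.mpr h4, h3.mpr h5⟩
  have hSdec : ∀ s ∈ S, ∃ n ∈ S ⊓ C, ∃ y ∈ Y, s = n * y := by
    intro s hs
    obtain ⟨n, hn, c, hc, e⟩ := hcaS.exists_mul_centralizer (N := S ⊓ C) inf_le_left (zpowers_le.mpr hxI) hs (by
      intro a ha
      have h2 := h1' a ha s hs
      refine ⟨?_, ?_⟩
      · have h3 : a * s⁻¹ * a⁻¹ ∈ S := by
          have ha' : a ∈ normalizer (S : Set Γ) := (zpowers_le.mpr hxS) ha
          exact (mem_normalizer_iff.mp ha' _).mp (inv_mem hs)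
        have e : s * a * s⁻¹ * a⁻¹ = s * (a * s⁻¹ * a⁻¹) := by group
        rw [e]
        exact mul_mem hs h3
      · have e : s * a * s⁻¹ * a⁻¹ = (s * (a * s⁻¹ * a⁻¹ * (s⁻¹)⁻¹)) * s⁻¹ := by group
        have h3 : a * s⁻¹ * a⁻¹ * (s⁻¹)⁻¹ ∈ C := h1' a ha s⁻¹ (inv_mem hs)
        rw [e]
        exact (mem_normalizer_iff.mp (hCn s) _).mp h3)
    refine ⟨n, hn, c, hSY (Subgroup.mem_inf.mpr ⟨hc.1, ?_⟩), e⟩
    rw [mem_centralizer_singleton_iff]
    exact (mem_centralizer_iff.mp hc.2 x (mem_zpowers x)).symm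
  -- `N' ≤ B`
  have hNB : N ≤ B ⊔ Y := by
    refine hN.trans (sup_le (le_sup_of_le_left le_sup_right) ?_)
    intro s hs
    obtain ⟨n, hn, y, hy, rfl⟩ := hSdec s hs
    exact mul_mem (le_sup_of_le_left (le_sup_left (a := C)) hn.2) (Subgroup.mem_sup_right hy)
  have hNN : ⁅N, N⁆ ≤ B := (Subgroup.commutator_mono hNB hNB).trans (commutator_sup_le_of_comm (hYS.trans hSB) hYc)
  have hYB : Y ≤ B := hYN.trans hNN
  -- so `Y ≤ C`
  have hYC : Y ≤ C := by
    intro y hy
    refine mem_of_coprime_relIndex_aux (N := B) (fun g _ => hCn g) (hYB hy) ?_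
    rw [hB, relIndex_sup_of_le_normalizer C D (fun g _ => hCn g)]
    have h2 : C.relIndex D ∣ Nat.card D := Subgroup.relIndex_dvd_card C D
    obtain ⟨k', hk'⟩ := Cfsg.Agent.Lib.PGroups.exists_orderOf_of_mem_isPGroup hSp (hYS hy)
    rw [hk']
    exact Nat.Coprime.pow_right _ (Nat.Coprime.coprime_dvd_left h2 hDc)
  intro s hs
  obtain ⟨n, hn, y, hy, rfl⟩ := hSdec s hs
  exact mul_mem hn.2 (hYC hy)

/-- The nilpotence of a subgroup on which an element of prime order acts without fixed points. -/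
theorem nilpotent_of_fpf_subgroup {D : Subgroup Γ} {x : Γ} {p : ℕ} (hp : p.Prime) (hx : x ^ p = 1)
    (hxD : x ∈ normalizer (D : Set Γ)) (hfix : D ⊓ centralizer ({x} : Set Γ) = ⊥) : Group.IsNilpotent D := by
  classical
  set A : Subgroup Γ := normalizer (D : Set Γ) with hA
  haveI : (D.subgroupOf A).Normal := Subgroup.normal_in_normalizer
  have hk : (⟨x, hxD⟩ : ↥A) ^ p = 1 := Subtype.ext (by simpa using hx)
  have h1 := OddChar.nilpotent_of_fpf_element (D.subgroupOf A) (k := (⟨x, hxD⟩ : ↥A)) hp hk (by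
    intro h hh hc
    have hc' : x * (h : Γ) = h * x := congrArg Subtype.val hc
    have h2 : (h : Γ) ∈ D ⊓ centralizer ({x} : Set Γ) :=
      Subgroup.mem_inf.mpr ⟨hh, mem_centralizer_singleton_iff.2 hc'.symm⟩
    rw [hfix] at h2
    exact Subtype.ext (Subgroup.mem_bot.1 h2))
  have h2 := isNilpotent_map_subtype h1
  rwa [Subgroup.map_subgroupOf_eq_of_le Subgroup.le_normalizer] at h2

/-- **The normal Sylow theorem.** -/
theorem normal_sylow_of_fix {N : Subgroup Γ} (hNn : N.Normal) (hNs : Group.IsSolvable N) {x : Γ} {p q : ℕ} [Fact q.Prime]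
    (hp : p.Prime) (hx : x ^ p = 1) (hpN : ¬ p ∣ Nat.card N) (hpq : p ≠ q) (hq2 : q ≠ 2)
    (hYp : IsPGroup q ↥(N ⊓ centralizer ({x} : Set Γ)))
    (hYc : ∀ a ∈ N ⊓ centralizer ({x} : Set Γ), ∀ b ∈ N ⊓ centralizer ({x} : Set Γ), a * b = b * a)
    (hYN : N ⊓ centralizer ({x} : Set Γ) ≤ ⁅N, N⁆) (hpl : PLengthLE q 1 ↥N) :
    ∃ S D : Subgroup Γ, S.Normal ∧ IsPGroup q S ∧ (Nat.card D).Coprime q ∧ IsComplIn S D N ∧ ¬ q ∣ S.relIndex N ∧
      Group.IsNilpotent D ∧ x ∈ normalizer (D : Set Γ) ∧ D ⊓ centralizer ({x} : Set Γ) = ⊥ ∧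
      N ⊓ centralizer ({x} : Set Γ) ≤ S := by
  classical
  have hqq : q.Prime := Fact.out
  have norm_of_normal : ∀ {A : Subgroup Γ}, A.Normal → ∀ g : Γ, g ∈ normalizer (A : Set Γ) := fun {A} hA g => by
    rw [mem_normalizer_iff]
    intro h
    exact ⟨fun hh => hA.conj_mem _ hh g, fun hh => by
      have := hA.conj_mem _ hh g⁻¹
      simpa [mul_assoc] using this⟩
  set Y : Subgroup Γ := N ⊓ centralizer ({x} : Set Γ) with hYdef
  have hzc : (Nat.card (zpowers x)).Coprime (Nat.card N) := by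
    have h2 : Nat.card (zpowers x) ∣ p := by
      rw [Nat.card_zpowers]
      exact orderOf_dvd_of_pow_eq_one hx
    exact Nat.Coprime.coprime_dvd_left h2 ((Nat.Prime.coprime_iff_not_dvd hp).mpr hpN)
  have hca : CoprimeAction (zpowers x) N :=
    ⟨zpowers_le.mpr (norm_of_normal hNn x), hzc, Or.inl inferInstance⟩
  have hxY : zpowers x ≤ normalizer (Y : Set Γ) := by
    rw [zpowers_le]
    apply Cfsg.Agent.Lib.Coprime.mem_normalizer_of_conj_le
    intro n hn
    have h2 : n * x = x * n := mem_centralizer_singleton_iff.1 hn.2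
    have e : x * n * x⁻¹ = n := by
      rw [← h2]
      group
    rw [e]
    exact hn
  obtain ⟨S, hSH, hXS, hYS⟩ := exists_invariant_hall {q} _ hca hNs rfl inf_le_left hxY (by
    intro r hr hd
    obtain ⟨k, hk⟩ := IsPGroup.iff_card.mp hYp
    rw [hk] at hd
    exact (Nat.prime_dvd_prime_iff_eq hr hqq).mp (hr.dvd_of_dvd_pow hd))
  set W : Subgroup Γ := Oq' q N with hWdef
  have hWN : W ≤ N := Oq'_le q N
  have hWc : (Nat.card W).Coprime q := Oq'_card_coprime q N
  obtain ⟨D, hDH, hXD, hWD⟩ := exists_invariant_hall {r | r ≠ q} _ hca hNs rfl hWN (by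
    rw [zpowers_le]
    haveI := hNn
    haveI : (pPrimeCore q ↥N).Characteristic := Basic.pPrimeCore_characteristic q
    haveI hn := Cfsg.Agent.Lib.Coprime.PLen.normal_map_of_characteristic (pPrimeCore q ↥N)
    exact norm_of_normal hn x) (by
    intro r hr hd hrq
    subst hrq
    exact hr.one_lt.ne' (Nat.Coprime.eq_one_of_dvd hWc.symm hd))
  have hxS : x ∈ normalizer (S : Set Γ) := hXS (mem_zpowers x)
  have hxD : x ∈ normalizer (D : Set Γ) := hXD (mem_zpowers x)
  have hSN : S ≤ N := hSH.1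
  have hDN : D ≤ N := hDH.1
  have hSp : IsPGroup q S := (isMaxP_of_isPiHallOf hSH).2
  have hSi : ¬ q ∣ S.relIndex N := hSH.2.2 q hqq rfl
  have hDc : (Nat.card D).Coprime q := by
    refine ((Nat.Prime.coprime_iff_not_dvd hqq).mpr fun hd => ?_).symm
    exact hDH.2.1 q hqq hd rfl
  have hpD : ¬ p ∣ Nat.card D := fun h => hpN (h.trans (Subgroup.card_dvd_of_le hDN))
  have hDfix : D ⊓ centralizer ({x} : Set Γ) = ⊥ := by
    have h2 : D ⊓ centralizer ({x} : Set Γ) ≤ D ⊓ Y := le_inf inf_le_left (le_inf (inf_le_left.trans hDN) inf_le_right)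
    refine le_bot_iff.mp (h2.trans ?_)
    obtain ⟨k, hk⟩ := IsPGroup.iff_card.mp hYp
    have hc : (Nat.card D).Coprime (Nat.card Y) := by
      rw [hk]
      exact Nat.Coprime.pow_right k hDc
    exact (Subgroup.disjoint_of_coprime_natCard hc).le_bot
  have hDnil : Group.IsNilpotent D := nilpotent_of_fpf_subgroup hp hx hxD hDfix
  -- `N = D S`
  have hN : N ≤ D ⊔ S := by
    have hL : D ⊔ S ≤ N := sup_le hDN hSN
    have h1 : (D ⊔ S).relIndex N = 1 := by
      by_contra hne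
      obtain ⟨r, hr, hrd⟩ := Nat.exists_prime_and_dvd hne
      by_cases hrq : r = q
      · subst hrq
        exact hSi (hrd.trans (Subgroup.relIndex_dvd_of_le_left N le_sup_right))
      · exact hDH.2.2 r hr hrq (hrd.trans (Subgroup.relIndex_dvd_of_le_left N le_sup_left))
    exact Subgroup.relIndex_eq_one.mp h1
  -- `W S` is normal in `N`
  haveI hNn' := hNn
  have hWS : ∀ n ∈ N, ∀ s ∈ S, n * s * n⁻¹ ∈ W ⊔ S := by
    intro n hn s hs
    have hcop : ¬ q ∣ (S.subgroupOf N).index := by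
      rw [← Subgroup.relIndex]
      exact hSi
    let S' : Sylow q ↥N := IsPGroup.toSylow (P := S.subgroupOf N) hSp.comap_subtype hcop
    have h3 := sup_pPrimeCore_eq_pPrimePCore hpl S'
    have hS'c : ((S' : Subgroup ↥N)) = S.subgroupOf N := rfl
    haveI hnn : (pPrimePCore q ↥N).Normal := by
      unfold pPrimePCore
      infer_instance
    have h4 : (⟨s, hSN hs⟩ : ↥N) ∈ pPrimePCore q ↥N := by
      rw [← h3]
      exact Subgroup.mem_sup_left (by rw [hS'c]; exact hs)
    have h5 := hnn.conj_mem _ h4 ⟨n, hn⟩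
    rw [← h3, hS'c] at h5
    have h6 : (S.subgroupOf N ⊔ pPrimeCore q ↥N).map N.subtype ≤ W ⊔ S := by
      rw [Subgroup.map_sup, Subgroup.map_subgroupOf_eq_of_le hSN, sup_comm]
      exact le_rfl
    exact h6 ⟨_, h5, rfl⟩
  have hWn : W.Normal := by
    haveI : (pPrimeCore q ↥N).Characteristic := Basic.pPrimeCore_characteristic q
    exact Cfsg.Agent.Lib.Coprime.PLen.normal_map_of_characteristic (pPrimeCore q ↥N)
  have hWnil : Group.IsNilpotent W := by
    haveI := hDnil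
    have h3 : Group.IsNilpotent ↥(W.subgroupOf D) := inferInstance
    have h4 := isNilpotent_map_subtype h3
    rwa [Subgroup.map_subgroupOf_eq_of_le hWD] at h4
  have hSC : ∀ (t : ℕ) [Fact t.Prime], S ≤ centralizer (Oq t W : Set Γ) := by
    intro t _
    have htt : t.Prime := Fact.out
    have hTbot : ¬ t ∣ Nat.card W → Oq t W = ⊥ := by
      intro hnd
      obtain ⟨k, hk⟩ := IsPGroup.iff_card.mp (Oq_isPGroup t W)
      have hd : Nat.card (Oq t W) ∣ Nat.card W := Subgroup.card_dvd_of_le (Oq_le t W)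
      have hk0 : k = 0 := by
        by_contra hk0
        apply hnd
        refine dvd_trans ?_ hd
        rw [hk]
        exact dvd_pow_self t hk0
      apply (Subgroup.eq_bot_iff_card _).mpr
      rw [hk, hk0, pow_zero]
    by_cases htd : t ∣ Nat.card W
    · have htq : t ≠ q := by
        rintro rfl
        exact htt.one_lt.ne' (Nat.Coprime.eq_one_of_dvd hWc.symm htd)
      have hpt : p ≠ t := by
        rintro rfl
        exact hpN (htd.trans (Subgroup.card_dvd_of_le hWN))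
      have hTn : (Oq t W).Normal := by
        refine ⟨fun n hn g => ?_⟩
        exact (mem_normalizer_iff.mp (mem_normalizer_Oq hWnil (norm_of_normal hWn g)) n).mp hn
      exact sylow_centralizes_of_fix (N := N) (W := W) (D := D) (Y := Y) hWn hTn (Oq_le t W) hWD hWS hDN hN hSp hDc
        (Oq_isPGroup t W) htq hp hx hxS hxD hpt hpq hpD hq2 hYc hYS
        (le_inf (inf_le_left.trans hSN) inf_le_right) hYN hDfix
    · rw [hTbot htd]
      intro s _
      rw [mem_centralizer_iff]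
      intro y hy
      have : y = 1 := hy
      simp [this]
  have hSW : ∀ s ∈ S, ∀ w ∈ W, s * w = w * s := fun s hs w hw =>
    comm_of_forall_Oq hWnil (fun t _ => hSC t hs) w hw
  -- `S` is normal in `N`
  have hNS : N ≤ normalizer (S : Set Γ) := by
    intro n hn
    apply Cfsg.Agent.Lib.Coprime.mem_normalizer_of_conj_le
    intro s hs
    have h2 := hWS n hn s hs
    have hSW' : S ≤ normalizer (W : Set Γ) := fun g _ => norm_of_normal hWn g
    obtain ⟨w, hw, s₁, hs₁, e⟩ := (mem_sup_iff_of_le_normalizer hSW' _).mp h2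
    set m := Nat.card S with hm
    obtain ⟨k, hk⟩ := IsPGroup.iff_card.mp hSp
    have h3 : s ^ m = 1 := by
      have : (⟨s, hs⟩ : S) ^ m = 1 := pow_card_eq_one'
      exact congrArg Subtype.val this
    have h4 : s₁ ^ m = 1 := by
      have : (⟨s₁, hs₁⟩ : S) ^ m = 1 := pow_card_eq_one'
      exact congrArg Subtype.val this
    have h5 : (n * s * n⁻¹) ^ m = 1 := by
      rw [conj_pow, h3]
      group
    have hcw : Commute w s₁ := (hSW s₁ hs₁ w hw).symm
    rw [e, hcw.mul_pow, h4, mul_one] at h5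
    have h6 : orderOf w ∣ m := orderOf_dvd_of_pow_eq_one h5
    have h7 : (orderOf w).Coprime m := by
      rw [← hm, hk] at *
      refine Nat.Coprime.pow_right k ?_
      exact Nat.Coprime.coprime_dvd_left (Subgroup.orderOf_dvd_natCard W hw) hWc
    have h8 : orderOf w = 1 := Nat.Coprime.eq_one_of_dvd h7 h6
    rw [orderOf_eq_one_iff] at h8
    rw [e, h8, one_mul]
    exact hs₁
  have hSn : S.Normal := by
    refine ⟨fun s hs g => ?_⟩
    have h2 : g * s * g⁻¹ ∈ N := hNn.conj_mem _ (hSN hs) g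
    refine mem_of_coprime_relIndex_aux hNS h2 ?_
    have hoc : orderOf (g * s * g⁻¹) = orderOf s := by
      rw [← MulAut.conj_apply, MulEquiv.orderOf_eq]
    rw [hoc]
    obtain ⟨k, hk⟩ := Cfsg.Agent.Lib.PGroups.exists_orderOf_of_mem_isPGroup hSp hs
    rw [hk]
    exact Nat.Coprime.pow_right k ((Nat.Prime.coprime_iff_not_dvd hqq).mpr hSi).symm
  refine ⟨S, D, hSn, hSp, hDc, ⟨hSN, hDN, ?_, ?_⟩, hSi, hDnil, hxD, hDfix, hYS⟩
  · obtain ⟨k, hk⟩ := IsPGroup.iff_card.mp hSp
    have hc : (Nat.card S).Coprime (Nat.card D) := by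
      rw [hk]
      exact Nat.Coprime.pow_left k hDc.symm
    exact le_bot_iff.mp (Subgroup.disjoint_of_coprime_natCard hc).le_bot
  · intro m hm
    have h2 : m ∈ S ⊔ D := by
      rw [sup_comm]
      exact hN hm
    exact (mem_sup_iff_of_le_normalizer (fun g _ => norm_of_normal hSn g) m).mp h2

end Cfsg.Agent.Lib.FT
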