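import Cfsg.Agent.Lib.FT.BG17a
import Cfsg.Agent.Lib.OddLocal.Fitting
import Cfsg.Agent.Lib.FT.BG14a

/-!
BG20: the structure of `C_G(x)` for `1 ≠ x ∈ M_σ`, conditional on Theorem B (`S1375`, `S1374`, `S1432`).
-/

set_option autoImplicit false
set_option linter.unusedSectionVars false
set_option linter.style.haveILetI false

namespace Cfsg.Agent.Lib.FT

open Subgroup Cfsg Cfsg.Agent.Lib.OddLocal Cfsg.Agent.Lib.Basic

open Cfsg.Agent.Lib.Coprime (mem_conj_map conj_mem_conj_map conj_map_conj_map conj_map_one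
  conj_map_mono mem_normalizer_of_conj_le conj_map_eq_iff_mem_normalizer isPGroup_conj_map)

variable {G : Type*} [Group G] [Finite G]

/-- Elements of prescribed order in `⟨x⟩`. -/
theorem exists_mem_zpowers_orderOf {x : G} {q : ℕ} (hq : q ∣ orderOf x) : ∃ y ∈ zpowers x, orderOf y = q :=
  ⟨x ^ (orderOf x / q), pow_mem (mem_zpowers x) _, orderOf_pow_orderOf_div (orderOf_pos x).ne' hq⟩

theorem centralizer_singleton_le_of_mem_zpowers {x y : G} (hy : y ∈ zpowers x) :
    centralizer ({x} : Set G) ≤ centralizer ({y} : Set G) := by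
  intro c hc
  rw [mem_centralizer_singleton_iff] at hc ⊢
  have h1 : Commute c x := hc
  obtain ⟨k, rfl⟩ := mem_zpowers_iff.mp hy
  exact h1.zpow_right k

theorem mem_centralizer_singleton_self (x : G) : x ∈ centralizer ({x} : Set G) := by
  rw [mem_centralizer_singleton_iff]

theorem centralizer_le_normalizer_zpowers_of_mem {x y : G} (hy : y ∈ zpowers x) :
    centralizer ({x} : Set G) ≤ normalizer ((zpowers y : Subgroup G) : Set G) :=
  (centralizer_singleton_le_of_mem_zpowers hy).trans (cent_le_norm y)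

theorem mem_centralizer_zpowers_of_comm {y b : G} (h : b * y = y * b) :
    b ∈ centralizer ((zpowers y : Subgroup G) : Set G) := by
  rw [centralizer_zpowers_eq]
  exact mem_centralizer_singleton_iff.mpr h

theorem sigma_of_mem_sigmaCore {M : Subgroup G} {x : G} (hx : x ∈ sigmaCore M) {r : ℕ} (hr : r.Prime) (hd : r ∣ orderOf x) :
    r ∈ sigma M :=
  piCoreOf_isPi (sigma M) M r hr (hd.trans (Subgroup.orderOf_dvd_natCard _ hx))

/-- An element of `N` whose order is coprime to the index of a normal subgroup of `N` lies in it. -/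
theorem mem_of_coprime_relIndex {F N : Subgroup G} (hn : N ≤ normalizer (F : Set G)) {d : G} (hd : d ∈ N)
    (h : (F.relIndex N).Coprime (orderOf d)) : d ∈ F := by
  haveI : (F.subgroupOf N).Normal := Subgroup.normal_subgroupOf_of_le_normalizer hn
  have h1 := Subgroup.pow_index_mem (F.subgroupOf N) (⟨d, hd⟩ : N)
  have h2 : d ^ F.relIndex N ∈ F := by
    have := Subgroup.mem_subgroupOf.mp h1
    simpa [Subgroup.relIndex] using this
  obtain ⟨m, hm⟩ := exists_pow_eq_self_of_coprime h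
  rw [← hm]
  exact F.pow_mem h2 m

/-- `N_σ = N_F` when `N_σ` is nilpotent. -/
theorem sigmaCore_eq_fittingHallOf (hG : IsMinSimpleOddOrder G) {N : Subgroup G} (hN : IsCoatom N)
    (hn : Group.IsNilpotent (sigmaCore N)) : sigmaCore N = fittingHallOf N := by
  classical
  have huniq := huniq13 hG
  obtain ⟨hH1, hH2, hH3⟩ := (s1350_core hG huniq hN).1
  apply le_antisymm
  · refine Subgroup.map_mono (le_fittingHall inferInstance (isNilpotent_of_map_subtype hn) ?_)
    have h1 : Nat.card ↥(piCore (sigma N) ↥N) = Nat.card (sigmaCore N) := (card_map_subtype _).symm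
    have h2 : (piCore (sigma N) ↥N).index = (sigmaCore N).relIndex N := by
      have h3 : Nat.card (sigmaCore N) * (sigmaCore N).relIndex N = Nat.card N :=
        Cfsg.Agent.Lib.Coprime.card_mul_relIndex hH1
      have h4 := (piCore (sigma N) ↥N).card_mul_index
      rw [← h1] at h3
      rw [← h3] at h4
      exact Nat.eq_of_mul_eq_mul_left Nat.card_pos h4
    rw [h1, h2]
    exact Nat.coprime_of_dvd fun k hk h1 h2 => hH3 k hk (hH2 k hk h1) h2
  · refine le_piCoreOf (fittingHallOf_le N) (fittingHallOf_normalized N) ?_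
    intro p hp hd
    haveI : Fact p.Prime := ⟨hp⟩
    obtain ⟨z, hz⟩ := exists_prime_orderOf_dvd_card' (G := ↥(fittingHallOf N)) p hd
    have hzo : orderOf (z : G) = p := by rw [Subgroup.orderOf_coe, hz]
    have hzp : IsPGroup p (zpowers (z : G)) := by
      rw [IsPGroup.iff_card, Nat.card_zpowers, hzo]
      exact ⟨1, (pow_one p).symm⟩
    obtain ⟨S, hS, hzS⟩ := exists_isMaxP_ge (zpowers_le.2 z.2) hzp
    have hFN : fittingHallOf N ≤ N := fittingHallOf_le N
    have hFn : N ≤ normalizer (fittingHallOf N : Set G) := fittingHallOf_normalized N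
    have hFS : fittingHallOf N ≤ normalizer (S : Set G) :=
      le_normalizer_of_isMaxP_of_nilpotent (fittingHallOf_isNilpotent N) hS
    have hNS : N ≤ normalizer (S : Set G) := by
      intro h hh
      have hconj : S.map (MulAut.conj h).toMonoidHom ≤ fittingHallOf N := by
        rintro _ ⟨x, hx, rfl⟩
        exact (mem_normalizer_iff.mp (hFn hh) x).mp (hS.le hx)
      obtain ⟨n, hn', hle⟩ := hS.exists_conj_le hconj (isPGroup_conj_map hS.isP h)
      rw [conj_map_conj_map] at hle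
      have e3 : S.map (MulAut.conj (n * h)).toMonoidHom = S := by
        apply Subgroup.eq_of_le_of_card_ge hle
        rw [Cfsg.Agent.Lib.Coprime.card_conj_map]
      have h5 := (conj_map_eq_iff_mem_normalizer S (n * h)).mp e3
      have h6 := hFS hn'
      have e4 : h = n⁻¹ * (n * h) := by group
      rw [e4]
      exact mul_mem (inv_mem h6) h5
    have hS1 : S ≠ ⊥ := by
      rintro rfl
      have h1 : (z : G) ∈ (⊥ : Subgroup G) := hzS (mem_zpowers _)
      rw [mem_bot] at h1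
      rw [h1, orderOf_one] at hzo
      exact hp.one_lt.ne hzo
    have hSN : S ≤ N := hS.le.trans hFN
    have hSt : S ≠ ⊤ := fun h => hN.1 (top_le_iff.1 (h ▸ hSN))
    have hNt := IsMinSimpleOddOrder.normalizer_ne_top hG hS1 hSt
    have hNle : normalizer (S : Set G) ≤ N := by
      by_contra hnot
      have hlt : N < normalizer (S : Set G) := lt_of_le_of_ne hNS fun e => hnot e.ge
      exact hNt (hN.2 _ hlt)
    have hmax : IsMaxP p S N := by
      refine ⟨hSN, hS.isP, fun D' h1 h2 h3 => hS.max D' ?_ h2 h3⟩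
      intro d hdD
      refine mem_of_coprime_relIndex hFn (h1 hdD) ?_
      have hc : (fittingHallOf N).relIndex N |>.Coprime p := by
        have := fittingHallOf_coprime_relIndex (M := N)
        exact (Nat.Coprime.coprime_dvd_left hd this).symm
      have hpd : IsPGroup p D' := h2
      obtain ⟨k, hk⟩ := hpd ⟨d, hdD⟩
      have hk' : d ^ p ^ k = 1 := congrArg Subtype.val hk
      obtain ⟨j, -, hj⟩ := (Nat.dvd_prime_pow hp).1 (orderOf_dvd_of_pow_eq_one hk')
      rw [hj]
      exact Nat.Coprime.pow_right j hc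
    have hdN : p ∣ Nat.card N := hd.trans (Subgroup.card_dvd_of_le hFN)
    exact mem_sigma_of_normalizer_le hmax hdN hNle

/-- The commutation step. -/
theorem comm_of_compl {M N : Subgroup G} (hσ : sigmaCore N ⊓ M = ⊥) {x a b : G} (hxN : x ∈ N) (hxM : x ∈ M) (ha : a ∈ M)
    (hb : b ∈ sigmaCore N) (hc : (a * b) * x * (a * b)⁻¹ ∈ M) : b * x = x * b := by
  have hHn : N ≤ normalizer (sigmaCore N : Set G) := le_normalizer_piCoreOf (sigma N) N
  have h1 : b * x * b⁻¹ * x⁻¹ ∈ sigmaCore N ⊓ M := by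
    constructor
    · have e : b * x * b⁻¹ * x⁻¹ = b * (x * b⁻¹ * x⁻¹) := by group
      rw [e]
      exact (sigmaCore N).mul_mem hb ((mem_normalizer_iff.mp (hHn hxN) b⁻¹).mp ((sigmaCore N).inv_mem hb))
    · have e : b * x * b⁻¹ = a⁻¹ * ((a * b) * x * (a * b)⁻¹) * a := by group
      rw [e]
      exact M.mul_mem (M.mul_mem (M.mul_mem (M.inv_mem ha) hc) ha) (M.inv_mem hxM)
  rw [hσ, mem_bot] at h1
  have h5 : b * x * b⁻¹ = x := mul_inv_eq_one.mp h1
  calc b * x = b * x * b⁻¹ * b := by group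
    _ = x * b := by rw [h5]

/-- **Core of S1375**. -/
theorem thmE_core (hB : ThmB G) (hG : IsMinSimpleOddOrder G) {M : Subgroup G} (hM : IsCoatom M) {x : G}
    (hx : x ∈ sigmaCore M) (hx1 : x ≠ 1) (hxM : ¬ centralizer ({x} : Set G) ≤ M) :
    ∃ N : Subgroup G, IsCoatom N ∧ centralizer ({x} : Set G) ≤ N ∧
      (∀ L : Subgroup G, IsCoatom L → centralizer ({x} : Set G) ≤ L → L = N) ∧ N ≠ M ∧
      Group.IsNilpotent (sigmaCore N) ∧ sigmaCore N ⊓ M = ⊥ ∧ IsComplIn (M ⊓ N) (sigmaCore N) N ∧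
      x ∈ M ⊓ N ∧ (∀ p : ℕ, p.Prime → p ∣ orderOf x → p ∈ tau2 N) ∧ x ∈ sigmaHat N := by
  classical
  have huniq := huniq13 hG
  have hσM : sigmaCore M ≤ M := piCoreOf_le _ M
  have hord : orderOf x ≠ 1 := fun h => hx1 (orderOf_eq_one_iff.1 h)
  obtain ⟨q, hq, hqd⟩ := Nat.exists_prime_and_dvd hord
  haveI : Fact q.Prime := ⟨hq⟩
  have hqσ : q ∈ sigma M := sigma_of_mem_sigmaCore hx hq hqd
  obtain ⟨y, hyx, hyo⟩ := exists_mem_zpowers_orderOf hqd
  have hyσ : y ∈ sigmaCore M := (zpowers_le.2 hx) hyx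
  have hX : Nat.card (zpowers y) = q := by rw [Nat.card_zpowers, hyo]
  have hXM : zpowers y ≤ M := zpowers_le.2 (hσM hyσ)
  have hXp : IsPGroup q (zpowers y) := IsPGroup.of_card (n := 1) (by simpa using hX)
  have hCN := centralizer_le_normalizer_zpowers_of_mem hyx
  have hX1 : zpowers y ≠ ⊥ := ne_bot_of_card_prime hq hX
  have hXt : zpowers y ≠ ⊤ := fun h => hM.1 (top_le_iff.1 (h ▸ hXM))
  obtain ⟨H, hH, hNX⟩ := (eq_top_or_exists_le_coatom (normalizer ((zpowers y : Subgroup G) : Set G))).resolve_left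
    (IsMinSimpleOddOrder.normalizer_ne_top hG hX1 hXt)
  have hCH : centralizer ({x} : Set G) ≤ H := hCN.trans hNX
  have hne : H ≠ M := fun e => hxM (e ▸ hCH)
  have hqH : q ∉ sigma H := fun h => hne (eq_of_sigma_of_norm hB hG hM hqσ hX hXM hH hNX h)
  obtain ⟨W, V, -, -, hσ, A, T, -, -, -, hEM, hcompl⟩ := thmD_not_sigma hG hM hqσ hX hXM hH hne hNX hqH
  have hEeq : M ⊓ H = H ⊓ normalizer (A : Set G) := by
    apply le_antisymm
    · rintro m ⟨hmM, hmH⟩
      obtain ⟨a, ha, b, hb, rfl⟩ := hcompl.2.2.2 m hmH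
      have hbM : b ∈ M := by
        have := M.mul_mem (M.inv_mem (hEM ha)) hmM
        simpa using this
      have h1 : b ∈ sigmaCore H ⊓ M := ⟨hb, hbM⟩
      rw [hσ, mem_bot] at h1
      subst h1
      simpa using ha
    · exact le_inf hEM inf_le_left
  have hcompl' : IsComplIn (M ⊓ H) (sigmaCore H) H := by
    rw [hEeq]
    exact hcompl
  have hxH : x ∈ H := hCH (mem_centralizer_singleton_self x)
  have hxM' : x ∈ M := hσM hx
  obtain ⟨c, hc, hcM⟩ := SetLike.not_le_iff_exists.mp hxM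
  obtain ⟨a, ha, b, hb, rfl⟩ := hcompl'.2.2.2 c (hCH hc)
  have haM : a ∈ M := ha.1
  have hbx : b * x = x * b := by
    refine comm_of_compl hσ hxH hxM' haM hb ?_
    have hcx : a * b * x = x * (a * b) := mem_centralizer_singleton_iff.mp hc
    rw [hcx, mul_inv_cancel_right]
    exact hxM'
  have hb1 : b ≠ 1 := by
    rintro rfl
    apply hcM
    simpa using haM
  have hxσH : x ∈ sigmaHat H := ⟨hxH, b, hb, hb1, hbx.symm⟩
  have hτ : ∀ r : ℕ, r.Prime → r ∣ orderOf x → r ∈ tau2 H := by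
    intro r hr hrd
    haveI : Fact r.Prime := ⟨hr⟩
    obtain ⟨y', hy', hyo'⟩ := exists_mem_zpowers_orderOf hrd
    have hrσM := sigma_of_mem_sigmaCore hx hr hrd
    have hrσH : r ∉ sigma H := by
      intro hrH
      obtain ⟨c', e'⟩ := conj_of_sigma_nilpotent hG hM hH T.nil hrH hrσM
      refine not_conj_of_normalizer_le hG hM hqσ hXp hX1 hXM hne hNX c'⁻¹ ?_
      rw [← e', conj_map_conj_map, inv_mul_cancel, conj_map_one]
    have hr2 : PRankLE r 2 ↥H := by
      by_contra h
      exact hrσH (alpha_sub_sigma hG huniq hH ⟨hr, h⟩)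
    refine ⟨hr, hrσH, hr2, ?_⟩
    intro hr1
    have hX' : Nat.card (zpowers y') = r := by rw [Nat.card_zpowers, hyo']
    have hy'H : y' ∈ H := (zpowers_le.2 hxH) hy'
    have hX'M : zpowers y' ≤ M := zpowers_le.2 ((zpowers_le.2 hxM') hy')
    have hconf : Config H (zpowers y') r := by
      refine ⟨hH, hrσH, hr1, hX', zpowers_le.2 hy'H, ?_⟩
      intro hbot
      have h1 : b ∈ sigmaCore H ⊓ centralizer ((zpowers y' : Subgroup G) : Set G) := by
        refine ⟨hb, ?_⟩
        rw [centralizer_zpowers_eq]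
        exact centralizer_singleton_le_of_mem_zpowers hy' (mem_centralizer_singleton_iff.mpr hbx)
      rw [hbot, mem_bot] at h1
      exact hb1 h1
    have hX'1 : zpowers y' ≠ ⊥ := ne_bot_of_card_prime hr hX'
    have hX't : zpowers y' ≠ ⊤ := fun h => hM.1 (top_le_iff.1 (h ▸ hX'M))
    obtain ⟨H', hH', hNH'⟩ := (eq_top_or_exists_le_coatom (normalizer ((zpowers y' : Subgroup G) : Set G))).resolve_left
      (IsMinSimpleOddOrder.normalizer_ne_top hG hX'1 hX't)
    have hrH' : r ∈ sigma H' := thmT hG H (zpowers y') H' r hr hconf hH' hNH'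
    have e := eq_of_sigma_of_norm hB hG hM hrσM hX' hX'M hH' hNH' hrH'
    exact hxM (e ▸ (centralizer_le_normalizer_zpowers_of_mem hy').trans hNH')
  obtain ⟨hC1, hC2⟩ := s1420_d hG huniq (fun r _ K hK => hpl13 hG r K hK) hH hxH hx1 hτ hxσH
  exact ⟨H, hH, hC1, hC2, hne, T.nil, hσ, hcompl', ⟨hxM', hxH⟩, hτ, hxσH⟩

/-- `C_G(x) = C_M(x) C_{N_σ}(x)`. -/
theorem centralizer_compl {M N : Subgroup G} (hσ : sigmaCore N ⊓ M = ⊥) (hcompl : IsComplIn (M ⊓ N) (sigmaCore N) N) {x : G}
    (hxM : x ∈ M) (hCN : centralizer ({x} : Set G) ≤ N) :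
    IsComplIn (M ⊓ centralizer ({x} : Set G)) (sigmaCore N ⊓ centralizer ({x} : Set G)) (centralizer ({x} : Set G)) := by
  refine ⟨inf_le_right, inf_le_right, ?_, ?_⟩
  · rw [eq_bot_iff]
    rintro u ⟨⟨hu1, -⟩, hu2, -⟩
    have h1 : u ∈ sigmaCore N ⊓ M := ⟨hu2, hu1⟩
    rwa [hσ] at h1
  · intro c hc
    obtain ⟨a, ha, b, hb, rfl⟩ := hcompl.2.2.2 c (hCN hc)
    have hxN : x ∈ N := hCN (mem_centralizer_singleton_self x)
    have hcx : a * b * x = x * (a * b) := mem_centralizer_singleton_iff.mp hc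
    have hbx : b * x = x * b := by
      refine comm_of_compl hσ hxN hxM ha.1 hb ?_
      rw [hcx, mul_inv_cancel_right]
      exact hxM
    have hbC : b ∈ centralizer ({x} : Set G) := mem_centralizer_singleton_iff.mpr hbx
    have haC : a ∈ centralizer ({x} : Set G) := by
      have := (centralizer ({x} : Set G)).mul_mem hc ((centralizer ({x} : Set G)).inv_mem hbC)
      simpa using this
    exact ⟨a, ⟨ha.1, haC⟩, b, ⟨hb, hbC⟩, rfl⟩

/-- The "standard factorization" clause: elements of `N` without `κ`-primes lie in `U N_σ`. -/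
theorem mem_sup_of_not_kappa (hG : IsMinSimpleOddOrder G) {N K U : Subgroup G} (hN : IsCoatom N)
    (hKU : IsSigmaDecomposition N K U) {x : G} (hxN : x ∈ N)
    (hx : ∀ r : ℕ, r.Prime → r ∣ orderOf x → r ∉ kappa N) : x ∈ U ⊔ sigmaCore N := by
  classical
  have huniq := huniq13 hG
  have hσN : sigmaCore N ≤ N := piCoreOf_le _ N
  have hFN : U ⊔ sigmaCore N ≤ N := sup_le hKU.compl.1 hσN
  have hNn : N ≤ normalizer (sigmaCore N : Set G) := le_normalizer_piCoreOf (sigma N) N
  have hFself : U ⊔ sigmaCore N ≤ normalizer ((U ⊔ sigmaCore N : Subgroup G) : Set G) := le_normalizer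
  have hKn : K ≤ normalizer ((U ⊔ sigmaCore N : Subgroup G) : Set G) := by
    intro k hk
    rw [← conj_map_eq_iff_mem_normalizer, Subgroup.map_sup,
      (conj_map_eq_iff_mem_normalizer U k).mpr (hKU.normal hk),
      (conj_map_eq_iff_mem_normalizer (sigmaCore N) k).mpr (hNn (hKU.hall.1 hk))]
  have hn : N ≤ normalizer ((U ⊔ sigmaCore N : Subgroup G) : Set G) := by
    intro n hn
    obtain ⟨u, hu, b, hb, rfl⟩ := hKU.compl.2.2.2 n hn
    refine mul_mem (hFself ((le_sup_left : U ≤ U ⊔ sigmaCore N) hu)) ?_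
    exact (sup_le hKn ((le_sup_right : sigmaCore N ≤ U ⊔ sigmaCore N).trans hFself)) hb
  refine mem_of_coprime_relIndex hn hxN ?_
  have hinf : sigmaCore N ⊓ U = ⊥ := by
    rw [eq_bot_iff]
    rintro u ⟨hu1, hu2⟩
    have h1 : u ∈ U ⊓ (K ⊔ sigmaCore N) := ⟨hu2, (le_sup_right : sigmaCore N ≤ K ⊔ sigmaCore N) hu1⟩
    rwa [hKU.compl.2.2.1] at h1
  have h1 : Nat.card ↥(sigmaCore N ⊔ U) * Nat.card ↥(sigmaCore N ⊓ U) = Nat.card (sigmaCore N) * Nat.card U :=
    card_sup_mul_card_inf (hKU.compl.1.trans hNn)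
  rw [hinf, Subgroup.card_bot, mul_one, sup_comm] at h1
  have h2 := Cfsg.Agent.Lib.Coprime.card_mul_relIndex hFN
  have h3 := card_decomp hG huniq hN hKU
  have h4 : (U ⊔ sigmaCore N).relIndex N = Nat.card K := by
    rw [h1, h3] at h2
    have h5 : Nat.card (sigmaCore N) * Nat.card U * (U ⊔ sigmaCore N).relIndex N =
        Nat.card (sigmaCore N) * Nat.card U * Nat.card K := by
      rw [h2]
      ring
    exact Nat.eq_of_mul_eq_mul_left (Nat.mul_pos Nat.card_pos Nat.card_pos) h5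
  rw [h4]
  exact Nat.coprime_of_dvd fun k hk h5 h6 => hx k hk h6 (hKU.hall.2.1 k hk h5)

/-- The clauses about a standard factorization of `N`. -/
theorem decomp_clause (hG : IsMinSimpleOddOrder G) {N K U : Subgroup G} (hN : IsCoatom N)
    (hKU : IsSigmaDecomposition N K U) {x : G} (hx1 : x ≠ 1) (hxN : x ∈ N)
    (hτ : ∀ p : ℕ, p.Prime → p ∣ orderOf x → p ∈ tau2 N) (hxσ : x ∈ sigmaHat N) :
    U ≠ ⊥ ∧ x ∈ sigmaA N U ∧ x ∉ sigmaCore N := by
  classical
  have huniq := huniq13 hG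
  have hord : orderOf x ≠ 1 := fun h => hx1 (orderOf_eq_one_iff.1 h)
  obtain ⟨q, hq, hqd⟩ := Nat.exists_prime_and_dvd hord
  refine ⟨?_, ⟨hxσ, mem_sup_of_not_kappa hG hN hKU hxN fun r hr hd => not_kappa_of_tau2 (hτ r hr hd)⟩, ?_⟩
  · rintro rfl
    have hqN : q ∣ Nat.card N := hqd.trans (Subgroup.orderOf_dvd_natCard _ hxN)
    rw [card_decomp hG huniq hN hKU, Subgroup.card_bot, one_mul] at hqN
    rcases (Nat.Prime.dvd_mul hq).mp hqN with h | h
    · exact not_kappa_of_tau2 (hτ q hq hqd) (hKU.hall.2.1 q hq h)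
    · exact (hτ q hq hqd).2.1 (piCoreOf_isPi (sigma N) N q hq h)
  · intro hxσ'
    exact (hτ q hq hqd).2.1 (sigma_of_mem_sigmaCore hxσ' hq hqd)

end Cfsg.Agent.Lib.FT
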