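import Cfsg.Agent.Lib.FT.BG19a
import Cfsg.Agent.Lib.FT.BG19b
import Cfsg.Agent.Lib.FT.BG20a

/-!
BG19c: the structure of `M_F` when `M_σ` is not nilpotent; S1355.
-/

set_option autoImplicit false
set_option linter.unusedSectionVars false
set_option linter.style.haveILetI false

namespace Cfsg.Agent.Lib.FT

open Subgroup Cfsg Cfsg.Agent.Lib.OddLocal Cfsg.Agent.Lib.Basic

open Cfsg.Agent.Lib.Coprime (mem_conj_map conj_mem_conj_map conj_map_conj_map conj_map_one
  conj_map_mono mem_normalizer_of_conj_le conj_map_eq_iff_mem_normalizer isPGroup_conj_map)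

variable {G : Type*} [Group G] [Finite G]

/-- `M_F ≤ M_σ`. -/
theorem fittingHallOf_le_sigmaCore (hG : IsMinSimpleOddOrder G) {N : Subgroup G} (hN : IsCoatom N) :
    fittingHallOf N ≤ sigmaCore N := by
  classical
  refine le_piCoreOf (fittingHallOf_le N) (fittingHallOf_normalized N) ?_
  intro p hp hd
  haveI : Fact p.Prime := ⟨hp⟩
  obtain ⟨z, hz⟩ := exists_prime_orderOf_dvd_card' (G := ↥(fittingHallOf N)) p hd
  have hzo : orderOf (z : G) = p := by rw [Subgroup.orderOf_coe, hz]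
  have hzp : IsPGroup p (zpowers (z : G)) := by
    rw [IsPGroup.iff_card, Nat.card_zpowers, hzo]
    exact ⟨1, (pow_one p).symm⟩
  obtain ⟨S, hS, hzS⟩ := exists_isMaxP_ge (zpowers_le.2 z.2) hzp
  have hFN : fittingHallOf N ≤ N := fittingHallOf_le N
  have hFn : N ≤ normalizer (fittingHallOf N : Set G) := fittingHallOf_normalized N
  have hFS : fittingHallOf N ≤ normalizer (S : Set G) :=
    le_normalizer_of_isMaxP_of_nilpotent (fittingHallOf_isNilpotent N) hS
  have hNS : N ≤ normalizer (S : Set G) := by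
    intro h hh
    have hconj : S.map (MulAut.conj h).toMonoidHom ≤ fittingHallOf N := by
      rintro _ ⟨x, hx, rfl⟩
      exact (mem_normalizer_iff.mp (hFn hh) x).mp (hS.le hx)
    obtain ⟨n, hn', hle⟩ := hS.exists_conj_le hconj (isPGroup_conj_map hS.isP h)
    rw [conj_map_conj_map] at hle
    have e3 : S.map (MulAut.conj (n * h)).toMonoidHom = S := by
      apply Subgroup.eq_of_le_of_card_ge hle
      rw [Cfsg.Agent.Lib.Coprime.card_conj_map]
    have h5 := (conj_map_eq_iff_mem_normalizer S (n * h)).mp e3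
    have h6 := hFS hn'
    have e4 : h = n⁻¹ * (n * h) := by group
    rw [e4]
    exact mul_mem (inv_mem h6) h5
  have hS1 : S ≠ ⊥ := by
    rintro rfl
    have h1 : (z : G) ∈ (⊥ : Subgroup G) := hzS (mem_zpowers _)
    rw [mem_bot] at h1
    rw [h1, orderOf_one] at hzo
    exact hp.one_lt.ne hzo
  have hSN : S ≤ N := hS.le.trans hFN
  have hSt : S ≠ ⊤ := fun h => hN.1 (top_le_iff.1 (h ▸ hSN))
  have hNt := IsMinSimpleOddOrder.normalizer_ne_top hG hS1 hSt
  have hNle : normalizer (S : Set G) ≤ N := by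
    by_contra hnot
    have hlt : N < normalizer (S : Set G) := lt_of_le_of_ne hNS fun e => hnot e.ge
    exact hNt (hN.2 _ hlt)
  have hmax : IsMaxP p S N := by
    refine ⟨hSN, hS.isP, fun D' h1 h2 h3 => hS.max D' ?_ h2 h3⟩
    intro d hdD
    refine mem_of_coprime_relIndex hFn (h1 hdD) ?_
    have hc : (fittingHallOf N).relIndex N |>.Coprime p := by
      have := fittingHallOf_coprime_relIndex (M := N)
      exact (Nat.Coprime.coprime_dvd_left hd this).symm
    have hpd : IsPGroup p D' := h2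
    obtain ⟨k, hk⟩ := hpd ⟨d, hdD⟩
    have hk' : d ^ p ^ k = 1 := congrArg Subtype.val hk
    obtain ⟨j, -, hj⟩ := (Nat.dvd_prime_pow hp).1 (orderOf_dvd_of_pow_eq_one hk')
    rw [hj]
    exact Nat.Coprime.pow_right j hc
  have hdN : p ∣ Nat.card N := hd.trans (Subgroup.card_dvd_of_le hFN)
  exact mem_sigma_of_normalizer_le hmax hdN hNle

theorem commutator_lt_of_coatom (hG : IsMinSimpleOddOrder G) {M : Subgroup G} (hM : IsCoatom M) : ⁅M, M⁆ < M := by
  classical
  have hs := coatom_isSolvable hG hM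
  have hne : M ≠ ⊥ := by
    intro h
    have h1 := sigmaCore_ne_bot hG (huniq13 hG) hM
    apply h1
    rw [eq_bot_iff]
    have h2 : sigmaCore M ≤ M := map_subtype_le _
    exact h2.trans h.le
  haveI : Nontrivial ↥M := (Subgroup.nontrivial_iff_ne_bot M).mpr hne
  have h1 := Group.IsSolvable.commutator_lt_top_of_nontrivial ↥M
  refine lt_of_le_of_ne (Subgroup.commutator_le_self M) fun e => h1.ne ?_
  apply Subgroup.map_injective M.subtype_injective
  rw [Subgroup.map_subtype_commutator, e, ← MonoidHom.range_eq_map, Subgroup.range_subtype]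

/-- The image of `Γ'` in `Γ/F` when `Γ = E F` with `E'` nilpotent. -/
theorem nilpotent_map_commutator {Γ : Type*} [Group Γ] (F E : Subgroup Γ) [F.Normal] (hE : E ⊔ F = ⊤)
    (hn : Group.IsNilpotent ↥⁅E, E⁆) : Group.IsNilpotent ↥((commutator Γ).map (QuotientGroup.mk' F)) := by
  classical
  set π := QuotientGroup.mk' F with hπ
  have h1 : (⊤ : Subgroup Γ).map π = E.map π := by
    rw [← hE, Subgroup.map_sup]
    have h2 : F.map π = ⊥ := by
      rw [Subgroup.map_eq_bot_iff, QuotientGroup.ker_mk']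
    rw [h2, sup_bot_eq]
  have h3 : (commutator Γ).map π = (⁅E, E⁆).map π := by
    rw [commutator_def, Subgroup.map_commutator, h1, ← Subgroup.map_commutator]
  rw [h3]
  exact nilpotent_of_surjective (π.subgroupMap ⁅E, E⁆) (π.subgroupMap_surjective _)

/-- In the non-nilpotent situation every prime of `M` lies in `σ ∪ κ`: a complement is a Hall `κ`-subgroup. -/
theorem compl_isPiHallOf_kappa (hG : IsMinSimpleOddOrder G) {M E : Subgroup G} (hM : IsCoatom M)
    (hE : IsComplIn E (sigmaCore M) M) (hn : ¬ Group.IsNilpotent (sigmaCore M)) : IsPiHallOf (kappa M) E M := by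
  classical
  have hH := isPiHallOf_compl hG hM hE
  refine ⟨hE.1, fun t ht hd => ?_, fun t ht hk hd => hH.2.2 t ht hk.2.2.1 hd⟩
  have htσ := compl_prime_not_sigma hG hM hE ht hd
  by_contra htκ
  haveI : Fact t.Prime := ⟨ht⟩
  have htM : t ∣ Nat.card M := hd.trans (Subgroup.card_dvd_of_le hE.1)
  obtain ⟨S⟩ : Nonempty (Sylow t ↥M) := inferInstance
  exact hn (s1429_core hG hM htM (fun h => h.elim htσ htκ) S).2.2

theorem exists_compl_sigma (hG : IsMinSimpleOddOrder G) {M : Subgroup G} (hM : IsCoatom M) :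
    ∃ E : Subgroup G, IsComplIn E (sigmaCore M) M := by
  obtain ⟨E, hE, -⟩ := exists_compl_sigma_ge (Y := ⊥) hG hM bot_le (fun r hr hd => by
    simp at hd
    exact absurd hd hr.one_lt.ne')
  exact ⟨E, hE⟩

/-- The normal Sylow subgroup when `U = 1`, inside `↥M`. -/
theorem exists_normal_sylow_of_U_bot (hB : ThmB G) (hG : IsMinSimpleOddOrder G) {M K U : Subgroup G} (hM : IsCoatom M)
    (hKU : IsSigmaDecomposition M K U) (hK1 : K ≠ ⊥) (hU : U = ⊥)
    (hq : (Nat.card ↥(sigmaCore M ⊓ centralizer (K : Set G))).Prime) :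
    ∃ S D : Subgroup ↥M, S.Normal ∧ IsPGroup (Nat.card ↥(sigmaCore M ⊓ centralizer (K : Set G))) S ∧
      IsComplIn S D (piCore (sigma M) ↥M) ∧ ¬ Nat.card ↥(sigmaCore M ⊓ centralizer (K : Set G)) ∣ S.relIndex (piCore (sigma M) ↥M) ∧
      Group.IsNilpotent D ∧ (∀ k : ↥M, (k : G) ∈ K → k ≠ 1 → D ⊓ centralizer ({k} : Set ↥M) = ⊥) ∧
      (∀ y : ↥M, (y : G) ∈ sigmaCore M ⊓ centralizer (K : Set G) → y ∈ S) ∧
      (Nat.card D).Coprime (Nat.card ↥(sigmaCore M ⊓ centralizer (K : Set G))) := by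
  classical
  set Kst : Subgroup G := sigmaCore M ⊓ centralizer (K : Set G) with hKst
  set q := Nat.card Kst with hqdef
  haveI : Fact q.Prime := ⟨hq⟩
  have hKH := hKU.hall
  have hKM : K ≤ M := hKH.1
  obtain ⟨k₀, hk₀, hk₀1⟩ : ∃ k ∈ K, k ≠ 1 := by
    obtain ⟨k, hk⟩ := (Subgroup.ne_bot_iff_exists_ne_one).mp hK1
    exact ⟨k, k.2, fun e => hk (Subtype.ext e)⟩
  have ho1 : orderOf k₀ ≠ 1 := fun h => hk₀1 (orderOf_eq_one_iff.1 h)
  obtain ⟨p, hp, hpd⟩ := Nat.exists_prime_and_dvd ho1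
  obtain ⟨x, hxz, hxo⟩ := exists_mem_zpowers_orderOf hpd
  have hxK : x ∈ K := (zpowers_le.mpr hk₀) hxz
  have hx1 : x ≠ 1 := by
    rintro rfl
    rw [orderOf_one] at hxo
    exact hp.one_lt.ne hxo
  have hxp : x ^ p = 1 := by
    rw [← hxo]
    exact pow_orderOf_eq_one x
  let xb : ↥M := ⟨x, hKM hxK⟩
  set N₀ : Subgroup ↥M := piCore (sigma M) ↥M with hN₀
  have hσ : N₀.map M.subtype = sigmaCore M := rfl
  have hmemσ : ∀ y : ↥M, (y : G) ∈ sigmaCore M → y ∈ N₀ := by
    intro y hy
    obtain ⟨a, ha, e⟩ := hy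
    have e' : a = y := Subtype.ext e
    rwa [← e']
  have hmap : (N₀ ⊓ centralizer ({xb} : Set ↥M)).map M.subtype = sigmaCore M ⊓ centralizer ({x} : Set G) := by
    ext a
    constructor
    · rintro ⟨b, hb, rfl⟩
      refine Subgroup.mem_inf.mpr ⟨⟨b, hb.1, rfl⟩, ?_⟩
      rw [mem_centralizer_singleton_iff]
      have h2 : b * xb = xb * b := mem_centralizer_singleton_iff.1 hb.2
      exact congrArg Subtype.val h2
    · intro ha
      obtain ⟨ha1, ha2⟩ := Subgroup.mem_inf.mp ha
      obtain ⟨b, hb, rfl⟩ := ha1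
      refine ⟨b, Subgroup.mem_inf.mpr ⟨hb, ?_⟩, rfl⟩
      rw [mem_centralizer_singleton_iff]
      rw [mem_centralizer_singleton_iff] at ha2
      exact Subtype.ext ha2
  have hYeq : sigmaCore M ⊓ centralizer ({x} : Set G) = Kst := kappa_prime_action hB hG hM hKH hxK hx1
  have hcardY : Nat.card ↥(N₀ ⊓ centralizer ({xb} : Set ↥M)) = q := by
    rw [← card_map_subtype, hmap, hYeq]
  have hYp : IsPGroup q ↥(N₀ ⊓ centralizer ({xb} : Set ↥M)) := IsPGroup.of_card (n := 1) (by simpa using hcardY)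
  have hYc : ∀ a ∈ N₀ ⊓ centralizer ({xb} : Set ↥M), ∀ b ∈ N₀ ⊓ centralizer ({xb} : Set ↥M), a * b = b * a := by
    intro a ha b hb
    haveI : IsCyclic ↥(N₀ ⊓ centralizer ({xb} : Set ↥M)) := isCyclic_of_prime_card hcardY
    letI := IsCyclic.commGroup (α := ↥(N₀ ⊓ centralizer ({xb} : Set ↥M)))
    have h2 := mul_comm (⟨a, ha⟩ : ↥(N₀ ⊓ centralizer ({xb} : Set ↥M))) ⟨b, hb⟩
    exact congrArg Subtype.val h2
  obtain ⟨h1365a, h1365b⟩ := s1365_core hB hG hM hKU hK1
  have hYN : N₀ ⊓ centralizer ({xb} : Set ↥M) ≤ ⁅N₀, N₀⁆ := by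
    apply (Subgroup.map_le_map_iff_of_injective M.subtype_injective).mp
    rw [hmap, Subgroup.map_commutator, hσ, hYeq]
    rw [hU, bot_sup_eq] at h1365a
    rw [h1365a] at h1365b
    exact h1365b
  have hpl : PLengthLE q 1 ↥N₀ := Cfsg.Agent.Lib.Coprime.PLen.pLength_subgroup N₀ (hpl13 hG q M hM.1)
  have hNs : Group.IsSolvable ↥N₀ := by
    haveI := coatom_isSolvable hG hM
    infer_instance
  have hpσ : p ∉ sigma M := by
    have h2 : p ∣ Nat.card K := by
      rw [← hxo]
      exact Subgroup.orderOf_dvd_natCard K hxK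
    exact (hKH.2.1 p hp h2).2.2.1
  have hpN : ¬ p ∣ Nat.card ↥N₀ := by
    intro h
    rw [← card_map_subtype, hσ] at h
    exact hpσ (piCoreOf_isPi (sigma M) M p hp h)
  have hqσ : q ∈ sigma M := by
    have h2 : q ∣ Nat.card (sigmaCore M) := Subgroup.card_dvd_of_le inf_le_left
    exact piCoreOf_isPi (sigma M) M q hq h2
  have hpq : p ≠ q := fun e => hpσ (e ▸ hqσ)
  have hq2 : q ≠ 2 := by
    have h2 : Odd q := subgroup_odd hG Kst
    rintro e
    rw [e] at h2
    exact absurd h2 (by decide)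
  obtain ⟨S, D, hSn, hSp, hDc, hcompl, hSi, hDnil, hxD, hDfix, hYS⟩ := normal_sylow_of_fix (N := N₀) inferInstance hNs (x := xb)
    hp (Subtype.ext (by simpa [xb] using hxp)) hpN hpq hq2 hYp hYc hYN hpl
  refine ⟨S, D, hSn, hSp, hcompl, hSi, hDnil, ?_, ?_, hDc⟩
  · intro k hk hk1
    rw [eq_bot_iff]
    intro d hd
    have hdD := hd.1
    have hdσ : (d : G) ∈ sigmaCore M ⊓ centralizer ({(k : G)} : Set G) := by
      refine Subgroup.mem_inf.mpr ⟨⟨d, hcompl.2.1 hdD, rfl⟩, ?_⟩
      rw [mem_centralizer_singleton_iff]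
      have h2 : d * k = k * d := mem_centralizer_singleton_iff.1 hd.2
      exact congrArg Subtype.val h2
    have hYeq' : sigmaCore M ⊓ centralizer ({x} : Set G) = sigmaCore M ⊓ centralizer (K : Set G) := hYeq
    rw [kappa_prime_action hB hG hM hKH hk (fun e => hk1 (Subtype.ext e)), ← hYeq', ← hmap] at hdσ
    obtain ⟨b, hb, e⟩ := hdσ
    have e' : b = d := Subtype.ext e
    rw [e'] at hb
    have h3 : d ∈ S ⊓ D := Subgroup.mem_inf.mpr ⟨hYS hb, hdD⟩
    rw [hcompl.2.2.1] at h3
    exact h3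
  · intro y hy
    apply hYS
    have hy' : (y : G) ∈ (N₀ ⊓ centralizer ({xb} : Set ↥M)).map M.subtype := by
      rw [hmap, hYeq]
      exact hy
    obtain ⟨b, hb, e⟩ := hy'
    have e' : b = y := Subtype.ext e
    rwa [← e']

/-- The non-nilpotent case of S1355, in `↥M`. -/
theorem fittingHall_of_U_bot (hB : ThmB G) (hG : IsMinSimpleOddOrder G) {M K U : Subgroup G} (hM : IsCoatom M)
    (hKU : IsSigmaDecomposition M K U) (hK1 : K ≠ ⊥) (hU : U = ⊥)
    (hq : (Nat.card ↥(sigmaCore M ⊓ centralizer (K : Set G))).Prime) :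
    sigmaCore M ⊓ centralizer (K : Set G) ≤ fittingHallOf M ∧
      Group.IsNilpotent ↥((commutator ↥M).map (QuotientGroup.mk' (fittingHall ↥M))) := by
  classical
  obtain ⟨S, D, hSn, hSp, hcompl, hSi, hDnil, -, hYS, -⟩ := exists_normal_sylow_of_U_bot hB hG hM hKU hK1 hU hq
  set q := Nat.card ↥(sigmaCore M ⊓ centralizer (K : Set G)) with hqdef
  haveI : Fact q.Prime := ⟨hq⟩
  set N₀ : Subgroup ↥M := piCore (sigma M) ↥M with hN₀
  have hσ : N₀.map M.subtype = sigmaCore M := rfl
  have huniq := huniq13 hG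
  obtain ⟨hH1, hH2, hH3⟩ := (s1350_core hG huniq hM).1
  have hqσ : q ∈ sigma M := by
    have h2 : q ∣ Nat.card (sigmaCore M) := Subgroup.card_dvd_of_le inf_le_left
    exact piCoreOf_isPi (sigma M) M q hq h2
  -- `S ≤ M_F`
  have hSF : S ≤ fittingHall ↥M := by
    refine le_fittingHall hSn (hSp.isNilpotent) ?_
    obtain ⟨k, hk⟩ := IsPGroup.iff_card.mp hSp
    rw [hk]
    refine Nat.Coprime.pow_left k ((Nat.Prime.coprime_iff_not_dvd hq).mpr ?_)
    have h1 : S.index = S.relIndex N₀ * N₀.index := (Subgroup.relIndex_mul_index hcompl.1).symm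
    rw [h1]
    intro hd
    rcases (Nat.Prime.dvd_mul hq).mp hd with h | h
    · exact hSi h
    · have h2 : N₀.index = (sigmaCore M).relIndex M := by
        have h3 : Nat.card (sigmaCore M) * (sigmaCore M).relIndex M = Nat.card M :=
          Cfsg.Agent.Lib.Coprime.card_mul_relIndex hH1
        have h4 := N₀.card_mul_index
        rw [← hσ, card_map_subtype] at h3
        rw [← h3] at h4
        exact Nat.eq_of_mul_eq_mul_left Nat.card_pos h4
      rw [h2] at h
      exact hH3 q hq hqσ h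
  refine ⟨?_, ?_⟩
  · intro y hy
    have hyM : y ∈ M := hH1 hy.1
    exact ⟨⟨y, hyM⟩, hSF (hYS ⟨y, hyM⟩ hy), rfl⟩
  · -- `M' = M_σ`
    have hcomm : commutator ↥M = N₀ := by
      apply Subgroup.map_injective M.subtype_injective
      rw [Subgroup.map_subtype_commutator, hσ, (s1365_core hB hG hM hKU hK1).1, hU, bot_sup_eq]
    rw [hcomm]
    set π := QuotientGroup.mk' (fittingHall ↥M) with hπ
    have hle : N₀.map π ≤ D.map π := by
      rintro _ ⟨n, hn, rfl⟩
      obtain ⟨a, ha, b, hb, rfl⟩ := hcompl.2.2.2 n hn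
      refine ⟨b, hb, ?_⟩
      have ha1 : π a = 1 := (QuotientGroup.eq_one_iff a).mpr (hSF ha)
      rw [map_mul, ha1, one_mul]
    have hDim : Group.IsNilpotent ↥(D.map π) := by
      haveI := hDnil
      exact nilpotent_of_surjective (π.subgroupMap D) (π.subgroupMap_surjective _)
    haveI := hDim
    have h3 : Group.IsNilpotent ↥((N₀.map π).subgroupOf (D.map π)) := inferInstance
    have h4 := isNilpotent_map_subtype h3
    rwa [Subgroup.map_subgroupOf_eq_of_le hle] at h4

/-- **S1355** with the hypotheses on Hall `κ`-subgroups. -/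
theorem s1355_core (hB : ThmB G) (hG : IsMinSimpleOddOrder G) {M : Subgroup G} (hM : IsCoatom M)
    (h1351 : ∀ K : Subgroup G, IsPiHallOf (kappa M) K M → IsCyclic K)
    (h1373 : ∀ K U : Subgroup G, IsSigmaDecomposition M K U → K ≠ ⊥ → U = ⊥ →
      (Nat.card ↥(sigmaCore M ⊓ centralizer (K : Set G))).Prime) :
    fittingHallOf M ≠ ⊥ ∧ fittingHallOf M ≤ sigmaCore M ∧ sigmaCore M ≤ ⁅M, M⁆ ∧ ⁅M, M⁆ < M ∧
      Group.IsNilpotent ↥((commutator ↥M).map (QuotientGroup.mk' (fittingHall ↥M))) := by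
  classical
  have huniq := huniq13 hG
  have hle := fittingHallOf_le_sigmaCore hG hM
  have hlt := commutator_lt_of_coatom hG hM
  have hσc := sigmaCore_le_commutator hG huniq hM
  obtain ⟨E, hE⟩ := exists_compl_sigma hG hM
  have hFH : fittingHall ↥M ≠ ⊥ → fittingHallOf M ≠ ⊥ := by
    intro h e
    apply h
    exact (Subgroup.map_eq_bot_iff_of_injective _ M.subtype_injective).mp e
  by_cases hn : Group.IsNilpotent (sigmaCore M)
  · have e := sigmaCore_eq_fittingHallOf hG hM hn
    refine ⟨?_, hle, hσc, hlt, ?_⟩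
    · rw [← e]
      exact sigmaCore_ne_bot hG huniq hM
    · -- the nilpotent image
      have hFσ : fittingHall ↥M = piCore (sigma M) ↥M :=
        (Subgroup.map_injective M.subtype_injective e).symm
      haveI : (fittingHall ↥M).Normal := inferInstance
      refine nilpotent_map_commutator (fittingHall ↥M) (E.subgroupOf M) ?_ ?_
      · rw [eq_top_iff]
        intro m _
        obtain ⟨a, ha, b, hb, e'⟩ := hE.2.2.2 m m.2
        obtain ⟨b', hb', rfl⟩ := hb
        have h3 : m = (⟨a, hE.1 ha⟩ : ↥M) * b' := Subtype.ext e'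
        rw [h3]
        refine Subgroup.mul_mem_sup ?_ ?_
        · exact ha
        · rw [hFσ]
          exact hb'
      · apply isNilpotent_of_map_subtype
        rw [Subgroup.map_commutator, Subgroup.map_subgroupOf_eq_of_le hE.1]
        exact (s1415_core hG huniq hM E hE).1
  · have hKH := compl_isPiHallOf_kappa hG hM hE hn
    have hKc := h1351 E hKH
    have hE1 : E ≠ ⊥ := by
      rintro rfl
      have h1 : M ≤ sigmaCore M := by
        intro m hm
        obtain ⟨a, ha, b, hb, rfl⟩ := hE.2.2.2 m hm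
        rw [mem_bot] at ha
        rw [ha, one_mul]
        exact hb
      exact absurd (h1.trans hσc) (not_le_of_gt hlt)
    have hKU : IsSigmaDecomposition M E ⊥ := by
      refine ⟨hKc, hKH, ⟨bot_le, sup_le hE.1 hE.2.1, bot_inf_eq _, fun m hm => ?_⟩, fun g _ => ?_⟩
      · obtain ⟨a, ha, b, hb, rfl⟩ := hE.2.2.2 m hm
        exact ⟨1, one_mem _, a * b, Subgroup.mul_mem_sup ha hb, by simp⟩
      · rw [mem_normalizer_iff]
        intro h
        simp only [SetLike.mem_coe, mem_bot]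
        constructor
        · rintro rfl
          simp
        · intro h'
          simpa using h'
    have hq := h1373 E ⊥ hKU hE1 rfl
    obtain ⟨h1, h2⟩ := fittingHall_of_U_bot hB hG hM hKU hE1 rfl hq
    refine ⟨?_, hle, hσc, hlt, h2⟩
    · intro e
      rw [e] at h1
      have h3 := le_bot_iff.mp h1
      rw [h3] at hq
      simp at hq
      exact Nat.not_prime_one hq

end Cfsg.Agent.Lib.FT
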