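import Cfsg.Agent.Lib.FT.BG19c
import Cfsg.Agent.Lib.Coprime.Omega1

/-!
BG19d: S1364, `M_F` is not cyclic, `K^* ≤ M_F`.
-/

set_option autoImplicit false
set_option linter.unusedSectionVars false
set_option linter.style.haveILetI false

namespace Cfsg.Agent.Lib.FT

open Subgroup Cfsg Cfsg.Agent.Lib.OddLocal Cfsg.Agent.Lib.Basic

open Cfsg.Agent.Lib.Coprime (mem_conj_map conj_mem_conj_map conj_map_conj_map conj_map_one
  conj_map_mono mem_normalizer_of_conj_le conj_map_eq_iff_mem_normalizer isPGroup_conj_map)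

variable {G : Type*} [Group G] [Finite G] {M K U : Subgroup G}

/-- `U = 1` when `M_σ` is not nilpotent. -/
theorem U_eq_bot_of_not_nilpotent (hG : IsMinSimpleOddOrder G) (hM : IsCoatom M) (hKU : IsSigmaDecomposition M K U)
    (hn : ¬ Group.IsNilpotent (sigmaCore M)) : U = ⊥ := by
  classical
  by_contra hU
  have huniq := huniq13 hG
  have h1 : Nat.card U ≠ 1 := fun h => hU ((Subgroup.eq_bot_iff_card _).mpr h)
  obtain ⟨t, ht, htd⟩ := Nat.exists_prime_and_dvd h1
  haveI : Fact t.Prime := ⟨ht⟩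
  have htσ := not_sigma_of_dvd_U hG huniq hM hKU ht htd
  have htκ := not_kappa_of_dvd_U hG huniq hM hKU ht htd
  have htM : t ∣ Nat.card M := htd.trans (Subgroup.card_dvd_of_le hKU.compl.1)
  obtain ⟨S⟩ : Nonempty (Sylow t ↥M) := inferInstance
  exact hn (s1429_core hG hM htM (fun h => h.elim htσ htκ) S).2.2

/-- `K^* ≤ M_F`. -/
theorem Kstar_le_fittingHallOf (hB : ThmB G) (hG : IsMinSimpleOddOrder G) (hM : IsCoatom M) (hKU : IsSigmaDecomposition M K U)
    (hK1 : K ≠ ⊥) (h1373 : U = ⊥ → (Nat.card ↥(sigmaCore M ⊓ centralizer (K : Set G))).Prime) :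
    sigmaCore M ⊓ centralizer (K : Set G) ≤ fittingHallOf M := by
  by_cases hn : Group.IsNilpotent (sigmaCore M)
  · rw [← sigmaCore_eq_fittingHallOf hG hM hn]
    exact inf_le_left
  · have hU := U_eq_bot_of_not_nilpotent hG hM hKU hn
    exact (fittingHall_of_U_bot hB hG hM hKU hK1 hU (h1373 hU)).1

/-- **`M_F` is not cyclic**. -/
theorem fittingHallOf_not_cyclic (hB : ThmB G) (hG : IsMinSimpleOddOrder G) (hM : IsCoatom M) (hKU : IsSigmaDecomposition M K U)
    (hK1 : K ≠ ⊥) (hle : sigmaCore M ⊓ centralizer (K : Set G) ≤ fittingHallOf M) : ¬ IsCyclic (fittingHallOf M) := by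
  classical
  intro hc
  have huniq := huniq13 hG
  obtain ⟨h1, -⟩ := s1354_core hB hG hM hKU.cyclic hKU.hall
  set Kst : Subgroup G := sigmaCore M ⊓ centralizer (K : Set G) with hKst
  set F : Subgroup G := fittingHallOf M with hF
  have hFnil : Group.IsNilpotent F := fittingHallOf_isNilpotent M
  have hFM : F ≤ M := fittingHallOf_le M
  have hMF : M ≤ normalizer (F : Set G) := fittingHallOf_normalized M
  have h2 : Nat.card Kst ≠ 1 := fun h => h1 ((Subgroup.eq_bot_iff_card _).mpr h)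
  obtain ⟨q, hq, hqd⟩ := Nat.exists_prime_and_dvd h2
  haveI : Fact q.Prime := ⟨hq⟩
  obtain ⟨z, hz⟩ := exists_prime_orderOf_dvd_card' (G := ↥Kst) q hqd
  have hzo : orderOf (z : G) = q := by rw [Subgroup.orderOf_coe, hz]
  have hzF : (z : G) ∈ F := hle z.2
  have hqσ : q ∈ sigma M := piCoreOf_isPi (sigma M) M q hq (hqd.trans (Subgroup.card_dvd_of_le inf_le_left))
  set Q : Subgroup G := Oq q F with hQ
  have hQF : Q ≤ F := Oq_le q F
  have hQp : IsPGroup q Q := Oq_isPGroup q F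
  have hzQ : (z : G) ∈ Q := mem_Oq hFnil hzF (k := 1) (by
    rw [pow_one, ← hzo]
    exact pow_orderOf_eq_one _)
  have hz1 : (z : G) ≠ 1 := by
    intro e
    rw [e, orderOf_one] at hzo
    exact hq.one_lt.ne hzo
  have hQ1 : Q ≠ ⊥ := fun e => hz1 (by
    have h3 := hzQ
    rw [e] at h3
    exact h3)
  have hMQ : M ≤ normalizer (Q : Set G) := fun m hm => mem_normalizer_Oq hFnil (hMF hm)
  have hQc : IsCyclic Q := isCyclic_of_injective (Subgroup.inclusion hQF) (Subgroup.inclusion_injective hQF)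
  -- `M' ≤ C(Q)`
  have hM' : ⁅M, M⁆ ≤ centralizer (Q : Set G) := by
    rw [commutator_le]
    intro a ha b hb
    exact commutator_mem_centralizer_of_cyclic hQc (hMQ ha) (hMQ hb)
  -- `K ≤ C(Q)`
  have hKM : K ≤ M := hKU.hall.1
  have hKq : (Nat.card K).Coprime q := by
    refine ((Nat.Prime.coprime_iff_not_dvd hq).mpr fun hd => ?_).symm
    exact (hKU.hall.2.1 q hq hd).2.2.1 hqσ
  have hq2 : q ≠ 2 := by
    have h3 : Odd q := Odd.of_dvd_nat (subgroup_odd hG Kst) hqd
    rintro e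
    rw [e] at h3
    exact absurd h3 (by decide)
  have hKQ : K ≤ centralizer (Q : Set G) := by
    refine Cfsg.Agent.Lib.Coprime.Omega1.omega_trivial hq2 K Q hKq hQp (hKM.trans hMQ) ?_
    intro y hy hyo a ha
    have h3 : zpowers y = zpowers (z : G) := by
      refine eq_of_card_eq_of_le_isCyclic hQc (zpowers_le.mpr hy) (zpowers_le.mpr hzQ) ?_
      rw [Nat.card_zpowers, Nat.card_zpowers, hyo, hzo]
    have h4 : y ∈ zpowers (z : G) := h3 ▸ mem_zpowers y
    have h5 : y ∈ Kst := (zpowers_le.mpr z.2) h4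
    have h6 := mem_centralizer_iff.mp h5.2 a ha
    exact h6
  -- so `M ≤ C(Q)`
  have hMC : M ≤ centralizer (Q : Set G) := by
    have e := (s1365_core hB hG hM hKU hK1).1
    intro m hm
    obtain ⟨u, hu, b, hb, rfl⟩ := hKU.compl.2.2.2 m hm
    refine mul_mem (hM' ?_) ((sup_le hKQ (?_ : sigmaCore M ≤ centralizer (Q : Set G))) hb)
    · rw [e]
      exact Subgroup.mem_sup_left hu
    · refine le_trans ?_ hM'
      rw [e]
      exact le_sup_right
  -- `Q` is a Sylow subgroup of `G`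
  have hQmaxM : IsMaxP q Q M := by
    refine ⟨hQF.trans hFM, hQp, fun D' h3 h4 h5 => le_antisymm ?_ h5⟩
    intro d hd
    obtain ⟨k, hk⟩ := h4 ⟨d, hd⟩
    have hk' : d ^ q ^ k = 1 := congrArg Subtype.val hk
    refine mem_Oq hFnil ?_ hk'
    refine mem_of_coprime_relIndex hMF (h3 hd) ?_
    obtain ⟨j, -, hj⟩ := (Nat.dvd_prime_pow hq).1 (orderOf_dvd_of_pow_eq_one hk')
    rw [hj]
    refine Nat.Coprime.pow_right j ?_
    have h6 : (Nat.card F).Coprime (F.relIndex M) := fittingHallOf_coprime_relIndex (M := M)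
    have h7 : q ∣ Nat.card F := by
      rw [← hzo]
      exact Subgroup.orderOf_dvd_natCard F hzF
    exact (Nat.Coprime.coprime_dvd_left h7 h6).symm
  have hQmax := IsMaxP.top_of_sigma hqσ hQmaxM
  have hQt : Q ≠ ⊤ := fun e => hM.1 (top_le_iff.mp (e ▸ (hQF.trans hFM)))
  have hNt := IsMinSimpleOddOrder.normalizer_ne_top hG hQ1 hQt
  have hNle : normalizer (Q : Set G) ≤ M := by
    by_contra hnot
    have hlt : M < normalizer (Q : Set G) := lt_of_le_of_ne hMQ fun e => hnot e.ge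
    exact hNt (hM.2 _ hlt)
  exact not_normalizer_le_centralizer hG hQmax hQ1 hQt (hNle.trans hMC)

/-- **S1364**, with the cyclicity of `K^*` and the order of `K^*` (when `U = 1`) as hypotheses. -/
theorem s1364_core (hB : ThmB G) (hG : IsMinSimpleOddOrder G) (hM : IsCoatom M) (hKU : IsSigmaDecomposition M K U)
    (hK1 : K ≠ ⊥) (hc : IsCyclic ↥(sigmaCore M ⊓ centralizer (K : Set G)))
    (h1373 : U = ⊥ → (Nat.card ↥(sigmaCore M ⊓ centralizer (K : Set G))).Prime) :
    IsCyclic ↥(sigmaCore M ⊓ centralizer (K : Set G)) ∧ (sigmaCore M ⊓ centralizer (K : Set G)) ≠ ⊥ ∧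
      (sigmaCore M ⊓ centralizer (K : Set G)) ≤ fittingHallOf M ∧ ¬ IsCyclic (fittingHallOf M) := by
  have hle := Kstar_le_fittingHallOf hB hG hM hKU hK1 h1373
  exact ⟨hc, (s1354_core hB hG hM hKU.cyclic hKU.hall).1, hle, fittingHallOf_not_cyclic hB hG hM hKU hK1 hle⟩

end Cfsg.Agent.Lib.FT
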