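import Cfsg.Agent.Lib.FT.FrobFix

/-! # Frobenius groups with complement of prime order acting with small fixed points. -/

set_option autoImplicit false

namespace Cfsg.Agent.Lib.FT

open Module

section Closed

variable {K V F : Type*} [Field K] [AddCommGroup V] [Module K V] [Group F] [Finite F] {ρ : F →* End K V}

/-- In dimension `p = |E|`, a nilpotent Frobenius kernel without fixed vectors acts through an abelian group. -/
theorem abelian_of_finrank_prime_closed [IsAlgClosed K] [FiniteDimensional K V] (U E : Subgroup F)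
    (hU : Group.IsNilpotent ↥U)
    (hEU : ∀ e ∈ E, ∀ n ∈ U, e * n * e⁻¹ ∈ U) (hfpf : ∀ e ∈ E, e ≠ 1 → ∀ n ∈ U, e * n = n * e → n = 1)
    (hK : (Nat.card U : K) ≠ 0) (hKE : (Nat.card E : K) ≠ 0)
    (hp : (Nat.card E).Prime) (hdim : finrank K V = Nat.card E) (hfix : fx ρ U = ⊥) :
    ∀ a ∈ U, ∀ b ∈ U, ρ a * ρ b = ρ b * ρ a := by
  classical
  -- the elements of `U` acting centrally
  let D : Subgroup F :=
    { carrier := {u | u ∈ U ∧ ∀ g ∈ U, ρ u * ρ g = ρ g * ρ u}
      mul_mem' := fun {a b} ha hb => ⟨U.mul_mem ha.1 hb.1, fun g hg => by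
        rw [map_mul, mul_assoc, hb.2 g hg, ← mul_assoc, ha.2 g hg, mul_assoc]⟩
      one_mem' := ⟨U.one_mem, fun g _ => by simp⟩
      inv_mem' := fun {a} ha => ⟨U.inv_mem ha.1, fun g hg => by
        have h1 := ha.2 g hg
        have h2 : ρ a⁻¹ * ρ a = 1 := by rw [← map_mul, inv_mul_cancel, map_one]
        have h3 : ρ a * ρ a⁻¹ = 1 := by rw [← map_mul, mul_inv_cancel, map_one]
        calc ρ a⁻¹ * ρ g = ρ a⁻¹ * ρ g * (ρ a * ρ a⁻¹) := by rw [h3, mul_one]
          _ = ρ a⁻¹ * (ρ g * ρ a) * ρ a⁻¹ := by simp only [mul_assoc]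
          _ = ρ a⁻¹ * (ρ a * ρ g) * ρ a⁻¹ := by rw [h1]
          _ = (ρ a⁻¹ * ρ a) * ρ g * ρ a⁻¹ := by simp only [mul_assoc]
          _ = ρ g * ρ a⁻¹ := by rw [h2, one_mul]⟩ }
  have hDU : D ≤ U := fun _ h => h.1
  have hDE : ∀ e ∈ E, ∀ n ∈ D, e * n * e⁻¹ ∈ D := by
    intro e he n hn
    refine ⟨hEU e he n hn.1, fun g hg => ?_⟩
    have hg' : e⁻¹ * g * e ∈ U := by
      have := hEU e⁻¹ (E.inv_mem he) g hg
      simpa using this
    calc ρ (e * n * e⁻¹) * ρ g = ρ e * (ρ n * ρ (e⁻¹ * g * e)) * ρ e⁻¹ := by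
          rw [← map_mul, ← map_mul, ← map_mul, ← map_mul]
          congr 1
          group
      _ = ρ e * (ρ (e⁻¹ * g * e) * ρ n) * ρ e⁻¹ := by rw [hn.2 _ hg']
      _ = ρ g * ρ (e * n * e⁻¹) := by
          rw [← map_mul, ← map_mul, ← map_mul, ← map_mul]
          congr 1
          group
  -- `D` acts nontrivially
  have hpos : 0 < finrank K V := by
    rw [hdim]
    exact hp.pos
  have hex : ∃ a ∈ D, ρ a ≠ 1 := by
    let f : ↥U →* End K V := ρ.comp U.subtype
    let I : Subgroup ↥U := f.ker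
    haveI : I.Normal := MonoidHom.normal_ker f
    have hI : I ≠ ⊤ := by
      intro hI
      have h1 : fx ρ U = ⊤ := by
        ext v
        simp only [mem_fx, Submodule.mem_top, iff_true]
        intro y hy
        have h2 : (⟨y, hy⟩ : ↥U) ∈ I := by
          rw [hI]
          trivial
        have h3 : f ⟨y, hy⟩ = 1 := h2
        have h4 : ρ y = 1 := h3
        rw [h4, Module.End.one_apply]
      rw [hfix] at h1
      have h2 := finrank_top K V
      rw [← h1, finrank_bot] at h2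
      omega
    haveI : Nontrivial (↥U ⧸ I) := by
      by_contra hcon
      rw [not_nontrivial_iff_subsingleton] at hcon
      exact hI (QuotientGroup.subgroup_eq_top_of_subsingleton I hcon)
    haveI := hU
    have hc := Group.IsNilpotent.center_ne_bot (G := ↥U ⧸ I)
    obtain ⟨z, hz⟩ := Subgroup.ne_bot_iff_exists_ne_one.mp hc
    obtain ⟨u, hu⟩ := QuotientGroup.mk_surjective (z : ↥U ⧸ I)
    have hu1 : ρ u ≠ 1 := by
      intro h
      apply hz
      apply Subtype.ext
      rw [← hu]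
      change ((u : ↥U) : ↥U ⧸ I) = 1
      rw [QuotientGroup.eq_one_iff]
      exact h
    refine ⟨u, ⟨u.2, fun g hg => ?_⟩, hu1⟩
    have h2 : (z : ↥U ⧸ I) * ((⟨g, hg⟩ : ↥U) : ↥U ⧸ I) = ((⟨g, hg⟩ : ↥U) : ↥U ⧸ I) * z :=
      (Subgroup.mem_center_iff.mp z.2 _).symm
    rw [← hu, ← QuotientGroup.mk_mul, ← QuotientGroup.mk_mul, QuotientGroup.eq] at h2
    have h3 : f ((u * ⟨g, hg⟩)⁻¹ * (⟨g, hg⟩ * u)) = 1 := h2
    have h4 : f (⟨g, hg⟩ * u) = f (u * ⟨g, hg⟩) := by
      have h5 : (⟨g, hg⟩ * u : ↥U) = (u * ⟨g, hg⟩) * ((u * ⟨g, hg⟩)⁻¹ * (⟨g, hg⟩ * u)) := by group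
      rw [h5, map_mul f (u * ⟨g, hg⟩), h3, mul_one]
    simp only [f, MonoidHom.comp_apply, map_mul, Subgroup.subtype_apply] at h4
    exact h4.symm
  obtain ⟨a₀, ha₀, ha₀1⟩ := hex
  -- the commutators of `D` act trivially
  have hc0 : ∀ y ∈ ⁅D, D⁆, ρ y = 1 := by
    have h1 : ⁅D, D⁆ ≤ ρ.ker := by
      rw [Subgroup.commutator_le]
      intro a ha b hb
      rw [MonoidHom.mem_ker, commutatorElement_def, map_mul, map_mul, map_mul, ha.2 b hb.1]
      have h2 : ρ a * ρ a⁻¹ = 1 := by rw [← map_mul, mul_inv_cancel, map_one]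
      have h3 : ρ b * ρ b⁻¹ = 1 := by rw [← map_mul, mul_inv_cancel, map_one]
      calc ρ b * ρ a * ρ a⁻¹ * ρ b⁻¹ = ρ b * (ρ a * ρ a⁻¹) * ρ b⁻¹ := by simp only [mul_assoc]
        _ = 1 := by rw [h2, mul_one, h3]
    exact fun y hy => h1 hy
  have hfx0 : fx ρ ⁅D, D⁆ = ⊤ := by
    ext v
    simp only [mem_fx, Submodule.mem_top, iff_true]
    intro y hy
    rw [hc0 y hy, Module.End.one_apply]
  have hKD : (Nat.card D : K) ≠ 0 := card_cast_ne_zero_of_le hDU hK
  have hDD : ⁅D, D⁆ ≤ D := derSeq_le_self D 0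
  have hstep := fx_step (ρ := ρ) E ⁅D, D⁆ D hDD
    (by
      intro e he n hn
      have h1 : (⁅D, D⁆).map (MulAut.conj e).toMonoidHom ≤ ⁅D, D⁆ := by
        rw [Subgroup.map_commutator]
        apply Subgroup.commutator_mono <;>
        · rintro _ ⟨x, hx, rfl⟩
          exact hDE e he x hx
      exact h1 ⟨n, hn, rfl⟩)
    hDE
    (by
      intro n hn m hm
      have h1 : n * m * n⁻¹ = (n * m * n⁻¹ * m⁻¹) * m := by group
      rw [h1]
      have h2 : n * m * n⁻¹ * m⁻¹ ∈ ⁅D, D⁆ := by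
        have := Subgroup.commutator_mem_commutator hn (hDD hm)
        simpa [commutatorElement_def] using this
      exact Subgroup.mul_mem _ h2 hm)
    le_rfl (fun e he hne n hn => hfpf e he hne n hn.1) hKD hKE
  rw [hfx0, finrank_top, top_inf_eq, hdim] at hstep
  have hf0 : fx ρ D = ⊥ := by
    have hlt : finrank K (fx ρ D) < Nat.card E := by
      rw [← hdim]
      refine Submodule.finrank_lt ?_
      intro h
      apply ha₀1
      ext v
      have : v ∈ fx ρ D := by
        rw [h]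
        trivial
      rw [this a₀ ha₀, Module.End.one_apply]
    have hdvd : Nat.card E ∣ finrank K (fx ρ D) := by
      have h1 : ((Nat.card E : ℤ)) ∣ (finrank K (fx ρ D) : ℤ) :=
        ⟨1 - finrank K ↥(fx ρ E) + finrank K ↥(fx ρ D ⊓ fx ρ E), by linear_combination -hstep⟩
      exact_mod_cast h1
    have h0 := Nat.eq_zero_of_dvd_of_lt hdvd hlt
    exact Submodule.finrank_eq_zero.mp h0
  -- the free blocks
  let σ : ↥D →* End K V := ρ.comp D.subtype
  let τ : ↥E →* End K V := ρ.comp E.subtype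
  have hσ : ∀ n, σ n = ρ n := fun _ => rfl
  have hτ : ∀ n, τ n = ρ n := fun _ => rfl
  obtain ⟨T, hind, htop, hinv⟩ := exists_free_block σ τ (conjOn E D hDE)
    (fun n n' => n.2.2 _ (hDU n'.2))
    (fun e n => by
      simp only [hσ, hτ, conjOn_apply]
      rw [← map_mul, ← map_mul]
      congr 1
      group)
    (fun e he n hn' => by
      have h3 : (e : F) * n * (e : F)⁻¹ = n := congrArg Subtype.val hn'
      have h3' : (e : F) * n = n * e := by
        calc (e : F) * n = ((e : F) * n * (e : F)⁻¹) * e := by group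
          _ = n * e := by rw [h3]
      exact Subtype.ext (hfpf e e.2 (fun h => he (Subtype.ext h)) n n.2.1 h3'))
    hKD
    (fun v hv => by
      have : v ∈ fx ρ D := fun y hy => hv ⟨y, hy⟩
      rw [hf0] at this
      simpa using this)
  have hT := finrank_of_free τ T hind htop
  have hT1 : finrank K T = 1 := by
    rw [hdim] at hT
    exact (Nat.eq_of_mul_eq_mul_left hp.pos (by rw [mul_one]; exact hT)).symm
  -- conclusion
  intro a ha b hb
  have hcommD : ∀ g ∈ U, ∀ n, ρ g * σ n = σ n * ρ g := fun g hg n => (n.2.2 g hg).symm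
  have hblock : ∀ e, ∀ v ∈ T.map (τ e), (ρ a * ρ b) v = (ρ b * ρ a) v := by
    intro e v hv
    by_cases hv0 : v = 0
    · rw [hv0, map_zero, map_zero]
    have hB : finrank K (T.map (τ e)) = 1 := by
      rw [finrank_map_tau, hT1]
    have hne : (⟨v, hv⟩ : ↥(T.map (τ e))) ≠ 0 := fun h => hv0 (congrArg Subtype.val h)
    have hsc := (finrank_eq_one_iff_of_nonzero' _ hne).mp hB
    obtain ⟨c₁, hc₁⟩ := hsc ⟨ρ a v, hinv (ρ a) (hcommD a ha) e v hv⟩
    obtain ⟨c₂, hc₂⟩ := hsc ⟨ρ b v, hinv (ρ b) (hcommD b hb) e v hv⟩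
    have h1 : c₁ • v = ρ a v := congrArg Subtype.val hc₁
    have h2 : c₂ • v = ρ b v := congrArg Subtype.val hc₂
    rw [Module.End.mul_apply, Module.End.mul_apply, ← h1, ← h2, map_smul, map_smul, ← h1, ← h2, smul_smul, smul_smul,
      mul_comm]
  ext v
  have hv : v ∈ ⨆ e, T.map (τ e) := by
    rw [htop]
    trivial
  induction hv using Submodule.iSup_induction' with
  | mem e x hx => exact hblock e x hx
  | zero => simp
  | add x y _ _ hx hy => rw [map_add, map_add, hx, hy]

end Closed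

section General

open TensorProduct

variable {k V F : Type*} [Field k] [AddCommGroup V] [Module k V] [FiniteDimensional k V] [Group F] [Finite F]

/-- In dimension `p = |E|`, a nilpotent Frobenius kernel without fixed vectors acts through an abelian group. -/
theorem abelian_of_finrank_prime (ρ : F →* End k V) (U E : Subgroup F)
    (hU : Group.IsNilpotent ↥U)
    (hEU : ∀ e ∈ E, ∀ n ∈ U, e * n * e⁻¹ ∈ U) (hfpf : ∀ e ∈ E, e ≠ 1 → ∀ n ∈ U, e * n = n * e → n = 1)
    (hK : (Nat.card ↥(U ⊔ E) : k) ≠ 0)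
    (hp : (Nat.card E).Prime) (hdim : finrank k V = Nat.card E) (hfix : fx ρ U = ⊥) :
    ∀ a ∈ U, ∀ b ∈ U, ρ a * ρ b = ρ b * ρ a := by
  let K := AlgebraicClosure k
  have hKU : (Nat.card U : k) ≠ 0 := card_cast_ne_zero_of_le le_sup_left hK
  have hKE : (Nat.card E : k) ≠ 0 := card_cast_ne_zero_of_le le_sup_right hK
  have hcast : ∀ n : ℕ, (n : k) ≠ 0 → (n : K) ≠ 0 := by
    intro n hn h
    apply hn
    have h2 : algebraMap k K (n : k) = 0 := by
      rw [map_natCast]
      exact h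
    exact (map_eq_zero _).mp h2
  have hfix' : fx (rhoK K ρ) U = ⊥ := by
    rw [← Submodule.finrank_eq_zero, finrank_fx_baseChange K ρ U hKU, hfix, finrank_bot]
  have h := abelian_of_finrank_prime_closed (ρ := rhoK K ρ) U E hU hEU hfpf (hcast _ hKU) (hcast _ hKE) hp
    (by rw [Module.finrank_baseChange, hdim]) hfix'
  intro a ha b hb
  have h1 := h a ha b hb
  simp only [rhoK_apply] at h1
  rw [← LinearMap.baseChange_mul, ← LinearMap.baseChange_mul] at h1
  exact LinearMap.baseChangeHom_injective k V K h1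

/-- The same with small fixed point space of `E`, without assumption on the fixed points of `U`. -/
theorem commute_of_fix_le_one (ρ : F →* End k V) (U E : Subgroup F) [U.Normal]
    (hU : Group.IsNilpotent ↥U)
    (hEU : ∀ e ∈ E, ∀ n ∈ U, e * n * e⁻¹ ∈ U) (hfpf : ∀ e ∈ E, e ≠ 1 → ∀ n ∈ U, e * n = n * e → n = 1)
    (hK : (Nat.card ↥(U ⊔ E) : k) ≠ 0)
    (hp : (Nat.card E).Prime) (h1 : finrank k (fx ρ E) ≤ 1) :
    ∀ a ∈ U, ∀ b ∈ U, ρ a * ρ b = ρ b * ρ a := by
  classical
  have hKU : (Nat.card U : k) ≠ 0 := card_cast_ne_zero_of_le le_sup_left hK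
  let W : Submodule k V := LinearMap.ker (avg ρ U)
  have hWinv : ∀ g, ∀ v ∈ W, ρ g v ∈ W := by
    intro g v hv
    change avg ρ U (ρ g v) = 0
    rw [← avg_comm U (g := g) (fun y hy => (inferInstance : U.Normal).conj_mem y hy g)
      (fun y hy => by
        have := (inferInstance : U.Normal).conj_mem y hy g⁻¹
        simpa using this)]
    have : avg ρ U v = 0 := hv
    rw [this, map_zero]
  let ρW : F →* End k ↥W :=
    { toFun := fun g => (ρ g).restrict (hWinv g)
      map_one' := by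
        ext v
        simp
      map_mul' := fun a b => by
        ext v
        simp }
  have hρW : ∀ (g : F) (v : ↥W), ((ρW g v : ↥W) : V) = ρ g v := fun _ _ => rfl
  have hfixU : fx ρW U = ⊥ := by
    rw [Submodule.eq_bot_iff]
    intro v hv
    have h2 : (v : V) ∈ fx ρ U := fun y hy => congrArg Subtype.val (hv y hy)
    have h3 := avg_of_mem U hKU h2
    have h4 : avg ρ U (v : V) = 0 := v.2
    apply Subtype.ext
    rw [← h3, h4]
    rfl
  have hform := fx_formula ρW U E (by haveI := hU; infer_instance) hEU hfpf hK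
  have hsup : fx ρW (U ⊔ E) = ⊥ := by
    rw [fx_sup, hfixU, bot_inf_eq]
  rw [hsup, hfixU, finrank_bot, mul_zero, add_zero, add_zero] at hform
  have hle : finrank k (fx ρW E) ≤ 1 := by
    refine le_trans ?_ h1
    rw [← Submodule.finrank_map_subtype_eq W (fx ρW E)]
    apply Submodule.finrank_mono
    rintro _ ⟨v, hv, rfl⟩ y hy
    exact congrArg Subtype.val (hv y hy)
  -- the commuting on `W`
  have hcW : ∀ a ∈ U, ∀ b ∈ U, ∀ v ∈ W, ρ a (ρ b v) = ρ b (ρ a v) := by
    intro a ha b hb v hv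
    have hcases : finrank k (fx ρW E) = 0 ∨ finrank k (fx ρW E) = 1 := by omega
    rcases hcases with h0 | h0
    · rw [h0, mul_zero] at hform
      have : W = ⊥ := Submodule.finrank_eq_zero.mp hform
      have hv0 : v = 0 := by
        rw [this] at hv
        simpa using hv
      rw [hv0]
      simp
    · rw [h0, mul_one] at hform
      have h3 := abelian_of_finrank_prime ρW U E hU hEU hfpf hK hp hform hfixU a ha b hb
      have h4 := congrArg (fun f : End k ↥W => ((f ⟨v, hv⟩ : ↥W) : V)) h3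
      exact h4
  intro a ha b hb
  ext v
  have hdec : v = avg ρ U v + (v - avg ρ U v) := by abel
  have hfx : avg ρ U v ∈ fx ρ U := avg_mem_fx U v
  have hw : v - avg ρ U v ∈ W := by
    change avg ρ U (v - avg ρ U v) = 0
    rw [map_sub, avg_of_mem U hKU hfx, sub_self]
  rw [Module.End.mul_apply, Module.End.mul_apply]
  conv_lhs => rw [hdec, map_add, map_add, hfx b hb, hfx a ha]
  conv_rhs => rw [hdec, map_add, map_add, hfx a ha, hfx b hb]
  rw [hcW a ha b hb _ hw]

end General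

section GroupLevel

variable {F : Type*} [Group F] [Finite F]

/-- The elementary abelian case, with the module structure given. -/
theorem elem_comm_aux {A : Type*} [CommGroup A] [Finite A] {ℓ : ℕ} [Fact ℓ.Prime] [Module (ZMod ℓ) (Additive A)]
    (hℓ : ∀ a : A, a ^ ℓ = 1) (α : F →* MulAut A) (U E : Subgroup F) [U.Normal] (hU : Group.IsNilpotent ↥U)
    (hEU : ∀ e ∈ E, ∀ n ∈ U, e * n * e⁻¹ ∈ U) (hfpf : ∀ e ∈ E, e ≠ 1 → ∀ n ∈ U, e * n = n * e → n = 1)
    (hcop : ¬ ℓ ∣ Nat.card ↥(U ⊔ E)) (hp : (Nat.card E).Prime) (hcyc : IsCyclic (fixOf α E)) :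
    ∀ x ∈ ⁅U, U⁆, ∀ a, α x a = a := by
  classical
  haveI : Finite (Additive A) := inferInstanceAs (Finite A)
  haveI : Module.Finite (ZMod ℓ) (Additive A) := Module.Finite.of_finite
  let f : F → End (ZMod ℓ) (Additive A) := fun g =>
    (MulEquiv.toAdditive (α g) : Additive A ≃+ Additive A).toAddMonoidHom.toZModLinearMap ℓ
  have hf : ∀ (g : F) (a : Additive A), f g a = Additive.ofMul (α g (Additive.toMul a)) := fun _ _ => rfl
  let ρ : F →* End (ZMod ℓ) (Additive A) :=
    { toFun := f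
      map_one' := LinearMap.ext fun x => by
        rw [hf, Module.End.one_apply]
        simp
      map_mul' := fun a b => LinearMap.ext fun x => by
        rw [Module.End.mul_apply, hf, hf, hf]
        simp }
  have hρ : ∀ (g : F) (a : A), ρ g (Additive.ofMul a) = Additive.ofMul (α g a) := fun _ _ => rfl
  have hcard : Nat.card (fixOf α E) = ℓ ^ finrank (ZMod ℓ) (fx ρ E) := by
    have h1 : Nat.card (fixOf α E) = Nat.card (fx ρ E) := by
      refine Nat.card_congr
        { toFun := fun x => ⟨Additive.ofMul x.1, fun y hy => by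
            rw [hρ, x.2 y hy]⟩
          invFun := fun x => ⟨Additive.toMul x.1, fun y hy => by
            have := x.2 y hy
            exact congrArg Additive.toMul this⟩
          left_inv := fun x => rfl
          right_inv := fun x => rfl }
    rw [h1, Module.natCard_eq_pow_finrank (K := ZMod ℓ), Nat.card_zmod]
  have hK : (Nat.card ↥(U ⊔ E) : ZMod ℓ) ≠ 0 := by
    rw [Ne, ZMod.natCast_eq_zero_iff]
    exact hcop
  have hd : finrank (ZMod ℓ) (fx ρ E) ≤ 1 := by
    obtain ⟨g, hg⟩ := hcyc.exists_generator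
    have h1 : orderOf g = Nat.card (fixOf α E) := orderOf_eq_card_of_forall_mem_zpowers hg
    have h2 : orderOf g ∣ ℓ := orderOf_dvd_of_pow_eq_one (Subtype.ext (hℓ g))
    rw [h1, hcard] at h2
    have h3 := (Nat.pow_dvd_pow_iff_le_right (Fact.out : ℓ.Prime).one_lt).mp (by simpa using h2 : ℓ ^ _ ∣ ℓ ^ 1)
    exact h3
  have hc := commute_of_fix_le_one ρ U E hU hEU hfpf hK hp hd
  have hker : ⁅U, U⁆ ≤ ρ.ker := by
    rw [Subgroup.commutator_le]
    intro a ha b hb
    rw [MonoidHom.mem_ker, commutatorElement_def, map_mul, map_mul, map_mul, hc a ha b hb]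
    have h2 : ρ a * ρ a⁻¹ = 1 := by rw [← map_mul, mul_inv_cancel, map_one]
    have h3 : ρ b * ρ b⁻¹ = 1 := by rw [← map_mul, mul_inv_cancel, map_one]
    calc ρ b * ρ a * ρ a⁻¹ * ρ b⁻¹ = ρ b * (ρ a * ρ a⁻¹) * ρ b⁻¹ := by simp only [mul_assoc]
      _ = 1 := by rw [h2, mul_one, h3]
  intro x hx a
  have h1 : ρ x = 1 := hker hx
  have h2 := hρ x a
  rw [h1, Module.End.one_apply] at h2
  exact (Additive.ofMul.injective h2).symm

/-- The elementary abelian case. -/
theorem elem_comm {A : Type*} [Group A] [Finite A] {ℓ : ℕ} [Fact ℓ.Prime] (hcomm : ∀ a b : A, a * b = b * a)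
    (hℓ : ∀ a : A, a ^ ℓ = 1) (α : F →* MulAut A) (U E : Subgroup F) [U.Normal] (hU : Group.IsNilpotent ↥U)
    (hEU : ∀ e ∈ E, ∀ n ∈ U, e * n * e⁻¹ ∈ U) (hfpf : ∀ e ∈ E, e ≠ 1 → ∀ n ∈ U, e * n = n * e → n = 1)
    (hcop : ¬ ℓ ∣ Nat.card ↥(U ⊔ E)) (hp : (Nat.card E).Prime) (hcyc : IsCyclic (fixOf α E)) :
    ∀ x ∈ ⁅U, U⁆, ∀ a, α x a = a := by
  letI : CommGroup A := { (inferInstance : Group A) with mul_comm := hcomm }
  letI : Module (ZMod ℓ) (Additive A) := AddCommGroup.zmodModule (n := ℓ) (fun x => by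
    change Additive.ofMul ((Additive.toMul x) ^ ℓ) = 0
    rw [hℓ]
    rfl)
  exact elem_comm_aux (ℓ := ℓ) hℓ α U E hU hEU hfpf hcop hp hcyc

/-- **A Frobenius group with complement of prime order acting coprimely on a solvable group with cyclic
fixed points of the complement: the derived group of the kernel acts trivially.** -/
theorem comm_acts_trivially (U E : Subgroup F) [U.Normal] (hU : Group.IsNilpotent ↥U)
    (hEU : ∀ e ∈ E, ∀ n ∈ U, e * n * e⁻¹ ∈ U) (hfpf : ∀ e ∈ E, e ≠ 1 → ∀ n ∈ U, e * n = n * e → n = 1)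
    (hp : (Nat.card E).Prime) (c : ℕ) : ∀ (Q : Type*) [Group Q] [Finite Q], Nat.card Q = c →
      ∀ (α : F →* MulAut Q), Group.IsSolvable Q → Nat.Coprime (Nat.card Q) (Nat.card ↥(U ⊔ E)) →
      IsCyclic (fixOf α E) → ∀ x ∈ ⁅U, U⁆, ∀ q, α x q = q := by
  induction c using Nat.strong_induction_on with
  | _ c ih =>
    intro Q _ _ hc α hQ hcop hcyc x hx q
    by_cases htriv : Subsingleton Q
    · exact Subsingleton.elim _ _
    rw [not_subsingleton_iff_nontrivial] at htriv
    obtain ⟨ℓ, hℓf, N, hN1, hNc, hNcomm, hNp⟩ := exists_elem_char Q hQ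
    haveI : N.Normal := inferInstance
    have hNα : ∀ g, ∀ n ∈ N, α g n ∈ N := fun g n hn =>
      (Subgroup.characteristic_iff_le_comap.mp hNc) (α g) hn
    have hcardN : Nat.card N ∣ Nat.card Q := Subgroup.card_subgroup_dvd_card N
    have hN2 : 1 < Nat.card N := by
      rw [Finite.one_lt_card_iff_nontrivial]
      exact (Subgroup.nontrivial_iff_ne_bot N).mpr hN1
    have hmul : Nat.card N * Nat.card (Q ⧸ N) = Nat.card Q := by
      rw [mul_comm]
      exact (Subgroup.card_eq_card_quotient_mul_card_subgroup N).symm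
    have hcop1 : Nat.Coprime (Nat.card N) (Nat.card ↥(U ⊔ E)) := Nat.Coprime.coprime_dvd_left hcardN hcop
    have hcop2 : Nat.Coprime (Nat.card (Q ⧸ N)) (Nat.card ↥(U ⊔ E)) :=
      Nat.Coprime.coprime_dvd_left (Dvd.intro_left _ hmul) hcop
    have hℓdvd : ¬ ℓ ∣ Nat.card ↥(U ⊔ E) := by
      intro h
      obtain ⟨y, hy⟩ : ∃ y : ↥N, y ≠ 1 := by
        by_contra hcon
        push Not at hcon
        apply hN1
        rw [Subgroup.eq_bot_iff_forall]
        intro a ha
        have := hcon ⟨a, ha⟩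
        exact congrArg Subtype.val this
      have h1 : orderOf y = ℓ := by
        apply orderOf_eq_prime
        · exact Subtype.ext (hNp y y.2)
        · exact hy
      have h2 : ℓ ∣ Nat.card N := h1 ▸ orderOf_dvd_natCard y
      have h3 := Nat.dvd_gcd h2 h
      rw [hcop1] at h3
      exact hℓf.out.one_lt.ne' (Nat.dvd_one.mp h3)
    -- on `N`
    have hcycN : IsCyclic (fixOf (subAct α N hNα) E) := by
      let g : ↥(fixOf (subAct α N hNα) E) →* ↥(fixOf α E) :=
        { toFun := fun n => ⟨n.1.1, fun y hy => congrArg Subtype.val (n.2 y hy)⟩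
          map_one' := rfl
          map_mul' := fun _ _ => rfl }
      refine isCyclic_of_injective g ?_
      intro a b hab
      exact Subtype.ext (Subtype.ext (congrArg (fun z : ↥(fixOf α E) => (z : Q)) hab))
    have h1 := elem_comm (A := ↥N) (ℓ := ℓ) (fun a b => Subtype.ext (hNcomm a a.2 b b.2))
      (fun a => Subtype.ext (hNp a a.2)) (subAct α N hNα) U E hU hEU hfpf hℓdvd hp hcycN
    -- on the quotient
    have hlift : ∀ Y : Subgroup F, Y ≤ U ⊔ E → ∀ z : Q, (∀ y ∈ Y, z⁻¹ * α y z ∈ N) →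
        ∃ n ∈ N, ∀ y ∈ Y, α y (z * n) = z * n := fun Y hY z hz =>
      exists_fixed_lift α Y N hNcomm hNα (Nat.Coprime.coprime_dvd_right (Subgroup.card_dvd_of_le hY) hcop1) z hz
    have hcycQ : IsCyclic (fixOf (quotAct α N hNα) E) := by
      let g : ↥(fixOf α E) →* ↥(fixOf (quotAct α N hNα) E) :=
        { toFun := fun z => ⟨((z : Q) : Q ⧸ N), fun y hy => by
            rw [quotAct_mk, z.2 y hy]⟩
          map_one' := rfl
          map_mul' := fun _ _ => rfl }
      refine isCyclic_of_surjective g ?_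
      rintro ⟨z, hz⟩
      induction z using QuotientGroup.induction_on with
      | H z =>
        have hz2 : ∀ y ∈ E, z⁻¹ * α y z ∈ N := by
          intro y hy
          have h3 := hz y hy
          rw [quotAct_mk] at h3
          exact QuotientGroup.eq.mp h3.symm
        obtain ⟨n, hn, hn2⟩ := hlift E le_sup_right z hz2
        refine ⟨⟨z * n, hn2⟩, ?_⟩
        apply Subtype.ext
        change ((z * n : Q) : Q ⧸ N) = z
        rw [QuotientGroup.mk_mul, (QuotientGroup.eq_one_iff n).mpr hn, mul_one]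
    have h2 := ih (Nat.card (Q ⧸ N)) (by
      rw [← hc, ← hmul]
      have : 0 < Nat.card (Q ⧸ N) := Nat.card_pos
      nlinarith) (Q ⧸ N) rfl (quotAct α N hNα) (by haveI := hQ; infer_instance) hcop2 hcycQ
    -- conclusion
    have hle : ⁅U, U⁆ ≤ U ⊔ E := (derSeq_le_self U 0).trans le_sup_left
    have h3 : ∀ y ∈ ⁅U, U⁆, q⁻¹ * α y q ∈ N := by
      intro y hy
      have h4 := h2 y hy (q : Q ⧸ N)
      rw [quotAct_mk] at h4
      exact QuotientGroup.eq.mp h4.symm
    obtain ⟨n, hn, hn2⟩ := hlift ⁅U, U⁆ hle q h3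
    have h5 := hn2 x hx
    have h6 : α x n = n := congrArg Subtype.val (h1 x hx ⟨n, hn⟩)
    rw [map_mul, h6] at h5
    exact mul_right_cancel h5

end GroupLevel

section Concrete

variable {X : Type*} [Group X] [Finite X]

/-- The kernel of a Frobenius group is normal and nilpotent. -/
theorem frob_kernel_data (U E : Subgroup X) (hE1 : E ≠ ⊥)
    (hUn : ∀ e ∈ E, ∀ u ∈ U, e * u * e⁻¹ ∈ U) (hfpf : ∀ e ∈ E, e ≠ 1 → ∀ u ∈ U, e * u = u * e → u = 1) :
    (U.subgroupOf (U ⊔ E)).Normal ∧ Group.IsNilpotent ↥(U.subgroupOf (U ⊔ E)) := by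
  classical
  set W := U ⊔ E with hW
  let U' : Subgroup ↥W := U.subgroupOf W
  have hnorm : U'.Normal := by
    have h1 : W ≤ Subgroup.normalizer (U : Set X) := by
      rw [hW]
      refine sup_le (Subgroup.le_normalizer) ?_
      intro e he
      rw [Subgroup.mem_normalizer_iff]
      intro h
      constructor
      · exact hUn e he h
      · intro h2
        have := hUn e⁻¹ (E.inv_mem he) _ h2
        simpa [mul_assoc] using this
    constructor
    intro n hn g
    rw [Subgroup.mem_subgroupOf] at hn ⊢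
    exact (Subgroup.mem_normalizer_iff.mp (h1 g.2) n).mp hn
  refine ⟨hnorm, ?_⟩
  haveI : Nontrivial ↥E := (Subgroup.nontrivial_iff_ne_bot E).mpr hE1
  obtain ⟨r, hr, hrd⟩ := Nat.exists_prime_and_dvd (Finite.one_lt_card (α := ↥E)).ne'
  haveI := Fact.mk hr
  obtain ⟨e₀, he₀⟩ := exists_prime_orderOf_dvd_card' r hrd
  let k : ↥W := ⟨e₀, (le_sup_right : E ≤ W) e₀.2⟩
  have hk : k ^ r = 1 := by
    apply Subtype.ext
    have := pow_orderOf_eq_one e₀
    rw [he₀] at this
    have h3 : (e₀ : X) ^ r = 1 := congrArg Subtype.val this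
    exact h3
  have hne : (e₀ : X) ≠ 1 := by
    intro h
    have h2 : e₀ = 1 := Subtype.ext h
    rw [h2, orderOf_one] at he₀
    exact hr.one_lt.ne he₀
  haveI := hnorm
  exact OddChar.nilpotent_of_fpf_element U' hr hk (fun h hh hc => by
    apply Subtype.ext
    exact hfpf e₀ e₀.2 hne h (Subgroup.mem_subgroupOf.mp hh) (congrArg Subtype.val hc))

/-- The derived group of the kernel centralizes. -/
theorem comm_le_centralizer (K R M : Subgroup X) (hR1 : R ≠ ⊥)
    (hUn : ∀ e ∈ R, ∀ u ∈ K, e * u * e⁻¹ ∈ K) (hfpf : ∀ e ∈ R, e ≠ 1 → ∀ u ∈ K, e * u = u * e → u = 1)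
    (hHn : ∀ x ∈ K ⊔ R, ∀ h ∈ M, x * h * x⁻¹ ∈ M) (hsolv : Group.IsSolvable M)
    (hcop : Nat.Coprime (Nat.card M) (Nat.card ↥(K ⊔ R))) (hp : (Nat.card R).Prime)
    (hcyc : IsCyclic ↥(M ⊓ Subgroup.centralizer (R : Set X))) :
    ⁅K, K⁆ ≤ Subgroup.centralizer (M : Set X) := by
  classical
  obtain ⟨hnorm, hnil⟩ := frob_kernel_data K R hR1 hUn hfpf
  set W := K ⊔ R with hW
  let U' : Subgroup ↥W := K.subgroupOf W
  let E' : Subgroup ↥W := R.subgroupOf W
  have hmapU : U'.map W.subtype = K := Subgroup.map_subgroupOf_eq_of_le le_sup_left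
  have hmapE : E'.map W.subtype = R := Subgroup.map_subgroupOf_eq_of_le le_sup_right
  have htop : U' ⊔ E' = ⊤ := by
    apply Subgroup.map_injective W.subtype_injective
    rw [Subgroup.map_sup, hmapU, hmapE, ← MonoidHom.range_eq_map, Subgroup.range_subtype]
  have hcardE : Nat.card E' = Nat.card R :=
    Nat.card_congr (Subgroup.subgroupOfEquivOfLe (le_sup_right : R ≤ W)).toEquiv
  haveI := hnorm
  have hcyc' : IsCyclic (fixOf (conjOn W M hHn) E') := by
    let g : ↥(M ⊓ Subgroup.centralizer (R : Set X)) →* ↥(fixOf (conjOn W M hHn) E') :=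
      { toFun := fun x => ⟨⟨x.1, x.2.1⟩, fun y hy => by
          apply Subtype.ext
          have h1 := (Subgroup.mem_centralizer_iff.mp x.2.2) (y : X) (Subgroup.mem_subgroupOf.mp hy)
          change (y : X) * x.1 * (y : X)⁻¹ = x.1
          rw [h1]
          group⟩
        map_one' := rfl
        map_mul' := fun _ _ => rfl }
    refine isCyclic_of_surjective g ?_
    rintro ⟨⟨x, hx⟩, hx2⟩
    refine ⟨⟨x, hx, Subgroup.mem_centralizer_iff.mpr fun y hy => ?_⟩, rfl⟩
    have h1 : (y : X) * x * (y : X)⁻¹ = x :=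
      congrArg Subtype.val (hx2 ⟨y, (le_sup_right : R ≤ W) hy⟩ (Subgroup.mem_subgroupOf.mpr hy))
    calc (y : X) * x = ((y : X) * x * (y : X)⁻¹) * y := by group
      _ = x * y := by rw [h1]
  have hmain := comm_acts_trivially U' E' hnil
    (fun e he n hn => by
      rw [Subgroup.mem_subgroupOf] at hn ⊢
      exact hUn e (Subgroup.mem_subgroupOf.mp he) n hn)
    (fun e he hne n hn hc => by
      apply Subtype.ext
      exact hfpf e (Subgroup.mem_subgroupOf.mp he) (fun h => hne (Subtype.ext h)) n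
        (Subgroup.mem_subgroupOf.mp hn) (congrArg Subtype.val hc))
    (by rw [hcardE]; exact hp) (Nat.card M) ↥M rfl (conjOn W M hHn) hsolv
    (by
      rw [htop, Subgroup.card_top]
      exact hcop) hcyc'
  rw [Subgroup.commutator_le]
  intro a ha b hb
  have h1 : (⟨a, (le_sup_left : K ≤ W) ha⟩ * ⟨b, (le_sup_left : K ≤ W) hb⟩ *
      (⟨a, (le_sup_left : K ≤ W) ha⟩ : ↥W)⁻¹ * (⟨b, (le_sup_left : K ≤ W) hb⟩ : ↥W)⁻¹) ∈ ⁅U', U'⁆ := by
    have := Subgroup.commutator_mem_commutator (H₁ := U') (H₂ := U') (g₁ := ⟨a, (le_sup_left : K ≤ W) ha⟩)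
      (g₂ := ⟨b, (le_sup_left : K ≤ W) hb⟩) (Subgroup.mem_subgroupOf.mpr ha) (Subgroup.mem_subgroupOf.mpr hb)
    simpa [commutatorElement_def] using this
  refine Subgroup.mem_centralizer_iff.mpr fun m hm => ?_
  have h2 := congrArg Subtype.val (hmain _ h1 ⟨m, hm⟩)
  have h3 : (a * b * a⁻¹ * b⁻¹) * m * (a * b * a⁻¹ * b⁻¹)⁻¹ = m := h2
  rw [commutatorElement_def]
  calc m * (a * b * a⁻¹ * b⁻¹) = ((a * b * a⁻¹ * b⁻¹) * m * (a * b * a⁻¹ * b⁻¹)⁻¹) * (a * b * a⁻¹ * b⁻¹) := by
        rw [h3]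
    _ = (a * b * a⁻¹ * b⁻¹) * m := by group

end Concrete

end Cfsg.Agent.Lib.FT
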