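import Cfsg.Agent.Lib.FT.BG19d
import Cfsg.Agent.Lib.FT.FrobAbel

/-!
BG19e: S1356, the Fitting subgroup of a maximal subgroup.
-/

set_option autoImplicit false
set_option linter.unusedSectionVars false
set_option linter.style.haveILetI false

namespace Cfsg.Agent.Lib.FT

open Subgroup Cfsg Cfsg.Agent.Lib.OddLocal Cfsg.Agent.Lib.Basic

open Cfsg.Agent.Lib.Coprime (mem_conj_map conj_mem_conj_map conj_map_conj_map conj_map_one
  conj_map_mono mem_normalizer_of_conj_le conj_map_eq_iff_mem_normalizer isPGroup_conj_map)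

section Abstract

variable {Γ : Type*} [Group Γ] [Finite Γ]

theorem mem_normalizer_of_normal_aux {A : Subgroup Γ} (hA : A.Normal) (g : Γ) : g ∈ normalizer (A : Set Γ) := by
  rw [mem_normalizer_iff]
  intro h
  exact ⟨fun hh => hA.conj_mem _ hh g, fun hh => by
    have := hA.conj_mem _ hh g⁻¹
    simpa [mul_assoc] using this⟩

/-- A nilpotent subgroup is contained in any subgroup containing its primary parts. -/
theorem le_of_forall_Oq {L : Subgroup Γ} : ∀ (n : ℕ) (H : Subgroup Γ), Nat.card H = n → Group.IsNilpotent H →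
    (∀ (t : ℕ) (_ : Fact t.Prime), Oq t H ≤ L) → H ≤ L := by
  intro n
  induction n using Nat.strong_induction_on with
  | _ n ih =>
  intro H hn hH h x hx
  by_cases hH1 : Nat.card H = 1
  · have h2 : H = ⊥ := (Subgroup.eq_bot_iff_card _).mpr hH1
    rw [h2, mem_bot] at hx
    rw [hx]
    exact one_mem _
  obtain ⟨t, ht, htd⟩ := Nat.exists_prime_and_dvd hH1
  haveI : Fact t.Prime := ⟨ht⟩
  obtain ⟨a, ha, b, hb, rfl⟩ := exists_parts t hH hx
  refine mul_mem (h t ⟨ht⟩ ha) ?_
  have hle : Oq' t H ≤ H := Oq'_le t H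
  have hlt : Nat.card (Oq' t H) < n := by
    rw [← hn]
    refine lt_of_le_of_ne (Nat.le_of_dvd Nat.card_pos (Subgroup.card_dvd_of_le hle)) ?_
    intro e
    have h3 := Oq'_card_coprime t H
    rw [e] at h3
    exact ht.one_lt.ne' (Nat.Coprime.eq_one_of_dvd h3.symm htd)
  have hnil : Group.IsNilpotent (Oq' t H) := by
    haveI := hH
    have h3 : Group.IsNilpotent ↥((Oq' t H).subgroupOf H) := inferInstance
    have h4 := isNilpotent_map_subtype h3
    rwa [Subgroup.map_subgroupOf_eq_of_le hle] at h4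
  refine ih _ hlt _ rfl hnil ?_ hb
  intro r hr a' ha'
  obtain ⟨k, hk⟩ := Cfsg.Agent.Lib.PGroups.exists_orderOf_of_mem_isPGroup (Oq_isPGroup r (Oq' t H)) ha'
  have ha2 : a' ∈ Oq r H := mem_Oq hH (hle (Oq_le r _ ha')) (k := k) (by rw [← hk]; exact pow_orderOf_eq_one a')
  exact h r hr ha2

theorem fittingHall_le_fittingSubgroup : fittingHall Γ ≤ fittingSubgroup Γ :=
  le_fittingSubgroup_of_nilpotent inferInstance (fittingHall_isNilpotent Γ)

/-- `F(Γ) ≤ C(Γ_F) Γ_F`. -/
theorem fitting_le_centralizer_sup :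
    fittingSubgroup Γ ≤ centralizer (fittingHall Γ : Set Γ) ⊔ fittingHall Γ := by
  classical
  have hFnil : Group.IsNilpotent (fittingSubgroup Γ) := fittingSubgroup_isNilpotent
  refine le_of_forall_Oq _ _ rfl hFnil ?_
  intro t _
  have htt : t.Prime := Fact.out
  have hc := fittingHall_coprime (M := Γ)
  by_cases htd : t ∣ Nat.card (fittingHall Γ)
  · refine le_trans ?_ le_sup_right
    intro a ha
    obtain ⟨k, hk⟩ := Cfsg.Agent.Lib.PGroups.exists_orderOf_of_mem_isPGroup (Oq_isPGroup t (fittingSubgroup Γ)) ha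
    refine mem_of_coprime_relIndex_aux (N := ⊤) (fun g _ => mem_normalizer_of_normal_aux inferInstance g) (Subgroup.mem_top a) ?_
    rw [hk, Subgroup.relIndex_top_right]
    exact Nat.Coprime.pow_right k (Nat.Coprime.coprime_dvd_left htd hc).symm
  · refine le_trans ?_ le_sup_left
    intro a ha
    rw [mem_centralizer_iff]
    intro b hb
    have haF : a ∈ fittingSubgroup Γ := Oq_le t _ ha
    have hbF : b ∈ fittingSubgroup Γ := fittingHall_le_fittingSubgroup hb
    refine comm_of_coprime_of_nilpotent_subgroup hFnil hbF haF ?_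
    obtain ⟨k, hk⟩ := Cfsg.Agent.Lib.PGroups.exists_orderOf_of_mem_isPGroup (Oq_isPGroup t (fittingSubgroup Γ)) ha
    rw [hk]
    refine Nat.Coprime.pow_right k ?_
    exact Nat.Coprime.coprime_dvd_left (Subgroup.orderOf_dvd_natCard _ hb)
      ((Nat.Prime.coprime_iff_not_dvd htt).mpr htd).symm

/-- A central extension of a nilpotent group. -/
theorem nilpotent_of_central_kernel {C₁ N₁ W₁ : Subgroup Γ} [hN₁ : N₁.Normal]
    (hc : ∀ a ∈ C₁ ⊓ N₁, ∀ b ∈ C₁, a * b = b * a) (hW : C₁ ≤ N₁ ⊔ W₁) (hWn : Group.IsNilpotent W₁) :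
    Group.IsNilpotent C₁ := by
  classical
  set π := QuotientGroup.mk' N₁ with hπ
  have hmem : ∀ c : ↥C₁, (π.comp C₁.subtype) c ∈ W₁.map π := by
    intro c
    obtain ⟨n, hn, w, hw, e⟩ := (Cfsg.Agent.Lib.Coprime.mem_sup_iff_of_le_normalizer
      (fun g _ => mem_normalizer_of_normal_aux hN₁ g) _).mp (hW c.2)
    refine ⟨w, hw, ?_⟩
    have hπn : π n = 1 := (QuotientGroup.eq_one_iff n).mpr hn
    change π w = π c
    rw [e, map_mul, hπn, one_mul]
  let f : ↥C₁ →* ↥(W₁.map π) := (π.comp C₁.subtype).codRestrict (W₁.map π) hmem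
  have hnil : Group.IsNilpotent ↥(W₁.map π) := by
    haveI := hWn
    exact nilpotent_of_surjective (π.subgroupMap W₁) (π.subgroupMap_surjective _)
  haveI := hnil
  refine _root_.isNilpotent_of_ker_le_center f ?_
  intro c hc1
  rw [mem_center_iff]
  intro b
  have h2 : π c = 1 := by
    have := congrArg Subtype.val ((MonoidHom.mem_ker).mp hc1)
    exact this
  have h3 : (c : Γ) ∈ N₁ := (QuotientGroup.eq_one_iff _).mp h2
  exact Subtype.ext (hc c (Subgroup.mem_inf.mpr ⟨c.2, h3⟩) b b.2).symm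

/-- Two Hall subgroups for complementary prime sets generate. -/
theorem le_sup_of_hall_aux {N₀ S D : Subgroup Γ} {q : ℕ} (hS : ¬ q ∣ S.relIndex N₀)
    (hD : ∀ r : ℕ, r.Prime → r ≠ q → ¬ r ∣ D.relIndex N₀) : N₀ ≤ S ⊔ D := by
  have h1 : (S ⊔ D).relIndex N₀ = 1 := by
    by_contra hne
    obtain ⟨r, hr, hrd⟩ := Nat.exists_prime_and_dvd hne
    by_cases hrq : r = q
    · subst hrq
      exact hS (hrd.trans (Subgroup.relIndex_dvd_of_le_left N₀ le_sup_left))
    · exact hD r hr hrq (hrd.trans (Subgroup.relIndex_dvd_of_le_left N₀ le_sup_right))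
  exact Subgroup.relIndex_eq_one.mp h1

end Abstract

variable {G : Type*} [Group G] [Finite G] {M K U : Subgroup G}

/-- The structure of `M_σ` when `U = 1`, with a complement invariant under `K`. -/
theorem exists_K_invariant_compl (hB : ThmB G) (hG : IsMinSimpleOddOrder G) (hM : IsCoatom M)
    (hKU : IsSigmaDecomposition M K U) (hK1 : K ≠ ⊥) (hU : U = ⊥)
    (hq : (Nat.card ↥(sigmaCore M ⊓ centralizer (K : Set G))).Prime) :
    ∃ S D : Subgroup ↥M, S.Normal ∧ IsPGroup (Nat.card ↥(sigmaCore M ⊓ centralizer (K : Set G))) S ∧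
      IsComplIn S D (piCore (sigma M) ↥M) ∧ ¬ Nat.card ↥(sigmaCore M ⊓ centralizer (K : Set G)) ∣ S.relIndex (piCore (sigma M) ↥M) ∧
      Group.IsNilpotent D ∧ (∀ k : ↥M, (k : G) ∈ K → k ≠ 1 → D ⊓ centralizer ({k} : Set ↥M) = ⊥) ∧
      (∀ y : ↥M, (y : G) ∈ sigmaCore M ⊓ centralizer (K : Set G) → y ∈ S) ∧
      (Nat.card D).Coprime (Nat.card ↥(sigmaCore M ⊓ centralizer (K : Set G))) ∧
      (∀ k : ↥M, (k : G) ∈ K → k ∈ normalizer (D : Set ↥M)) := by
  classical
  obtain ⟨S, D₀, hSn, hSp, hcompl₀, hSi, -, -, hYS, -⟩ := exists_normal_sylow_of_U_bot hB hG hM hKU hK1 hU hq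
  set q := Nat.card ↥(sigmaCore M ⊓ centralizer (K : Set G)) with hqdef
  haveI : Fact q.Prime := ⟨hq⟩
  have hKH := hKU.hall
  have hKM : K ≤ M := hKH.1
  set N₀ : Subgroup ↥M := piCore (sigma M) ↥M with hN₀
  have hσ : N₀.map M.subtype = sigmaCore M := rfl
  have hNs : Group.IsSolvable ↥N₀ := by
    haveI := coatom_isSolvable hG hM
    infer_instance
  set K₀ : Subgroup ↥M := K.subgroupOf M with hK₀
  have hcK₀ : Nat.card K₀ = Nat.card K := Nat.card_congr (Subgroup.subgroupOfEquivOfLe hKM).toEquiv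
  have hcop : (Nat.card K₀).Coprime (Nat.card N₀) := by
    rw [hcK₀, ← card_map_subtype, hσ]
    refine Nat.coprime_of_dvd fun r hr h1 h2 => ?_
    exact (hKH.2.1 r hr h1).2.2.1 (piCoreOf_isPi (sigma M) M r hr h2)
  have hca : Cfsg.Agent.Lib.Coprime.CoprimeAction K₀ N₀ :=
    ⟨fun g _ => mem_normalizer_of_normal_aux inferInstance g, hcop, Or.inr hNs⟩
  obtain ⟨D, hDH, hK₀D, -⟩ := Cfsg.Agent.Lib.Coprime.exists_invariant_hall {r | r ≠ q} _ hca hNs rfl (U := ⊥) bot_le
    (fun g _ => mem_normalizer_of_normal_aux inferInstance g) (by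
      intro r hr hd
      simp at hd
      exact absurd hd hr.one_lt.ne')
  have hDc : (Nat.card D).Coprime q := by
    refine ((Nat.Prime.coprime_iff_not_dvd hq).mpr fun hd => ?_).symm
    exact hDH.2.1 q hq hd rfl
  have hSN : S ≤ N₀ := hcompl₀.1
  have hinf : S ⊓ D = ⊥ := by
    obtain ⟨k, hk⟩ := IsPGroup.iff_card.mp hSp
    have hc : (Nat.card S).Coprime (Nat.card D) := by
      rw [hk]
      exact Nat.Coprime.pow_left k hDc.symm
    exact le_bot_iff.mp (Subgroup.disjoint_of_coprime_natCard hc).le_bot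
  have hDfix : ∀ k : ↥M, (k : G) ∈ K → k ≠ 1 → D ⊓ centralizer ({k} : Set ↥M) = ⊥ := by
    intro k hk hk1
    rw [eq_bot_iff]
    intro d hd
    have hdD := hd.1
    have hdσ : (d : G) ∈ sigmaCore M ⊓ centralizer ({(k : G)} : Set G) := by
      refine Subgroup.mem_inf.mpr ⟨⟨d, hDH.1 hdD, rfl⟩, ?_⟩
      rw [mem_centralizer_singleton_iff]
      have h2 : d * k = k * d := mem_centralizer_singleton_iff.1 hd.2
      exact congrArg Subtype.val h2
    rw [kappa_prime_action hB hG hM hKH hk (fun e => hk1 (Subtype.ext e))] at hdσ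
    have h3 : d ∈ S ⊓ D := Subgroup.mem_inf.mpr ⟨hYS d hdσ, hdD⟩
    rw [hinf] at h3
    exact h3
  -- nilpotence
  obtain ⟨k₀, hk₀, hk₀1⟩ : ∃ k ∈ K, k ≠ 1 := by
    obtain ⟨k, hk⟩ := (Subgroup.ne_bot_iff_exists_ne_one).mp hK1
    exact ⟨k, k.2, fun e => hk (Subtype.ext e)⟩
  have ho1 : orderOf k₀ ≠ 1 := fun h => hk₀1 (orderOf_eq_one_iff.1 h)
  obtain ⟨p, hp, hpd⟩ := Nat.exists_prime_and_dvd ho1
  obtain ⟨x, hxz, hxo⟩ := exists_mem_zpowers_orderOf hpd
  have hxK : x ∈ K := (zpowers_le.mpr hk₀) hxz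
  have hx1 : x ≠ 1 := by
    rintro rfl
    rw [orderOf_one] at hxo
    exact hp.one_lt.ne hxo
  have hxp : x ^ p = 1 := by
    rw [← hxo]
    exact pow_orderOf_eq_one x
  have hKD : ∀ k : ↥M, (k : G) ∈ K → k ∈ normalizer (D : Set ↥M) := fun k hk => hK₀D hk
  have hDnil : Group.IsNilpotent D := nilpotent_of_fpf_subgroup (x := (⟨x, hKM hxK⟩ : ↥M)) hp
    (Subtype.ext (by simpa using hxp)) (hKD _ hxK) (hDfix _ hxK (fun e => hx1 (congrArg Subtype.val e)))
  refine ⟨S, D, hSn, hSp, ⟨hSN, hDH.1, hinf, ?_⟩, hSi, hDnil, hDfix, hYS, hDc, hKD⟩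
  intro m hm
  have h2 : m ∈ S ⊔ D := le_sup_of_hall_aux hSi hDH.2.2 hm
  exact (Cfsg.Agent.Lib.Coprime.mem_sup_iff_of_le_normalizer (fun g _ => mem_normalizer_of_normal_aux hSn g) m).mp h2

/-- An element of `K^#` cannot centralize a Sylow subgroup of `M_σ` for a prime of `K^*`. -/
theorem not_sylow_le_Kstar (hB : ThmB G) (hG : IsMinSimpleOddOrder G) (hM : IsCoatom M)
    (hK : IsPiHallOf (kappa M) K M) (hK1 : K ≠ ⊥) {q : ℕ} [Fact q.Prime] (hq : q ∣ Nat.card ↥(sigmaCore M ⊓ centralizer (K : Set G)))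
    {S : Subgroup G} (hS : IsMaxP q S (sigmaCore M)) : ¬ S ≤ sigmaCore M ⊓ centralizer (K : Set G) := by
  classical
  intro hle
  have hqq : q.Prime := Fact.out
  have hc := (s1431_core hB hG hM hK hK1).2.2.1 q hqq hq
  have hS' : IsPGroup q (S.subgroupOf (sigmaCore M)) := hS.isP.comap_subtype
  have hSN : ¬ q ∣ (S.subgroupOf (sigmaCore M)).index := by
    have h1 := isPiHallOf_of_isMaxP hS
    have h2 := h1.2.2 q hqq rfl
    exact h2
  have h3 := (hc (IsPGroup.toSylow hS' hSN)).2.2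
  apply h3
  have e : ((IsPGroup.toSylow hS' hSN : Sylow q ↥(sigmaCore M)) : Subgroup ↥(sigmaCore M)) = S.subgroupOf (sigmaCore M) := rfl
  rw [e, Subgroup.map_subgroupOf_eq_of_le hS.le]
  exact hle

theorem Kstar_ne_bot_of_hall (hB : ThmB G) (hG : IsMinSimpleOddOrder G) (hM : IsCoatom M)
    (hK : IsPiHallOf (kappa M) K M) (hK1 : K ≠ ⊥) : sigmaCore M ⊓ centralizer (K : Set G) ≠ ⊥ := by
  classical
  obtain ⟨p, hp, X, hXK, hX⟩ := exists_prime_subgroup hK1
  haveI := Fact.mk hp
  have hC : Config M X p := config_of_kappa hG hM (prime_mem_kappa hK hp hXK hX) hX (hXK.trans hK.1)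
  rw [← kappa_Kstar_eq hB hG hM hK hXK hX]
  exact hC.hD

/-- An element of `K^#` does not centralize `M_F` (when `K^* ≤ M_F`). -/
theorem not_kappa_centralizes_fittingHallOf (hB : ThmB G) (hG : IsMinSimpleOddOrder G) (hM : IsCoatom M)
    (hK : IsPiHallOf (kappa M) K M) (hK1 : K ≠ ⊥)
    (hle : sigmaCore M ⊓ centralizer (K : Set G) ≤ fittingHallOf M) {k : G} (hk : k ∈ K) (hk1 : k ≠ 1)
    (hc : fittingHallOf M ≤ centralizer ({k} : Set G)) : False := by
  classical
  have hne := Kstar_ne_bot_of_hall hB hG hM hK hK1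
  have h2 : Nat.card ↥(sigmaCore M ⊓ centralizer (K : Set G)) ≠ 1 := fun h => hne ((Subgroup.eq_bot_iff_card _).mpr h)
  obtain ⟨q, hq, hqd⟩ := Nat.exists_prime_and_dvd h2
  haveI : Fact q.Prime := ⟨hq⟩
  obtain ⟨S, hS, -⟩ := exists_isMaxP_ge (N := sigmaCore M) (T := ⊥) bot_le IsPGroup.of_bot
  refine not_sylow_le_Kstar hB hG hM hK hK1 hqd hS ?_
  rw [← kappa_prime_action hB hG hM hK hk hk1]
  refine le_inf hS.le (le_trans ?_ hc)
  intro s hs
  have hqF : q ∣ Nat.card (fittingHallOf M) := hqd.trans (Subgroup.card_dvd_of_le hle)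
  have hcop : ((fittingHallOf M).relIndex M).Coprime q :=
    (Nat.Coprime.coprime_dvd_left hqF (fittingHallOf_coprime_relIndex (M := M))).symm
  refine mem_of_coprime_relIndex (fittingHallOf_normalized M) (piCoreOf_le _ M (hS.le hs)) ?_
  obtain ⟨j, hj⟩ := Cfsg.Agent.Lib.PGroups.exists_orderOf_of_mem_isPGroup hS.isP hs
  rw [hj]
  exact Nat.Coprime.pow_right j hcop

theorem not_kappa_dvd_of_centralizes (hB : ThmB G) (hG : IsMinSimpleOddOrder G) (hM : IsCoatom M)
    (hK : IsPiHallOf (kappa M) K M)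
    (hle : sigmaCore M ⊓ centralizer (K : Set G) ≤ fittingHallOf M) {C₀ : Subgroup G} (hC₀M : C₀ ≤ M)
    (hCn : M ≤ normalizer (C₀ : Set G)) (hCc : C₀ ≤ centralizer (fittingHallOf M : Set G)) {t : ℕ} (ht : t ∈ kappa M) :
    ¬ t ∣ Nat.card C₀ := by
  classical
  intro htd
  have htt : t.Prime := ht.1
  haveI : Fact t.Prime := ⟨htt⟩
  obtain ⟨z, hz⟩ := exists_prime_orderOf_dvd_card' (G := ↥C₀) t htd
  have hzo : orderOf (z : G) = t := by rw [Subgroup.orderOf_coe, hz]
  have hMs := coatom_isSolvable hG hM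
  obtain ⟨g, hg, hgle⟩ := IsPiHallOf.exists_conj_ge hMs hK (zpowers_le.mpr (hC₀M z.2)) (by
    intro r hr hd
    rw [Nat.card_zpowers, hzo] at hd
    rw [(Nat.prime_dvd_prime_iff_eq hr htt).mp hd]
    exact ht)
  obtain ⟨k, hk, e⟩ := hgle (mem_zpowers (z : G))
  have e' : g * k * g⁻¹ = (z : G) := e
  have hk1 : k ≠ 1 := by
    rintro rfl
    have h3 : (z : G) = 1 := by
      rw [← e']
      group
    rw [h3, orderOf_one] at hzo
    exact htt.one_lt.ne hzo
  have hKne : K ≠ ⊥ := by
    rintro rfl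
    exact hk1 hk
  have hkC : k ∈ C₀ := by
    have h3 : k = g⁻¹ * (z : G) * g := by
      rw [← e']
      group
    rw [h3]
    have h4 := (mem_normalizer_iff.mp (hCn (inv_mem hg)) (z : G)).mp z.2
    simpa using h4
  refine not_kappa_centralizes_fittingHallOf hB hG hM hK hKne hle hk hk1 ?_
  intro h hh
  rw [mem_centralizer_singleton_iff]
  exact mem_centralizer_iff.mp (hCc hkC) h hh

/-- `U` is a Hall subgroup. -/
theorem isPiHallOf_U (hG : IsMinSimpleOddOrder G) (hM : IsCoatom M) (hKU : IsSigmaDecomposition M K U) :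
    IsPiHallOf {q | q.Prime ∧ q ∉ kappa M ∧ q ∉ sigma M} U M := by
  classical
  have huniq := huniq13 hG
  refine ⟨hKU.compl.1, fun t ht hd => ⟨ht, not_kappa_of_dvd_U hG huniq hM hKU ht hd, not_sigma_of_dvd_U hG huniq hM hKU ht hd⟩, ?_⟩
  rintro t ht ⟨-, h2, h3⟩ hd
  have hc := hKU.compl
  have e := IsComplIn_card_eq hc
  have e2 := Cfsg.Agent.Lib.Coprime.card_mul_relIndex hc.1
  have e3 : U.relIndex M = Nat.card ↥(K ⊔ sigmaCore M) :=
    Nat.eq_of_mul_eq_mul_left Nat.card_pos (e2.trans e)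
  rw [e3] at hd
  have h4 := (isPiHallOf_kappa_sup hG hM hKU.hall).2.1 t ht hd
  rcases h4 with h | h
  · exact h2 h
  · exact h3 h

/-- A normal `t`-subgroup for a prime of `U` lies in `U`. -/
theorem le_U_of_normal (hG : IsMinSimpleOddOrder G) (hM : IsCoatom M) (hKU : IsSigmaDecomposition M K U) {T : Subgroup G} {t : ℕ}
    [Fact t.Prime] (hTle : T ≤ M) (hTM : M ≤ normalizer (T : Set G)) (hTp : IsPGroup t T) (ht : t ∉ kappa M) (ht' : t ∉ sigma M) : T ≤ U := by
  classical
  have htt : t.Prime := Fact.out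
  have hH := isPiHallOf_U hG hM hKU
  have hUM := hH.1
  have h1 := card_sup_mul_card_inf (hUM.trans hTM)
  have h2 : U ≤ T ⊔ U := le_sup_right
  have h3 := Cfsg.Agent.Lib.Coprime.card_mul_relIndex h2
  set i := U.relIndex (T ⊔ U) with hi
  have h4 : i * Nat.card ↥(T ⊓ U) = Nat.card T := by
    rw [← h3] at h1
    have h5 : Nat.card U * (i * Nat.card ↥(T ⊓ U)) = Nat.card U * Nat.card T := by
      rw [mul_comm (Nat.card U) (Nat.card T), ← h1]
      ring
    exact Nat.eq_of_mul_eq_mul_left Nat.card_pos h5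
  obtain ⟨k, hk⟩ := IsPGroup.iff_card.mp hTp
  have h6 : i ∣ t ^ k := by
    rw [← hk, ← h4]
    exact dvd_mul_right _ _
  have hTUM : T ⊔ U ≤ M := sup_le hTle hUM
  have h7 : i ∣ U.relIndex M := by
    rw [← Subgroup.relIndex_mul_relIndex U (T ⊔ U) M h2 hTUM]
    exact dvd_mul_right _ _
  have hi1 : i = 1 := by
    by_contra hne
    obtain ⟨r, hr, hrd⟩ := Nat.exists_prime_and_dvd hne
    have hrt : r = t := (Nat.prime_dvd_prime_iff_eq hr htt).mp (hr.dvd_of_dvd_pow (hrd.trans h6))
    subst hrt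
    exact hH.2.2 r hr ⟨hr, ht, ht'⟩ (hrd.trans h7)
  have h8 : T ⊔ U ≤ U := Subgroup.relIndex_eq_one.mp hi1
  exact le_sup_left.trans h8


section Abstract2

variable {Γ : Type*} [Group Γ] [Finite Γ]

theorem isNilpotent_of_le_aux {A B : Subgroup Γ} (hle : A ≤ B) (hB : Group.IsNilpotent B) : Group.IsNilpotent A := by
  haveI := hB
  have h3 : Group.IsNilpotent ↥(A.subgroupOf B) := inferInstance
  have h4 := isNilpotent_map_subtype h3
  rwa [Subgroup.map_subgroupOf_eq_of_le hle] at h4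

/-- Commutators modulo a complement. -/
theorem commutator_le_sup_derived_of_compl {N₀ S D : Subgroup Γ} [hS : S.Normal] (hc : IsComplIn S D N₀) :
    ⁅N₀, N₀⁆ ≤ S ⊔ ⁅D, D⁆ := by
  classical
  set π := QuotientGroup.mk' S with hπ
  have h1 : N₀.map π ≤ D.map π := by
    rintro _ ⟨n, hn, rfl⟩
    obtain ⟨a, ha, b, hb, rfl⟩ := hc.2.2.2 n hn
    refine ⟨b, hb, ?_⟩
    have ha1 : π a = 1 := (QuotientGroup.eq_one_iff a).mpr ha
    rw [map_mul, ha1, one_mul]
  have h2 : (⁅N₀, N₀⁆).map π ≤ (⁅D, D⁆).map π := by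
    rw [Subgroup.map_commutator, Subgroup.map_commutator]
    exact Subgroup.commutator_mono h1 h1
  have h3 : ⁅N₀, N₀⁆ ≤ ((⁅D, D⁆).map π).comap π := (Subgroup.map_le_iff_le_comap).mp h2
  rw [Subgroup.comap_map_eq, QuotientGroup.ker_mk', sup_comm] at h3
  exact h3

end Abstract2

theorem index_sigma_eq_relIndex (hG : IsMinSimpleOddOrder G) (hM : IsCoatom M) :
    (piCore (sigma M) ↥M).index = (sigmaCore M).relIndex M := by
  classical
  have huniq := huniq13 hG
  obtain ⟨hH1, hH2, hH3⟩ := (s1350_core hG huniq hM).1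
  have h3 : Nat.card (sigmaCore M) * (sigmaCore M).relIndex M = Nat.card M :=
    Cfsg.Agent.Lib.Coprime.card_mul_relIndex hH1
  have h4 := (piCore (sigma M) ↥M).card_mul_index
  have hσ : (piCore (sigma M) ↥M).map M.subtype = sigmaCore M := rfl
  rw [← hσ, card_map_subtype] at h3
  rw [← h3] at h4
  exact Nat.eq_of_mul_eq_mul_left Nat.card_pos h4

theorem map_normal_normalized (A : Subgroup ↥M) (hA : A.Normal) : M ≤ normalizer ((A.map M.subtype : Subgroup G) : Set G) := by
  intro m hm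
  rw [mem_normalizer_iff]
  intro a
  constructor
  · rintro ⟨c, hc, rfl⟩
    exact ⟨⟨m, hm⟩ * c * ⟨m, hm⟩⁻¹, hA.conj_mem c hc _, rfl⟩
  · rintro ⟨c, hc, e⟩
    refine ⟨⟨m, hm⟩⁻¹ * c * ⟨m, hm⟩, by simpa using hA.conj_mem c hc ⟨m, hm⟩⁻¹, ?_⟩
    have e' : (c : G) = m * a * m⁻¹ := e
    change m⁻¹ * (c : G) * m = a
    rw [e']
    group

theorem map_centralizer_le (A : Subgroup ↥M) :
    (centralizer (A : Set ↥M)).map M.subtype ≤ centralizer ((A.map M.subtype : Subgroup G) : Set G) := by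
  rintro _ ⟨c, hc, rfl⟩
  rw [mem_centralizer_iff]
  rintro _ ⟨f, hf, rfl⟩
  exact congrArg Subtype.val (mem_centralizer_iff.mp hc f hf)

/-- The Sylow subgroup `S` lies in `M_F`. -/
theorem sylow_le_fittingHall (hG : IsMinSimpleOddOrder G) (hM : IsCoatom M) {S : Subgroup ↥M} {q : ℕ} (hq : q.Prime) (hSn : S.Normal)
    (hSp : IsPGroup q S) (hSN : S ≤ piCore (sigma M) ↥M) (hSi : ¬ q ∣ S.relIndex (piCore (sigma M) ↥M)) (hqσ : q ∈ sigma M) :
    S ≤ fittingHall ↥M := by
  classical
  have huniq := huniq13 hG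
  haveI : Fact q.Prime := ⟨hq⟩
  obtain ⟨hH1, hH2, hH3⟩ := (s1350_core hG huniq hM).1
  set N₀ : Subgroup ↥M := piCore (sigma M) ↥M with hN₀
  have hσ : N₀.map M.subtype = sigmaCore M := rfl
  refine le_fittingHall hSn (hSp.isNilpotent) ?_
  obtain ⟨k, hk⟩ := IsPGroup.iff_card.mp hSp
  rw [hk]
  refine Nat.Coprime.pow_left k ((Nat.Prime.coprime_iff_not_dvd hq).mpr ?_)
  have h1 : S.index = S.relIndex N₀ * N₀.index := (Subgroup.relIndex_mul_index hSN).symm
  rw [h1]
  intro hd
  rcases (Nat.Prime.dvd_mul hq).mp hd with h | h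
  · exact hSi h
  · rw [index_sigma_eq_relIndex hG hM] at h
    exact hH3 q hq hqσ h

/-- The non-nilpotent case of S1356, inside `↥M`. -/
theorem fitting_of_U_bot (hB : ThmB G) (hG : IsMinSimpleOddOrder G) (hM : IsCoatom M)
    (hKU : IsSigmaDecomposition M K U) (hK1 : K ≠ ⊥) (hU : U = ⊥)
    (hq : (Nat.card ↥(sigmaCore M ⊓ centralizer (K : Set G))).Prime) :
    ⁅piCore (sigma M) ↥M, piCore (sigma M) ↥M⁆ ≤ fittingSubgroup ↥M ∧
      Group.IsNilpotent ↥(centralizer (fittingHall ↥M : Set ↥M)) := by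
  classical
  obtain ⟨S, D, hSn, hSp, hcompl, hSi, hDnil, hDfix, hYS, hDc, hKD⟩ := exists_K_invariant_compl hB hG hM hKU hK1 hU hq
  set Kst := sigmaCore M ⊓ centralizer (K : Set G) with hKst
  set q := Nat.card Kst with hqdef
  haveI : Fact q.Prime := ⟨hq⟩
  have hKH := hKU.hall
  have hKM : K ≤ M := hKH.1
  set N₀ : Subgroup ↥M := piCore (sigma M) ↥M with hN₀
  have hσ : N₀.map M.subtype = sigmaCore M := rfl
  have huniq := huniq13 hG
  obtain ⟨hH1, hH2, hH3⟩ := (s1350_core hG huniq hM).1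
  have hqσ : q ∈ sigma M := by
    have h2 : q ∣ Nat.card (sigmaCore M) := Subgroup.card_dvd_of_le inf_le_left
    exact piCoreOf_isPi (sigma M) M q hq h2
  have hSF : S ≤ fittingHall ↥M := sylow_le_fittingHall hG hM hq hSn hSp hcompl.1 hSi hqσ
  haveI : S.Normal := hSn
  -- the nilpotent normal subgroup `R`
  set R : Subgroup ↥M := N₀ ⊓ centralizer (S : Set ↥M) with hR
  have hRn : R.Normal := inferInstance
  have hRnil : Group.IsNilpotent R := by
    refine nilpotent_of_central_kernel (N₁ := S) (W₁ := D) ?_ ?_ hDnil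
    · intro a ha b hb
      exact (mem_centralizer_iff.mp hb.2 a ha.2)
    · intro r hr
      obtain ⟨a, ha, b, hb, e⟩ := hcompl.2.2.2 r hr.1
      rw [e]
      exact Subgroup.mul_mem_sup ha hb
  have hRF : R ≤ fittingSubgroup ↥M := le_fittingSubgroup_of_nilpotent hRn hRnil
  have hSFF : S ≤ fittingSubgroup ↥M := hSF.trans fittingHall_le_fittingSubgroup
  have hKst1 : sigmaCore M ⊓ centralizer (K : Set G) ≠ ⊥ := Kstar_ne_bot_of_hall hB hG hM hKH hK1
  constructor
  · -- `D' ≤ C(S)`
    obtain ⟨k₀, hk₀, hk₀1⟩ : ∃ k ∈ K, k ≠ 1 := by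
      obtain ⟨k, hk⟩ := (Subgroup.ne_bot_iff_exists_ne_one).mp hK1
      exact ⟨k, k.2, fun e => hk (Subtype.ext e)⟩
    have ho1 : orderOf k₀ ≠ 1 := fun h => hk₀1 (orderOf_eq_one_iff.1 h)
    obtain ⟨p, hp, hpd⟩ := Nat.exists_prime_and_dvd ho1
    obtain ⟨x, hxz, hxo⟩ := exists_mem_zpowers_orderOf hpd
    have hxK : x ∈ K := (zpowers_le.mpr hk₀) hxz
    let xb : ↥M := ⟨x, hKM hxK⟩
    have hxbo : orderOf xb = p := by
      rw [← hxo]
      exact Subgroup.orderOf_mk x (hKM hxK)
    have hzK : ∀ e ∈ zpowers xb, (e : G) ∈ K := by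
      intro e he
      obtain ⟨j, rfl⟩ := he
      have : ((xb ^ j : ↥M) : G) = x ^ j := rfl
      rw [this]
      exact zpow_mem hxK j
    have hpσ : p ∉ sigma M := by
      have h2 : p ∣ Nat.card K := by
        rw [← hxo]
        exact Subgroup.orderOf_dvd_natCard K hxK
      exact (hKH.2.1 p hp h2).2.2.1
    have hpq : p ≠ q := fun e => hpσ (e ▸ hqσ)
    have hRz : zpowers xb ≤ normalizer (D : Set ↥M) := zpowers_le.mpr (hKD _ hxK)
    have hDS : ⁅D, D⁆ ≤ centralizer (S : Set ↥M) := by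
      refine comm_le_centralizer D (zpowers xb) S ?_ ?_ ?_ ?_ ?_ ?_ ?_ ?_
      · intro e
        rw [zpowers_eq_bot] at e
        rw [e, orderOf_one] at hxbo
        exact hp.one_lt.ne hxbo
      · intro e he u hu
        exact (mem_normalizer_iff.mp (hRz he) u).mp hu
      · intro e he he1 u hu heu
        have h3 : u ∈ D ⊓ centralizer ({e} : Set ↥M) := by
          refine Subgroup.mem_inf.mpr ⟨hu, ?_⟩
          rw [mem_centralizer_singleton_iff]
          exact heu.symm
        rw [hDfix e (hzK e he) he1] at h3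
        exact h3
      · intro y _ h hh
        exact hSn.conj_mem h hh y
      · haveI := hSp.isNilpotent
        infer_instance
      · obtain ⟨k, hk⟩ := IsPGroup.iff_card.mp hSp
        rw [hk]
        refine Nat.Coprime.pow_left k ?_
        refine (Nat.Prime.coprime_iff_not_dvd hq).mpr fun hd => ?_
        rcases prime_dvd_sup hRz hq hd with h | h
        · exact (Nat.Prime.coprime_iff_not_dvd hq).mp hDc.symm h
        · rw [Nat.card_zpowers, hxbo] at h
          exact hpq ((Nat.prime_dvd_prime_iff_eq hq hp).mp h).symm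
      · rw [Nat.card_zpowers, hxbo]
        exact hp
      · haveI : IsCyclic Kst := isCyclic_of_prime_card rfl
        let f : ↥(S ⊓ centralizer (zpowers xb : Set ↥M)) →* ↥Kst :=
          { toFun := fun a => ⟨(a.1 : G), by
              refine ?_
              have h3 : (a.1 : G) ∈ sigmaCore M ⊓ centralizer ({x} : Set G) := by
                refine Subgroup.mem_inf.mpr ⟨⟨a.1, hcompl.1 a.2.1, rfl⟩, ?_⟩
                rw [mem_centralizer_singleton_iff]
                have h4 := mem_centralizer_iff.mp a.2.2 xb (mem_zpowers xb)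
                exact (congrArg Subtype.val h4).symm
              rwa [kappa_prime_action hB hG hM hKH hxK (fun e => by
                rw [e, orderOf_one] at hxo
                exact hp.one_lt.ne hxo)] at h3⟩
            map_one' := rfl
            map_mul' := fun _ _ => rfl }
        refine isCyclic_of_injective f ?_
        intro a b hab
        apply Subtype.ext
        apply Subtype.ext
        have h5 := congrArg Subtype.val hab
        exact h5
    have h1 : ⁅N₀, N₀⁆ ≤ S ⊔ ⁅D, D⁆ := commutator_le_sup_derived_of_compl hcompl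
    refine h1.trans (sup_le hSFF (le_trans ?_ hRF))
    refine le_inf ?_ hDS
    exact (Subgroup.commutator_le_self D).trans hcompl.2.1
  · -- `C(M_F) ≤ R`
    have hle : Kst ≤ fittingHallOf M := (fittingHall_of_U_bot hB hG hM hKU hK1 hU hq).1
    have hCM : (centralizer (fittingHall ↥M : Set ↥M)).map M.subtype ≤ centralizer (fittingHallOf M : Set G) :=
      map_centralizer_le _
    have hCn : M ≤ normalizer (((centralizer (fittingHall ↥M : Set ↥M)).map M.subtype : Subgroup G) : Set G) :=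
      map_normal_normalized _ inferInstance
    have hkd := fun (t : ℕ) (ht : t ∈ kappa M) =>
      not_kappa_dvd_of_centralizes hB hG hM hKH hle (map_subtype_le _) hCn hCM ht
    refine isNilpotent_of_le_aux ?_ hRnil
    intro c hc
    refine Subgroup.mem_inf.mpr ⟨?_, ?_⟩
    · refine mem_of_coprime_relIndex_aux (N := ⊤) (fun g _ => mem_normalizer_of_normal_aux inferInstance g) (Subgroup.mem_top c) ?_
      refine Nat.coprime_of_dvd fun t ht h1 h2 => ?_
      rw [Subgroup.relIndex_top_right, index_sigma_eq_relIndex hG hM] at h1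
      have h3 : t ∣ Nat.card M := h1.trans (Subgroup.relIndex_dvd_card _ _)
      have hMle : M ≤ K ⊔ sigmaCore M := by
        intro m hm
        obtain ⟨u, hu, b, hb, rfl⟩ := hKU.compl.2.2.2 m hm
        rw [hU, mem_bot] at hu
        rw [hu, one_mul]
        exact hb
      have h4 := (isPiHallOf_kappa_sup hG hM hKH).2.1 t ht (h3.trans (Subgroup.card_dvd_of_le hMle))
      rcases h4 with h4 | h4
      · refine hkd t h4 ?_
        rw [card_map_subtype]
        exact h2.trans (Subgroup.orderOf_dvd_natCard _ hc)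
      · exact hH3 t ht h4 h1
    · rw [mem_centralizer_iff]
      intro s hs
      exact mem_centralizer_iff.mp hc s (hSF hs)


section Abstract3

variable {Γ : Type*} [Group Γ] [Finite Γ]

/-- If `Γ = E F` with `E'` abelian, then `Γ'' ≤ F`. -/
theorem second_derived_le {F E : Subgroup Γ} [hF : F.Normal] (hE : E ⊔ F = ⊤) (hc : IsMulCommutative ↥⁅E, E⁆) :
    ⁅commutator Γ, commutator Γ⁆ ≤ F := by
  classical
  set π := QuotientGroup.mk' F with hπ
  have h1 : (⊤ : Subgroup Γ).map π = E.map π := by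
    rw [← hE, Subgroup.map_sup]
    have h2 : F.map π = ⊥ := by
      rw [Subgroup.map_eq_bot_iff, QuotientGroup.ker_mk']
    rw [h2, sup_bot_eq]
  have h3 : (commutator Γ).map π = (⁅E, E⁆).map π := by
    rw [commutator_def, Subgroup.map_commutator, h1, ← Subgroup.map_commutator]
  have h4 : (⁅commutator Γ, commutator Γ⁆).map π = ⊥ := by
    rw [Subgroup.map_commutator, h3, ← Subgroup.map_commutator]
    have h5 : ⁅⁅E, E⁆, ⁅E, E⁆⁆ = ⊥ := by
      rw [eq_bot_iff, Subgroup.commutator_le]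
      intro a ha b hb
      have h6 := mul_comm' (⟨a, ha⟩ : ↥⁅E, E⁆) ⟨b, hb⟩
      have h7 : a * b = b * a := congrArg Subtype.val h6
      rw [commutatorElement_def, h7]
      simp
    rw [h5, Subgroup.map_bot]
  rw [Subgroup.map_eq_bot_iff, QuotientGroup.ker_mk'] at h4
  exact h4

end Abstract3

/-- The nilpotent case of S1356, inside `↥M`. -/
theorem fitting_of_nilpotent (hG : IsMinSimpleOddOrder G) (hB : ThmB G) (hM : IsCoatom M)
    (hKU : IsSigmaDecomposition M K U) (hn : Group.IsNilpotent (sigmaCore M)) :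
    ⁅commutator ↥M, commutator ↥M⁆ ≤ fittingSubgroup ↥M ∧
      Group.IsNilpotent ↥(centralizer (fittingHall ↥M : Set ↥M)) := by
  classical
  have huniq := huniq13 hG
  have e := sigmaCore_eq_fittingHallOf hG hM hn
  have hFσ : fittingHall ↥M = piCore (sigma M) ↥M :=
    (Subgroup.map_injective M.subtype_injective e).symm
  obtain ⟨hH1, hH2, hH3⟩ := (s1350_core hG huniq hM).1
  have hMs := coatom_isSolvable hG hM
  constructor
  · obtain ⟨E, hE⟩ := exists_compl_sigma hG hM
    have hc := s1420_b hG huniq (hpl13 hG) (h1412_of hG) hM hE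
    have hle : ⁅commutator ↥M, commutator ↥M⁆ ≤ fittingHall ↥M := by
      refine second_derived_le (E := E.subgroupOf M) ?_ ?_
      · rw [eq_top_iff]
        intro m _
        obtain ⟨a, ha, b, hb, e'⟩ := hE.2.2.2 m m.2
        obtain ⟨b', hb', rfl⟩ := hb
        have h3 : m = (⟨a, hE.1 ha⟩ : ↥M) * b' := Subtype.ext e'
        rw [h3]
        refine Subgroup.mul_mem_sup ?_ ?_
        · exact ha
        · rw [hFσ]
          exact hb'
      · constructor
        constructor
        rintro ⟨a, ha⟩ ⟨b, hb⟩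
        have hmap : Subgroup.map M.subtype ⁅E.subgroupOf M, E.subgroupOf M⁆ = ⁅E, E⁆ := by
          rw [Subgroup.map_commutator, Subgroup.map_subgroupOf_eq_of_le hE.1]
        have ha' : (a : G) ∈ ⁅E, E⁆ := hmap ▸ ⟨a, ha, rfl⟩
        have hb' : (b : G) ∈ ⁅E, E⁆ := hmap ▸ ⟨b, hb, rfl⟩
        have h6 := mul_comm' (⟨a, ha'⟩ : ↥⁅E, E⁆) ⟨b, hb'⟩
        have h7 : (a : G) * b = b * a := congrArg Subtype.val h6
        apply Subtype.ext
        apply Subtype.ext
        exact h7
    exact hle.trans fittingHall_le_fittingSubgroup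
  · set C₀ : Subgroup ↥M := centralizer (fittingHall ↥M : Set ↥M) with hC₀
    set N₀ : Subgroup ↥M := piCore (sigma M) ↥M with hN₀
    have hσ : N₀.map M.subtype = sigmaCore M := rfl
    have hle : sigmaCore M ⊓ centralizer (K : Set G) ≤ fittingHallOf M := inf_le_left.trans e.le
    have hCM : C₀.map M.subtype ≤ centralizer (fittingHallOf M : Set G) := map_centralizer_le _
    have hCn : M ≤ normalizer ((C₀.map M.subtype : Subgroup G) : Set G) := map_normal_normalized _ inferInstance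
    have hkd := fun (t : ℕ) (ht : t ∈ kappa M) =>
      not_kappa_dvd_of_centralizes hB hG hM hKU.hall hle (map_subtype_le _) hCn hCM ht
    have hs : Group.IsSolvable ↥C₀ := by
      haveI := hMs
      infer_instance
    obtain ⟨X₀, hX₀⟩ := exists_isPiHallOf_solvable {t : ℕ | t.Prime ∧ t ∉ sigma M} hs
    have hXC : X₀ ≤ C₀ := hX₀.1
    have hUH := isPiHallOf_U hG hM hKU
    have hXcomm : ∀ a ∈ X₀, ∀ b ∈ X₀, a * b = b * a := by
      obtain ⟨g, hg, hgle⟩ := IsPiHallOf.exists_conj_ge (T := X₀.map M.subtype) hMs hUH (map_subtype_le _) (by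
        intro r hr hd
        rw [card_map_subtype] at hd
        refine ⟨hr, ?_, (hX₀.2.1 r hr hd).2⟩
        intro hrκ
        have h2 := hkd r hrκ
        rw [card_map_subtype] at h2
        exact h2 (hd.trans (Subgroup.card_dvd_of_le hXC)))
      have hcl := s1359_core hG huniq (hpl13 hG) (h1412_of hG) hM hKU
      have hS1 := sigmaCore_ne_bot hG huniq hM
      obtain ⟨y, hy⟩ := (Subgroup.ne_bot_iff_exists_ne_one).mp hS1
      have hUhat : ∀ a ∈ X₀, ∃ u ∈ (closure ((U : Set G) ∩ sigmaHat M)), g * u * g⁻¹ = (a : G) := by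
        intro a ha
        obtain ⟨u, hu, e2⟩ := hgle (⟨a, ha, rfl⟩ : (a : G) ∈ X₀.map M.subtype)
        have e2' : g * u * g⁻¹ = (a : G) := e2
        refine ⟨u, Subgroup.subset_closure ⟨hu, hUH.1 hu, (y : G), y.2, fun e3 => hy (Subtype.ext e3), ?_⟩, e2'⟩
        have h5 : u = g⁻¹ * (a : G) * g := by
          rw [← e2']
          group
        have huC : u ∈ C₀.map M.subtype := by
          rw [h5]
          have h4 := (mem_normalizer_iff.mp (hCn (inv_mem hg)) (a : G)).mp ⟨a, hXC ha, rfl⟩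
          simpa using h4
        have h6 := hCM huC
        have hyF : (y : G) ∈ fittingHallOf M := by
          rw [← e]
          exact y.2
        exact (mem_centralizer_iff.mp h6 _ hyF).symm
      intro a ha b hb
      obtain ⟨u, hu, hua⟩ := hUhat a ha
      obtain ⟨v, hv, hvb⟩ := hUhat b hb
      have h7 := hcl.is_comm.comm (⟨u, hu⟩ : ↥(closure ((U : Set G) ∩ sigmaHat M))) ⟨v, hv⟩
      have h8 : u * v = v * u := congrArg Subtype.val h7
      apply Subtype.ext
      change (a : G) * b = b * a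
      rw [← hua, ← hvb]
      calc g * u * g⁻¹ * (g * v * g⁻¹) = g * (u * v) * g⁻¹ := by group
        _ = g * (v * u) * g⁻¹ := by rw [h8]
        _ = g * v * g⁻¹ * (g * u * g⁻¹) := by group
    have hXnil : Group.IsNilpotent X₀ := by
      letI : CommGroup X₀ := { (inferInstance : Group X₀) with
        mul_comm := fun a b => Subtype.ext (hXcomm a a.2 b b.2) }
      exact CommGroup.isNilpotent
    refine nilpotent_of_central_kernel (N₁ := N₀) (W₁ := X₀) ?_ ?_ hXnil
    · intro a ha b hb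
      have ha2 : a ∈ fittingHall ↥M := by
        rw [hFσ]
        exact ha.2
      exact mem_centralizer_iff.mp hb a ha2
    · have h1 : (N₀ ⊔ X₀).relIndex C₀ = 1 := by
        by_contra hne
        obtain ⟨r, hr, hrd⟩ := Nat.exists_prime_and_dvd hne
        by_cases hrσ : r ∈ sigma M
        · have h2 : r ∣ N₀.relIndex C₀ := hrd.trans (Subgroup.relIndex_dvd_of_le_left C₀ le_sup_left)
          have h3 : r ∣ N₀.index := h2.trans (Subgroup.relIndex_dvd_index_of_normal N₀ C₀)
          rw [index_sigma_eq_relIndex hG hM] at h3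
          exact hH3 r hr hrσ h3
        · exact hX₀.2.2 r hr ⟨hr, hrσ⟩ (hrd.trans (Subgroup.relIndex_dvd_of_le_left C₀ le_sup_right))
      exact Subgroup.relIndex_eq_one.mp h1


/-- `F(M) ≤ M'` when `κ(M)` is nonempty. -/
theorem fitting_le_commutator (hB : ThmB G) (hG : IsMinSimpleOddOrder G) (hM : IsCoatom M)
    (hKU : IsSigmaDecomposition M K U) (hK1 : K ≠ ⊥)
    (hle : sigmaCore M ⊓ centralizer (K : Set G) ≤ fittingHallOf M) : fittingOf M ≤ ⁅M, M⁆ := by
  classical
  have hFnil : Group.IsNilpotent (fittingOf M) := isNilpotent_map_subtype fittingSubgroup_isNilpotent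
  have hFM : fittingOf M ≤ M := map_subtype_le _
  have hMF : M ≤ normalizer (fittingOf M : Set G) := map_normal_normalized _ inferInstance
  refine le_of_forall_Oq _ _ rfl hFnil ?_
  intro t _
  have htt : t.Prime := Fact.out
  set T : Subgroup G := Oq t (fittingOf M) with hT
  have hTF : T ≤ fittingOf M := Oq_le t _
  have hTp : IsPGroup t T := Oq_isPGroup t _
  have hTM : T ≤ M := hTF.trans hFM
  have hMT : M ≤ normalizer (T : Set G) := fun m hm => mem_normalizer_Oq hFnil (hMF hm)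
  rw [(s1365_core hB hG hM hKU hK1).1]
  by_cases hσ : t ∈ sigma M
  · refine le_trans ?_ le_sup_right
    refine le_piCoreOf hTM hMT ?_
    intro r hr hd
    obtain ⟨k, hk⟩ := IsPGroup.iff_card.mp hTp
    rw [hk] at hd
    rw [(Nat.prime_dvd_prime_iff_eq hr htt).mp (hr.dvd_of_dvd_pow hd)]
    exact hσ
  · by_cases hκ : t ∈ kappa M
    · have hTC : T ≤ centralizer (fittingHallOf M : Set G) := by
        intro a ha
        rw [mem_centralizer_iff]
        intro b hb
        have hbF : b ∈ fittingOf M := Subgroup.map_mono fittingHall_le_fittingSubgroup hb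
        refine comm_of_coprime_of_nilpotent_subgroup hFnil hbF (hTF ha) ?_
        obtain ⟨k, hk⟩ := Cfsg.Agent.Lib.PGroups.exists_orderOf_of_mem_isPGroup hTp ha
        rw [hk]
        refine Nat.Coprime.pow_right k ?_
        refine ((Nat.Prime.coprime_iff_not_dvd htt).mpr fun hd => ?_).symm
        have h2 := hd.trans (Subgroup.orderOf_dvd_natCard _ hb)
        exact hσ (piCoreOf_isPi (sigma M) M t htt (h2.trans (Subgroup.card_dvd_of_le (fittingHallOf_le_sigmaCore hG hM))))
      have h3 := not_kappa_dvd_of_centralizes hB hG hM hKU.hall hle hTM hMT hTC hκ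
      have hT1 : Nat.card T = 1 := by
        by_contra hne
        obtain ⟨r, hr, hrd⟩ := Nat.exists_prime_and_dvd hne
        obtain ⟨k, hk⟩ := IsPGroup.iff_card.mp hTp
        rw [hk] at hrd
        have h4 := (Nat.prime_dvd_prime_iff_eq hr htt).mp (hr.dvd_of_dvd_pow hrd)
        subst h4
        exact h3 (by rw [hk]; exact hrd)
      rw [(Subgroup.eq_bot_iff_card _).mpr hT1]
      exact bot_le
    · exact (le_U_of_normal hG hM hKU hTM hMT hTp hκ hσ).trans le_sup_left

/-- The key structure statement, inside `↥M`. -/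
theorem fitting_key (hB : ThmB G) (hG : IsMinSimpleOddOrder G) (hM : IsCoatom M)
    (h1351 : ∀ K : Subgroup G, IsPiHallOf (kappa M) K M → IsCyclic K)
    (h1373 : ∀ K U : Subgroup G, IsSigmaDecomposition M K U → K ≠ ⊥ → U = ⊥ →
      (Nat.card ↥(sigmaCore M ⊓ centralizer (K : Set G))).Prime) :
    ⁅commutator ↥M, commutator ↥M⁆ ≤ fittingSubgroup ↥M ∧
      Group.IsNilpotent ↥(centralizer (fittingHall ↥M : Set ↥M)) := by
  classical
  have huniq := huniq13 hG
  have hlt := commutator_lt_of_coatom hG hM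
  have hσc := sigmaCore_le_commutator hG huniq hM
  by_cases hn : Group.IsNilpotent (sigmaCore M)
  · have hs := coatom_isSolvable hG hM
    obtain ⟨K, hK⟩ := exists_isPiHallOf_solvable (kappa M) hs
    obtain ⟨⟨U, hU⟩, -⟩ := s1352_core hB hG hM (h1351 _ hK) hK
    exact fitting_of_nilpotent hG hB hM hU hn
  · obtain ⟨E, hE⟩ := exists_compl_sigma hG hM
    have hKH := compl_isPiHallOf_kappa hG hM hE hn
    have hKc := h1351 E hKH
    have hE1 : E ≠ ⊥ := by
      rintro rfl
      have h1 : M ≤ sigmaCore M := by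
        intro m hm
        obtain ⟨a, ha, b, hb, rfl⟩ := hE.2.2.2 m hm
        rw [mem_bot] at ha
        rw [ha, one_mul]
        exact hb
      exact absurd (h1.trans hσc) (not_le_of_gt hlt)
    have hKU : IsSigmaDecomposition M E ⊥ := by
      refine ⟨hKc, hKH, ⟨bot_le, sup_le hE.1 hE.2.1, bot_inf_eq _, fun m hm => ?_⟩, fun g _ => ?_⟩
      · obtain ⟨a, ha, b, hb, rfl⟩ := hE.2.2.2 m hm
        exact ⟨1, one_mem _, a * b, Subgroup.mul_mem_sup ha hb, by simp⟩
      · rw [mem_normalizer_iff]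
        intro h
        simp only [SetLike.mem_coe, mem_bot]
        constructor
        · rintro rfl
          simp
        · intro h'
          simpa using h'
    have hq := h1373 E ⊥ hKU hE1 rfl
    obtain ⟨h1, h2⟩ := fitting_of_U_bot hB hG hM hKU hE1 rfl hq
    have hcomm : commutator ↥M = piCore (sigma M) ↥M := by
      apply Subgroup.map_injective M.subtype_injective
      have hσ : (piCore (sigma M) ↥M).map M.subtype = sigmaCore M := rfl
      rw [Subgroup.map_subtype_commutator, hσ, (s1365_core hB hG hM hKU hE1).1, bot_sup_eq]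
    rw [hcomm]
    exact ⟨h1, h2⟩

/-- **S1356** with the hypotheses on Hall `κ`-subgroups. -/
theorem s1356_core (hB : ThmB G) (hG : IsMinSimpleOddOrder G) (hM : IsCoatom M)
    (h1351 : ∀ K : Subgroup G, IsPiHallOf (kappa M) K M → IsCyclic K)
    (h1373 : ∀ K U : Subgroup G, IsSigmaDecomposition M K U → K ≠ ⊥ → U = ⊥ →
      (Nat.card ↥(sigmaCore M ⊓ centralizer (K : Set G))).Prime) :
    ⁅⁅M, M⁆, ⁅M, M⁆⁆ ≤ fittingOf M ∧
      fittingOf M = (M ⊓ centralizer (fittingHallOf M : Set G)) ⊔ fittingHallOf M ∧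
      ((kappa M).Nonempty → fittingOf M ≤ ⁅M, M⁆) := by
  classical
  obtain ⟨h1, h2⟩ := fitting_key hB hG hM h1351 h1373
  have hCF : centralizer (fittingHall ↥M : Set ↥M) ≤ fittingSubgroup ↥M :=
    le_fittingSubgroup_of_nilpotent inferInstance h2
  have hmap : (centralizer (fittingHall ↥M : Set ↥M)).map M.subtype = M ⊓ centralizer (fittingHallOf M : Set G) := by
    apply le_antisymm
    · exact le_inf (map_subtype_le _) (map_centralizer_le _)
    · intro a ha
      obtain ⟨ha1, ha2⟩ := Subgroup.mem_inf.mp ha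
      refine ⟨⟨a, ha1⟩, ?_, rfl⟩
      refine (mem_centralizer_iff).mpr ?_
      intro f hf
      exact Subtype.ext (mem_centralizer_iff.mp ha2 (f : G) ⟨f, hf, rfl⟩)
  refine ⟨?_, ?_, ?_⟩
  · have e : ⁅M, M⁆ = (commutator ↥M).map M.subtype := (Subgroup.map_subtype_commutator M).symm
    rw [e, ← Subgroup.map_commutator]
    exact Subgroup.map_mono h1
  · apply le_antisymm
    · have h3 : fittingSubgroup ↥M ≤ centralizer (fittingHall ↥M : Set ↥M) ⊔ fittingHall ↥M := fitting_le_centralizer_sup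
      have h4 := Subgroup.map_mono (f := M.subtype) h3
      rw [Subgroup.map_sup, hmap] at h4
      exact h4
    · rw [← hmap]
      refine sup_le (Subgroup.map_mono hCF) (Subgroup.map_mono fittingHall_le_fittingSubgroup)
  · rintro ⟨t, ht⟩
    have hs := coatom_isSolvable hG hM
    obtain ⟨K, hK⟩ := exists_isPiHallOf_solvable (kappa M) hs
    obtain ⟨⟨U, hU⟩, -⟩ := s1352_core hB hG hM (h1351 _ hK) hK
    have hK1 : K ≠ ⊥ := by
      rintro rfl
      have h3 := hK.2.2 t ht.1 ht
      apply h3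
      rw [Subgroup.relIndex_bot_left]
      exact ht.2.1
    exact fitting_le_commutator hB hG hM hU hK1 (Kstar_le_fittingHallOf hB hG hM hU hK1 (h1373 K U hU hK1))

end Cfsg.Agent.Lib.FT
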