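import Cfsg.Agent.Lib.FT.BG19e
import Cfsg.Agent.Lib.FT.FrobFix
import Cfsg.Agent.Lib.Basic.Frattini
import Cfsg.Agent.Lib.Transfer.Frattini

/-!
BG19f: a Frobenius group `D ⋊ ⟨k⟩` acting on a `q`-group `S` with `C_S(k)` of order `q`:
`|S : C_S(D)| = q ^ |k|` and `Φ(S) ≤ C_S(D)`; no invariant subgroups strictly between.
-/

set_option autoImplicit false
set_option linter.unusedSectionVars false
set_option linter.style.haveILetI false

namespace Cfsg.Agent.Lib.FT

open Subgroup Cfsg Cfsg.Agent.Lib.OddLocal Cfsg.Agent.Lib.Basic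

variable {X : Type*} [Group X] [Finite X]

theorem centralizer_sup_aux (A B : Subgroup X) :
    centralizer ((A ⊔ B : Subgroup X) : Set X) = centralizer (A : Set X) ⊓ centralizer (B : Set X) := by
  apply le_antisymm
  · exact le_inf (centralizer_le (le_sup_left : A ≤ A ⊔ B)) (centralizer_le (le_sup_right : B ≤ A ⊔ B))
  · intro c hc
    obtain ⟨h1, h2⟩ := Subgroup.mem_inf.mp hc
    have h3 : A ⊔ B ≤ centralizer ({c} : Set X) := by
      refine sup_le (fun a ha => ?_) (fun b hb => ?_)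
      · rw [mem_centralizer_singleton_iff]
        exact (mem_centralizer_iff.mp h1 a ha)
      · rw [mem_centralizer_singleton_iff]
        exact (mem_centralizer_iff.mp h2 b hb)
    rw [mem_centralizer_iff]
    intro w hw
    have h4 := h3 hw
    rw [mem_centralizer_singleton_iff] at h4
    exact h4

/-- The hypotheses on a Frobenius group `D ⋊ ⟨k⟩` acting on a `q`-group `S`. -/
structure FrobAct (S D : Subgroup X) (q : ℕ) (k : X) : Prop where
  hq : q.Prime
  hSp : IsPGroup q S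
  hSn : ∀ x ∈ D ⊔ zpowers k, ∀ h ∈ S, x * h * x⁻¹ ∈ S
  hk1 : k ≠ 1
  hkD : k ∈ normalizer (D : Set X)
  hfpf : ∀ e ∈ zpowers k, e ≠ 1 → ∀ u ∈ D, e * u = u * e → u = 1
  hcop : (Nat.card S).Coprime (Nat.card ↥(D ⊔ zpowers k))
  hY : Nat.card ↥(S ⊓ centralizer (zpowers k : Set X)) = q
  hnc : ¬ S ≤ centralizer (D : Set X)

namespace FrobAct

variable {S D : Subgroup X} {q : ℕ} {k : X}

theorem formula (h : FrobAct S D q k) {T : Subgroup X} (hTS : T ≤ S)
    (hTn : ∀ x ∈ D ⊔ zpowers k, ∀ t ∈ T, x * t * x⁻¹ ∈ T) :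
    Nat.card ↥(T ⊓ centralizer ((D ⊔ zpowers k : Subgroup X) : Set X)) ^ orderOf k * Nat.card T =
      Nat.card ↥(T ⊓ centralizer (zpowers k : Set X)) ^ orderOf k * Nat.card ↥(T ⊓ centralizer (D : Set X)) := by
  classical
  have hE1 : zpowers k ≠ ⊥ := by
    rw [Ne, zpowers_eq_bot]
    exact h.hk1
  have hkD' : zpowers k ≤ normalizer (D : Set X) := zpowers_le.mpr h.hkD
  have := frobenius_fix_formula D (zpowers k) T hE1
    (fun e he u hu => (mem_normalizer_iff.mp (hkD' he) u).mp hu) h.hfpf hTn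
    (by
      haveI : Fact q.Prime := ⟨h.hq⟩
      have hp : IsPGroup q T := IsPGroup.to_le h.hSp hTS
      haveI := hp.isNilpotent
      infer_instance)
    (Nat.Coprime.coprime_dvd_left (Subgroup.card_dvd_of_le hTS) h.hcop)
  rwa [Nat.card_zpowers] at this

theorem inf_centralizer_eq_bot (h : FrobAct S D q k) :
    (S ⊓ centralizer (zpowers k : Set X)) ⊓ centralizer (D : Set X) = ⊥ := by
  classical
  have hqq := h.hq
  set Y := S ⊓ centralizer (zpowers k : Set X) with hY
  have hYc : Nat.card Y = q := h.hY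
  have hd : Nat.card ↥(Y ⊓ centralizer (D : Set X)) ∣ q := by
    rw [← hYc]
    exact Subgroup.card_dvd_of_le inf_le_left
  rcases (Nat.dvd_prime hqq).mp hd with h1 | h1
  · exact (Subgroup.eq_bot_iff_card _).mpr h1
  · exfalso
    have e : Y ⊓ centralizer (D : Set X) = Y := by
      apply Subgroup.eq_of_le_of_card_ge inf_le_left
      rw [h1, hYc]
    have e2 : S ⊓ centralizer ((D ⊔ zpowers k : Subgroup X) : Set X) = Y := by
      rw [centralizer_sup_aux, inf_comm (centralizer (D : Set X)), ← inf_assoc, e]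
    have hf := h.formula le_rfl h.hSn
    rw [e2, ← hY] at hf
    have h2 : Nat.card S = Nat.card ↥(S ⊓ centralizer (D : Set X)) :=
      Nat.eq_of_mul_eq_mul_left (pow_pos Nat.card_pos _) hf
    have h3 : S ⊓ centralizer (D : Set X) = S :=
      Subgroup.eq_of_le_of_card_ge inf_le_left (by rw [← h2])
    exact h.hnc (inf_eq_left.mp h3)

theorem inf_centralizer_sup_eq_bot (h : FrobAct S D q k) {T : Subgroup X} (hTS : T ≤ S) :
    T ⊓ centralizer ((D ⊔ zpowers k : Subgroup X) : Set X) = ⊥ := by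
  rw [eq_bot_iff]
  intro x hx
  obtain ⟨h1, h2⟩ := Subgroup.mem_inf.mp hx
  rw [centralizer_sup_aux] at h2
  obtain ⟨h3, h4⟩ := Subgroup.mem_inf.mp h2
  rw [← h.inf_centralizer_eq_bot]
  exact Subgroup.mem_inf.mpr ⟨Subgroup.mem_inf.mpr ⟨hTS h1, h4⟩, h3⟩

theorem count (h : FrobAct S D q k) {T : Subgroup X} (hTS : T ≤ S)
    (hTn : ∀ x ∈ D ⊔ zpowers k, ∀ t ∈ T, x * t * x⁻¹ ∈ T) :
    Nat.card T = Nat.card ↥(T ⊓ centralizer (zpowers k : Set X)) ^ orderOf k * Nat.card ↥(T ⊓ centralizer (D : Set X)) := by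
  have hf := h.formula hTS hTn
  rw [h.inf_centralizer_sup_eq_bot hTS] at hf
  simpa using hf

theorem card_eq (h : FrobAct S D q k) :
    Nat.card S = q ^ orderOf k * Nat.card ↥(S ⊓ centralizer (D : Set X)) := by
  have := h.count le_rfl h.hSn
  rwa [h.hY] at this

/-- The dichotomy for an invariant subgroup. -/
theorem dichotomy (h : FrobAct S D q k) {T : Subgroup X} (hTS : T ≤ S)
    (hTn : ∀ x ∈ D ⊔ zpowers k, ∀ t ∈ T, x * t * x⁻¹ ∈ T) :
    T ≤ centralizer (D : Set X) ∨ (S ⊓ centralizer (zpowers k : Set X) ≤ T ∧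
      Nat.card T = q ^ orderOf k * Nat.card ↥(T ⊓ centralizer (D : Set X))) := by
  classical
  have hqq := h.hq
  have hc := h.count hTS hTn
  set Y := S ⊓ centralizer (zpowers k : Set X) with hY
  have hYc : Nat.card Y = q := h.hY
  have hle : T ⊓ centralizer (zpowers k : Set X) ≤ Y := inf_le_inf_right _ hTS
  have hd : Nat.card ↥(T ⊓ centralizer (zpowers k : Set X)) ∣ q := by
    rw [← hYc]
    exact Subgroup.card_dvd_of_le hle
  rcases (Nat.dvd_prime hqq).mp hd with h1 | h1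
  · left
    rw [h1, one_pow, one_mul] at hc
    have h3 : T ⊓ centralizer (D : Set X) = T :=
      Subgroup.eq_of_le_of_card_ge inf_le_left (by rw [← hc])
    exact inf_eq_left.mp h3
  · right
    rw [h1] at hc
    refine ⟨?_, hc⟩
    have e : T ⊓ centralizer (zpowers k : Set X) = Y :=
      Subgroup.eq_of_le_of_card_ge hle (by rw [h1, hYc])
    rw [← e]
    exact inf_le_left

/-- `Φ(S)` is centralized by `D`. -/
theorem frattini_le (h : FrobAct S D q k) :
    (frattini ↥S).map S.subtype ≤ centralizer (D : Set X) := by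
  classical
  have hqq := h.hq
  have hFS : (frattini ↥S).map S.subtype ≤ S := map_subtype_le _
  have hnS : ∀ x ∈ D ⊔ zpowers k, x ∈ normalizer (S : Set X) := fun x hx =>
    Cfsg.Agent.Lib.Coprime.mem_normalizer_of_conj_le S x (fun s hs => h.hSn x hx s hs)
  have hFn : ∀ x ∈ normalizer (S : Set X), x ∈ normalizer (((frattini ↥S).map S.subtype : Subgroup X) : Set X) :=
    fun x hx => Cfsg.Agent.Lib.Coprime.mem_normalizer_map_of_characteristic S (frattini ↥S) hx
  rcases h.dichotomy hFS (fun x hx t ht => (mem_normalizer_iff.mp (hFn x (hnS x hx)) t).mp ht) with h1 | ⟨h1, h2⟩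
  · exact h1
  · exfalso
    set Φ := (frattini ↥S).map S.subtype with hΦ
    set Q₀ := S ⊓ centralizer (D : Set X) with hQ₀
    have hQS : Q₀ ≤ S := inf_le_left
    have hQn : Q₀ ≤ normalizer (Φ : Set X) := fun a ha => hFn a (le_normalizer ha.1)
    have h3 := card_sup_mul_card_inf hQn
    have e : Φ ⊓ Q₀ = Φ ⊓ centralizer (D : Set X) := by
      rw [hQ₀, ← inf_assoc, inf_eq_left.mpr hFS]
    rw [e, h2] at h3
    have h4 : Nat.card ↥(Φ ⊓ centralizer (D : Set X)) ≠ 0 := Nat.card_pos.ne'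
    have h5 : Nat.card ↥(Φ ⊔ Q₀) = Nat.card S := by
      apply Nat.eq_of_mul_eq_mul_right (Nat.card_pos (α := ↥(Φ ⊓ centralizer (D : Set X))))
      rw [h3, h.card_eq]
      ring
    have h6 : Φ ⊔ Q₀ = S :=
      Subgroup.eq_of_le_of_card_ge (sup_le hFS hQS) (by rw [h5])
    rw [sup_comm] at h6
    have h7 := Cfsg.Agent.Lib.Coprime.eq_of_sup_frattini_eq hQS h6
    exact h.hnc (inf_eq_left.mp h7)

theorem pow_mem (h : FrobAct S D q k) {a : X} (ha : a ∈ S) : a ^ q ∈ centralizer (D : Set X) := by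
  haveI : Fact q.Prime := ⟨h.hq⟩
  have h1 := pow_mem_frattini_of_isPGroup h.hSp (⟨a, ha⟩ : ↥S)
  exact h.frattini_le ⟨_, h1, rfl⟩

theorem comm_mem (h : FrobAct S D q k) {a b : X} (ha : a ∈ S) (hb : b ∈ S) :
    a * b * a⁻¹ * b⁻¹ ∈ centralizer (D : Set X) := by
  haveI : Fact q.Prime := ⟨h.hq⟩
  have h1 := Cfsg.Agent.Lib.Transfer.commutator_mem_frattini h.hSp (⟨a, ha⟩ : ↥S) ⟨b, hb⟩
  exact h.frattini_le ⟨_, h1, rfl⟩

/-- No invariant subgroups strictly between `C_S(D)` and `S`. -/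
theorem no_between (h : FrobAct S D q k) {N : Subgroup X} (h1 : S ⊓ centralizer (D : Set X) < N) (h2 : N < S)
    (hn : ∀ x ∈ D ⊔ zpowers k, ∀ t ∈ N, x * t * x⁻¹ ∈ N) : False := by
  classical
  rcases h.dichotomy h2.le hn with h3 | ⟨-, h3⟩
  · exact absurd (le_inf h2.le h3) (not_le_of_gt h1)
  · have e : N ⊓ centralizer (D : Set X) = S ⊓ centralizer (D : Set X) := by
      apply le_antisymm (inf_le_inf_right _ h2.le)
      exact le_inf h1.le inf_le_right
    rw [e, ← h.card_eq] at h3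
    exact h2.ne (Subgroup.eq_of_le_of_card_ge h2.le (by rw [h3]))

theorem lt (h : FrobAct S D q k) : S ⊓ centralizer (D : Set X) < S :=
  lt_of_le_of_ne inf_le_left fun e => h.hnc (inf_eq_left.mp e)

end FrobAct

/-- A cyclic group all of whose nontrivial elements have the same order has prime order. -/
theorem prime_card_of_forall_orderOf {K : Subgroup X} (hc : IsCyclic K) (hK1 : K ≠ ⊥) {n : ℕ}
    (h : ∀ k ∈ K, k ≠ 1 → orderOf k = n) : (Nat.card K).Prime := by
  classical
  obtain ⟨g, hg⟩ := hc.exists_generator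
  have hcard : orderOf g = Nat.card K := orderOf_eq_card_of_forall_mem_zpowers hg
  have hne : Nat.card K ≠ 1 := fun e => hK1 ((Subgroup.eq_bot_iff_card _).mpr e)
  obtain ⟨t, ht, htd⟩ := Nat.exists_prime_and_dvd hne
  rw [← hcard] at htd
  obtain ⟨x, hxz, hxo⟩ := exists_mem_zpowers_orderOf htd
  have hxK : (x : ↥K) ∈ zpowers g := hxz
  have hx1 : (x : X) ≠ 1 := by
    intro e
    have h3 : x = 1 := Subtype.ext e
    rw [h3, orderOf_one] at hxo
    exact ht.one_lt.ne hxo
  have hg1 : (g : X) ≠ 1 := by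
    intro e
    have h3 : g = 1 := Subtype.ext e
    rw [h3, orderOf_one] at hcard
    exact hne hcard.symm
  have h1 := h x x.2 hx1
  have h2 := h g g.2 hg1
  rw [Subgroup.orderOf_coe] at h1 h2
  rw [← hcard, h2, ← h1, hxo]
  exact ht

end Cfsg.Agent.Lib.FT
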