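import Cfsg.Agent.Lib.FT.BG20a

/-!
BG20: fusion in `M_σ`, and `S1374`, `S1432`, conditional on Theorem B.
-/

set_option autoImplicit false
set_option linter.unusedSectionVars false
set_option linter.style.haveILetI false

namespace Cfsg.Agent.Lib.FT

open Subgroup Cfsg Cfsg.Agent.Lib.OddLocal Cfsg.Agent.Lib.Basic

open Cfsg.Agent.Lib.Coprime (mem_conj_map conj_mem_conj_map conj_map_conj_map conj_map_one
  conj_map_mono mem_normalizer_of_conj_le conj_map_eq_iff_mem_normalizer isPGroup_conj_map)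

variable {G : Type*} [Group G] [Finite G]

/-- **Fusion**: `x ∈ M_σ`, `x^g ∈ M` imply `g ∈ C_G(x) M`. -/
theorem fusion_core (hB : ThmB G) (hG : IsMinSimpleOddOrder G) {M : Subgroup G} (hM : IsCoatom M) {x g : G}
    (hx : x ∈ sigmaCore M) (hx1 : x ≠ 1) (hg : g⁻¹ * x * g ∈ M) :
    ∃ c ∈ centralizer ({x} : Set G), ∃ m ∈ M, g = c * m := by
  classical
  have huniq := huniq13 hG
  have hσM : sigmaCore M ≤ M := piCoreOf_le _ M
  have hord : orderOf x ≠ 1 := fun h => hx1 (orderOf_eq_one_iff.1 h)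
  obtain ⟨q, hq, hqd⟩ := Nat.exists_prime_and_dvd hord
  haveI : Fact q.Prime := ⟨hq⟩
  have hqσ : q ∈ sigma M := sigma_of_mem_sigmaCore hx hq hqd
  obtain ⟨y, hyx, hyo⟩ := exists_mem_zpowers_orderOf hqd
  have hyσ : y ∈ sigmaCore M := (zpowers_le.2 hx) hyx
  have hX : Nat.card (zpowers y) = q := by rw [Nat.card_zpowers, hyo]
  have hXM : zpowers y ≤ M := zpowers_le.2 (hσM hyσ)
  have hXp : IsPGroup q (zpowers y) := IsPGroup.of_card (n := 1) (by simpa using hX)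
  have hX1 : zpowers y ≠ ⊥ := ne_bot_of_card_prime hq hX
  have hy1 : y ≠ 1 := by
    rintro rfl
    rw [orderOf_one] at hyo
    exact hq.one_lt.ne hyo
  have hmap : (zpowers y).map (MulAut.conj g⁻¹).toMonoidHom ≤ M := by
    rintro _ ⟨t, ht, rfl⟩
    obtain ⟨k, rfl⟩ := mem_zpowers_iff.mp ((zpowers_le.2 hyx) ht)
    rw [map_zpow]
    refine M.zpow_mem ?_ k
    simpa [MulAut.conj_apply] using hg
  obtain ⟨m, hm, c, hc, e⟩ := (s1404_core hG huniq hM hqσ (zpowers y) hXp hX1 hXM).1 g⁻¹ hmap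
  have hginv : g = (m * c)⁻¹ := by rw [← e, inv_inv]
  by_cases hcM : c ∈ M
  · refine ⟨1, one_mem _, g, ?_, by simp⟩
    rw [hginv]
    exact M.inv_mem (M.mul_mem hm hcM)
  · have hcy : c ∈ centralizer ({y} : Set G) := by rwa [centralizer_zpowers_eq] at hc
    have hyM : ¬ centralizer ({y} : Set G) ≤ M := fun h => hcM (h hcy)
    obtain ⟨N, hN, hCN, -, -, -, hσ, hcompl, -, -, -⟩ := thmE_core hB hG hM hyσ hy1 hyM
    obtain ⟨a, ha, b, hb, eab⟩ := hcompl.2.2.2 c (hCN hcy)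
    have hxC : x ∈ centralizer ({y} : Set G) :=
      centralizer_singleton_le_of_mem_zpowers hyx (mem_centralizer_singleton_self x)
    have hbx : b * x = x * b := by
      refine comm_of_compl hσ (hCN hxC) (hσM hx) ha.1 hb ?_
      rw [← eab]
      have e2 : c * x * c⁻¹ = m⁻¹ * (g⁻¹ * x * g) * m := by
        rw [hginv]
        group
      rw [e2]
      exact M.mul_mem (M.mul_mem (M.inv_mem hm) hg) hm
    refine ⟨b⁻¹, inv_mem (mem_centralizer_singleton_iff.mpr hbx), (m * a)⁻¹, M.inv_mem (M.mul_mem hm ha.1), ?_⟩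
    rw [hginv, eab]
    group

theorem conj_map_mul_of_mem {M : Subgroup G} {r m : G} (hm : m ∈ M) :
    M.map (MulAut.conj (r * m)).toMonoidHom = M.map (MulAut.conj r).toMonoidHom := by
  rw [← conj_map_conj_map, (conj_map_eq_iff_mem_normalizer M m).mpr (le_normalizer hm)]

theorem mem_of_conj_map_eq (hG : IsMinSimpleOddOrder G) {M : Subgroup G} (hM : IsCoatom M) {a b : G}
    (h : M.map (MulAut.conj a).toMonoidHom = M.map (MulAut.conj b).toMonoidHom) : b⁻¹ * a ∈ M := by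
  rw [← normalizer_coatom hG hM]
  rw [← conj_map_eq_iff_mem_normalizer, ← conj_map_conj_map, h, conj_map_conj_map, inv_mul_cancel, conj_map_one]

/-- **S1374 core**. -/
theorem s1374_core (hB : ThmB G) (hG : IsMinSimpleOddOrder G) {M : Subgroup G} (hM : IsCoatom M) {x : G}
    (hx : x ∈ sigmaCore M) (hx1 : x ≠ 1) :
    (Nat.card ↥(M ⊓ centralizer ({x} : Set G))).Coprime ((M ⊓ centralizer ({x} : Set G)).relIndex (centralizer ({x} : Set G))) ∧
      ∃ R : Subgroup G, centralizer ({x} : Set G) ≤ normalizer (R : Set G) ∧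
        IsComplIn (M ⊓ centralizer ({x} : Set G)) R (centralizer ({x} : Set G)) ∧
        ∀ g : G, x ∈ M.map (MulAut.conj g).toMonoidHom →
          ∃! r : G, r ∈ R ∧ M.map (MulAut.conj r).toMonoidHom = M.map (MulAut.conj g).toMonoidHom := by
  classical
  have huniq := huniq13 hG
  have hσM : sigmaCore M ≤ M := piCoreOf_le _ M
  have hxM : x ∈ M := hσM hx
  have hM1 : M ≠ ⊥ := by
    rintro rfl
    exact hx1 ((mem_bot).1 hxM)
  have hfus : ∀ g : G, x ∈ M.map (MulAut.conj g).toMonoidHom → ∃ c ∈ centralizer ({x} : Set G), ∃ m ∈ M, g = c * m := by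
    intro g hg
    obtain ⟨u, hu, e⟩ := hg
    refine fusion_core hB hG hM hx hx1 ?_
    have e2 : g⁻¹ * x * g = u := by
      rw [← e]
      simp [MulAut.conj_apply]
      group
    rw [e2]
    exact hu
  by_cases hC : centralizer ({x} : Set G) ≤ M
  · have e1 : M ⊓ centralizer ({x} : Set G) = centralizer ({x} : Set G) := inf_eq_right.mpr hC
    rw [e1]
    refine ⟨by simp, ⊥, ?_, ⟨le_rfl, bot_le, by simp, fun m hm => ⟨m, hm, 1, one_mem _, by simp⟩⟩, ?_⟩
    · rw [Subgroup.normalizer_eq_top_iff.mpr inferInstance]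
      exact le_top
    · intro g hg
      obtain ⟨c, hc, m, hm, rfl⟩ := hfus g hg
      have hgM : c * m ∈ M := M.mul_mem (hC hc) hm
      refine ⟨1, ⟨one_mem _, ?_⟩, ?_⟩
      · rw [conj_map_one]
        exact ((conj_map_eq_iff_mem_normalizer M (c * m)).mpr (le_normalizer hgM)).symm
      · rintro r ⟨hr, -⟩
        exact (mem_bot).1 hr
  · obtain ⟨N, hN, hCN, -, -, -, hσ, hcompl, -, -, -⟩ := thmE_core hB hG hM hx hx1 hC
    have hcC := centralizer_compl hσ hcompl hxM hCN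
    obtain ⟨hH1, hH2, hH3⟩ := (s1350_core hG huniq hN).1
    have hnorm : N ≤ normalizer (sigmaCore N : Set G) := le_normalizer_piCoreOf (sigma N) N
    constructor
    · have h1 := IsComplIn_card_eq hcC
      have h2 := Cfsg.Agent.Lib.Coprime.card_mul_relIndex (inf_le_right : M ⊓ centralizer ({x} : Set G) ≤ centralizer ({x} : Set G))
      have h3 : (M ⊓ centralizer ({x} : Set G)).relIndex (centralizer ({x} : Set G)) =
          Nat.card ↥(sigmaCore N ⊓ centralizer ({x} : Set G)) := by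
        rw [h1] at h2
        exact Nat.eq_of_mul_eq_mul_left Nat.card_pos h2
      rw [h3]
      have h4 := IsComplIn_card_eq hcompl
      have h5 := Cfsg.Agent.Lib.Coprime.card_mul_relIndex hH1
      have h6 : (sigmaCore N).relIndex N = Nat.card ↥(M ⊓ N) := by
        rw [h4, mul_comm] at h5
        exact Nat.eq_of_mul_eq_mul_right Nat.card_pos h5
      refine Nat.coprime_of_dvd fun k hk h7 h8 => ?_
      have h9 : k ∈ sigma N := hH2 k hk (h8.trans (Subgroup.card_dvd_of_le inf_le_left))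
      apply hH3 k hk h9
      rw [h6]
      exact h7.trans (Subgroup.card_dvd_of_le (inf_le_inf_left M (hCN)))
    · refine ⟨sigmaCore N ⊓ centralizer ({x} : Set G), ?_, hcC, ?_⟩
      · intro c hc
        rw [mem_normalizer_iff]
        intro h
        have h1 := mem_normalizer_iff.mp (hnorm (hCN hc)) h
        have h2 := mem_normalizer_iff.mp (le_normalizer hc) h
        simp only [mem_inf, h1, h2]
      · intro g hg
        obtain ⟨c, hc, m, hm, rfl⟩ := hfus g hg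
        obtain ⟨a, ha, r, hr, e⟩ := hcC.2.2.2 c⁻¹ (inv_mem hc)
        have e2 : c * m = r⁻¹ * (a⁻¹ * m) := by
          have e3 : c = (a * r)⁻¹ := by rw [← e, inv_inv]
          rw [e3]
          group
        have e4 : M.map (MulAut.conj (c * m)).toMonoidHom = M.map (MulAut.conj r⁻¹).toMonoidHom := by
          rw [e2]
          exact conj_map_mul_of_mem (M.mul_mem (M.inv_mem ha.1) hm)
        refine ⟨r⁻¹, ⟨inv_mem hr, e4.symm⟩, ?_⟩
        rintro r' ⟨hr', e5⟩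
        have h6 := mem_of_conj_map_eq hG hM (e5.trans e4)
        have h7 : r⁻¹⁻¹ * r' ∈ sigmaCore N ⊓ M := ⟨(sigmaCore N).mul_mem ((sigmaCore N).inv_mem ((sigmaCore N).inv_mem (mem_inf.mp hr).1)) (mem_inf.mp hr').1, h6⟩
        rw [hσ, mem_bot] at h7
        have h8 := inv_mul_eq_one.mp h7
        exact h8.symm

/-- **S1375 core**. -/
theorem s1375_core (hB : ThmB G) (hG : IsMinSimpleOddOrder G) {M : Subgroup G} (hM : IsCoatom M) {x : G}
    (hx : x ∈ sigmaCore M) (hx1 : x ≠ 1) (hxM : ¬ centralizer ({x} : Set G) ≤ M) :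
    ∃ N : Subgroup G, (IsCoatom N ∧ centralizer ({x} : Set G) ≤ N) ∧
      (∀ L : Subgroup G, IsCoatom L → centralizer ({x} : Set G) ≤ L → L = N) ∧
        sigmaCore N = fittingHallOf N ∧
        centralizer ({x} : Set G) ≤ normalizer ((sigmaCore N ⊓ centralizer ({x} : Set G) : Subgroup G) : Set G) ∧
        IsComplIn (M ⊓ centralizer ({x} : Set G)) (sigmaCore N ⊓ centralizer ({x} : Set G)) (centralizer ({x} : Set G)) ∧
        IsComplIn (M ⊓ N) (sigmaCore N) N ∧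
        ∀ K' U' : Subgroup G, IsSigmaDecomposition N K' U' → U' ≠ ⊥ ∧ x ∈ sigmaA N U' ∧ x ∉ sigmaCore N := by
  classical
  obtain ⟨N, hN, hCN, huq, -, hnil, hσ, hcompl, hxMN, hτ, hxσ⟩ := thmE_core hB hG hM hx hx1 hxM
  refine ⟨N, ⟨hN, hCN⟩, huq, sigmaCore_eq_fittingHallOf hG hN hnil, ?_, centralizer_compl hσ hcompl hxMN.1 hCN, hcompl, ?_⟩
  · intro c hc
    rw [mem_normalizer_iff]
    intro h
    have hnorm : N ≤ normalizer (sigmaCore N : Set G) := le_normalizer_piCoreOf (sigma N) N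
    have h1 := mem_normalizer_iff.mp (hnorm (hCN hc)) h
    have h2 := mem_normalizer_iff.mp (le_normalizer hc) h
    simp only [mem_inf, h1, h2]
  · intro K' U' hKU
    exact decomp_clause hG hN hKU hx1 hxMN.2 hτ hxσ

/-- A prime of `τ₂(M)` with fixed points on `M_σ` cannot commute with a `Config`. -/
theorem mixed_false (hB : ThmB G) (hG : IsMinSimpleOddOrder G) {M X : Subgroup G} {p s : ℕ} [Fact p.Prime] [Fact s.Prime]
    (hC : Config M X p) {y : G} (hyo : orderOf y = s) (hτ : s ∈ tau2 M) (hyσ : y ∈ sigmaHat M)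
    (hcomm : y ∈ centralizer (X : Set G)) : False := by
  classical
  have huniq := huniq13 hG
  have hpl : ∀ (r : ℕ) [Fact r.Prime] (H : Subgroup G), H ≠ ⊤ → PLengthLE r 1 ↥H := fun r _ K hK => hpl13 hG r K hK
  have hM := hC.hM
  have hpp : p.Prime := Fact.out
  have hs : s.Prime := Fact.out
  have hX1 : X ≠ ⊥ := ne_bot_of_card_prime hpp hC.hX
  have hXt : X ≠ ⊤ := fun h => hM.1 (top_le_iff.1 (h ▸ hC.hXM))
  obtain ⟨H, hH, hN⟩ := (eq_top_or_exists_le_coatom (normalizer (X : Set G))).resolve_left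
    (IsMinSimpleOddOrder.normalizer_ne_top hG hX1 hXt)
  have P := partner_of_config hB hG hC hH hN
  obtain ⟨y₁, hy₁, hy₁1⟩ := exists_ne_one_of_card_prime hpp hC.hX
  have hy1 : y ≠ 1 := by
    rintro rfl
    rw [orderOf_one] at hyo
    exact hs.one_lt.ne hyo
  have hyM : y ∈ M := hyσ.1
  have hyH : y ∈ H := P.centralizer_le hcomm
  have hY : Nat.card (zpowers y) = s := by rw [Nat.card_zpowers, hyo]
  have hprimes : ∀ {K : Subgroup G}, s ∈ tau2 K → ∀ t : ℕ, t.Prime → t ∣ orderOf y → t ∈ tau2 K := by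
    intro K hK t ht hd
    rw [hyo] at hd
    rw [(Nat.prime_dvd_prime_iff_eq ht hs).mp hd]
    exact hK
  obtain ⟨hC1, hC2⟩ := s1420_d hG huniq hpl hM hyM hy1 (hprimes hτ) hyσ
  have hY1 : zpowers y ≠ ⊥ := ne_bot_of_card_prime hs hY
  have hYt : zpowers y ≠ ⊤ := fun h => hM.1 (top_le_iff.1 (h ▸ zpowers_le.2 hyM))
  have hNY : normalizer ((zpowers y : Subgroup G) : Set G) ≤ M := by
    obtain ⟨H', hH', hNH'⟩ := (eq_top_or_exists_le_coatom (normalizer ((zpowers y : Subgroup G) : Set G))).resolve_left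
      (IsMinSimpleOddOrder.normalizer_ne_top hG hY1 hYt)
    rw [← hC2 H' hH' ((cent_le_norm y).trans hNH')]
    exact hNH'
  by_cases hsH : s ∈ sigma H
  · obtain ⟨_, _, -, -, h3, -⟩ := thmD_not_sigma hG P.hH hsH hY (zpowers_le.2 hyH) hM P.ne.symm hNY hτ.2.1
    apply hC.hD
    rw [eq_bot_iff]
    intro d hd
    have h4 : d ∈ sigmaCore M ⊓ H := ⟨hd.1, P.centralizer_le hd.2⟩
    rwa [h3] at h4
  · have hcy : y₁ * y = y * y₁ := (mem_centralizer_iff.mp hcomm y₁ hy₁)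
    by_cases hr1 : PRankLE s 1 ↥H
    · have hconf : Config H (zpowers y) s := by
        refine ⟨hH, hsH, hr1, hY, zpowers_le.2 hyH, ?_⟩
        intro hbot
        have h1 : y₁ ∈ sigmaCore H ⊓ centralizer ((zpowers y : Subgroup G) : Set G) :=
          ⟨P.hXσ hy₁, mem_centralizer_zpowers_of_comm hcy⟩
        rw [hbot, mem_bot] at h1
        exact hy₁1 h1
      exact hτ.2.1 (thmT hG H (zpowers y) M s hs hconf hM hNY)
    · have hr2 : PRankLE s 2 ↥H := by
        by_contra h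
        exact hsH (alpha_sub_sigma hG huniq hH ⟨hs, h⟩)
      have hτH : s ∈ tau2 H := ⟨hs, hsH, hr2, hr1⟩
      obtain ⟨-, hC2'⟩ := s1420_d hG huniq hpl hH hyH hy1 (hprimes hτH) ⟨hyH, y₁, P.hXσ hy₁, hy₁1, hcy.symm⟩
      exact P.ne (hC2' M hM hC1).symm

/-- All primes of `x'` in `τ₂(M)` are in `σ(L)` for a single `L`. -/
theorem exists_sigma_coatom_of_tau2 (hG : IsMinSimpleOddOrder G) {M : Subgroup G} (hM : IsCoatom M) {x' : G}
    (hx'1 : x' ≠ 1) (hτ : ∀ s : ℕ, s.Prime → s ∣ orderOf x' → s ∈ tau2 M) (hsig : x' ∈ sigmaHat M) :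
    ∃ L : Subgroup G, IsCoatom L ∧ ∀ p : ℕ, p.Prime → p ∣ orderOf x' → p ∈ sigma L := by
  classical
  have huniq := huniq13 hG
  have hpl : ∀ (r : ℕ) [Fact r.Prime] (H : Subgroup G), H ≠ ⊤ → PLengthLE r 1 ↥H := fun r _ K hK => hpl13 hG r K hK
  obtain ⟨hx'M, w, hw, hw1, hwc⟩ := hsig
  have hord : orderOf x' ≠ 1 := fun h => hx'1 (orderOf_eq_one_iff.1 h)
  obtain ⟨s, hs, hsd⟩ := Nat.exists_prime_and_dvd hord
  haveI : Fact s.Prime := ⟨hs⟩
  obtain ⟨y₁, hy₁, hy₁o⟩ := exists_mem_zpowers_orderOf hsd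
  obtain ⟨E, hE, hxE⟩ := exists_compl_sigma_ge hG hM (zpowers_le.2 hx'M)
    (fun r hr hd => (hτ r hr (by rwa [Nat.card_zpowers] at hd)).2.1)
  have hzp : IsPGroup s (zpowers y₁) := IsPGroup.of_card (n := 1) (by rw [Nat.card_zpowers, hy₁o, pow_one])
  have hx'E : x' ∈ E := hxE (mem_zpowers x')
  obtain ⟨S, hS, hyS⟩ := exists_isMaxP_ge (zpowers_le.2 ((zpowers_le.2 hx'E) hy₁)) hzp
  have hsσ : s ∉ sigma M := (hτ s hs hsd).2.1
  have hSM := IsMaxP.of_compl hG huniq hM hE hsσ hS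
  have hScyc : ¬ IsCyclic S := by
    intro hc
    apply (hτ s hs hsd).2.2.2
    apply hSM.prank_of
    intro F hFc hFp
    have h1 : IsCyclic F := by
      haveI : IsCyclic ↥S := hc
      infer_instance
    have := card_le_of_cyclic_elem (q := s) ⟨hFc, hFp⟩ h1
    simpa using this
  obtain ⟨A, hAS, hAe, hAc⟩ := exists_e2_of_not_cyclic hG hSM.isP hScyc
  have T : Tau2Setup s A M := Tau2Setup.mk' hG huniq hpl hM (hAS.trans hSM.le) hAe hAc hsσ
  have hy₁A : y₁ ∈ A := by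
    rw [← T.omega_iff hSM hAS (hyS (mem_zpowers y₁))]
    rw [← hy₁o]
    exact pow_orderOf_eq_one y₁
  have hAE : A ≤ E := hAS.trans hS.le
  have hx'N : x' ∈ normalizer (A : Set G) := by
    apply mem_normalizer_of_conj_le
    intro a ha
    obtain ⟨u, hu, a', ha', e⟩ := T.c_elem hx'M ha
    have hu1 : u ∈ E ⊓ sigmaCore M := by
      refine ⟨?_, hu⟩
      have e2 : u = x' * a * x'⁻¹ * a'⁻¹ := by
        rw [e]
        group
      rw [e2]
      exact E.mul_mem (E.mul_mem (E.mul_mem hx'E (hAE ha)) (E.inv_mem hx'E)) (E.inv_mem (hAE ha'))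
    rw [hE.2.2.1, mem_bot] at hu1
    rw [e, hu1, one_mul]
    exact ha'
  obtain ⟨P, hAP⟩ := T.S.hAp.exists_le_sylow
  have hy₁1 : y₁ ≠ 1 := by
    rintro rfl
    rw [orderOf_one] at hy₁o
    exact hs.one_lt.ne hy₁o
  have hP1 : (P : Subgroup G) ≠ ⊥ := by
    intro h
    rw [h, le_bot_iff] at hAP
    rw [hAP] at hy₁A
    exact hy₁1 ((mem_bot).1 hy₁A)
  have hPt : (P : Subgroup G) ≠ ⊤ := by
    intro h
    have hword : orderOf w ≠ 1 := fun h => hw1 (orderOf_eq_one_iff.1 h)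
    obtain ⟨t, ht, htd⟩ := Nat.exists_prime_and_dvd hword
    have htσ := sigma_of_mem_sigmaCore hw ht htd
    have hwP : w ∈ (P : Subgroup G) := by
      rw [h]
      exact mem_top w
    obtain ⟨k, hk⟩ := P.isPGroup' ⟨w, hwP⟩
    have hk' : w ^ s ^ k = 1 := congrArg Subtype.val hk
    obtain ⟨j, -, hj⟩ := (Nat.dvd_prime_pow hs).1 (orderOf_dvd_of_pow_eq_one hk')
    rw [hj] at htd
    have e := (Nat.prime_dvd_prime_iff_eq ht hs).mp (ht.dvd_of_dvd_pow htd)
    exact hsσ (e ▸ htσ)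
  obtain ⟨L, hL, hNL⟩ := (eq_top_or_exists_le_coatom (normalizer ((P : Subgroup G) : Set G))).resolve_left
    (IsMinSimpleOddOrder.normalizer_ne_top hG hP1 hPt)
  have hPL : (P : Subgroup G) ≤ L := le_normalizer.trans hNL
  have hmax : IsMaxP s (P : Subgroup G) L := ⟨hPL, P.isPGroup', fun D' _ h2 h3 => P.is_maximal' h2 h3⟩
  have hy₁L : y₁ ∈ L := hPL (hAP hy₁A)
  have hdL : s ∣ Nat.card L := by
    rw [← hy₁o]
    exact Subgroup.orderOf_dvd_natCard _ hy₁L
  have hsL : s ∈ sigma L := mem_sigma_of_normalizer_le hmax hdL hNL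
  have hNAL : normalizer (A : Set G) ≤ L :=
    normalizer_le_of_not_cyclic hG hL hsL T.S.hAp (hAP.trans hPL) T.S.not_cyclic
  have hx'L : x' ∈ L := hNAL hx'N
  have hy₁σ : y₁ ∈ sigmaCore L :=
    (le_sigmaCore_of_isPGroup hG huniq hL hsL hzp (zpowers_le.2 hy₁L)) (mem_zpowers y₁)
  refine ⟨L, hL, ?_⟩
  intro p hp hpd
  by_contra hpL
  haveI : Fact p.Prime := ⟨hp⟩
  obtain ⟨y, hy, hyo⟩ := exists_mem_zpowers_orderOf hpd
  have hy1 : y ≠ 1 := by
    rintro rfl
    rw [orderOf_one] at hyo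
    exact hp.one_lt.ne hyo
  have hyL : y ∈ L := (zpowers_le.2 hx'L) hy
  have hyM : y ∈ M := (zpowers_le.2 hx'M) hy
  have hY : Nat.card (zpowers y) = p := by rw [Nat.card_zpowers, hyo]
  have hprimes : ∀ {K : Subgroup G}, p ∈ tau2 K → ∀ t : ℕ, t.Prime → t ∣ orderOf y → t ∈ tau2 K := by
    intro K hK t ht hd
    rw [hyo] at hd
    rw [(Nat.prime_dvd_prime_iff_eq ht hp).mp hd]
    exact hK
  have hwy : y * w = w * y := by
    obtain ⟨k, rfl⟩ := mem_zpowers_iff.mp hy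
    have h1 : Commute x' w := hwc
    exact (h1.zpow_left k).eq
  obtain ⟨hC1, hC2⟩ := s1420_d hG huniq hpl hM hyM hy1 (hprimes (hτ p hp hpd)) ⟨hyM, w, hw, hw1, hwy⟩
  have hY1 : zpowers y ≠ ⊥ := ne_bot_of_card_prime hp hY
  have hYt : zpowers y ≠ ⊤ := fun h => hM.1 (top_le_iff.1 (h ▸ zpowers_le.2 hyM))
  have hNY : normalizer ((zpowers y : Subgroup G) : Set G) ≤ M := by
    obtain ⟨H', hH', hNH'⟩ := (eq_top_or_exists_le_coatom (normalizer ((zpowers y : Subgroup G) : Set G))).resolve_left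
      (IsMinSimpleOddOrder.normalizer_ne_top hG hY1 hYt)
    rw [← hC2 H' hH' ((cent_le_norm y).trans hNH')]
    exact hNH'
  have hcy : y₁ * y = y * y₁ := by
    obtain ⟨k, rfl⟩ := mem_zpowers_iff.mp hy
    obtain ⟨l, rfl⟩ := mem_zpowers_iff.mp hy₁
    exact ((Commute.refl x').zpow_zpow l k).eq
  by_cases hr1 : PRankLE p 1 ↥L
  · have hconf : Config L (zpowers y) p := by
      refine ⟨hL, hpL, hr1, hY, zpowers_le.2 hyL, ?_⟩
      intro hbot
      have h1 : y₁ ∈ sigmaCore L ⊓ centralizer ((zpowers y : Subgroup G) : Set G) :=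
        ⟨hy₁σ, mem_centralizer_zpowers_of_comm hcy⟩
      rw [hbot, mem_bot] at h1
      exact hy₁1 h1
    exact (hτ p hp hpd).2.1 (thmT hG L (zpowers y) M p hp hconf hM hNY)
  · have hr2 : PRankLE p 2 ↥L := by
      by_contra h
      exact hpL (alpha_sub_sigma hG huniq hL ⟨hp, h⟩)
    have hτL : p ∈ tau2 L := ⟨hp, hpL, hr2, hr1⟩
    obtain ⟨-, hC2'⟩ := s1420_d hG huniq hpl hL hyL hy1 (hprimes hτL) ⟨hyL, y₁, hy₁σ, hy₁1, hcy.symm⟩
    have e := hC2' M hM hC1
    exact hsσ (e ▸ hsL)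

/-- **S1432 core**. -/
theorem s1432_core (hB : ThmB G) (hG : IsMinSimpleOddOrder G) {M : Subgroup G} (hM : IsCoatom M) {x x' : G}
    (hx : x ∈ sigmaCore M) (hx1 : x ≠ 1) (hx' : x' ∈ M ⊓ centralizer ({x} : Set G)) (hx'1 : x' ≠ 1)
    (hσ : ∀ p : ℕ, p.Prime → p ∣ orderOf x' → p ∉ sigma M) :
    ((∀ p : ℕ, p.Prime → p ∣ orderOf x' → p ∈ kappa M) ∧ centralizer ({x} : Set G) ≤ M) ∨
      ((∀ p : ℕ, p.Prime → p ∣ orderOf x' → p ∈ tau2 M) ∧
        (∃ L : Subgroup G, IsCoatom L ∧ ∀ p : ℕ, p.Prime → p ∣ orderOf x' → p ∈ sigma L) ∧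
        (centralizer ({x'} : Set G) ≤ M ∧ ∀ L : Subgroup G, IsCoatom L → centralizer ({x'} : Set G) ≤ L → L = M)) := by
  classical
  have huniq := huniq13 hG
  have hpl : ∀ (r : ℕ) [Fact r.Prime] (H : Subgroup G), H ≠ ⊤ → PLengthLE r 1 ↥H := fun r _ K hK => hpl13 hG r K hK
  obtain ⟨hx'M, hx'C⟩ := hx'
  have hxx' : x' * x = x * x' := (mem_centralizer_singleton_iff.mp hx'C)
  have hord : orderOf x' ≠ 1 := fun h => hx'1 (orderOf_eq_one_iff.1 h)
  have hdata : ∀ s : ℕ, s.Prime → s ∣ orderOf x' → ∃ y ∈ zpowers x', orderOf y = s ∧ y ≠ 1 ∧ y ∈ M ∧ y * x = x * y := by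
    intro s hs hd
    obtain ⟨y, hy, hyo⟩ := exists_mem_zpowers_orderOf hd
    refine ⟨y, hy, hyo, ?_, (zpowers_le.2 hx'M) hy, ?_⟩
    · rintro rfl
      rw [orderOf_one] at hyo
      exact hs.one_lt.ne hyo
    · obtain ⟨k, rfl⟩ := mem_zpowers_iff.mp hy
      have h1 : Commute x' x := hxx'
      exact (h1.zpow_left k).eq
  have hCfg : ∀ s : ℕ, s.Prime → s ∣ orderOf x' → ∀ y : G, orderOf y = s → y ∈ M → y * x = x * y → PRankLE s 1 ↥M →
      Config M (zpowers y) s := by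
    intro s hs hd y hyo hyM hyx hr1
    refine ⟨hM, hσ s hs hd, hr1, by rw [Nat.card_zpowers, hyo], zpowers_le.2 hyM, ?_⟩
    intro hbot
    have h1 : x ∈ sigmaCore M ⊓ centralizer ((zpowers y : Subgroup G) : Set G) :=
      ⟨hx, mem_centralizer_zpowers_of_comm hyx.symm⟩
    rw [hbot, mem_bot] at h1
    exact hx1 h1
  by_cases hall : ∀ s : ℕ, s.Prime → s ∣ orderOf x' → PRankLE s 1 ↥M
  · left
    constructor
    · intro s hs hd
      obtain ⟨y, -, hyo, hy1, hyM, hyx⟩ := hdata s hs hd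
      refine kappa_of_good hG hyM hy1 hs ?_ (hσ s hs hd) (hall s hs hd) ?_
      · rw [← hyo]
        exact pow_orderOf_eq_one y
      · intro hbot
        have h1 : x ∈ sigmaCore M ⊓ centralizer ({y} : Set G) :=
          ⟨hx, mem_centralizer_singleton_iff.mpr hyx.symm⟩
        rw [hbot, mem_bot] at h1
        exact hx1 h1
    · obtain ⟨s, hs, hsd⟩ := Nat.exists_prime_and_dvd hord
      haveI : Fact s.Prime := ⟨hs⟩
      obtain ⟨y, hy, hyo, hy1, hyM, hyx⟩ := hdata s hs hsd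
      have hconf := hCfg s hs hsd y hyo hyM hyx (hall s hs hsd)
      have hX1 : zpowers y ≠ ⊥ := ne_bot_of_card_prime hs (by rw [Nat.card_zpowers, hyo])
      have hXt : zpowers y ≠ ⊤ := fun h => hM.1 (top_le_iff.1 (h ▸ zpowers_le.2 hyM))
      obtain ⟨H, hH, hN⟩ := (eq_top_or_exists_le_coatom (normalizer ((zpowers y : Subgroup G) : Set G))).resolve_left
        (IsMinSimpleOddOrder.normalizer_ne_top hG hX1 hXt)
      have P := partner_of_config hB hG hconf hH hN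
      have hordx : orderOf x ≠ 1 := fun h => hx1 (orderOf_eq_one_iff.1 h)
      obtain ⟨q, hq, hqd⟩ := Nat.exists_prime_and_dvd hordx
      haveI : Fact q.Prime := ⟨hq⟩
      obtain ⟨z, hz, hzo⟩ := exists_mem_zpowers_orderOf hqd
      have hQ : Nat.card (zpowers z) = q := by rw [Nat.card_zpowers, hzo]
      have hQD : zpowers z ≤ sigmaCore M ⊓ centralizer ((zpowers y : Subgroup G) : Set G) := by
        refine zpowers_le.2 ⟨(zpowers_le.2 hx) hz, mem_centralizer_zpowers_of_comm ?_⟩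
        obtain ⟨k, rfl⟩ := mem_zpowers_iff.mp hz
        have h1 : Commute x y := hyx.symm
        exact (h1.zpow_left k).eq
      have h1 := (P.config_of_le hB hG hQ hQD).1.hN
      exact (centralizer_le_normalizer_zpowers_of_mem hz).trans h1
  · right
    push Not at hall
    obtain ⟨s₀, hs₀, hd₀, hr₀⟩ := hall
    haveI : Fact s₀.Prime := ⟨hs₀⟩
    have hτ : ∀ s : ℕ, s.Prime → s ∣ orderOf x' → s ∈ tau2 M := by
      intro s hs hd
      haveI : Fact s.Prime := ⟨hs⟩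
      have hr2 : PRankLE s 2 ↥M := by
        by_contra h
        exact hσ s hs hd (alpha_sub_sigma hG huniq hM ⟨hs, h⟩)
      refine ⟨hs, hσ s hs hd, hr2, ?_⟩
      intro hr1
      obtain ⟨y, hy, hyo, hy1, hyM, hyx⟩ := hdata s hs hd
      have hconf := hCfg s hs hd y hyo hyM hyx hr1
      obtain ⟨y₀, hy₀, hy₀o, hy₀1, hy₀M, hy₀x⟩ := hdata s₀ hs₀ hd₀
      have hr₀2 : PRankLE s₀ 2 ↥M := by
        by_contra h
        exact hσ s₀ hs₀ hd₀ (alpha_sub_sigma hG huniq hM ⟨hs₀, h⟩)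
      have hτ₀ : s₀ ∈ tau2 M := ⟨hs₀, hσ s₀ hs₀ hd₀, hr₀2, hr₀⟩
      refine mixed_false hB hG hconf hy₀o hτ₀ ⟨hy₀M, x, hx, hx1, hy₀x⟩ (mem_centralizer_zpowers_of_comm ?_)
      obtain ⟨k, rfl⟩ := mem_zpowers_iff.mp hy
      obtain ⟨l, rfl⟩ := mem_zpowers_iff.mp hy₀
      exact ((Commute.refl x').zpow_zpow l k).eq
    have hsig : x' ∈ sigmaHat M := ⟨hx'M, x, hx, hx1, hxx'⟩
    obtain ⟨h1, h2⟩ := s1420_d hG huniq hpl hM hx'M hx'1 hτ hsig
    exact ⟨hτ, exists_sigma_coatom_of_tau2 hG hM hx'1 hτ hsig, h1, h2⟩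

end Cfsg.Agent.Lib.FT
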