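import Cfsg.Agent.Lib.FT.BG19f
import Cfsg.Agent.Lib.FT.BG20b

/-!
BG19g: the structure of `M_σ` when it is not nilpotent; `F(M)` is a TI subset. S1357, S1437.
-/

set_option autoImplicit false
set_option linter.unusedSectionVars false
set_option linter.style.haveILetI false

namespace Cfsg.Agent.Lib.FT

open Subgroup Cfsg Cfsg.Agent.Lib.OddLocal Cfsg.Agent.Lib.Basic

open Cfsg.Agent.Lib.Coprime (mem_conj_map conj_mem_conj_map conj_map_conj_map conj_map_one
  conj_map_mono mem_normalizer_of_conj_le conj_map_eq_iff_mem_normalizer isPGroup_conj_map)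

section Abstract

variable {X : Type*} [Group X] [Finite X]

theorem nilpotent_sup_aux {A B : Subgroup X} (hA : Group.IsNilpotent A) (hB : Group.IsNilpotent B)
    (hc : ∀ a ∈ A, ∀ b ∈ B, a * b = b * a) : Group.IsNilpotent ↥(A ⊔ B) := by
  classical
  set W := A ⊔ B with hW
  have hnA : W ≤ normalizer (A : Set X) := by
    refine sup_le le_normalizer fun b hb => mem_normalizer_of_conj_le A b fun a ha => ?_
    rw [← hc a ha b hb, mul_inv_cancel_right]
    exact ha
  have hnB : W ≤ normalizer (B : Set X) := by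
    refine sup_le (fun a ha => mem_normalizer_of_conj_le B a fun b hb => ?_) le_normalizer
    rw [hc a ha b hb, mul_inv_cancel_right]
    exact hb
  have hA' : (A.subgroupOf W).Normal := Subgroup.normal_subgroupOf_of_le_normalizer hnA
  have hB' : (B.subgroupOf W).Normal := Subgroup.normal_subgroupOf_of_le_normalizer hnB
  have hAn : Group.IsNilpotent ↥(A.subgroupOf W) := by
    apply isNilpotent_of_map_subtype
    rwa [Subgroup.map_subgroupOf_eq_of_le (le_sup_left : A ≤ W)]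
  have hBn : Group.IsNilpotent ↥(B.subgroupOf W) := by
    apply isNilpotent_of_map_subtype
    rwa [Subgroup.map_subgroupOf_eq_of_le (le_sup_right : B ≤ W)]
  have h1 := le_fittingSubgroup_of_nilpotent hA' hAn
  have h2 := le_fittingSubgroup_of_nilpotent hB' hBn
  have htop : (⊤ : Subgroup ↥W) ≤ fittingSubgroup ↥W := by
    refine le_trans (le_of_eq ?_) (sup_le h1 h2)
    apply Subgroup.map_injective W.subtype_injective
    rw [Subgroup.map_sup, Subgroup.map_subgroupOf_eq_of_le (le_sup_left : A ≤ W),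
      Subgroup.map_subgroupOf_eq_of_le (le_sup_right : B ≤ W), ← MonoidHom.range_eq_map, Subgroup.range_subtype]
  have h3 : Group.IsNilpotent ↥(⊤ : Subgroup ↥W) := isNilpotent_of_le_aux htop fittingSubgroup_isNilpotent
  exact nilpotent_of_surjective (Subgroup.subtype (⊤ : Subgroup ↥W)) (fun x => ⟨⟨x, trivial⟩, rfl⟩)

/-- Two commuting elements generate an elementary abelian group of order `q ^ 2`. -/
theorem elem_sq_of_comm {q : ℕ} (hq : q.Prime) {y w : X} (hyo : orderOf y = q) (hw : w ^ q = 1) (hc : y * w = w * y)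
    (hwy : w ∉ zpowers y) :
    IsElementaryAbelian q (zpowers y ⊔ zpowers w) ∧ Nat.card ↥(zpowers y ⊔ zpowers w) = q ^ 2 := by
  classical
  haveI : Fact q.Prime := ⟨hq⟩
  have hw1 : w ≠ 1 := by
    rintro rfl
    exact hwy (one_mem _)
  have hwo : orderOf w = q := orderOf_eq_prime hw hw1
  have hcomm : ∀ a ∈ zpowers y, ∀ b ∈ zpowers w, a * b = b * a := by
    rintro _ ⟨i, rfl⟩ _ ⟨j, rfl⟩
    exact ((Commute.zpow_zpow (show Commute y w from hc) i j)).eq
  have hn : zpowers w ≤ normalizer (zpowers y : Set X) := by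
    refine zpowers_le.mpr (mem_normalizer_of_conj_le _ w fun a ha => ?_)
    rw [← hcomm a ha w (mem_zpowers w), mul_inv_cancel_right]
    exact ha
  have hmem := Cfsg.Agent.Lib.Coprime.mem_sup_iff_of_le_normalizer hn
  have hpowy : ∀ a ∈ zpowers y, a ^ q = 1 := by
    rintro _ ⟨i, rfl⟩
    change (y ^ i) ^ q = 1
    rw [← zpow_natCast, zpow_comm, zpow_natCast, ← hyo, pow_orderOf_eq_one, one_zpow]
  have hpoww : ∀ b ∈ zpowers w, b ^ q = 1 := by
    rintro _ ⟨i, rfl⟩
    change (w ^ i) ^ q = 1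
    rw [← zpow_natCast, zpow_comm, zpow_natCast, hw, one_zpow]
  refine ⟨⟨?_, ?_⟩, ?_⟩
  · constructor
    constructor
    rintro ⟨u, hu⟩ ⟨v, hv⟩
    obtain ⟨a, ha, b, hb, rfl⟩ := (hmem u).mp hu
    obtain ⟨c, hc', d, hd, rfl⟩ := (hmem v).mp hv
    apply Subtype.ext
    change a * b * (c * d) = c * d * (a * b)
    have h1 := hcomm a ha d hd
    have h2 := hcomm c hc' b hb
    have h3 : a * c = c * a := by
      obtain ⟨i, rfl⟩ := ha
      obtain ⟨j, rfl⟩ := hc'
      exact ((Commute.zpow_zpow (Commute.refl y) i j)).eq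
    have h4 : b * d = d * b := by
      obtain ⟨i, rfl⟩ := hb
      obtain ⟨j, rfl⟩ := hd
      exact ((Commute.zpow_zpow (Commute.refl w) i j)).eq
    calc a * b * (c * d) = a * (b * c) * d := by group
      _ = a * (c * b) * d := by rw [h2]
      _ = (a * c) * (b * d) := by group
      _ = (c * a) * (d * b) := by rw [h3, h4]
      _ = c * (a * d) * b := by group
      _ = c * (d * a) * b := by rw [h1]
      _ = c * d * (a * b) := by group
  · intro u hu
    obtain ⟨a, ha, b, hb, rfl⟩ := (hmem u).mp hu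
    have h1 : Commute a b := hcomm a ha b hb
    rw [h1.mul_pow, hpowy a ha, hpoww b hb, one_mul]
  · have h1 := card_sup_mul_card_inf hn
    have hinf : zpowers y ⊓ zpowers w = ⊥ := by
      have hd : Nat.card ↥(zpowers y ⊓ zpowers w) ∣ q := by
        have := Subgroup.card_dvd_of_le (inf_le_left : zpowers y ⊓ zpowers w ≤ zpowers y)
        rwa [Nat.card_zpowers, hyo] at this
      rcases (Nat.dvd_prime hq).mp hd with h2 | h2
      · exact (Subgroup.eq_bot_iff_card _).mpr h2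
      · exfalso
        have e : zpowers y ⊓ zpowers w = zpowers w :=
          Subgroup.eq_of_le_of_card_ge inf_le_right (by rw [h2, Nat.card_zpowers, hwo])
        exact hwy ((inf_eq_right.mp e) (mem_zpowers w))
    rw [hinf] at h1
    simp only [Subgroup.card_bot, mul_one, Nat.card_zpowers, hyo, hwo] at h1
    rw [h1, sq]

end Abstract

variable {G : Type*} [Group G] [Finite G] {M K U : Subgroup G}

/-- The structure of `M_σ` when `U = 1` in `G`. -/
structure SigmaStruct (M K Q D : Subgroup G) (q : ℕ) : Prop where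
  hq : q.Prime
  hQM : M ≤ normalizer (Q : Set G)
  hQp : IsPGroup q Q
  hcompl : IsComplIn Q D (sigmaCore M)
  hQi : ¬ q ∣ Q.relIndex (sigmaCore M)
  hDnil : Group.IsNilpotent D
  hDfix : ∀ k ∈ K, k ≠ 1 → D ⊓ centralizer ({k} : Set G) = ⊥
  hYQ : sigmaCore M ⊓ centralizer (K : Set G) ≤ Q
  hDc : (Nat.card D).Coprime q
  hKD : K ≤ normalizer (D : Set G)
  hQF : Q ≤ fittingHallOf M

theorem exists_sigmaStruct (hB : ThmB G) (hG : IsMinSimpleOddOrder G) (hM : IsCoatom M)
    (hKU : IsSigmaDecomposition M K U) (hK1 : K ≠ ⊥) (hU : U = ⊥)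
    (hq : (Nat.card ↥(sigmaCore M ⊓ centralizer (K : Set G))).Prime) :
    ∃ Q D : Subgroup G, SigmaStruct M K Q D (Nat.card ↥(sigmaCore M ⊓ centralizer (K : Set G))) := by
  classical
  obtain ⟨S, D, hSn, hSp, hcompl, hSi, hDnil, hDfix, hYS, hDc, hKD⟩ := exists_K_invariant_compl hB hG hM hKU hK1 hU hq
  have hKM : K ≤ M := hKU.hall.1
  have hσ : (piCore (sigma M) ↥M).map M.subtype = sigmaCore M := rfl
  refine ⟨S.map M.subtype, D.map M.subtype, ⟨hq, map_normal_normalized S hSn, hSp.map _, ⟨?_, ?_, ?_, ?_⟩, ?_,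
    isNilpotent_map_subtype hDnil, ?_, ?_, ?_, ?_, ?_⟩⟩
  · exact Subgroup.map_mono hcompl.1
  · exact Subgroup.map_mono hcompl.2.1
  · rw [← Subgroup.map_inf _ _ _ M.subtype_injective, hcompl.2.2.1, Subgroup.map_bot]
  · rintro _ ⟨n, hn, rfl⟩
    obtain ⟨a, ha, b, hb, rfl⟩ := hcompl.2.2.2 n hn
    exact ⟨a, ⟨a, ha, rfl⟩, b, ⟨b, hb, rfl⟩, rfl⟩
  · rw [← hσ, Subgroup.relIndex_map_map_of_injective _ _ M.subtype_injective]
    exact hSi
  · intro k hk hk1
    rw [eq_bot_iff]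
    rintro x hx
    obtain ⟨⟨d, hd, rfl⟩, hx2⟩ := Subgroup.mem_inf.mp hx
    rw [mem_centralizer_singleton_iff] at hx2
    have h3 : d ∈ D ⊓ centralizer ({(⟨k, hKM hk⟩ : ↥M)} : Set ↥M) := by
      refine Subgroup.mem_inf.mpr ⟨hd, ?_⟩
      rw [mem_centralizer_singleton_iff]
      exact Subtype.ext hx2
    rw [hDfix _ hk (fun e => hk1 (congrArg Subtype.val e))] at h3
    rw [(Subgroup.mem_bot.mp h3)]
    exact one_mem _
  · intro y hy
    have hyM : y ∈ M := (piCoreOf_le _ M) hy.1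
    exact ⟨⟨y, hyM⟩, hYS ⟨y, hyM⟩ hy, rfl⟩
  · rwa [card_map_subtype]
  · intro k hk
    have h3 := hKD ⟨k, hKM hk⟩ hk
    exact le_normalizer_map M.subtype ⟨⟨k, hKM hk⟩, h3, rfl⟩
  · refine Subgroup.map_mono ?_
    have hqσ : Nat.card ↥(sigmaCore M ⊓ centralizer (K : Set G)) ∈ sigma M := by
      have h2 : Nat.card ↥(sigmaCore M ⊓ centralizer (K : Set G)) ∣ Nat.card (sigmaCore M) := Subgroup.card_dvd_of_le inf_le_left
      exact piCoreOf_isPi (sigma M) M _ hq h2
    exact sylow_le_fittingHall hG hM hq hSn hSp hcompl.1 hSi hqσ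

namespace SigmaStruct

variable {Q D : Subgroup G} {q : ℕ} {k' : G}

theorem hσM : sigmaCore M ≤ M := piCoreOf_le _ M

theorem hQle (h : SigmaStruct M K Q D q) : Q ≤ sigmaCore M := h.hcompl.1

theorem hDle (h : SigmaStruct M K Q D q) : D ≤ sigmaCore M := h.hcompl.2.1

theorem not_centralizes (h : SigmaStruct M K Q D q) (hn : ¬ Group.IsNilpotent (sigmaCore M)) :
    ¬ Q ≤ centralizer (D : Set G) := by
  classical
  intro hc
  apply hn
  have hQn : Group.IsNilpotent Q := by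
    haveI : Fact q.Prime := ⟨h.hq⟩
    exact h.hQp.isNilpotent
  have h1 := nilpotent_sup_aux hQn h.hDnil (fun a ha b hb => (mem_centralizer_iff.mp (hc ha) b hb).symm)
  refine isNilpotent_of_le_aux ?_ h1
  intro m hm
  obtain ⟨a, ha, b, hb, rfl⟩ := h.hcompl.2.2.2 m hm
  exact Subgroup.mul_mem_sup ha hb

/-- The Frobenius action. -/
theorem frobAct (h : SigmaStruct M K Q D q) (hB : ThmB G) (hG : IsMinSimpleOddOrder G) (hM : IsCoatom M)
    (hKU : IsSigmaDecomposition M K U) (hn : ¬ Group.IsNilpotent (sigmaCore M))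
    (hqc : Nat.card ↥(sigmaCore M ⊓ centralizer (K : Set G)) = q) {k : G} (hk : k ∈ K) (hk1 : k ≠ 1) :
    FrobAct Q D q k := by
  classical
  have hKH := hKU.hall
  have hKM : K ≤ M := hKH.1
  have hqσ : q ∈ sigma M := by
    have h2 : q ∣ Nat.card (sigmaCore M) := by
      rw [← hqc]
      exact Subgroup.card_dvd_of_le inf_le_left
    exact piCoreOf_isPi (sigma M) M _ h.hq h2
  have hzK : zpowers k ≤ K := zpowers_le.mpr hk
  have hzD : zpowers k ≤ normalizer (D : Set G) := hzK.trans h.hKD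
  have hqp := h.hq
  haveI : Fact q.Prime := ⟨hqp⟩
  refine ⟨h.hq, h.hQp, ?_, hk1, h.hKD hk, ?_, ?_, ?_, h.not_centralizes hn⟩
  · intro x hx a ha
    have hxM : x ∈ M := (sup_le (h.hDle.trans hσM) (hzK.trans hKM)) hx
    exact (mem_normalizer_iff.mp (h.hQM hxM) a).mp ha
  · intro e he he1 u hu heu
    have h3 : u ∈ D ⊓ centralizer ({e} : Set G) := by
      refine Subgroup.mem_inf.mpr ⟨hu, ?_⟩
      rw [mem_centralizer_singleton_iff]
      exact heu.symm
    rw [h.hDfix e (hzK he) he1] at h3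
    exact h3
  · obtain ⟨j, hj⟩ := IsPGroup.iff_card.mp h.hQp
    rw [hj]
    refine Nat.Coprime.pow_left j ((Nat.Prime.coprime_iff_not_dvd hqp).mpr fun hd => ?_)
    rcases prime_dvd_sup hzD hqp hd with h3 | h3
    · exact (Nat.Prime.coprime_iff_not_dvd hqp).mp h.hDc.symm h3
    · have h4 : q ∣ Nat.card K := h3.trans (Subgroup.card_dvd_of_le hzK)
      exact (hKH.2.1 q hqp h4).2.2.1 hqσ
  · have e : Q ⊓ centralizer (zpowers k : Set G) = sigmaCore M ⊓ centralizer (K : Set G) := by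
      apply le_antisymm
      · rw [← kappa_prime_action hB hG hM hKH hk hk1]
        intro a ha
        refine Subgroup.mem_inf.mpr ⟨h.hQle ha.1, ?_⟩
        rw [mem_centralizer_singleton_iff]
        exact (mem_centralizer_iff.mp ha.2 k (mem_zpowers k)).symm
      · refine le_inf h.hYQ ?_
        exact inf_le_right.trans (centralizer_le hzK)
    rw [e, hqc]

theorem frob_ne_two (hG : IsMinSimpleOddOrder G) (h : SigmaStruct M K Q D q) (hqc : Nat.card ↥(sigmaCore M ⊓ centralizer (K : Set G)) = q) : q ≠ 2 := by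
  have h2 : Odd q := by
    rw [← hqc]
    exact subgroup_odd hG _
  rintro rfl
  exact absurd h2 (by decide)

/-- `|K|` is prime. -/
theorem card_K_prime (h : SigmaStruct M K Q D q) (hB : ThmB G) (hG : IsMinSimpleOddOrder G) (hM : IsCoatom M)
    (hKU : IsSigmaDecomposition M K U) (hK1 : K ≠ ⊥) (hn : ¬ Group.IsNilpotent (sigmaCore M))
    (hqc : Nat.card ↥(sigmaCore M ⊓ centralizer (K : Set G)) = q) : (Nat.card K).Prime := by
  classical
  obtain ⟨k₀, hk₀⟩ := (Subgroup.ne_bot_iff_exists_ne_one).mp hK1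
  have hk₀1 : (k₀ : G) ≠ 1 := fun e => hk₀ (Subtype.ext e)
  refine prime_card_of_forall_orderOf hKU.cyclic hK1 (n := orderOf (k₀ : G)) ?_
  intro k hk hk1
  have h1 := (h.frobAct hB hG hM hKU hn hqc hk hk1).card_eq
  have h2 := (h.frobAct hB hG hM hKU hn hqc k₀.2 hk₀1).card_eq
  rw [h1] at h2
  have h3 : q ^ orderOf k = q ^ orderOf (k₀ : G) := Nat.eq_of_mul_eq_mul_right Nat.card_pos h2
  exact Nat.pow_right_injective h.hq.two_le h3

/-- Elements of `M` of `q`-power order lie in `Q`. -/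
theorem mem_of_pow (h : SigmaStruct M K Q D q) (hG : IsMinSimpleOddOrder G) (hM : IsCoatom M)
    (hqσ : q ∈ sigma M) {e : G} (heM : e ∈ M) {j : ℕ} (hej : e ^ q ^ j = 1) : e ∈ Q := by
  classical
  have hqq := h.hq
  obtain ⟨hH1, hH2, hH3⟩ := (s1350_core hG (huniq13 hG) hM).1
  refine mem_of_coprime_relIndex h.hQM heM ?_
  obtain ⟨i, -, hi⟩ := (Nat.dvd_prime_pow hqq).1 (orderOf_dvd_of_pow_eq_one hej)
  rw [hi]
  refine Nat.Coprime.pow_right i ?_
  refine ((Nat.Prime.coprime_iff_not_dvd hqq).mpr fun hd => ?_).symm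
  rw [← Subgroup.relIndex_mul_relIndex Q (sigmaCore M) M h.hQle hH1] at hd
  rcases (Nat.Prime.dvd_mul hqq).mp hd with h1 | h1
  · exact h.hQi h1
  · exact hH3 q hqq hqσ h1

theorem isMaxP (h : SigmaStruct M K Q D q) (hG : IsMinSimpleOddOrder G) (hM : IsCoatom M)
    (hqσ : q ∈ sigma M) : IsMaxP q Q M := by
  classical
  haveI : Fact q.Prime := ⟨h.hq⟩
  refine ⟨h.hQle.trans hσM, h.hQp, fun D' h3 h4 h5 => le_antisymm ?_ h5⟩
  intro d hd
  obtain ⟨j, hj⟩ := h4 ⟨d, hd⟩
  exact h.mem_of_pow hG hM hqσ (h3 hd) (congrArg Subtype.val hj)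

/-- `q ∈ β(M)`. -/
theorem mem_beta (h : SigmaStruct M K Q D q) (hB : ThmB G) (hG : IsMinSimpleOddOrder G) (hM : IsCoatom M)
    (hKU : IsSigmaDecomposition M K U) (hn : ¬ Group.IsNilpotent (sigmaCore M))
    (hqc : Nat.card ↥(sigmaCore M ⊓ centralizer (K : Set G)) = q) : q ∈ beta M := by
  classical
  by_contra hqβ
  have hqq := h.hq
  haveI : Fact q.Prime := ⟨hqq⟩
  have huniq := huniq13 hG
  have hqd : q ∣ Nat.card (sigmaCore M) := by
    rw [← hqc]
    exact Subgroup.card_dvd_of_le inf_le_left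
  have hqM : q ∣ Nat.card M := hqd.trans (Subgroup.card_dvd_of_le hσM)
  obtain ⟨-, -, -, -, hlast⟩ := s1414_core hG huniq hM (fun r _ _ => hpl13 hG r M hM.1)
  obtain ⟨-, ⟨P, N, hNn, hNc⟩, -⟩ := hlast q hqq hqM hqβ
  apply h.not_centralizes hn
  -- `q` does not divide the order of `N`
  have h1 : P.1.index = Nat.card N := hNc.index_eq_card
  have h2 : N.index = Nat.card P.1 := hNc.symm.index_eq_card
  have hqN : ¬ q ∣ Nat.card N := by
    rw [← h1]
    exact P.not_dvd_index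
  have hPp : IsPGroup q P.1 := P.2
  have hDN : ∀ d (hd : d ∈ D), (⟨d, h.hDle hd⟩ : ↥(sigmaCore M)) ∈ N := by
    intro d hd
    refine mem_of_coprime_relIndex_aux (N := ⊤) (fun g _ => mem_normalizer_of_normal_aux hNn g) (Subgroup.mem_top _) ?_
    rw [Subgroup.relIndex_top_right, h2]
    obtain ⟨j, hj⟩ := IsPGroup.iff_card.mp hPp
    rw [hj]
    refine Nat.Coprime.pow_left j ?_
    rw [Subgroup.orderOf_mk]
    refine ((Nat.Prime.coprime_iff_not_dvd hqq).mpr fun hd' => ?_)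
    exact (Nat.Prime.coprime_iff_not_dvd hqq).mp h.hDc.symm (hd'.trans (Subgroup.orderOf_dvd_natCard D hd))
  intro a ha
  rw [mem_centralizer_iff]
  intro d hd
  -- the commutator lies in `Q ∩ N`
  set a' : ↥(sigmaCore M) := ⟨a, h.hQle ha⟩ with ha'
  set d' : ↥(sigmaCore M) := ⟨d, h.hDle hd⟩ with hd'
  set c := a' * d' * a'⁻¹ * d'⁻¹ with hc
  have hcN : c ∈ N := by
    have h3 : a' * d' * a'⁻¹ ∈ N := hNn.conj_mem d' (hDN d hd) a'
    exact mul_mem h3 (inv_mem (hDN d hd))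
  have hcQ : (c : G) ∈ Q := by
    have h3 : d * a⁻¹ * d⁻¹ ∈ Q := (mem_normalizer_iff.mp (h.hQM ((h.hDle.trans hσM) hd)) a⁻¹).mp (inv_mem ha)
    have h4 : (c : G) = a * (d * a⁻¹ * d⁻¹) := by
      simp only [hc, ha', hd', Subgroup.coe_mul, Subgroup.coe_inv]
      group
    rw [h4]
    exact mul_mem ha h3
  have hc1 : (c : G) = 1 := by
    obtain ⟨j, hj⟩ := h.hQp ⟨c, hcQ⟩
    have hj' : (c : G) ^ q ^ j = 1 := congrArg Subtype.val hj
    have h5 : orderOf c ∣ Nat.card N := Subgroup.orderOf_dvd_natCard N hcN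
    have h6 : orderOf (c : G) = orderOf c := Subgroup.orderOf_coe c
    by_contra hne
    have h7 : orderOf (c : G) ≠ 1 := fun e => hne (orderOf_eq_one_iff.1 e)
    obtain ⟨i, hi, hie⟩ := (Nat.dvd_prime_pow hqq).1 (orderOf_dvd_of_pow_eq_one hj')
    have hi0 : i ≠ 0 := by
      rintro rfl
      exact h7 (by simpa using hie)
    have h8 : q ∣ orderOf (c : G) := by
      rw [hie]
      exact dvd_pow_self q hi0
    rw [h6] at h8
    exact hqN (h8.trans h5)
  have h9 : a * d * a⁻¹ * d⁻¹ = 1 := by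
    have : (c : G) = a * d * a⁻¹ * d⁻¹ := rfl
    rwa [this] at hc1
  have h10 : a * d = d * a := by
    have : a * d * a⁻¹ = d := by
      rw [← mul_inv_eq_one]
      exact h9
    rwa [mul_inv_eq_iff_eq_mul] at this
  exact h10.symm


/-- `F(M)` is a TI subset. -/
theorem fitting_TI (h : SigmaStruct M K Q D q) (hB : ThmB G) (hG : IsMinSimpleOddOrder G) (hM : IsCoatom M)
    (hKU : IsSigmaDecomposition M K U) (hK1 : K ≠ ⊥) (hU : U = ⊥) (hn : ¬ Group.IsNilpotent (sigmaCore M))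
    (hqc : Nat.card ↥(sigmaCore M ⊓ centralizer (K : Set G)) = q) : IsTISubset (fittingOf M : Set G) := by
  classical
  have huniq := huniq13 hG
  have hqq := h.hq
  haveI : Fact q.Prime := ⟨hqq⟩
  have hqd : q ∣ Nat.card (sigmaCore M) := by
    rw [← hqc]
    exact Subgroup.card_dvd_of_le inf_le_left
  have hqσ : q ∈ sigma M := piCoreOf_isPi (sigma M) M _ hqq hqd
  have hFM : fittingOf M ≤ M := map_subtype_le _
  have hMF : M ≤ normalizer (fittingOf M : Set G) := map_normal_normalized _ inferInstance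
  have hFnil : Group.IsNilpotent (fittingOf M) := isNilpotent_map_subtype fittingSubgroup_isNilpotent
  have hle : sigmaCore M ⊓ centralizer (K : Set G) ≤ fittingHallOf M := by
    refine le_trans ?_ h.hQF
    exact h.hYQ
  have hFσ : fittingOf M ≤ sigmaCore M := by
    have h1 := fitting_le_commutator hB hG hM hKU hK1 hle
    rw [(s1365_core hB hG hM hKU hK1).1, hU, bot_sup_eq] at h1
    exact h1
  have hQFF : Q ≤ fittingOf M := h.hQF.trans (Subgroup.map_mono fittingHall_le_fittingSubgroup)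
  intro g hg x hx hgx
  by_contra hx1
  have ho1 : orderOf x ≠ 1 := fun e => hx1 (orderOf_eq_one_iff.1 e)
  obtain ⟨r, hr, hrd⟩ := Nat.exists_prime_and_dvd ho1
  obtain ⟨y, hyz, hyo⟩ := exists_mem_zpowers_orderOf hrd
  have hy1 : y ≠ 1 := by
    rintro rfl
    rw [orderOf_one] at hyo
    exact hr.one_lt.ne hyo
  have hyF : y ∈ fittingOf M := (zpowers_le.mpr hx) hyz
  have hgy : g * y * g⁻¹ ∈ fittingOf M := by
    obtain ⟨i, rfl⟩ := hyz
    have h1 : g * (x ^ i) * g⁻¹ = (g * x * g⁻¹) ^ i := by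
      simp [conj_zpow]
    change g * (x ^ i) * g⁻¹ ∈ _
    rw [h1]
    exact zpow_mem hgx i
  have hyσ := hFσ hyF
  have hCne : ¬ centralizer ({y} : Set G) ≤ M := by
    intro hC
    obtain ⟨c, hc, m, hm, e⟩ := fusion_core hB hG hM (g := g⁻¹) hyσ hy1 (by
      rw [inv_inv]
      exact hFM hgy)
    apply hg
    apply hMF
    have h1 : g⁻¹ ∈ M := by
      rw [e]
      exact mul_mem (hC hc) hm
    simpa using inv_mem h1
  obtain ⟨L, hL, hCL, -, -, -, -, hcompl, hyML, hτ, -⟩ := thmE_core hB hG hM hyσ hy1 hCne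
  have hrτ : r ∈ tau2 L := hτ r hr (by rw [hyo])
  have hβ := h.mem_beta hB hG hM hKU hn hqc
  obtain ⟨E₃, hE₃e, hE₃M, hE₃c⟩ := exists_of_not_prank hβ.1.2
  have hE₃Q : E₃ ≤ Q := fun e he => h.mem_of_pow hG hM hqσ (hE₃M he) (j := 1) (by
    rw [pow_one]
    exact hE₃e.2 e he)
  by_cases hrq : r = q
  · subst hrq
    have hyq : y ^ r = 1 := by
      rw [← hyo]
      exact pow_orderOf_eq_one y
    have hyQ : y ∈ Q := h.mem_of_pow hG hM hqσ (hFM hyF) (j := 1) (by rw [pow_one]; exact hyq)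
    -- a commuting element outside `⟨y⟩`
    obtain ⟨w, hwQ, hwq, hcw, hwy⟩ : ∃ w ∈ Q, w ^ r = 1 ∧ y * w = w * y ∧ w ∉ zpowers y := by
      haveI : Nontrivial ↥Q := by
        refine (Subgroup.nontrivial_iff_ne_bot Q).mpr ?_
        rintro e
        rw [e] at hyQ
        exact hy1 hyQ
      have hZ := h.hQp.center_nontrivial
      have hZr : r ∣ Nat.card (center ↥Q) := by
        have hZp : IsPGroup r (center ↥Q) := h.hQp.to_subgroup _
        obtain ⟨j, hj⟩ := IsPGroup.iff_card.mp hZp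
        have hne : Nat.card (center ↥Q) ≠ 1 := Finite.one_lt_card.ne'
        rw [hj] at hne ⊢
        have hj0 : j ≠ 0 := by
          rintro rfl
          simp at hne
        exact dvd_pow_self r hj0
      obtain ⟨z, hz⟩ := exists_prime_orderOf_dvd_card' (G := ↥(center ↥Q)) r hZr
      set z₀ : G := ((z : ↥Q) : G) with hz₀
      have hz₀o : orderOf z₀ = r := by
        rw [hz₀, Subgroup.orderOf_coe, Subgroup.orderOf_coe, hz]
      have hz₀Q : z₀ ∈ Q := (z : ↥Q).2
      have hz₀c : ∀ a (ha : a ∈ Q), a * z₀ = z₀ * a := by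
        intro a ha
        have := (Subgroup.mem_center_iff.mp z.2) ⟨a, ha⟩
        exact congrArg Subtype.val this
      by_cases hzy : z₀ ∈ zpowers y
      · -- `y` is central in `Q`
        have e : zpowers z₀ = zpowers y := by
          apply Subgroup.eq_of_le_of_card_ge (zpowers_le.mpr hzy)
          rw [Nat.card_zpowers, Nat.card_zpowers, hyo, hz₀o]
        have hyz₀ : y ∈ zpowers z₀ := e ▸ mem_zpowers y
        have hyc : ∀ a (ha : a ∈ Q), a * y = y * a := by
          obtain ⟨i, hi⟩ := hyz₀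
          intro a ha
          have hi' : z₀ ^ i = y := hi
          rw [← hi']
          exact ((Commute.zpow_right (show Commute a z₀ from hz₀c a ha) i)).eq
        have hnle : ¬ E₃ ≤ zpowers y := by
          intro hle'
          have h1 := Subgroup.card_le_of_le hle'
          rw [Nat.card_zpowers, hyo] at h1
          have h2 : r < r ^ 2 := by
            have := hqq.one_lt
            nlinarith
          omega
        obtain ⟨w, hwE, hwn⟩ := SetLike.not_le_iff_exists.mp hnle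
        exact ⟨w, hE₃Q hwE, hE₃e.2 w hwE, (hyc w (hE₃Q hwE)).symm, hwn⟩
      · refine ⟨z₀, hz₀Q, ?_, (hz₀c y hyQ), hzy⟩
        rw [← hz₀o]
        exact pow_orderOf_eq_one _
    obtain ⟨hAe, hAc⟩ := elem_sq_of_comm hqq hyo hwq hcw hwy
    have hAQ : zpowers y ⊔ zpowers w ≤ Q := sup_le (zpowers_le.mpr hyQ) (zpowers_le.mpr hwQ)
    have hmaxTop := IsMaxP.top_of_sigma hqσ (h.isMaxP hG hM hqσ)
    have hi : ¬ r ∣ Q.index := by
      have h1 := (isPiHallOf_of_isMaxP hmaxTop).2.2 r hqq rfl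
      rwa [Subgroup.relIndex_top_right] at h1
    obtain ⟨B, hBQ, hBe, hAB⟩ := hβ.2.2.2 (IsPGroup.toSylow h.hQp hi) _ hAQ hAe hAc
    have hBc : r ^ 2 < Nat.card B := by
      rw [← hAc]
      refine lt_of_le_of_ne (Subgroup.card_le_of_le hAB.le) fun e => hAB.ne ?_
      exact Subgroup.eq_of_le_of_card_ge hAB.le e.ge
    have hyB : y ∈ B := hAB.le (Subgroup.mem_sup_left (mem_zpowers y))
    have hBL : B ≤ L := by
      intro b hb
      apply hCL
      rw [mem_centralizer_singleton_iff]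
      have := hBe.1.is_comm.comm (⟨b, hb⟩ : ↥B) ⟨y, hyB⟩
      exact congrArg Subtype.val this
    exact not_prank_of_card hBe hBL hBc hrτ.2.2.1
  · have hQC : Q ≤ centralizer ({y} : Set G) := by
      intro a ha
      rw [mem_centralizer_singleton_iff]
      refine comm_of_coprime_of_nilpotent_subgroup hFnil (hQFF ha) hyF ?_
      rw [hyo]
      obtain ⟨j, hj⟩ := Cfsg.Agent.Lib.PGroups.exists_orderOf_of_mem_isPGroup h.hQp ha
      rw [hj]
      refine Nat.Coprime.pow_left j ?_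
      exact (Nat.coprime_primes hqq hr).mpr (Ne.symm hrq)
    have hQL : Q ≤ L := hQC.trans hCL
    have hqL : q ∈ sigma L :=
      alpha_sub_sigma hG huniq hL ⟨hqq, not_prank_of_card hE₃e (hE₃Q.trans hQL) hE₃c⟩
    have hqE : q ∣ Nat.card ↥(M ⊓ L) := by
      have h1 : q ∣ Nat.card Q := by
        rw [← hqc]
        exact Subgroup.card_dvd_of_le h.hYQ
      exact h1.trans (Subgroup.card_dvd_of_le (le_inf (h.hQle.trans hσM) hQL))
    exact compl_prime_not_sigma hG hL hcompl hqq hqE hqL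


/-- Any complement of `Q` in `M_σ` is conjugate to `D` by an element of `Q`. -/
theorem exists_conj_compl (h : SigmaStruct M K Q D q) (hG : IsMinSimpleOddOrder G) (hM : IsCoatom M)
    {D' : Subgroup G} (hD' : IsComplIn Q D' (sigmaCore M)) : ∃ a ∈ Q, D' = D.map (MulAut.conj a).toMonoidHom := by
  classical
  have hqq := h.hq
  haveI : Fact q.Prime := ⟨hqq⟩
  have hs : Group.IsSolvable ↥(sigmaCore M) := by
    haveI := coatom_isSolvable hG hM
    exact solvable_of_solvable_injective (f := Subgroup.inclusion (hσM (M := M))) (Subgroup.inclusion_injective hσM)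
  have e1 := IsComplIn_card_eq h.hcompl
  have e2 := IsComplIn_card_eq hD'
  have e3 := Cfsg.Agent.Lib.Coprime.card_mul_relIndex h.hQle
  have e4 := Cfsg.Agent.Lib.Coprime.card_mul_relIndex h.hDle
  have hcD : Q.relIndex (sigmaCore M) = Nat.card D :=
    Nat.eq_of_mul_eq_mul_left Nat.card_pos (e3.trans e1)
  have hcD' : Q.relIndex (sigmaCore M) = Nat.card D' :=
    Nat.eq_of_mul_eq_mul_left Nat.card_pos (e3.trans e2)
  have hrD : D.relIndex (sigmaCore M) = Nat.card Q := by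
    apply Nat.eq_of_mul_eq_mul_left (Nat.card_pos (α := D))
    rw [e4, e1, mul_comm]
  have hπ : IsPiHallOf {t : ℕ | t.Prime ∧ t ≠ q} D (sigmaCore M) := by
    refine ⟨h.hDle, fun t ht hd => ⟨ht, ?_⟩, ?_⟩
    · rintro rfl
      exact (Nat.Prime.coprime_iff_not_dvd hqq).mp h.hDc.symm hd
    · rintro t ht ⟨-, htq⟩ hd
      rw [hrD] at hd
      obtain ⟨j, hj⟩ := IsPGroup.iff_card.mp h.hQp
      rw [hj] at hd
      exact htq ((Nat.prime_dvd_prime_iff_eq ht hqq).mp (ht.dvd_of_dvd_pow hd))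
  obtain ⟨g, hg, hgle⟩ := IsPiHallOf.exists_conj_ge hs hπ hD'.2.1 (by
    intro t ht hd
    refine ⟨ht, ?_⟩
    rintro rfl
    rw [← hcD'] at hd
    exact h.hQi hd)
  obtain ⟨a, ha, d, hd, rfl⟩ := h.hcompl.2.2.2 g hg
  refine ⟨a, ha, ?_⟩
  have e5 : D.map (MulAut.conj (a * d)).toMonoidHom = D.map (MulAut.conj a).toMonoidHom := by
    rw [← conj_map_conj_map, (conj_map_eq_iff_mem_normalizer D d).mpr (le_normalizer hd)]
  rw [e5] at hgle
  refine Subgroup.eq_of_le_of_card_ge hgle ?_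
  rw [Cfsg.Agent.Lib.Coprime.card_conj_map, ← hcD', hcD]

/-- The centralizer is unchanged under conjugation by `Q`. -/
theorem conj_mem_Q₀ (h : SigmaStruct M K Q D q) (hF : FrobAct Q D q k') {a x : G} (ha : a ∈ Q)
    (hx : x ∈ Q ⊓ centralizer (D : Set G)) : a * x * a⁻¹ ∈ Q ⊓ centralizer (D : Set G) := by
  have h1 := hF.comm_mem ha hx.1
  have h2 : a * x * a⁻¹ = (a * x * a⁻¹ * x⁻¹) * x := by group
  refine Subgroup.mem_inf.mpr ⟨mul_mem (mul_mem ha hx.1) (inv_mem ha), ?_⟩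
  rw [h2]
  exact mul_mem h1 hx.2

theorem inf_centralizer_conj (h : SigmaStruct M K Q D q) (hF : FrobAct Q D q k') {a : G} (ha : a ∈ Q) :
    Q ⊓ centralizer ((D.map (MulAut.conj a).toMonoidHom : Subgroup G) : Set G) = Q ⊓ centralizer (D : Set G) := by
  apply le_antisymm
  · intro c hc
    obtain ⟨hcQ, hcC⟩ := Subgroup.mem_inf.mp hc
    have h1 : a⁻¹ * c * a ∈ Q ⊓ centralizer (D : Set G) := by
      refine Subgroup.mem_inf.mpr ⟨mul_mem (mul_mem (inv_mem ha) hcQ) ha, ?_⟩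
      rw [mem_centralizer_iff]
      intro d hd
      have h2 := mem_centralizer_iff.mp hcC (a * d * a⁻¹) ⟨d, hd, rfl⟩
      calc d * (a⁻¹ * c * a) = a⁻¹ * ((a * d * a⁻¹) * c) * a := by group
        _ = a⁻¹ * (c * (a * d * a⁻¹)) * a := by rw [h2]
        _ = a⁻¹ * c * a * d := by group
    have h3 := h.conj_mem_Q₀ hF ha h1
    have e : a * (a⁻¹ * c * a) * a⁻¹ = c := by group
    rwa [e] at h3
  · intro c hc
    have h1 := h.conj_mem_Q₀ hF (inv_mem ha) hc
    refine Subgroup.mem_inf.mpr ⟨hc.1, ?_⟩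
    rw [mem_centralizer_iff]
    rintro _ ⟨d, hd, rfl⟩
    have h2 := mem_centralizer_iff.mp h1.2 d hd
    have h3 : a⁻¹ * c * a⁻¹⁻¹ = a⁻¹ * c * a := by group
    rw [h3] at h2
    change a * d * a⁻¹ * c = c * (a * d * a⁻¹)
    calc a * d * a⁻¹ * c = a * (d * (a⁻¹ * c * a)) * a⁻¹ := by group
      _ = a * ((a⁻¹ * c * a) * d) * a⁻¹ := by rw [h2]
      _ = c * (a * d * a⁻¹) := by group

end SigmaStruct


theorem not_nilpotent_of_ne (hG : IsMinSimpleOddOrder G) (hM : IsCoatom M) (hne : fittingHallOf M ≠ sigmaCore M) :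
    ¬ Group.IsNilpotent (sigmaCore M) := fun hn => hne (sigmaCore_eq_fittingHallOf hG hM hn).symm

theorem K_ne_bot_of_U_bot (hG : IsMinSimpleOddOrder G) (hM : IsCoatom M) (hKU : IsSigmaDecomposition M K U) (hU : U = ⊥) : K ≠ ⊥ := by
  classical
  rintro rfl
  have huniq := huniq13 hG
  have hlt := commutator_lt_of_coatom hG hM
  have hσc := sigmaCore_le_commutator hG huniq hM
  have h1 : M ≤ sigmaCore M := by
    intro m hm
    obtain ⟨u, hu, b, hb, rfl⟩ := hKU.compl.2.2.2 m hm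
    rw [hU, mem_bot] at hu
    rw [hu, one_mul]
    rwa [bot_sup_eq] at hb
  exact absurd (h1.trans hσc) (not_le_of_gt hlt)

/-- **S1357**, with the order of `K^*` as a hypothesis. -/
theorem s1357_core (hB : ThmB G) (hG : IsMinSimpleOddOrder G) (hM : IsCoatom M) (hKU : IsSigmaDecomposition M K U)
    (hne : fittingHallOf M ≠ sigmaCore M)
    (h1373 : K ≠ ⊥ → U = ⊥ → (Nat.card ↥(sigmaCore M ⊓ centralizer (K : Set G))).Prime) :
    U = ⊥ ∧ IsTISubset (fittingOf M : Set G) ∧ (Nat.card K).Prime := by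
  have hn := not_nilpotent_of_ne hG hM hne
  have hU := U_eq_bot_of_not_nilpotent hG hM hKU hn
  have hK1 := K_ne_bot_of_U_bot hG hM hKU hU
  obtain ⟨Q, D, h⟩ := exists_sigmaStruct hB hG hM hKU hK1 hU (h1373 hK1 hU)
  exact ⟨hU, h.fitting_TI hB hG hM hKU hK1 hU hn rfl, h.card_K_prime hB hG hM hKU hK1 hn rfl⟩

/-- **S1437**, with the order of `K^*` as a hypothesis. -/
theorem s1437_core (hB : ThmB G) (hG : IsMinSimpleOddOrder G) (hM : IsCoatom M) (hKU : IsSigmaDecomposition M K U)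
    (hne : fittingHallOf M ≠ sigmaCore M)
    (h1373 : K ≠ ⊥ → U = ⊥ → (Nat.card ↥(sigmaCore M ⊓ centralizer (K : Set G))).Prime) :
    U = ⊥ ∧ sigmaCore M = ⁅M, M⁆ ∧ (Nat.card K).Prime ∧ (Nat.card ↥(sigmaCore M ⊓ centralizer (K : Set G))).Prime ∧
      Nat.card ↥(sigmaCore M ⊓ centralizer (K : Set G)) ∣ Nat.card (fittingHallOf M) ∧ Nat.card ↥(sigmaCore M ⊓ centralizer (K : Set G)) ∈ beta M ∧
      ∃ Q : Subgroup G, Q ≤ fittingHallOf M ∧ M ≤ normalizer (Q : Set G) ∧ IsPGroup (Nat.card ↥(sigmaCore M ⊓ centralizer (K : Set G))) Q ∧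
        ¬ Nat.card ↥(sigmaCore M ⊓ centralizer (K : Set G)) ∣ Q.relIndex (sigmaCore M) ∧
        ∀ D : Subgroup G, IsComplIn Q D (sigmaCore M) →
          Group.IsNilpotent D ∧ M ≤ normalizer ((Q ⊓ centralizer (D : Set G) : Subgroup G) : Set G) ∧
          Q ⊓ centralizer (D : Set G) < Q ∧
          Nat.card Q = Nat.card ↥(Q ⊓ centralizer (D : Set G)) * Nat.card ↥(sigmaCore M ⊓ centralizer (K : Set G)) ^ Nat.card K ∧
          (∀ a ∈ Q, ∀ b ∈ Q, a ^ Nat.card ↥(sigmaCore M ⊓ centralizer (K : Set G)) ∈ Q ⊓ centralizer (D : Set G) ∧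
            a * b * a⁻¹ * b⁻¹ ∈ Q ⊓ centralizer (D : Set G)) ∧
          ∀ N : Subgroup G, Q ⊓ centralizer (D : Set G) < N → N < Q → ¬ M ≤ normalizer (N : Set G) := by
  classical
  have hn := not_nilpotent_of_ne hG hM hne
  have hU := U_eq_bot_of_not_nilpotent hG hM hKU hn
  have hK1 := K_ne_bot_of_U_bot hG hM hKU hU
  have hq := h1373 hK1 hU
  obtain ⟨Q, D₀, h⟩ := exists_sigmaStruct hB hG hM hKU hK1 hU hq
  set Kst := sigmaCore M ⊓ centralizer (K : Set G) with hKst
  set q := Nat.card Kst with hqdef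
  have hKH := hKU.hall
  have hKM : K ≤ M := hKH.1
  have hσM : sigmaCore M ≤ M := piCoreOf_le _ M
  have hp := h.card_K_prime hB hG hM hKU hK1 hn rfl
  obtain ⟨k₀, hk₀⟩ := (Subgroup.ne_bot_iff_exists_ne_one).mp hK1
  have hk₀1 : (k₀ : G) ≠ 1 := fun e => hk₀ (Subtype.ext e)
  have hF := h.frobAct hB hG hM hKU hn rfl k₀.2 hk₀1
  have hok : orderOf (k₀ : G) = Nat.card K := by
    have h1 : orderOf (k₀ : G) ∣ Nat.card K := Subgroup.orderOf_dvd_natCard K k₀.2
    rcases (Nat.dvd_prime hp).mp h1 with h2 | h2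
    · exact absurd (orderOf_eq_one_iff.mp h2) hk₀1
    · exact h2
  refine ⟨hU, ?_, hp, hq, ?_, h.mem_beta hB hG hM hKU hn rfl, Q, h.hQF, h.hQM, h.hQp, h.hQi, ?_⟩
  · have := (s1365_core hB hG hM hKU hK1).1
    rw [hU, bot_sup_eq] at this
    exact this.symm
  · exact Subgroup.card_dvd_of_le (h.hYQ.trans h.hQF)
  intro D hD
  obtain ⟨a, ha, rfl⟩ := h.exists_conj_compl hG hM hD
  rw [h.inf_centralizer_conj hF ha]
  set Q₀ := Q ⊓ centralizer (D₀ : Set G) with hQ₀
  have hMle : M ≤ K ⊔ (Q ⊔ D₀) := by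
    intro m hm
    obtain ⟨u, hu, b, hb, rfl⟩ := hKU.compl.2.2.2 m hm
    rw [hU, mem_bot] at hu
    rw [hu, one_mul]
    have h4 : sigmaCore M ≤ Q ⊔ D₀ := by
      intro s hs
      obtain ⟨a', ha', b', hb', rfl⟩ := h.hcompl.2.2.2 s hs
      exact Subgroup.mul_mem_sup ha' hb'
    exact (sup_le le_sup_left (h4.trans le_sup_right) : K ⊔ sigmaCore M ≤ K ⊔ (Q ⊔ D₀)) hb
  refine ⟨?_, ?_, hF.lt, ?_, ?_, ?_⟩
  · have hnil := h.hDnil
    exact nilpotent_of_surjective ((MulAut.conj a).toMonoidHom.subgroupMap D₀) (MonoidHom.subgroupMap_surjective _ _)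
  · refine hMle.trans (sup_le ?_ (sup_le ?_ ?_))
    · intro k hk
      refine mem_normalizer_of_conj_le Q₀ k fun x hx => ?_
      refine Subgroup.mem_inf.mpr ⟨(mem_normalizer_iff.mp (h.hQM (hKM hk)) x).mp hx.1, ?_⟩
      rw [mem_centralizer_iff]
      intro d hd
      have h1 : k⁻¹ * d * k⁻¹⁻¹ ∈ D₀ := (mem_normalizer_iff.mp (h.hKD (inv_mem hk)) d).mp hd
      have h2 := mem_centralizer_iff.mp hx.2 _ h1
      have e : k⁻¹ * d * k⁻¹⁻¹ = k⁻¹ * d * k := by group
      rw [e] at h2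
      calc d * (k * x * k⁻¹) = k * ((k⁻¹ * d * k) * x) * k⁻¹ := by group
        _ = k * (x * (k⁻¹ * d * k)) * k⁻¹ := by rw [h2]
        _ = k * x * k⁻¹ * d := by group
    · intro b hb
      exact mem_normalizer_of_conj_le Q₀ b fun x hx => h.conj_mem_Q₀ hF hb hx
    · intro d hd
      refine mem_normalizer_of_conj_le Q₀ d fun x hx => ?_
      have h1 := mem_centralizer_iff.mp hx.2 d hd
      rw [h1, mul_inv_cancel_right]
      exact hx
  · rw [hF.card_eq, hok, mul_comm]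
  · intro x hx y hy
    refine ⟨Subgroup.mem_inf.mpr ⟨pow_mem hx _, hF.pow_mem hx⟩, Subgroup.mem_inf.mpr ⟨?_, hF.comm_mem hx hy⟩⟩
    exact mul_mem (mul_mem (mul_mem hx hy) (inv_mem hx)) (inv_mem hy)
  · intro N h1 h2 hNM
    refine hF.no_between h1 h2 fun x hx t ht => ?_
    have hxM : x ∈ M := (sup_le (h.hDle.trans hσM) (zpowers_le.mpr (hKM k₀.2))) hx
    exact (mem_normalizer_iff.mp (hNM hxM) t).mp ht

end Cfsg.Agent.Lib.FT
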