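import Cfsg.Agent.Lib.FT.BG21e

/-!
BG21f: exactly two members in a cluster; `K` is cyclic.
-/

set_option autoImplicit false
set_option linter.unusedSectionVars false
set_option linter.style.haveILetI false

namespace Cfsg.Agent.Lib.FT

open Subgroup Cfsg Cfsg.Agent.Lib.OddLocal Cfsg.Agent.Lib.Basic Cfsg.Agent.Lib.Coprime

open scoped commutatorElement

variable {G : Type*} [Group G] [Finite G]

/-- The numerical condition of the count, from `U = 1`. -/
theorem count_hyp_of_sup {L K Z : Subgroup G} (hK : IsPiHallOf (kappa L) K L)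
    (hZ : K ⊔ (sigmaCore L ⊓ centralizer (K : Set G)) = Z) (h : K ⊔ sigmaCore L = L) :
    Nat.card L * Nat.card ↥(sigmaCore L ⊓ Z) = Nat.card (sigmaCore L) * Nat.card Z := by
  classical
  have hKn : K ≤ normalizer (sigmaCore L : Set G) := hK.1.trans (le_normalizer_piCoreOf (sigma L) L)
  have h1 := Cfsg.Agent.Lib.OddLocal.card_sup_mul_card_inf hKn
  rw [sup_comm, h, inf_comm, kappa_inf_sigmaCore hK, Subgroup.card_bot, mul_one] at h1
  have hn2 : (sigmaCore L ⊓ centralizer (K : Set G) : Subgroup G) ≤ normalizer (K : Set G) :=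
    inf_le_right.trans (centralizer_le_normalizer' K)
  have h2 := Cfsg.Agent.Lib.OddLocal.card_sup_mul_card_inf hn2
  have hinf : K ⊓ (sigmaCore L ⊓ centralizer (K : Set G)) = ⊥ := by
    rw [eq_bot_iff, ← kappa_inf_sigmaCore hK]
    exact inf_le_inf_left _ inf_le_left
  rw [hinf, Subgroup.card_bot, mul_one, hZ] at h2
  rw [sigma_inf_cluster hK hZ, h1, h2]
  ring

theorem sup_eq_of_U_bot {L K : Subgroup G} (hG : IsMinSimpleOddOrder G) (hL : IsCoatom L) (hK : IsPiHallOf (kappa L) K L)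
    (hU : IsPiHallOf {q | q.Prime ∧ q ∉ kappa L ∧ q ∉ sigma L} ⊥ L) : K ⊔ sigmaCore L = L := by
  classical
  have h1 := isPiHallOf_kappa_sup hG hL hK
  apply le_antisymm h1.1
  rw [← Subgroup.relIndex_eq_one]
  by_contra hne
  obtain ⟨t, ht, hd⟩ := Nat.exists_prime_and_dvd hne
  have h2 : t ∉ kappa L ∪ sigma L := fun h => h1.2.2 t ht h hd
  have h3 : t ∣ Nat.card L := hd.trans (Subgroup.relIndex_dvd_card _ _)
  apply hU.2.2 t ht ⟨ht, fun h => h2 (Or.inl h), fun h => h2 (Or.inr h)⟩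
  simpa [Subgroup.relIndex_bot_left] using h3

/-- `U ≠ 1` forces `M_σ` to be nilpotent. -/
theorem sigma_nilpotent_of_U_ne {M U : Subgroup G} (hG : IsMinSimpleOddOrder G) (hM : IsCoatom M)
    (hU : IsPiHallOf {q | q.Prime ∧ q ∉ kappa M ∧ q ∉ sigma M} U M) (hU1 : U ≠ ⊥) : Group.IsNilpotent (sigmaCore M) := by
  classical
  have huniq := huniq13 hG
  have hpl : ∀ (r : ℕ) [Fact r.Prime] (H : Subgroup G), H ≠ ⊤ → PLengthLE r 1 ↥H := fun r _ K hK => hpl13 hG r K hK
  obtain ⟨r, hr, R, hRU, hR⟩ := exists_prime_subgroup hU1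
  haveI := Fact.mk hr
  have hrπ : r ∈ {q | q.Prime ∧ q ∉ kappa M ∧ q ∉ sigma M} := hU.2.1 r hr (by
    rw [← hR]
    exact Subgroup.card_dvd_of_le hRU)
  obtain ⟨y, hy, hy1⟩ := exists_ne_one_of_card_prime hr hR
  have hyo : orderOf y = r := orderOf_eq_of_card_prime hr hR hy hy1
  have hyp : y ^ r = 1 := by
    rw [← hyo]
    exact pow_orderOf_eq_one y
  by_cases h1 : PRankLE r 1 ↥M
  · refine sigmaCore_nilpotent_of_fpf hr (hU.1 (hRU hy)) hyp ?_
    by_contra hne
    exact hrπ.2.1 (kappa_of_good hG (hU.1 (hRU hy)) hy1 hr hyp hrπ.2.2 h1 hne)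
  · obtain ⟨P, hP, hRP⟩ := exists_isMaxP_ge hRU (isPGroup_of_card_prime hR)
    have hPM : IsMaxP r P M := isMaxP_trans_hall hrπ hU hP
    have hnc : ¬ IsCyclic P := fun hc => h1 (hPM.prank_of (prank_one_of_cyclic hc))
    obtain ⟨A, hAP, hAe, hAc⟩ := exists_e2_of_not_cyclic hG hP.isP hnc
    exact (Tau2Setup.mk' hG huniq hpl hM (hAP.trans hPM.le) hAe hAc hrπ.2.2).nil

section Two

variable {Z : Subgroup G}

/-- A member `L` of the cluster with two further members has no `U`, i.e. `K_L M_σ = L`. -/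
theorem cluster_sup_of_three (hB : ThmB G) (hG : IsMinSimpleOddOrder G) {L K L₁ L₂ : Subgroup G} (hL : IsCoatom L)
    (hK : IsPiHallOf (kappa L) K L) (hK1 : K ≠ ⊥) (hZ : K ⊔ (sigmaCore L ⊓ centralizer (K : Set G)) = Z)
    (h₁ : InCluster Z L₁) (h₂ : InCluster Z L₂) (hne₁ : L₁ ≠ L) (hne₂ : L₂ ≠ L) (hne : L₂ ≠ L₁) : K ⊔ sigmaCore L = L := by
  classical
  obtain ⟨U, -, hU, hKU, hfree⟩ := kappa_exists_U hB hG hL hK hK1
  by_cases hU1 : U = ⊥
  · rw [hU1] at hU
    exact sup_eq_of_U_bot hG hL hK hU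
  exfalso
  have hp := kappa_prime_of_U_ne hB hG hL hK hK1 hU hKU hfree hU1
  haveI := Fact.mk hp
  have step : ∀ {L' : Subgroup G}, InCluster Z L' → L' ≠ L → Nat.card K ∈ sigma L' := by
    intro L' h' hne'
    obtain ⟨Y, y, _, hYK, hY, P, -⟩ := cluster_partner hB hG hL hK hK1 hZ h' hne'
    have hyp : y.Prime := Fact.out
    have hyd : y ∣ Nat.card K := hY ▸ Subgroup.card_dvd_of_le hYK
    have e : y = Nat.card K := (Nat.prime_dvd_prime_iff_eq hyp hp).mp hyd
    rw [← e]
    exact P.hpH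
  exact hne (cluster_eq_of_sigma hB hG h₁ h₂ (step h₁ hne₁) (step h₂ hne₂))

/-- A cluster has at most two members. -/
theorem cluster_le_two (hB : ThmB G) (hG : IsMinSimpleOddOrder G) {L₀ L₁ L₂ : Subgroup G} (h₀ : InCluster Z L₀) (h₁ : InCluster Z L₁)
    (h₂ : InCluster Z L₂) (h01 : L₁ ≠ L₀) (h02 : L₂ ≠ L₀) (h12 : L₂ ≠ L₁) : False := by
  classical
  refine cluster_count hB hG h₀ ?_
  intro L hL
  obtain ⟨hLc, K, hK, hK1, hZ⟩ := id hL
  refine count_hyp_of_sup hK hZ ?_
  by_cases e0 : L = L₀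
  · exact cluster_sup_of_three hB hG hLc hK hK1 hZ h₁ h₂ (e0 ▸ h01) (e0 ▸ h02) h12
  by_cases e1 : L = L₁
  · exact cluster_sup_of_three hB hG hLc hK hK1 hZ h₀ h₂ (fun h => e0 h.symm) (e1 ▸ h12) h02
  · exact cluster_sup_of_three hB hG hLc hK hK1 hZ h₀ h₁ (fun h => e0 h.symm) (fun h => e1 h.symm) h01

/-- The two members: `K` is in the `σ`-core of the other member. -/
theorem K_le_sigma_of_cluster (hB : ThmB G) (hG : IsMinSimpleOddOrder G) {L K L' : Subgroup G} (hL : IsCoatom L)
    (hK : IsPiHallOf (kappa L) K L) (hK1 : K ≠ ⊥) (hZ : K ⊔ (sigmaCore L ⊓ centralizer (K : Set G)) = Z)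
    (h' : InCluster Z L') (hne : L' ≠ L) : K ≤ sigmaCore L' := by
  classical
  have hh : InCluster Z L := ⟨hL, K, hK, hK1, hZ⟩
  refine le_sigmaCore_of_pi hG h'.1 ((K_le_cluster hZ).trans h'.le) ?_
  intro t ht hd
  obtain ⟨Y, hYK, hY⟩ := exists_prime_subgroup_of_dvd ht hd
  obtain ⟨L₁, hL₁, -, hYL₁, htL₁, -⟩ := cluster_prime hB hG hh ht (hYK.trans (K_le_cluster hZ)) hY
  by_cases e : L₁ = L'
  · exact e ▸ htL₁
  exfalso
  have hne₁ : L₁ ≠ L := by
    rintro rfl
    have h1 : Y ≤ K ⊓ sigmaCore L₁ := le_inf hYK hYL₁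
    rw [kappa_inf_sigmaCore hK, le_bot_iff] at h1
    exact ne_bot_of_card_prime ht hY h1
  exact cluster_le_two hB hG hh h' hL₁ hne hne₁ e

/-- The equality of `K` and `M*_σ ∩ M`. -/
theorem K_eq_sigma_inf_of_partner (hB : ThmB G) (hG : IsMinSimpleOddOrder G) {M H K X : Subgroup G} {p : ℕ} [Fact p.Prime] (hM : IsCoatom M)
    (hK : IsPiHallOf (kappa M) K M) (hK1 : K ≠ ⊥) (hXK : X ≤ K) (hX : Nat.card X = p) (P : Partner M H X p) :
    K = sigmaCore H ⊓ M ∧ ∃ K₂ : Subgroup G, IsPiHallOf (kappa H) K₂ H ∧ K₂ = sigmaCore M ⊓ centralizer (K : Set G) ∧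
      K = sigmaCore H ⊓ centralizer (K₂ : Set G) := by
  classical
  obtain ⟨K₂, hK₂, hK₂1, hle, hZ₂, hinf⟩ := partner_exists_KH hB hG hM hK hXK hX P
  have hh : InCluster (K ⊔ (sigmaCore M ⊓ centralizer (K : Set G))) M := ⟨hM, K, hK, hK1, rfl⟩
  have hh₂ : InCluster (K ⊔ (sigmaCore M ⊓ centralizer (K : Set G))) H := ⟨P.hH, K₂, hK₂, hK₂1, hZ₂⟩
  have h1 : K ≤ sigmaCore H := K_le_sigma_of_cluster hB hG hM hK hK1 rfl hh₂ P.ne
  have h2 : K = sigmaCore H ⊓ M := le_antisymm (le_inf h1 hK.1) (partner_inf_le_K hB hG hM hK hXK hX P)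
  have h3 : K₂ ≤ sigmaCore M := K_le_sigma_of_cluster hB hG P.hH hK₂ hK₂1 hZ₂ hh P.ne.symm
  have h4 : K₂ = sigmaCore M ⊓ centralizer (K : Set G) := by
    apply le_antisymm _ hle
    rw [← sigma_inf_cluster hK rfl]
    refine le_inf h3 ?_
    rw [← hZ₂]
    exact le_sup_left
  exact ⟨h2, K₂, hK₂, h4, h2.trans hinf.symm⟩

/-- The two members of the cluster are all. -/
theorem cluster_eq_or_eq (hB : ThmB G) (hG : IsMinSimpleOddOrder G) {L L₁ L₂ : Subgroup G} (h : InCluster Z L)
    (h₁ : InCluster Z L₁) (h₂ : InCluster Z L₂) (hne : L₂ ≠ L₁) : L = L₁ ∨ L = L₂ := by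
  by_contra hcon
  push Not at hcon
  exact cluster_le_two hB hG h₁ h₂ h hne hcon.1 hcon.2

end Two

section Cyclic

theorem isZGroup_kappa {M K : Subgroup G} (hG : IsMinSimpleOddOrder G) (hM : IsCoatom M) (hK : IsPiHallOf (kappa M) K M) :
    IsZGroup ↥K := by
  classical
  refine ⟨fun p hp P => ?_⟩
  haveI := Fact.mk hp
  by_cases hd : p ∣ Nat.card K
  · obtain ⟨X, hXK, hX⟩ := exists_prime_subgroup_of_dvd hp hd
    have hC : Config M X p := config_of_kappa hG hM (hK.2.1 p hp hd) hX (hXK.trans hK.1)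
    have hPp : IsPGroup p ↥((P : Subgroup ↥K).map K.subtype) := P.isPGroup'.map _
    have hPle : (P : Subgroup ↥K).map K.subtype ≤ M := (Subgroup.map_subtype_le _).trans hK.1
    have h1 : IsCyclic ↥((P : Subgroup ↥K).map K.subtype) := cyclic_of_prank_one hG hC.hr hPp hPle
    exact isCyclic_of_surjective (Subgroup.equivMapOfInjective (P : Subgroup ↥K) K.subtype K.subtype_injective).symm.toMonoidHom
      (MulEquiv.surjective _)
  · have h2 : Nat.card ↥(P : Subgroup ↥K) = 1 := by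
      obtain ⟨k, hk⟩ := IsPGroup.iff_card.mp P.isPGroup'
      rcases k with _ | k
      · simpa using hk
      · exfalso
        apply hd
        have h3 : Nat.card ↥(P : Subgroup ↥K) ∣ Nat.card ↥K := Subgroup.card_subgroup_dvd_card _
        rw [hk] at h3
        exact (dvd_pow_self p (Nat.succ_ne_zero k)).trans h3
    haveI : Subsingleton ↥(P : Subgroup ↥K) := (Nat.card_eq_one_iff_unique.mp h2).1
    exact isCyclic_of_subsingleton

/-- A `Z`-group of odd order all of whose elements of prime order are central is cyclic. -/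
theorem cyclic_of_central_primes {H : Type*} [Group H] [Finite H] [IsZGroup H] (hodd : Odd (Nat.card H))
    (hc : ∀ x : H, (orderOf x).Prime → x ∈ Subgroup.center H) : IsCyclic H := by
  classical
  haveI : Group.IsNilpotent H := by
    refine nilpotent_of_normal_complements fun q hq => ?_
    by_cases hd : q ∣ Nat.card H
    · haveI := Fact.mk hq
      obtain ⟨P⟩ : Nonempty (Sylow q H) := inferInstance
      have hPc : IsCyclic (P : Subgroup H) := IsZGroup.isZGroup q hq P
      have hq2 : q ≠ 2 := by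
        rintro rfl
        exact absurd (Odd.of_dvd_nat hodd hd) (by decide)
      have hN : normalizer ((P : Subgroup H) : Set H) ≤ centralizer ((P : Subgroup H) : Set H) := by
        intro n hn
        obtain ⟨a, ha, b, hb, e, ⟨k, hk⟩, hbc⟩ := exists_primary_decomp n hq
        have hzn : zpowers n ≤ normalizer ((P : Subgroup H) : Set H) := zpowers_le.mpr hn
        have haP : a ∈ (P : Subgroup H) := by
          have hpg : IsPGroup q (zpowers a) := isPGroup_zpowers_of_pow hk
          have h2 := hpg.inf_normalizer_sylow P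
          exact (Subgroup.mem_inf.mp (h2.le (Subgroup.mem_inf.mpr ⟨mem_zpowers a, hzn ha⟩))).2
        have hab : a ∈ centralizer ((P : Subgroup H) : Set H) := by
          rw [mem_centralizer_iff]
          intro c hc'
          letI := IsCyclic.commGroup (α := ↥(P : Subgroup H))
          have := mul_comm (⟨c, hc'⟩ : ↥(P : Subgroup H)) ⟨a, haP⟩
          exact congrArg Subtype.val this
        have hbb : zpowers b ≤ centralizer ((P : Subgroup H) : Set H) := by
          by_contra hnc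
          obtain ⟨y, hy, hyo, -, hy2⟩ := exists_prime_moved (A := zpowers b) (P := (P : Subgroup H)) hq2
            (by rwa [Nat.card_zpowers]) P.isPGroup' ((zpowers_le.mpr (hzn hb))) hPc hnc
          apply hy2
          have hyc : y ∈ Subgroup.center H := hc y (hyo ▸ hq)
          rw [le_centralizer_iff]
          rw [zpowers_le]
          intro t _
          exact ((Subgroup.mem_center_iff.mp hyc) t)
        rw [e]
        exact mul_mem hab (hbb (mem_zpowers b))
      have hcomp := MonoidHom.ker_transferSylow_isComplement' P hN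
      have hcard := hcomp.card_mul
      have h1 := Subgroup.card_mul_index (P : Subgroup H)
      have h2 := Subgroup.card_mul_index (MonoidHom.transferSylow P hN).ker
      have hposP : 0 < Nat.card (P : Subgroup H) := Nat.card_pos
      have hK₁ : Nat.card (MonoidHom.transferSylow P hN).ker = (P : Subgroup H).index := by
        apply Nat.eq_of_mul_eq_mul_right hposP
        rw [hcard, ← h1]
        ring
      refine ⟨(MonoidHom.transferSylow P hN).ker, inferInstance, ?_, ?_⟩
      · rw [hK₁]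
        exact ((Nat.Prime.coprime_iff_not_dvd hq).mpr P.not_dvd_index).symm
      · obtain ⟨k, hk⟩ := IsPGroup.iff_card.mp P.isPGroup'
        refine ⟨k, ?_⟩
        have hposK : 0 < Nat.card (MonoidHom.transferSylow P hN).ker := Nat.card_pos
        apply Nat.eq_of_mul_eq_mul_left hposK
        rw [h2, ← hcard, hk]
    · refine ⟨⊤, inferInstance, ?_, 0, by simp⟩
      rw [Subgroup.card_top]
      exact ((Nat.Prime.coprime_iff_not_dvd hq).mpr hd).symm
  infer_instance

/-- **S1351 core**: `K` is cyclic. -/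
theorem kappa_cyclic (hB : ThmB G) (hG : IsMinSimpleOddOrder G) {M K : Subgroup G} (hM : IsCoatom M) (hK : IsPiHallOf (kappa M) K M) :
    IsCyclic K := by
  classical
  have huniq := huniq13 hG
  by_cases hK1 : K = ⊥
  · rw [hK1]
    exact isCyclic_of_subsingleton
  by_contra hnc
  haveI hZg := isZGroup_kappa hG hM hK
  -- a prime subgroup moved by `K`
  obtain ⟨X, p, hXK, hX, hpp, hmove⟩ : ∃ (X : Subgroup G) (p : ℕ), X ≤ K ∧ Nat.card X = p ∧ p.Prime ∧ ¬ K ≤ centralizer (X : Set G) := by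
    by_contra hcon
    push Not at hcon
    apply hnc
    refine cyclic_of_central_primes (subgroup_odd hG K) ?_
    intro x hx
    rw [Subgroup.mem_center_iff]
    intro g
    have hxo : orderOf (x : G) = orderOf x := Subgroup.orderOf_coe x
    have h1 := hcon (zpowers (x : G)) (orderOf x) (zpowers_le.mpr x.2) (by rw [Nat.card_zpowers, hxo]) hx g.2
    have h2 := mem_centralizer_iff.mp h1 x (mem_zpowers _)
    exact Subtype.ext h2.symm
  haveI := Fact.mk hpp
  have hC : Config M X p := config_of_kappa hG hM (prime_mem_kappa hK hpp hXK hX) hX (hXK.trans hK.1)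
  obtain ⟨H, P⟩ := exists_partner hB hG hC
  obtain ⟨K₂, hK₂, hK₂1, -, hZ₂, -⟩ := partner_exists_KH hB hG hM hK hXK hX P
  have hh : InCluster (K ⊔ (sigmaCore M ⊓ centralizer (K : Set G))) M := ⟨hM, K, hK, hK1, rfl⟩
  have hh₂ : InCluster (K ⊔ (sigmaCore M ⊓ centralizer (K : Set G))) H := ⟨P.hH, K₂, hK₂, hK₂1, hZ₂⟩
  have hKH : K ≤ sigmaCore H := K_le_sigma_of_cluster hB hG hM hK hK1 rfl hh₂ P.ne
  -- `U_M = 1`
  have hUM : K ⊔ sigmaCore M = M := by
    obtain ⟨E, hE, hKE⟩ := exists_compl_sigma_ge hG hM hK.1 (primes_kappa_not_sigma hK)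
    have hτ : p ∈ tau3 M := by
      refine ⟨hpp, hC.hpσ, ?_, hC.hr⟩
      obtain ⟨k, hk, hkX⟩ := Set.not_subset.mp hmove
      rw [SetLike.mem_coe, mem_centralizer_iff] at hkX
      push Not at hkX
      obtain ⟨x, hx, hxk⟩ := hkX
      have hx' : x ∈ X := hx
      set c := x * k * x⁻¹ * k⁻¹ with hc
      have hc1 : c ≠ 1 := by
        intro h
        apply hxk
        have : x * k * x⁻¹ * k⁻¹ = 1 := h
        calc x * k = (x * k * x⁻¹ * k⁻¹) * (k * x) := by group
          _ = k * x := by rw [this, one_mul]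
      have hcX : c ∈ X := by
        have h1 : k * x⁻¹ * k⁻¹ ∈ X := (mem_normalizer_iff.mp (kappa_normal_prime hB hG hM hK hXK hX hk) _).mp (X.inv_mem hx')
        have e : c = x * (k * x⁻¹ * k⁻¹) := by rw [hc]; group
        rw [e]
        exact X.mul_mem hx' h1
      have hcM : c ∈ (⁅M, M⁆ : Subgroup G) := by
        rw [hc]
        have := Subgroup.commutator_mem_commutator (hC.hXM hx') (hK.1 hk)
        rwa [commutatorElement_def] at this
      have e := eq_zpowers_of_card_prime hX hcX hc1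
      rw [← hX]
      exact Subgroup.card_dvd_of_le (e ▸ zpowers_le.mpr hcM)
    have hEN := normal_of_tau3 hG hM hE hτ (hXK.trans hKE) hX
    have hEZ : E ≤ K ⊔ sigmaCore M := by
      have h1 : E ≤ M ⊓ H := le_inf hE.1 (hEN.trans P.hN)
      rw [partner_inf_eq hB hG hM hK hXK hX P] at h1
      exact h1.trans (sup_le_sup_left inf_le_left _)
    have hσM : sigmaCore M ≤ M := piCoreOf_le _ M
    refine le_antisymm (sup_le hK.1 hσM) ?_
    intro m hm
    obtain ⟨a, ha, b, hb, rfl⟩ := hE.2.2.2 m hm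
    exact mul_mem (hEZ ha) (Subgroup.mem_sup_right hb)
  -- `U_H = 1`
  have hUH : K₂ ⊔ sigmaCore H = H := by
    obtain ⟨U, -, hU, -, -⟩ := kappa_exists_U hB hG P.hH hK₂ hK₂1
    by_cases hU1 : U = ⊥
    · rw [hU1] at hU
      exact sup_eq_of_U_bot hG P.hH hK₂ hU
    exfalso
    haveI := sigma_nilpotent_of_U_ne hG P.hH hU hU1
    haveI hKn : Group.IsNilpotent ↥K := _root_.isNilpotent_of_ker_le_center (Subgroup.inclusion hKH) (by
      rw [(MonoidHom.ker_eq_bot_iff _).mpr (Subgroup.inclusion_injective hKH)]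
      exact bot_le)
    exact hnc inferInstance
  refine cluster_count hB hG hh ?_
  intro L hL
  rcases cluster_eq_or_eq hB hG hL hh hh₂ P.ne with rfl | rfl
  · exact count_hyp_of_sup hK rfl hUM
  · exact count_hyp_of_sup hK₂ hZ₂ hUH

end Cyclic

end Cfsg.Agent.Lib.FT
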