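import Cfsg.Agent.Lib.FT.BG19g
import Cfsg.Agent.Lib.FT.BG11k
import Cfsg.Agent.Lib.FT.BG21f

/-!
BG19h: S1363, `U` is abelian and `N_G(U)` is not contained in `M`.
-/

set_option autoImplicit false
set_option linter.unusedSectionVars false
set_option linter.style.haveILetI false

namespace Cfsg.Agent.Lib.FT

open Subgroup Cfsg Cfsg.Agent.Lib.OddLocal Cfsg.Agent.Lib.Basic

open Cfsg.Agent.Lib.Coprime (mem_conj_map conj_mem_conj_map conj_map_conj_map conj_map_one
  conj_map_mono mem_normalizer_of_conj_le conj_map_eq_iff_mem_normalizer isPGroup_conj_map)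

variable {G : Type*} [Group G] [Finite G] {M K U : Subgroup G}

/-- `O_t(U)` is a Sylow subgroup of `M` when `U` is a nilpotent Hall subgroup. -/
theorem isMaxP_Oq_of_hall {π : Set ℕ} (hU : IsPiHallOf π U M) (hn : Group.IsNilpotent U) {t : ℕ} [Fact t.Prime] (ht : t ∈ π) :
    IsMaxP t (Oq t U) M := by
  classical
  have htt : t.Prime := Fact.out
  have hTU : Oq t U ≤ U := Oq_le t U
  refine ⟨hTU.trans hU.1, Oq_isPGroup t U, fun D' h1 h2 h3 => le_antisymm ?_ h3⟩
  have hi : ¬ t ∣ (Oq t U).relIndex U := by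
    obtain ⟨S⟩ : Nonempty (Sylow t ↥U) := inferInstance
    have hle : (S : Subgroup ↥U) ≤ pCore t ↥U := by
      intro x hx
      obtain ⟨k, hk⟩ := S.isPGroup' ⟨x, hx⟩
      exact mem_pCore_of_nilpotent t (k := k) (congrArg Subtype.val hk)
    have e : (Oq t U).subgroupOf U = pCore t ↥U := Subgroup.comap_map_eq_self_of_injective U.subtype_injective _
    have h3 : (Oq t U).relIndex U = (pCore t ↥U).index := by
      rw [Subgroup.relIndex, e]
    rw [h3]
    intro hd
    exact S.not_dvd_index (hd.trans (Subgroup.index_dvd_of_le hle))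
  have hi2 : ¬ t ∣ (Oq t U).relIndex M := by
    rw [← Subgroup.relIndex_mul_relIndex _ U M hTU hU.1]
    intro hd
    rcases (Nat.Prime.dvd_mul htt).mp hd with h4 | h4
    · exact hi h4
    · exact hU.2.2 t htt ht h4
  have h5 : (Oq t U).relIndex D' = 1 := by
    by_contra hne
    obtain ⟨r, hr, hrd⟩ := Nat.exists_prime_and_dvd hne
    obtain ⟨k, hk⟩ := IsPGroup.iff_card.mp h2
    have h6 : (Oq t U).relIndex D' ∣ t ^ k := by
      rw [← hk, ← Cfsg.Agent.Lib.Coprime.card_mul_relIndex h3]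
      exact dvd_mul_left _ _
    have hrt : r = t := (Nat.prime_dvd_prime_iff_eq hr htt).mp (hr.dvd_of_dvd_pow (hrd.trans h6))
    subst hrt
    apply hi2
    rw [← Subgroup.relIndex_mul_relIndex _ D' M h3 h1]
    exact hrd.trans (dvd_mul_right _ _)
  exact Subgroup.relIndex_eq_one.mp h5

theorem U_isMulCommutative (hB : ThmB G) (hG : IsMinSimpleOddOrder G) (hM : IsCoatom M) (hKU : IsSigmaDecomposition M K U)
    (hK1 : K ≠ ⊥) : IsMulCommutative U := by
  classical
  obtain ⟨U₀, hU₀c, hU₀H, -, -⟩ := kappa_exists_U hB hG hM hKU.hall hK1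
  have hUH := isPiHallOf_U hG hM hKU
  have hMs := coatom_isSolvable hG hM
  obtain ⟨g, hg, hle⟩ := IsPiHallOf.exists_conj_ge hMs hU₀H hUH.1 hUH.2.1
  constructor
  constructor
  rintro ⟨a, ha⟩ ⟨b, hb⟩
  obtain ⟨a', ha', e1⟩ := hle ha
  obtain ⟨b', hb', e2⟩ := hle hb
  have e1' : g * a' * g⁻¹ = a := e1
  have e2' : g * b' * g⁻¹ = b := e2
  have h := hU₀c.is_comm.comm (⟨a', ha'⟩ : ↥U₀) ⟨b', hb'⟩
  have h' : a' * b' = b' * a' := congrArg Subtype.val h
  apply Subtype.ext
  change a * b = b * a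
  rw [← e1', ← e2']
  calc g * a' * g⁻¹ * (g * b' * g⁻¹) = g * (a' * b') * g⁻¹ := by group
    _ = g * (b' * a') * g⁻¹ := by rw [h']
    _ = g * b' * g⁻¹ * (g * a' * g⁻¹) := by group

theorem exists_prime_order_of_ne_one {x : G} (hx : x ≠ 1) : ∃ p : ℕ, p.Prime ∧ ∃ X : Subgroup G, X ≤ zpowers x ∧ Nat.card X = p :=
  exists_prime_subgroup (fun h => hx (zpowers_eq_bot.mp h))

/-- `K` acts freely on `U`. -/
theorem U_free (hB : ThmB G) (hG : IsMinSimpleOddOrder G) (hM : IsCoatom M) (hKU : IsSigmaDecomposition M K U)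
    {k u : G} (hk : k ∈ K) (hk1 : k ≠ 1) (hu : u ∈ U) (hc : k * u = u * k) : u = 1 := by
  classical
  by_contra hu1
  have huniq := huniq13 hG
  have hKH := hKU.hall
  obtain ⟨p, hp, X, hXz, hX⟩ := exists_prime_order_of_ne_one hk1
  obtain ⟨t, ht, Y, hYz, hY⟩ := exists_prime_order_of_ne_one hu1
  haveI := Fact.mk hp
  haveI := Fact.mk ht
  have hXK : X ≤ K := hXz.trans (zpowers_le.mpr hk)
  have hYU : Y ≤ U := hYz.trans (zpowers_le.mpr hu)
  have hC : Config M X p := config_of_kappa hG hM (prime_mem_kappa hKH hp hXK hX) hX (hXK.trans hKH.1)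
  obtain ⟨H, PX⟩ := exists_partner hB hG hC
  have htd : t ∣ Nat.card U := by
    rw [← hY]
    exact Subgroup.card_dvd_of_le hYU
  have hYN : Y ≤ normalizer (X : Set G) := by
    intro y hy
    refine mem_normalizer_of_conj_le X y fun a ha => ?_
    have hcomm : a * y = y * a := by
      obtain ⟨i, rfl⟩ := hXz ha
      obtain ⟨j, rfl⟩ := hYz hy
      exact ((Commute.zpow_zpow (show Commute k u from hc) i j)).eq
    rw [← hcomm, mul_inv_cancel_right]
    exact ha
  have h1 := PX.kappa_of_norm hB hG hY (not_sigma_of_dvd_U hG huniq hM hKU ht htd) (hYU.trans hKU.compl.1) hYN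
  exact not_kappa_of_dvd_U hG huniq hM hKU ht htd h1

/-- A Sylow subgroup of `U` does not centralize `C_{M_σ}(X)`. -/
theorem Oq_not_centralizes (hB : ThmB G) (hG : IsMinSimpleOddOrder G) (hM : IsCoatom M) (hKU : IsSigmaDecomposition M K U)
    (hK1 : K ≠ ⊥) {t : ℕ} [Fact t.Prime] (htd : t ∣ Nat.card U) {D : Subgroup G} (hD1 : D ≠ ⊥) (hDσ : D ≤ sigmaCore M)
    (hc : ∀ a ∈ Oq t U, ∀ d ∈ D, a * d = d * a) : False := by
  classical
  have huniq := huniq13 hG
  have htt : t.Prime := Fact.out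
  have hUc := U_isMulCommutative hB hG hM hKU hK1
  have hUn : Group.IsNilpotent U := by
    letI : CommGroup U := { (inferInstance : Group U) with mul_comm := hUc.is_comm.comm }
    exact CommGroup.isNilpotent
  have hUH := isPiHallOf_U hG hM hKU
  have htσ := not_sigma_of_dvd_U hG huniq hM hKU htt htd
  have htκ := not_kappa_of_dvd_U hG huniq hM hKU htt htd
  have hmax := isMaxP_Oq_of_hall hUH hUn (t := t) ⟨htt, htκ, htσ⟩
  have htM : t ∣ Nat.card M := htd.trans (Subgroup.card_dvd_of_le hUH.1)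
  have h1 := (s1429_core hG hM htM (fun h => h.elim htσ htκ) hmax.toSylow).2.1
  have e : ((hmax.toSylow : Subgroup M).map M.subtype) = Oq t U := Subgroup.map_subgroupOf_eq_of_le hmax.le
  rw [e] at h1
  apply hD1
  rw [eq_bot_iff, ← h1]
  refine le_inf hDσ ?_
  intro d hd
  have h2 : closure {x : G | x ∈ Oq t U ∧ x ^ t = 1} ≤ centralizer ({d} : Set G) := by
    rw [closure_le]
    rintro x ⟨hx, -⟩
    rw [SetLike.mem_coe, mem_centralizer_singleton_iff]
    exact hc x hx d hd
  rw [mem_centralizer_iff]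
  intro x hx
  have h3 := h2 hx
  rw [mem_centralizer_singleton_iff] at h3
  exact h3

/-- A commutator endomorphism of an abelian group without fixed points is onto. -/
theorem exists_comm_eq_of_free {T : Subgroup G} (hT : IsMulCommutative T) {k : G} (hkT : k ∈ normalizer (T : Set G))
    (hfree : ∀ u ∈ T, k * u = u * k → u = 1) {u : G} (hu : u ∈ T) : ∃ v ∈ T, u = k * v * k⁻¹ * v⁻¹ := by
  classical
  have hmem : ∀ v ∈ T, k * v * k⁻¹ ∈ T := fun v hv => (mem_normalizer_iff.mp hkT v).mp hv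
  have hcomm : ∀ a ∈ T, ∀ b ∈ T, a * b = b * a := fun a ha b hb =>
    congrArg Subtype.val (hT.is_comm.comm (⟨a, ha⟩ : ↥T) ⟨b, hb⟩)
  let f : ↥T → ↥T := fun v => ⟨k * v * k⁻¹ * (v : G)⁻¹, mul_mem (hmem v v.2) (inv_mem v.2)⟩
  have hinj : Function.Injective f := by
    intro v w hvw
    have h1 : k * (v : G) * k⁻¹ * (v : G)⁻¹ = k * w * k⁻¹ * (w : G)⁻¹ := congrArg Subtype.val hvw
    set a : G := (v : G) * (w : G)⁻¹ with ha
    have haT : a ∈ T := mul_mem v.2 (inv_mem w.2)
    have h2 : k * a * k⁻¹ = a := by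
      have h3 : k * a * k⁻¹ = (k * v * k⁻¹) * (k * w * k⁻¹)⁻¹ := by
        simp only [ha]
        group
      have h4 : k * (v : G) * k⁻¹ = (k * w * k⁻¹ * (w : G)⁻¹) * v := by
        rw [← h1]
        group
      rw [h3, h4]
      have h5 := hcomm _ (hmem w w.2) _ (inv_mem w.2)
      have h6 := hcomm _ (mul_mem (hmem w w.2) (inv_mem w.2)) _ v.2
      rw [h6]
      simp only [ha]
      have h7 : (v : G) * (k * w * k⁻¹ * (w : G)⁻¹) * (k * w * k⁻¹)⁻¹ = (v : G) * ((k * w * k⁻¹) * (w : G)⁻¹ * (k * w * k⁻¹)⁻¹) := by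
        group
      rw [h7, h5]
      group
    have h8 : k * a = a * k := by
      calc k * a = k * a * k⁻¹ * k := by group
        _ = a * k := by rw [h2]
    have h9 := hfree a haT h8
    apply Subtype.ext
    simp only [ha] at h9
    exact mul_inv_eq_one.mp h9
  have hsurj : Function.Surjective f := Finite.injective_iff_surjective.mp hinj
  obtain ⟨v, hv⟩ := hsurj ⟨u, hu⟩
  exact ⟨v, v.2, (congrArg Subtype.val hv).symm⟩


section Main

variable {X Mst : Subgroup G} {p : ℕ} [Fact p.Prime]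

/-- A coatom in which `X` is `σ` must be the partner. -/
theorem eq_partner_of_sigma (hB : ThmB G) (hG : IsMinSimpleOddOrder G) (PX : Partner M Mst X p) {L : Subgroup G} (hL : IsCoatom L)
    (hXL : X ≤ L) (hpL : p ∈ sigma L) : L = Mst := by
  classical
  have hpp : p.Prime := Fact.out
  have huniq := huniq13 hG
  have hXp : IsPGroup p X := IsPGroup.of_card (n := 1) (by simpa using PX.hC.hX)
  have hX1 : X ≠ ⊥ := ne_bot_of_card_prime hpp PX.hC.hX
  obtain ⟨c, e⟩ := conj_of_sigma_sigma hB PX.hH hL PX.hpH hpL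
  have hXMst : X ≤ Mst := le_normalizer.trans PX.hN
  have h1 : X.map (MulAut.conj c).toMonoidHom ≤ Mst := by
    rw [← e]
    exact conj_map_mono hXL c
  obtain ⟨m, hm, c', hc', ec⟩ := (s1404_core hG huniq PX.hH PX.hpH X hXp hX1 hXMst).1 c h1
  have hcM : c ∈ Mst := by
    rw [ec]
    exact mul_mem hm (PX.centralizer_le hc')
  have e2 : L = Mst.map (MulAut.conj c⁻¹).toMonoidHom := by
    rw [← e, conj_map_conj_map, inv_mul_cancel, conj_map_one]
  rw [e2]
  exact (conj_map_eq_iff_mem_normalizer Mst c⁻¹).mpr (Cfsg.Agent.Lib.Coprime.mem_normalizer_of_conj_le Mst _ fun a ha =>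
    mul_mem (mul_mem (inv_mem hcM) ha) (inv_mem (inv_mem hcM)))

/-- Two maximal subgroups with a common partner over `X` are conjugate. -/
theorem conj_of_same_partner (hB : ThmB G) (hG : IsMinSimpleOddOrder G) (hM : IsCoatom M) (hK : IsPiHallOf (kappa M) K M)
    (hXK : X ≤ K) (PM : Partner M Mst X p) {L : Subgroup G} (PL : Partner L Mst X p) :
    ∃ c : G, L = M.map (MulAut.conj c).toMonoidHom := by
  classical
  have hpp : p.Prime := Fact.out
  have hX := PM.hC.hX
  have hL := PL.hC.hM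
  have hX1 : X ≠ ⊥ := ne_bot_of_card_prime hpp hX
  have hKne : K ≠ ⊥ := fun e => hX1 (le_bot_iff.mp (e ▸ hXK))
  obtain ⟨-, K₂, hK₂, e₂, -⟩ := K_eq_sigma_inf_of_partner hB hG hM hK hKne hXK hX PM
  -- a Hall `κ`-subgroup of `L` containing `X`
  have hLs := coatom_isSolvable hG hL
  obtain ⟨K₀, hK₀⟩ := exists_isPiHallOf_solvable (kappa L) hLs
  obtain ⟨g, hg, hle⟩ := IsPiHallOf.exists_conj_ge hLs hK₀ PL.hC.hXM (by
    intro s hs hd
    rw [hX] at hd
    rw [(Nat.prime_dvd_prime_iff_eq hs hpp).mp hd]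
    exact Config.kappa hG PL.hC)
  have hKL := IsPiHallOf.conj_in hK₀ hg
  set KL := K₀.map (MulAut.conj g).toMonoidHom with hKLdef
  have hKL1 : KL ≠ ⊥ := fun e => hX1 (le_bot_iff.mp (e ▸ hle))
  obtain ⟨-, K₃, hK₃, e₃, -⟩ := K_eq_sigma_inf_of_partner hB hG hL hKL hKL1 hle hX PL
  -- `K₂` and `K₃` are conjugate in `M*`
  have hMsts := coatom_isSolvable hG PM.hH
  obtain ⟨c, hc, hcle⟩ := IsPiHallOf.exists_conj_ge hMsts hK₃ hK₂.1 hK₂.2.1
  -- a prime-order subgroup
  have hst := kappa_Kstar_eq hB hG hM hK hXK hX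
  have hstL := kappa_Kstar_eq hB hG hL hKL hle hX
  have hD1 := PM.hC.hD
  rw [hst, ← e₂] at hD1
  obtain ⟨q, hq, Q, hQK₂, hQ⟩ := exists_prime_subgroup hD1
  haveI := Fact.mk hq
  have hQD : Q ≤ sigmaCore M ⊓ centralizer (X : Set G) := by
    rw [hst, ← e₂]
    exact hQK₂
  obtain ⟨PQ, -⟩ := PM.config_of_le hB hG hQ hQD
  -- conjugate `Q` into `K₃`
  have hQ'le : Q.map (MulAut.conj c⁻¹).toMonoidHom ≤ K₃ := by
    have h1 := conj_map_mono (hQK₂.trans hcle) c⁻¹
    rwa [conj_map_conj_map, inv_mul_cancel, conj_map_one] at h1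
  have hQ'D : Q.map (MulAut.conj c⁻¹).toMonoidHom ≤ sigmaCore L ⊓ centralizer (X : Set G) := by
    rw [hstL, ← e₃]
    exact hQ'le
  obtain ⟨-, huq⟩ := PL.config_of_le hB hG (Q := Q.map (MulAut.conj c⁻¹).toMonoidHom) (q := q)
    (by rw [Cfsg.Agent.Lib.Coprime.card_conj_map, hQ]) hQ'D
  refine ⟨c⁻¹, (huq _ (coatom_conj hM c⁻¹) ?_).symm⟩
  intro z hz
  have hz2 : c * z * c⁻¹ ∈ normalizer (Q : Set G) := by
    refine mem_normalizer_of_conj_le Q _ fun a ha => ?_
    have h1 : c⁻¹ * a * c⁻¹⁻¹ ∈ Q.map (MulAut.conj c⁻¹).toMonoidHom := ⟨a, ha, rfl⟩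
    have h2 := (mem_normalizer_iff.mp hz _).mp h1
    obtain ⟨b, hb, e⟩ := h2
    have e' : c⁻¹ * b * c⁻¹⁻¹ = z * (c⁻¹ * a * c⁻¹⁻¹) * z⁻¹ := e
    have e3 : c * z * c⁻¹ * a * (c * z * c⁻¹)⁻¹ = b := by
      have : b = c * (c⁻¹ * b * c⁻¹⁻¹) * c⁻¹ := by group
      rw [this, e']
      group
    rw [e3]
    exact hb
  have h3 := PQ.hN hz2
  exact ⟨c * z * c⁻¹, h3, by
    change c⁻¹ * (c * z * c⁻¹) * c⁻¹⁻¹ = z
    group⟩

/-- The dichotomy for a coatom in which `X` has fixed points. -/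
theorem partner_dichotomy (hB : ThmB G) (hG : IsMinSimpleOddOrder G) (hM : IsCoatom M)
    (hK : IsPiHallOf (kappa M) K M) (hXK : X ≤ K) (PX : Partner M Mst X p)
    {L : Subgroup G} (hL : IsCoatom L) (hXL : X ≤ L) (hD : sigmaCore L ⊓ centralizer (X : Set G) ≠ ⊥) :
    L = Mst ∨ ∃ g : G, L = M.map (MulAut.conj g).toMonoidHom := by
  classical
  have hpp : p.Prime := Fact.out
  have huniq := huniq13 hG
  by_cases hpL : p ∈ sigma L
  · exact Or.inl (eq_partner_of_sigma hB hG PX hL hXL hpL)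
  obtain ⟨x, hx, hx1⟩ := exists_ne_one_of_card_prime hpp PX.hC.hX
  have hxo : orderOf x = p := orderOf_eq_of_card_prime hpp PX.hC.hX hx hx1
  have hXz : X = zpowers x := eq_zpowers_of_card_prime PX.hC.hX hx hx1
  have hxp : x ^ p = 1 := by
    rw [← hxo]
    exact pow_orderOf_eq_one x
  have hDx : sigmaCore L ⊓ centralizer ({x} : Set G) ≠ ⊥ := by
    rw [← centralizer_zpowers_eq, ← hXz]
    exact hD
  by_cases hr : PRankLE p 1 ↥L
  · have hCL : Config L X p := ⟨hL, hpL, hr, PX.hC.hX, hXL, hD⟩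
    have PL : Partner L Mst X p := partner_of_config hB hG hCL PX.hH PX.hN
    exact Or.inr (conj_of_same_partner hB hG hM hK hXK PX PL)
  · exfalso
    have hr2 : PRankLE p 2 ↥L := by
      by_contra h
      exact hpL (alpha_sub_sigma hG huniq hL ⟨hpp, h⟩)
    have hτ : p ∈ tau2 L := ⟨hpp, hpL, hr2, hr⟩
    have hxhat : x ∈ sigmaHat L := by
      obtain ⟨y, hy⟩ := (Subgroup.ne_bot_iff_exists_ne_one).mp hDx
      refine ⟨hXL hx, y, y.2.1, fun e => hy (Subtype.ext e), ?_⟩
      have h9 : (y : G) ∈ centralizer ({x} : Set G) := (Subgroup.mem_inf.mp y.2).2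
      rw [mem_centralizer_singleton_iff] at h9
      exact h9.symm
    obtain ⟨-, h2⟩ := s1420_d hG huniq (hpl13 hG) hL (hXL hx) hx1 (fun t ht hd => by
      rw [hxo] at hd
      rw [(Nat.prime_dvd_prime_iff_eq ht hpp).mp hd]
      exact hτ) hxhat
    have h3 : centralizer ({x} : Set G) ≤ Mst := by
      rw [← centralizer_zpowers_eq, ← hXz]
      exact PX.centralizer_le
    have e := h2 Mst PX.hH h3
    exact hpL (e ▸ PX.hpH)

/-- A nontrivial Sylow subgroup of `U` does not lie in the partner. -/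
theorem Oq_not_le_partner (hB : ThmB G) (hG : IsMinSimpleOddOrder G) (hM : IsCoatom M) (hKU : IsSigmaDecomposition M K U)
    (hK1 : K ≠ ⊥) (PX : Partner M Mst X p) (hXK : X ≤ K) {t : ℕ} [Fact t.Prime] (htd : t ∣ Nat.card U)
    (hle : Oq t U ≤ Mst) : False := by
  classical
  have hpp : p.Prime := Fact.out
  have hUc := U_isMulCommutative hB hG hM hKU hK1
  have hUn : Group.IsNilpotent U := by
    letI : CommGroup U := { (inferInstance : Group U) with mul_comm := hUc.is_comm.comm }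
    exact CommGroup.isNilpotent
  obtain ⟨x, hx, hx1⟩ := exists_ne_one_of_card_prime hpp PX.hC.hX
  have hTU : Oq t U ≤ U := Oq_le t U
  have hTc : IsMulCommutative (Oq t U) := by
    constructor
    constructor
    rintro ⟨a, ha⟩ ⟨b, hb⟩
    have h7 : a * b = b * a := congrArg Subtype.val (hUc.is_comm.comm (⟨a, hTU ha⟩ : ↥U) ⟨b, hTU hb⟩)
    apply Subtype.ext
    exact h7
  have hkT : x ∈ normalizer (Oq t U : Set G) := mem_normalizer_Oq hUn (hKU.normal (hXK hx))
  have hσH : Oq t U ≤ sigmaCore Mst := by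
    intro u hu
    obtain ⟨v, hv, e⟩ := exists_comm_eq_of_free hTc hkT (fun a ha hc => U_free hB hG hM hKU (hXK hx) hx1 (hTU ha) hc) hu
    rw [e]
    have h1 : v * x⁻¹ * v⁻¹ ∈ sigmaCore Mst :=
      (mem_normalizer_iff.mp (le_normalizer_piCoreOf (sigma Mst) Mst (hle hv)) x⁻¹).mp (inv_mem (PX.hXσ hx))
    have e2 : x * v * x⁻¹ * v⁻¹ = x * (v * x⁻¹ * v⁻¹) := by group
    rw [e2]
    exact mul_mem (PX.hXσ hx) h1
  refine Oq_not_centralizes hB hG hM hKU hK1 htd PX.hC.hD inf_le_left ?_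
  intro a ha d hd
  refine PX.comm (a := a) (b := d) (Subgroup.mem_inf.mpr ⟨hσH ha, hKU.compl.1 (hTU ha)⟩) ?_
  rw [PX.inf_eq]
  exact hd


/-- If `N_G(U) ≤ M`, the conjugates of `M` containing `U` are trivial. -/
theorem conj_eq_of_normalizer_le (hG : IsMinSimpleOddOrder G) (hM : IsCoatom M) (hKU : IsSigmaDecomposition M K U)
    (hN : normalizer (U : Set G) ≤ M) {c : G} (hc : U ≤ M.map (MulAut.conj c).toMonoidHom) :
    M.map (MulAut.conj c).toMonoidHom = M := by
  classical
  have hUH := isPiHallOf_U hG hM hKU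
  have hMs := coatom_isSolvable hG hM
  set U₁ := U.map (MulAut.conj c⁻¹).toMonoidHom with hU₁
  have hU₁M : U₁ ≤ M := by
    rintro _ ⟨u, hu, rfl⟩
    obtain ⟨m, hm, e⟩ := hc hu
    have e' : c * m * c⁻¹ = u := e
    have : (MulAut.conj c⁻¹).toMonoidHom u = m := by
      change c⁻¹ * u * c⁻¹⁻¹ = m
      rw [← e']
      group
    rw [this]
    exact hm
  have hc1 : Nat.card U₁ = Nat.card U := Cfsg.Agent.Lib.Coprime.card_conj_map U c⁻¹
  obtain ⟨m, hm, hle⟩ := IsPiHallOf.exists_conj_ge hMs hUH hU₁M (by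
    intro r hr hd
    rw [hc1] at hd
    exact hUH.2.1 r hr hd)
  have e : U₁ = U.map (MulAut.conj m).toMonoidHom :=
    Subgroup.eq_of_le_of_card_ge hle (by rw [Cfsg.Agent.Lib.Coprime.card_conj_map, hc1])
  have e2 : U.map (MulAut.conj (c * m)).toMonoidHom = U := by
    rw [← conj_map_conj_map, ← e, hU₁, conj_map_conj_map, mul_inv_cancel, conj_map_one]
  have h1 : c * m ∈ M := hN ((conj_map_eq_iff_mem_normalizer U (c * m)).mp e2)
  have h2 : c ∈ M := by
    have : c = (c * m) * m⁻¹ := by group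
    rw [this]
    exact mul_mem h1 (inv_mem hm)
  exact (conj_map_eq_iff_mem_normalizer M c).mpr (le_normalizer h2)


/-- `U ≤ H_σ` when `X` acts freely on `H_σ`. -/
theorem prime_mem_sigma_of_fpf (hB : ThmB G) (hG : IsMinSimpleOddOrder G) (hM : IsCoatom M) (hKU : IsSigmaDecomposition M K U)
    (hK1 : K ≠ ⊥) (PX : Partner M Mst X p) (hXK : X ≤ K)
    {H : Subgroup G} (hH : IsCoatom H) (hUH : U ≤ H) (hXH : X ≤ H) (hpH : p ∉ sigma H)
    (hD : sigmaCore H ⊓ centralizer (X : Set G) = ⊥) {t : ℕ} [Fact t.Prime] (htd : t ∣ Nat.card U) : t ∈ sigma H := by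
  classical
  by_contra htσ
  have hpp : p.Prime := Fact.out
  have htt : t.Prime := Fact.out
  have huniq := huniq13 hG
  have hpl := hpl13 hG
  have h1412 := h1412_of hG
  have hUc := U_isMulCommutative hB hG hM hKU hK1
  have hUn : Group.IsNilpotent U := by
    letI : CommGroup U := { (inferInstance : Group U) with mul_comm := hUc.is_comm.comm }
    exact CommGroup.isNilpotent
  obtain ⟨x, hx, hx1⟩ := exists_ne_one_of_card_prime hpp PX.hC.hX
  have hxo : orderOf x = p := orderOf_eq_of_card_prime hpp PX.hC.hX hx hx1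
  have hXz : X = zpowers x := eq_zpowers_of_card_prime PX.hC.hX hx hx1
  have hX1 : X ≠ ⊥ := ne_bot_of_card_prime hpp PX.hC.hX
  set T := Oq t U with hT
  have hTU : T ≤ U := Oq_le t U
  have hTH : T ≤ H := hTU.trans hUH
  have hTp : IsPGroup t T := Oq_isPGroup t U
  have hXn : X ≤ normalizer (T : Set G) := fun a ha => mem_normalizer_Oq hUn (hKU.normal (hXK ha))
  have hσn : H ≤ normalizer (sigmaCore H : Set G) := le_normalizer_piCoreOf (sigma H) H
  have hσ1 := sigmaCore_ne_bot hG huniq hH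
  have hfreeX : ∀ e ∈ X, e ≠ 1 → ∀ u ∈ T, e * u = u * e → u = 1 := fun e he he1 u hu hc =>
    U_free hB hG hM hKU (hXK he) he1 (hTU hu) hc
  -- elements of the `σ` part have primes in `σ`, so coprimality
  have hnotσ : ∀ A : Subgroup G, (∀ s : ℕ, s.Prime → s ∣ Nat.card A → s = t ∨ s = p) → (Nat.card ↥(sigmaCore H)).Coprime (Nat.card A) := by
    intro A hA
    refine Nat.coprime_of_dvd fun s hs h1 h2 => ?_
    have hsσ := piCoreOf_isPi (sigma H) H s hs h1
    rcases hA s hs h2 with rfl | rfl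
    · exact htσ hsσ
    · exact hpH hsσ
  -- Frobenius
  have hfrob : ∀ A : Subgroup G, A ≤ H → (∀ s : ℕ, s.Prime → s ∣ Nat.card A → s = t) → X ≤ normalizer (A : Set G) →
      (∀ e ∈ X, e ≠ 1 → ∀ u ∈ A, e * u = u * e → u = 1) → sigmaCore H ≤ centralizer (A : Set G) := by
    intro A hAH hAp hAn hAf
    have hsolv : Group.IsSolvable ↥(sigmaCore H) := by
      haveI := coatom_isSolvable hG hH
      exact solvable_of_solvable_injective (f := Subgroup.inclusion (piCoreOf_le _ H)) (Subgroup.inclusion_injective _)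
    have hf := frobenius_fix_formula A X (sigmaCore H) hX1 (fun e he u hu => (mem_normalizer_iff.mp (hAn he) u).mp hu) hAf
      (fun y hy h hh => (mem_normalizer_iff.mp (hσn ((sup_le hAH hXH) hy)) h).mp hh) hsolv
      (hnotσ _ (fun s hs hd => by
        rcases prime_dvd_sup hAn hs hd with h | h
        · exact Or.inl (hAp s hs h)
        · rw [PX.hC.hX] at h
          exact Or.inr ((Nat.prime_dvd_prime_iff_eq hs hpp).mp h)))
    have e1 : sigmaCore H ⊓ centralizer ((A ⊔ X : Subgroup G) : Set G) = ⊥ := by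
      rw [eq_bot_iff, ← hD]
      exact inf_le_inf_left _ (centralizer_le (le_sup_right : X ≤ A ⊔ X))
    rw [e1, hD] at hf
    simp only [Subgroup.card_bot, one_pow, one_mul] at hf
    have e2 : sigmaCore H ⊓ centralizer (A : Set G) = sigmaCore H :=
      Subgroup.eq_of_le_of_card_ge inf_le_left (by rw [← hf])
    exact inf_eq_left.mp e2
  have hTC : sigmaCore H ≤ centralizer (T : Set G) := hfrob T hTH (fun s hs hd => by
    obtain ⟨k, hk⟩ := IsPGroup.iff_card.mp hTp
    rw [hk] at hd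
    exact (Nat.prime_dvd_prime_iff_eq hs htt).mp (hs.dvd_of_dvd_pow hd)) hXn hfreeX
  -- an element of order `t`
  obtain ⟨y₀, hy₀⟩ := exists_prime_orderOf_dvd_card' (G := ↥U) t htd
  have hy₀o : orderOf (y₀ : G) = t := by rw [Subgroup.orderOf_coe, hy₀]
  have hy₀t : (y₀ : G) ^ t = 1 := by
    rw [← hy₀o]
    exact pow_orderOf_eq_one _
  have hy₀1 : (y₀ : G) ≠ 1 := by
    intro e
    rw [e, orderOf_one] at hy₀o
    exact htt.one_lt.ne hy₀o
  have hyT : (y₀ : G) ∈ T := mem_Oq hUn y₀.2 (k := 1) (by rw [pow_one]; exact hy₀t)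
  have hyD : sigmaCore H ⊓ centralizer ({(y₀ : G)} : Set G) ≠ ⊥ := by
    intro e
    apply hσ1
    rw [eq_bot_iff, ← e]
    refine le_inf le_rfl ?_
    intro s hs
    rw [mem_centralizer_singleton_iff]
    exact (mem_centralizer_iff.mp (hTC hs) _ hyT).symm
  by_cases hr : PRankLE t 1 ↥H
  · -- `t ∈ κ(H)`, no prime mover
    have hC : Config H (zpowers (y₀ : G)) t := by
      refine ⟨hH, htσ, hr, by rw [Nat.card_zpowers, hy₀o], zpowers_le.mpr (hTH hyT), ?_⟩
      rw [centralizer_zpowers_eq]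
      exact hyD
    have hTc : IsCyclic T := cyclic_of_prank_one hG hr hTp hTH
    have hYn : X ≤ normalizer ((zpowers (y₀ : G) : Subgroup G) : Set G) := by
      intro e he
      refine mem_normalizer_of_conj_le _ e ?_
      intro a ha
      have h1 : (zpowers (y₀ : G)).map (MulAut.conj e).toMonoidHom = zpowers (y₀ : G) := by
        refine eq_of_card_eq_of_le_isCyclic hTc ?_ (zpowers_le.mpr hyT) (by rw [Cfsg.Agent.Lib.Coprime.card_conj_map])
        rintro _ ⟨b, hb, rfl⟩
        exact (mem_normalizer_iff.mp (hXn he) b).mp ((zpowers_le.mpr hyT) hb)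
      rw [← h1]
      exact ⟨a, ha, rfl⟩
    have hnc : ¬ X ≤ centralizer ((zpowers (y₀ : G) : Subgroup G) : Set G) := by
      intro hle
      have h1 := mem_centralizer_iff.mp (hle hx) (y₀ : G) (mem_zpowers _)
      exact hy₀1 (hfreeX x hx hx1 _ hyT h1.symm)
    exact npm hB hG t htt H (zpowers (y₀ : G)) X p hpp ⟨hC, PX.hC.hX, hXH, hYn, hnc⟩
  · -- `t ∈ τ₂(H)`
    have hr2 : PRankLE t 2 ↥H := by
      by_contra h
      exact htσ (alpha_sub_sigma hG huniq hH ⟨htt, h⟩)
    have hτ : t ∈ tau2 H := ⟨htt, htσ, hr2, hr⟩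
    have hprY : ∀ s : ℕ, s.Prime → s ∣ Nat.card ↥(T ⊔ X) → s ∉ sigma H := by
      intro s hs hd hsσ
      rcases prime_dvd_sup hXn hs hd with h | h
      · obtain ⟨k, hk⟩ := IsPGroup.iff_card.mp hTp
        rw [hk] at h
        rw [(Nat.prime_dvd_prime_iff_eq hs htt).mp (hs.dvd_of_dvd_pow h)] at hsσ
        exact htσ hsσ
      · rw [PX.hC.hX] at h
        rw [(Nat.prime_dvd_prime_iff_eq hs hpp).mp h] at hsσ
        exact hpH hsσ
    obtain ⟨E, hE, hYE⟩ := exists_compl_sigma_ge hG hH (sup_le hTH hXH) hprY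
    have hTE : T ≤ E := le_sup_left.trans hYE
    have hXE : X ≤ E := le_sup_right.trans hYE
    -- `A`
    obtain ⟨A₀, hA₀e, hA₀H, hA₀c⟩ := exists_of_not_prank hr
    have hA₀sq : Nat.card A₀ = t ^ 2 := card_eq_sq_of_bounds hA₀e hA₀c (card_le_of_prank hr2 hA₀e hA₀H)
    have hEH := isPiHallOf_compl hG hH hE
    have hA₀p : IsPGroup t A₀ := isPGroup_of_elem hA₀e
    obtain ⟨c, hc, hcle⟩ := IsPiHallOf.exists_conj_ge (coatom_isSolvable hG hH) hEH hA₀H (by
      intro s hs hd
      obtain ⟨k, hk⟩ := IsPGroup.iff_card.mp hA₀p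
      rw [hk] at hd
      rw [Set.mem_setOf_eq, (Nat.prime_dvd_prime_iff_eq hs htt).mp (hs.dvd_of_dvd_pow hd)]
      exact htσ)
    set A := A₀.map (MulAut.conj c⁻¹).toMonoidHom with hA
    have hAE : A ≤ E := by
      have h1 := conj_map_mono hcle c⁻¹
      rwa [conj_map_conj_map, inv_mul_cancel, conj_map_one] at h1
    have hAe : IsElementaryAbelian t A := elem_conj_map hA₀e _
    have hAc : Nat.card A = t ^ 2 := by
      rw [hA, Cfsg.Agent.Lib.Coprime.card_conj_map, hA₀sq]
    have T2 : Tau2Setup t A H := Tau2Setup.mk' hG huniq hpl hH (hAE.trans hE.1) hAe hAc htσ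
    have hEn : E ≤ normalizer (A : Set G) := T2.compl_le_normalizer hE hAE
    have hnotN : ¬ normalizer (A : Set G) ≤ H := T2.not_norm_A_le
    obtain ⟨hs17, hs17b, -, hs17d, -, -⟩ := s1417_core hG huniq hpl h1412 H hH t hτ A ⟨hAE.trans hE.1, hAe, hAc⟩
    -- `X` has a fixed point on `A`
    obtain ⟨a, haA, ha1, hax⟩ : ∃ a ∈ A, a ≠ 1 ∧ x * a = a * x := by
      by_contra hcon
      push Not at hcon
      have hfA : ∀ e ∈ X, e ≠ 1 → ∀ u ∈ A, e * u = u * e → u = 1 := by
        intro e he he1 u hu heu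
        by_contra hu1
        refine hcon u hu hu1 ?_
        have hze : zpowers e = X := (eq_zpowers_of_card_prime PX.hC.hX he he1).symm
        have hxe : x ∈ zpowers e := hze ▸ hx
        obtain ⟨i, hi⟩ := hxe
        have hi' : e ^ i = x := hi
        rw [← hi']
        exact ((Commute.zpow_left (show Commute e u from heu) i)).eq
      have hcA := hfrob A (hAE.trans hE.1) (fun s hs hd => by
        rw [hAc] at hd
        exact (Nat.prime_dvd_prime_iff_eq hs htt).mp (hs.dvd_of_dvd_pow hd)) (hXE.trans hEn) hfA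
      apply hσ1
      rw [eq_bot_iff, ← hs17d]
      exact le_inf le_rfl hcA
    -- `L ⊇ N(A)`
    have hA1 : A ≠ ⊥ := fun e => ha1 (by rw [e] at haA; exact haA)
    have hAt : A ≠ ⊤ := fun e => hH.1 (top_le_iff.1 (e ▸ (hAE.trans hE.1)))
    obtain ⟨L, hL, hNL⟩ := (eq_top_or_exists_le_coatom (normalizer (A : Set G))).resolve_left
      (IsMinSimpleOddOrder.normalizer_ne_top hG hA1 hAt)
    have hAL : A ≤ L := le_normalizer.trans hNL
    have htL : t ∈ sigma L := by
      by_contra htL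
      have hτL : t ∈ tau2 L := by
        refine ⟨htt, htL, ?_, ?_⟩
        · by_contra h
          exact htL (alpha_sub_sigma hG huniq hL ⟨htt, h⟩)
        · exact not_prank_of_card hAe hAL (by
            rw [hAc, pow_one]
            have := htt.one_lt
            nlinarith)
      obtain ⟨E', hE', hAE'⟩ := exists_compl_sigma_ge hG hL hAL (fun s hs hd hsσ => by
        rw [hAc] at hd
        rw [(Nat.prime_dvd_prime_iff_eq hs htt).mp (hs.dvd_of_dvd_pow hd)] at hsσ
        exact htL hsσ)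
      have T3 : Tau2Setup t A L := Tau2Setup.mk' hG huniq hpl hL hAL hAe hAc htL
      exact T3.not_norm_A_le hNL
    have hAσ : A ≤ sigmaCore L := le_sigmaCore_of_isPGroup hG huniq hL htL (isPGroup_of_elem hAe) hAL
    have hXL : X ≤ L := (hXE.trans hEn).trans hNL
    have hDL : sigmaCore L ⊓ centralizer (X : Set G) ≠ ⊥ := by
      intro e
      have h1 : a ∈ sigmaCore L ⊓ centralizer (X : Set G) := by
        refine Subgroup.mem_inf.mpr ⟨hAσ haA, ?_⟩
        rw [hXz, centralizer_zpowers_eq, mem_centralizer_singleton_iff]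
        exact hax.symm
      rw [e] at h1
      exact ha1 h1
    rcases partner_dichotomy hB hG hM hKU.hall hXK PX hL hXL hDL with e | ⟨g, e⟩
    · -- `T` commutes with `A`
      have hTA : T ≤ centralizer (A : Set G) := by
        have hTnA : T ≤ normalizer (A : Set G) := hTE.trans hEn
        have hBp : IsPGroup t ↥(A ⊔ T) := by
          refine IsPGroup.iff_card.mpr ?_
          have h1 := card_sup_mul_card_inf hTnA
          obtain ⟨k, hk⟩ := IsPGroup.iff_card.mp hTp
          have h2 : Nat.card ↥(A ⊔ T) ∣ t ^ 2 * t ^ k := by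
            rw [← hk, ← hAc, ← h1]
            exact dvd_mul_right _ _
          rw [← pow_add] at h2
          obtain ⟨j, -, hj⟩ := (Nat.dvd_prime_pow htt).1 h2
          exact ⟨j, hj⟩
        obtain ⟨P, hP, hBP⟩ := exists_isMaxP_ge (sup_le (hAE.trans hE.1) hTH) hBp
        have hPc := (hs17b hP.toSylow).1
        have e2 : ((hP.toSylow : Subgroup H).map H.subtype) = P := Subgroup.map_subgroupOf_eq_of_le hP.le
        intro u hu
        rw [mem_centralizer_iff]
        intro v hv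
        have huP : u ∈ P := hBP (Subgroup.mem_sup_right hu)
        have hvP : v ∈ P := hBP (Subgroup.mem_sup_left hv)
        have h3 := hPc.is_comm.comm (⟨⟨v, hP.le hvP⟩, hvP⟩ : ↥(hP.toSylow : Subgroup H)) ⟨⟨u, hP.le huP⟩, huP⟩
        have h4 : v * u = u * v := by
          have := congrArg (fun z : ↥(hP.toSylow : Subgroup H) => ((z : ↥H) : G)) h3
          exact this
        exact h4
      have hTL : T ≤ L := hTA.trans ((centralizer_le_normalizer' A).trans hNL)
      exact Oq_not_le_partner hB hG hM hKU hK1 PX hXK htd (e ▸ hTL)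
    · -- `L ~ M`
      have htM := not_sigma_of_dvd_U hG huniq hM hKU htt htd
      apply htM
      have h1 := sigma_conj_of_mem htL g⁻¹
      rw [e, conj_map_conj_map, inv_mul_cancel, conj_map_one] at h1
      exact h1


/-- The main theorem: `N_G(U)` is not contained in `M`. -/
theorem normalizer_U_not_le (hB : ThmB G) (hG : IsMinSimpleOddOrder G) (hM : IsCoatom M) (hKU : IsSigmaDecomposition M K U)
    (hK1 : K ≠ ⊥) (PX : Partner M Mst X p) (hXK : X ≤ K) :
    ¬ normalizer (U : Set G) ≤ M := by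
  classical
  intro hN
  have hpp : p.Prime := Fact.out
  have huniq := huniq13 hG
  have hUc := U_isMulCommutative hB hG hM hKU hK1
  have hUn : Group.IsNilpotent U := by
    letI : CommGroup U := { (inferInstance : Group U) with mul_comm := hUc.is_comm.comm }
    exact CommGroup.isNilpotent
  have hUHall := isPiHallOf_U hG hM hKU
  have hUM : U ≤ M := hUHall.1
  have hU1 : U ≠ ⊥ := by
    rintro rfl
    have h1 : normalizer ((⊥ : Subgroup G) : Set G) = ⊤ := by
      rw [eq_top_iff]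
      intro g _
      refine mem_normalizer_of_conj_le ⊥ g fun a ha => ?_
      rw [Subgroup.mem_bot] at ha ⊢
      rw [ha]
      group
    rw [h1] at hN
    exact hM.1 (top_le_iff.mp hN)
  have hUne : Nat.card U ≠ 1 := fun h => hU1 ((Subgroup.eq_bot_iff_card _).mpr h)
  obtain ⟨r, hr, hrd⟩ := Nat.exists_prime_and_dvd hUne
  haveI : Fact r.Prime := ⟨hr⟩
  have hrσ := not_sigma_of_dvd_U hG huniq hM hKU hr hrd
  have hrκ := not_kappa_of_dvd_U hG huniq hM hKU hr hrd
  set R := Oq r U with hR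
  have hRU : R ≤ U := Oq_le r U
  have hRmax : IsMaxP r R M := isMaxP_Oq_of_hall hUHall hUn ⟨hr, hrκ, hrσ⟩
  have hNR : normalizer (U : Set G) ≤ normalizer (R : Set G) := fun a ha => mem_normalizer_Oq hUn ha
  have hR1 : R ≠ ⊥ := by
    obtain ⟨y, hy⟩ := exists_prime_orderOf_dvd_card' (G := ↥U) r hrd
    have hyo : orderOf (y : G) = r := by rw [Subgroup.orderOf_coe, hy]
    have hyR : (y : G) ∈ R := mem_Oq hUn y.2 (k := 1) (by
      rw [pow_one, ← hyo]
      exact pow_orderOf_eq_one _)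
    intro e
    rw [e, Subgroup.mem_bot] at hyR
    rw [hyR, orderOf_one] at hyo
    exact hr.one_lt.ne hyo
  have hRt : R ≠ ⊤ := fun e => hM.1 (top_le_iff.1 (e ▸ hRmax.le))
  obtain ⟨H, hH, hNRH⟩ := (eq_top_or_exists_le_coatom (normalizer (R : Set G))).resolve_left
    (IsMinSimpleOddOrder.normalizer_ne_top hG hR1 hRt)
  have hHne : H ≠ M := by
    rintro rfl
    exact hrσ (mem_sigma_of_normalizer_le hRmax (hrd.trans (Subgroup.card_dvd_of_le hUM)) hNRH)
  have hUH : U ≤ H := (le_normalizer.trans hNR).trans hNRH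
  have hKH : K ≤ H := hKU.normal.trans (hNR.trans hNRH)
  have hXH : X ≤ H := hXK.trans hKH
  have hnotconj : ∀ g : G, H ≠ M.map (MulAut.conj g).toMonoidHom := by
    intro g e
    exact hHne (e.trans (conj_eq_of_normalizer_le hG hM hKU hN (e ▸ hUH)))
  have hpH : p ∉ sigma H := by
    intro h
    have e := eq_partner_of_sigma hB hG PX hH hXH h
    exact Oq_not_le_partner hB hG hM hKU hK1 PX hXK hrd (e ▸ (hRU.trans hUH))
  have hD : sigmaCore H ⊓ centralizer (X : Set G) = ⊥ := by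
    by_contra hne
    rcases partner_dichotomy hB hG hM hKU.hall hXK PX hH hXH hne with e | ⟨g, e⟩
    · exact hpH (e ▸ PX.hpH)
    · exact hnotconj g e
  obtain ⟨x, hx, hx1⟩ := exists_ne_one_of_card_prime hpp PX.hC.hX
  have hxo : orderOf x = p := orderOf_eq_of_card_prime hpp PX.hC.hX hx hx1
  have hXz : X = zpowers x := eq_zpowers_of_card_prime PX.hC.hX hx hx1
  have hσn : H ≤ normalizer (sigmaCore H : Set G) := le_normalizer_piCoreOf (sigma H) H
  have hHnil : Group.IsNilpotent (sigmaCore H) := by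
    refine nilpotent_of_fpf_subgroup (x := x) hpp (by rw [← hxo]; exact pow_orderOf_eq_one x) (hσn (hXH hx)) ?_
    rw [← centralizer_zpowers_eq, ← hXz]
    exact hD
  -- `U ≤ H_σ`
  have hprimes : ∀ t : ℕ, t.Prime → t ∣ Nat.card U → t ∈ sigma H := by
    intro t ht hd
    haveI : Fact t.Prime := ⟨ht⟩
    exact prime_mem_sigma_of_fpf hB hG hM hKU hK1 PX hXK hH hUH hXH hpH hD hd
  obtain ⟨hH1, hH2, hH3⟩ := (s1350_core hG huniq hH).1
  have hUσ : U ≤ sigmaCore H := by
    intro u hu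
    refine mem_of_coprime_relIndex hσn (hUH hu) ?_
    refine Nat.coprime_of_dvd fun s hs h1 h2 => ?_
    exact hH3 s hs (hprimes s hs (h2.trans (Subgroup.orderOf_dvd_natCard U hu))) h1
  -- `H_σ ∩ M = U`
  have hdisj : ∀ s : ℕ, s ∈ sigma H → s ∉ sigma M := by
    intro s hsH hsM
    haveI : Fact s.Prime := ⟨hsH.1⟩
    obtain ⟨c, e⟩ := conj_of_sigma_sigma hB hM hH hsM hsH
    have e2 : H = M.map (MulAut.conj c⁻¹).toMonoidHom := by
      rw [← e, conj_map_conj_map, inv_mul_cancel, conj_map_one]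
    exact hnotconj _ e2
  set W := sigmaCore H ⊓ M with hW
  have hWnil : Group.IsNilpotent W := isNilpotent_of_le_aux inf_le_left hHnil
  have hUW : U ≤ W := le_inf hUσ hUM
  have hWU : W ≤ U := by
    refine le_of_forall_Oq _ _ rfl hWnil ?_
    intro t _
    have htt : t.Prime := Fact.out
    set T := Oq t W with hT
    have hTW : T ≤ W := Oq_le t W
    have hTp : IsPGroup t T := Oq_isPGroup t W
    by_cases hT1 : T = ⊥
    · rw [hT1]
      exact bot_le
    have htd : t ∣ Nat.card T := by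
      obtain ⟨k, hk⟩ := IsPGroup.iff_card.mp hTp
      have hne : Nat.card T ≠ 1 := fun h => hT1 ((Subgroup.eq_bot_iff_card _).mpr h)
      rw [hk] at hne ⊢
      have hk0 : k ≠ 0 := by
        rintro rfl
        simp at hne
      exact dvd_pow_self t hk0
    have htH : t ∈ sigma H := piCoreOf_isPi (sigma H) H t htt (htd.trans (Subgroup.card_dvd_of_le (hTW.trans inf_le_left)))
    have htM : t ∉ sigma M := hdisj t htH
    have hTM : T ≤ M := hTW.trans inf_le_right
    by_cases hκ : t ∈ kappa M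
    · exfalso
      obtain ⟨w, hw⟩ := (Subgroup.ne_bot_iff_exists_ne_one).mp hT1
      have hw1 : (w : G) ≠ 1 := fun e => hw (Subtype.ext e)
      obtain ⟨j, hj⟩ := Cfsg.Agent.Lib.PGroups.exists_orderOf_of_mem_isPGroup hTp w.2
      obtain ⟨m, hm, hle⟩ := IsPiHallOf.exists_conj_ge (coatom_isSolvable hG hM) hKU.hall (zpowers_le.mpr (hTM w.2)) (by
        intro s hs hd
        rw [Nat.card_zpowers, hj] at hd
        rw [(Nat.prime_dvd_prime_iff_eq hs htt).mp (hs.dvd_of_dvd_pow hd)]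
        exact hκ)
      obtain ⟨k, hk, e⟩ := hle (mem_zpowers (w : G))
      have e' : m * k * m⁻¹ = (w : G) := e
      have hk1 : k ≠ 1 := by
        rintro rfl
        apply hw1
        rw [← e']
        group
      -- `U` commutes with `w`
      have hUcomm : ∀ u ∈ U, (w : G) * u = u * w := by
        intro u hu
        refine comm_of_coprime_of_nilpotent_subgroup hWnil (hTW w.2) (hUW hu) ?_
        rw [hj]
        refine Nat.Coprime.pow_left j ?_
        refine (Nat.Prime.coprime_iff_not_dvd htt).mpr fun hd => ?_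
        exact not_kappa_of_dvd_U hG huniq hM hKU htt (hd.trans (Subgroup.orderOf_dvd_natCard U hu)) hκ
      obtain ⟨u, hu⟩ := (Subgroup.ne_bot_iff_exists_ne_one).mp hU1
      have hu1 : (u : G) ≠ 1 := fun e => hu (Subtype.ext e)
      -- `m⁻¹ u m` in `M' = U M_σ`
      have hM'n : M ≤ normalizer ((U ⊔ sigmaCore M : Subgroup G) : Set G) := sup_norm_of_decomp hKU
      have h1 : m⁻¹ * u * m ∈ U ⊔ sigmaCore M := by
        have h2 := (mem_normalizer_iff.mp (hM'n (inv_mem hm)) (u : G)).mp (Subgroup.mem_sup_left u.2)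
        simpa using h2
      have hσnM : M ≤ normalizer (sigmaCore M : Set G) := le_normalizer_piCoreOf (sigma M) M
      have hUn' : U ≤ normalizer (sigmaCore M : Set G) := hUM.trans hσnM
      obtain ⟨b, hb, v, hv, e4⟩ := (Cfsg.Agent.Lib.Coprime.mem_sup_iff_of_le_normalizer hUn' _).mp (by
        rw [sup_comm]
        exact h1)
      have hcomm2 : k * (m⁻¹ * u * m) = (m⁻¹ * u * m) * k := by
        have h3 := hUcomm u u.2
        rw [← e'] at h3
        calc k * (m⁻¹ * u * m) = m⁻¹ * ((m * k * m⁻¹) * u) * m := by group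
          _ = m⁻¹ * (u * (m * k * m⁻¹)) * m := by rw [h3]
          _ = (m⁻¹ * u * m) * k := by group
      have hUσ0 : ∀ z, z ∈ U → z ∈ sigmaCore M → z = 1 := by
        intro z hz1 hz2
        have h5 : z ∈ U ⊓ (K ⊔ sigmaCore M) := Subgroup.mem_inf.mpr ⟨hz1, Subgroup.mem_sup_right hz2⟩
        rw [hKU.compl.2.2.1] at h5
        exact h5
      rw [e4] at hcomm2
      have hkM : k ∈ M := hKU.hall.1 hk
      have hb2 : b⁻¹ * (k * b * k⁻¹) ∈ sigmaCore M :=
        mul_mem (inv_mem hb) ((mem_normalizer_iff.mp (hσnM hkM) b).mp hb)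
      have hv2 : v * (k * v * k⁻¹)⁻¹ ∈ U :=
        mul_mem hv (inv_mem ((mem_normalizer_iff.mp (hKU.normal hk) v).mp hv))
      have e5 : b⁻¹ * (k * b * k⁻¹) = v * (k * v * k⁻¹)⁻¹ := by
        have h6 : (k * b * k⁻¹) * (k * v * k⁻¹) = b * v := by
          calc (k * b * k⁻¹) * (k * v * k⁻¹) = (k * (b * v)) * k⁻¹ := by group
            _ = ((b * v) * k) * k⁻¹ := by rw [hcomm2]
            _ = b * v := by group
        calc b⁻¹ * (k * b * k⁻¹) = b⁻¹ * ((k * b * k⁻¹) * (k * v * k⁻¹)) * (k * v * k⁻¹)⁻¹ := by group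
          _ = b⁻¹ * (b * v) * (k * v * k⁻¹)⁻¹ := by rw [h6]
          _ = v * (k * v * k⁻¹)⁻¹ := by group
      have h7 : v * (k * v * k⁻¹)⁻¹ = 1 := hUσ0 _ hv2 (e5 ▸ hb2)
      have h8 : v = k * v * k⁻¹ := mul_inv_eq_one.mp h7
      have h9 : k * v = v * k := by
        calc k * v = (k * v * k⁻¹) * k := by group
          _ = v * k := by rw [← h8]
      have hv1 : v = 1 := U_free hB hG hM hKU hk hk1 hv h9
      rw [hv1, mul_one] at e4
      have h10 : (u : G) = m * b * m⁻¹ := by
        rw [← e4]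
        group
      have h11 : (u : G) ∈ sigmaCore M := by
        rw [h10]
        exact (mem_normalizer_iff.mp (hσnM hm) b).mp hb
      exact hu1 (hUσ0 _ u.2 h11)
    · have hUnT : U ≤ normalizer (T : Set G) := fun a ha => mem_normalizer_Oq hWnil (le_normalizer (hUW ha))
      have hi : U.relIndex (T ⊔ U) = 1 := by
        by_contra hne
        obtain ⟨s, hs, hsd⟩ := Nat.exists_prime_and_dvd hne
        have h1 : s ∣ Nat.card ↥(T ⊔ U) := hsd.trans (Subgroup.relIndex_dvd_card _ _)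
        have h2 : s ∣ U.relIndex M := by
          rw [← Subgroup.relIndex_mul_relIndex U (T ⊔ U) M le_sup_right (sup_le hTM hUM)]
          exact hsd.trans (dvd_mul_right _ _)
        have hsπ : s ∈ {q : ℕ | q.Prime ∧ q ∉ kappa M ∧ q ∉ sigma M} := by
          rcases prime_dvd_sup hUnT hs h1 with h3 | h3
          · obtain ⟨k, hk⟩ := IsPGroup.iff_card.mp hTp
            rw [hk] at h3
            rw [(Nat.prime_dvd_prime_iff_eq hs htt).mp (hs.dvd_of_dvd_pow h3)]
            exact ⟨htt, hκ, htM⟩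
          · exact hUHall.2.1 s hs h3
        exact hUHall.2.2 s hs hsπ h2
      exact le_sup_left.trans (Subgroup.relIndex_eq_one.mp hi)
  -- conclude
  have heqW : sigmaCore H ⊓ M = U := le_antisymm hWU hUW
  by_cases e : U = sigmaCore H
  · apply hHne
    have h1 : H ≤ M := by
      refine le_trans ?_ hN
      rw [e]
      exact hσn
    by_contra hne
    exact hM.1 (hH.2 M (lt_of_le_of_ne h1 hne))
  · have hlt : U.subgroupOf (sigmaCore H) < ⊤ := by
      refine lt_of_le_of_ne le_top fun e2 => e ?_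
      apply le_antisymm hUσ
      intro z hz
      have h1 : (⟨z, hz⟩ : ↥(sigmaCore H)) ∈ U.subgroupOf (sigmaCore H) := by
        rw [e2]
        exact Subgroup.mem_top _
      exact h1
    have hcond := normalizerCondition_of_isNilpotent (G := ↥(sigmaCore H)) (h := hHnil) _ hlt
    obtain ⟨h, hh1, hh2⟩ := SetLike.exists_of_lt hcond
    have hhN : (h : G) ∈ normalizer (U : Set G) := by
      refine mem_normalizer_of_conj_le U h fun u hu => ?_
      have h2 := (mem_normalizer_iff.mp hh1 (⟨u, hUσ hu⟩ : ↥(sigmaCore H))).mp hu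
      exact h2
    apply hh2
    have h3 : (h : G) ∈ sigmaCore H ⊓ M := Subgroup.mem_inf.mpr ⟨h.2, hN hhN⟩
    rw [heqW] at h3
    exact h3

end Main

end Cfsg.Agent.Lib.FT
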