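import Cfsg.Agent.Lib.FT.BG21g

/-!
BG21h: `U` or `U*` is not trivial; `K*` has prime order when `U = 1`; the set `Ẑ` and its conjugates; every `H` with `κ(H) ≠ ∅`
is conjugate to `M` or `M*`.
-/

set_option autoImplicit false
set_option linter.unusedSectionVars false
set_option linter.style.haveILetI false

namespace Cfsg.Agent.Lib.FT

open Subgroup Cfsg Cfsg.Agent.Lib.OddLocal Cfsg.Agent.Lib.Basic Cfsg.Agent.Lib.Coprime

open scoped commutatorElement

variable {G : Type*} [Group G] [Finite G]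

section Pair

variable {M K Mstar : Subgroup G}

/-- `U = 1` means `K M_σ = M`. -/
theorem sup_eq_of_decomp_bot {U : Subgroup G} (hKU : IsSigmaDecomposition M K U) (hU : U = ⊥) : K ⊔ sigmaCore M = M := by
  apply le_antisymm (sup_le hKU.hall.1 (piCoreOf_le _ M))
  intro m hm
  obtain ⟨a, ha, b, hb, rfl⟩ := hKU.compl.2.2.2 m hm
  rw [hU, mem_bot] at ha
  rw [ha, one_mul]
  exact hb

/-- For the `U` of a `κ`-Hall subgroup: `U ≠ 1` or `U* ≠ 1`. -/
theorem not_both_sup (hB : ThmB G) (hG : IsMinSimpleOddOrder G) (hM : IsCoatom M) (hK : IsPiHallOf (kappa M) K M) (hK1 : K ≠ ⊥)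
    (hMstar : IsCoatom Mstar) (hKst : K = sigmaCore Mstar ⊓ centralizer ((sigmaCore M ⊓ centralizer (K : Set G) : Subgroup G) : Set G))
    (hKstH : IsPiHallOf (kappa Mstar) (sigmaCore M ⊓ centralizer (K : Set G)) Mstar)
    (h1 : K ⊔ sigmaCore M = M) (h2 : Kst M K ⊔ sigmaCore Mstar = Mstar) : False := by
  have hh : InCluster (K ⊔ Kst M K) M := ⟨hM, K, hK, hK1, rfl⟩
  have hh₂ := mstar_inCluster hB hG hM hK hK1 hMstar hKst hKstH
  refine cluster_count hB hG hh ?_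
  intro L hL
  rcases cluster_eq_or_eq hB hG hL hh hh₂ (mstar_ne hK hK1 hKst) with rfl | rfl
  · exact count_hyp_of_sup hK rfl h1
  · refine count_hyp_of_sup hKstH ?_ h2
    rw [← hKst, sup_comm]

/-- **S1369, first part.** -/
theorem s1369_first (hB : ThmB G) (hG : IsMinSimpleOddOrder G) (hM : IsCoatom M) {U : Subgroup G} (hKU : IsSigmaDecomposition M K U) (hK1 : K ≠ ⊥)
    (hMstar : IsCoatom Mstar) (hKst : K = sigmaCore Mstar ⊓ centralizer ((sigmaCore M ⊓ centralizer (K : Set G) : Subgroup G) : Set G))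
    (hKstH : IsPiHallOf (kappa Mstar) (sigmaCore M ⊓ centralizer (K : Set G)) Mstar) :
    U ≠ ⊥ ∨ ∀ Ustar : Subgroup G, IsSigmaDecomposition Mstar (sigmaCore M ⊓ centralizer (K : Set G)) Ustar → Ustar ≠ ⊥ := by
  by_contra hcon
  push Not at hcon
  obtain ⟨hU, Ustar, hUs, hUs1⟩ := hcon
  exact not_both_sup hB hG hM hKU.hall hK1 hMstar hKst hKstH (sup_eq_of_decomp_bot hKU hU) (sup_eq_of_decomp_bot hUs hUs1)

/-- **S1373 core.** -/
theorem s1373_core (hB : ThmB G) (hG : IsMinSimpleOddOrder G) (hM : IsCoatom M) {U : Subgroup G} (hKU : IsSigmaDecomposition M K U) (hK1 : K ≠ ⊥)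
    (hU : U = ⊥) : (Nat.card ↥(sigmaCore M ⊓ centralizer (K : Set G))).Prime := by
  classical
  obtain ⟨H, hH, hKst, hKstH⟩ := exists_mstar hB hG hM hKU.hall hK1
  have hKs1 : sigmaCore M ⊓ centralizer (K : Set G) ≠ ⊥ := Kstar_ne_bot hG hB hM hKU.hall hK1
  obtain ⟨U₂, -, hU₂, hKU₂, hfree₂⟩ := kappa_exists_U hB hG hH hKstH hKs1
  by_cases hU₂1 : U₂ = ⊥
  · rw [hU₂1] at hU₂
    exact absurd (sup_eq_of_U_bot hG hH hKstH hU₂) (fun h2 =>
      not_both_sup hB hG hM hKU.hall hK1 hH hKst hKstH (sup_eq_of_decomp_bot hKU hU) h2)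
  · exact kappa_prime_of_U_ne hB hG hH hKstH hKs1 hU₂ hKU₂ hfree₂ hU₂1

/-- Decomposition of an element of `Z`. -/
theorem zhat_cards (hG : IsMinSimpleOddOrder G) (hK : IsPiHallOf (kappa M) K M) :
    Nat.card ↥(K ⊔ Kst M K) = Nat.card K * Nat.card (Kst M K) := by
  have hn : (Kst M K) ≤ normalizer (K : Set G) := inf_le_right.trans (centralizer_le_normalizer' K)
  have h := Cfsg.Agent.Lib.OddLocal.card_sup_mul_card_inf hn
  rwa [K_inf_Kst hK, Subgroup.card_bot, mul_one] at h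

/-- The number of elements of `Ẑ`. -/
theorem zhat_ncard (hG : IsMinSimpleOddOrder G) (hK : IsPiHallOf (kappa M) K M) :
    Set.ncard (Zhat M K) + Nat.card K + Nat.card (Kst M K) = Nat.card K * Nat.card (Kst M K) + 1 := by
  classical
  haveI := Fintype.ofFinite G
  let A : Finset G := Finset.univ.filter (fun x => x ∈ K)
  let B : Finset G := Finset.univ.filter (fun x => x ∈ Kst M K)
  let C : Finset G := Finset.univ.filter (fun x => x ∈ K ⊔ Kst M K)
  have hA : A.card = Nat.card K := by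
    rw [Nat.card_eq_fintype_card, Fintype.card_subtype]
  have hB : B.card = Nat.card (Kst M K) := by
    rw [Nat.card_eq_fintype_card, Fintype.card_subtype]
  have hC : C.card = Nat.card ↥(K ⊔ Kst M K) := by
    rw [Nat.card_eq_fintype_card, Fintype.card_subtype]
  have hsub : A ∪ B ⊆ C := by
    intro x hx
    rw [Finset.mem_union] at hx
    simp only [C, Finset.mem_filter, Finset.mem_univ, true_and]
    rcases hx with h | h
    · exact Subgroup.mem_sup_left (by simpa [A] using h)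
    · exact Subgroup.mem_sup_right (by simpa [B] using h)
  have hinter : A ∩ B = {1} := by
    ext x
    simp only [A, B, Finset.mem_inter, Finset.mem_filter, Finset.mem_univ, true_and, Finset.mem_singleton]
    constructor
    · rintro ⟨h1, h2⟩
      have h3 : x ∈ K ⊓ Kst M K := Subgroup.mem_inf.mpr ⟨h1, h2⟩
      rwa [K_inf_Kst hK, mem_bot] at h3
    · rintro rfl
      exact ⟨one_mem _, one_mem _⟩
  have hZ : Zhat M K = ↑(C \ (A ∪ B)) := by
    ext x
    simp [Zhat, A, B, C]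
  rw [hZ, Set.ncard_coe_finset, Finset.card_sdiff_of_subset hsub]
  have h1 := Finset.card_union_add_card_inter A B
  rw [hinter, Finset.card_singleton, hA, hB] at h1
  have h2 := Finset.card_le_card hsub
  rw [hC, zhat_cards hG hK] at h2
  rw [hC, zhat_cards hG hK]
  omega

/-- The size of the conjugates of `Ẑ`. -/
theorem zhat_conj_ncard (hB : ThmB G) (hG : IsMinSimpleOddOrder G) (hM : IsCoatom M) (hK : IsPiHallOf (kappa M) K M) (hK1 : K ≠ ⊥) :
    Set.ncard {a : G | ∃ g : G, ∃ z ∈ Zhat M K, a = g * z * g⁻¹} * (Nat.card K * Nat.card (Kst M K)) = Nat.card G * Set.ncard (Zhat M K) := by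
  have hh : InCluster (K ⊔ Kst M K) M := ⟨hM, K, hK, hK1, rfl⟩
  have hm := mixed_eq_zhat hB hG hM hK hK1
  have h := card_conj_TI (Z := K ⊔ Kst M K) (S := mixedSet (K ⊔ Kst M K)) (fun g hg z hz => mixed_conj hh hz hg) (fun z hz => hz.1)
    (fun z hz g hg => mixed_TI hB hG hh hz hg)
  rw [hm, zhat_cards hG hK] at h
  exact h

/-- Orders: both `K` and `K*` are odd and coprime. -/
theorem card_K_Kst_bound (hG : IsMinSimpleOddOrder G) (hB : ThmB G) (hM : IsCoatom M) (hK : IsPiHallOf (kappa M) K M) (hK1 : K ≠ ⊥) :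
    2 * (Nat.card K + Nat.card (Kst M K)) + 1 ≤ Nat.card K * Nat.card (Kst M K) + 2 ∧ 3 ≤ Nat.card K ∧ 3 ≤ Nat.card (Kst M K) := by
  have hodd1 : Odd (Nat.card K) := subgroup_odd hG K
  have hodd2 : Odd (Nat.card (Kst M K)) := subgroup_odd hG _
  have hne1 : Nat.card K ≠ 1 := fun h => hK1 ((Subgroup.eq_bot_iff_card K).mpr h)
  have hne2 : Nat.card (Kst M K) ≠ 1 := fun h => Kstar_ne_bot hG hB hM hK hK1 ((Subgroup.eq_bot_iff_card _).mpr h)
  have hcop : (Nat.card K).Coprime (Nat.card (Kst M K)) :=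
    Nat.coprime_of_dvd fun s hs h1 h2 => primes_kappa_not_sigma hK s hs h1 (piCoreOf_isPi (sigma M) M s hs (h2.trans (Subgroup.card_dvd_of_le inf_le_left)))
  set k := Nat.card K
  set k' := Nat.card (Kst M K)
  have hk : 3 ≤ k := by
    obtain ⟨a, ha⟩ := hodd1
    omega
  have hk' : 3 ≤ k' := by
    obtain ⟨a, ha⟩ := hodd2
    omega
  refine ⟨?_, hk, hk'⟩
  by_cases h3 : k = 3
  · have h5 : 5 ≤ k' := by
      obtain ⟨a, ha⟩ := hodd2
      have : k' ≠ 3 := by
        intro h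
        rw [h3, h] at hcop
        exact absurd hcop (by decide)
      omega
    rw [h3]
    nlinarith
  · have h5 : 5 ≤ k := by
      obtain ⟨a, ha⟩ := hodd1
      omega
    nlinarith

/-- More than half of the elements of `G`. -/
theorem zhat_conj_large (hB : ThmB G) (hG : IsMinSimpleOddOrder G) (hM : IsCoatom M) (hK : IsPiHallOf (kappa M) K M) (hK1 : K ≠ ⊥) :
    Nat.card G < 2 * Set.ncard {a : G | ∃ g : G, ∃ z ∈ Zhat M K, a = g * z * g⁻¹} := by
  have h1 := zhat_conj_ncard hB hG hM hK hK1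
  have h2 := zhat_ncard hG hK
  obtain ⟨h3, h4, h5⟩ := card_K_Kst_bound hG hB hM hK hK1
  set n := Set.ncard {a : G | ∃ g : G, ∃ z ∈ Zhat M K, a = g * z * g⁻¹}
  set k := Nat.card K
  set k' := Nat.card (Kst M K)
  set m := Set.ncard (Zhat M K)
  have hG0 : 0 < Nat.card G := Nat.card_pos
  have hkk : 0 < k * k' := by positivity
  have h6 : k * k' < 2 * m := by omega
  by_contra hcon
  push Not at hcon
  have h7 : n * (k * k') * 2 ≤ Nat.card G * (k * k') := by
    calc n * (k * k') * 2 = (2 * n) * (k * k') := by ring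
      _ ≤ _ := Nat.mul_le_mul_right _ hcon
  rw [h1] at h7
  have h8 : Nat.card G * (2 * m) ≤ Nat.card G * (k * k') := by
    calc Nat.card G * (2 * m) = Nat.card G * m * 2 := by ring
      _ ≤ _ := h7
  have h9 := Nat.le_of_mul_le_mul_left h8 hG0
  omega

/-- **S1369, second part.** -/
theorem s1369_second (hB : ThmB G) (hG : IsMinSimpleOddOrder G) (hM : IsCoatom M) (hK : IsPiHallOf (kappa M) K M) (hK1 : K ≠ ⊥)
    (hMstar : IsCoatom Mstar) (hKst : K = sigmaCore Mstar ⊓ centralizer ((sigmaCore M ⊓ centralizer (K : Set G) : Subgroup G) : Set G))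
    (hKstH : IsPiHallOf (kappa Mstar) (sigmaCore M ⊓ centralizer (K : Set G)) Mstar)
    {H : Subgroup G} (hH : IsCoatom H) (hκ : (kappa H).Nonempty) :
    ∃ g : G, H = M.map (MulAut.conj g).toMonoidHom ∨ H = Mstar.map (MulAut.conj g).toMonoidHom := by
  classical
  haveI := Fintype.ofFinite G
  obtain ⟨KH, hKH⟩ := exists_isPiHallOf_solvable (kappa H) (coatom_isSolvable hG hH)
  have hKH1 : KH ≠ ⊥ := by
    rintro rfl
    obtain ⟨p, hp⟩ := hκ
    exact hKH.2.2 p hp.1 hp (by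
      simpa [Subgroup.relIndex_bot_left] using hp.2.1)
  have h1 := zhat_conj_large hB hG hM hK hK1
  have h2 := zhat_conj_large hB hG hH hKH hKH1
  set B₁ : Set G := {a : G | ∃ g : G, ∃ z ∈ Zhat M K, a = g * z * g⁻¹} with hB₁
  set B₂ : Set G := {a : G | ∃ g : G, ∃ z ∈ Zhat H KH, a = g * z * g⁻¹} with hB₂
  have hne : (B₁ ∩ B₂).Nonempty := by
    by_contra hemp
    rw [Set.not_nonempty_iff_eq_empty, ← Set.disjoint_iff_inter_eq_empty] at hemp
    have h3 := Set.ncard_union_eq hemp (Set.toFinite _) (Set.toFinite _)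
    have h4 : (B₁ ∪ B₂).ncard ≤ Nat.card G := by
      rw [← Set.ncard_univ]
      exact Set.ncard_le_ncard (Set.subset_univ _) (Set.toFinite _)
    omega
  obtain ⟨a, ⟨g₁, z₁, hz₁, e₁⟩, ⟨g₂, z₂, hz₂, e₂⟩⟩ := hne
  -- the element `z₂` has a prime power in `H_σ`
  have hh : InCluster (K ⊔ Kst M K) M := ⟨hM, K, hK, hK1, rfl⟩
  have hh₂ : InCluster (K ⊔ Kst M K) Mstar := mstar_inCluster hB hG hM hK hK1 hMstar hKst hKstH
  have hhH : InCluster (KH ⊔ Kst H KH) H := ⟨hH, KH, hKH, hKH1, rfl⟩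
  rw [← mixed_eq_zhat hB hG hH hKH hKH1] at hz₂
  rw [← mixed_eq_zhat hB hG hM hK hK1] at hz₁
  obtain ⟨X, H', p, _, hXK, hX, P⟩ := exists_prime_partner hB hG hH hKH hKH1
  obtain ⟨K₂, hK₂, hK₂1, -, hZ₂, -⟩ := partner_exists_KH hB hG hH hKH hXK hX P
  have hhH₂ : InCluster (KH ⊔ Kst H KH) H' := ⟨P.hH, K₂, hK₂, hK₂1, hZ₂⟩
  obtain ⟨L, L', a₂, b₂, hL, hL', hne', ha, hb, haL, hbL', hao, hbo, hNL, hNL'⟩ := mixed_two_primes hB hG hhH hz₂
  obtain ⟨c₂, hc₂z, hc₂o, hc₂N⟩ : ∃ c₂ ∈ zpowers z₂, (orderOf c₂).Prime ∧ normalizer (zpowers c₂ : Set G) ≤ H := by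
    rcases cluster_eq_or_eq hB hG hL hhH hhH₂ P.ne with e | e
    · exact ⟨a₂, ha, hao, e ▸ hNL⟩
    · rcases cluster_eq_or_eq hB hG hL' hhH hhH₂ P.ne with e' | e'
      · exact ⟨b₂, hb, hbo, e' ▸ hNL'⟩
      · exact absurd (e'.trans e.symm) hne'
  -- transport to `Z`
  set c := g₁⁻¹ * g₂ with hc
  have ez : z₁ = c * z₂ * c⁻¹ := by
    have e3 : g₁ * z₁ * g₁⁻¹ = g₂ * z₂ * g₂⁻¹ := e₁.symm.trans e₂
    have e4 : z₁ = g₁⁻¹ * (g₁ * z₁ * g₁⁻¹) * g₁ := by group
    rw [e4, e3, hc]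
    group
  set d := c * c₂ * c⁻¹ with hd
  have hdz : d ∈ zpowers z₁ := by
    obtain ⟨k, rfl⟩ := mem_zpowers_iff.mp hc₂z
    refine ⟨k, ?_⟩
    change z₁ ^ k = c * z₂ ^ k * c⁻¹
    rw [ez]
    exact conj_zpow
  have hdZ : d ∈ K ⊔ Kst M K := (zpowers_le.mpr hz₁.1) hdz
  have hdo : (orderOf d).Prime := by
    rw [hd, orderOf_conj_bg20]
    exact hc₂o
  obtain ⟨L₀, hL₀, -, -, -, huq⟩ := cluster_elem hB hG hh hdZ hdo
  have hHc : IsCoatom (H.map (MulAut.conj c).toMonoidHom) := coatom_conj hH c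
  have hNd : normalizer (zpowers d : Set G) ≤ H.map (MulAut.conj c).toMonoidHom := by
    have e5 : zpowers d = (zpowers c₂).map (MulAut.conj c).toMonoidHom := by
      rw [MonoidHom.map_zpowers]
      rfl
    rw [e5, normalizer_conj_map]
    exact conj_map_mono hc₂N c
  have e6 := huq _ hHc hNd
  have e7 : H = L₀.map (MulAut.conj c⁻¹).toMonoidHom := by
    rw [← e6, conj_map_conj_map, inv_mul_cancel, conj_map_one]
  rcases cluster_eq_or_eq hB hG hL₀ hh hh₂ (mstar_ne hK hK1 hKst) with e8 | e8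
  · exact ⟨c⁻¹, Or.inl (e8 ▸ e7)⟩
  · exact ⟨c⁻¹, Or.inr (e8 ▸ e7)⟩

end Pair

end Cfsg.Agent.Lib.FT
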