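import Cfsg.Agent.Lib.FT.BG21i
import Cfsg.Agent.Lib.FT.BG19g

/-!
BG21j: `K ≠ 1`, `U ≠ 1`: `F(M)` is a TI-subset containing `M_σ`.
-/

set_option autoImplicit false
set_option linter.unusedSectionVars false
set_option linter.style.haveILetI false

namespace Cfsg.Agent.Lib.FT

open Subgroup Cfsg Cfsg.Agent.Lib.OddLocal Cfsg.Agent.Lib.Basic Cfsg.Agent.Lib.Coprime

open scoped commutatorElement

variable {G : Type*} [Group G] [Finite G]

section

variable {M K U : Subgroup G}

/-- **Key**: with `K ≠ 1`, `U ≠ 1`, every element of prime order of `M_σ` has its centralizer in `M`. -/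
theorem cent_le_of_U_ne_prime (hB : ThmB G) (hG : IsMinSimpleOddOrder G) (hM : IsCoatom M) (hKU : IsSigmaDecomposition M K U) (hK1 : K ≠ ⊥)
    (hU1 : U ≠ ⊥) {y : G} (hy : y ∈ sigmaCore M) {r : ℕ} [Fact r.Prime] (hyo : orderOf y = r) : centralizer ({y} : Set G) ≤ M := by
  classical
  have huniq := huniq13 hG
  have hpl : ∀ (r : ℕ) [Fact r.Prime] (H : Subgroup G), H ≠ ⊤ → PLengthLE r 1 ↥H := fun r _ K hK => hpl13 hG r K hK
  have hrp : r.Prime := Fact.out
  have hK := hKU.hall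
  have hσM : sigmaCore M ≤ M := piCoreOf_le _ M
  have hσn : M ≤ normalizer (sigmaCore M : Set G) := le_normalizer_piCoreOf (sigma M) M
  have hUH := isPiHallOf_U hG hM hKU
  have hfree := s1353_core hB hG hM hKU
  have hKp := kappa_prime_of_U_ne hB hG hM hK hK1 hUH hKU.normal hfree hU1
  have hCU := sigma_inf_centralizer_U_eq_bot hG hM hUH hU1
  have hrσ : r ∈ sigma M := sigma_of_mem_sigmaCore hy hrp (by rw [hyo])
  -- the invariant Sylow subgroup
  have hA : K ⊔ U ≤ M := sup_le hK.1 hUH.1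
  have hAn : K ⊔ U ≤ normalizer (sigmaCore M : Set G) := hA.trans hσn
  have hAnotσ : ∀ s : ℕ, s.Prime → s ∣ Nat.card ↥(K ⊔ U) → s ∉ sigma M := by
    intro s hs hd
    rw [sup_comm] at hd
    rcases prime_dvd_sup hKU.normal hs hd with h | h
    · exact (hUH.2.1 s hs h).2.2
    · exact primes_kappa_not_sigma hK s hs h
  have hAc : (Nat.card ↥(K ⊔ U)).Coprime (Nat.card (sigmaCore M)) :=
    Nat.coprime_of_dvd fun s hs h1 h2 => hAnotσ s hs h1 (piCoreOf_isPi (sigma M) M s hs h2)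
  have hσs : Group.IsSolvable ↥(sigmaCore M) := by
    have hs := coatom_isSolvable hG hM
    exact solvable_of_solvable_injective (f := Subgroup.inclusion hσM) (Subgroup.inclusion_injective hσM)
  have hca : CoprimeAction (K ⊔ U) (sigmaCore M) := ⟨hAn, hAc, Or.inr hσs⟩
  obtain ⟨T, hT, hAT, -⟩ := exists_invariant_hall {r} _ hca hσs rfl (bot_le (a := sigmaCore M))
    (by
      intro s _
      rw [mem_normalizer_iff]
      intro x
      simp) (by
      intro q hq hd
      simp at hd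
      exact absurd hd hq.one_lt.ne')
  obtain ⟨hTM, hTp⟩ := isMaxP_of_isPiHallOf hT
  -- conjugate `y` into `T`
  obtain ⟨n, hn, hle⟩ := hTM.exists_conj_le (zpowers_le.mpr hy) (isPGroup_zpowers_of_pow (k := 1) (by
    rw [pow_one, ← hyo]
    exact pow_orderOf_eq_one y))
  have hnM : n ∈ M := hσM hn
  set y₁ := n * y * n⁻¹ with hy₁
  have hy₁T : y₁ ∈ T := hle (conj_mem_conj_map _ n y (mem_zpowers y))
  have hT1 : T ≠ ⊥ := by
    intro h
    rw [h, mem_bot] at hy₁T
    have h2 : orderOf y₁ = r := by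
      rw [hy₁, orderOf_conj_bg20, hyo]
    rw [hy₁T, orderOf_one] at h2
    exact hrp.one_lt.ne h2
  -- it suffices to treat `y₁`
  suffices hsuff : centralizer ({y₁} : Set G) ≤ M by
    intro c hc
    have h1 : n * c * n⁻¹ ∈ centralizer ({y₁} : Set G) := by
      rw [mem_centralizer_singleton_iff] at hc ⊢
      rw [hy₁]
      calc n * c * n⁻¹ * (n * y * n⁻¹) = n * (c * y) * n⁻¹ := by group
        _ = n * (y * c) * n⁻¹ := by rw [hc]
        _ = _ := by group
    have h2 := hsuff h1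
    have e : c = n⁻¹ * (n * c * n⁻¹) * n := by group
    rw [e]
    exact M.mul_mem (M.mul_mem (M.inv_mem hnM) h2) hnM
  -- the centre of `T`
  set Zt := T ⊓ centralizer (T : Set G) with hZt
  have hZtp : IsPGroup r Zt := hTp.to_le inf_le_left
  have hZt1 : Zt ≠ ⊥ := by
    haveI : Nontrivial ↥T := (Subgroup.nontrivial_iff_ne_bot T).mpr hT1
    have h1 := hTp.center_nontrivial
    obtain ⟨z, hz⟩ := exists_ne (1 : ↥(center ↥T))
    intro hbot
    apply hz
    apply Subtype.ext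
    apply Subtype.ext
    have h2 : (((z : ↥T)) : G) ∈ Zt := by
      refine Subgroup.mem_inf.mpr ⟨(z : ↥T).2, ?_⟩
      rw [mem_centralizer_iff]
      intro t ht
      have := (Subgroup.mem_center_iff.mp z.2) ⟨t, ht⟩
      exact congrArg Subtype.val this
    rw [hbot, mem_bot] at h2
    exact h2
  have hZtN : K ⊔ U ≤ normalizer (Zt : Set G) := by
    intro a ha
    exact mem_normalizer_inf_bg16 (hAT ha) (Cfsg.Agent.Lib.OddLocal.mem_normalizer_centralizer (hAT ha))
  -- `Z(T)` is not cyclic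
  have hU_comm : U ≤ ⁅U, K⁆ := by
    have hcaU : CoprimeAction K U := by
      refine ⟨hKU.normal, Nat.coprime_of_dvd fun s hs h1 h2 => (hUH.2.1 s hs h2).2.1 (hK.2.1 s hs h1), ?_⟩
      left
      haveI := kappa_cyclic hB hG hM hK
      infer_instance
    have h := hcaU.commutator_sup_centralizer
    have hinf : U ⊓ centralizer (K : Set G) = ⊥ := by
      obtain ⟨k, hk⟩ := (Subgroup.ne_bot_iff_exists_ne_one).mp hK1
      have hk1 : (k : G) ≠ 1 := fun h => hk (Subtype.ext h)
      rw [eq_bot_iff, ← hfree k k.2 hk1]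
      exact inf_le_inf_left _ (Subgroup.centralizer_le (by simpa using k.2))
    rw [hinf, sup_bot_eq] at h
    exact h.ge
  have hZtnc : ¬ IsCyclic Zt := by
    intro hc
    obtain ⟨y₀, hy₀, hy₀o⟩ := exists_orderOf_of_isPGroup hZtp hZt1
    have hY₀N : K ⊔ U ≤ normalizer (zpowers y₀ : Set G) := by
      intro b hb
      rw [← conj_map_eq_iff_mem_normalizer]
      refine Cfsg.Agent.Lib.OddLocal.eq_of_card_eq_of_le_isCyclic hc ?_ (zpowers_le.mpr hy₀) ?_
      · rintro _ ⟨v, hv, rfl⟩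
        exact (mem_normalizer_iff.mp (hZtN hb) v).mp ((zpowers_le.mpr hy₀) hv)
      · rw [Cfsg.Agent.Lib.Coprime.card_conj_map]
    have hY₀c : IsCyclic (zpowers y₀) := inferInstance
    have hUY : U ≤ centralizer (zpowers y₀ : Set G) := by
      refine hU_comm.trans ?_
      rw [Subgroup.commutator_le]
      intro u hu k hk
      rw [commutatorElement_def]
      exact commutator_mem_centralizer_of_cyclic hY₀c (hY₀N (Subgroup.mem_sup_right hu)) (hY₀N (Subgroup.mem_sup_left hk))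
    have hy₀1 : y₀ ≠ 1 := by
      rintro rfl
      rw [orderOf_one] at hy₀o
      exact hrp.one_lt.ne hy₀o
    have h1 : y₀ ∈ sigmaCore M ⊓ centralizer (U : Set G) := by
      refine Subgroup.mem_inf.mpr ⟨hT.1 hy₀.1, ?_⟩
      rw [mem_centralizer_iff]
      intro u hu
      exact (mem_centralizer_iff.mp (hUY hu) y₀ (mem_zpowers y₀)).symm
    rw [hCU, mem_bot] at h1
    exact hy₀1 h1
  obtain ⟨A, hAZ, hAe, hAcard⟩ := exists_e2_of_not_cyclic hG hZtp hZtnc
  -- a prime subgroup of `K*` of order `r`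
  have hTU : ¬ T ≤ centralizer (U : Set G) := by
    intro hle₂
    apply hT1
    rw [eq_bot_iff, ← hCU]
    exact le_inf hT.1 hle₂
  have hcopr : ∀ (Y : Subgroup G), (∀ s : ℕ, s.Prime → s ∣ Nat.card Y → s ∉ sigma M) → (Nat.card Y).Coprime r := by
    intro Y hY
    refine Nat.Coprime.symm ((Nat.Prime.coprime_iff_not_dvd hrp).mpr ?_)
    intro hd
    exact hY r hrp hd hrσ
  have hfix := frob_commutator_fixed hTp (le_sup_right.trans hAT) (le_sup_left.trans hAT) hKU.normal
    (hcopr U fun s hs hd => (hUH.2.1 s hs hd).2.2) hKp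
    (hcopr K fun s hs hd => primes_kappa_not_sigma hK s hs hd)
    (by
      intro c hc hc1 u hu hcu
      have h1 : u ∈ U ⊓ centralizer ({c} : Set G) := by
        refine Subgroup.mem_inf.mpr ⟨hu, ?_⟩
        rw [mem_centralizer_singleton_iff]
        exact hcu.symm
      rw [hfree c hc hc1, mem_bot] at h1
      exact h1) hTU
  have hTUle : ⁅T, U⁆ ≤ T := Cfsg.Agent.Lib.Basic.commutator_le_of_le_normalizer (le_sup_right.trans hAT)
  have hfix2 : (T ⊓ centralizer (K : Set G) : Subgroup G) ≠ ⊥ := by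
    intro h
    apply hfix
    rw [eq_bot_iff, ← h]
    exact inf_le_inf_right _ hTUle
  obtain ⟨Q, hQle, hQc⟩ : ∃ Q : Subgroup G, Q ≤ T ⊓ centralizer (K : Set G) ∧ Nat.card Q = r := by
    obtain ⟨z, hz, hzo⟩ := exists_orderOf_of_isPGroup (hTp.to_le inf_le_left) hfix2
    exact ⟨zpowers z, zpowers_le.mpr hz, by rw [Nat.card_zpowers, hzo]⟩
  obtain ⟨p, hp, X, hXK, hX⟩ := exists_prime_subgroup hK1
  haveI := Fact.mk hp
  have hC : Config M X p := config_of_kappa hG hM (prime_mem_kappa hK hp hXK hX) hX (hXK.trans hK.1)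
  obtain ⟨H, P⟩ := exists_partner hB hG hC
  have hQD : Q ≤ sigmaCore M ⊓ centralizer (X : Set G) := by
    rw [kappa_Kstar_eq hB hG hM hK hXK hX]
    exact le_inf (hQle.trans (inf_le_left.trans hT.1)) (hQle.trans inf_le_right)
  obtain ⟨hUniq, -⟩ := P.sylow_unique hB hG hQc hQD hTM
  -- the final contradiction
  by_contra hCne
  have hy₁σ : y₁ ∈ sigmaCore M := hT.1 hy₁T
  have hy₁1 : y₁ ≠ 1 := by
    intro h
    have h2 : orderOf y₁ = r := by
      rw [hy₁, orderOf_conj_bg20, hyo]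
    rw [h, orderOf_one] at h2
    exact hrp.one_lt.ne h2
  obtain ⟨N, hN, hCN, -, hNM, -, -, -, -, hτ, -⟩ := thmE_core hB hG hM hy₁σ hy₁1 hCne
  have hrN : r ∉ sigma N := (hτ r hrp (by rw [hy₁, orderOf_conj_bg20, hyo])).2.1
  have hAN : A ≤ N := by
    refine le_trans ?_ hCN
    intro a ha
    rw [mem_centralizer_singleton_iff]
    have h1 := (hAZ ha).2
    exact (mem_centralizer_iff.mp h1 y₁ hy₁T).symm
  have T₂ := Tau2Setup.mk' hG huniq hpl hN hAN hAe hAcard hrN
  have hTN : T ≤ N := by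
    refine le_trans ?_ T₂.hCM
    rw [le_centralizer_iff]
    exact hAZ.trans inf_le_right
  obtain ⟨L, -, hL⟩ := hUniq
  have e1 := hL N ⟨hN, hTN⟩
  have e2 := hL M ⟨hM, hT.1.trans hσM⟩
  exact hNM (e1.trans e2.symm)

/-- With `K ≠ 1`, `U ≠ 1`: `C_G(x) ≤ M` for `1 ≠ x ∈ M_σ`. -/
theorem cent_le_of_U_ne (hB : ThmB G) (hG : IsMinSimpleOddOrder G) (hM : IsCoatom M) (hKU : IsSigmaDecomposition M K U) (hK1 : K ≠ ⊥)
    (hU1 : U ≠ ⊥) {x : G} (hx : x ∈ sigmaCore M) (hx1 : x ≠ 1) : centralizer ({x} : Set G) ≤ M := by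
  have hord : orderOf x ≠ 1 := fun h => hx1 (orderOf_eq_one_iff.1 h)
  obtain ⟨r, hr, hrd⟩ := Nat.exists_prime_and_dvd hord
  haveI := Fact.mk hr
  obtain ⟨y, hyx, hyo⟩ := exists_mem_zpowers_orderOf hrd
  refine le_trans ?_ (cent_le_of_U_ne_prime hB hG hM hKU hK1 hU1 ((zpowers_le.mpr hx) hyx) hyo)
  exact centralizer_singleton_le_of_mem_zpowers hyx

/-- **S1372 core.** -/
theorem s1372_core (hB : ThmB G) (hG : IsMinSimpleOddOrder G) (hM : IsCoatom M) (hKU : IsSigmaDecomposition M K U) (hK1 : K ≠ ⊥)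
    (hU1 : U ≠ ⊥) : (Nat.card K).Prime ∧ IsTISubset (fittingOf M : Set G) ∧ sigmaCore M ≤ fittingOf M := by
  classical
  have hK := hKU.hall
  have hσM : sigmaCore M ≤ M := piCoreOf_le _ M
  have hσn : M ≤ normalizer (sigmaCore M : Set G) := le_normalizer_piCoreOf (sigma M) M
  have hUH := isPiHallOf_U hG hM hKU
  have hFM : fittingOf M ≤ M := fittingOf_le M
  have hMF : M ≤ normalizer (fittingOf M : Set G) := fittingOf_normalized M
  have hFnil : Group.IsNilpotent (fittingOf M) := fittingOf_isNilpotent M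
  have hσF : sigmaCore M ≤ fittingOf M := le_fittingOf hσM hσn (sigma_nilpotent_of_U_ne hG hM hUH hU1)
  refine ⟨kappa_prime_of_U_ne hB hG hM hK hK1 hUH hKU.normal (s1353_core hB hG hM hKU) hU1, ?_, hσF⟩
  have hKs1 := Kstar_ne_bot hG hB hM hK hK1
  have hσ1 : sigmaCore M ≠ ⊥ := by
    intro h
    apply hKs1
    rw [eq_bot_iff, ← h]
    exact inf_le_left
  obtain ⟨y₀, hy₀⟩ := (Subgroup.ne_bot_iff_exists_ne_one).mp hσ1
  have hy₀1 : (y₀ : G) ≠ 1 := fun h => hy₀ (Subtype.ext h)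
  have hcomm : ∀ {w y : G}, w ∈ fittingOf M → (∀ r : ℕ, r.Prime → r ∣ orderOf w → r ∉ sigma M) → y ∈ sigmaCore M → w * y = y * w := by
    intro w y hw hw2 hy
    refine comm_of_coprime_of_nilpotent_subgroup hFnil hw (hσF hy) ?_
    exact Nat.coprime_of_dvd fun s hs h1 h2 => hw2 s hs h1 (sigma_of_mem_sigmaCore hy hs h2)
  have hnotκ : ∀ {w : G}, w ∈ fittingOf M → (∀ r : ℕ, r.Prime → r ∣ orderOf w → r ∉ sigma M) → ∀ r : ℕ, r.Prime → r ∣ orderOf w → r ∉ kappa M := by
    intro w hw hw2 r hr hrd hrκ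
    obtain ⟨z, hz, hzo⟩ := exists_mem_zpowers_orderOf hrd
    have hzF : z ∈ fittingOf M := (zpowers_le.mpr hw) hz
    have hz2 : ∀ r' : ℕ, r'.Prime → r' ∣ orderOf z → r' ∉ sigma M := fun r' hr' hd =>
      hw2 r' hr' (hd.trans (orderOf_dvd_of_mem_zpowers hz))
    obtain ⟨n, hn, hle⟩ := IsPiHallOf.exists_conj_ge (coatom_isSolvable hG hM) hK (zpowers_le.mpr (hFM hzF))
      (by
        intro t ht hd
        rw [Nat.card_zpowers, hzo] at hd
        rw [(Nat.prime_dvd_prime_iff_eq ht hr).mp hd]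
        exact hrκ)
    obtain ⟨k, hk, ek⟩ := hle (mem_zpowers z)
    have ek' : n * k * n⁻¹ = z := by simpa [MulAut.conj_apply] using ek
    have hk1 : k ≠ 1 := by
      rintro rfl
      have : z = 1 := by
        rw [← ek']
        group
      rw [this, orderOf_one] at hzo
      exact hr.one_lt.ne hzo
    apply cluster_sigma_not_le hB hG (⟨hM, K, hK, hK1, rfl⟩ : InCluster (K ⊔ Kst M K) M)
    have h1 : sigmaCore M ≤ Kst M K := by
      intro y hy
      have h2 : y ∈ sigmaCore M ⊓ centralizer ({k} : Set G) := by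
        refine Subgroup.mem_inf.mpr ⟨hy, ?_⟩
        rw [mem_centralizer_singleton_iff]
        have h3 : n * y * n⁻¹ ∈ sigmaCore M := (mem_normalizer_iff.mp (hσn hn) y).mp hy
        have h4 := hcomm hzF hz2 h3
        rw [← ek'] at h4
        have h5 : n * (k * y) * n⁻¹ = n * (y * k) * n⁻¹ := by
          calc n * (k * y) * n⁻¹ = n * k * n⁻¹ * (n * y * n⁻¹) := by group
            _ = n * y * n⁻¹ * (n * k * n⁻¹) := h4
            _ = _ := by group
        exact (mul_left_cancel (mul_right_cancel h5)).symm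
      rw [kappa_prime_action hB hG hM hK hk hk1] at h2
      exact h2
    exact h1.trans le_sup_right
  have hmemA : ∀ {w : G}, w ∈ fittingOf M → w ≠ 1 → (∀ r : ℕ, r.Prime → r ∣ orderOf w → r ∉ sigma M) →
      w ∈ sigmaA M U \ (sigmaCore M : Set G) := by
    intro w hw hw1 hw2
    refine ⟨⟨⟨hFM hw, y₀, y₀.2, hy₀1, hcomm hw hw2 y₀.2⟩, ?_⟩, ?_⟩
    · refine mem_of_normal_hall (isPiHallOf_U_sup hG hM hKU) (sup_norm_of_decomp hKU) (hFM hw) ?_
      intro r hr hd
      exact ⟨hr, hnotκ hw hw2 r hr hd⟩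
    · intro h
      have hord : orderOf w ≠ 1 := fun h2 => hw1 (orderOf_eq_one_iff.1 h2)
      obtain ⟨r, hr, hrd⟩ := Nat.exists_prime_and_dvd hord
      exact hw2 r hr hrd (sigma_of_mem_sigmaCore h hr hrd)
  intro g hg x hx hgx
  by_contra hx1
  have hgM : g ∉ M := fun h => hg (hMF h)
  obtain ⟨a, ha, b, hb, e, h1π, h2π⟩ := exists_pi_decomp (sigma M) _ x rfl
  by_cases ha1 : a = 1
  · rw [ha1, one_mul] at e
    have hxσ : ∀ r : ℕ, r.Prime → r ∣ orderOf x → r ∉ sigma M := by
      intro r hr hd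
      rw [e] at hd
      exact h2π r hr hd
    have hgx1 : g * x * g⁻¹ ≠ 1 := by
      intro h
      apply hx1
      have e2 : x = g⁻¹ * (g * x * g⁻¹) * g := by group
      rw [e2, h]
      group
    have hgxσ : ∀ r : ℕ, r.Prime → r ∣ orderOf (g * x * g⁻¹) → r ∉ sigma M := by
      intro r hr hd
      rw [orderOf_conj_bg20] at hd
      exact hxσ r hr hd
    have hA1 := hmemA hx hx1 hxσ
    have hA2 := hmemA hgx hgx1 hgxσ
    have hgN : g ∈ normalizer (sigmaA M U \ (sigmaCore M : Set G)) := by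
      by_contra hnot
      exact hx1 (s1362_core hG hM hKU g hnot x hA1 hA2)
    set W := Subgroup.closure (sigmaA M U \ (sigmaCore M : Set G)) with hW
    have hWM : W ≤ M := by
      rw [hW, Subgroup.closure_le]
      intro w hw
      exact hw.1.1.1
    have hW1 : W ≠ ⊥ := by
      intro h
      have h1 : x ∈ W := Subgroup.subset_closure hA1
      rw [h, mem_bot] at h1
      exact hx1 h1
    have hWt : W ≠ ⊤ := fun h => hM.1 (top_le_iff.1 (h ▸ hWM))
    have hNW := IsMinSimpleOddOrder.normalizer_ne_top hG hW1 hWt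
    have hMW : M ≤ normalizer (W : Set G) := (le_normalizer_sigmaA_diff hKU).trans (Subgroup.normalizer_le_normalizer_closure _)
    have hgW : g ∈ normalizer (W : Set G) := Subgroup.normalizer_le_normalizer_closure _ hgN
    rcases hMW.eq_or_lt with h | h
    · exact hgM (h ▸ hgW)
    · exact hNW (hM.2 _ h)
  · have haF : a ∈ fittingOf M := (zpowers_le.mpr hx) ha
    have haσ : a ∈ sigmaCore M := by
      have h1 : zpowers a ≤ sigmaCore M := le_sigmaCore_of_pi hG hM (zpowers_le.mpr (hFM haF)) (by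
        intro p hp hd
        rw [Nat.card_zpowers] at hd
        exact h1π p hp hd)
      exact h1 (mem_zpowers a)
    have hga : g * a * g⁻¹ ∈ fittingOf M := by
      obtain ⟨i, hi⟩ := mem_zpowers_iff.mp ha
      rw [← hi, ← conj_zpow]
      exact zpow_mem hgx i
    obtain ⟨c, hc, m, hm, e₂⟩ := fusion_core hB hG hM (g := g⁻¹) haσ ha1 (by
      rw [inv_inv]
      exact hFM hga)
    apply hgM
    have h1 : g⁻¹ ∈ M := by
      rw [e₂]
      exact M.mul_mem (cent_le_of_U_ne hB hG hM hKU hK1 hU1 haσ ha1 hc) hm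
    simpa using M.inv_mem h1

end

end Cfsg.Agent.Lib.FT
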