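import Cfsg.Agent.Lib.FT.BG19h
import Cfsg.Agent.Lib.FT.BG21j
import Cfsg.Agent.Lib.FT.BG21h

/-!
BG19i: S1435, the maximal subgroup `H` containing the normalizer of a Sylow subgroup of `U`.
-/

set_option autoImplicit false
set_option linter.unusedSectionVars false
set_option linter.style.haveILetI false

namespace Cfsg.Agent.Lib.FT

open Subgroup Cfsg Cfsg.Agent.Lib.OddLocal Cfsg.Agent.Lib.Basic

open Cfsg.Agent.Lib.Coprime (mem_conj_map conj_mem_conj_map conj_map_conj_map conj_map_one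
  conj_map_mono mem_normalizer_of_conj_le conj_map_eq_iff_mem_normalizer isPGroup_conj_map)

variable {G : Type*} [Group G] [Finite G] {M K U Mst X : Subgroup G} {p : ℕ} [Fact p.Prime]

theorem isMaxP_of_card_eq {r : ℕ} [Fact r.Prime] {D R N : Subgroup G} (hD : IsMaxP r D N) (hRN : R ≤ N)
    (hRp : IsPGroup r R) (hc : Nat.card D ≤ Nat.card R) : IsMaxP r R N := by
  obtain ⟨D', hD', hRD'⟩ := exists_isMaxP_ge hRN hRp
  obtain ⟨n, hn, e⟩ := hD.exists_conj_eq hD'
  have h1 : Nat.card D' = Nat.card D := by rw [← e, Cfsg.Agent.Lib.Coprime.card_conj_map]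
  have h2 : R = D' := Subgroup.eq_of_le_of_card_ge hRD' (by rw [h1]; exact hc)
  rw [h2]
  exact hD'

/-- The basic facts on a maximal subgroup containing the normalizer of `O_r(U)`. -/
theorem H_facts (hB : ThmB G) (hG : IsMinSimpleOddOrder G) (hM : IsCoatom M) (hKU : IsSigmaDecomposition M K U)
    (hK1 : K ≠ ⊥) (PX : Partner M Mst X p) (hXK : X ≤ K) {r : ℕ} [Fact r.Prime] (hrd : r ∣ Nat.card U)
    {H : Subgroup G} (hH : IsCoatom H) (hNRH : normalizer (Oq r U : Set G) ≤ H) :
    normalizer (U : Set G) ≤ H ∧ U ≤ H ∧ K ≤ H ∧ (∀ g : G, H ≠ M.map (MulAut.conj g).toMonoidHom) ∧ p ∉ sigma H ∧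
      sigmaCore H ⊓ centralizer (X : Set G) = ⊥ ∧ Group.IsNilpotent (sigmaCore H) ∧ U ≤ sigmaCore H ∧
      sigmaCore H ⊓ M = U := by
  classical
  have hpp : p.Prime := Fact.out
  have huniq := huniq13 hG
  have hr : r.Prime := Fact.out
  have hUc := U_isMulCommutative hB hG hM hKU hK1
  have hUn : Group.IsNilpotent U := by
    letI : CommGroup U := { (inferInstance : Group U) with mul_comm := hUc.is_comm.comm }
    exact CommGroup.isNilpotent
  have hUHall := isPiHallOf_U hG hM hKU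
  have hUM : U ≤ M := hUHall.1
  have hU1 : U ≠ ⊥ := by
    rintro rfl
    have h1 : Nat.card (⊥ : Subgroup G) = 1 := Subgroup.card_bot
    rw [h1] at hrd
    exact hr.one_lt.ne' (Nat.dvd_one.mp hrd)
  have hrσ := not_sigma_of_dvd_U hG huniq hM hKU hr hrd
  have hrκ := not_kappa_of_dvd_U hG huniq hM hKU hr hrd
  set R := Oq r U with hR
  have hRU : R ≤ U := Oq_le r U
  have hRmax : IsMaxP r R M := isMaxP_Oq_of_hall hUHall hUn ⟨hr, hrκ, hrσ⟩
  have hNR : normalizer (U : Set G) ≤ normalizer (R : Set G) := fun a ha => mem_normalizer_Oq hUn ha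
  have hUH : U ≤ H := (le_normalizer.trans hNR).trans hNRH
  have hKH : K ≤ H := hKU.normal.trans (hNR.trans hNRH)
  have hXH : X ≤ H := hXK.trans hKH
  have hnotconj : ∀ g : G, H ≠ M.map (MulAut.conj g).toMonoidHom := by
    intro g e
    have h1 : IsMaxP r (R.map (MulAut.conj g).toMonoidHom) H := e ▸ hRmax.conj g
    have h2 : IsMaxP r R H := isMaxP_of_card_eq h1 (hRU.trans hUH) hRmax.isP (by
      rw [Cfsg.Agent.Lib.Coprime.card_conj_map])
    have h3 : r ∣ Nat.card H := by
      rw [e, Cfsg.Agent.Lib.Coprime.card_conj_map]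
      exact hrd.trans (Subgroup.card_dvd_of_le hUM)
    have h4 := mem_sigma_of_normalizer_le h2 h3 hNRH
    apply hrσ
    rw [e] at h4
    have h5 := sigma_conj_of_mem h4 g⁻¹
    rwa [conj_map_conj_map, inv_mul_cancel, conj_map_one] at h5
  have hpH : p ∉ sigma H := by
    intro h
    have e := eq_partner_of_sigma hB hG PX hH hXH h
    exact Oq_not_le_partner hB hG hM hKU hK1 PX hXK hrd (e ▸ (hRU.trans hUH))
  have hD : sigmaCore H ⊓ centralizer (X : Set G) = ⊥ := by
    by_contra hne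
    rcases partner_dichotomy hB hG hM hKU.hall hXK PX hH hXH hne with e | ⟨g, e⟩
    · exact hpH (e ▸ PX.hpH)
    · exact hnotconj g e
  obtain ⟨x, hx, hx1⟩ := exists_ne_one_of_card_prime hpp PX.hC.hX
  have hxo : orderOf x = p := orderOf_eq_of_card_prime hpp PX.hC.hX hx hx1
  have hXz : X = zpowers x := eq_zpowers_of_card_prime PX.hC.hX hx hx1
  have hσn : H ≤ normalizer (sigmaCore H : Set G) := le_normalizer_piCoreOf (sigma H) H
  have hHnil : Group.IsNilpotent (sigmaCore H) := by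
    refine nilpotent_of_fpf_subgroup (x := x) hpp (by rw [← hxo]; exact pow_orderOf_eq_one x) (hσn (hXH hx)) ?_
    rw [← centralizer_zpowers_eq, ← hXz]
    exact hD
  -- `U ≤ H_σ`
  have hprimes : ∀ t : ℕ, t.Prime → t ∣ Nat.card U → t ∈ sigma H := by
    intro t ht hd
    haveI : Fact t.Prime := ⟨ht⟩
    exact prime_mem_sigma_of_fpf hB hG hM hKU hK1 PX hXK hH hUH hXH hpH hD hd
  obtain ⟨hH1, hH2, hH3⟩ := (s1350_core hG huniq hH).1
  have hUσ : U ≤ sigmaCore H := by
    intro u hu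
    refine mem_of_coprime_relIndex hσn (hUH hu) ?_
    refine Nat.coprime_of_dvd fun s hs h1 h2 => ?_
    exact hH3 s hs (hprimes s hs (h2.trans (Subgroup.orderOf_dvd_natCard U hu))) h1
  -- `H_σ ∩ M = U`
  have hdisj : ∀ s : ℕ, s ∈ sigma H → s ∉ sigma M := by
    intro s hsH hsM
    haveI : Fact s.Prime := ⟨hsH.1⟩
    obtain ⟨c, e⟩ := conj_of_sigma_sigma hB hM hH hsM hsH
    have e2 : H = M.map (MulAut.conj c⁻¹).toMonoidHom := by
      rw [← e, conj_map_conj_map, inv_mul_cancel, conj_map_one]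
    exact hnotconj _ e2
  set W := sigmaCore H ⊓ M with hW
  have hWnil : Group.IsNilpotent W := isNilpotent_of_le_aux inf_le_left hHnil
  have hUW : U ≤ W := le_inf hUσ hUM
  have hWU : W ≤ U := by
    refine le_of_forall_Oq _ _ rfl hWnil ?_
    intro t _
    have htt : t.Prime := Fact.out
    set T := Oq t W with hT
    have hTW : T ≤ W := Oq_le t W
    have hTp : IsPGroup t T := Oq_isPGroup t W
    by_cases hT1 : T = ⊥
    · rw [hT1]
      exact bot_le
    have htd : t ∣ Nat.card T := by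
      obtain ⟨k, hk⟩ := IsPGroup.iff_card.mp hTp
      have hne : Nat.card T ≠ 1 := fun h => hT1 ((Subgroup.eq_bot_iff_card _).mpr h)
      rw [hk] at hne ⊢
      have hk0 : k ≠ 0 := by
        rintro rfl
        simp at hne
      exact dvd_pow_self t hk0
    have htH : t ∈ sigma H := piCoreOf_isPi (sigma H) H t htt (htd.trans (Subgroup.card_dvd_of_le (hTW.trans inf_le_left)))
    have htM : t ∉ sigma M := hdisj t htH
    have hTM : T ≤ M := hTW.trans inf_le_right
    by_cases hκ : t ∈ kappa M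
    · exfalso
      obtain ⟨w, hw⟩ := (Subgroup.ne_bot_iff_exists_ne_one).mp hT1
      have hw1 : (w : G) ≠ 1 := fun e => hw (Subtype.ext e)
      obtain ⟨j, hj⟩ := Cfsg.Agent.Lib.PGroups.exists_orderOf_of_mem_isPGroup hTp w.2
      obtain ⟨m, hm, hle⟩ := IsPiHallOf.exists_conj_ge (coatom_isSolvable hG hM) hKU.hall (zpowers_le.mpr (hTM w.2)) (by
        intro s hs hd
        rw [Nat.card_zpowers, hj] at hd
        rw [(Nat.prime_dvd_prime_iff_eq hs htt).mp (hs.dvd_of_dvd_pow hd)]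
        exact hκ)
      obtain ⟨k, hk, e⟩ := hle (mem_zpowers (w : G))
      have e' : m * k * m⁻¹ = (w : G) := e
      have hk1 : k ≠ 1 := by
        rintro rfl
        apply hw1
        rw [← e']
        group
      -- `U` commutes with `w`
      have hUcomm : ∀ u ∈ U, (w : G) * u = u * w := by
        intro u hu
        refine comm_of_coprime_of_nilpotent_subgroup hWnil (hTW w.2) (hUW hu) ?_
        rw [hj]
        refine Nat.Coprime.pow_left j ?_
        refine (Nat.Prime.coprime_iff_not_dvd htt).mpr fun hd => ?_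
        exact not_kappa_of_dvd_U hG huniq hM hKU htt (hd.trans (Subgroup.orderOf_dvd_natCard U hu)) hκ
      obtain ⟨u, hu⟩ := (Subgroup.ne_bot_iff_exists_ne_one).mp hU1
      have hu1 : (u : G) ≠ 1 := fun e => hu (Subtype.ext e)
      -- `m⁻¹ u m` in `M' = U M_σ`
      have hM'n : M ≤ normalizer ((U ⊔ sigmaCore M : Subgroup G) : Set G) := sup_norm_of_decomp hKU
      have h1 : m⁻¹ * u * m ∈ U ⊔ sigmaCore M := by
        have h2 := (mem_normalizer_iff.mp (hM'n (inv_mem hm)) (u : G)).mp (Subgroup.mem_sup_left u.2)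
        simpa using h2
      have hσnM : M ≤ normalizer (sigmaCore M : Set G) := le_normalizer_piCoreOf (sigma M) M
      have hUn' : U ≤ normalizer (sigmaCore M : Set G) := hUM.trans hσnM
      obtain ⟨b, hb, v, hv, e4⟩ := (Cfsg.Agent.Lib.Coprime.mem_sup_iff_of_le_normalizer hUn' _).mp (by
        rw [sup_comm]
        exact h1)
      have hcomm2 : k * (m⁻¹ * u * m) = (m⁻¹ * u * m) * k := by
        have h3 := hUcomm u u.2
        rw [← e'] at h3
        calc k * (m⁻¹ * u * m) = m⁻¹ * ((m * k * m⁻¹) * u) * m := by group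
          _ = m⁻¹ * (u * (m * k * m⁻¹)) * m := by rw [h3]
          _ = (m⁻¹ * u * m) * k := by group
      have hUσ0 : ∀ z, z ∈ U → z ∈ sigmaCore M → z = 1 := by
        intro z hz1 hz2
        have h5 : z ∈ U ⊓ (K ⊔ sigmaCore M) := Subgroup.mem_inf.mpr ⟨hz1, Subgroup.mem_sup_right hz2⟩
        rw [hKU.compl.2.2.1] at h5
        exact h5
      rw [e4] at hcomm2
      have hkM : k ∈ M := hKU.hall.1 hk
      have hb2 : b⁻¹ * (k * b * k⁻¹) ∈ sigmaCore M :=
        mul_mem (inv_mem hb) ((mem_normalizer_iff.mp (hσnM hkM) b).mp hb)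
      have hv2 : v * (k * v * k⁻¹)⁻¹ ∈ U :=
        mul_mem hv (inv_mem ((mem_normalizer_iff.mp (hKU.normal hk) v).mp hv))
      have e5 : b⁻¹ * (k * b * k⁻¹) = v * (k * v * k⁻¹)⁻¹ := by
        have h6 : (k * b * k⁻¹) * (k * v * k⁻¹) = b * v := by
          calc (k * b * k⁻¹) * (k * v * k⁻¹) = (k * (b * v)) * k⁻¹ := by group
            _ = ((b * v) * k) * k⁻¹ := by rw [hcomm2]
            _ = b * v := by group
        calc b⁻¹ * (k * b * k⁻¹) = b⁻¹ * ((k * b * k⁻¹) * (k * v * k⁻¹)) * (k * v * k⁻¹)⁻¹ := by group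
          _ = b⁻¹ * (b * v) * (k * v * k⁻¹)⁻¹ := by rw [h6]
          _ = v * (k * v * k⁻¹)⁻¹ := by group
      have h7 : v * (k * v * k⁻¹)⁻¹ = 1 := hUσ0 _ hv2 (e5 ▸ hb2)
      have h8 : v = k * v * k⁻¹ := mul_inv_eq_one.mp h7
      have h9 : k * v = v * k := by
        calc k * v = (k * v * k⁻¹) * k := by group
          _ = v * k := by rw [← h8]
      have hv1 : v = 1 := U_free hB hG hM hKU hk hk1 hv h9
      rw [hv1, mul_one] at e4
      have h10 : (u : G) = m * b * m⁻¹ := by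
        rw [← e4]
        group
      have h11 : (u : G) ∈ sigmaCore M := by
        rw [h10]
        exact (mem_normalizer_iff.mp (hσnM hm) b).mp hb
      exact hu1 (hUσ0 _ u.2 h11)
    · have hUnT : U ≤ normalizer (T : Set G) := fun a ha => mem_normalizer_Oq hWnil (le_normalizer (hUW ha))
      have hi : U.relIndex (T ⊔ U) = 1 := by
        by_contra hne
        obtain ⟨s, hs, hsd⟩ := Nat.exists_prime_and_dvd hne
        have h1 : s ∣ Nat.card ↥(T ⊔ U) := hsd.trans (Subgroup.relIndex_dvd_card _ _)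
        have h2 : s ∣ U.relIndex M := by
          rw [← Subgroup.relIndex_mul_relIndex U (T ⊔ U) M le_sup_right (sup_le hTM hUM)]
          exact hsd.trans (dvd_mul_right _ _)
        have hsπ : s ∈ {q : ℕ | q.Prime ∧ q ∉ kappa M ∧ q ∉ sigma M} := by
          rcases prime_dvd_sup hUnT hs h1 with h3 | h3
          · obtain ⟨k, hk⟩ := IsPGroup.iff_card.mp hTp
            rw [hk] at h3
            rw [(Nat.prime_dvd_prime_iff_eq hs htt).mp (hs.dvd_of_dvd_pow h3)]
            exact ⟨htt, hκ, htM⟩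
          · exact hUHall.2.1 s hs h3
        exact hUHall.2.2 s hs hsπ h2
      exact le_sup_left.trans (Subgroup.relIndex_eq_one.mp hi)
  have heqW : sigmaCore H ⊓ M = U := le_antisymm hWU hUW
  exact ⟨hNR.trans hNRH, hUH, hKH, hnotconj, hpH, hD, hHnil, hUσ, heqW⟩


theorem sigmaCore_le_centralizer_of_free {H A : Subgroup G} (hG : IsMinSimpleOddOrder G) (hH : IsCoatom H)
    (hXc : Nat.card X = p) (hX1 : X ≠ ⊥) (hXH : X ≤ H) (hpH : p ∉ sigma H)
    (hD : sigmaCore H ⊓ centralizer (X : Set G) = ⊥) {t : ℕ} [Fact t.Prime] (htσ : t ∉ sigma H) (hAH : A ≤ H)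
    (hAp : ∀ s : ℕ, s.Prime → s ∣ Nat.card A → s = t) (hAn : X ≤ normalizer (A : Set G))
    (hAf : ∀ e ∈ X, e ≠ 1 → ∀ u ∈ A, e * u = u * e → u = 1) : sigmaCore H ≤ centralizer (A : Set G) := by
  classical
  have hpp : p.Prime := Fact.out
  have hσn : H ≤ normalizer (sigmaCore H : Set G) := le_normalizer_piCoreOf (sigma H) H
  have hsolv : Group.IsSolvable ↥(sigmaCore H) := by
    haveI := coatom_isSolvable hG hH
    exact solvable_of_solvable_injective (f := Subgroup.inclusion (piCoreOf_le _ H)) (Subgroup.inclusion_injective _)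
  have hcop : (Nat.card ↥(sigmaCore H)).Coprime (Nat.card ↥(A ⊔ X)) := by
    refine Nat.coprime_of_dvd fun s hs h1 h2 => ?_
    have hsσ := piCoreOf_isPi (sigma H) H s hs h1
    rcases prime_dvd_sup hAn hs h2 with h | h
    · rw [hAp s hs h] at hsσ
      exact htσ hsσ
    · rw [hXc] at h
      rw [(Nat.prime_dvd_prime_iff_eq hs hpp).mp h] at hsσ
      exact hpH hsσ
  have hf := frobenius_fix_formula A X (sigmaCore H) hX1 (fun e he u hu => (mem_normalizer_iff.mp (hAn he) u).mp hu) hAf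
    (fun y hy h hh => (mem_normalizer_iff.mp (hσn ((sup_le hAH hXH) hy)) h).mp hh) hsolv hcop
  have e1 : sigmaCore H ⊓ centralizer ((A ⊔ X : Subgroup G) : Set G) = ⊥ := by
    rw [eq_bot_iff, ← hD]
    exact inf_le_inf_left _ (centralizer_le (le_sup_right : X ≤ A ⊔ X))
  rw [e1, hD] at hf
  simp only [Subgroup.card_bot, one_pow, one_mul] at hf
  have e2 : sigmaCore H ⊓ centralizer (A : Set G) = sigmaCore H :=
    Subgroup.eq_of_le_of_card_ge inf_le_left (by rw [← hf])
  exact inf_eq_left.mp e2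

/-- The case `τ₂(H) ≠ ∅`. -/
theorem compl_le_partner_of_tau2 (hB : ThmB G) (hG : IsMinSimpleOddOrder G) (hM : IsCoatom M) (hKU : IsSigmaDecomposition M K U)
    (hK1 : K ≠ ⊥) (hU1 : U ≠ ⊥) (PX : Partner M Mst X p) (hXK : X ≤ K) {H E : Subgroup G} (hH : IsCoatom H)
    (hpH : p ∉ sigma H) (hD : sigmaCore H ⊓ centralizer (X : Set G) = ⊥)
    (hnotconj : ∀ g : G, H ≠ M.map (MulAut.conj g).toMonoidHom) (hE : IsComplIn E (sigmaCore H) H) (hXE : X ≤ E)
    {t : ℕ} [Fact t.Prime] (hτ : t ∈ tau2 H) : E ≤ Mst := by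
  classical
  have hpp : p.Prime := Fact.out
  have htt : t.Prime := Fact.out
  have huniq := huniq13 hG
  have hpl := hpl13 hG
  have h1412 := h1412_of hG
  obtain ⟨x, hx, hx1⟩ := exists_ne_one_of_card_prime hpp PX.hC.hX
  have hXz : X = zpowers x := eq_zpowers_of_card_prime PX.hC.hX hx hx1
  have hX1 : X ≠ ⊥ := ne_bot_of_card_prime hpp PX.hC.hX
  have hXH : X ≤ H := hXE.trans hE.1
  have hσ1 := sigmaCore_ne_bot hG huniq hH
  have htσ : t ∉ sigma H := hτ.2.1
  have hr : ¬ PRankLE t 1 ↥H := hτ.2.2.2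
  have hr2 : PRankLE t 2 ↥H := hτ.2.2.1
  obtain ⟨A₀, hA₀e, hA₀H, hA₀c⟩ := exists_of_not_prank hr
  have hA₀sq : Nat.card A₀ = t ^ 2 := card_eq_sq_of_bounds hA₀e hA₀c (card_le_of_prank hr2 hA₀e hA₀H)
  have hEH := isPiHallOf_compl hG hH hE
  have hA₀p : IsPGroup t A₀ := isPGroup_of_elem hA₀e
  obtain ⟨c, hc, hcle⟩ := IsPiHallOf.exists_conj_ge (coatom_isSolvable hG hH) hEH hA₀H (by
    intro s hs hd
    obtain ⟨k, hk⟩ := IsPGroup.iff_card.mp hA₀p
    rw [hk] at hd
    rw [Set.mem_setOf_eq, (Nat.prime_dvd_prime_iff_eq hs htt).mp (hs.dvd_of_dvd_pow hd)]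
    exact htσ)
  set A := A₀.map (MulAut.conj c⁻¹).toMonoidHom with hA
  have hAE : A ≤ E := by
    have h1 := conj_map_mono hcle c⁻¹
    rwa [conj_map_conj_map, inv_mul_cancel, conj_map_one] at h1
  have hAe : IsElementaryAbelian t A := elem_conj_map hA₀e _
  have hAc : Nat.card A = t ^ 2 := by
    rw [hA, Cfsg.Agent.Lib.Coprime.card_conj_map, hA₀sq]
  have T2 : Tau2Setup t A H := Tau2Setup.mk' hG huniq hpl hH (hAE.trans hE.1) hAe hAc htσ
  have hEn : E ≤ normalizer (A : Set G) := T2.compl_le_normalizer hE hAE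
  have hnotN : ¬ normalizer (A : Set G) ≤ H := T2.not_norm_A_le
  obtain ⟨hs17, hs17b, -, hs17d, -, -⟩ := s1417_core hG huniq hpl h1412 H hH t hτ A ⟨hAE.trans hE.1, hAe, hAc⟩
  have hA1 : A ≠ ⊥ := by
    rintro e
    rw [e, Subgroup.card_bot] at hAc
    have := htt.one_lt
    nlinarith
  have hAt : A ≠ ⊤ := fun e => hH.1 (top_le_iff.1 (e ▸ (hAE.trans hE.1)))
  obtain ⟨L, hL, hNL⟩ := (eq_top_or_exists_le_coatom (normalizer (A : Set G))).resolve_left
    (IsMinSimpleOddOrder.normalizer_ne_top hG hA1 hAt)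
  have hAL : A ≤ L := le_normalizer.trans hNL
  have htL : t ∈ sigma L := by
    by_contra htL
    have T3 : Tau2Setup t A L := Tau2Setup.mk' hG huniq hpl hL hAL hAe hAc htL
    exact T3.not_norm_A_le hNL
  have hAσ : A ≤ sigmaCore L := le_sigmaCore_of_isPGroup hG huniq hL htL (isPGroup_of_elem hAe) hAL
  have hXL : X ≤ L := (hXE.trans hEn).trans hNL
  have hLM : L = Mst := by
    by_cases htp : t = p
    · have hpL : p ∈ sigma L := htp ▸ htL
      exact eq_partner_of_sigma hB hG PX hL hXL hpL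
    · -- a fixed point of `X` on `A`
      obtain ⟨a, haA, ha1, hax⟩ : ∃ a ∈ A, a ≠ 1 ∧ x * a = a * x := by
        by_contra hcon
        push Not at hcon
        have hfA : ∀ e ∈ X, e ≠ 1 → ∀ u ∈ A, e * u = u * e → u = 1 := by
          intro e he he1 u hu heu
          by_contra hu1
          refine hcon u hu hu1 ?_
          have hze : zpowers e = X := (eq_zpowers_of_card_prime PX.hC.hX he he1).symm
          have hxe : x ∈ zpowers e := hze ▸ hx
          obtain ⟨i, hi⟩ := hxe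
          have hi' : e ^ i = x := hi
          rw [← hi']
          exact ((Commute.zpow_left (show Commute e u from heu) i)).eq
        have hcA := sigmaCore_le_centralizer_of_free hG hH PX.hC.hX hX1 hXH hpH hD htσ (hAE.trans hE.1) (fun s hs hd => by
          rw [hAc] at hd
          exact (Nat.prime_dvd_prime_iff_eq hs htt).mp (hs.dvd_of_dvd_pow hd)) (hXE.trans hEn) hfA
        apply hσ1
        rw [eq_bot_iff, ← hs17d]
        exact le_inf le_rfl hcA
      have hDL : sigmaCore L ⊓ centralizer (X : Set G) ≠ ⊥ := by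
        intro e
        have h1 : a ∈ sigmaCore L ⊓ centralizer (X : Set G) := by
          refine Subgroup.mem_inf.mpr ⟨hAσ haA, ?_⟩
          rw [hXz, centralizer_zpowers_eq, mem_centralizer_singleton_iff]
          exact hax.symm
        rw [e] at h1
        exact ha1 h1
      rcases partner_dichotomy hB hG hM hKU.hall hXK PX hL hXL hDL with e | ⟨g, e⟩
      · exact e
      · exfalso
        -- `L ~ M` is impossible: `F(M)` is a TI-subset
        obtain ⟨b, hbA, hb1, hgood⟩ := T2.exists_good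
        have huq := T2.uniq hbA hgood
        have hb' : b ∈ (sigmaCore M).map (MulAut.conj g).toMonoidHom := by
          have h1 := hAσ hbA
          rw [e, sigmaCore_conj] at h1
          exact h1
        obtain ⟨b₀, hb₀, eb⟩ := hb'
        have eb' : g * b₀ * g⁻¹ = b := eb
        have hb₀1 : b₀ ≠ 1 := by
          rintro rfl
          apply hb1
          rw [← eb']
          group
        have hCb := cent_le_of_U_ne hB hG hM hKU hK1 hU1 hb₀ hb₀1
        have hCL : centralizer ({b} : Set G) ≤ L := by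
          intro z hz
          rw [mem_centralizer_singleton_iff] at hz
          have h2 : g⁻¹ * z * g ∈ centralizer ({b₀} : Set G) := by
            rw [mem_centralizer_singleton_iff]
            have e3 : b₀ = g⁻¹ * b * g := by
              rw [← eb']
              group
            rw [e3]
            calc g⁻¹ * z * g * (g⁻¹ * b * g) = g⁻¹ * (z * b) * g := by group
              _ = g⁻¹ * (b * z) * g := by rw [hz]
              _ = g⁻¹ * b * g * (g⁻¹ * z * g) := by group
          rw [e]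
          exact ⟨g⁻¹ * z * g, hCb h2, by
            change g * (g⁻¹ * z * g) * g⁻¹ = z
            group⟩
        have e4 := huq L hL hCL
        exact hnotN (e4 ▸ hNL)
  rw [hLM] at hNL
  exact hEn.trans hNL


/-- The case `τ₂(H) = ∅`. -/
theorem compl_le_partner_of_no_tau2 (hG : IsMinSimpleOddOrder G) (PX : Partner M Mst X p) {H E : Subgroup G} (hH : IsCoatom H)
    (hpH : p ∉ sigma H) (hD : sigmaCore H ⊓ centralizer (X : Set G) = ⊥) (hκH : kappa H = ∅)
    (hnil : Group.IsNilpotent (sigmaCore H)) (hE : IsComplIn E (sigmaCore H) H) (hXE : X ≤ E)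
    (hτ : ∀ t : ℕ, t ∉ tau2 H) : E ≤ Mst := by
  classical
  have hpp : p.Prime := Fact.out
  have huniq := huniq13 hG
  obtain ⟨x, hx, hx1⟩ := exists_ne_one_of_card_prime hpp PX.hC.hX
  have hxo : orderOf x = p := orderOf_eq_of_card_prime hpp PX.hC.hX hx hx1
  have hXz : X = zpowers x := eq_zpowers_of_card_prime PX.hC.hX hx hx1
  have hxp : x ^ p = 1 := by
    rw [← hxo]
    exact pow_orderOf_eq_one x
  have hXH : X ≤ H := hXE.trans hE.1
  have hσ1 := sigmaCore_ne_bot hG huniq hH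
  have hσn : H ≤ normalizer (sigmaCore H : Set G) := le_normalizer_piCoreOf (sigma H) H
  have hEs : Group.IsSolvable ↥E := by
    have hs := coatom_isSolvable hG hH
    exact solvable_of_solvable_injective (f := Subgroup.inclusion hE.1) (Subgroup.inclusion_injective hE.1)
  have hdec : IsSigmaDecomposition H ⊥ E := by
    refine ⟨inferInstance, ⟨bot_le, fun q hq hd => ?_, fun q hq hk => ?_⟩, ?_, bot_le⟩
    · rw [Subgroup.card_bot] at hd
      exact absurd (Nat.dvd_one.mp hd) hq.one_lt.ne'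
    · rw [hκH] at hk
      exact hk.elim
    · rw [bot_sup_eq]
      exact hE
  have hrank : ∀ q : ℕ, q.Prime → q ∉ sigma H → PRankLE q 1 ↥H := by
    intro q hq hσ
    by_contra h
    have hr2 : PRankLE q 2 ↥H := by
      by_contra h2
      haveI := Fact.mk hq
      exact hσ (alpha_sub_sigma hG huniq hH ⟨hq, h2⟩)
    exact hτ q ⟨hq, hσ, hr2, h⟩
  have hfree : ∀ e ∈ E, e ≠ 1 → sigmaCore H ⊓ centralizer ({e} : Set G) = ⊥ := by
    intro e he he1
    refine free_of_tau13_in_U hG huniq hH hdec he he1 fun q hq hd => ?_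
    have hqE : q ∣ Nat.card E := hd.trans (Subgroup.orderOf_dvd_natCard E he)
    have hσ := compl_prime_not_sigma hG hH hE hq hqE
    have hqH : q ∣ Nat.card H := hqE.trans (Subgroup.card_dvd_of_le hE.1)
    by_cases hq' : q ∣ Nat.card ↥⁅H, H⁆
    · exact Or.inr ⟨hq, hσ, hq', hrank q hq hσ⟩
    · exact Or.inl ⟨hq, hσ, hqH, hq', hrank q hq hσ⟩
  by_cases hpd : p ∣ Nat.card ↥⁅H, H⁆
  · -- `p ∈ τ₃(H)`
    have hp3 : p ∈ tau3 H := ⟨hpp, hpH, hpd, hrank p hpp hpH⟩
    obtain ⟨E₃, hE₃⟩ := exists_isPiHallOf_solvable (tau3 H) hEs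
    obtain ⟨hc3, -, hn3⟩ := (s1415_core hG huniq hH E hE).2.2 E₃ hE₃
    obtain ⟨g, hg, hle⟩ := IsPiHallOf.exists_conj_ge hEs hE₃ hXE (by
      intro s hs hd
      rw [PX.hC.hX] at hd
      rw [(Nat.prime_dvd_prime_iff_eq hs hpp).mp hd]
      exact hp3)
    have e1 : E₃.map (MulAut.conj g).toMonoidHom = E₃ := (conj_map_eq_iff_mem_normalizer E₃ g).mpr (hn3 hg)
    rw [e1] at hle
    intro e he
    apply PX.hN
    refine mem_normalizer_of_conj_le X e fun a ha => ?_
    have h1 : X.map (MulAut.conj e).toMonoidHom = X := by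
      refine eq_of_card_eq_of_le_isCyclic hc3 ?_ hle (by rw [Cfsg.Agent.Lib.Coprime.card_conj_map])
      rintro _ ⟨b, hb, rfl⟩
      exact (mem_normalizer_iff.mp (hn3 he) b).mp (hle hb)
    rw [← h1]
    exact ⟨a, ha, rfl⟩
  · -- `p ∈ τ₁(H)`
    set E₀ : Subgroup G := ⁅E, E⁆ with hE₀
    have hE₀le : E₀ ≤ ⁅H, H⁆ := Subgroup.commutator_mono hE.1 hE.1
    have hpE₀ : ¬ p ∣ Nat.card E₀ := fun h => hpd (h.trans (Subgroup.card_dvd_of_le hE₀le))
    have hE₀E : E₀ ≤ E := Subgroup.commutator_le.mpr fun a ha b hb =>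
      mul_mem (mul_mem (mul_mem ha hb) (inv_mem ha)) (inv_mem hb)
    have hxn : x ∈ normalizer (E₀ : Set G) := Subgroup.normalizer_commutator_ge_left E E (hXE hx)
    have hE₀s : Group.IsSolvable ↥E₀ :=
      solvable_of_solvable_injective (f := Subgroup.inclusion hE₀E) (Subgroup.inclusion_injective hE₀E)
    have hfixx : sigmaCore H ⊓ centralizer ({x} : Set G) = ⊥ := by
      rw [← centralizer_zpowers_eq, ← hXz]
      exact hD
    have hcomm : ∀ k ∈ E₀, x * k * x⁻¹ * k⁻¹ = 1 := by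
      intro k hk
      by_contra hc1
      have hcE : x * k * x⁻¹ * k⁻¹ ∈ E :=
        mul_mem (mul_mem (mul_mem (hXE hx) (hE₀E hk)) (inv_mem (hXE hx))) (inv_mem (hE₀E hk))
      have hfc := hfree _ hcE hc1
      have hcc : ∀ b ∈ sigmaCore H, (x * k * x⁻¹ * k⁻¹) * b = b * (x * k * x⁻¹ * k⁻¹) := by
        refine comm_of_forall_Oq hnil fun t _ => ?_
        have htt : t.Prime := Fact.out
        by_cases hT1 : Oq t (sigmaCore H) = ⊥
        · rw [hT1, mem_centralizer_iff]
          intro h hh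
          rw [Subgroup.coe_bot, Set.mem_singleton_iff] at hh
          rw [hh, one_mul, mul_one]
        have htd : t ∣ Nat.card (Oq t (sigmaCore H)) := by
          obtain ⟨j, hj⟩ := IsPGroup.iff_card.mp (Oq_isPGroup t (sigmaCore H))
          have hne : Nat.card (Oq t (sigmaCore H)) ≠ 1 := fun h => hT1 ((Subgroup.eq_bot_iff_card _).mpr h)
          rw [hj] at hne ⊢
          have hj0 : j ≠ 0 := by
            rintro rfl
            simp at hne
          exact dvd_pow_self t hj0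
        have htσ : t ∈ sigma H := piCoreOf_isPi (sigma H) H t htt
          (htd.trans (Subgroup.card_dvd_of_le (Oq_le t (sigmaCore H))))
        have hHn : H ≤ normalizer (Oq t (sigmaCore H) : Set G) := fun a ha => mem_normalizer_Oq hnil (hσn ha)
        refine comm_centralizes_of_fix (t := t) (p := p) (Oq_isPGroup t (sigmaCore H)) ((hE₀E.trans hE.1).trans hHn)
          (hHn (hXH hx)) hxn hpp hxp (fun e => hpH (e ▸ htσ)) hE₀s (subgroup_odd hG E₀) (fun h => ?_) hpE₀ ?_ k hk
        · exact compl_prime_not_sigma hG hH hE htt (h.trans (Subgroup.card_dvd_of_le hE₀E)) htσ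
        · rw [eq_bot_iff, ← hfixx]
          exact inf_le_inf_right _ (Oq_le t (sigmaCore H))
      apply hσ1
      rw [eq_bot_iff, ← hfc]
      refine le_inf le_rfl fun b hb => ?_
      rw [mem_centralizer_singleton_iff]
      exact (hcc b hb).symm
    intro e he
    apply PX.centralizer_le
    rw [hXz, centralizer_zpowers_eq, mem_centralizer_singleton_iff]
    have hcE₀ : e * x * e⁻¹ * x⁻¹ ∈ E₀ := Subgroup.commutator_mem_commutator he (hXE hx)
    have hcx := hcomm _ hcE₀
    set c := e * x * e⁻¹ * x⁻¹ with hc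
    have hcomm2 : Commute c x := by
      have h1 : x * c * x⁻¹ = c := by
        rw [← mul_inv_eq_one]
        exact hcx
      have h2 : x * c = c * x := by
        calc x * c = x * c * x⁻¹ * x := by group
          _ = c * x := by rw [h1]
      exact h2.symm
    have e1 : c * x = e * x * e⁻¹ := by
      rw [hc]
      group
    have e2 : (e * x * e⁻¹) ^ p = 1 := by
      rw [conj_pow, hxp]
      group
    have e3 : c ^ p = 1 := by
      have h3 := hcomm2.mul_pow p
      rw [e1, e2, hxp, mul_one] at h3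
      exact h3.symm
    have hc1 : c = 1 := by
      by_contra hc1
      have h4 : orderOf c = p := orderOf_eq_prime e3 hc1
      exact hpE₀ (h4 ▸ Subgroup.orderOf_dvd_natCard E₀ hcE₀)
    rw [hc1, one_mul] at e1
    have e5 : x * e = e * x := by
      calc x * e = (e * x * e⁻¹) * e := by rw [← e1]
        _ = e * x := by group
    exact e5.symm

/-- `H ⊓ M*` is a complement of `H_σ` in `H`, with `H_σ ⊓ M* = 1`. -/
theorem inf_partner_compl (hB : ThmB G) (hG : IsMinSimpleOddOrder G) (PX : Partner M Mst X p) {H E : Subgroup G} (hH : IsCoatom H)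
    (hpH : p ∉ sigma H) (hD : sigmaCore H ⊓ centralizer (X : Set G) = ⊥) (hXH : X ≤ H) (hE : IsComplIn E (sigmaCore H) H) (hEM : E ≤ Mst) :
    sigmaCore H ⊓ Mst = ⊥ ∧ IsComplIn (H ⊓ Mst) (sigmaCore H) H := by
  classical
  have hpp : p.Prime := Fact.out
  obtain ⟨x, hx, hx1⟩ := exists_ne_one_of_card_prime hpp PX.hC.hX
  have hXz : X = zpowers x := eq_zpowers_of_card_prime PX.hC.hX hx hx1
  have hσn : H ≤ normalizer (sigmaCore H : Set G) := le_normalizer_piCoreOf (sigma H) H
  have hσMn : Mst ≤ normalizer (sigmaCore Mst : Set G) := le_normalizer_piCoreOf (sigma Mst) Mst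
  have hdisj : sigmaCore H ⊓ sigmaCore Mst = ⊥ := by
    rw [eq_bot_iff]
    intro z hz
    by_contra hz1
    have hz1' : z ≠ 1 := hz1
    have hord : orderOf z ≠ 1 := fun h => hz1' (orderOf_eq_one_iff.1 h)
    obtain ⟨s, hs, hsd⟩ := Nat.exists_prime_and_dvd hord
    haveI := Fact.mk hs
    have h1 : s ∈ sigma H := piCoreOf_isPi (sigma H) H s hs (hsd.trans (Subgroup.orderOf_dvd_natCard _ hz.1))
    have h2 : s ∈ sigma Mst := piCoreOf_isPi (sigma Mst) Mst s hs (hsd.trans (Subgroup.orderOf_dvd_natCard _ hz.2))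
    obtain ⟨c, e⟩ := conj_of_sigma_sigma hB hH PX.hH h1 h2
    apply hpH
    rw [← e]
    exact sigma_conj_of_mem PX.hpH c
  have hW : sigmaCore H ⊓ Mst = ⊥ := by
    rw [eq_bot_iff]
    intro w hw
    have hw1 : w ∈ sigmaCore H := hw.1
    have hw2 : w ∈ Mst := hw.2
    have h1 : x * w * x⁻¹ * w⁻¹ ∈ sigmaCore H :=
      mul_mem ((mem_normalizer_iff.mp (hσn (hXH hx)) w).mp hw1) (inv_mem hw1)
    have h2 : x * w * x⁻¹ * w⁻¹ ∈ sigmaCore Mst := by
      have h3 : w * x⁻¹ * w⁻¹ ∈ sigmaCore Mst := (mem_normalizer_iff.mp (hσMn hw2) _).mp (inv_mem (PX.hXσ hx))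
      have e3 : x * w * x⁻¹ * w⁻¹ = x * (w * x⁻¹ * w⁻¹) := by group
      rw [e3]
      exact mul_mem (PX.hXσ hx) h3
    have h4 : x * w * x⁻¹ * w⁻¹ ∈ sigmaCore H ⊓ sigmaCore Mst := ⟨h1, h2⟩
    rw [hdisj, Subgroup.mem_bot] at h4
    have h5 : w ∈ sigmaCore H ⊓ centralizer (X : Set G) := by
      refine Subgroup.mem_inf.mpr ⟨hw1, ?_⟩
      rw [hXz, centralizer_zpowers_eq, mem_centralizer_singleton_iff]
      have h6 : x * w * x⁻¹ = w := by
        rw [mul_inv_eq_one] at h4
        exact h4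
      calc w * x = (x * w * x⁻¹) * x := by rw [h6]
        _ = x * w := by group
    rw [hD] at h5
    exact h5
  refine ⟨hW, inf_le_left, hE.2.1, ?_, fun m hm => ?_⟩
  · rw [inf_comm]
    rw [eq_bot_iff, ← hW]
    intro z hz
    exact ⟨hz.1, hz.2.2⟩
  · obtain ⟨a, ha, b, hb, e⟩ := hE.2.2.2 m hm
    exact ⟨a, ⟨hE.1 ha, hEM ha⟩, b, hb, e⟩

/-- `M ⊓ H = U ⊔ K`. -/
theorem inf_eq_U_sup_K (hG : IsMinSimpleOddOrder G) (hM : IsCoatom M) (hKU : IsSigmaDecomposition M K U) (hU1 : U ≠ ⊥)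
    {H : Subgroup G} (hUH : U ≤ H) (hKH : K ≤ H) (hUσ : U ≤ sigmaCore H) (heq : sigmaCore H ⊓ M = U) :
    M ⊓ H = U ⊔ K := by
  classical
  have huniq := huniq13 hG
  have hσH : H ≤ normalizer (sigmaCore H : Set G) := le_normalizer_piCoreOf (sigma H) H
  have hσM : M ≤ normalizer (sigmaCore M : Set G) := le_normalizer_piCoreOf (sigma M) M
  have hUHall := isPiHallOf_U hG hM hKU
  have hUM : U ≤ M := hUHall.1
  have hKM : K ≤ M := hKU.hall.1
  apply le_antisymm
  · intro y hy
    obtain ⟨a, ha, b, hb, e⟩ := (compl_of_decomp hG huniq hM hKU).2.2.2 y hy.1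
    have haH : a ∈ H := (sup_le hKH hUH) ha
    have hbH : b ∈ H := by
      have e2 : b = a⁻¹ * y := by
        rw [e]
        group
      rw [e2]
      exact mul_mem (inv_mem haH) hy.2
    have hUσ0 : ∀ z, z ∈ U → z ∈ sigmaCore M → z = 1 := by
      intro z hz1 hz2
      have h5 : z ∈ U ⊓ (K ⊔ sigmaCore M) := Subgroup.mem_inf.mpr ⟨hz1, Subgroup.mem_sup_right hz2⟩
      rw [hKU.compl.2.2.1] at h5
      exact h5
    have hb1 : b = 1 := by
      have hbC : b ∈ sigmaCore M ⊓ centralizer (U : Set G) := by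
        refine Subgroup.mem_inf.mpr ⟨hb, ?_⟩
        rw [mem_centralizer_iff]
        intro u hu
        have huM : u ∈ M := hUM hu
        have h1 : b * u * b⁻¹ * u⁻¹ ∈ sigmaCore H :=
          mul_mem ((mem_normalizer_iff.mp (hσH hbH) u).mp (hUσ hu)) (inv_mem (hUσ hu))
        have h1' : b * u * b⁻¹ * u⁻¹ ∈ M :=
          mul_mem (mul_mem (mul_mem (piCoreOf_le _ M hb) huM) (inv_mem (piCoreOf_le _ M hb))) (inv_mem huM)
        have h2 : b * u * b⁻¹ * u⁻¹ ∈ U := by
          rw [← heq]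
          exact ⟨h1, h1'⟩
        have h3 : b * u * b⁻¹ * u⁻¹ ∈ sigmaCore M := by
          have h4 : u * b⁻¹ * u⁻¹ ∈ sigmaCore M := (mem_normalizer_iff.mp (hσM huM) _).mp (inv_mem hb)
          have e3 : b * u * b⁻¹ * u⁻¹ = b * (u * b⁻¹ * u⁻¹) := by group
          rw [e3]
          exact mul_mem hb h4
        have h5 := hUσ0 _ h2 h3
        have h6 : b * u * b⁻¹ = u := by
          rw [mul_inv_eq_one] at h5
          exact h5
        calc u * b = (b * u * b⁻¹) * b := by rw [h6]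
          _ = b * u := by group
      rw [sigma_inf_centralizer_U_eq_bot hG hM hUHall hU1] at hbC
      exact hbC
    rw [e, hb1, mul_one]
    rw [sup_comm]
    exact ha
  · exact sup_le (le_inf hUM hUH) (le_inf hKM hKH)


/-- `K ≤ F(H ⊓ M*)`. -/
theorem K_le_fitting_inf (hB : ThmB G) (hG : IsMinSimpleOddOrder G) {H Mstar : Subgroup G} (hMstar : IsCoatom Mstar)
    (hKp : (Nat.card K).Prime) (hKH : K ≤ H) (hKσ : K ≤ sigmaCore Mstar)
    (hKst : K = sigmaCore Mstar ⊓ centralizer ((sigmaCore M ⊓ centralizer (K : Set G) : Subgroup G) : Set G))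
    (hKstH : IsPiHallOf (kappa Mstar) (sigmaCore M ⊓ centralizer (K : Set G)) Mstar) :
    K ≤ fittingOf (H ⊓ Mstar) := by
  classical
  have hσn : Mstar ≤ normalizer (sigmaCore Mstar : Set G) := le_normalizer_piCoreOf (sigma Mstar) Mstar
  have hσM : sigmaCore Mstar ≤ Mstar := piCoreOf_le _ Mstar
  by_cases hn : Group.IsNilpotent (sigmaCore Mstar)
  · refine le_trans ?_ (le_fittingOf (N := (H ⊓ Mstar) ⊓ sigmaCore Mstar) inf_le_left ?_
      (isNilpotent_of_le_aux inf_le_right hn))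
    · exact le_inf (le_inf hKH (hKσ.trans hσM)) hKσ
    · intro a ha
      refine mem_normalizer_of_conj_le _ a fun y hy => ?_
      obtain ⟨hy1, hy2⟩ := Subgroup.mem_inf.mp hy
      exact Subgroup.mem_inf.mpr ⟨mul_mem (mul_mem ha hy1) (inv_mem ha),
        (mem_normalizer_iff.mp (hσn (Subgroup.mem_inf.mp ha).2) y).mp hy2⟩
  · have hne : fittingHallOf Mstar ≠ sigmaCore Mstar := fun e => hn (e ▸ fittingHallOf_isNilpotent Mstar)
    obtain ⟨Ust, hUst⟩ := (s1352_core hB hG hMstar (kappa_cyclic hB hG hMstar hKstH) hKstH).1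
    obtain ⟨-, -, -, -, -, -, Q, hQF, hQn, hQp, hQi, -⟩ := s1437_core hB hG hMstar hUst hne
      (fun hk1 hu => s1373_core hB hG hMstar hUst hk1 hu)
    rw [← hKst] at hQp hQi
    have hQσ : Q ≤ sigmaCore Mstar := hQF.trans (fittingHallOf_le_sigmaCore hG hMstar)
    have hKQ : K ≤ Q := by
      intro x hx
      refine mem_of_coprime_relIndex (N := sigmaCore Mstar) (hσM.trans hQn) (hKσ hx) ?_
      exact Nat.Coprime.coprime_dvd_right (Subgroup.orderOf_dvd_natCard K hx)
        ((Nat.Prime.coprime_iff_not_dvd hKp).mpr hQi).symm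
    have hQnil : Group.IsNilpotent Q := by
      haveI := Fact.mk hKp
      exact hQp.isNilpotent
    refine le_trans ?_ (le_fittingOf (N := (H ⊓ Mstar) ⊓ Q) inf_le_left ?_ (isNilpotent_of_le_aux inf_le_right hQnil))
    · exact le_inf (le_inf hKH (hKσ.trans hσM)) hKQ
    · intro a ha
      refine mem_normalizer_of_conj_le _ a fun y hy => ?_
      obtain ⟨hy1, hy2⟩ := Subgroup.mem_inf.mp hy
      exact Subgroup.mem_inf.mpr ⟨mul_mem (mul_mem ha hy1) (inv_mem ha),
        (mem_normalizer_iff.mp (hQn (Subgroup.mem_inf.mp ha).2) y).mp hy2⟩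

/-- **S1435 core.** -/
theorem s1435_core (hB : ThmB G) (hG : IsMinSimpleOddOrder G) (hM : IsCoatom M) (hKU : IsSigmaDecomposition M K U)
    (hK1 : K ≠ ⊥) (hU1 : U ≠ ⊥) {Mstar : Subgroup G} (hMstar : IsCoatom Mstar)
    (hKst : K = sigmaCore Mstar ⊓ centralizer ((sigmaCore M ⊓ centralizer (K : Set G) : Subgroup G) : Set G))
    (hKstH : IsPiHallOf (kappa Mstar) (sigmaCore M ⊓ centralizer (K : Set G)) Mstar)
    {r : ℕ} [Fact r.Prime] (hr : r ∣ Nat.card U) (R : Sylow r U) {H : Subgroup G} (hH : IsCoatom H)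
    (hNR : normalizer (((R : Subgroup U).map U.subtype : Subgroup G) : Set G) ≤ H) :
    kappa H = ∅ ∧ U ≤ sigmaCore H ∧ M ⊓ H = U ⊔ K ∧ ¬ H ⊓ normalizer (U : Set G) ≤ M ∧
      K ≤ fittingOf (H ⊓ Mstar) ∧ IsComplIn (H ⊓ Mstar) (sigmaCore H) H := by
  classical
  have hKp : (Nat.card K).Prime := (s1372_core hB hG hM hKU hK1 hU1).1
  haveI : Fact (Nat.card K).Prime := ⟨hKp⟩
  have PX : Partner M Mstar K (Nat.card K) := mstar_partner hB hG hM hKU.hall hK1 hMstar hKst hKstH le_rfl rfl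
  have hUc := U_isMulCommutative hB hG hM hKU hK1
  have hUn : Group.IsNilpotent U := by
    letI : CommGroup U := { (inferInstance : Group U) with mul_comm := hUc.is_comm.comm }
    exact CommGroup.isNilpotent
  have eR : (R : Subgroup U).map U.subtype = Oq r U := by
    refine ((isMaxP_map R).max (Oq r U) (Oq_le r U) (Oq_isPGroup r U) ?_).symm
    rintro _ ⟨b, hb, rfl⟩
    obtain ⟨k, hk⟩ := R.isPGroup' ⟨b, hb⟩
    refine mem_Oq hUn b.2 (k := k) ?_
    have h := congrArg (fun z : ↥(R : Subgroup U) => ((z : ↥U) : G)) hk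
    simpa using h
  rw [eR] at hNR
  obtain ⟨hNH, hUH, hKH, hnotconj, hpH, hD, hHnil, hUσ, heqW⟩ := H_facts hB hG hM hKU hK1 PX le_rfl hr hH hNR
  have hκ : kappa H = ∅ := by
    by_contra hne
    obtain ⟨g, e | e⟩ := s1369_second hB hG hM hKU.hall hK1 hMstar hKst hKstH hH (Set.nonempty_iff_ne_empty.mpr hne)
    · exact hnotconj g e
    · exact hpH (e ▸ sigma_conj_of_mem PX.hpH g)
  obtain ⟨E, hE, hKE⟩ := exists_compl_sigma_ge hG hH hKH (fun s hs hd => by
    rw [(Nat.prime_dvd_prime_iff_eq hs hKp).mp hd]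
    exact hpH)
  have hEM : E ≤ Mstar := by
    by_cases hτ : ∃ t, t ∈ tau2 H
    · obtain ⟨t, ht⟩ := hτ
      haveI := Fact.mk ht.1
      exact compl_le_partner_of_tau2 hB hG hM hKU hK1 hU1 PX le_rfl hH hpH hD hnotconj hE hKE ht
    · push Not at hτ
      exact compl_le_partner_of_no_tau2 hG PX hH hpH hD hκ hHnil hE hKE hτ
  obtain ⟨hW, hC⟩ := inf_partner_compl hB hG PX hH hpH hD hKH hE hEM
  refine ⟨hκ, hUσ, inf_eq_U_sup_K hG hM hKU hU1 hUH hKH hUσ heqW, ?_, ?_, hC⟩
  · intro hle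
    exact normalizer_U_not_le hB hG hM hKU hK1 PX le_rfl (fun a ha => hle ⟨hNH ha, ha⟩)
  · exact K_le_fitting_inf hB hG hMstar hKp hKH PX.hXσ hKst hKstH

end Cfsg.Agent.Lib.FT
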