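import Cfsg.Agent.Lib.FT.BG19i

/-!
BG19j: S1376. If `x ≠ 1` lies in `M_σ`, `C(x) ≰ M`, and the maximal subgroup `N` over `C(x)`
has `κ(N) ≠ ∅`, then `M` is a Frobenius group.
-/

set_option autoImplicit false
set_option linter.unusedSectionVars false
set_option linter.style.haveILetI false

namespace Cfsg.Agent.Lib.FT

open Subgroup Cfsg Cfsg.Agent.Lib.OddLocal Cfsg.Agent.Lib.Basic

open Cfsg.Agent.Lib.Coprime (mem_conj_map conj_mem_conj_map conj_map_conj_map conj_map_one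
  conj_map_mono mem_normalizer_of_conj_le conj_map_eq_iff_mem_normalizer isPGroup_conj_map)

variable {G : Type*} [Group G] [Finite G]

theorem compl_conj_in {A B N : Subgroup G} (h : IsComplIn A B N) {n : G} (hn : n ∈ N) :
    IsComplIn (A.map (MulAut.conj n).toMonoidHom) (B.map (MulAut.conj n).toMonoidHom) N := by
  obtain ⟨h1, h2, h3, h4⟩ := h
  refine ⟨?_, ?_, ?_, ?_⟩
  · rintro _ ⟨a, ha, rfl⟩
    exact N.mul_mem (N.mul_mem hn (h1 ha)) (N.inv_mem hn)
  · rintro _ ⟨a, ha, rfl⟩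
    exact N.mul_mem (N.mul_mem hn (h2 ha)) (N.inv_mem hn)
  · rw [← Subgroup.map_inf _ _ _ (MulAut.conj n).injective, h3, Subgroup.map_bot]
  · intro m hm
    obtain ⟨a, ha, b, hb, e⟩ := h4 (n⁻¹ * m * n) (N.mul_mem (N.mul_mem (N.inv_mem hn) hm) hn)
    refine ⟨n * a * n⁻¹, ⟨a, ha, rfl⟩, n * b * n⁻¹, ⟨b, hb, rfl⟩, ?_⟩
    calc m = n * (n⁻¹ * m * n) * n⁻¹ := by group
      _ = n * (a * b) * n⁻¹ := by rw [e]
      _ = n * a * n⁻¹ * (n * b * n⁻¹) := by group

theorem decomp_conj_in {N K U : Subgroup G} (hKU : IsSigmaDecomposition N K U) {n : G} (hn : n ∈ N) :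
    IsSigmaDecomposition N (K.map (MulAut.conj n).toMonoidHom) (U.map (MulAut.conj n).toMonoidHom) := by
  classical
  have hσ : (sigmaCore N).map (MulAut.conj n).toMonoidHom = sigmaCore N :=
    (conj_map_eq_iff_mem_normalizer _ n).mpr (le_normalizer_piCoreOf (sigma N) N hn)
  refine ⟨?_, IsPiHallOf.conj_in hKU.hall hn, ?_, ?_⟩
  · haveI := hKU.cyclic
    exact isCyclic_of_surjective ((MulAut.conj n).toMonoidHom.subgroupMap K) (MonoidHom.subgroupMap_surjective _ _)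
  · have e : K.map (MulAut.conj n).toMonoidHom ⊔ sigmaCore N = (K ⊔ sigmaCore N).map (MulAut.conj n).toMonoidHom := by
      rw [Subgroup.map_sup, hσ]
    rw [e]
    exact compl_conj_in hKU.compl hn
  · rintro _ ⟨k, hk, rfl⟩
    refine mem_normalizer_of_conj_le _ _ ?_
    rintro _ ⟨u, hu, rfl⟩
    refine ⟨k * u * k⁻¹, (mem_normalizer_iff.mp (hKU.normal hk) u).mp hu, ?_⟩
    simp only [MulEquiv.coe_toMonoidHom, MulAut.conj_apply, MonoidHom.coe_coe]
    group

/-- Existence of a good decomposition of `N`. -/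
theorem exists_decomp_of_sigma_elem (hB : ThmB G) (hG : IsMinSimpleOddOrder G) {M N : Subgroup G} (hM : IsCoatom M) {x : G}
    (hx : x ∈ sigmaCore M) (hx1 : x ≠ 1) (hxM : ¬ centralizer ({x} : Set G) ≤ M)
    (hN : IsCoatom N) (hxN : centralizer ({x} : Set G) ≤ N) (hkN : (kappa N).Nonempty) :
    ∃ (K U : Subgroup G) (r : ℕ) (x₀ : G) (_ : Fact r.Prime), IsSigmaDecomposition N K U ∧ K ≠ ⊥ ∧ U ≠ ⊥ ∧ r ∣ Nat.card U ∧
      r ∈ sigma M ∧ r ∈ tau2 N ∧ x₀ ∈ sigmaCore M ∧ orderOf x₀ = r ∧ centralizer ({x₀} : Set G) ≤ N ∧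
      normalizer (Oq r U : Set G) ≤ M := by
  classical
  have huniq := huniq13 hG
  have hpl : ∀ (r : ℕ) [Fact r.Prime] (H : Subgroup G), H ≠ ⊤ → PLengthLE r 1 ↥H := fun r _ K hK => hpl13 hG r K hK
  obtain ⟨N₁, hN₁, hCN₁, huq₁, -⟩ := thmE_core hB hG hM hx hx1 hxM
  have eN : N = N₁ := huq₁ N hN hxN
  have hord : orderOf x ≠ 1 := fun h => hx1 (orderOf_eq_one_iff.1 h)
  obtain ⟨r, hr, hrd⟩ := Nat.exists_prime_and_dvd hord
  haveI : Fact r.Prime := ⟨hr⟩
  obtain ⟨x₀, hx₀x, hx₀o⟩ := exists_mem_zpowers_orderOf hrd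
  have hx₀σ : x₀ ∈ sigmaCore M := (zpowers_le.2 hx) hx₀x
  have hx₀1 : x₀ ≠ 1 := by
    rintro rfl
    rw [orderOf_one] at hx₀o
    exact hr.one_lt.ne hx₀o
  have hCx₀ : centralizer ({x} : Set G) ≤ centralizer ({x₀} : Set G) := centralizer_singleton_le_of_mem_zpowers hx₀x
  have hnot : ¬ centralizer ({x₀} : Set G) ≤ M := fun h => hxM (hCx₀.trans h)
  obtain ⟨N₀, hN₀, hCN₀, -, -, -, hσ₀, hcompl₀, hxMN₀, hτ₀, -⟩ := thmE_core hB hG hM hx₀σ hx₀1 hnot
  have eN₀ : N₀ = N := by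
    rw [eN]
    exact huq₁ N₀ hN₀ (hCx₀.trans hCN₀)
  subst eN₀
  have hτ : r ∈ tau2 N₀ := hτ₀ r hr (by rw [hx₀o])
  have hrσ : r ∈ sigma M := sigma_of_mem_sigmaCore hx₀σ hr (by rw [hx₀o])
  obtain ⟨K', hK'⟩ := exists_isPiHallOf_solvable (kappa N₀) (coatom_isSolvable hG hN₀)
  have hK'c := kappa_cyclic hB hG hN₀ hK'
  obtain ⟨U', hKU'⟩ := (s1352_core hB hG hN₀ hK'c hK').1
  have hK'1 : K' ≠ ⊥ := by
    rintro rfl
    obtain ⟨p, hp⟩ := hkN
    exact hK'.2.2 p hp.1 hp (by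
      simpa [Subgroup.relIndex_bot_left] using hp.2.1)
  have hU'H := isPiHallOf_U hG hN₀ hKU'
  have hrπ : r ∈ {q | q.Prime ∧ q ∉ kappa N₀ ∧ q ∉ sigma N₀} := ⟨hr, not_kappa_of_tau2 hτ, hτ.2.1⟩
  have hrN : r ∣ Nat.card N₀ := by
    obtain ⟨E, hEe, hEN, hEc⟩ := exists_of_not_prank hτ.2.2.2
    have hEp := isPGroup_of_elem hEe
    obtain ⟨k, hk⟩ := IsPGroup.iff_card.mp hEp
    rw [hk] at hEc
    have hk0 : k ≠ 0 := by
      rintro rfl
      simp only [pow_zero, pow_one] at hEc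
      exact absurd hEc (not_lt.mpr hr.one_le)
    have h2 : r ∣ Nat.card E := by
      rw [hk]
      exact dvd_pow_self r hk0
    exact h2.trans (Subgroup.card_dvd_of_le hEN)
  have hrU' : r ∣ Nat.card U' := by
    have h1 := Cfsg.Agent.Lib.Coprime.card_mul_relIndex hU'H.1
    rw [← h1] at hrN
    exact (hr.dvd_mul.mp hrN).resolve_right (hU'H.2.2 r hr hrπ)
  have hU'1 : U' ≠ ⊥ := by
    rintro rfl
    rw [Subgroup.card_bot] at hrU'
    exact hr.one_lt.ne' (Nat.dvd_one.mp hrU')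
  have hU'c := U_isMulCommutative hB hG hN₀ hKU' hK'1
  have hU'n : Group.IsNilpotent U' := by
    letI : CommGroup U' := { (inferInstance : Group U') with mul_comm := hU'c.is_comm.comm }
    exact CommGroup.isNilpotent
  have hR'max : IsMaxP r (Oq r U') N₀ := isMaxP_Oq_of_hall hU'H hU'n hrπ
  obtain ⟨g, hg, hle⟩ := IsPiHallOf.exists_conj_ge (coatom_isSolvable hG hN₀) (isPiHallOf_compl hG hN₀ hcompl₀) hR'max.le (by
    intro s hs hd
    obtain ⟨k, hk⟩ := IsPGroup.iff_card.mp hR'max.isP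
    rw [hk] at hd
    rw [Set.mem_setOf_eq, (Nat.prime_dvd_prime_iff_eq hs hr).mp (hs.dvd_of_dvd_pow hd)]
    exact hτ.2.1)
  have hle2 : (Oq r U').map (MulAut.conj g⁻¹).toMonoidHom ≤ M ⊓ N₀ := by
    have h1 := conj_map_mono hle g⁻¹
    rwa [conj_map_conj_map, inv_mul_cancel, conj_map_one] at h1
  have hKU := decomp_conj_in hKU' (N₀.inv_mem hg)
  set U := U'.map (MulAut.conj g⁻¹).toMonoidHom with hU
  set K := K'.map (MulAut.conj g⁻¹).toMonoidHom with hKdef
  have hUc := U_isMulCommutative hB hG hN₀ hKU (by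
    intro e
    apply hK'1
    rw [hKdef] at e
    rwa [Subgroup.map_eq_bot_iff_of_injective _ (MulAut.conj g⁻¹).injective] at e)
  have hUn : Group.IsNilpotent U := by
    letI : CommGroup U := { (inferInstance : Group U) with mul_comm := hUc.is_comm.comm }
    exact CommGroup.isNilpotent
  have hUH := isPiHallOf_U hG hN₀ hKU
  have hRmax : IsMaxP r (Oq r U) N₀ := isMaxP_Oq_of_hall hUH hUn hrπ
  have hR0max := hR'max.conj_in (N₀.inv_mem hg)
  have hR0le : (Oq r U').map (MulAut.conj g⁻¹).toMonoidHom ≤ Oq r U := by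
    rintro _ ⟨y, hy, rfl⟩
    obtain ⟨k, hk⟩ := (Oq_isPGroup r U') ⟨y, hy⟩
    refine mem_Oq hUn (k := k) ⟨y, Oq_le r U' hy, rfl⟩ ?_
    have h3 : y ^ r ^ k = 1 := by simpa using congrArg Subtype.val hk
    simp only [MulEquiv.coe_toMonoidHom, MulAut.conj_apply, conj_pow, h3, MonoidHom.coe_coe]
    group
  have eR : Oq r U = (Oq r U').map (MulAut.conj g⁻¹).toMonoidHom := hR0max.max _ hRmax.le hRmax.isP hR0le
  have hRM : Oq r U ≤ M := by
    rw [eR]
    exact hle2.trans inf_le_left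
  have hnc : ¬ IsCyclic (Oq r U) := fun hc => hτ.2.2.2 (hRmax.prank_of (prank_one_of_cyclic hc))
  have hNR := s1420_c hG huniq hpl hM r (Oq r U) hrσ hRmax.isP hRM hnc
  refine ⟨K, U, r, x₀, inferInstance, hKU, ?_, ?_, ?_, hrσ, hτ, hx₀σ, hx₀o, hCN₀, hNR⟩
  · intro e
    apply hK'1
    rw [hKdef] at e
    rwa [Subgroup.map_eq_bot_iff_of_injective _ (MulAut.conj g⁻¹).injective] at e
  · intro e
    apply hU'1
    rw [hU] at e
    rwa [Subgroup.map_eq_bot_iff_of_injective _ (MulAut.conj g⁻¹).injective] at e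
  · rw [hU, Cfsg.Agent.Lib.Coprime.card_conj_map]
    exact hrU'

/-- The situation of S1376. -/
structure FrobSit (N K U Nst H : Subgroup G) (p : ℕ) (x₀ : G) : Prop where
  hN : IsCoatom N
  hKU : IsSigmaDecomposition N K U
  hK1 : K ≠ ⊥
  hU1 : U ≠ ⊥
  hKc : Nat.card K = p
  hNst : IsCoatom Nst
  hKst : K = sigmaCore Nst ⊓ centralizer ((sigmaCore N ⊓ centralizer (K : Set G) : Subgroup G) : Set G)
  hKstH : IsPiHallOf (kappa Nst) (sigmaCore N ⊓ centralizer (K : Set G)) Nst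
  PX : Partner N Nst K p
  hH : IsCoatom H
  hUH : U ≤ H
  hKH : K ≤ H
  hnotconj : ∀ g : G, H ≠ N.map (MulAut.conj g).toMonoidHom
  hpH : p ∉ sigma H
  hD : sigmaCore H ⊓ centralizer (K : Set G) = ⊥
  hnil : Group.IsNilpotent (sigmaCore H)
  hUσ : U ≤ sigmaCore H
  heq : sigmaCore H ⊓ N = U
  hκ : kappa H = ∅
  hW : sigmaCore H ⊓ Nst = ⊥
  hC : IsComplIn (H ⊓ Nst) (sigmaCore H) H
  hinf : N ⊓ H = U ⊔ K
  hx₀U : x₀ ∈ U
  hx₀1 : x₀ ≠ 1
  hx₀N : centralizer ({x₀} : Set G) ≤ N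

/-- Existence of the situation. -/
theorem FrobSit.exists_of (hB : ThmB G) (hG : IsMinSimpleOddOrder G) {N K U H : Subgroup G} {x₀ : G} (hN : IsCoatom N)
    (hKU : IsSigmaDecomposition N K U) (hK1 : K ≠ ⊥) (hU1 : U ≠ ⊥) {r : ℕ} [Fact r.Prime] (hr : r ∣ Nat.card U)
    (hH : IsCoatom H) (hNR : normalizer (Oq r U : Set G) ≤ H) (hx₀σ : x₀ ∈ sigmaCore H) (hx₀1 : x₀ ≠ 1)
    (hx₀N : centralizer ({x₀} : Set G) ≤ N) : ∃ Nst, FrobSit N K U Nst H (Nat.card K) x₀ := by
  classical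
  have hKp : (Nat.card K).Prime := (s1372_core hB hG hN hKU hK1 hU1).1
  haveI : Fact (Nat.card K).Prime := ⟨hKp⟩
  obtain ⟨Nst, hNst, hKst, hKstH⟩ := exists_mstar hB hG hN hKU.hall hK1
  have PX : Partner N Nst K (Nat.card K) := mstar_partner hB hG hN hKU.hall hK1 hNst hKst hKstH le_rfl rfl
  obtain ⟨hNH, hUH, hKH, hnotconj, hpH, hD, hHnil, hUσ, heqW⟩ := H_facts hB hG hN hKU hK1 PX le_rfl hr hH hNR
  have hκ : kappa H = ∅ := by
    by_contra hne
    obtain ⟨g, e | e⟩ := s1369_second hB hG hN hKU.hall hK1 hNst hKst hKstH hH (Set.nonempty_iff_ne_empty.mpr hne)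
    · exact hnotconj g e
    · exact hpH (e ▸ sigma_conj_of_mem PX.hpH g)
  obtain ⟨E, hE, hKE⟩ := exists_compl_sigma_ge hG hH hKH (fun s hs hd => by
    rw [(Nat.prime_dvd_prime_iff_eq hs hKp).mp hd]
    exact hpH)
  have hEM : E ≤ Nst := by
    by_cases hτ : ∃ t, t ∈ tau2 H
    · obtain ⟨t, ht⟩ := hτ
      haveI := Fact.mk ht.1
      exact compl_le_partner_of_tau2 hB hG hN hKU hK1 hU1 PX le_rfl hH hpH hD hnotconj hE hKE ht
    · push Not at hτ
      exact compl_le_partner_of_no_tau2 hG PX hH hpH hD hκ hHnil hE hKE hτ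
  obtain ⟨hW, hC⟩ := inf_partner_compl hB hG PX hH hpH hD hKH hE hEM
  have hx₀U : x₀ ∈ U := by
    rw [← heqW]
    exact ⟨hx₀σ, hx₀N (mem_centralizer_singleton_self x₀)⟩
  exact ⟨Nst, hN, hKU, hK1, hU1, rfl, hNst, hKst, hKstH, PX, hH, hUH, hKH, hnotconj, hpH, hD, hHnil, hUσ, heqW, hκ, hW, hC,
    inf_eq_U_sup_K hG hN hKU hU1 hUH hKH hUσ heqW, hx₀U, hx₀1, hx₀N⟩

theorem cent_le_of_TI (hG : IsMinSimpleOddOrder G) {M X : Subgroup G} (hM : IsCoatom M) (hTI : IsTISubset (X : Set G)) (hXM : X ≤ M)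
    (hMX : M ≤ normalizer (X : Set G)) {y : G} (hy : y ∈ X) (hy1 : y ≠ 1) : centralizer ({y} : Set G) ≤ M := by
  classical
  intro c hc
  by_contra hcM
  have hX1 : X ≠ ⊥ := by
    rintro rfl
    exact hy1 hy
  have hXt : X ≠ ⊤ := fun e => hM.1 (top_le_iff.1 (e ▸ hXM))
  have hcn : c ∉ normalizer (X : Set G) := fun hcn =>
    IsMinSimpleOddOrder.normalizer_ne_top hG hX1 hXt (hM.2 _ (lt_of_le_of_ne hMX (fun e => hcM (e ▸ hcn))))
  rw [mem_centralizer_singleton_iff] at hc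
  refine hy1 (hTI c hcn y hy ?_)
  have : c * y * c⁻¹ = y := by
    rw [hc]
    group
  rw [this]
  exact hy

/-- A `t`-torsion element of a `p`-group is trivial when `t ≠ p`. -/
theorem eq_one_of_pow_of_isPGroup {Q : Subgroup G} {p t : ℕ} (hp : p.Prime) (ht : t.Prime) (htp : t ≠ p) (hQ : IsPGroup p Q) {z : G}
    (hz : z ∈ Q) (hzt : z ^ t = 1) : z = 1 := by
  classical
  haveI := Fact.mk hp
  obtain ⟨k, hk⟩ := IsPGroup.iff_card.mp hQ
  have h1 : orderOf z ∣ p ^ k := by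
    rw [← hk]
    exact Subgroup.orderOf_dvd_natCard Q hz
  have h2 : orderOf z ∣ t := orderOf_dvd_of_pow_eq_one hzt
  have h3 : Nat.Coprime t (p ^ k) := Nat.Coprime.pow_right k ((Nat.coprime_primes ht hp).mpr htp)
  have h4 : orderOf z = 1 := Nat.eq_one_of_dvd_coprimes h3 h2 h1
  exact orderOf_eq_one_iff.mp h4

/-- Coprime commuting factors of an element are powers of it. -/
theorem mem_zpowers_of_commute_coprime {a b : G} (hc : a * b = b * a) (hco : (orderOf a).Coprime (orderOf b)) :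
    b ∈ zpowers (a * b) := by
  have h1 : (a * b) ^ orderOf a = b ^ orderOf a := by
    have := (show Commute a b from hc).mul_pow (orderOf a)
    rw [this, pow_orderOf_eq_one, one_mul]
  have h2 := Nat.gcd_eq_gcd_ab (orderOf a) (orderOf b)
  rw [hco, Nat.cast_one] at h2
  have h3 : b = (b ^ orderOf a) ^ (Nat.gcdA (orderOf a) (orderOf b)) := by
    have h4 : b ^ ((orderOf a : ℤ) * Nat.gcdA (orderOf a) (orderOf b) + (orderOf b : ℤ) * Nat.gcdB (orderOf a) (orderOf b)) = b := by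
      rw [← h2, zpow_one]
    rw [zpow_add, zpow_mul, zpow_mul, zpow_natCast, zpow_natCast, pow_orderOf_eq_one, one_zpow, mul_one] at h4
    exact h4.symm
  have h5 : ((a * b) ^ orderOf a) ^ (Nat.gcdA (orderOf a) (orderOf b)) ∈ zpowers (a * b) :=
    (zpowers (a * b)).zpow_mem ((zpowers (a * b)).pow_mem (mem_zpowers _) _) _
  rw [h1, ← h3] at h5
  exact h5

namespace FrobSit

variable {N K U Nst H : Subgroup G} {p : ℕ} {x₀ : G}

/-- The case of non-nilpotent `σ(N*)`: elements of `A` have centralizers in `N*`. -/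
theorem cent_le_of_not_nilpotent [Fact p.Prime] (S : FrobSit N K U Nst H p x₀) (hB : ThmB G) (hG : IsMinSimpleOddOrder G)
    {t : ℕ} [Fact t.Prime] {A : Subgroup G} (hAn : H ⊓ Nst ≤ normalizer (A : Set G))
    (hAe : IsElementaryAbelian t A) (hAσ : A ≤ sigmaCore Nst)
    (hUst : IsSigmaDecomposition Nst (sigmaCore N ⊓ centralizer (K : Set G)) ⊥)
    (hn : ¬ Group.IsNilpotent (sigmaCore Nst)) {b : G} (hbA : b ∈ A) (hb1 : b ≠ 1) :
    centralizer ({b} : Set G) ≤ Nst := by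
  classical
  have hpp : p.Prime := Fact.out
  have htt : t.Prime := Fact.out
  set Ks := sigmaCore N ⊓ centralizer (K : Set G) with hKs
  have hKs1 : Ks ≠ ⊥ := Kstar_ne_bot hG hB S.hN S.hKU.hall S.hK1
  have hKeq : sigmaCore Nst ⊓ centralizer (Ks : Set G) = K := S.hKst.symm
  have hqc : Nat.card ↥(sigmaCore Nst ⊓ centralizer (Ks : Set G)) = p := by rw [hKeq, S.hKc]
  have hq : (Nat.card ↥(sigmaCore Nst ⊓ centralizer (Ks : Set G))).Prime := by
    rw [hqc]
    exact hpp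
  obtain ⟨Q, D, SS⟩ := exists_sigmaStruct hB hG S.hNst hUst hKs1 rfl hq
  rw [hqc] at SS
  have hσst : sigmaCore Nst ≤ Nst := piCoreOf_le _ Nst
  have hTI := SS.fitting_TI hB hG S.hNst hUst hKs1 rfl hn hqc
  have hFM : fittingOf Nst ≤ Nst := fittingOf_le Nst
  have hMF : Nst ≤ normalizer (fittingOf Nst : Set G) := fittingOf_normalized Nst
  have hcent : ∀ y ∈ fittingOf Nst, y ≠ 1 → centralizer ({y} : Set G) ≤ Nst := fun y hy hy1 =>
    cent_le_of_TI hG S.hNst hTI hFM hMF hy hy1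
  have hKQ : K ≤ Q := by
    have h := SS.hYQ
    rwa [hKeq] at h
  have hQn : Group.IsNilpotent Q := SS.hQp.isNilpotent
  have hQN : Q ≤ Nst := SS.hQle.trans hσst
  have hbσ := hAσ hbA
  have hbt : b ^ t = 1 := hAe.2 b hbA
  by_cases htp : t = p
  · rw [htp] at hbt
    have hbQ : b ∈ Q := SS.mem_of_pow hG S.hNst S.PX.hpH (hσst hbσ) (j := 1) (by simpa using hbt)
    exact hcent b (le_fittingOf hQN SS.hQM hQn hbQ) hb1
  obtain ⟨u, hu, d, hd, hbe⟩ := SS.hcompl.2.2.2 b hbσ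
  have hKE : K ≤ H ⊓ Nst := le_inf S.hKH (S.PX.hXσ.trans hσst)
  have hkb : ∀ k ∈ K, k * b = b * k := by
    intro k hk
    have hbN := mem_normalizer_iff.mp (SS.hQM (hσst hbσ))
    have hz1 : k * b * k⁻¹ * b⁻¹ ∈ A := A.mul_mem ((mem_normalizer_iff.mp (hAn (hKE hk)) b).mp hbA) (A.inv_mem hbA)
    have hz2 : k * b * k⁻¹ * b⁻¹ ∈ Q := by
      have h1 : b * k⁻¹ * b⁻¹ ∈ Q := (hbN _).mp (Q.inv_mem (hKQ hk))
      have e : k * b * k⁻¹ * b⁻¹ = k * (b * k⁻¹ * b⁻¹) := by group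
      rw [e]
      exact Q.mul_mem (hKQ hk) h1
    have h3 := eq_one_of_pow_of_isPGroup hpp htt htp SS.hQp hz2 (hAe.2 _ hz1)
    calc k * b = (k * b * k⁻¹ * b⁻¹) * (b * k) := by group
      _ = b * k := by rw [h3, one_mul]
  obtain ⟨ks, hks⟩ := (Subgroup.ne_bot_iff_exists_ne_one).mp hKs1
  have hks1 : (ks : G) ≠ 1 := fun e => hks (Subtype.ext e)
  have fr := SS.frobAct hB hG S.hNst hUst hn hqc ks.2 hks1
  have hDco : ∀ y ∈ D, (orderOf y).Coprime p := fun y hy =>
    Nat.Coprime.coprime_dvd_left (Subgroup.orderOf_dvd_natCard D hy) SS.hDc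
  have hQord : ∀ y ∈ Q, ∃ j : ℕ, orderOf y = p ^ j := by
    intro y hy
    obtain ⟨j, hj⟩ := IsPGroup.iff_card.mp SS.hQp
    have h1 : orderOf y ∣ p ^ j := by
      rw [← hj]
      exact Subgroup.orderOf_dvd_natCard Q hy
    obtain ⟨i, -, hi⟩ := (Nat.dvd_prime_pow hpp).1 h1
    exact ⟨i, hi⟩
  have hQDord : ∀ y ∈ Q, ∀ z ∈ D, (orderOf y).Coprime (orderOf z) := by
    intro y hy z hz
    obtain ⟨j, hj⟩ := hQord y hy
    rw [hj]
    exact Nat.Coprime.pow_left j (hDco z hz).symm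
  have hkd : ∀ k ∈ K, k * d = d * k := by
    intro k hk
    have hkQ := hKQ hk
    have h1 := hkb k hk
    rw [hbe] at h1
    set c := d * k * d⁻¹ * k⁻¹ with hc
    have e1 : c = u⁻¹ * k * u⁻¹⁻¹ * k⁻¹ := by
      have h2 : d * k = u⁻¹ * k * u * d := by
        calc d * k = u⁻¹ * (u * d * k) := by group
          _ = u⁻¹ * (k * (u * d)) := by rw [h1]
          _ = u⁻¹ * k * u * d := by group
      calc c = (d * k) * d⁻¹ * k⁻¹ := rfl
        _ = (u⁻¹ * k * u * d) * d⁻¹ * k⁻¹ := by rw [h2]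
        _ = u⁻¹ * k * u⁻¹⁻¹ * k⁻¹ := by group
    have hcC : c ∈ centralizer (D : Set G) := by
      rw [e1]
      exact fr.comm_mem (Q.inv_mem hu) hkQ
    have hcQ : c ∈ Q := by
      rw [e1]
      exact Q.mul_mem (Q.mul_mem (Q.mul_mem (Q.inv_mem hu) hkQ) (Q.inv_mem (Q.inv_mem hu))) (Q.inv_mem hkQ)
    have hcd : d * c = c * d := mem_centralizer_iff.mp hcC d hd
    have hdk : d * k = c * k * d := by
      rw [hc]
      group
    have hpow : ∀ n : ℕ, d ^ n * k = c ^ n * k * d ^ n := by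
      intro n
      induction n with
      | zero => simp
      | succ n ih =>
        have h3 : d * c ^ n = c ^ n * d := ((show Commute d c from hcd).pow_right n).eq
        calc d ^ (n + 1) * k = d * (d ^ n * k) := by rw [pow_succ', mul_assoc]
          _ = d * (c ^ n * k * d ^ n) := by rw [ih]
          _ = (d * c ^ n) * k * d ^ n := by group
          _ = (c ^ n * d) * k * d ^ n := by rw [h3]
          _ = c ^ n * (d * k) * d ^ n := by group
          _ = c ^ n * (c * k * d) * d ^ n := by rw [hdk]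
          _ = c ^ (n + 1) * k * d ^ (n + 1) := by rw [pow_succ c, pow_succ' d]; group
    have h2 := hpow (orderOf d)
    rw [pow_orderOf_eq_one, one_mul, mul_one] at h2
    have h3 : c ^ orderOf d = 1 := by
      have h4 : c ^ orderOf d * k = 1 * k := by rw [one_mul]; exact h2.symm
      exact mul_right_cancel h4
    have h4 : orderOf c = 1 := Nat.Coprime.eq_one_of_dvd (hQDord c hcQ d hd) (orderOf_dvd_of_pow_eq_one h3)
    have h5 : c = 1 := orderOf_eq_one_iff.mp h4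
    have h6 : d * k = k * d := by
      calc d * k = c * (k * d) := by rw [hdk, mul_assoc]
        _ = k * d := by rw [h5, one_mul]
    exact h6.symm
  set B := D ⊓ centralizer (K : Set G) with hBdef
  have hdB : d ∈ B := Subgroup.mem_inf.mpr ⟨hd, mem_centralizer_iff.mpr hkd⟩
  have hzKs : zpowers (ks : G) ≤ Ks := zpowers_le.mpr ks.2
  have hE1 : zpowers (ks : G) ≠ ⊥ := by
    intro e
    rw [zpowers_eq_bot] at e
    exact hks1 e
  have hKsK : ∀ e ∈ zpowers (ks : G), ∀ k ∈ K, k * e = e * k := fun e he k hk =>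
    mem_centralizer_iff.mp (hzKs he).2 k hk
  have hBN : B ≤ Nst := (inf_le_left.trans SS.hDle).trans hσst
  have hf := frobenius_fix_formula B (zpowers (ks : G)) Q hE1 ?_ ?_ ?_ ?_ ?_
  rotate_left
  · intro e he v hv
    refine Subgroup.mem_inf.mpr ⟨(mem_normalizer_iff.mp (SS.hKD (hzKs he)) v).mp hv.1, ?_⟩
    rw [mem_centralizer_iff]
    intro k hk
    have h1 := hKsK e he k hk
    have h2 := mem_centralizer_iff.mp hv.2 k hk
    have h1' : k * e⁻¹ = e⁻¹ * k := ((show Commute k e from h1).inv_right).eq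
    calc k * (e * v * e⁻¹) = (k * e) * v * e⁻¹ := by group
      _ = (e * k) * v * e⁻¹ := by rw [h1]
      _ = e * (k * v) * e⁻¹ := by group
      _ = e * (v * k) * e⁻¹ := by rw [h2]
      _ = e * v * (k * e⁻¹) := by group
      _ = e * v * (e⁻¹ * k) := by rw [h1']
      _ = e * v * e⁻¹ * k := by group
  · intro e he he1 v hv hc
    exact fr.hfpf e he he1 v hv.1 hc
  · intro y hy h hh
    have hyN : y ∈ Nst := (sup_le hBN (hzKs.trans S.hKstH.1)) hy
    exact (mem_normalizer_iff.mp (SS.hQM hyN) h).mp hh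
  · exact IsNilpotent.to_isSolvable
  · exact Nat.Coprime.coprime_dvd_right (Subgroup.card_dvd_of_le (sup_le_sup_right inf_le_left _)) fr.hcop
  have eC1 : Q ⊓ centralizer (zpowers (ks : G) : Set G) = K := by
    refine (Subgroup.eq_of_le_of_card_ge (le_inf hKQ ?_) ?_).symm
    · intro k hk
      rw [mem_centralizer_iff]
      intro e he
      exact (hKsK e he k hk).symm
    · rw [fr.hY, S.hKc]
  have eC2 : Q ⊓ centralizer ((B ⊔ zpowers (ks : G) : Subgroup G) : Set G) = K := by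
    apply le_antisymm
    · rw [← eC1]
      exact inf_le_inf_left _ (centralizer_le (le_sup_right : zpowers (ks : G) ≤ B ⊔ zpowers (ks : G)))
    · refine le_inf hKQ ?_
      rw [centralizer_sup_aux]
      refine le_inf ?_ ?_
      · intro k hk
        rw [mem_centralizer_iff]
        intro v hv
        exact (mem_centralizer_iff.mp hv.2 k hk).symm
      · intro k hk
        rw [mem_centralizer_iff]
        intro e he
        exact (hKsK e he k hk).symm
  rw [eC1, eC2, S.hKc] at hf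
  have hf2 : Nat.card Q = Nat.card ↥(Q ⊓ centralizer (B : Set G)) :=
    Nat.eq_of_mul_eq_mul_left (pow_pos hpp.pos _) hf
  have hQC : Q ≤ centralizer (B : Set G) :=
    inf_eq_left.mp (Subgroup.eq_of_le_of_card_ge inf_le_left (by rw [← hf2]))
  have hud : u * d = d * u := (mem_centralizer_iff.mp (hQC hu) d hdB).symm
  have hu1 : u = 1 := by
    have h1 : (u * d) ^ t = u ^ t * d ^ t := (show Commute u d from hud).mul_pow t
    rw [← hbe, hbt] at h1
    have h2 : u ^ t = (d ^ t)⁻¹ := eq_inv_of_mul_eq_one_left h1.symm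
    have h3 : u ^ t ∈ Q ⊓ D := Subgroup.mem_inf.mpr ⟨Q.pow_mem hu t, by
      rw [h2]
      exact D.inv_mem (D.pow_mem hd t)⟩
    rw [SS.hcompl.2.2.1, Subgroup.mem_bot] at h3
    exact eq_one_of_pow_of_isPGroup hpp htt htp SS.hQp hu h3
  have hbd : b = d := by rw [hbe, hu1, one_mul]
  have hbC : b ∈ centralizer (Q : Set G) := by
    rw [mem_centralizer_iff]
    intro y hy
    rw [hbd]
    exact (mem_centralizer_iff.mp (hQC hy) d hdB).symm
  set C₀ := sigmaCore Nst ⊓ centralizer (Q : Set G) with hC₀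
  have hC₀nil : Group.IsNilpotent C₀ := by
    have h1 : Group.IsNilpotent ↥(Q ⊓ centralizer (Q : Set G)) := isNilpotent_of_le_aux inf_le_left hQn
    have h2 : Group.IsNilpotent ↥(D ⊓ centralizer (Q : Set G)) := isNilpotent_of_le_aux inf_le_left SS.hDnil
    have h3 := nilpotent_sup_aux h1 h2 (fun a ha b' hb' => (mem_centralizer_iff.mp hb'.2 a ha.1))
    refine isNilpotent_of_le_aux ?_ h3
    intro c hc
    obtain ⟨u', hu', d', hd', e⟩ := SS.hcompl.2.2.2 c hc.1
    have hcQ := hc.2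
    have hud' : u' * d' = d' * u' := by
      have h4 := mem_centralizer_iff.mp hcQ u' hu'
      rw [e] at h4
      have h5 : u' * (u' * d') = u' * (d' * u') := by rw [h4, mul_assoc]
      exact mul_left_cancel h5
    have hd'z : d' ∈ zpowers (u' * d') := mem_zpowers_of_commute_coprime hud' (hQDord u' hu' d' hd')
    rw [← e] at hd'z
    have hd'C : d' ∈ centralizer (Q : Set G) := (zpowers_le.mpr hcQ) hd'z
    have hu'C : u' ∈ centralizer (Q : Set G) := by
      have e2 : u' = c * d'⁻¹ := by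
        rw [e]
        group
      rw [e2]
      exact mul_mem hcQ (inv_mem hd'C)
    rw [e]
    exact Subgroup.mul_mem_sup ⟨hu', hu'C⟩ ⟨hd', hd'C⟩
  have hC₀n : Nst ≤ normalizer (C₀ : Set G) := by
    intro g hg
    refine mem_normalizer_of_conj_le _ g fun y hy => ?_
    have hσn := le_normalizer_piCoreOf (sigma Nst) Nst hg
    refine ⟨(mem_normalizer_iff.mp hσn y).mp hy.1, ?_⟩
    show g * y * g⁻¹ ∈ centralizer (Q : Set G)
    rw [mem_centralizer_iff]
    intro z hz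
    have h1 : g⁻¹ * z * g ∈ Q := by
      simpa using (mem_normalizer_iff.mp (SS.hQM (Nst.inv_mem hg)) z).mp hz
    have h2 := mem_centralizer_iff.mp hy.2 _ h1
    calc z * (g * y * g⁻¹) = g * ((g⁻¹ * z * g) * y) * g⁻¹ := by group
      _ = g * (y * (g⁻¹ * z * g)) * g⁻¹ := by rw [h2]
      _ = g * y * g⁻¹ * z := by group
  have hC₀F := le_fittingOf (inf_le_left.trans hσst) hC₀n hC₀nil
  exact hcent b (hC₀F ⟨hbσ, hbC⟩) hb1

/-- The case of nilpotent `σ(N*)`. -/
theorem false_of_nilpotent [Fact p.Prime] (S : FrobSit N K U Nst H p x₀) (hB : ThmB G) (hG : IsMinSimpleOddOrder G)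
    {t : ℕ} [Fact t.Prime] (hτ : t ∈ tau2 H) {A : Subgroup G} (T2 : Tau2Setup t A H) (hAE : A ≤ H ⊓ Nst)
    (hAe : IsElementaryAbelian t A) (hAc : Nat.card A = t ^ 2) (hAσ : A ≤ sigmaCore Nst)
    (hUst : IsSigmaDecomposition Nst (sigmaCore N ⊓ centralizer (K : Set G)) ⊥)
    (hn : Group.IsNilpotent (sigmaCore Nst)) : False := by
  classical
  have hpp : p.Prime := Fact.out
  have htt : t.Prime := Fact.out
  have huniq := huniq13 hG
  have hpl : ∀ (r : ℕ) [Fact r.Prime] (H : Subgroup G), H ≠ ⊤ → PLengthLE r 1 ↥H := fun r _ K hK => hpl13 hG r K hK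
  have h1412 := h1412_of hG
  set Ks := sigmaCore N ⊓ centralizer (K : Set G) with hKs
  have hKs1 : Ks ≠ ⊥ := Kstar_ne_bot hG hB S.hN S.hKU.hall S.hK1
  have hσst : sigmaCore Nst ≤ Nst := piCoreOf_le _ Nst
  have hUc := U_isMulCommutative hB hG S.hN S.hKU S.hK1
  have hS : ¬ ∀ S' : Sylow t G, ¬ IsMulCommutative (S' : Subgroup G) := by
    intro hS
    obtain ⟨-, ⟨hc, -⟩, -⟩ := s1419_core hG huniq hpl h1412 H S.hH (H ⊓ Nst) S.hC t hτ hS A ⟨hAE, hAe, hAc⟩
    obtain ⟨a, ha, ha1⟩ := exists_ne_one_of_card_prime htt hc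
    have haA : a ∈ A := ha.1
    have haC : a ∈ centralizer (sigmaCore H : Set G) := ha.2
    have hax : a ∈ centralizer ({x₀} : Set G) := by
      rw [mem_centralizer_singleton_iff]
      exact (mem_centralizer_iff.mp haC x₀ (S.hUσ S.hx₀U)).symm
    have hainf : a ∈ U ⊔ K := by
      rw [← S.hinf]
      exact ⟨S.hx₀N hax, (hAE.trans inf_le_left) haA⟩
    obtain ⟨u, hu, k, hk, e⟩ := (Cfsg.Agent.Lib.Coprime.mem_sup_iff_of_le_normalizer S.hKU.normal a).mp hainf
    have hk1 : k = 1 := by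
      by_contra hk1
      apply S.hU1
      rw [eq_bot_iff]
      intro v hv
      refine U_free hB hG S.hN S.hKU hk hk1 hv ?_
      have h1 := mem_centralizer_iff.mp haC v (S.hUσ hv)
      rw [e] at h1
      have h2 : u * v = v * u := congrArg Subtype.val (hUc.is_comm.comm ⟨u, hu⟩ ⟨v, hv⟩)
      have h3 : u * (k * v) = u * (v * k) := by
        calc u * (k * v) = (u * k) * v := by group
          _ = v * (u * k) := h1.symm
          _ = (v * u) * k := by group
          _ = (u * v) * k := by rw [h2]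
          _ = u * (v * k) := by group
      exact mul_left_cancel h3
    rw [hk1, mul_one] at e
    have h1 : a ∈ sigmaCore H ⊓ Nst := ⟨by rw [e]; exact S.hUσ hu, (hAE.trans inf_le_right) haA⟩
    rw [S.hW] at h1
    exact ha1 h1
  push Not at hS
  obtain ⟨S₀, hS₀⟩ := hS
  have hT₁ : ∀ a ∈ Oq t (sigmaCore Nst), ∀ y ∈ Oq t (sigmaCore Nst), a * y = y * a := by
    intro a ha y hy
    obtain ⟨P, hP⟩ := (Oq_isPGroup t (sigmaCore Nst)).exists_le_sylow
    let e := Sylow.equiv P S₀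
    have h1 := hS₀.is_comm.comm (e ⟨a, hP ha⟩) (e ⟨y, hP hy⟩)
    rw [← map_mul, ← map_mul] at h1
    have h2 := e.injective h1
    exact congrArg Subtype.val h2
  have hAO : A ≤ Oq t (sigmaCore Nst) := fun a ha =>
    mem_Oq hn (hAσ ha) (k := 1) (by simpa using hAe.2 a ha)
  have hFC : sigmaCore Nst ≤ centralizer (A : Set G) := by
    intro f hf
    rw [mem_centralizer_iff]
    intro a ha
    refine comm_of_forall_Oq hn (u := a) (fun s _ => ?_) f hf
    have hss : s.Prime := Fact.out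
    rw [mem_centralizer_iff]
    intro y hy
    by_cases hst : s = t
    · subst hst
      exact hT₁ y hy a (hAO ha)
    · refine comm_of_coprime_of_nilpotent_subgroup hn (Oq_le s _ hy) (hAσ ha) ?_
      obtain ⟨j, hj⟩ := IsPGroup.iff_card.mp (Oq_isPGroup s (sigmaCore Nst))
      have h1 : orderOf y ∣ s ^ j := by
        rw [← hj]
        exact Subgroup.orderOf_dvd_natCard _ hy
      have h2 : orderOf a ∣ t := orderOf_dvd_of_pow_eq_one (hAe.2 a ha)
      exact Nat.Coprime.coprime_dvd_left h1 (Nat.Coprime.coprime_dvd_right h2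
        (Nat.Coprime.pow_left j ((Nat.coprime_primes hss htt).mpr hst)))
  have hFH : sigmaCore Nst ≤ H := hFC.trans T2.hCM
  have hFE : sigmaCore Nst ≤ H ⊓ Nst := le_inf hFH hσst
  have habel : IsMulCommutative (sigmaCore Nst) := s1420_a hG huniq hpl h1412 S.hH _ hFH hn
    (fun q hq hd => compl_prime_not_sigma hG S.hH S.hC hq (hd.trans (Subgroup.card_dvd_of_le hFE)))
  obtain ⟨h1, h2⟩ := s1365_core hB hG S.hNst hUst hKs1
  rw [bot_sup_eq] at h1
  rw [h1, ← S.hKst] at h2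
  apply S.hK1
  rw [eq_bot_iff]
  refine h2.trans (Subgroup.commutator_le.mpr fun a ha b hb => ?_)
  have h3 : a * b = b * a := congrArg Subtype.val (habel.is_comm.comm ⟨a, ha⟩ ⟨b, hb⟩)
  rw [Subgroup.mem_bot, commutatorElement_def, h3]
  group

/-- The data attached to a prime in `τ₂(H)`. -/
theorem exists_A [Fact p.Prime] (S : FrobSit N K U Nst H p x₀) (hB : ThmB G) (hG : IsMinSimpleOddOrder G)
    {t : ℕ} [Fact t.Prime] (hτ : t ∈ tau2 H) :
    ∃ A : Subgroup G, Tau2Setup t A H ∧ A ≤ H ⊓ Nst ∧ IsElementaryAbelian t A ∧ Nat.card A = t ^ 2 ∧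
      A ≤ sigmaCore Nst := by
  classical
  have hpp : p.Prime := Fact.out
  have htt : t.Prime := Fact.out
  have huniq := huniq13 hG
  have hpl := hpl13 hG
  have h1412 := h1412_of hG
  have hH := S.hH
  have PX := S.PX
  have hE := S.hC
  have hpH := S.hpH
  have hD := S.hD
  have hM := S.hN
  have hKU := S.hKU
  have hK1 := S.hK1
  have hU1 := S.hU1
  have hXE : K ≤ H ⊓ Nst := le_inf S.hKH (S.PX.hXσ.trans (piCoreOf_le _ Nst))
  have hnotconj := S.hnotconj
  obtain ⟨x, hx, hx1⟩ := exists_ne_one_of_card_prime hpp PX.hC.hX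
  have hXz : K = zpowers x := eq_zpowers_of_card_prime PX.hC.hX hx hx1
  have hX1 : K ≠ ⊥ := ne_bot_of_card_prime hpp PX.hC.hX
  have hXH : K ≤ H := hXE.trans hE.1
  have hσ1 := sigmaCore_ne_bot hG huniq hH
  have htσ : t ∉ sigma H := hτ.2.1
  have hr : ¬ PRankLE t 1 ↥H := hτ.2.2.2
  have hr2 : PRankLE t 2 ↥H := hτ.2.2.1
  obtain ⟨A₀, hA₀e, hA₀H, hA₀c⟩ := exists_of_not_prank hr
  have hA₀sq : Nat.card A₀ = t ^ 2 := card_eq_sq_of_bounds hA₀e hA₀c (card_le_of_prank hr2 hA₀e hA₀H)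
  have hEH := isPiHallOf_compl hG hH hE
  have hA₀p : IsPGroup t A₀ := isPGroup_of_elem hA₀e
  obtain ⟨c, hc, hcle⟩ := IsPiHallOf.exists_conj_ge (coatom_isSolvable hG hH) hEH hA₀H (by
    intro s hs hd
    obtain ⟨k, hk⟩ := IsPGroup.iff_card.mp hA₀p
    rw [hk] at hd
    rw [Set.mem_setOf_eq, (Nat.prime_dvd_prime_iff_eq hs htt).mp (hs.dvd_of_dvd_pow hd)]
    exact htσ)
  set A := A₀.map (MulAut.conj c⁻¹).toMonoidHom with hA
  have hAE : A ≤ H ⊓ Nst := by
    have h1 := conj_map_mono hcle c⁻¹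
    rwa [conj_map_conj_map, inv_mul_cancel, conj_map_one] at h1
  have hAe : IsElementaryAbelian t A := elem_conj_map hA₀e _
  have hAc : Nat.card A = t ^ 2 := by
    rw [hA, Cfsg.Agent.Lib.Coprime.card_conj_map, hA₀sq]
  have T2 : Tau2Setup t A H := Tau2Setup.mk' hG huniq hpl hH (hAE.trans hE.1) hAe hAc htσ
  have hEn : H ⊓ Nst ≤ normalizer (A : Set G) := T2.compl_le_normalizer hE hAE
  have hnotN : ¬ normalizer (A : Set G) ≤ H := T2.not_norm_A_le
  obtain ⟨hs17, hs17b, -, hs17d, -, -⟩ := s1417_core hG huniq hpl h1412 H hH t hτ A ⟨hAE.trans hE.1, hAe, hAc⟩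
  have hA1 : A ≠ ⊥ := by
    rintro e
    rw [e, Subgroup.card_bot] at hAc
    have := htt.one_lt
    nlinarith
  have hAt : A ≠ ⊤ := fun e => hH.1 (top_le_iff.1 (e ▸ (hAE.trans hE.1)))
  obtain ⟨L, hL, hNL⟩ := (eq_top_or_exists_le_coatom (normalizer (A : Set G))).resolve_left
    (IsMinSimpleOddOrder.normalizer_ne_top hG hA1 hAt)
  have hAL : A ≤ L := le_normalizer.trans hNL
  have htL : t ∈ sigma L := by
    by_contra htL
    have T3 : Tau2Setup t A L := Tau2Setup.mk' hG huniq hpl hL hAL hAe hAc htL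
    exact T3.not_norm_A_le hNL
  have hAσ : A ≤ sigmaCore L := le_sigmaCore_of_isPGroup hG huniq hL htL (isPGroup_of_elem hAe) hAL
  have hXL : K ≤ L := (hXE.trans hEn).trans hNL
  have hLM : L = Nst := by
    by_cases htp : t = p
    · have hpL : p ∈ sigma L := htp ▸ htL
      exact eq_partner_of_sigma hB hG PX hL hXL hpL
    · -- a fixed point of `X` on `A`
      obtain ⟨a, haA, ha1, hax⟩ : ∃ a ∈ A, a ≠ 1 ∧ x * a = a * x := by
        by_contra hcon
        push Not at hcon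
        have hfA : ∀ e ∈ K, e ≠ 1 → ∀ u ∈ A, e * u = u * e → u = 1 := by
          intro e he he1 u hu heu
          by_contra hu1
          refine hcon u hu hu1 ?_
          have hze : zpowers e = K := (eq_zpowers_of_card_prime PX.hC.hX he he1).symm
          have hxe : x ∈ zpowers e := hze ▸ hx
          obtain ⟨i, hi⟩ := hxe
          have hi' : e ^ i = x := hi
          rw [← hi']
          exact ((Commute.zpow_left (show Commute e u from heu) i)).eq
        have hcA := sigmaCore_le_centralizer_of_free hG hH PX.hC.hX hX1 hXH hpH hD htσ (hAE.trans hE.1) (fun s hs hd => by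
          rw [hAc] at hd
          exact (Nat.prime_dvd_prime_iff_eq hs htt).mp (hs.dvd_of_dvd_pow hd)) (hXE.trans hEn) hfA
        apply hσ1
        rw [eq_bot_iff, ← hs17d]
        exact le_inf le_rfl hcA
      have hDL : sigmaCore L ⊓ centralizer (K : Set G) ≠ ⊥ := by
        intro e
        have h1 : a ∈ sigmaCore L ⊓ centralizer (K : Set G) := by
          refine Subgroup.mem_inf.mpr ⟨hAσ haA, ?_⟩
          rw [hXz, centralizer_zpowers_eq, mem_centralizer_singleton_iff]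
          exact hax.symm
        rw [e] at h1
        exact ha1 h1
      rcases partner_dichotomy hB hG hM hKU.hall le_rfl PX hL hXL hDL with e | ⟨g, e⟩
      · exact e
      · exfalso
        -- `L ~ M` is impossible: `F(M)` is a TI-subset
        obtain ⟨b, hbA, hb1, hgood⟩ := T2.exists_good
        have huq := T2.uniq hbA hgood
        have hb' : b ∈ (sigmaCore N).map (MulAut.conj g).toMonoidHom := by
          have h1 := hAσ hbA
          rw [e, sigmaCore_conj] at h1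
          exact h1
        obtain ⟨b₀, hb₀, eb⟩ := hb'
        have eb' : g * b₀ * g⁻¹ = b := eb
        have hb₀1 : b₀ ≠ 1 := by
          rintro rfl
          apply hb1
          rw [← eb']
          group
        have hCb := cent_le_of_U_ne hB hG hM hKU hK1 hU1 hb₀ hb₀1
        have hCL : centralizer ({b} : Set G) ≤ L := by
          intro z hz
          rw [mem_centralizer_singleton_iff] at hz
          have h2 : g⁻¹ * z * g ∈ centralizer ({b₀} : Set G) := by
            rw [mem_centralizer_singleton_iff]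
            have e3 : b₀ = g⁻¹ * b * g := by
              rw [← eb']
              group
            rw [e3]
            calc g⁻¹ * z * g * (g⁻¹ * b * g) = g⁻¹ * (z * b) * g := by group
              _ = g⁻¹ * (b * z) * g := by rw [hz]
              _ = g⁻¹ * b * g * (g⁻¹ * z * g) := by group
          rw [e]
          exact ⟨g⁻¹ * z * g, hCb h2, by
            change g * (g⁻¹ * z * g) * g⁻¹ = z
            group⟩
        have e4 := huq L hL hCL
        exact hnotN (e4 ▸ hNL)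
  rw [hLM] at hAσ
  exact ⟨A, T2, hAE, hAe, hAc, hAσ⟩

/-- `τ₂(H) = ∅`. -/
theorem tau2_empty [Fact p.Prime] (S : FrobSit N K U Nst H p x₀) (hB : ThmB G) (hG : IsMinSimpleOddOrder G)
    {t : ℕ} : t ∉ tau2 H := by
  classical
  intro hτ
  haveI := Fact.mk hτ.1
  obtain ⟨A, T2, hAE, hAe, hAc, hAσ⟩ := S.exists_A hB hG hτ
  have hKs1 : sigmaCore N ⊓ centralizer (K : Set G) ≠ ⊥ := Kstar_ne_bot hG hB S.hN S.hKU.hall S.hK1
  obtain ⟨Ust, hUst⟩ := (s1352_core hB hG S.hNst (kappa_cyclic hB hG S.hNst S.hKstH) S.hKstH).1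
  obtain ⟨b, hbA, hb1, hgood⟩ := T2.exists_good
  have huq := T2.uniq hbA hgood
  have hbnot : ¬ centralizer ({b} : Set G) ≤ Nst := fun h => by
    have e := huq Nst S.hNst h
    exact S.hpH (e ▸ S.PX.hpH)
  have hUst1 : Ust = ⊥ := by
    by_contra hne
    exact hbnot (cent_le_of_U_ne hB hG S.hNst hUst hKs1 hne (hAσ hbA) hb1)
  subst hUst1
  by_cases hn : Group.IsNilpotent (sigmaCore Nst)
  · exact S.false_of_nilpotent hB hG hτ T2 hAE hAe hAc hAσ hUst hn
  · exact hbnot (S.cent_le_of_not_nilpotent hB hG (T2.compl_le_normalizer S.hC hAE) hAe hAσ hUst hn hbA hb1)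

/-- All of `H`'s primes outside `σ(H)` have rank one. -/
theorem prank_one [Fact p.Prime] (S : FrobSit N K U Nst H p x₀) (hB : ThmB G) (hG : IsMinSimpleOddOrder G)
    {q : ℕ} (hq : q.Prime) (hσ : q ∉ sigma H) : PRankLE q 1 ↥H := by
  by_contra h
  have hr2 : PRankLE q 2 ↥H := by
    by_contra h2
    haveI := Fact.mk hq
    exact hσ (alpha_sub_sigma hG (huniq13 hG) S.hH ⟨hq, h2⟩)
  exact S.tau2_empty hB hG ⟨hq, hσ, hr2, h⟩

/-- Elements of `H ⊓ N*` act freely on `σ(H)`. -/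
theorem free [Fact p.Prime] (S : FrobSit N K U Nst H p x₀) (hB : ThmB G) (hG : IsMinSimpleOddOrder G)
    {e : G} (he : e ∈ H ⊓ Nst) (he1 : e ≠ 1) : sigmaCore H ⊓ centralizer ({e} : Set G) = ⊥ := by
  classical
  have huniq := huniq13 hG
  have hE := S.hC
  have hEs : Group.IsSolvable ↥(H ⊓ Nst) := by
    have hs := coatom_isSolvable hG S.hH
    exact solvable_of_solvable_injective (f := Subgroup.inclusion hE.1) (Subgroup.inclusion_injective hE.1)
  have hdec : IsSigmaDecomposition H ⊥ (H ⊓ Nst) := by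
    refine ⟨inferInstance, ⟨bot_le, fun q hq hd => ?_, fun q hq hk => ?_⟩, ?_, bot_le⟩
    · rw [Subgroup.card_bot] at hd
      exact absurd (Nat.dvd_one.mp hd) hq.one_lt.ne'
    · rw [S.hκ] at hk
      exact hk.elim
    · rw [bot_sup_eq]
      exact hE
  refine free_of_tau13_in_U hG huniq S.hH hdec he he1 fun q hq hd => ?_
  have hqE : q ∣ Nat.card ↥(H ⊓ Nst) := hd.trans (Subgroup.orderOf_dvd_natCard _ he)
  have hσ := compl_prime_not_sigma hG S.hH hE hq hqE
  have hqH : q ∣ Nat.card H := hqE.trans (Subgroup.card_dvd_of_le hE.1)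
  by_cases hq' : q ∣ Nat.card ↥⁅H, H⁆
  · exact Or.inr ⟨hq, hσ, hq', S.prank_one hB hG hq hσ⟩
  · exact Or.inl ⟨hq, hσ, hqH, hq', S.prank_one hB hG hq hσ⟩

end FrobSit

/-- An odd solvable group of order prime to `r` acts on an elementary abelian group of order `r` or `r²` as
an abelian group. -/
theorem rep_commutator_trivial {T V : Type*} [Group T] [Finite T] [Group V] [Finite V] (r : ℕ) [Fact r.Prime] (hr : r ≠ 2)
    (hodd : Odd (Nat.card T)) (hs : Group.IsSolvable T) (hcop : ¬ r ∣ Nat.card T) (hcomm : ∀ a b : V, a * b = b * a)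
    (hexp : ∀ a : V, a ^ r = 1) (hcard : Nat.card V = r ∨ Nat.card V = r ^ 2) (ρ : T →* MulAut V) (a b : T) (v : V) :
    ρ (a * b * a⁻¹ * b⁻¹) v = v := by
  classical
  rcases hcard with h1 | h2
  · haveI : Fact (Nat.card V).Prime := ⟨h1 ▸ Fact.out⟩
    haveI : IsCyclic V := isCyclic_of_prime_card rfl
    have h3 : ρ a * ρ b = ρ b * ρ a := by
      apply (IsCyclic.mulAutMulEquiv V).injective
      rw [map_mul, map_mul, mul_comm]
    have h4 : ρ (a * b * a⁻¹ * b⁻¹) = 1 := by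
      rw [map_mul, map_mul, map_mul, map_inv, map_inv, h3]
      group
    rw [h4]
    rfl
  · obtain ⟨φ, hφ⟩ := exists_gl2_rep r hcomm hexp h2 ρ
    set L := φ.range with hL
    have hsurj : Function.Surjective φ.rangeRestrict := φ.rangeRestrict_surjective
    haveI : Finite L := Finite.of_surjective _ hsurj
    have hdvd := Subgroup.card_dvd_of_surjective _ hsurj
    have hoddL : Odd (Nat.card L) := Odd.of_dvd_nat hodd hdvd
    have hsL : Group.IsSolvable L := Group.isSolvable_of_surjective hsurj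
    have hcomm2 := gl2_comm_of_coprime (F := ZMod r) r hr _ L rfl hoddL (fun h => hcop (h.trans hdvd)) hsL
    have h3 := hcomm2 (φ a) ⟨a, rfl⟩ (φ b) ⟨b, rfl⟩
    refine hφ _ ?_ v
    rw [map_mul, map_mul, map_mul, map_inv, map_inv, h3]
    group

namespace FrobSit

variable {N K U Nst H : Subgroup G} {p : ℕ} {x₀ : G}

/-- `H ⊓ N*` is abelian. -/
theorem comm [Fact p.Prime] (S : FrobSit N K U Nst H p x₀) (hB : ThmB G) (hG : IsMinSimpleOddOrder G)
    (hx₀r : (orderOf x₀).Prime) (hτN : orderOf x₀ ∈ tau2 N) {a b : G} (ha : a ∈ H ⊓ Nst) (hb : b ∈ H ⊓ Nst) :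
    a * b = b * a := by
  classical
  set r := orderOf x₀ with hr
  haveI : Fact r.Prime := ⟨hx₀r⟩
  have huniq := huniq13 hG
  have hnil := S.hnil
  have hx₀σ : x₀ ∈ sigmaCore H := S.hUσ S.hx₀U
  have hrσ : r ∈ sigma H := sigma_of_mem_sigmaCore hx₀σ hx₀r dvd_rfl
  have hσn : H ≤ normalizer (sigmaCore H : Set G) := le_normalizer_piCoreOf (sigma H) H
  set Q₁ := Oq r (sigmaCore H) with hQ₁
  have hQ₁n : H ≤ normalizer (Q₁ : Set G) := fun e he => mem_normalizer_Oq hnil (hσn he)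
  have hQ₁p : IsPGroup r Q₁ := Oq_isPGroup r _
  have hx₀Q : x₀ ∈ Q₁ := mem_Oq hnil hx₀σ (k := 1) (by
    rw [pow_one, hr]
    exact pow_orderOf_eq_one x₀)
  -- the subgroup `V = Ω₁(Z(Q₁))`
  let V : Subgroup G :=
    { carrier := {v | v ∈ Q₁ ∧ v ∈ centralizer (Q₁ : Set G) ∧ v ^ r = 1}
      mul_mem' := by
        rintro u v ⟨hu1, hu2, hu3⟩ ⟨hv1, hv2, hv3⟩
        refine ⟨Q₁.mul_mem hu1 hv1, mul_mem hu2 hv2, ?_⟩
        have h1 : u * v = v * u := (mem_centralizer_iff.mp hv2 u hu1)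
        rw [(show Commute u v from h1).mul_pow, hu3, hv3, one_mul]
      one_mem' := ⟨Q₁.one_mem, one_mem _, one_pow _⟩
      inv_mem' := by
        rintro u ⟨hu1, hu2, hu3⟩
        exact ⟨Q₁.inv_mem hu1, inv_mem hu2, by rw [inv_pow, hu3, inv_one]⟩ }
  have hVmem : ∀ v, v ∈ V ↔ v ∈ Q₁ ∧ v ∈ centralizer (Q₁ : Set G) ∧ v ^ r = 1 := fun v => Iff.rfl
  have hVσ : V ≤ sigmaCore H := fun v hv => Oq_le r _ hv.1
  have hVN : V ≤ N := by
    intro v hv
    apply S.hx₀N
    rw [mem_centralizer_singleton_iff]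
    exact (mem_centralizer_iff.mp hv.2.1 x₀ hx₀Q).symm
  have hVcomm : ∀ u ∈ V, ∀ v ∈ V, u * v = v * u := fun u hu v hv => mem_centralizer_iff.mp hv.2.1 u hu.1
  have hVe : IsElementaryAbelian r V := ⟨⟨⟨fun u v => Subtype.ext (hVcomm u u.2 v v.2)⟩⟩, fun v hv => hv.2.2⟩
  have hVc2 : Nat.card V ≤ r ^ 2 := card_le_of_prank hτN.2.2.1 hVe hVN
  -- `V ≠ 1`
  have hV1 : V ≠ ⊥ := by
    have hQ1 : Nontrivial Q₁ := by
      refine ⟨⟨⟨x₀, hx₀Q⟩, 1, fun e => S.hx₀1 (congrArg Subtype.val e)⟩⟩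
    have hZ := hQ₁p.center_nontrivial
    obtain ⟨z, hz⟩ := exists_ne (1 : center ↥Q₁)
    have hz1 : ((z : ↥Q₁) : G) ≠ 1 := fun e => hz (Subtype.ext (Subtype.ext e))
    have hzC : ∀ y ∈ Q₁, y * ((z : ↥Q₁) : G) = ((z : ↥Q₁) : G) * y := by
      intro y hy
      have h1 := (Subgroup.mem_center_iff.mp z.2) ⟨y, hy⟩
      exact congrArg Subtype.val h1
    have hord : orderOf ((z : ↥Q₁) : G) ≠ 1 := fun h => hz1 (orderOf_eq_one_iff.1 h)
    obtain ⟨j, hj⟩ := Cfsg.Agent.Lib.PGroups.exists_orderOf_of_mem_isPGroup hQ₁p (z : ↥Q₁).2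
    have hj0 : j ≠ 0 := by
      rintro rfl
      apply hord
      rw [hj, pow_zero]
    have hrd : r ∣ orderOf ((z : ↥Q₁) : G) := by
      rw [hj]
      exact dvd_pow_self r hj0
    obtain ⟨v, hvz, hvo⟩ := exists_mem_zpowers_orderOf hrd
    have hvV : v ∈ V := by
      refine ⟨(zpowers_le.mpr (z : ↥Q₁).2) hvz, ?_, ?_⟩
      · refine (zpowers_le.mpr ?_) hvz
        rw [mem_centralizer_iff]
        exact hzC
      · rw [← hvo]
        exact pow_orderOf_eq_one v
    intro e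
    rw [e, Subgroup.mem_bot] at hvV
    rw [hvV, orderOf_one] at hvo
    exact hx₀r.one_lt.ne hvo
  obtain ⟨v₀, hv₀⟩ := (Subgroup.ne_bot_iff_exists_ne_one).mp hV1
  have hv₀1 : (v₀ : G) ≠ 1 := fun e => hv₀ (Subtype.ext e)
  -- card of `V`
  have hVp : IsPGroup r V := isPGroup_of_elem hVe
  obtain ⟨k, hk⟩ := IsPGroup.iff_card.mp hVp
  have hk12 : Nat.card V = r ∨ Nat.card V = r ^ 2 := by
    have hk0 : k ≠ 0 := by
      rintro rfl
      rw [pow_zero] at hk
      exact hV1 ((Subgroup.eq_bot_iff_card _).mpr hk)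
    have hk2 : k ≤ 2 := by
      rw [hk] at hVc2
      exact (Nat.pow_le_pow_iff_right hx₀r.one_lt).mp hVc2
    interval_cases k
    · exact absurd rfl hk0
    · left
      rw [hk, pow_one]
    · right
      exact hk
  -- action
  have hEV : H ⊓ Nst ≤ normalizer (V : Set G) := by
    intro e he
    refine mem_normalizer_of_conj_le V e fun v hv => ?_
    have h1 := (mem_normalizer_iff.mp (hQ₁n he.1) v).mp hv.1
    refine ⟨h1, ?_, ?_⟩
    · show e * v * e⁻¹ ∈ centralizer (Q₁ : Set G)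
      rw [mem_centralizer_iff]
      intro z hz
      have h2 : e⁻¹ * z * e ∈ Q₁ := by
        simpa using (mem_normalizer_iff.mp (hQ₁n (H.inv_mem he.1)) z).mp hz
      have h3 := mem_centralizer_iff.mp hv.2.1 _ h2
      calc z * (e * v * e⁻¹) = e * ((e⁻¹ * z * e) * v) * e⁻¹ := by group
        _ = e * (v * (e⁻¹ * z * e)) * e⁻¹ := by rw [h3]
        _ = e * v * e⁻¹ * z := by group
    · show (e * v * e⁻¹) ^ r = 1
      rw [conj_pow, hv.2.2]
      group
  let ρ : ↥(H ⊓ Nst) →* MulAut ↥V := V.normalizerMonoidHom.comp (Subgroup.inclusion hEV)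
  have hρ : ∀ (e : ↥(H ⊓ Nst)) (v : ↥V), ((ρ e v : ↥V) : G) = (e : G) * v * (e : G)⁻¹ := fun e v => rfl
  have hrnd : ¬ r ∣ Nat.card ↥(H ⊓ Nst) := fun h => compl_prime_not_sigma hG S.hH S.hC hx₀r h hrσ
  have hs : Group.IsSolvable ↥(H ⊓ Nst) := by
    have hs := coatom_isSolvable hG S.hH
    exact solvable_of_solvable_injective (f := Subgroup.inclusion S.hC.1) (Subgroup.inclusion_injective S.hC.1)
  have hr2 : r ≠ 2 := prime_odd hG hx₀r (hrσ.2.1.trans (Subgroup.card_subgroup_dvd_card H))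
  have key := rep_commutator_trivial r hr2 (subgroup_odd hG _) hs hrnd
    (fun u v => Subtype.ext (hVcomm u u.2 v v.2)) (fun v => Subtype.ext v.2.2.2) hk12 ρ ⟨a, ha⟩ ⟨b, hb⟩ v₀
  have key2 := congrArg Subtype.val key
  rw [hρ] at key2
  set c := a * b * a⁻¹ * b⁻¹ with hc
  have hcE : c ∈ H ⊓ Nst := mul_mem (mul_mem (mul_mem ha hb) (inv_mem ha)) (inv_mem hb)
  have hc1 : c = 1 := by
    by_contra hc1
    have hfr := S.free hB hG hcE hc1
    have h1 : (v₀ : G) ∈ sigmaCore H ⊓ centralizer ({c} : Set G) := by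
      refine Subgroup.mem_inf.mpr ⟨hVσ v₀.2, ?_⟩
      rw [mem_centralizer_singleton_iff]
      have h2 : c * (v₀ : G) * c⁻¹ = v₀ := key2
      calc (v₀ : G) * c = (c * (v₀ : G) * c⁻¹) * c := by rw [h2]
        _ = c * v₀ := by group
    rw [hfr] at h1
    exact hv₀1 h1
  calc a * b = c * (b * a) := by rw [hc]; group
    _ = b * a := by rw [hc1, one_mul]

/-- `H ⊓ N*` is cyclic. -/
theorem isCyclic_inf [Fact p.Prime] (S : FrobSit N K U Nst H p x₀) (hB : ThmB G) (hG : IsMinSimpleOddOrder G)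
    (hx₀r : (orderOf x₀).Prime) (hτN : orderOf x₀ ∈ tau2 N) : IsCyclic ↥(H ⊓ Nst) := by
  classical
  haveI hZ : IsZGroup ↥(H ⊓ Nst) := isZGroup_of_prank_one (subgroup_odd hG _) S.hC.1 (fun q hq hd =>
    S.prank_one hB hG hq (compl_prime_not_sigma hG S.hH S.hC hq hd))
  letI : CommGroup ↥(H ⊓ Nst) := { (inferInstance : Group ↥(H ⊓ Nst)) with
    mul_comm := fun a b => Subtype.ext (S.comm hB hG hx₀r hτN a.2 b.2) }
  haveI hn : Group.IsNilpotent ↥(H ⊓ Nst) := CommGroup.isNilpotent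
  infer_instance

/-- `H ⊓ N*` is a Frobenius complement in `H`. -/
theorem isFrobeniusComplement [Fact p.Prime] (S : FrobSit N K U Nst H p x₀) (hB : ThmB G) (hG : IsMinSimpleOddOrder G)
    (hx₀r : (orderOf x₀).Prime) (hτN : orderOf x₀ ∈ tau2 N) : IsFrobeniusComplement ((H ⊓ Nst).subgroupOf H) := by
  classical
  have huniq := huniq13 hG
  have hσn : H ≤ normalizer (sigmaCore H : Set G) := le_normalizer_piCoreOf (sigma H) H
  have hσst : sigmaCore Nst ≤ Nst := piCoreOf_le _ Nst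
  have hKE : K ≤ H ⊓ Nst := le_inf S.hKH (S.PX.hXσ.trans hσst)
  refine ⟨?_, ?_, ?_⟩
  · intro e
    apply S.hK1
    rw [eq_bot_iff]
    intro k hk
    have h1 : (⟨k, S.hKH hk⟩ : ↥H) ∈ (H ⊓ Nst).subgroupOf H := Subgroup.mem_subgroupOf.mpr (hKE hk)
    rw [e, Subgroup.mem_bot] at h1
    exact congrArg Subtype.val h1
  · intro e
    apply sigmaCore_ne_bot hG huniq S.hH
    rw [eq_bot_iff, ← S.hW]
    intro z hz
    have h1 : (⟨z, piCoreOf_le _ H hz⟩ : ↥H) ∈ (H ⊓ Nst).subgroupOf H := by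
      rw [e]
      exact Subgroup.mem_top _
    exact ⟨hz, (Subgroup.mem_subgroupOf.mp h1).2⟩
  · intro g hg
    rw [eq_bot_iff]
    intro y hy
    obtain ⟨hy1, hy2⟩ := Subgroup.mem_inf.mp hy
    rw [Subgroup.mem_subgroupOf] at hy1
    obtain ⟨e₀, he₀, ee⟩ := (Subgroup.mem_smul_pointwise_iff_exists _ _ _).mp hy2
    rw [Subgroup.mem_subgroupOf] at he₀
    have ee' : (g : G) * e₀ * (g : G)⁻¹ = y := by
      have := congrArg Subtype.val ee
      simpa [MulAut.conj_apply] using this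
    obtain ⟨a, ha, s, hs, egs⟩ := S.hC.2.2.2 g g.2
    have hyy : (y : G) = s * e₀ * s⁻¹ := by
      have h1 : (y : G) = a * (s * e₀ * s⁻¹) * a⁻¹ := by
        rw [← ee', egs]
        group
      have h2 : a * (s * e₀ * s⁻¹) * a⁻¹ = y → a⁻¹ * y * a = s * e₀ * s⁻¹ := by
        intro h
        rw [← h]
        group
      have h3 := h2 h1.symm
      have h4 := S.comm hB hG hx₀r hτN (inv_mem ha) hy1
      rw [h4] at h3
      rw [← h3]
      group
    have hye : (y : G) * (e₀ : G)⁻¹ ∈ sigmaCore H ⊓ Nst := by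
      refine Subgroup.mem_inf.mpr ⟨?_, (mul_mem hy1 (inv_mem he₀)).2⟩
      rw [hyy]
      have h1 : (e₀ : G) * s⁻¹ * (e₀ : G)⁻¹ ∈ sigmaCore H :=
        (mem_normalizer_iff.mp (hσn he₀.1) _).mp (inv_mem hs)
      have e2 : s * (e₀ : G) * s⁻¹ * (e₀ : G)⁻¹ = s * ((e₀ : G) * s⁻¹ * (e₀ : G)⁻¹) := by group
      rw [e2]
      exact mul_mem hs h1
    rw [S.hW, Subgroup.mem_bot] at hye
    have hye2 : (y : G) = e₀ := mul_inv_eq_one.mp hye
    by_cases he1 : (e₀ : G) = 1
    · rw [Subgroup.mem_bot]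
      exact Subtype.ext (hye2.trans he1)
    · exfalso
      have hfr := S.free hB hG he₀ he1
      have hs1 : s ∈ sigmaCore H ⊓ centralizer ({(e₀ : G)} : Set G) := by
        refine Subgroup.mem_inf.mpr ⟨hs, ?_⟩
        rw [mem_centralizer_singleton_iff]
        rw [hye2] at hyy
        calc s * e₀ = (s * e₀ * s⁻¹) * s := by group
          _ = e₀ * s := by rw [← hyy]
      rw [hfr, Subgroup.mem_bot] at hs1
      rw [hs1, mul_one] at egs
      apply hg
      rw [Subgroup.mem_subgroupOf, egs]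
      exact ha

end FrobSit

/-- **S1376 core.** -/
theorem s1376_core (hB : ThmB G) (hG : IsMinSimpleOddOrder G) {M N : Subgroup G} (hM : IsCoatom M) {x : G}
    (hx : x ∈ sigmaCore M) (hx1 : x ≠ 1) (hxM : ¬ centralizer ({x} : Set G) ≤ M)
    (hN : IsCoatom N) (hxN : centralizer ({x} : Set G) ≤ N) (hkN : (kappa N).Nonempty) :
    kappa M = ∅ ∧ (∃ E : Subgroup ↥M, IsFrobeniusComplement E ∧ IsCyclic E) ∧ ¬ IsTISubset (fittingHallOf M : Set G) := by
  classical
  obtain ⟨K, U, r, x₀, _, hKU, hK1, hU1, hrd, hrσ, hrτ, hx₀σ, hx₀o, hx₀N, hNR⟩ :=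
    exists_decomp_of_sigma_elem hB hG hM hx hx1 hxM hN hxN hkN
  have hrp : r.Prime := Fact.out
  have hx₀1 : x₀ ≠ 1 := by
    rintro rfl
    rw [orderOf_one] at hx₀o
    exact hrp.one_lt.ne hx₀o
  obtain ⟨Nst, S⟩ := FrobSit.exists_of hB hG hN hKU hK1 hU1 hrd hM hNR hx₀σ hx₀1 hx₀N
  haveI : Fact (Nat.card K).Prime := ⟨(s1372_core hB hG hN hKU hK1 hU1).1⟩
  have hx₀r : (orderOf x₀).Prime := by
    rw [hx₀o]
    exact hrp
  have hτN : orderOf x₀ ∈ tau2 N := by
    rw [hx₀o]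
    exact hrτ
  refine ⟨S.hκ, ⟨(M ⊓ Nst).subgroupOf M, S.isFrobeniusComplement hB hG hx₀r hτN, ?_⟩, ?_⟩
  · haveI := S.isCyclic_inf hB hG hx₀r hτN
    exact isCyclic_of_surjective (Subgroup.subgroupOfEquivOfLe S.hC.1).symm.toMonoidHom
      (Subgroup.subgroupOfEquivOfLe S.hC.1).symm.surjective
  · intro hTI
    have hnil := S.hnil
    have e := sigmaCore_eq_fittingHallOf hG hM hnil
    rw [← e] at hTI
    exact hxM (cent_le_of_TI hG hM hTI (piCoreOf_le _ M) (le_normalizer_piCoreOf (sigma M) M) hx hx1)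

end Cfsg.Agent.Lib.FT
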