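import Cfsg.Agent.Lib.FT.BG20k

/-!
BG20l: `typeCore M = M_σ` and S1389.
-/

set_option autoImplicit false
set_option linter.unusedSectionVars false
set_option linter.style.haveILetI false

namespace Cfsg.Agent.Lib.FT

open Subgroup Cfsg Cfsg.Agent.Lib.OddLocal Cfsg.Agent.Lib.Basic

open Cfsg.Agent.Lib.Coprime (mem_conj_map conj_mem_conj_map conj_map_conj_map conj_map_one
  conj_map_mono conj_map_eq_iff_mem_normalizer isPGroup_conj_map mem_normalizer_of_conj_le)

variable {G : Type*} [Group G] [Finite G] {M K U : Subgroup G}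

/-- Every maximal subgroup has a standard factorisation. -/
theorem exists_decomp (hB : ThmB G) (hG : IsMinSimpleOddOrder G) (hM : IsCoatom M) :
    ∃ K U : Subgroup G, IsSigmaDecomposition M K U := by
  classical
  obtain ⟨K, hK⟩ := exists_isPiHallOf_solvable (kappa M) (coatom_isSolvable hG hM)
  obtain ⟨U, hU⟩ := (s1352_core hB hG hM (kappa_cyclic hB hG hM hK) hK).1
  exact ⟨K, U, hU⟩

/-- `M_s = M_σ`. -/
theorem typeCore_eq_sigmaCore (hB : ThmB G) (hG : IsMinSimpleOddOrder G) (hM : IsCoatom M) :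
    typeCore M = sigmaCore M := by
  classical
  obtain ⟨K, U, hKU⟩ := exists_decomp hB hG hM
  unfold typeCore
  split_ifs with h
  · obtain ⟨hK1, hU, -⟩ := (s1382_core hB hG hM hKU).1 h
    exact commutator_eq_sigmaCore hB hG hM hKU hK1 hU
  · by_contra hne
    obtain ⟨hU, -, hKp⟩ := s1357_core hB hG hM hKU hne (fun h1 h2 => s1373_core hB hG hM hKU h1 h2)
    have hK1 : K ≠ ⊥ := by
      intro hb
      rw [hb] at hKp
      simp at hKp
      exact Nat.not_prime_one hKp
    exact h ((s1382_core hB hG hM hKU).2 ⟨hK1, hU, hne⟩)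

/-- From Hall in `M` to Hall in `G`, for subgroups of `M_σ`. -/
theorem coprime_index_of_le_sigmaCore (hG : IsMinSimpleOddOrder G) (hM : IsCoatom M) {T : Subgroup G} (hT : T ≤ sigmaCore M)
    (hrel : (Nat.card T).Coprime (T.relIndex M)) : (Nat.card T).Coprime T.index := by
  classical
  have hσM : sigmaCore M ≤ M := piCoreOf_le _ M
  rw [← Subgroup.relIndex_mul_index (hT.trans hσM)]
  refine Nat.Coprime.mul_right hrel (Nat.coprime_of_dvd fun r hr h1 h2 => ?_)
  have hσ : r ∈ sigma M := piCoreOf_isPi (sigma M) M r hr (h1.trans (Subgroup.card_dvd_of_le hT))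
  exact (s1350_core hG (huniq13 hG) hM).2.1.2 r hr hσ (h2.trans (Subgroup.index_dvd_of_le hσM))

/-- **S1389 core**. -/
theorem s1389_core (hB : ThmB G) (hG : IsMinSimpleOddOrder G) (hM : IsCoatom M) :
    (∀ (p : ℕ), p.Prime → ∀ (P : Sylow p ↥(typeCore M)), (P : Subgroup ↥(typeCore M)) ≠ ⊥ →
        normalizer (((P : Subgroup ↥(typeCore M)).map (typeCore M).subtype : Subgroup G) : Set G) ≤ M) ∧
      (Nat.card (fittingHallOf M)).Coprime (fittingHallOf M).index ∧
      (Nat.card (typeCore M)).Coprime (typeCore M).index := by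
  classical
  have hT := typeCore_eq_sigmaCore hB hG hM
  refine ⟨fun p hp P hP1 => ?_, ?_, ?_⟩
  · haveI := Fact.mk hp
    have h1 : IsMaxP p ((P : Subgroup ↥(typeCore M)).map (typeCore M).subtype) (typeCore M) := isMaxP_map P
    have hQ1 : (P : Subgroup ↥(typeCore M)).map (typeCore M).subtype ≠ ⊥ := by
      intro h
      exact hP1 ((Subgroup.map_eq_bot_iff_of_injective _ (typeCore M).subtype_injective).1 h)
    generalize (P : Subgroup ↥(typeCore M)).map (typeCore M).subtype = Q at h1 hQ1 ⊢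
    rw [hT] at h1
    have hpd : p ∣ Nat.card (sigmaCore M) := by
      refine Dvd.dvd.trans ?_ (Subgroup.card_dvd_of_le h1.le)
      rcases h1.isP.card_eq_or_dvd with h | h
      · exact absurd (Subgroup.eq_bot_of_card_eq _ h) hQ1
      · exact h
    have hσ : p ∈ sigma M := piCoreOf_isPi (sigma M) M p hp hpd
    exact normalizer_le_of_isMaxP hσ (IsMaxP.of_sigmaCore hG hM hσ h1)
  · exact coprime_index_of_le_sigmaCore hG hM (fittingHallOf_le_sigmaCore hG hM) (fittingHallOf_coprime_relIndex M)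
  · rw [hT]
    refine coprime_index_of_le_sigmaCore hG hM le_rfl (Nat.coprime_of_dvd fun r hr h1 h2 => ?_)
    have h3 := s1350_core hG (huniq13 hG) hM
    exact h3.1.2.2 r hr (piCoreOf_isPi (sigma M) M r hr h1) h2

/-- Type I forces `K = 1`. -/
theorem kappa_eq_bot_of_typeI (hB : ThmB G) (hG : IsMinSimpleOddOrder G) (hM : IsCoatom M) (hK : IsPiHallOf (kappa M) K M)
    (h : IsOfTypeI M) : K = ⊥ := by
  classical
  by_contra hK1
  obtain ⟨-, -, -, -, V, -, hVc, -, U₀, hU₀V, hexp, hfree⟩ := h.1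
  obtain ⟨ℓ, hℓ, X, hXK, hX⟩ := exists_prime_subgroup hK1
  haveI := Fact.mk hℓ
  have hℓK : ℓ ∣ Nat.card K := by
    rw [← hX]
    exact Subgroup.card_dvd_of_le hXK
  have hℓσ : ℓ ∉ sigma M := primes_kappa_not_sigma hK ℓ hℓ hℓK
  have hℓM : ℓ ∣ Nat.card M := hℓK.trans (Subgroup.card_dvd_of_le hK.1)
  have hℓF : ¬ ℓ ∣ Nat.card (fittingHall ↥M) := by
    intro hd
    rw [← card_fittingHallOf] at hd
    exact hℓσ (piCoreOf_isPi (sigma M) M ℓ hℓ (hd.trans (Subgroup.card_dvd_of_le (fittingHallOf_le_sigmaCore hG hM))))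
  have hℓV : ℓ ∣ Nat.card V := by
    have e := hVc.card_mul
    rw [← e] at hℓM
    exact ((Nat.Prime.dvd_mul hℓ).1 hℓM).resolve_left hℓF
  have hℓexp : ℓ ∣ Monoid.exponent V := by
    obtain ⟨v, hv⟩ := exists_prime_orderOf_dvd_card' (G := V) ℓ hℓV
    rw [← hv]
    exact Monoid.order_dvd_exponent v
  have hℓU₀ : ℓ ∣ Nat.card U₀ := by
    rw [← hexp] at hℓexp
    exact hℓexp.trans Group.exponent_dvd_nat_card
  obtain ⟨u₀, hu₀⟩ := exists_prime_orderOf_dvd_card' (G := U₀) ℓ hℓU₀
  set u : ↥M := (u₀ : ↥M) with hu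
  have huo : orderOf (u : G) = ℓ := by
    rw [Subgroup.orderOf_coe, Subgroup.orderOf_coe, hu₀]
  have hu1 : u ≠ 1 := by
    intro h
    rw [h] at huo
    simp at huo
    exact hℓ.one_lt.ne huo
  have hzp : ∀ r : ℕ, r.Prime → r ∣ Nat.card (zpowers (u : G)) → r ∈ kappa M := by
    intro r hr hd
    rw [Nat.card_zpowers, huo] at hd
    have hrℓ := (Nat.prime_dvd_prime_iff_eq hr hℓ).1 hd
    rw [hrℓ]
    exact prime_mem_kappa hK hℓ hXK hX
  obtain ⟨m, hm, hle⟩ := IsPiHallOf.exists_conj_ge (coatom_isSolvable hG hM) hK (zpowers_le.2 u.2) hzp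
  obtain ⟨k, hk, hke⟩ := hle (mem_zpowers (u : G))
  have hke' : (u : G) = m * k * m⁻¹ := hke.symm
  obtain ⟨w, hw, hw1⟩ := (Subgroup.bot_or_exists_ne_one _).resolve_left (Kstar_ne_bot hG hB hM hK hK1)
  obtain ⟨U, hKU⟩ := (s1352_core hB hG hM (kappa_cyclic hB hG hM hK) hK).1
  have hwF : w ∈ fittingHallOf M :=
    Kstar_le_fittingHallOf hB hG hM hKU hK1 (fun hU => s1373_core hB hG hM hKU hK1 hU) hw
  have hxF : m * w * m⁻¹ ∈ fittingHallOf M := (Subgroup.mem_normalizer_iff.1 (fittingHallOf_normalized M hm) w).1 hwF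
  obtain ⟨x₀, hx₀, hx₀e⟩ := Subgroup.mem_map.1 hxF
  have hwk : w * k = k * w := (Subgroup.mem_centralizer_iff.1 (Subgroup.mem_inf.1 hw).2 k hk).symm
  have hx₀1 := hfree u u₀.2 hu1 x₀ hx₀ (by
    apply Subtype.ext
    have e : (x₀ : G) = m * w * m⁻¹ := hx₀e
    change (u : G) * (x₀ : G) = (x₀ : G) * (u : G)
    rw [e, hke']
    have h3 : m * k * m⁻¹ * (m * w * m⁻¹) = m * (k * w) * m⁻¹ := by group
    have h4 : m * w * m⁻¹ * (m * k * m⁻¹) = m * (w * k) * m⁻¹ := by group
    rw [h3, h4, hwk])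
  apply hw1
  have e : (x₀ : G) = m * w * m⁻¹ := hx₀e
  rw [hx₀1] at e
  have e2 : m * w * m⁻¹ = 1 := e.symm
  have e3 : w = m⁻¹ * (m * w * m⁻¹) * m := by group
  rw [e3, e2]
  group

/-- Abelian group with cyclic Sylow subgroups generated by good elements: the generic part of S1390. -/
theorem s1390_generic (hB : ThmB G) (hG : IsMinSimpleOddOrder G) (hM : IsCoatom M) (hF : fittingHallOf M = sigmaCore M)
    (hUM : U ≤ M) (hUσ : ∀ r : ℕ, r.Prime → r ∣ Nat.card U → r ∉ sigma M) (hUκ : ∀ r : ℕ, r.Prime → r ∣ Nat.card U → r ∉ kappa M) :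
    (∀ (p : ℕ), p.Prime → ∀ P : Sylow p U, IsMulCommutative (P : Subgroup U) ∧ PRankLE p 2 (P : Subgroup U)) ∧
      (∀ X : Set G, X ⊆ (U : Set G) \ {1} → X.Nonempty → fittingHallOf M ⊓ centralizer X ≠ ⊥ →
        centralizer X ≤ M ∧ ∀ L : Subgroup G, IsCoatom L → centralizer X ≤ L → L = M) := by
  classical
  have huniq := huniq13 hG
  have hpl := hpl13 hG
  have h1412 := h1412_of hG
  refine ⟨fun p hp P => ?_, fun X hXU hXne hne => ?_⟩
  · haveI := Fact.mk hp
    by_cases hpd : p ∣ Nat.card U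
    · have hpσ := hUσ p hp hpd
      constructor
      · refine ⟨⟨fun a b => ?_⟩⟩
        have hP := isMaxP_map P
        have h1 := comm_of_not_sigma hG huniq hpl h1412 hM hpσ (hP.le.trans hUM) hP.isP
          (x := ((a : U) : G)) (y := ((b : U) : G)) ⟨_, a.2, rfl⟩ ⟨_, b.2, rfl⟩
        exact Subtype.ext (Subtype.ext h1)
      · refine prank_of_injective ((Subgroup.inclusion hUM).comp (P : Subgroup U).subtype) ?_ (prank_of_not_sigma hG huniq hM hpσ)
        exact (Subgroup.inclusion_injective hUM).comp (Subgroup.subtype_injective _)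
    · have hc : Nat.card (P : Subgroup U) = 1 := by
        rcases P.isPGroup'.card_eq_or_dvd with h | h
        · exact h
        · exact absurd (h.trans (Subgroup.card_subgroup_dvd_card _)) hpd
      have hs : Subsingleton (P : Subgroup U) := (Nat.card_eq_one_iff_unique.1 hc).1
      refine ⟨⟨⟨fun a b => Subsingleton.elim _ _⟩⟩, fun A _ _ => ?_⟩
      have h1 : Nat.card A = 1 := by
        haveI : Subsingleton A := inferInstance
        exact Nat.card_unique
      rw [h1]
      exact Nat.one_le_pow _ _ hp.pos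
  · rw [hF] at hne
    obtain ⟨w, hw, hw1⟩ := (Subgroup.bot_or_exists_ne_one _).resolve_left hne
    obtain ⟨hwσ, hwC⟩ := Subgroup.mem_inf.1 hw
    obtain ⟨E, hE, hUE⟩ := exists_compl_sigma_ge hG hM hUM hUσ
    have hfree := free_of_tau13 hB hG hM hE hUE hUκ
    set Y := closure X with hY
    have hXU' : ∀ x ∈ X, x ∈ U := fun x hx => (hXU hx).1
    have hYU : Y ≤ U := (closure_le _).2 hXU'
    have hYw : Y ≤ centralizer ({w} : Set G) := by
      refine (closure_le _).2 fun x hx => ?_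
      rw [SetLike.mem_coe, mem_centralizer_singleton_iff]
      exact (Subgroup.mem_centralizer_iff.1 hwC x hx)
    have hcl := closure_good_comm hG huniq hpl h1412 hM hE hUE hfree
    have hYcl : Y ≤ closure {e : G | e ∈ U ∧ sigmaCore M ⊓ centralizer ({e} : Set G) ≠ ⊥} := by
      refine closure_mono fun x hx => ⟨hXU' x hx, fun h => hw1 ?_⟩
      have h1 : w ∈ sigmaCore M ⊓ centralizer ({x} : Set G) := by
        refine Subgroup.mem_inf.2 ⟨hwσ, ?_⟩
        rw [mem_centralizer_singleton_iff]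
        exact (Subgroup.mem_centralizer_iff.1 hwC x hx).symm
      rwa [h] at h1
    haveI hYcomm : IsMulCommutative Y :=
      ⟨⟨fun a b => Subtype.ext (show ((a : G) * (b : G)) = (b : G) * (a : G) from
        congrArg Subtype.val (hcl.is_comm.comm ⟨a, hYcl a.2⟩ ⟨b, hYcl b.2⟩))⟩⟩
    have hZ : IsZGroup ↥Y := by
      refine ⟨fun p hp P => ?_⟩
      by_contra hnc
      haveI := Fact.mk hp
      have hPm := isMaxP_map P
      have hnc' : ¬ IsCyclic ↥((P : Subgroup Y).map Y.subtype) := fun h =>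
        hnc (isCyclic_of_surjective _ (Subgroup.equivMapOfInjective (P : Subgroup Y) Y.subtype Y.subtype_injective).symm.surjective)
      obtain ⟨A, hAP, hAe, hAc⟩ := exists_e2_of_not_cyclic hG hPm.isP hnc'
      have hAY : A ≤ Y := hAP.trans hPm.le
      have hpd : p ∣ Nat.card U := by
        have h1 : p ∣ Nat.card A := by
          rw [hAc]
          exact dvd_pow_self p two_ne_zero
        exact h1.trans (Subgroup.card_dvd_of_le (hAY.trans hYU))
      have T := Tau2Setup.mk' hG huniq hpl hM (hAY.trans (hYU.trans hUM)) hAe hAc (hUσ p hp hpd)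
      apply hw1
      have h2 : w ∈ sigmaCore M ⊓ centralizer (A : Set G) := by
        refine Subgroup.mem_inf.2 ⟨hwσ, ?_⟩
        rw [Subgroup.mem_centralizer_iff]
        intro a ha
        exact (mem_centralizer_singleton_iff.1 (hYw (hAY ha)))
      rwa [T.d] at h2
    haveI hYn : Group.IsNilpotent ↥Y := by
      letI : CommGroup Y := { (inferInstance : Group Y) with mul_comm := hYcomm.is_comm.comm }
      infer_instance
    haveI : IsCyclic ↥Y := inferInstance
    obtain ⟨y₀, hy₀⟩ := IsCyclic.exists_generator (α := ↥Y)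
    have hYeq : Y = zpowers (y₀ : G) := by
      refine le_antisymm ?_ (zpowers_le.2 y₀.2)
      intro w' hw'
      obtain ⟨k, hk⟩ := Subgroup.mem_zpowers_iff.1 (hy₀ ⟨w', hw'⟩)
      exact Subgroup.mem_zpowers_iff.2 ⟨k, by simpa using congrArg Subtype.val hk⟩
    have hCX : centralizer X = centralizer ({(y₀ : G)} : Set G) := by
      rw [← centralizer_zpowers_eq, ← hYeq]
      apply le_antisymm
      · intro z hz
        have h1 : Y ≤ centralizer ({z} : Set G) := by
          refine (closure_le _).2 fun x hx => ?_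
          rw [SetLike.mem_coe, mem_centralizer_singleton_iff]
          exact (Subgroup.mem_centralizer_iff.1 hz x hx)
        rw [Subgroup.mem_centralizer_iff]
        intro y hy
        exact (mem_centralizer_singleton_iff.1 (h1 hy))
      · exact Subgroup.centralizer_le subset_closure
    have hy₀1 : (y₀ : G) ≠ 1 := by
      intro h
      obtain ⟨x, hx⟩ := hXne
      have h1 : x ∈ Y := subset_closure hx
      rw [hYeq, h, Subgroup.zpowers_one_eq_bot, Subgroup.mem_bot] at h1
      exact (hXU hx).2 h1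
    have hy₀U : (y₀ : G) ∈ U := hYU y₀.2
    have hdU : ∀ r : ℕ, r ∣ orderOf (y₀ : G) → r ∣ Nat.card U := fun r hr => hr.trans (Subgroup.orderOf_dvd_natCard U hy₀U)
    have hx' : (y₀ : G) ∈ M ⊓ centralizer ({w} : Set G) := Subgroup.mem_inf.2 ⟨hUM hy₀U, hYw y₀.2⟩
    rcases s1432_core hB hG hM hwσ hw1 hx' hy₀1 (fun r hr hd => hUσ r hr (hdU r hd)) with ⟨h1, -⟩ | ⟨-, -, h2, h3⟩
    · exfalso
      have hord : orderOf (y₀ : G) ≠ 1 := fun h => hy₀1 (orderOf_eq_one_iff.1 h)
      obtain ⟨r, hr, hrd⟩ := Nat.exists_prime_and_dvd hord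
      exact hUκ r hr (hdU r hrd) (h1 r hr hrd)
    · rw [hCX]
      exact ⟨h2, h3⟩

/-- The TI argument. -/
theorem ti_of_props (hB : ThmB G) (hG : IsMinSimpleOddOrder G) (hM : IsCoatom M) {S : Set G}
    (hprop : ∀ a ∈ S, a ∈ M ∧ a ∉ sigmaCore M ∧ (∃ x ∈ sigmaCore M, x ≠ 1 ∧ a * x = x * a) ∧
      ∀ r : ℕ, r.Prime → r ∣ orderOf a → r ∉ kappa M)
    (hinv : ∀ m ∈ M, ∀ a ∈ S, m * a * m⁻¹ ∈ S) : IsTISubset S := by
  classical
  have hN : M ≤ normalizer S := by
    intro m hm n
    constructor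
    · exact hinv m hm n
    · intro h
      have h1 := hinv m⁻¹ (M.inv_mem hm) _ h
      simpa [mul_assoc] using h1
  intro g hg a haS hba
  exfalso
  apply hg
  apply hN
  obtain ⟨haM, haσ, ⟨x, hxσ, hx1, hax⟩, haκ⟩ := hprop a haS
  obtain ⟨hbM, -, ⟨y, hyσ, hy1, hby⟩, hbκ⟩ := hprop _ hba
  obtain ⟨a₁, ha₁, t, ht, ha, ha₁σ, htσ⟩ := exists_pi_decomp (sigma M) (orderOf a) a rfl
  have ht1 : t ≠ 1 := by
    intro h
    rw [h, mul_one] at ha
    apply haσ
    rw [ha]
    refine le_sigmaCore_of_pi hG hM (zpowers_le.2 (ha ▸ haM)) (fun r hr hd => ?_) (mem_zpowers a₁)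
    rw [Nat.card_zpowers] at hd
    exact ha₁σ r hr hd
  have htM : t ∈ M := (zpowers_le.2 haM) ht
  have htx : t ∈ centralizer ({x} : Set G) := by
    obtain ⟨k, rfl⟩ := Subgroup.mem_zpowers_iff.1 ht
    rw [mem_centralizer_singleton_iff]
    exact (Commute.zpow_left (show Commute a x from hax) k)
  have hCt : centralizer ({t} : Set G) ≤ M := by
    rcases s1432_core hB hG hM hxσ hx1 (Subgroup.mem_inf.2 ⟨htM, htx⟩) ht1 htσ with ⟨h1, -⟩ | ⟨-, -, h2, -⟩
    · exfalso
      have hord : orderOf t ≠ 1 := fun h => ht1 (orderOf_eq_one_iff.1 h)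
      obtain ⟨r, hr, hrd⟩ := Nat.exists_prime_and_dvd hord
      exact haκ r hr (hrd.trans (orderOf_dvd_of_mem_zpowers ht)) (h1 r hr hrd)
    · exact h2
  set t' := g * t * g⁻¹ with ht'
  have ht'b : t' ∈ zpowers (g * a * g⁻¹) := by
    obtain ⟨k, rfl⟩ := Subgroup.mem_zpowers_iff.1 ht
    exact Subgroup.mem_zpowers_iff.2 ⟨k, by simp [ht', conj_zpow]⟩
  have ht'1 : t' ≠ 1 := by
    intro h
    apply ht1
    have e : t = g⁻¹ * t' * g := by rw [ht']; group
    rw [e, h]
    group
  have ht'o : orderOf t' = orderOf t := orderOf_conj_bg20 g t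
  have ht'M : t' ∈ M := (zpowers_le.2 hbM) ht'b
  have ht'y : t' ∈ centralizer ({y} : Set G) := by
    obtain ⟨k, hk⟩ := Subgroup.mem_zpowers_iff.1 ht'b
    rw [mem_centralizer_singleton_iff, ← hk]
    exact (Commute.zpow_left (show Commute (g * a * g⁻¹) y from hby) k)
  rcases s1432_core hB hG hM hyσ hy1 (Subgroup.mem_inf.2 ⟨ht'M, ht'y⟩) ht'1 (fun r hr hd => htσ r hr (ht'o ▸ hd)) with ⟨h1, -⟩ | ⟨-, -, -, h3⟩
  · exfalso
    have hord : orderOf t' ≠ 1 := fun h => ht'1 (orderOf_eq_one_iff.1 h)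
    obtain ⟨r, hr, hrd⟩ := Nat.exists_prime_and_dvd hord
    exact hbκ r hr (hrd.trans (orderOf_dvd_of_mem_zpowers ht'b)) (h1 r hr hrd)
  · have h4 := h3 _ (coatom_conj hM g) (cent_conj_le hCt)
    rw [← normalizer_coatom hG hM]
    exact (conj_map_eq_iff_mem_normalizer M g).1 h4

/-- **S1390 core**. -/
theorem s1390_core (hB : ThmB G) (hG : IsMinSimpleOddOrder G) (hM : IsCoatom M)
    (hU : (IsOfTypeI M ∧ IsComplIn (fittingHallOf M) U M) ∨ (IsOfTypeII M ∧ IsComplIn (fittingHallOf M) U ⁅M, M⁆)) :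
    (∀ (p : ℕ), p.Prime → ∀ P : Sylow p U, IsMulCommutative (P : Subgroup U) ∧ PRankLE p 2 (P : Subgroup U)) ∧
      (∀ X : Set G, X ⊆ (U : Set G) \ {1} → X.Nonempty → fittingHallOf M ⊓ centralizer X ≠ ⊥ →
        centralizer X ≤ M ∧ ∀ L : Subgroup G, IsCoatom L → centralizer X ≤ L → L = M) ∧
      IsTISubset (typeA M \ typeA1 M) := by
  classical
  have hT := typeCore_eq_sigmaCore hB hG hM
  have hσM : sigmaCore M ≤ M := piCoreOf_le _ M
  obtain ⟨K, U₀, hKU⟩ := exists_decomp hB hG hM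
  have hK := hKU.hall
  have hσn : M ≤ normalizer (sigmaCore M : Set G) := le_normalizer_piCoreOf _ _
  have hFn := fittingHallOf_normalized M
  -- the two cases
  obtain ⟨hF, hUM, hUσ, hUκ, hS⟩ : fittingHallOf M = sigmaCore M ∧ U ≤ M ∧ (∀ r : ℕ, r.Prime → r ∣ Nat.card U → r ∉ sigma M) ∧
      (∀ r : ℕ, r.Prime → r ∣ Nat.card U → r ∉ kappa M) ∧ IsTISubset (typeA M \ typeA1 M) := by
    rcases hU with ⟨hI, hc⟩ | ⟨hII, hc⟩
    · have hK1 := kappa_eq_bot_of_typeI hB hG hM hK hI
      have hF : fittingHallOf M = sigmaCore M := by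
        by_contra hne
        obtain ⟨-, -, hKp⟩ := s1357_core hB hG hM hKU hne (fun h1 h2 => s1373_core hB hG hM hKU h1 h2)
        rw [hK1] at hKp
        simp at hKp
        exact Nat.not_prime_one hKp
      have hκ : ∀ r : ℕ, r.Prime → r ∣ Nat.card M → r ∉ kappa M := by
        intro r hr hd hrκ
        apply hK.2.2 r hr hrκ
        rw [hK1, Subgroup.relIndex_bot_left]
        exact hd
      have hc' : IsComplIn U (sigmaCore M) M := isComplIn_symm (hF ▸ hc)
      refine ⟨hF, hc'.1, fun r hr hd => compl_prime_not_sigma hG hM hc' hr hd,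
        fun r hr hd => hκ r hr (hd.trans (Subgroup.card_dvd_of_le hc'.1)), ?_⟩
      refine ti_of_props hB hG hM ?_ ?_
      · rintro a ⟨haA, haA1⟩
        rw [typeA, if_pos hI] at haA
        obtain ⟨haM, ha1, x, hx, hx1, hax⟩ := haA
        refine ⟨haM, fun h => haA1 ⟨by rw [hT]; exact h, ha1⟩, ⟨x, hF ▸ hx, hx1, hax⟩, ?_⟩
        exact fun r hr hd => hκ r hr (hd.trans (Subgroup.orderOf_dvd_natCard M haM))
      · rintro m hm a ⟨haA, haA1⟩
        rw [typeA, if_pos hI] at haA
        obtain ⟨haM, ha1, x, hx, hx1, hax⟩ := haA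
        refine ⟨?_, ?_⟩
        · rw [typeA, if_pos hI]
          refine ⟨M.mul_mem (M.mul_mem hm haM) (M.inv_mem hm), ?_, m * x * m⁻¹, (Subgroup.mem_normalizer_iff.1 (hFn hm) x).1 hx, ?_, ?_⟩
          · intro h
            apply ha1
            have e : a = m⁻¹ * (m * a * m⁻¹) * m := by group
            rw [e, h]
            group
          · intro h
            apply hx1
            have e : x = m⁻¹ * (m * x * m⁻¹) * m := by group
            rw [e, h]
            group
          · have h3 : m * a * m⁻¹ * (m * x * m⁻¹) = m * (a * x) * m⁻¹ := by group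
            have h4 : m * x * m⁻¹ * (m * a * m⁻¹) = m * (x * a) * m⁻¹ := by group
            rw [h3, h4, hax]
        · rintro ⟨h1, -⟩
          apply haA1
          refine ⟨?_, ha1⟩
          rw [SetLike.mem_coe, hT] at h1 ⊢
          have e := (Subgroup.mem_normalizer_iff.1 (hσn hm) a).2 h1
          exact e
    · obtain ⟨hK1, hU1⟩ := (s1381_core hB hG hM hKU).1 hII
      have hUH := isPiHallOf_U hG hM hKU
      have hnil := sigma_nilpotent_of_U_ne hG hM hUH hU1
      have hF := (sigmaCore_eq_fittingHallOf hG hM hnil).symm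
      have hcomm := commutator_eq_of_decomp hB hG hM hKU hK1
      have hU₀M : U₀ ≤ M := hUH.1
      have hinf : U₀ ⊓ sigmaCore M = ⊥ := by
        rw [eq_bot_iff]
        intro x hx
        have h1 : x ∈ U₀ ⊓ (K ⊔ sigmaCore M) := ⟨hx.1, (le_sup_right : sigmaCore M ≤ K ⊔ sigmaCore M) hx.2⟩
        rwa [hKU.compl.2.2.1] at h1
      have hU₀c : IsComplIn U₀ (sigmaCore M) (U₀ ⊔ sigmaCore M) :=
        ⟨le_sup_left, le_sup_right, hinf, fun m hm =>
          exists_mul_of_mem_sup_of_le_normalizer (hU₀M.trans (le_normalizer_piCoreOf _ _)) hm⟩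
      have hc' : IsComplIn U (sigmaCore M) (U₀ ⊔ sigmaCore M) := by
        have h := isComplIn_symm hc
        rwa [hF, hcomm] at h
      have hcard : Nat.card U = Nat.card U₀ := by
        have h1 := IsComplIn_card_eq hc'
        have h2 := IsComplIn_card_eq hU₀c
        rw [h1] at h2
        exact Nat.eq_of_mul_eq_mul_right Nat.card_pos h2
      have hDM : U₀ ⊔ sigmaCore M ≤ M := sup_le hU₀M hσM
      have hnotI : ¬ IsOfTypeI M := fun hI => hK1 (kappa_eq_bot_of_typeI hB hG hM hK hI)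
      have hκ' := (isPiHallOf_U_sup hG hM hKU).2.1
      refine ⟨hF, hc'.1.trans hDM, fun r hr hd => (hUH.2.1 r hr (hcard ▸ hd)).2.2,
        fun r hr hd => (hUH.2.1 r hr (hcard ▸ hd)).2.1, ?_⟩
      refine ti_of_props hB hG hM ?_ ?_
      · rintro a ⟨haA, haA1⟩
        rw [typeA, if_neg hnotI] at haA
        obtain ⟨haM, ha1, x, hx, hx1, hax⟩ := haA
        rw [hcomm] at haM
        refine ⟨hDM haM, fun h => haA1 ⟨by rw [hT]; exact h, ha1⟩, ⟨x, hT ▸ hx, hx1, hax⟩, ?_⟩
        exact fun r hr hd => (hκ' r hr (hd.trans (Subgroup.orderOf_dvd_natCard _ haM))).2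
      · rintro m hm a ⟨haA, haA1⟩
        rw [typeA, if_neg hnotI] at haA
        obtain ⟨haM, ha1, x, hx, hx1, hax⟩ := haA
        refine ⟨?_, ?_⟩
        · rw [typeA, if_neg hnotI]
          refine ⟨(Subgroup.mem_normalizer_iff.1 (Subgroup.normalizer_commutator_ge_left M M hm) a).1 haM, ?_, m * x * m⁻¹, ?_, ?_, ?_⟩
          · intro h
            apply ha1
            have e : a = m⁻¹ * (m * a * m⁻¹) * m := by group
            rw [e, h]
            group
          · rw [hT] at hx ⊢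
            exact (Subgroup.mem_normalizer_iff.1 (hσn hm) x).1 hx
          · intro h
            apply hx1
            have e : x = m⁻¹ * (m * x * m⁻¹) * m := by group
            rw [e, h]
            group
          · have h3 : m * a * m⁻¹ * (m * x * m⁻¹) = m * (a * x) * m⁻¹ := by group
            have h4 : m * x * m⁻¹ * (m * a * m⁻¹) = m * (x * a) * m⁻¹ := by group
            rw [h3, h4, hax]
        · rintro ⟨h1, -⟩
          apply haA1
          refine ⟨?_, ha1⟩
          rw [SetLike.mem_coe, hT] at h1 ⊢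
          exact (Subgroup.mem_normalizer_iff.1 (hσn hm) a).2 h1
  obtain ⟨h1, h2⟩ := s1390_generic hB hG hM hF hUM hUσ hUκ
  exact ⟨h1, h2, hS⟩

end Cfsg.Agent.Lib.FT
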