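import Cfsg.Agent.Lib.FT.BG19j
import Cfsg.Agent.Lib.FT.BG20l

/-!
BG19k: S1391, the tame embedding of `A(M)` and `A₀(M)`.
-/

set_option autoImplicit false
set_option linter.unusedSectionVars false
set_option linter.style.haveILetI false

namespace Cfsg.Agent.Lib.FT

open Subgroup Cfsg Cfsg.Agent.Lib.OddLocal Cfsg.Agent.Lib.Basic

open Cfsg.Agent.Lib.Coprime (mem_conj_map conj_mem_conj_map conj_map_conj_map conj_map_one
  conj_map_mono mem_normalizer_of_conj_le conj_map_eq_iff_mem_normalizer isPGroup_conj_map)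

variable {G : Type*} [Group G] [Finite G] {M K U : Subgroup G}

/-- A swap of the factors of a complement. -/
theorem IsComplIn.swap {A B L : Subgroup G} (h : IsComplIn A B L) : IsComplIn B A L := by
  obtain ⟨h1, h2, h3, h4⟩ := h
  refine ⟨h2, h1, by rwa [inf_comm], fun m hm => ?_⟩
  obtain ⟨a, ha, b, hb, e⟩ := h4 m⁻¹ (L.inv_mem hm)
  refine ⟨b⁻¹, B.inv_mem hb, a⁻¹, A.inv_mem ha, ?_⟩
  rw [← mul_inv_rev, ← e, inv_inv]

/-- `typeA M` lies in `sigmaA M U`. -/
theorem typeA_mem (h80 : ∀ {M K U : Subgroup G}, IsCoatom M → IsSigmaDecomposition M K U → K = ⊥ → U ≠ ⊥ → IsOfTypeI M)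
    (hB : ThmB G) (hG : IsMinSimpleOddOrder G) (hM : IsCoatom M) (hKU : IsSigmaDecomposition M K U) {x : G} (hx : x ∈ typeA M) :
    x ∈ sigmaA M U ∧ x ≠ 1 := by
  classical
  unfold typeA at hx
  split_ifs at hx with h
  · obtain ⟨hxM, hx1, y, hy, hy1, hc⟩ := hx
    have hK0 : K = ⊥ := kappa_eq_bot_of_typeI hB hG hM hKU.hall h
    have hU1 : U ≠ ⊥ := fun hU => K_ne_bot_of_U_bot hG hM hKU hU hK0
    have hnil := sigma_nilpotent_of_U_ne hG hM (isPiHallOf_U hG hM hKU) hU1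
    have hF := sigmaCore_eq_fittingHallOf hG hM hnil
    refine ⟨⟨⟨hxM, y, hF ▸ hy, hy1, hc⟩, ?_⟩, hx1⟩
    obtain ⟨l, hl, k, hk, e⟩ := exists_mul_of_decomp hKU hxM
    rw [hK0, mem_bot] at hk
    rw [SetLike.mem_coe, e, hk, mul_one]
    exact hl
  · obtain ⟨hxc, hx1, y, hy, hy1, hc⟩ := hx
    have hK1 : K ≠ ⊥ := fun hK0 => h (h80 hM hKU hK0 (fun hU => K_ne_bot_of_U_bot hG hM hKU hU hK0))
    rw [typeCore_eq_sigmaCore hB hG hM] at hy
    have e := commutator_eq_of_decomp hB hG hM hKU hK1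
    exact ⟨⟨⟨commutator_le_coatom hG hM hxc, y, hy, hy1, hc⟩, e ▸ hxc⟩, hx1⟩

/-- The "mixed" elements of `A₀(M)`. -/
def MixedElt (M : Subgroup G) (x : G) : Prop :=
  ∃ W₁ U' W₂ : Subgroup G, IsTypePWith M W₁ U' W₂ ∧ ∃ m ∈ M, ∃ w ∈ W₁ ⊔ W₂, w ∉ W₁ ∧ w ∉ W₂ ∧ x = m * w * m⁻¹

/-- Elements of `A₀(M)` are in `A(M)` or mixed. -/
theorem typeA0_cases {x : G} (hx : x ∈ typeA0 M) : x ∈ typeA M ∨ MixedElt M x := by
  rcases hx with h | ⟨-, W₁, U', W₂, hP, m, hm, w, hw, h1, h2, e⟩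
  · exact Or.inl h
  · exact Or.inr ⟨W₁, U', W₂, hP, m, hm, w, hw, h1, h2, e⟩

/-- Mixed elements. -/
theorem MixedElt.facts (hB : ThmB G) (hG : IsMinSimpleOddOrder G) (hM : IsCoatom M) (hKU : IsSigmaDecomposition M K U) {x : G}
    (hx : MixedElt M x) : K ≠ ⊥ ∧ x ∈ M ∧ (∀ g : G, g * x * g⁻¹ ∈ M → g ∈ M) := by
  classical
  obtain ⟨W₁, U', W₂, hP, m, hm, w, hw, hw1, hw2, e⟩ := hx
  have hK1 := kappa_ne_of_typeP hB hG hM hKU.hall hP
  have hcomm := commutator_eq_of_decomp hB hG hM hKU hK1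
  have hM'M : ⁅M, M⁆ ≤ M := commutator_le_coatom hG hM
  have hM'n : M ≤ normalizer ((⁅M, M⁆ : Subgroup G) : Set G) := by
    intro a ha
    exact Subgroup.normalizer_commutator_ge_left M M ha
  have hc1 := hP.W₁_compl
  have hc2 : IsComplIn ⁅M, M⁆ K M := by
    refine ⟨hM'M, hKU.hall.1, kappa_inf_commutator hB hG hM hKU hK1, fun z hz => ?_⟩
    obtain ⟨l, hl, k, hk, e⟩ := exists_mul_of_decomp hKU hz
    exact ⟨l, hcomm ▸ hl, k, hk, e⟩
  have hcard : Nat.card W₁ = Nat.card K := by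
    have h1 := IsComplIn_card_eq hc1
    have h2 := IsComplIn_card_eq hc2
    rw [h1] at h2
    exact Nat.eq_of_mul_eq_mul_left Nat.card_pos h2
  obtain ⟨n, hn, hle⟩ := IsPiHallOf.exists_conj_ge (coatom_isSolvable hG hM) hKU.hall hc1.2.1 (fun r hr hd =>
    hKU.hall.2.1 r hr (hcard ▸ hd))
  have eW₁ : W₁ = K.map (MulAut.conj n).toMonoidHom :=
    Subgroup.eq_of_le_of_card_ge hle (by rw [Cfsg.Agent.Lib.Coprime.card_conj_map, hcard])
  -- `W₂`
  obtain ⟨x₁, hx₁⟩ := (Subgroup.ne_bot_iff_exists_ne_one).mp hP.W₁_ne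
  have hx₁1 : (x₁ : G) ≠ 1 := fun e => hx₁ (Subtype.ext e)
  obtain ⟨k, hk, ek⟩ := hle x₁.2
  have ek' : n * k * n⁻¹ = (x₁ : G) := ek
  have hk1 : k ≠ 1 := by
    rintro rfl
    apply hx₁1
    rw [← ek']
    group
  have e1 := hP.W₂_centralizer _ x₁.2 hx₁1
  have e2 := commutator_inf_centralizer_eq hB hG hM hKU hK1 hk hk1
  have eW₂ : W₂ = (sigmaCore M ⊓ centralizer (K : Set G)).map (MulAut.conj n).toMonoidHom := by
    rw [← e1, ← e2]
    apply le_antisymm
    · rintro d ⟨hd1, hd2⟩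
      refine ⟨n⁻¹ * d * n, ⟨?_, ?_⟩, ?_⟩
      · have := (mem_normalizer_iff.mp (hM'n (M.inv_mem hn)) d).mp hd1
        simpa using this
      · have hd3 : d ∈ centralizer ({(x₁ : G)} : Set G) := hd2
        show n⁻¹ * d * n ∈ centralizer ({k} : Set G)
        rw [mem_centralizer_singleton_iff] at hd3 ⊢
        rw [← ek'] at hd3
        have hd2 := hd3
        calc n⁻¹ * d * n * k = n⁻¹ * (d * (n * k * n⁻¹)) * n := by group
          _ = n⁻¹ * ((n * k * n⁻¹) * d) * n := by rw [hd2]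
          _ = k * (n⁻¹ * d * n) := by group
      · change n * (n⁻¹ * d * n) * n⁻¹ = d
        group
    · rintro _ ⟨d, ⟨hd1, hd2⟩, rfl⟩
      refine ⟨(mem_normalizer_iff.mp (hM'n hn) d).mp hd1, ?_⟩
      have hd3 : d ∈ centralizer ({k} : Set G) := hd2
      show n * d * n⁻¹ ∈ centralizer ({(x₁ : G)} : Set G)
      rw [mem_centralizer_singleton_iff] at hd3 ⊢
      have hd2 := hd3
      rw [← ek']
      calc n * d * n⁻¹ * (n * k * n⁻¹) = n * (d * k) * n⁻¹ := by group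
        _ = n * (k * d) * n⁻¹ := by rw [hd2]
        _ = n * k * n⁻¹ * (n * d * n⁻¹) := by group
  have hw3 : w ∈ (K ⊔ (sigmaCore M ⊓ centralizer (K : Set G))).map (MulAut.conj n).toMonoidHom := by
    rw [Subgroup.map_sup, ← eW₁, ← eW₂]
    exact hw
  obtain ⟨z, hz, ez⟩ := hw3
  have ez' : n * z * n⁻¹ = w := ez
  have hzZ : z ∈ Zhat M K := by
    refine ⟨hz, ?_⟩
    rintro (h | h)
    · apply hw1
      rw [eW₁, ← ez']
      exact ⟨z, h, rfl⟩
    · apply hw2
      rw [eW₂, ← ez']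
      exact ⟨z, h, rfl⟩
  obtain ⟨H, hH, hKst, hKstH⟩ := exists_mstar hB hG hM hKU.hall hK1
  have hs := (s1434_core hB hG hM hKU hK1 hH hKst hKstH).2.2.2.1
  have hzM : z ∈ M := (sup_le hKU.hall.1 (inf_le_left.trans (piCoreOf_le _ M))) hz
  have exz : x = (m * n) * z * (m * n)⁻¹ := by
    rw [e, ← ez']
    group
  have hmn : m * n ∈ M := M.mul_mem hm hn
  refine ⟨hK1, ?_, ?_⟩
  · rw [exz]
    exact M.mul_mem (M.mul_mem hmn hzM) (M.inv_mem hmn)
  · intro g hg
    by_contra hgM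
    have hgmn : g * (m * n) ∉ M := fun h => hgM (by
      have h5 := M.mul_mem h (M.inv_mem hmn)
      rwa [mul_inv_cancel_right] at h5)
    have hinv : (g * (m * n))⁻¹ ∉ M := fun h => hgmn (by simpa using M.inv_mem h)
    apply hs _ hinv z hzZ
    refine ⟨g * x * g⁻¹, hg, ?_⟩
    change (g * (m * n))⁻¹ * (g * x * g⁻¹) * (g * (m * n))⁻¹⁻¹ = z
    rw [exz]
    group

/-- The stronger form of S1362. -/
theorem conj_sigmaA_diff_mem (hG : IsMinSimpleOddOrder G) (hM : IsCoatom M) (hKU : IsSigmaDecomposition M K U) {g x : G}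
    (hx : x ∈ sigmaA M U \ (sigmaCore M : Set G)) (hgx : g * x * g⁻¹ ∈ sigmaA M U) : g ∈ M := by
  classical
  have huniq := huniq13 hG
  obtain ⟨hH1, hH2, hH3⟩ := (s1350_core hG huniq hM).1
  have hNn : M ≤ normalizer (sigmaCore M : Set G) := le_normalizer_piCoreOf (sigma M) M
  obtain ⟨hxA, hxσ⟩ := hx
  obtain ⟨s, hs, hsd, hsσ⟩ : ∃ s : ℕ, s.Prime ∧ s ∣ orderOf x ∧ s ∉ sigma M := by
    by_contra hcon
    push Not at hcon
    apply hxσ
    refine mem_of_coprime_relIndex hNn hxA.1.1 ?_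
    refine Nat.coprime_of_dvd fun k hk h1 h2 => hH3 k hk (hcon k hk h2) h1
  obtain ⟨x₀, hx₀, ho⟩ := exists_mem_zpowers_orderOf hsd
  obtain ⟨h1, -⟩ := cent_of_sigmaA hG hM hKU hxA hs hsσ hx₀ ho
  have hz₁ : g * x₀ * g⁻¹ ∈ zpowers (g * x * g⁻¹) := by
    obtain ⟨k, rfl⟩ := mem_zpowers_iff.mp hx₀
    refine mem_zpowers_iff.mpr ⟨k, ?_⟩
    simp [conj_zpow]
  have ho' : orderOf (g * x₀ * g⁻¹) = s := by
    rw [← ho]
    have := orderOf_injective (MulAut.conj g).toMonoidHom (MulAut.conj g).injective x₀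
    simpa [MulAut.conj_apply] using this
  obtain ⟨-, h2⟩ := cent_of_sigmaA hG hM hKU hgx hs hsσ hz₁ ho'
  have hL : IsCoatom (M.map (MulAut.conj g).toMonoidHom) := coatom_conj hM g
  have hCL : centralizer ({g * x₀ * g⁻¹} : Set G) ≤ M.map (MulAut.conj g).toMonoidHom := by
    intro t ht
    have h3 : g⁻¹ * t * g ∈ centralizer ({x₀} : Set G) := by
      rw [mem_centralizer_singleton_iff] at ht ⊢
      have e : g⁻¹ * (t * (g * x₀ * g⁻¹)) * g = g⁻¹ * ((g * x₀ * g⁻¹) * t) * g := by rw [ht]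
      calc g⁻¹ * t * g * x₀ = g⁻¹ * (t * (g * x₀ * g⁻¹)) * g := by group
        _ = g⁻¹ * ((g * x₀ * g⁻¹) * t) * g := e
        _ = _ := by group
    refine ⟨g⁻¹ * t * g, h1 h3, ?_⟩
    simp [MulAut.conj_apply]
    group
  have e := h2 _ hL hCL
  rw [← normalizer_coatom hG hM]
  exact (conj_map_eq_iff_mem_normalizer M g).mp e

/-- A prime outside `σ(M)` with a power of prime order. -/
theorem exists_prime_power_of_not_mem_sigmaCore (hG : IsMinSimpleOddOrder G) (hM : IsCoatom M) {x : G} (hxM : x ∈ M) (hxσ : x ∉ sigmaCore M) :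
    ∃ s : ℕ, s.Prime ∧ s ∉ sigma M ∧ ∃ x₀ ∈ zpowers x, orderOf x₀ = s := by
  classical
  have huniq := huniq13 hG
  obtain ⟨hH1, hH2, hH3⟩ := (s1350_core hG huniq hM).1
  have hNn : M ≤ normalizer (sigmaCore M : Set G) := le_normalizer_piCoreOf (sigma M) M
  obtain ⟨s, hs, hsd, hsσ⟩ : ∃ s : ℕ, s.Prime ∧ s ∣ orderOf x ∧ s ∉ sigma M := by
    by_contra hcon
    push Not at hcon
    apply hxσ
    refine mem_of_coprime_relIndex hNn hxM ?_
    refine Nat.coprime_of_dvd fun k hk h1 h2 => hH3 k hk (hcon k hk h2) h1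
  obtain ⟨x₀, hx₀, ho⟩ := exists_mem_zpowers_orderOf hsd
  exact ⟨s, hs, hsσ, x₀, hx₀, ho⟩

/-- The Frobenius kernel of a Frobenius group with complement `E₀` and kernel `M_σ`. -/
theorem frobeniusKernel_eq_of_free {E₀ : Subgroup G} (hC : IsComplIn E₀ (sigmaCore M) M)
    (hfree : ∀ e ∈ E₀, e ≠ 1 → sigmaCore M ⊓ centralizer ({e} : Set G) = ⊥) (hF : sigmaCore M = fittingHallOf M) :
    frobeniusKernel (E₀.subgroupOf M) = ((fittingHall ↥M : Subgroup ↥M) : Set ↥M) := by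
  classical
  have hσM : sigmaCore M ≤ M := hC.2.1
  have hσn : M ≤ normalizer (sigmaCore M : Set G) := le_normalizer_piCoreOf (sigma M) M
  have hz : ∀ z : ↥M, z ∈ fittingHall ↥M ↔ (z : G) ∈ sigmaCore M := by
    intro z
    rw [hF]
    constructor
    · exact fun h => ⟨z, h, rfl⟩
    · rintro ⟨z', h, e⟩
      have : z' = z := Subtype.ext e
      rwa [← this]
  ext x
  rw [SetLike.mem_coe, hz]
  constructor
  · rintro (rfl | hx)
    · exact one_mem _
    · obtain ⟨a, ha, b, hb, e⟩ := hC.2.2.2 x x.2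
      by_cases ha1 : a = 1
      · rw [e, ha1, one_mul]
        exact hb
      exfalso
      -- `a` acts freely on `M_σ`
      have hfr := hfree a ha ha1
      let f : ↥(sigmaCore M) → ↥(sigmaCore M) := fun s => ⟨a⁻¹ * s * a * (s : G)⁻¹, by
        have h1 : a⁻¹ * s * a ∈ sigmaCore M := by
          have := (mem_normalizer_iff.mp (hσn (M.inv_mem (hC.1 ha))) s).mp s.2
          simpa using this
        exact mul_mem h1 (inv_mem s.2)⟩
      have hinj : Function.Injective f := by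
        intro s s' hss
        have h1 : a⁻¹ * s * a * (s : G)⁻¹ = a⁻¹ * s' * a * (s' : G)⁻¹ := congrArg Subtype.val hss
        have h2 : (s' : G)⁻¹ * s ∈ sigmaCore M ⊓ centralizer ({a} : Set G) := by
          refine Subgroup.mem_inf.mpr ⟨mul_mem (inv_mem s'.2) s.2, ?_⟩
          rw [mem_centralizer_singleton_iff]
          have h3 : (s : G) * a * (s : G)⁻¹ = (s' : G) * a * (s' : G)⁻¹ := by
            calc (s : G) * a * (s : G)⁻¹ = a * (a⁻¹ * s * a * (s : G)⁻¹) := by group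
              _ = a * (a⁻¹ * s' * a * (s' : G)⁻¹) := by rw [h1]
              _ = (s' : G) * a * (s' : G)⁻¹ := by group
          calc (s' : G)⁻¹ * s * a = (s' : G)⁻¹ * ((s : G) * a * (s : G)⁻¹) * s := by group
            _ = (s' : G)⁻¹ * ((s' : G) * a * (s' : G)⁻¹) * s := by rw [h3]
            _ = a * ((s' : G)⁻¹ * s) := by group
        rw [hfr, Subgroup.mem_bot] at h2
        exact Subtype.ext (inv_mul_eq_one.mp h2).symm
      have hsurj : Function.Surjective f := Finite.surjective_of_injective hinj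
      obtain ⟨s, hs⟩ := hsurj ⟨b, hb⟩
      have hs' : a⁻¹ * s * a * (s : G)⁻¹ = b := congrArg Subtype.val hs
      have hsM : (s : G) ∈ M := hσM s.2
      apply hx ⟨s, hsM⟩
      refine (Subgroup.mem_smul_pointwise_iff_exists _ _ _).mpr ⟨⟨a, hC.1 ha⟩, Subgroup.mem_subgroupOf.mpr ha, ?_⟩
      apply Subtype.ext
      change (s : G) * a * (s : G)⁻¹ = (x : G)
      rw [e, ← hs']
      group
  · intro hx
    by_cases hx1 : x = 1
    · exact Or.inl hx1
    · refine Or.inr fun g hg => hx1 ?_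
      obtain ⟨e₀, he₀, ee⟩ := (Subgroup.mem_smul_pointwise_iff_exists _ _ _).mp hg
      rw [Subgroup.mem_subgroupOf] at he₀
      have ee' : (g : G) * e₀ * (g : G)⁻¹ = x := by
        have := congrArg Subtype.val ee
        simpa [MulAut.conj_apply] using this
      have h1 : (e₀ : G) ∈ sigmaCore M := by
        have h2 := (mem_normalizer_iff.mp (hσn (M.inv_mem g.2)) (x : G)).mp hx
        have h3 : (g : G)⁻¹ * x * (g : G)⁻¹⁻¹ = e₀ := by
          rw [← ee']
          group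
        rwa [h3] at h2
      have h4 : (e₀ : G) ∈ E₀ ⊓ sigmaCore M := ⟨he₀, h1⟩
      rw [hC.2.2.1, Subgroup.mem_bot] at h4
      apply Subtype.ext
      rw [← ee', h4]
      simp

/-- The complement in the Frobenius group of S1376. -/
theorem s1376_compl (hB : ThmB G) (hG : IsMinSimpleOddOrder G) {M N : Subgroup G} (hM : IsCoatom M) {x : G}
    (hx : x ∈ sigmaCore M) (hx1 : x ≠ 1) (hxM : ¬ centralizer ({x} : Set G) ≤ M)
    (hN : IsCoatom N) (hxN : centralizer ({x} : Set G) ≤ N) (hkN : (kappa N).Nonempty) :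
    ∃ E₀ : Subgroup G, IsComplIn E₀ (sigmaCore M) M ∧ (∀ e ∈ E₀, e ≠ 1 → sigmaCore M ⊓ centralizer ({e} : Set G) = ⊥) ∧
      IsFrobeniusComplement (E₀.subgroupOf M) ∧ Group.IsNilpotent (sigmaCore M) := by
  classical
  obtain ⟨K, U, r, x₀, _, hKU, hK1, hU1, hrd, hrσ, hrτ, hx₀σ, hx₀o, hx₀N, hNR⟩ :=
    exists_decomp_of_sigma_elem hB hG hM hx hx1 hxM hN hxN hkN
  have hrp : r.Prime := Fact.out
  have hx₀1 : x₀ ≠ 1 := by
    rintro rfl
    rw [orderOf_one] at hx₀o
    exact hrp.one_lt.ne hx₀o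
  obtain ⟨Nst, S⟩ := FrobSit.exists_of hB hG hN hKU hK1 hU1 hrd hM hNR hx₀σ hx₀1 hx₀N
  haveI : Fact (Nat.card K).Prime := ⟨(s1372_core hB hG hN hKU hK1 hU1).1⟩
  have hx₀r : (orderOf x₀).Prime := by
    rw [hx₀o]
    exact hrp
  have hτN : orderOf x₀ ∈ tau2 N := by
    rw [hx₀o]
    exact hrτ
  exact ⟨M ⊓ Nst, S.hC, fun e he he1 => S.free hB hG he he1, S.isFrobeniusComplement hB hG hx₀r hτN, S.hnil⟩

/-- `typeA1 M` is `M_σ` without the identity. -/
theorem mem_typeA1_iff (hB : ThmB G) (hG : IsMinSimpleOddOrder G) (hM : IsCoatom M) {x : G} :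
    x ∈ typeA1 M ↔ x ∈ sigmaCore M ∧ x ≠ 1 := by
  unfold typeA1
  rw [typeCore_eq_sigmaCore hB hG hM]
  simp [Set.mem_diff]

/-- **S1391 core.** -/
theorem s1391_core (h80 : ∀ {M K U : Subgroup G}, IsCoatom M → IsSigmaDecomposition M K U → K = ⊥ → U ≠ ⊥ → IsOfTypeI M)
    (h36 : ∀ {M N : Subgroup G} {x : G}, IsCoatom M → x ∈ sigmaCore M → x ≠ 1 → ¬ centralizer ({x} : Set G) ≤ M → IsCoatom N →
      centralizer ({x} : Set G) ≤ N → (∃ p ∈ sigma N, p ∣ Nat.card M) → kappa M = ∅ ∧ tau2 M = ∅)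
    (hB : ThmB G) (hG : IsMinSimpleOddOrder G) (hM : IsCoatom M) {X : Set G} (hX : X = typeA M ∨ X = typeA0 M) :
    (∀ x ∈ X, ∀ g : G, g * x * g⁻¹ ∈ X → ∃ m ∈ M, m * x * m⁻¹ = g * x * g⁻¹) ∧
      (∀ x ∈ X, ¬ centralizer ({x} : Set G) ≤ M → x ∈ typeA1 M ∧ ∃! L : Subgroup G, IsCoatom L ∧ centralizer ({x} : Set G) ≤ L) ∧
      ∀ x ∈ X, ¬ centralizer ({x} : Set G) ≤ M → ∀ L : Subgroup G, IsCoatom L → centralizer ({x} : Set G) ≤ L →
        IsComplIn (fittingHallOf L) (M ⊓ L) L ∧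
        centralizer ({x} : Set G) ≤ normalizer ((fittingHallOf L ⊓ centralizer ({x} : Set G) : Subgroup G) : Set G) ∧
        IsComplIn (fittingHallOf L ⊓ centralizer ({x} : Set G)) (M ⊓ centralizer ({x} : Set G)) (centralizer ({x} : Set G)) ∧
        (∀ y ∈ X, (Nat.card (fittingHallOf L)).Coprime (Nat.card ↥(M ⊓ centralizer ({y} : Set G)))) ∧
        (x ∈ typeA L ∧ x ∉ typeA1 L) ∧
        (IsOfTypeI L ∨ IsOfTypeII L) ∧
        (IsOfTypeII L → ∃ E : Subgroup ↥M, IsFrobeniusComplement E ∧ frobeniusKernel E = ((fittingHall ↥M : Subgroup ↥M) : Set ↥M)) := by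
  classical
  obtain ⟨K, U, hKU⟩ := exists_decomp hB hG hM
  have huniq := huniq13 hG
  obtain ⟨hH1, hH2, hH3⟩ := (s1350_core hG huniq hM).1
  have hNn : M ≤ normalizer (sigmaCore M : Set G) := le_normalizer_piCoreOf (sigma M) M
  have hσM : sigmaCore M ≤ M := piCoreOf_le _ M
  -- the cases for membership in `X`
  have hcases : ∀ x ∈ X, (x ∈ sigmaA M U ∧ x ≠ 1) ∨ MixedElt M x := by
    intro x hx
    rcases hX with rfl | rfl
    · exact Or.inl (typeA_mem h80 hB hG hM hKU hx)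
    · rcases typeA0_cases hx with h | h
      · exact Or.inl (typeA_mem h80 hB hG hM hKU h)
      · exact Or.inr h
  have hXM : ∀ x ∈ X, x ∈ M := by
    intro x hx
    rcases hcases x hx with h | h
    · exact h.1.1.1
    · exact (h.facts hB hG hM hKU).2.1
  -- clause (i)
  have h1 : ∀ x ∈ X, ∀ g : G, g * x * g⁻¹ ∈ X → ∃ m ∈ M, m * x * m⁻¹ = g * x * g⁻¹ := by
    intro x hx g hg
    have hgM : g * x * g⁻¹ ∈ M := hXM _ hg
    rcases hcases x hx with h | h
    · rcases hcases _ hg with h' | h'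
      · by_cases hxσ : x ∈ sigmaCore M
        · obtain ⟨c, hc, m, hm, e⟩ := fusion_core hB hG hM hxσ h.2 (g := g⁻¹) (by simpa using hgM)
          have hc' : c * x = x * c := mem_centralizer_singleton_iff.mp hc
          refine ⟨m⁻¹, M.inv_mem hm, ?_⟩
          have eg : g = m⁻¹ * c⁻¹ := by
            have h3 : g = (c * m)⁻¹ := by rw [← e, inv_inv]
            rw [h3, mul_inv_rev]
          have h4 : c⁻¹ * x * c = x := by
            calc c⁻¹ * x * c = c⁻¹ * (x * c) := by group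
              _ = c⁻¹ * (c * x) := by rw [hc']
              _ = x := by group
          rw [eg]
          calc m⁻¹ * x * m⁻¹⁻¹ = m⁻¹ * (c⁻¹ * x * c) * m⁻¹⁻¹ := by rw [h4]
            _ = m⁻¹ * c⁻¹ * x * (m⁻¹ * c⁻¹)⁻¹ := by group
        · exact ⟨g, conj_sigmaA_diff_mem hG hM hKU ⟨h.1, hxσ⟩ h'.1, rfl⟩
      · -- the image is mixed
        have h5 := (h'.facts hB hG hM hKU).2.2 g⁻¹ (by
          have e : g⁻¹ * (g * x * g⁻¹) * g⁻¹⁻¹ = x := by group
          rw [e]
          exact hXM x hx)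
        exact ⟨g, by simpa using M.inv_mem h5, rfl⟩
    · exact ⟨g, (h.facts hB hG hM hKU).2.2 g hgM, rfl⟩
  -- elements with centralizers outside `M`
  have hσ : ∀ x ∈ X, ¬ centralizer ({x} : Set G) ≤ M → x ∈ sigmaCore M ∧ x ≠ 1 := by
    intro x hx hC
    rcases hcases x hx with h | h
    · refine ⟨?_, h.2⟩
      by_contra hxσ
      obtain ⟨s, hs, hsσ, x₀, hx₀, ho⟩ := exists_prime_power_of_not_mem_sigmaCore hG hM h.1.1.1 hxσ
      obtain ⟨h3, -⟩ := cent_of_sigmaA hG hM hKU h.1 hs hsσ hx₀ ho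
      exact hC ((centralizer_singleton_le_of_mem_zpowers hx₀).trans h3)
    · exfalso
      apply hC
      intro c hc
      refine (h.facts hB hG hM hKU).2.2 c ?_
      have hc' : c * x = x * c := mem_centralizer_singleton_iff.mp hc
      have e : c * x * c⁻¹ = x := by
        rw [hc']
        group
      rw [e]
      exact (h.facts hB hG hM hKU).2.1
  refine ⟨h1, ?_, ?_⟩
  · intro x hx hC
    obtain ⟨hxσ, hx1⟩ := hσ x hx hC
    refine ⟨(mem_typeA1_iff hB hG hM).mpr ⟨hxσ, hx1⟩, ?_⟩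
    obtain ⟨N, ⟨hN, hCN⟩, huq, -⟩ := s1375_core hB hG hM hxσ hx1 hC
    exact ⟨N, ⟨hN, hCN⟩, fun L hL => huq L hL.1 hL.2⟩
  · intro x hx hC L hL hCL
    obtain ⟨hxσ, hx1⟩ := hσ x hx hC
    obtain ⟨N, ⟨hN, hCN⟩, huq, hF, hnorm, hcC, hcompl, hdec⟩ := s1375_core hB hG hM hxσ hx1 hC
    obtain rfl : L = N := huq L hL hCL
    obtain ⟨K', U', hKU'⟩ := exists_decomp hB hG hL
    obtain ⟨hU'1, hxA, hxL⟩ := hdec K' U' hKU'
    rw [hF] at hnorm hcC hcompl
    have hσLd : ∀ r : ℕ, r ∈ sigma L → r ∉ sigma M := by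
      intro r hrL hrM
      haveI := Fact.mk hrL.1
      obtain ⟨c, e⟩ := conj_of_sigma_sigma hB hM hL hrM hrL
      have hord : orderOf x ≠ 1 := fun h => hx1 (orderOf_eq_one_iff.1 h)
      obtain ⟨q, hq, hqd⟩ := Nat.exists_prime_and_dvd hord
      haveI := Fact.mk hq
      have hqM : q ∈ sigma M := sigma_of_mem_sigmaCore hxσ hq hqd
      have hqL : q ∈ sigma L := by
        rw [← hF] at hcompl
        have := sigma_conj_of_mem hqM c⁻¹
        rwa [← e, conj_map_conj_map, inv_mul_cancel, conj_map_one] at this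
      have hxML : x ∈ M ⊓ L := ⟨hσM hxσ, hCL (mem_centralizer_singleton_self x)⟩
      have hc' : IsComplIn (M ⊓ L) (sigmaCore L) L := by
        rw [hF]
        exact hcompl
      exact compl_prime_not_sigma hG hL hc' hq (hqd.trans (Subgroup.orderOf_dvd_natCard _ hxML)) hqL
    refine ⟨IsComplIn.swap hcompl, hnorm, IsComplIn.swap hcC, ?_, ⟨?_, ?_⟩, ?_, ?_⟩
    · -- coprimality
      intro y hy
      refine Nat.coprime_of_dvd fun r hr hd1 hd2 => ?_
      have hrL : r ∈ sigma L := by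
        rw [← hF] at hd1
        exact piCoreOf_isPi (sigma L) L r hr hd1
      obtain ⟨hκ, hτ⟩ := h36 hM hxσ hx1 hC hL hCL ⟨r, hrL, hd2.trans (Subgroup.card_dvd_of_le inf_le_left)⟩
      have hrM := hσLd r hrL
      rcases hcases y hy with h | h
      · by_cases hyσ : y ∈ sigmaCore M
        · haveI := Fact.mk hr
          obtain ⟨s, hso⟩ := exists_prime_orderOf_dvd_card' (G := ↥(M ⊓ centralizer ({y} : Set G))) r hd2
          have hs1 : (s : G) ≠ 1 := by
            intro e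
            have : s = 1 := Subtype.ext e
            rw [this, orderOf_one] at hso
            exact hr.one_lt.ne hso
          have hso' : orderOf (s : G) = r := by
            rw [← hso]
            exact Subgroup.orderOf_coe s
          rcases s1432_core hB hG hM hyσ h.2 s.2 hs1 (fun t ht hd => by
            rw [hso'] at hd
            rw [(Nat.prime_dvd_prime_iff_eq ht hr).mp hd]
            exact hrM) with ⟨h3, -⟩ | ⟨h3, -⟩
          · have h4 := h3 r hr (by rw [hso'])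
            rw [hκ] at h4
            exact h4
          · have h4 := h3 r hr (by rw [hso'])
            rw [hτ] at h4
            exact h4
        · obtain ⟨s, hs, hsσ, y₀, hy₀, ho⟩ := exists_prime_power_of_not_mem_sigmaCore hG hM h.1.1.1 hyσ
          obtain ⟨-, b, hb, hb1, hc⟩ := h.1.1
          have hy₀1 : y₀ ≠ 1 := by
            rintro rfl
            rw [orderOf_one] at ho
            exact hs.one_lt.ne ho
          have hy₀C : y₀ ∈ M ⊓ centralizer ({b} : Set G) := by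
            refine ⟨(zpowers_le.mpr h.1.1.1) hy₀, ?_⟩
            refine (zpowers_le.mpr ?_) hy₀
            rw [mem_centralizer_singleton_iff]
            exact hc
          rcases s1432_core hB hG hM hb hb1 hy₀C hy₀1 (fun t ht hd => by
            rw [ho] at hd
            rw [(Nat.prime_dvd_prime_iff_eq ht hs).mp hd]
            exact hsσ) with ⟨h3, -⟩ | ⟨h3, -⟩
          · have h4 := h3 s hs (by rw [ho])
            rw [hκ] at h4
            exact h4
          · have h4 := h3 s hs (by rw [ho])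
            rw [hτ] at h4
            exact h4
      · -- mixed: `K ≠ ⊥`
        obtain ⟨hK1, -⟩ := h.facts hB hG hM hKU
        obtain ⟨p, hp, Y, hYK, hY⟩ := exists_prime_subgroup hK1
        have h3 : p ∈ kappa M := hKU.hall.2.1 p hp (by
          rw [← hY]
          exact Subgroup.card_dvd_of_le hYK)
        rw [hκ] at h3
        exact h3
    · -- `x ∈ A(L)`
      unfold typeA
      split_ifs with hI
      · obtain ⟨⟨hxL', y, hy, hy1, hc⟩, -⟩ := hxA
        exact ⟨hxL', hx1, y, hF ▸ hy, hy1, hc⟩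
      · obtain ⟨⟨hxL', y, hy, hy1, hc⟩, hxS⟩ := hxA
        have hK'1 : K' ≠ ⊥ := fun h0 => hI (h80 hL hKU' h0 hU'1)
        have e := commutator_eq_of_decomp hB hG hL hKU' hK'1
        rw [typeCore_eq_sigmaCore hB hG hL]
        exact ⟨e ▸ hxS, hx1, y, hy, hy1, hc⟩
    · intro h
      exact hxL ((mem_typeA1_iff hB hG hL).mp h).1
    · by_cases hK'1 : K' = ⊥
      · exact Or.inl (h80 hL hKU' hK'1 hU'1)
      · exact Or.inr ((s1381_core hB hG hL hKU').mpr ⟨hK'1, hU'1⟩)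
    · intro hII
      obtain ⟨hK'1, -⟩ := (s1381_core hB hG hL hKU').mp hII
      have hκ : (kappa L).Nonempty := by
        obtain ⟨p, hp, Y, hYK, hY⟩ := exists_prime_subgroup hK'1
        exact ⟨p, hKU'.hall.2.1 p hp (by
          rw [← hY]
          exact Subgroup.card_dvd_of_le hYK)⟩
      obtain ⟨E₀, hE₀, hfree, hFr, hnil⟩ := s1376_compl hB hG hM hxσ hx1 hC hL hCL hκ
      exact ⟨E₀.subgroupOf M, hFr, frobeniusKernel_eq_of_free hE₀ hfree (sigmaCore_eq_fittingHallOf hG hM hnil)⟩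

end Cfsg.Agent.Lib.FT
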