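import Cfsg.Agent.Lib.FT.BG19k
import Cfsg.Agent.Lib.FT.BG22a

/-!
BG19l: S1383 and S1385.
-/

set_option autoImplicit false
set_option linter.unusedSectionVars false
set_option linter.style.haveILetI false

namespace Cfsg.Agent.Lib.FT

open Subgroup Cfsg Cfsg.Agent.Lib.OddLocal Cfsg.Agent.Lib.Basic

open Cfsg.Agent.Lib.Coprime (mem_conj_map conj_mem_conj_map conj_map_conj_map conj_map_one
  conj_map_mono mem_normalizer_of_conj_le conj_map_eq_iff_mem_normalizer isPGroup_conj_map)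

variable {G : Type*} [Group G] [Finite G] {M K U : Subgroup G}

theorem IsNarrow.of_mulEquiv {p : ℕ} {R R' : Type*} [Group R] [Group R'] [Finite R] (e : R ≃* R') (h : IsNarrow p R) : IsNarrow p R' := by
  classical
  rcases h with h | ⟨R₀, R₁, h0, h1, h2, h3, h4⟩
  · left
    intro A hA hp
    have h5 := h (A.map e.symm.toMonoidHom) ⟨⟨?_⟩⟩ ?_
    · rwa [Nat.card_congr (Subgroup.equivMapOfInjective A e.symm.toMonoidHom e.symm.injective).symm.toEquiv] at h5
    · rintro ⟨_, a, ha, rfl⟩ ⟨_, b, hb, rfl⟩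
      apply Subtype.ext
      have := congrArg Subtype.val (hA.is_comm.comm ⟨a, ha⟩ ⟨b, hb⟩)
      simp only [Subgroup.coe_mul] at this ⊢
      rw [← map_mul, ← map_mul, this]
    · rintro _ ⟨a, ha, rfl⟩
      rw [← map_pow, hp a ha, map_one]
  · right
    refine ⟨R₀.map e.toMonoidHom, R₁.map e.toMonoidHom, ?_, ?_, ?_, ?_, ?_⟩
    · rw [← Nat.card_congr (Subgroup.equivMapOfInjective R₀ e.toMonoidHom e.injective).toEquiv]
      exact h0
    · exact isCyclic_of_surjective (e.toMonoidHom.subgroupMap R₁) (MonoidHom.subgroupMap_surjective _ _)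
    · rw [← Subgroup.map_inf _ _ _ e.injective, h2, Subgroup.map_bot]
    · rintro _ ⟨a, ha, rfl⟩ _ ⟨b, hb, rfl⟩
      show e a * e b = e b * e a
      rw [← map_mul, ← map_mul, h3 a ha b hb]
    · rw [← Subgroup.map_sup, h4]
      ext x
      constructor
      · rintro ⟨y, hy, rfl⟩
        have hy' : y ∈ centralizer (R₀ : Set R) := hy
        rw [Subgroup.mem_centralizer_iff] at hy' ⊢
        rintro _ ⟨r, hr, rfl⟩
        show e r * e y = e y * e r
        rw [← map_mul, ← map_mul, hy' r hr]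
      · intro hx
        refine ⟨e.symm x, ?_, by simp⟩
        show e.symm x ∈ centralizer (R₀ : Set R)
        rw [Subgroup.mem_centralizer_iff] at hx ⊢
        intro r hr
        have h5 := hx (e r) ⟨r, hr, rfl⟩
        apply e.injective
        simpa using h5

/-- The `K ≠ 1`, `U = 1` branch: the action of `K` on a nonabelian Sylow subgroup of `M_σ`. -/
theorem kne_branch (hB : ThmB G) (hG : IsMinSimpleOddOrder G) (hM : IsCoatom M) (hKU : IsSigmaDecomposition M K ⊥) (hK1 : K ≠ ⊥)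
    (hnil : Group.IsNilpotent (sigmaCore M)) {p : ℕ} [Fact p.Prime] (hpσ : p ∈ sigma M) (hpβ : p ∉ beta M)
    (hna : ¬ IsMulCommutative (Oq p (sigmaCore M))) :
    Nat.card K ∣ p - 1 ∨ (Nat.card (Oq p (sigmaCore M)) = p ^ 3 ∧ Nat.card K ∣ p + 1) := by
  classical
  have hpp : p.Prime := Fact.out
  have huniq := huniq13 hG
  have hσM : sigmaCore M ≤ M := piCoreOf_le _ M
  have hσn : M ≤ normalizer (sigmaCore M : Set G) := le_normalizer_piCoreOf (sigma M) M
  set P := Oq p (sigmaCore M) with hP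
  have hPp : IsPGroup p P := Oq_isPGroup p _
  have hPσ : P ≤ sigmaCore M := Oq_le p _
  have hpM : p ∣ Nat.card M := hpσ.2.1
  have hp2 : p ≠ 2 := prime_odd hG hpp (hpM.trans (Subgroup.card_subgroup_dvd_card M))
  have hPmax : IsMaxP p P M := by
    refine ⟨hPσ.trans hσM, hPp, fun D' h1 h2 h3 => le_antisymm ?_ h3⟩
    intro d hd
    obtain ⟨k, hk⟩ := h2 ⟨d, hd⟩
    refine mem_Oq hnil (le_sigmaCore_of_isPGroup hG huniq hM hpσ h2 h1 hd) (k := k) ?_
    simpa using congrArg Subtype.val hk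
  have hPn : IsNarrow p ↥P :=
    IsNarrow.of_mulEquiv (Subgroup.subgroupOfEquivOfLe hPmax.le) (sylow_narrow_of_not_beta hG huniq hM hpβ hpM hPmax.toSylow)
  have hKM : K ≤ M := hKU.hall.1
  have hKn : K ≤ normalizer (P : Set G) := fun k hk => mem_normalizer_Oq hnil (hσn (hKM hk))
  have hcop : (Nat.card K).Coprime p := by
    refine ((Nat.Prime.coprime_iff_not_dvd hpp).mpr fun hd => ?_).symm
    exact (hKU.hall.2.1 p hpp hd).2.2.1 hpσ
  have hKst : Nat.card ↥(sigmaCore M ⊓ centralizer (K : Set G)) |>.Prime := s1373_core hB hG hM hKU hK1 rfl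
  have hprime0 : ∀ k ∈ K, k ≠ 1 → ∀ x ∈ P, k * x * k⁻¹ = x → x ∈ sigmaCore M ⊓ centralizer (K : Set G) := by
    intro k hk hk1 x hx hkx
    rw [← kappa_prime_action hB hG hM hKU.hall hk hk1]
    refine Subgroup.mem_inf.mpr ⟨hPσ hx, ?_⟩
    rw [mem_centralizer_singleton_iff]
    calc x * k = (k * x * k⁻¹) * k := by rw [hkx]
      _ = k * x := by group
  have hfaith : K ⊓ centralizer (P : Set G) = ⊥ := by
    rw [eq_bot_iff]
    intro k hk
    rw [Subgroup.mem_bot]
    by_contra hk1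
    apply hna
    haveI : Fact (Nat.card ↥(sigmaCore M ⊓ centralizer (K : Set G))).Prime := ⟨hKst⟩
    haveI : IsCyclic ↥(sigmaCore M ⊓ centralizer (K : Set G)) := isCyclic_of_prime_card rfl
    have hle : P ≤ sigmaCore M ⊓ centralizer (K : Set G) := fun x hx =>
      hprime0 k hk.1 hk1 x hx (by
        have := mem_centralizer_iff.mp hk.2 x hx
        rw [← this]
        group)
    refine ⟨⟨fun a b => Subtype.ext ?_⟩⟩
    letI := IsCyclic.commGroup (α := ↥(sigmaCore M ⊓ centralizer (K : Set G)))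
    have h5 := mul_comm (⟨a, hle a.2⟩ : ↥(sigmaCore M ⊓ centralizer (K : Set G))) ⟨b, hle b.2⟩
    have h6 : (a : G) * b = b * a := congrArg Subtype.val h5
    exact h6
  have hprime : ∀ k ∈ K, k ≠ 1 → ∀ x ∈ P, k * x * k⁻¹ = x → ∀ k' ∈ K, k' * x * k'⁻¹ = x := by
    intro k hk hk1 x hx hkx k' hk'
    have h1 := hprime0 k hk hk1 x hx hkx
    have h2 := mem_centralizer_iff.mp h1.2 k' hk'
    rw [h2]
    group
  have hE : IsComplIn K (sigmaCore M) M := by
    have h := compl_of_decomp hG huniq hM hKU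
    rwa [sup_bot_eq] at h
  have hc := commutator_sigmaCore_compl hG hM hE
  set R := Oq' p (sigmaCore M) with hR
  have hRn : K ≤ normalizer (R : Set G) := fun k hk => mem_normalizer_Oq' hnil (hσn (hKM hk))
  have hPK : ⁅P, K⁆ ≤ P := Subgroup.commutator_le.mpr fun a ha k hk => by
    rw [commutatorElement_def]
    have e : a * k * a⁻¹ * k⁻¹ = a * (k * a⁻¹ * k⁻¹) := by group
    rw [e]
    exact P.mul_mem ha ((mem_normalizer_iff.mp (hKn hk) _).mp (P.inv_mem ha))
  have hle : ⁅sigmaCore M, K⁆ ≤ R ⊔ ⁅P, K⁆ := by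
    refine Subgroup.commutator_le.mpr fun s hs k hk => ?_
    obtain ⟨a, ha, b, hb, rfl⟩ := exists_parts p hnil hs
    have hab : a * b = b * a := Oq_comm_Oq' hnil ha hb
    have hc1 : b * k * b⁻¹ * k⁻¹ ∈ R :=
      R.mul_mem hb (R.inv_mem ((mem_normalizer_iff.mp (hRn hk) b).mp hb)) |> fun _ => by
        have h1 : k * b⁻¹ * k⁻¹ ∈ R := (mem_normalizer_iff.mp (hRn hk) _).mp (R.inv_mem hb)
        have e : b * k * b⁻¹ * k⁻¹ = b * (k * b⁻¹ * k⁻¹) := by group
        rw [e]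
        exact R.mul_mem hb h1
    have hac : a * (b * k * b⁻¹ * k⁻¹) = (b * k * b⁻¹ * k⁻¹) * a := Oq_comm_Oq' hnil ha hc1
    rw [commutatorElement_def]
    have e : a * b * k * (a * b)⁻¹ * k⁻¹ = (b * k * b⁻¹ * k⁻¹) * (a * k * a⁻¹ * k⁻¹) := by
      calc a * b * k * (a * b)⁻¹ * k⁻¹ = a * (b * k * b⁻¹ * k⁻¹) * k * a⁻¹ * k⁻¹ := by group
        _ = (b * k * b⁻¹ * k⁻¹) * a * k * a⁻¹ * k⁻¹ := by rw [hac]
        _ = (b * k * b⁻¹ * k⁻¹) * (a * k * a⁻¹ * k⁻¹) := by group
    rw [e]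
    have h3 : a * k * a⁻¹ * k⁻¹ ∈ ⁅P, K⁆ := by
      have h4 := Subgroup.commutator_mem_commutator ha hk
      rwa [commutatorElement_def] at h4
    exact mul_mem (Subgroup.mem_sup_left hc1) (Subgroup.mem_sup_right h3)
  have hcomm : ⁅P, K⁆ = P := by
    refine le_antisymm hPK fun x hx => ?_
    have h1 : x ∈ R ⊔ ⁅P, K⁆ := by
      apply hle
      rw [hc]
      exact hPσ hx
    have hRn' : ⁅P, K⁆ ≤ normalizer (R : Set G) := hPK.trans (hPσ.trans (hσM.trans fun m hm => mem_normalizer_Oq' hnil (hσn hm)))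
    obtain ⟨r, hr, c, hcc, e⟩ := (Cfsg.Agent.Lib.Coprime.mem_sup_iff_of_le_normalizer hRn' x).mp h1
    have hrP : r ∈ P := by
      have e2 : r = x * c⁻¹ := by
        rw [e]
        group
      rw [e2]
      exact P.mul_mem hx (P.inv_mem (hPK hcc))
    have hr1 : r = 1 := by
      have h2 : orderOf r = 1 := by
        obtain ⟨k, hk⟩ := Cfsg.Agent.Lib.PGroups.exists_orderOf_of_mem_isPGroup hPp hrP
        have h3 := orderOf_Oq'_coprime hr
        rw [hk] at h3 ⊢
        have h4 : k = 0 := by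
          by_contra h0
          have := Nat.Coprime.eq_one_of_dvd h3.symm (dvd_pow_self p h0)
          exact hpp.one_lt.ne' this
        rw [h4, pow_zero]
      exact orderOf_eq_one_iff.mp h2
    rw [e, hr1, one_mul]
    exact hcc
  exact card_dvd_pm1 p hp2 P K hPp hPn hna hKn hKU.cyclic (subgroup_odd hG K) hcop hfaith hprime hcomm

/-- `K` complements `M'`. -/
theorem compl_commutator_of_decomp (hB : ThmB G) (hG : IsMinSimpleOddOrder G) (hM : IsCoatom M) (hKU : IsSigmaDecomposition M K U)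
    (hK1 : K ≠ ⊥) : IsComplIn ⁅M, M⁆ K M := by
  have hcomm := commutator_eq_of_decomp hB hG hM hKU hK1
  refine ⟨commutator_le_coatom hG hM, hKU.hall.1, kappa_inf_commutator hB hG hM hKU hK1, fun z hz => ?_⟩
  obtain ⟨l, hl, k, hk, e⟩ := exists_mul_of_decomp hKU hz
  exact ⟨l, hcomm ▸ hl, k, hk, e⟩

/-- **S1383 core.** -/
theorem s1383_core (hstr : ∀ {M K U : Subgroup G} {g : G}, IsCoatom M → IsSigmaDecomposition M K U → g ∉ M →
      fittingOf M ⊓ (fittingOf M).map (MulAut.conj g).toMonoidHom ≠ ⊥ → K ≠ ⊥ →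
      ∃ p : ℕ, p.Prime ∧ p ∈ sigma M ∧ p ∉ beta M ∧ ¬ IsMulCommutative (pCore p ↥(fittingHallOf M)) ∧
        IsCyclic (pPrimeCore p ↥(fittingHallOf M)))
    (hB : ThmB G) (hG : IsMinSimpleOddOrder G) (hM : IsCoatom M) (hKU : IsSigmaDecomposition M K U) :
    IsOfTypeV M ↔ (K ≠ ⊥ ∧ U = ⊥ ∧ fittingHallOf M = sigmaCore M) := by
  classical
  have huniq := huniq13 hG
  obtain ⟨hH1, hH2, hH3⟩ := (s1350_core hG huniq hM).1
  have hσn : M ≤ normalizer (sigmaCore M : Set G) := le_normalizer_piCoreOf (sigma M) M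
  constructor
  · rintro ⟨W₁, U', W₂, hP, rfl, -⟩
    have hK1 := kappa_ne_of_typeP hB hG hM hKU.hall hP
    have hc := hP.U_compl
    have hcomm := commutator_eq_of_decomp hB hG hM hKU hK1
    have hFσ : fittingHallOf M ≤ sigmaCore M := fittingHallOf_le_sigmaCore hG hM
    have hM'F : ⁅M, M⁆ ≤ fittingHallOf M := by
      intro m hm
      obtain ⟨a, ha, b, hb, e⟩ := hc.2.2.2 m hm
      rw [Subgroup.mem_bot] at hb
      rw [e, hb, mul_one]
      exact ha
    have hU : U = ⊥ := by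
      rw [eq_bot_iff]
      intro u hu
      have h1 : u ∈ sigmaCore M := hFσ (hM'F (by
        rw [hcomm]
        exact Subgroup.mem_sup_left hu))
      have h2 : u ∈ U ⊓ (K ⊔ sigmaCore M) := Subgroup.mem_inf.mpr ⟨hu, Subgroup.mem_sup_right h1⟩
      rwa [hKU.compl.2.2.1] at h2
    refine ⟨hK1, hU, le_antisymm hFσ ?_⟩
    rw [commutator_eq_sigmaCore hB hG hM hKU hK1 hU] at hM'F
    exact hM'F
  · rintro ⟨hK1, rfl, hF⟩
    have hnil : Group.IsNilpotent (sigmaCore M) := hF ▸ fittingHallOf_isNilpotent M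
    have hcomm := commutator_eq_sigmaCore hB hG hM hKU hK1 rfl
    have hc : IsComplIn (fittingHallOf M) ⊥ ⁅M, M⁆ := by
      rw [hcomm, hF]
      exact ⟨le_rfl, bot_le, inf_bot_eq _, fun m hm => ⟨m, hm, 1, one_mem _, by simp⟩⟩
    have hbn : Group.IsNilpotent (⊥ : Subgroup G) := inferInstance
    have hP := typeP_of_decomp hB hG hM hKU hK1 hbn (by
      rw [Subgroup.normalizer_eq_top_iff.mpr inferInstance]
      exact le_top) hc
    by_cases hTI : IsTISubset (fittingHallOf M : Set G)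
    · exact ⟨K, ⊥, _, hP, rfl, Or.inl hTI⟩
    unfold IsTISubset at hTI
    push Not at hTI
    obtain ⟨g, hg, x, hx, hgx, hx1⟩ := hTI
    have hgM : g ∉ M := fun h => hg (by
      have h1 := hσn h
      rw [hF]
      exact h1)
    have hFF : fittingHallOf M ≤ fittingOf M :=
      le_fittingOf (hF ▸ hH1) (by rw [hF]; exact hσn) (fittingHallOf_isNilpotent M)
    have hX : fittingOf M ⊓ (fittingOf M).map (MulAut.conj g).toMonoidHom ≠ ⊥ := by
      intro e
      have h1 : g * x * g⁻¹ ∈ fittingOf M ⊓ (fittingOf M).map (MulAut.conj g).toMonoidHom :=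
        ⟨hFF hgx, x, hFF hx, rfl⟩
      rw [e, Subgroup.mem_bot] at h1
      apply hx1
      have h2 : x = g⁻¹ * (g * x * g⁻¹) * g := by group
      rw [h2, h1]
      group
    obtain ⟨p, hp, hpσ, hpβ, hna, hcyc⟩ := hstr hM hKU hgM hX hK1
    haveI := Fact.mk hp
    have hna' : ¬ IsMulCommutative (Oq p (sigmaCore M)) := by
      rw [← hF]
      intro h
      apply hna
      refine ⟨⟨fun a b => Subtype.ext (Subtype.ext ?_)⟩⟩
      have h5 := h.is_comm.comm ⟨((a : ↥(fittingHallOf M)) : G), (a : ↥(fittingHallOf M)), a.2, rfl⟩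
        ⟨((b : ↥(fittingHallOf M)) : G), (b : ↥(fittingHallOf M)), b.2, rfl⟩
      have h6 : ((a : ↥(fittingHallOf M)) : G) * ((b : ↥(fittingHallOf M)) : G) = ((b : ↥(fittingHallOf M)) : G) * ((a : ↥(fittingHallOf M)) : G) := congrArg Subtype.val h5
      exact h6
    have hd : p ∣ Nat.card (fittingHallOf M) := by
      rw [hF]
      have h1 := hpσ.2.1
      rw [← Cfsg.Agent.Lib.Coprime.card_mul_relIndex hH1] at h1
      exact (hp.dvd_mul.mp h1).resolve_right (hH3 p hp hpσ)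
    rcases kne_branch hB hG hM hKU hK1 hnil hpσ hpβ hna' with h1 | ⟨h1, h2⟩
    · exact ⟨K, ⊥, _, hP, rfl, Or.inr (Or.inl ⟨p, hp, hd, h1, hcyc⟩)⟩
    · refine ⟨K, ⊥, _, hP, rfl, Or.inr (Or.inr ⟨p, hp, hd, ?_, h2, hcyc⟩)⟩
      rw [← h1, hF]
      exact Nat.card_congr (Subgroup.equivMapOfInjective _ _ (Subgroup.subtype_injective _)).toEquiv

/-- **S1385 core.** -/
theorem s1385_core (h80 : ∀ {M K U : Subgroup G}, IsCoatom M → IsSigmaDecomposition M K U → K = ⊥ → U ≠ ⊥ → IsOfTypeI M)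
    (h83 : ∀ {M K U : Subgroup G}, IsCoatom M → IsSigmaDecomposition M K U → K ≠ ⊥ → U = ⊥ → fittingHallOf M = sigmaCore M → IsOfTypeV M)
    (hB : ThmB G) (hG : IsMinSimpleOddOrder G) :
    (∀ M : Subgroup G, IsCoatom M → IsOfTypeI M) ∨
      ∃ W₁ W₂ S T : Subgroup G, IsSelfNormalizingCyclic W₁ W₂ ∧ IsCoatom S ∧ IsCoatom T ∧
        IsComplIn ⁅S, S⁆ W₁ S ∧ IsComplIn ⁅T, T⁆ W₂ T ∧ S ⊓ T = W₁ ⊔ W₂ ∧
        (IsOfTypeII S ∨ IsOfTypeII T) ∧
        (IsOfTypeII S ∨ IsOfTypeIII S ∨ IsOfTypeIV S ∨ IsOfTypeV S) ∧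
        (IsOfTypeII T ∨ IsOfTypeIII T ∨ IsOfTypeIV T ∨ IsOfTypeV T) ∧
        ∀ M : Subgroup G, IsCoatom M → IsOfTypeI M ∨ ∃ g : G, M = S.map (MulAut.conj g).toMonoidHom ∨ M = T.map (MulAut.conj g).toMonoidHom := by
  classical
  have htypeI : ∀ L : Subgroup G, IsCoatom L → kappa L = ∅ → IsOfTypeI L := by
    intro L hL hκ
    obtain ⟨K, U, hKU⟩ := exists_decomp hB hG hL
    have hK0 : K = ⊥ := by
      by_contra hK1
      obtain ⟨p, hp, Y, hYK, hY⟩ := exists_prime_subgroup hK1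
      have h3 : p ∈ kappa L := hKU.hall.2.1 p hp (by
        rw [← hY]
        exact Subgroup.card_dvd_of_le hYK)
      rw [hκ] at h3
      exact h3
    exact h80 hL hKU hK0 (fun hU => K_ne_bot_of_U_bot hG hL hKU hU hK0)
  have htypes : ∀ {L K U : Subgroup G}, IsCoatom L → IsSigmaDecomposition L K U → K ≠ ⊥ →
      IsOfTypeII L ∨ IsOfTypeIII L ∨ IsOfTypeIV L ∨ IsOfTypeV L := by
    intro L K U hL hKU hK1
    by_cases hU : U = ⊥
    · by_cases hF : fittingHallOf L = sigmaCore L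
      · exact Or.inr (Or.inr (Or.inr (h83 hL hKU hK1 hU hF)))
      · rcases (s1382_core hB hG hL hKU).mpr ⟨hK1, hU, hF⟩ with h | h
        · exact Or.inr (Or.inl h)
        · exact Or.inr (Or.inr (Or.inl h))
    · exact Or.inl ((s1381_core hB hG hL hKU).mpr ⟨hK1, hU⟩)
  by_cases hall : ∀ M : Subgroup G, IsCoatom M → kappa M = ∅
  · exact Or.inl fun M hM => htypeI M hM (hall M hM)
  right
  push Not at hall
  obtain ⟨M, hM, hκ⟩ := hall
  obtain ⟨K, hK⟩ := exists_isPiHallOf_solvable (kappa M) (coatom_isSolvable hG hM)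
  obtain ⟨U, hKU⟩ := (s1352_core hB hG hM (kappa_cyclic hB hG hM hK) hK).1
  have hK1 : K ≠ ⊥ := by
    rintro rfl
    obtain ⟨p, hp⟩ := hκ
    exact hK.2.2 p hp.1 hp (by
      simpa [Subgroup.relIndex_bot_left] using hp.2.1)
  obtain ⟨Mst, hMst, hKst, hKstH⟩ := exists_mstar hB hG hM hK hK1
  have hKs1 : sigmaCore M ⊓ centralizer (K : Set G) ≠ ⊥ := Kstar_ne_bot hG hB hM hK hK1
  obtain ⟨Ust, hUst⟩ := (s1352_core hB hG hMst (kappa_cyclic hB hG hMst hKstH) hKstH).1
  obtain ⟨p, hp, X, hXK, hX⟩ := exists_prime_subgroup hK1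
  haveI := Fact.mk hp
  have PX : Partner M Mst X p := mstar_partner hB hG hM hK hK1 hMst hKst hKstH hXK hX
  refine ⟨K, _, M, Mst, selfNormalizing_of_decomp hB hG hM hK hK1, hM, hMst, compl_commutator_of_decomp hB hG hM hKU hK1,
    compl_commutator_of_decomp hB hG hMst hUst hKs1, partner_inf_eq hB hG hM hK hXK hX PX, ?_, htypes hM hKU hK1,
    htypes hMst hUst hKs1, ?_⟩
  · by_contra hcon
    push Not at hcon
    have hU0 : U = ⊥ := by
      by_contra h
      exact hcon.1 ((s1381_core hB hG hM hKU).mpr ⟨hK1, h⟩)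
    have hUst0 : Ust = ⊥ := by
      by_contra h
      exact hcon.2 ((s1381_core hB hG hMst hUst).mpr ⟨hKs1, h⟩)
    have h1 : K ⊔ sigmaCore M = M := by
      have h := hKU.compl
      rw [hU0] at h
      apply le_antisymm (sup_le hK.1 (piCoreOf_le _ M))
      intro m hm
      obtain ⟨a, ha, b, hb, e⟩ := h.2.2.2 m hm
      rw [Subgroup.mem_bot] at ha
      rw [e, ha, one_mul]
      exact hb
    have h2 : Kst M K ⊔ sigmaCore Mst = Mst := by
      have h := hUst.compl
      rw [hUst0] at h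
      apply le_antisymm (sup_le hKstH.1 (piCoreOf_le _ Mst))
      intro m hm
      obtain ⟨a, ha, b, hb, e⟩ := h.2.2.2 m hm
      rw [Subgroup.mem_bot] at ha
      rw [e, ha, one_mul]
      exact hb
    exact not_both_sup hB hG hM hK hK1 hMst hKst hKstH h1 h2
  · intro L hL
    by_cases hκL : kappa L = ∅
    · exact Or.inl (htypeI L hL hκL)
    · exact Or.inr (s1369_second hB hG hM hK hK1 hMst hKst hKstH hL (Set.nonempty_iff_ne_empty.mpr hκL))

end Cfsg.Agent.Lib.FT
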