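import Cfsg.Agent.Lib.FT.BG20b

/-!
BG20: the sets `R(x)`, `S1433` (disjointness of the cosets `x R(x)`), conditional on Theorem B.
-/

set_option autoImplicit false
set_option linter.unusedSectionVars false
set_option linter.style.haveILetI false

namespace Cfsg.Agent.Lib.FT

open Subgroup Cfsg Cfsg.Agent.Lib.OddLocal Cfsg.Agent.Lib.Basic

open Cfsg.Agent.Lib.Coprime (mem_conj_map conj_mem_conj_map conj_map_conj_map conj_map_one
  conj_map_mono mem_normalizer_of_conj_le conj_map_eq_iff_mem_normalizer isPGroup_conj_map)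

variable {G : Type*} [Group G] [Finite G]

theorem supportR_of_le {M : Subgroup G} {x : G} (h : centralizer ({x} : Set G) ≤ M) : supportR M x = ⊥ := by
  unfold supportR
  rw [dif_neg]
  rintro ⟨h1, -⟩
  exact h1 h

theorem supportR_of_unique (hG : IsMinSimpleOddOrder G) {M N : Subgroup G} {x : G} (hC : ¬ centralizer ({x} : Set G) ≤ M)
    (hN : IsCoatom N) (hCN : centralizer ({x} : Set G) ≤ N)
    (huq : ∀ L : Subgroup G, IsCoatom L → centralizer ({x} : Set G) ≤ L → L = N) (hnil : Group.IsNilpotent (sigmaCore N)) :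
    supportR M x = sigmaCore N ⊓ centralizer ({x} : Set G) := by
  have h : ¬ centralizer ({x} : Set G) ≤ M ∧ ∃! L : Subgroup G, IsCoatom L ∧ centralizer ({x} : Set G) ≤ L :=
    ⟨hC, N, ⟨hN, hCN⟩, fun L hL => huq L hL.1 hL.2⟩
  unfold supportR
  rw [dif_pos h]
  have e : Classical.choose h.2.exists = N :=
    huq _ (Classical.choose_spec h.2.exists).1 (Classical.choose_spec h.2.exists).2
  rw [e, sigmaCore_eq_fittingHallOf hG hN hnil]

/-- Two maximal subgroups, `σ`-sets meeting: the `σ`-sets are equal. -/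
theorem sigma_eq_of_meet (hB : ThmB G) {M N : Subgroup G} (hM : IsCoatom M) (hN : IsCoatom N) {q : ℕ}
    (hqM : q ∈ sigma M) (hqN : q ∈ sigma N) {p : ℕ} (hp : p ∈ sigma N) : p ∈ sigma M := by
  haveI : Fact q.Prime := ⟨hqM.1⟩
  haveI : Fact p.Prime := ⟨hp.1⟩
  obtain ⟨c, e⟩ := conj_of_sigma_sigma hB hM hN hqM hqN
  rw [← e]
  exact sigma_conj_of_mem hp c

/-- The API of `R(x)`. -/
theorem supportR_spec (hB : ThmB G) (hG : IsMinSimpleOddOrder G) {M : Subgroup G} (hM : IsCoatom M) {x : G}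
    (hx : x ∈ sigmaCore M) (hx1 : x ≠ 1) :
    supportR M x ≤ centralizer ({x} : Set G) ∧ centralizer ({x} : Set G) ≤ normalizer (supportR M x : Set G) ∧
      supportR M x ⊓ M = ⊥ ∧
      (∀ z : G, z⁻¹ * x * z ∈ M → ∃ r ∈ supportR M x, ∃ m ∈ M, z = r * m) ∧
      (∀ r ∈ supportR M x, ∀ p : ℕ, p.Prime → p ∣ orderOf r → p ∉ sigma M) ∧
      (∀ r ∈ supportR M x, r ≠ 1 → ¬ centralizer ({x} : Set G) ≤ M ∧ ∃ N : Subgroup G, IsCoatom N ∧
        centralizer ({x} : Set G) ≤ N ∧ (∀ L : Subgroup G, IsCoatom L → centralizer ({x} : Set G) ≤ L → L = N) ∧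
        r ∈ sigmaCore N) := by
  classical
  have hσM : sigmaCore M ≤ M := piCoreOf_le _ M
  have hxM : x ∈ M := hσM hx
  have hfus : ∀ z : G, z⁻¹ * x * z ∈ M → ∃ c ∈ centralizer ({x} : Set G), ∃ m ∈ M, z = c * m :=
    fun z hz => fusion_core hB hG hM hx hx1 hz
  by_cases hC : centralizer ({x} : Set G) ≤ M
  · rw [supportR_of_le hC]
    refine ⟨bot_le, ?_, bot_inf_eq _, ?_, ?_, ?_⟩
    · rw [Subgroup.normalizer_eq_top_iff.mpr inferInstance]
      exact le_top
    · intro z hz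
      obtain ⟨c, hc, m, hm, rfl⟩ := hfus z hz
      exact ⟨1, one_mem _, c * m, M.mul_mem (hC hc) hm, by simp⟩
    · intro r hr p hp hd
      rw [mem_bot] at hr
      rw [hr, orderOf_one] at hd
      exact absurd hd hp.not_dvd_one
    · intro r hr hr1
      exact absurd ((mem_bot).1 hr) hr1
  · obtain ⟨N, hN, hCN, huq, -, hnil, hσ, hcompl, hxMN, hτ, -⟩ := thmE_core hB hG hM hx hx1 hC
    rw [supportR_of_unique hG hC hN hCN huq hnil]
    have hcC := centralizer_compl hσ hcompl hxM hCN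
    have hnorm : N ≤ normalizer (sigmaCore N : Set G) := le_normalizer_piCoreOf (sigma N) N
    have hord : orderOf x ≠ 1 := fun h => hx1 (orderOf_eq_one_iff.1 h)
    obtain ⟨q, hq, hqd⟩ := Nat.exists_prime_and_dvd hord
    refine ⟨inf_le_right, ?_, ?_, ?_, ?_, ?_⟩
    · intro c hc
      rw [mem_normalizer_iff]
      intro h
      have h1 := mem_normalizer_iff.mp (hnorm (hCN hc)) h
      have h2 := mem_normalizer_iff.mp (le_normalizer hc) h
      simp only [mem_inf, h1, h2]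
    · rw [eq_bot_iff]
      rintro u ⟨⟨hu1, -⟩, hu2⟩
      have h1 : u ∈ sigmaCore N ⊓ M := ⟨hu1, hu2⟩
      rwa [hσ] at h1
    · intro z hz
      obtain ⟨c, hc, m, hm, rfl⟩ := hfus z hz
      obtain ⟨a, ha, r, hr, e⟩ := hcC.2.2.2 c⁻¹ (inv_mem hc)
      refine ⟨r⁻¹, inv_mem hr, a⁻¹ * m, M.mul_mem (M.inv_mem ha.1) hm, ?_⟩
      have e3 : c = (a * r)⁻¹ := by rw [← e, inv_inv]
      rw [e3]
      group
    · intro r hr p hp hd hpM
      have hpN : p ∈ sigma N := sigma_of_mem_sigmaCore (mem_inf.mp hr).1 hp hd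
      exact (hτ q hq hqd).2.1 (sigma_eq_of_meet hB hN hM hpN hpM (sigma_of_mem_sigmaCore hx hq hqd))
    · intro r hr _
      exact ⟨hC, N, hN, hCN, huq, (mem_inf.mp hr).1⟩

/-- The `π`-part of a product of a `π`-element and a commuting `π'`-element is determined. -/
theorem eq_of_pi_decomp {π : Set ℕ} {x y r s : G} (hx : ∀ p : ℕ, p.Prime → p ∣ orderOf x → p ∈ π)
    (hy : ∀ p : ℕ, p.Prime → p ∣ orderOf y → p ∈ π) (hr : ∀ p : ℕ, p.Prime → p ∣ orderOf r → p ∉ π)
    (hs : ∀ p : ℕ, p.Prime → p ∣ orderOf s → p ∉ π) (hxr : Commute x r) (hys : Commute y s) (e : x * r = y * s) : x = y := by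
  set n := orderOf r * orderOf s with hn
  set m := orderOf x * orderOf y with hm
  have hc : n.Coprime m := by
    refine Nat.coprime_of_dvd fun k hk h1 h2 => ?_
    have h3 : k ∈ π := by
      rcases (Nat.Prime.dvd_mul hk).mp h2 with h | h
      · exact hx k hk h
      · exact hy k hk h
    rcases (Nat.Prime.dvd_mul hk).mp h1 with h | h
    · exact hr k hk h h3
    · exact hs k hk h h3
  have h1 : x ^ n = y ^ n := by
    have h2 : (x * r) ^ n = x ^ n := by
      rw [hxr.mul_pow]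
      have : r ^ n = 1 := by
        rw [hn, pow_mul, pow_orderOf_eq_one, one_pow]
      rw [this, mul_one]
    have h3 : (y * s) ^ n = y ^ n := by
      rw [hys.mul_pow]
      have : s ^ n = 1 := by
        rw [hn, mul_comm, pow_mul, pow_orderOf_eq_one, one_pow]
      rw [this, mul_one]
    rw [← h2, ← h3, e]
  by_cases hm1 : m = 1
  · have h2 : orderOf x = 1 := Nat.eq_one_of_mul_eq_one_right hm1
    have h3 : orderOf y = 1 := Nat.eq_one_of_mul_eq_one_left hm1
    rw [orderOf_eq_one_iff.mp h2, orderOf_eq_one_iff.mp h3]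
  · have hm0 : m ≠ 0 := Nat.mul_ne_zero (orderOf_pos x).ne' (orderOf_pos y).ne'
    have hm2 : 1 < m := by omega
    obtain ⟨k, -, hk⟩ := Nat.exists_mul_mod_eq_one_of_coprime hc hm2
    have hmod : n * k ≡ 1 [MOD m] := by
      unfold Nat.ModEq
      rw [hk, Nat.mod_eq_of_lt hm2]
    have h4 : x ^ (n * k) = x := by
      have := (pow_eq_pow_iff_modEq (x := x) (n := n * k) (m := 1)).mpr (hmod.of_dvd (Dvd.intro _ rfl))
      rwa [pow_one] at this
    have h5 : y ^ (n * k) = y := by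
      have := (pow_eq_pow_iff_modEq (x := y) (n := n * k) (m := 1)).mpr (hmod.of_dvd (Dvd.intro_left _ rfl))
      rwa [pow_one] at this
    calc x = x ^ (n * k) := h4.symm
      _ = (x ^ n) ^ k := pow_mul _ _ _
      _ = (y ^ n) ^ k := by rw [h1]
      _ = y ^ (n * k) := (pow_mul _ _ _).symm
      _ = y := h5

theorem orderOf_dvd_of_decomp {x y r s : G} (hxr : Commute x r) (hys : Commute y s) (e : x * r = y * s) :
    orderOf y ∣ orderOf s * (orderOf r * orderOf x) := by
  set t := orderOf r * orderOf x with ht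
  have h1 : (x * r) ^ t = 1 := by
    rw [hxr.mul_pow, ht]
    have h2 : x ^ (orderOf r * orderOf x) = 1 := by
      rw [mul_comm, pow_mul, pow_orderOf_eq_one, one_pow]
    have h3 : r ^ (orderOf r * orderOf x) = 1 := by
      rw [pow_mul, pow_orderOf_eq_one, one_pow]
    rw [h2, h3, one_mul]
  have h2 : (y * s) ^ t = 1 := by rw [← e, h1]
  apply orderOf_dvd_of_pow_eq_one
  have h3 : ((y * s) ^ t) ^ orderOf s = 1 := by rw [h2, one_pow]
  rw [← pow_mul, hys.mul_pow] at h3
  have h4 : s ^ (t * orderOf s) = 1 := by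
    rw [mul_comm, pow_mul, pow_orderOf_eq_one, one_pow]
  rw [h4, mul_one] at h3
  rwa [mul_comm]

/-- One half of `S1433`. -/
theorem s1433_side (hB : ThmB G) (hG : IsMinSimpleOddOrder G) {M N : Subgroup G} (hM : IsCoatom M) (hN : IsCoatom N) {x y : G}
    (hx : x ∈ sigmaCore M) (hy : y ∈ sigmaCore N) (hx1 : x ≠ 1) (hy1 : y ≠ 1)
    (hdisj : ∀ q : ℕ, q ∈ sigma M → q ∉ sigma N) {r s : G} (hr : r ∈ supportR M x) (hs : s ∈ supportR N y)
    (e : x * r = y * s) :
    ¬ centralizer ({x} : Set G) ≤ M ∧ ∃ L : Subgroup G, IsCoatom L ∧ centralizer ({x} : Set G) ≤ L ∧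
      (∀ L' : Subgroup G, IsCoatom L' → centralizer ({x} : Set G) ≤ L' → L' = L) ∧ y ∈ sigmaCore L := by
  classical
  obtain ⟨h1r, -, -, -, h5r, h6r⟩ := supportR_spec hB hG hM hx hx1
  obtain ⟨h1s, -, -, -, h5s, -⟩ := supportR_spec hB hG hN hy hy1
  have hxr : Commute x r := (mem_centralizer_singleton_iff.mp (h1r hr)).symm
  have hys : Commute y s := (mem_centralizer_singleton_iff.mp (h1s hs)).symm
  have hord : orderOf y ≠ 1 := fun h => hy1 (orderOf_eq_one_iff.1 h)
  obtain ⟨p, hp, hpd⟩ := Nat.exists_prime_and_dvd hord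
  have hpN : p ∈ sigma N := sigma_of_mem_sigmaCore hy hp hpd
  have hd := hpd.trans (orderOf_dvd_of_decomp hxr hys e)
  have hpr : p ∣ orderOf r := by
    rcases (Nat.Prime.dvd_mul hp).mp hd with h | h
    · exact absurd hpN (h5s s hs p hp h)
    · rcases (Nat.Prime.dvd_mul hp).mp h with h | h
      · exact h
      · exact absurd hpN (hdisj p (sigma_of_mem_sigmaCore hx hp h))
  have hr1 : r ≠ 1 := by
    rintro rfl
    rw [orderOf_one] at hpr
    exact hp.not_dvd_one hpr
  obtain ⟨hC, L, hL, hCL, huq, hrL⟩ := h6r r hr hr1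
  refine ⟨hC, L, hL, hCL, huq, ?_⟩
  have hpL : p ∈ sigma L := sigma_of_mem_sigmaCore hrL hp hpr
  have hry : r = y := by
    refine eq_of_pi_decomp (π := sigma N) (x := r) (y := y) (r := x) (s := s) ?_ ?_ ?_ ?_ hxr.symm hys ?_
    · intro t ht htd
      exact sigma_eq_of_meet hB hN hL hpN hpL (sigma_of_mem_sigmaCore hrL ht htd)
    · intro t ht htd
      exact sigma_of_mem_sigmaCore hy ht htd
    · intro t ht htd
      exact hdisj t (sigma_of_mem_sigmaCore hx ht htd)
    · intro t ht htd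
      exact h5s s hs t ht htd
    · rw [← e]
      exact hxr.symm.eq
  rw [← hry]
  exact hrL

/-- **S1433 core**. -/
theorem s1433_core (hB : ThmB G) (hG : IsMinSimpleOddOrder G) {M N : Subgroup G} (hM : IsCoatom M) (hN : IsCoatom N) {x y : G}
    (hx : x ∈ sigmaCore M) (hy : y ∈ sigmaCore N) (hx1 : x ≠ 1) (hy1 : y ≠ 1) (hxy : x ≠ y) :
    ∀ r ∈ supportR M x, ∀ s ∈ supportR N y, x * r ≠ y * s := by
  classical
  intro r hr s hs e
  obtain ⟨h1r, -, -, -, h5r, -⟩ := supportR_spec hB hG hM hx hx1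
  obtain ⟨h1s, -, -, -, h5s, -⟩ := supportR_spec hB hG hN hy hy1
  have hxr : Commute x r := (mem_centralizer_singleton_iff.mp (h1r hr)).symm
  have hys : Commute y s := (mem_centralizer_singleton_iff.mp (h1s hs)).symm
  by_cases hmeet : ∃ q : ℕ, q ∈ sigma M ∧ q ∈ sigma N
  · obtain ⟨q, hqM, hqN⟩ := hmeet
    refine hxy (eq_of_pi_decomp (π := sigma M) ?_ ?_ (h5r r hr) ?_ hxr hys e)
    · intro t ht htd
      exact sigma_of_mem_sigmaCore hx ht htd
    · intro t ht htd
      exact sigma_eq_of_meet hB hM hN hqM hqN (sigma_of_mem_sigmaCore hy ht htd)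
    · intro t ht htd htM
      exact h5s s hs t ht htd (sigma_eq_of_meet hB hN hM hqN hqM htM)
  · push Not at hmeet
    obtain ⟨hC, L, hL, hCL, huq, hyL⟩ := s1433_side hB hG hM hN hx hy hx1 hy1 hmeet hr hs e
    obtain ⟨hC', L', hL', hCL', huq', hxL'⟩ := s1433_side hB hG hN hM hy hx hy1 hx1
      (fun q hqN hqM => hmeet q hqM hqN) hs hr e.symm
    have hord : orderOf x ≠ 1 := fun h => hx1 (orderOf_eq_one_iff.1 h)
    obtain ⟨q, hq, hqd⟩ := Nat.exists_prime_and_dvd hord
    haveI : Fact q.Prime := ⟨hq⟩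
    obtain ⟨c, ec⟩ := conj_of_sigma_sigma hB hM hL' (sigma_of_mem_sigmaCore hx hq hqd) (sigma_of_mem_sigmaCore hxL' hq hqd)
    have hxL'm : x ∈ L' := piCoreOf_le _ L' hxL'
    have hc : (c⁻¹)⁻¹ * x * c⁻¹ ∈ M := by
      rw [← ec]
      refine ⟨x, hxL'm, ?_⟩
      simp [MulAut.conj_apply]
    obtain ⟨d, hd, m, hm, edm⟩ := fusion_core hB hG hM hx hx1 hc
    have eL' : L' = M.map (MulAut.conj d).toMonoidHom := by
      have h1 : L' = M.map (MulAut.conj c⁻¹).toMonoidHom := by
        rw [← ec, conj_map_conj_map, inv_mul_cancel, conj_map_one]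
      rw [h1, edm]
      exact conj_map_mul_of_mem hm
    have hCL'n : ¬ centralizer ({x} : Set G) ≤ L' := by
      intro hle
      apply hC
      intro t ht
      have h2 : d * t * d⁻¹ ∈ centralizer ({x} : Set G) :=
        (centralizer ({x} : Set G)).mul_mem ((centralizer ({x} : Set G)).mul_mem hd ht) ((centralizer ({x} : Set G)).inv_mem hd)
      have h3 := hle h2
      rw [eL'] at h3
      obtain ⟨w, hw, ew⟩ := h3
      have e2 : t = w := by
        have e3 : d * w * d⁻¹ = d * t * d⁻¹ := by simpa [MulAut.conj_apply] using ew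
        have e4 := mul_right_cancel (mul_left_cancel (a := d) (by simpa [mul_assoc] using e3 : d * (w * d⁻¹) = d * (t * d⁻¹)))
        exact e4.symm
      rw [e2]
      exact hw
    obtain ⟨N₀, hN₀, hCN₀, huq₀, -, -, hσ₀, -, -, -, -⟩ := thmE_core hB hG hL' hxL' hx1 hCL'n
    have e3 : L = N₀ := huq₀ L hL hCL
    have hyL' : y ∈ L' := hCL' (mem_centralizer_singleton_self y)
    have h4 : y ∈ sigmaCore N₀ ⊓ L' := ⟨e3 ▸ hyL, hyL'⟩
    rw [hσ₀, mem_bot] at h4
    exact hy1 h4

end Cfsg.Agent.Lib.FT
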