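import Cfsg.Agent.Lib.FT.BG20c

/-!
BG20: the count `S1377`: `#M̃ = (#M_σ - 1) [G : M]`, conditional on Theorem B.
-/

set_option autoImplicit false
set_option linter.unusedSectionVars false
set_option linter.style.haveILetI false

namespace Cfsg.Agent.Lib.FT

open Subgroup Cfsg Cfsg.Agent.Lib.OddLocal Cfsg.Agent.Lib.Basic

open Cfsg.Agent.Lib.Coprime (mem_conj_map conj_mem_conj_map conj_map_conj_map conj_map_one
  conj_map_mono mem_normalizer_of_conj_le conj_map_eq_iff_mem_normalizer isPGroup_conj_map)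

variable {G : Type*} [Group G] [Finite G]

theorem sigmaCore_conj_le (N : Subgroup G) (c : G) :
    (sigmaCore N).map (MulAut.conj c).toMonoidHom ≤ sigmaCore (N.map (MulAut.conj c).toMonoidHom) := by
  refine le_piCoreOf (conj_map_mono (piCoreOf_le _ N) c) ?_ ?_
  · rintro _ ⟨n, hn, rfl⟩
    rw [← conj_map_eq_iff_mem_normalizer]
    have h1 := (conj_map_eq_iff_mem_normalizer (sigmaCore N) n).mpr (le_normalizer_piCoreOf (sigma N) N hn)
    rw [conj_map_conj_map]
    have e : (MulAut.conj c).toMonoidHom n * c = c * n := by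
      simp [MulAut.conj_apply]
    rw [e, ← conj_map_conj_map, h1]
  · intro p hp hd
    haveI : Fact p.Prime := ⟨hp⟩
    rw [Cfsg.Agent.Lib.Coprime.card_conj_map] at hd
    exact sigma_conj_of_mem (piCoreOf_isPi (sigma N) N p hp hd) c

theorem sigmaCore_conj (N : Subgroup G) (c : G) :
    sigmaCore (N.map (MulAut.conj c).toMonoidHom) = (sigmaCore N).map (MulAut.conj c).toMonoidHom := by
  apply le_antisymm _ (sigmaCore_conj_le N c)
  have h1 := sigmaCore_conj_le (N.map (MulAut.conj c).toMonoidHom) c⁻¹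
  rw [conj_map_conj_map, inv_mul_cancel, conj_map_one] at h1
  have h2 := conj_map_mono h1 c
  rwa [conj_map_conj_map, mul_inv_cancel, conj_map_one] at h2

/-- Equivariance of `R` under `M`. -/
theorem supportR_conj_mem (hB : ThmB G) (hG : IsMinSimpleOddOrder G) {M : Subgroup G} (hM : IsCoatom M) {a r m : G}
    (ha : a ∈ sigmaCore M) (ha1 : a ≠ 1) (hm : m ∈ M) (hr : r ∈ supportR M a) : m * r * m⁻¹ ∈ supportR M (m * a * m⁻¹) := by
  classical
  by_cases hr1 : r = 1
  · subst hr1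
    simp [one_mem]
  obtain ⟨h1r, -, -, -, -, h6r⟩ := supportR_spec hB hG hM ha ha1
  obtain ⟨hC, N, hN, hCN, -, hrN⟩ := h6r r hr hr1
  have hb : m * a * m⁻¹ ∈ sigmaCore M := (mem_normalizer_iff.mp (le_normalizer_piCoreOf (sigma M) M hm) a).mp ha
  have hb1 : m * a * m⁻¹ ≠ 1 := by
    intro h
    apply ha1
    have e : a = m⁻¹ * (m * a * m⁻¹) * m := by group
    rw [e, h]
    group
  have hconj : ∀ t : G, t ∈ centralizer ({a} : Set G) ↔ m * t * m⁻¹ ∈ centralizer ({m * a * m⁻¹} : Set G) := by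
    intro t
    rw [mem_centralizer_singleton_iff, mem_centralizer_singleton_iff]
    constructor
    · intro h
      calc m * t * m⁻¹ * (m * a * m⁻¹) = m * (t * a) * m⁻¹ := by group
        _ = m * (a * t) * m⁻¹ := by rw [h]
        _ = _ := by group
    · intro h
      have h2 : m * (t * a) * m⁻¹ = m * (a * t) * m⁻¹ := by
        calc m * (t * a) * m⁻¹ = m * t * m⁻¹ * (m * a * m⁻¹) := by group
          _ = m * a * m⁻¹ * (m * t * m⁻¹) := h
          _ = _ := by group
      exact mul_left_cancel (mul_right_cancel h2)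
  have hCb : ¬ centralizer ({m * a * m⁻¹} : Set G) ≤ M := by
    intro hle
    apply hC
    intro t ht
    have h2 := hle ((hconj t).mp ht)
    have e : t = m⁻¹ * (m * t * m⁻¹) * m := by group
    rw [e]
    exact M.mul_mem (M.mul_mem (M.inv_mem hm) h2) hm
  obtain ⟨N', hN', hCN', huq', -, hnil', -, -, -, -, -⟩ := thmE_core hB hG hM hb hb1 hCb
  have hN'' : IsCoatom (N.map (MulAut.conj m).toMonoidHom) := coatom_conj hN m
  have hCm : centralizer ({m * a * m⁻¹} : Set G) ≤ N.map (MulAut.conj m).toMonoidHom := by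
    intro t ht
    have h2 : m⁻¹ * t * m⁻¹⁻¹ ∈ centralizer ({a} : Set G) := by
      rw [hconj]
      have e : m * (m⁻¹ * t * m⁻¹⁻¹) * m⁻¹ = t := by group
      rw [e]
      exact ht
    refine ⟨m⁻¹ * t * m⁻¹⁻¹, hCN h2, ?_⟩
    simp [MulAut.conj_apply]
    group
  have e := huq' _ hN'' hCm
  rw [supportR_of_unique hG hCb hN' hCN' huq' hnil', ← e, sigmaCore_conj]
  exact ⟨conj_mem_conj_map _ m r hrN, (hconj r).mp (h1r hr)⟩

/-- Independence of `R` of the representative. -/
theorem supportR_indep (hB : ThmB G) (hG : IsMinSimpleOddOrder G) {M : Subgroup G} (hM : IsCoatom M) {a b y y₀ r : G}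
    (ha : a ∈ sigmaCore M) (ha1 : a ≠ 1) (hb : b ∈ sigmaCore M) (hb1 : b ≠ 1) (e : y * a * y⁻¹ = y₀ * b * y₀⁻¹)
    (hr : r ∈ supportR M a) : ∃ r₀ ∈ supportR M b, y * r * y⁻¹ = y₀ * r₀ * y₀⁻¹ := by
  classical
  obtain ⟨h1, -, -, h4, -, -⟩ := supportR_spec hB hG hM hb hb1
  set z := y₀⁻¹ * y with hz
  have e1 : z⁻¹ * b * z = a := by
    have e2 : b = y₀⁻¹ * (y₀ * b * y₀⁻¹) * y₀ := by group
    rw [hz]
    nth_rewrite 1 [e2]
    rw [← e]
    group
  obtain ⟨r₁, hr₁, m, hm, ezm⟩ := h4 z (by rw [e1]; exact piCoreOf_le _ M ha)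
  have hr₁b : r₁ * b = b * r₁ := mem_centralizer_singleton_iff.mp (h1 hr₁)
  have e3 : m * a * m⁻¹ = b := by
    rw [← e1, ezm]
    have e4 : r₁⁻¹ * b * r₁ = b := by
      rw [mul_assoc, ← hr₁b]
      group
    calc m * ((r₁ * m)⁻¹ * b * (r₁ * m)) * m⁻¹ = r₁⁻¹ * b * r₁ := by group
      _ = b := e4
  have h5 := supportR_conj_mem hB hG hM ha ha1 hm hr
  rw [e3] at h5
  refine ⟨r₁ * (m * r * m⁻¹) * r₁⁻¹, mul_mem (mul_mem hr₁ h5) (inv_mem hr₁), ?_⟩
  have e5 : y = y₀ * z := by rw [hz]; group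
  rw [e5, ezm]
  group

theorem orderOf_conj_bg20 (c x : G) : orderOf (c * x * c⁻¹) = orderOf x := by
  have := (MulAut.conj c).orderOf_eq x
  simpa [MulAut.conj_apply] using this

theorem commute_conj_of_comm {y a r : G} (h : r * a = a * r) : Commute (y * a * y⁻¹) (y * r * y⁻¹) := by
  show _ * _ = _ * _
  calc y * a * y⁻¹ * (y * r * y⁻¹) = y * (a * r) * y⁻¹ := by group
    _ = y * (r * a) * y⁻¹ := by rw [h]
    _ = _ := by group

/-- **S1377 core**. -/
theorem s1377_core (hB : ThmB G) (hG : IsMinSimpleOddOrder G) {M : Subgroup G} (hM : IsCoatom M) :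
    Set.ncard (tildeOf M ((sigmaCore M : Set G) \ {1})) = (Nat.card (sigmaCore M) - 1) * M.index := by
  classical
  haveI := Fintype.ofFinite G
  have hσM : sigmaCore M ≤ M := piCoreOf_le _ M
  let A : Finset G := Finset.univ.filter (fun a => a ∈ sigmaCore M ∧ a ≠ 1)
  have hAmem : ∀ a : G, a ∈ A ↔ a ∈ sigmaCore M ∧ a ≠ 1 := by
    intro a
    simp [A]
  have hAcard : A.card = Nat.card (sigmaCore M) - 1 := by
    have h1 : A = (Finset.univ.filter (fun a => a ∈ sigmaCore M)).erase 1 := by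
      ext a
      simp [A, and_comm]
    have h2 : (Finset.univ.filter (fun a => a ∈ sigmaCore M)).card = Nat.card (sigmaCore M) := by
      rw [Nat.card_eq_fintype_card, Fintype.card_subtype]
    rw [h1, Finset.card_erase_of_mem (by simp [one_mem]), h2]
  let f : G × G → G := fun p => p.1 * p.2 * p.1⁻¹
  let T : Finset (G × G) := Finset.univ ×ˢ A
  let U : Finset G := T.image f
  have hrep : ∀ u : G, ∃ p : G × G, u ∈ U → (p ∈ T ∧ f p = u) := by
    intro u
    by_cases hu : u ∈ U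
    · obtain ⟨p, hp, e⟩ := Finset.mem_image.mp hu
      exact ⟨p, fun _ => ⟨hp, e⟩⟩
    · exact ⟨(1, 1), fun h => absurd h hu⟩
  choose rep hrep' using hrep
  have hrepA : ∀ u ∈ U, (rep u).2 ∈ sigmaCore M ∧ (rep u).2 ≠ 1 := fun u hu =>
    (hAmem _).mp (Finset.mem_product.mp (hrep' u hu).1).2
  have hrepf : ∀ u ∈ U, (rep u).1 * (rep u).2 * (rep u).1⁻¹ = u := fun u hu => (hrep' u hu).2
  let Rf : G → Finset G := fun a => Finset.univ.filter (fun r => r ∈ supportR M a)
  have hRf : ∀ a r : G, r ∈ Rf a ↔ r ∈ supportR M a := by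
    intro a r
    simp [Rf]
  let F : G → Finset G := fun u => (Rf (rep u).2).image (fun r => u * ((rep u).1 * r * (rep u).1⁻¹))
  have htilde : tildeOf M ((sigmaCore M : Set G) \ {1}) = ↑(U.biUnion F) := by
    ext g
    constructor
    · rintro ⟨a, ⟨ha, ha1⟩, r, hr, y, rfl⟩
      have ha1' : a ≠ 1 := ha1
      have hu : y * a * y⁻¹ ∈ U :=
        Finset.mem_image.mpr ⟨(y, a), Finset.mem_product.mpr ⟨Finset.mem_univ _, (hAmem a).mpr ⟨ha, ha1'⟩⟩, rfl⟩
      have hA := hrepA _ hu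
      obtain ⟨r₀, hr₀, e⟩ := supportR_indep hB hG hM ha ha1' hA.1 hA.2 (hrepf _ hu).symm hr
      simp only [Finset.coe_biUnion, Set.mem_iUnion, Finset.mem_coe]
      refine ⟨y * a * y⁻¹, hu, Finset.mem_image.mpr ⟨r₀, (hRf _ _).mpr hr₀, ?_⟩⟩
      show y * a * y⁻¹ * ((rep (y * a * y⁻¹)).1 * r₀ * (rep (y * a * y⁻¹)).1⁻¹) = y * (a * r) * y⁻¹
      rw [← e]
      group
    · intro hg
      simp only [Finset.coe_biUnion, Set.mem_iUnion, Finset.mem_coe] at hg
      obtain ⟨u, hu, hg⟩ := hg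
      obtain ⟨r, hr, rfl⟩ := Finset.mem_image.mp hg
      have hA := hrepA u hu
      refine ⟨(rep u).2, ⟨hA.1, hA.2⟩, r, (hRf _ _).mp hr, (rep u).1, ?_⟩
      show u * ((rep u).1 * r * (rep u).1⁻¹) = _
      have hu' := hrepf u hu
      generalize (rep u).1 = y₀ at hu' ⊢
      generalize (rep u).2 = a₀ at hu' ⊢
      rw [← hu']
      group
  have hspec : ∀ u ∈ U, ∀ r ∈ supportR M (rep u).2, Commute u ((rep u).1 * r * (rep u).1⁻¹) := by
    intro u hu r hr
    have hA := hrepA u hu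
    obtain ⟨h1, -⟩ := supportR_spec hB hG hM hA.1 hA.2
    have h2 : r * (rep u).2 = (rep u).2 * r := mem_centralizer_singleton_iff.mp (h1 hr)
    have h3 := commute_conj_of_comm (y := (rep u).1) h2
    rwa [hrepf u hu] at h3
  have hprimes1 : ∀ u ∈ U, ∀ p : ℕ, p.Prime → p ∣ orderOf u → p ∈ sigma M := by
    intro u hu p hp hd
    have hA := hrepA u hu
    have hu' := hrepf u hu
    rw [← hu', orderOf_conj_bg20] at hd
    exact sigma_of_mem_sigmaCore hA.1 hp hd
  have hprimes2 : ∀ u ∈ U, ∀ r ∈ supportR M (rep u).2, ∀ p : ℕ, p.Prime → p ∣ orderOf ((rep u).1 * r * (rep u).1⁻¹) → p ∉ sigma M := by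
    intro u hu r hr p hp hd
    have hA := hrepA u hu
    obtain ⟨-, -, -, -, h5, -⟩ := supportR_spec hB hG hM hA.1 hA.2
    rw [orderOf_conj_bg20] at hd
    exact h5 r hr p hp hd
  have hdisj : (U : Set G).PairwiseDisjoint F := by
    intro u hu u' hu' hne
    rw [Function.onFun, Finset.disjoint_left]
    intro g hg hg'
    obtain ⟨r, hr, rfl⟩ := Finset.mem_image.mp hg
    obtain ⟨r', hr', e⟩ := Finset.mem_image.mp hg'
    apply hne
    have hr2 := (hRf _ _).mp hr
    have hr2' := (hRf _ _).mp hr'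
    exact eq_of_pi_decomp (π := sigma M) (hprimes1 u hu) (hprimes1 u' hu') (hprimes2 u hu r hr2) (hprimes2 u' hu' r' hr2')
      (hspec u hu r hr2) (hspec u' hu' r' hr2') e.symm
  have hcardF : ∀ u ∈ U, (F u).card = (Rf (rep u).2).card := by
    intro u _
    apply Finset.card_image_of_injective
    intro r r' e
    have e1 := mul_left_cancel e
    have e2 := mul_right_cancel e1
    exact mul_left_cancel e2
  let Mf : Finset G := Finset.univ.filter (fun m => m ∈ M)
  have hMf : Mf.card = Nat.card M := by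
    rw [Nat.card_eq_fintype_card, Fintype.card_subtype]
  have hfib : ∀ u ∈ U, (T.filter (fun p => f p = u)).card = (Rf (rep u).2).card * Nat.card M := by
    intro u hu
    have hA := hrepA u hu
    have hu' := hrepf u hu
    generalize (rep u).1 = y₀ at hu'
    generalize (rep u).2 = a₀ at hA hu' ⊢
    obtain ⟨h1, -, h3, h4, -, -⟩ := supportR_spec hB hG hM hA.1 hA.2
    rw [← hMf, ← Finset.card_product]
    symm
    refine Finset.card_bij (fun q _ => (y₀ * q.1 * q.2, q.2⁻¹ * a₀ * q.2)) ?_ ?_ ?_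
    · intro q hq
      obtain ⟨hq1, hq2⟩ := Finset.mem_product.mp hq
      have hq1' := (hRf _ _).mp hq1
      have hq2' : q.2 ∈ M := by simpa [Mf] using hq2
      have hrc : q.1 * a₀ = a₀ * q.1 := mem_centralizer_singleton_iff.mp (h1 hq1')
      refine Finset.mem_filter.mpr ⟨Finset.mem_product.mpr ⟨Finset.mem_univ _, (hAmem _).mpr ⟨?_, ?_⟩⟩, ?_⟩
      · have := (mem_normalizer_iff.mp (le_normalizer_piCoreOf (sigma M) M (M.inv_mem hq2')) a₀).mp hA.1
        rwa [inv_inv] at this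
      · intro h
        have h' : q.2⁻¹ * a₀ * q.2 = 1 := h
        apply hA.2
        have e : a₀ = q.2 * (q.2⁻¹ * a₀ * q.2) * q.2⁻¹ := by group
        rw [e, h']
        group
      · show y₀ * q.1 * q.2 * (q.2⁻¹ * a₀ * q.2) * (y₀ * q.1 * q.2)⁻¹ = u
        calc y₀ * q.1 * q.2 * (q.2⁻¹ * a₀ * q.2) * (y₀ * q.1 * q.2)⁻¹
            = y₀ * (q.1 * a₀) * q.1⁻¹ * y₀⁻¹ := by group
          _ = y₀ * (a₀ * q.1) * q.1⁻¹ * y₀⁻¹ := by rw [hrc]
          _ = y₀ * a₀ * y₀⁻¹ := by group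
          _ = u := hu'
    · intro q hq q' hq' e
      obtain ⟨hq1, hq2⟩ := Finset.mem_product.mp hq
      obtain ⟨hq1', hq2'⟩ := Finset.mem_product.mp hq'
      have hr := (hRf _ _).mp hq1
      have hr' := (hRf _ _).mp hq1'
      have hm : q.2 ∈ M := by simpa [Mf] using hq2
      have hm' : q'.2 ∈ M := by simpa [Mf] using hq2'
      have e1 : y₀ * q.1 * q.2 = y₀ * q'.1 * q'.2 := congrArg Prod.fst e
      have e2 : q.1 * q.2 = q'.1 * q'.2 := by
        apply mul_left_cancel (a := y₀)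
        simpa [mul_assoc] using e1
      have e3 : q'.1⁻¹ * q.1 = q'.2 * q.2⁻¹ := by
        calc q'.1⁻¹ * q.1 = q'.1⁻¹ * (q.1 * q.2) * q.2⁻¹ := by group
          _ = q'.1⁻¹ * (q'.1 * q'.2) * q.2⁻¹ := by rw [e2]
          _ = _ := by group
      have h7 : q'.1⁻¹ * q.1 ∈ supportR M a₀ ⊓ M :=
        ⟨(supportR M a₀).mul_mem ((supportR M a₀).inv_mem hr') hr, by rw [e3]; exact M.mul_mem hm' (M.inv_mem hm)⟩
      rw [h3, mem_bot] at h7
      have e4 : q.1 = q'.1 := by
        have := inv_mul_eq_one.mp h7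
        exact this.symm
      have e5 : q.2 = q'.2 := by
        rw [e4] at e2
        exact mul_left_cancel e2
      exact Prod.ext e4 e5
    · intro p hp
      obtain ⟨hp1, hp2⟩ := Finset.mem_filter.mp hp
      obtain ⟨-, hp3⟩ := Finset.mem_product.mp hp1
      have hpa := (hAmem _).mp hp3
      have e2 : p.1 * p.2 * p.1⁻¹ = u := hp2
      have e : a₀ = y₀⁻¹ * (p.1 * p.2 * p.1⁻¹) * y₀ := by
        calc a₀ = y₀⁻¹ * (y₀ * a₀ * y₀⁻¹) * y₀ := by group
          _ = y₀⁻¹ * (p.1 * p.2 * p.1⁻¹) * y₀ := by rw [hu', e2]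
      have hz : (y₀⁻¹ * p.1)⁻¹ * a₀ * (y₀⁻¹ * p.1) = p.2 := by
        rw [e]
        group
      obtain ⟨r, hr, m, hm, ezm⟩ := h4 (y₀⁻¹ * p.1) (by rw [hz]; exact hσM hpa.1)
      have hrc : r * a₀ = a₀ * r := mem_centralizer_singleton_iff.mp (h1 hr)
      refine ⟨(r, m), Finset.mem_product.mpr ⟨(hRf _ _).mpr hr, by simpa [Mf] using hm⟩, ?_⟩
      have e1 : p.1 = y₀ * (r * m) := by
        rw [← ezm]
        group
      apply Prod.ext
      · show y₀ * r * m = p.1
        rw [e1]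
        group
      · show m⁻¹ * a₀ * m = p.2
        rw [← hz, ezm]
        have e4 : r⁻¹ * a₀ * r = a₀ := by
          rw [mul_assoc, ← hrc]
          group
        calc m⁻¹ * a₀ * m = m⁻¹ * (r⁻¹ * a₀ * r) * m := by rw [e4]
          _ = _ := by group
  have hcard : (U.biUnion F).card * Nat.card M = A.card * Nat.card G := by
    have h1 : (U.biUnion F).card = ∑ u ∈ U, (F u).card := Finset.card_biUnion (fun u hu u' hu' hne => hdisj hu hu' hne)
    have h2 : T.card = ∑ u ∈ U, (T.filter (fun p => f p = u)).card := Finset.card_eq_sum_card_image f T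
    have h3 : T.card = Nat.card G * A.card := by
      rw [Finset.card_product, Finset.card_univ, Nat.card_eq_fintype_card]
    rw [h1, Finset.sum_mul, mul_comm A.card, ← h3, h2]
    refine Finset.sum_congr rfl fun u hu => ?_
    rw [hfib u hu, hcardF u hu]
  rw [htilde, Set.ncard_coe_finset, ← hAcard]
  have h4 : Nat.card M * M.index = Nat.card G := Subgroup.card_mul_index M
  rw [← h4, mul_comm (Nat.card M), ← mul_assoc] at hcard
  exact Nat.eq_of_mul_eq_mul_right Nat.card_pos hcard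

end Cfsg.Agent.Lib.FT
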