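import Cfsg.Agent.Lib.FT.BG20a

/-!
BG20: `S1362`: `A(M) - M_σ` is a TI-subset. (Unconditional.)
-/

set_option autoImplicit false
set_option linter.unusedSectionVars false
set_option linter.style.haveILetI false

namespace Cfsg.Agent.Lib.FT

open Subgroup Cfsg Cfsg.Agent.Lib.OddLocal Cfsg.Agent.Lib.Basic

open Cfsg.Agent.Lib.Coprime (mem_conj_map conj_mem_conj_map conj_map_conj_map conj_map_one
  conj_map_mono mem_normalizer_of_conj_le conj_map_eq_iff_mem_normalizer isPGroup_conj_map)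

variable {G : Type*} [Group G] [Finite G]

/-- `U M_σ` is normal in `M`. -/
theorem le_normalizer_sup_decomp {N K U : Subgroup G} (hKU : IsSigmaDecomposition N K U) :
    N ≤ normalizer ((U ⊔ sigmaCore N : Subgroup G) : Set G) := by
  classical
  have hNn : N ≤ normalizer (sigmaCore N : Set G) := le_normalizer_piCoreOf (sigma N) N
  have hFself : U ⊔ sigmaCore N ≤ normalizer ((U ⊔ sigmaCore N : Subgroup G) : Set G) := le_normalizer
  have hKn : K ≤ normalizer ((U ⊔ sigmaCore N : Subgroup G) : Set G) := by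
    intro k hk
    rw [← conj_map_eq_iff_mem_normalizer, Subgroup.map_sup,
      (conj_map_eq_iff_mem_normalizer U k).mpr (hKU.normal hk),
      (conj_map_eq_iff_mem_normalizer (sigmaCore N) k).mpr (hNn (hKU.hall.1 hk))]
  intro n hn
  obtain ⟨u, hu, b, hb, rfl⟩ := hKU.compl.2.2.2 n hn
  refine mul_mem (hFself ((le_sup_left : U ≤ U ⊔ sigmaCore N) hu)) ?_
  exact (sup_le hKn ((le_sup_right : sigmaCore N ≤ U ⊔ sigmaCore N).trans hFself)) hb

/-- `M` normalizes `A(M) - M_σ`. -/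
theorem le_normalizer_sigmaA_diff {M K U : Subgroup G} (hKU : IsSigmaDecomposition M K U) :
    M ≤ normalizer (sigmaA M U \ (sigmaCore M : Set G)) := by
  classical
  have hNn : M ≤ normalizer (sigmaCore M : Set G) := le_normalizer_piCoreOf (sigma M) M
  have hUn := le_normalizer_sup_decomp hKU
  have key : ∀ m ∈ M, ∀ h : G, h ∈ sigmaA M U \ (sigmaCore M : Set G) →
      m * h * m⁻¹ ∈ sigmaA M U \ (sigmaCore M : Set G) := by
    rintro m hm h ⟨⟨⟨hM, y, hy, hy1, hc⟩, hS⟩, hσ⟩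
    refine ⟨⟨⟨M.mul_mem (M.mul_mem hm hM) (M.inv_mem hm), m * y * m⁻¹,
      (mem_normalizer_iff.mp (hNn hm) y).mp hy, ?_, ?_⟩, (mem_normalizer_iff.mp (hUn hm) h).mp hS⟩, ?_⟩
    · intro h1
      apply hy1
      have e : y = m⁻¹ * (m * y * m⁻¹) * m := by group
      rw [e, h1]
      group
    · calc m * h * m⁻¹ * (m * y * m⁻¹) = m * (h * y) * m⁻¹ := by group
        _ = m * (y * h) * m⁻¹ := by rw [hc]
        _ = _ := by group
    · intro h1
      exact hσ ((mem_normalizer_iff.mp (hNn hm) h).mpr h1)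
  intro m hm
  show ∀ h : G, h ∈ sigmaA M U \ (sigmaCore M : Set G) ↔ m * h * m⁻¹ ∈ sigmaA M U \ (sigmaCore M : Set G)
  intro h
  refine ⟨key m hm h, fun h1 => ?_⟩
  have := key m⁻¹ (M.inv_mem hm) _ h1
  have e : m⁻¹ * (m * h * m⁻¹) * m⁻¹⁻¹ = h := by group
  rwa [e] at this

/-- A prime-order power of an element of `A(M)`, of order outside `σ(M)`, has its centralizer in `M` only. -/
theorem cent_of_sigmaA (hG : IsMinSimpleOddOrder G) {M K U : Subgroup G} (hM : IsCoatom M) (hKU : IsSigmaDecomposition M K U)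
    {z : G} (hz : z ∈ sigmaA M U) {s : ℕ} (hs : s.Prime) (hsσ : s ∉ sigma M) {z₀ : G} (hz₀ : z₀ ∈ zpowers z) (ho : orderOf z₀ = s) :
    centralizer ({z₀} : Set G) ≤ M ∧ ∀ L : Subgroup G, IsCoatom L → centralizer ({z₀} : Set G) ≤ L → L = M := by
  classical
  have huniq := huniq13 hG
  haveI : Fact s.Prime := ⟨hs⟩
  obtain ⟨⟨hzM, y, hy, hy1, hc⟩, hS⟩ := hz
  have hz₀S : z₀ ∈ U ⊔ sigmaCore M := (zpowers_le.2 hS) hz₀
  have hz₀M : z₀ ∈ M := (zpowers_le.2 hzM) hz₀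
  have hz₀1 : z₀ ≠ 1 := by
    rintro rfl
    rw [orderOf_one] at ho
    exact hs.one_lt.ne ho
  have hsU : s ∣ Nat.card U := by
    have hd : s ∣ Nat.card ↥(U ⊔ sigmaCore M) := by
      rw [← ho]
      exact Subgroup.orderOf_dvd_natCard _ hz₀S
    have hinf : sigmaCore M ⊓ U = ⊥ := by
      rw [eq_bot_iff]
      rintro u ⟨hu1, hu2⟩
      have h1 : u ∈ U ⊓ (K ⊔ sigmaCore M) := ⟨hu2, (le_sup_right : sigmaCore M ≤ K ⊔ sigmaCore M) hu1⟩
      rwa [hKU.compl.2.2.1] at h1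
    have hNn : M ≤ normalizer (sigmaCore M : Set G) := le_normalizer_piCoreOf (sigma M) M
    have h1 : Nat.card ↥(sigmaCore M ⊔ U) * Nat.card ↥(sigmaCore M ⊓ U) = Nat.card (sigmaCore M) * Nat.card U :=
      card_sup_mul_card_inf (hKU.compl.1.trans hNn)
    rw [hinf, Subgroup.card_bot, mul_one, sup_comm] at h1
    rw [h1] at hd
    rcases (Nat.Prime.dvd_mul hs).mp hd with h | h
    · exact absurd (piCoreOf_isPi (sigma M) M s hs h) hsσ
    · exact h
  have hyz : z₀ * y = y * z₀ := by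
    obtain ⟨k, rfl⟩ := mem_zpowers_iff.mp hz₀
    have h1 : Commute z y := hc
    exact (h1.zpow_left k).eq
  have hτ : s ∈ tau2 M := by
    have hr2 : PRankLE s 2 ↥M := by
      by_contra h
      exact hsσ (alpha_sub_sigma hG huniq hM ⟨hs, h⟩)
    refine ⟨hs, hsσ, hr2, fun hr1 => ?_⟩
    refine not_kappa_of_dvd_U hG huniq hM hKU hs hsU (kappa_of_good hG hz₀M hz₀1 hs ?_ hsσ hr1 ?_)
    · rw [← ho]
      exact pow_orderOf_eq_one z₀
    · intro hbot
      have h1 : y ∈ sigmaCore M ⊓ centralizer ({z₀} : Set G) := ⟨hy, mem_centralizer_singleton_iff.mpr hyz.symm⟩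
      rw [hbot, mem_bot] at h1
      exact hy1 h1
  refine s1420_d hG huniq (fun r _ K hK => hpl13 hG r K hK) hM hz₀M hz₀1 (fun t ht hd => ?_) ⟨hz₀M, y, hy, hy1, hyz⟩
  rw [ho] at hd
  rw [(Nat.prime_dvd_prime_iff_eq ht hs).mp hd]
  exact hτ

/-- **S1362**. -/
theorem s1362_core (hG : IsMinSimpleOddOrder G) {M K U : Subgroup G} (hM : IsCoatom M) (hKU : IsSigmaDecomposition M K U) :
    IsTISubset (sigmaA M U \ (sigmaCore M : Set G)) := by
  classical
  intro g hg x hx hgx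
  exfalso
  apply hg
  have huniq := huniq13 hG
  obtain ⟨hH1, hH2, hH3⟩ := (s1350_core hG huniq hM).1
  have hNn : M ≤ normalizer (sigmaCore M : Set G) := le_normalizer_piCoreOf (sigma M) M
  obtain ⟨hxA, hxσ⟩ := hx
  obtain ⟨hgA, -⟩ := hgx
  -- a prime outside `σ(M)`
  obtain ⟨s, hs, hsd, hsσ⟩ : ∃ s : ℕ, s.Prime ∧ s ∣ orderOf x ∧ s ∉ sigma M := by
    by_contra hcon
    push Not at hcon
    apply hxσ
    refine mem_of_coprime_relIndex hNn hxA.1.1 ?_
    refine Nat.coprime_of_dvd fun k hk h1 h2 => hH3 k hk (hcon k hk h2) h1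
  obtain ⟨x₀, hx₀, ho⟩ := exists_mem_zpowers_orderOf hsd
  obtain ⟨h1, -⟩ := cent_of_sigmaA hG hM hKU hxA hs hsσ hx₀ ho
  have hz₁ : g * x₀ * g⁻¹ ∈ zpowers (g * x * g⁻¹) := by
    obtain ⟨k, rfl⟩ := mem_zpowers_iff.mp hx₀
    refine mem_zpowers_iff.mpr ⟨k, ?_⟩
    simp [conj_zpow]
  have ho' : orderOf (g * x₀ * g⁻¹) = s := by
    rw [← ho]
    have := orderOf_injective (MulAut.conj g).toMonoidHom (MulAut.conj g).injective x₀
    simpa [MulAut.conj_apply] using this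
  obtain ⟨-, h2⟩ := cent_of_sigmaA hG hM hKU hgA hs hsσ hz₁ ho'
  have hL : IsCoatom (M.map (MulAut.conj g).toMonoidHom) := coatom_conj hM g
  have hCL : centralizer ({g * x₀ * g⁻¹} : Set G) ≤ M.map (MulAut.conj g).toMonoidHom := by
    intro t ht
    have h3 : g⁻¹ * t * g ∈ centralizer ({x₀} : Set G) := by
      rw [mem_centralizer_singleton_iff] at ht ⊢
      have e : g⁻¹ * (t * (g * x₀ * g⁻¹)) * g = g⁻¹ * ((g * x₀ * g⁻¹) * t) * g := by rw [ht]
      calc g⁻¹ * t * g * x₀ = g⁻¹ * (t * (g * x₀ * g⁻¹)) * g := by group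
        _ = g⁻¹ * ((g * x₀ * g⁻¹) * t) * g := e
        _ = _ := by group
    refine ⟨g⁻¹ * t * g, h1 h3, ?_⟩
    simp [MulAut.conj_apply]
    group
  have e := h2 _ hL hCL
  have hgM : g ∈ M := by
    rw [← normalizer_coatom hG hM]
    exact (conj_map_eq_iff_mem_normalizer M g).mp e
  exact le_normalizer_sigmaA_diff hKU hgM

end Cfsg.Agent.Lib.FT
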