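import Cfsg.Agent.Lib.FT.BG20d
import Cfsg.Agent.Lib.FT.BG19c
import Cfsg.Agent.Lib.FT.BG16f

/-!
BG20f: the centralizer of a Hall subgroup of `M_σ` and fusion in such a subgroup (S1438, S1384).
-/

set_option autoImplicit false
set_option linter.unusedSectionVars false
set_option linter.style.haveILetI false

namespace Cfsg.Agent.Lib.FT

open Subgroup Cfsg Cfsg.Agent.Lib.OddLocal Cfsg.Agent.Lib.Basic

open Cfsg.Agent.Lib.Coprime (mem_conj_map conj_mem_conj_map conj_map_conj_map conj_map_one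
  conj_map_mono conj_map_eq_iff_mem_normalizer isPGroup_conj_map)

variable {G : Type*} [Group G] [Finite G]

/-- A Hall subgroup of a nilpotent subgroup is normal in it. -/
theorem le_normalizer_of_coprime_of_nilpotent {K S : Subgroup G} (hK : Group.IsNilpotent ↥K) (hSK : S ≤ K)
    (hcop : (Nat.card S).Coprime (S.relIndex K)) : K ≤ normalizer (S : Set G) := by
  classical
  set T : Subgroup ↥K := S.subgroupOf K with hT
  have hTcard : Nat.card T = Nat.card S := Nat.card_congr (Subgroup.subgroupOfEquivOfLe hSK).toEquiv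
  have hTi : T.index = S.relIndex K := rfl
  have hnorm : normalizer (T : Set ↥K) = ⊤ := by
    by_contra hne
    have hlt : normalizer (T : Set ↥K) < ⊤ := lt_top_iff_ne_top.mpr hne
    have hcond := normalizerCondition_of_isNilpotent (G := ↥K) _ hlt
    obtain ⟨g, hg, hgN⟩ := SetLike.exists_of_lt hcond
    apply hgN
    apply Cfsg.Agent.Lib.Coprime.mem_normalizer_of_conj_le
    intro u hu
    have h1 : g * u * g⁻¹ ∈ normalizer (T : Set ↥K) :=
      (Subgroup.mem_normalizer_iff.1 hg u).1 (Subgroup.le_normalizer hu)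
    refine mem_of_coprime_relIndex (F := T) (N := normalizer (T : Set ↥K)) le_rfl h1 ?_
    have h2 : T.relIndex (normalizer (T : Set ↥K)) ∣ T.index := by
      rw [← Subgroup.relIndex_mul_index (Subgroup.le_normalizer : T ≤ normalizer (T : Set ↥K))]
      exact dvd_mul_right _ _
    have h3 : orderOf (g * u * g⁻¹) ∣ Nat.card T := by
      have : orderOf (g * u * g⁻¹) = orderOf u := by
        have e : g * u * g⁻¹ = (MulAut.conj g) u := rfl
        rw [e, MulEquiv.orderOf_eq]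
      rw [this]
      have := Subgroup.orderOf_dvd_natCard T hu
      exact this
    rw [hTcard] at h3
    rw [hTi] at h2
    exact Nat.Coprime.coprime_dvd_left h2 (Nat.Coprime.coprime_dvd_right h3 hcop.symm)
  intro k hk
  apply Cfsg.Agent.Lib.Coprime.mem_normalizer_of_conj_le
  intro s hs
  have h1 : (⟨k, hk⟩ : ↥K) ∈ normalizer (T : Set ↥K) := by rw [hnorm]; trivial
  have h2 : (⟨s, hSK hs⟩ : ↥K) ∈ T := by
    rw [hT, Subgroup.mem_subgroupOf]
    exact hs
  have h3 := (Subgroup.mem_normalizer_iff.1 h1 _).1 h2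
  rw [hT, Subgroup.mem_subgroupOf] at h3
  exact h3

/-- Images and relative indices. -/
theorem relIndex_map_dvd {A B : Type*} [Group A] [Group B] [Finite A] (φ : A →* B) {H K : Subgroup A} (hHK : H ≤ K) :
    (H.map φ).relIndex (K.map φ) ∣ H.relIndex K := by
  classical
  set φ₁ : ↥K →* ↥(K.map φ) := φ.subgroupMap K with hφ₁
  have hs : Function.Surjective φ₁ := φ.subgroupMap_surjective K
  have e : (H.map φ).subgroupOf (K.map φ) = (H.subgroupOf K).map φ₁ := by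
    ext y
    rw [Subgroup.mem_subgroupOf, Subgroup.mem_map]
    constructor
    · intro hy
      obtain ⟨u, hu, hue⟩ := Subgroup.mem_map.1 hy
      refine ⟨⟨u, hHK hu⟩, ?_, ?_⟩
      · exact hu
      · apply Subtype.ext
        exact hue
    · rintro ⟨u, hu, rfl⟩
      have hu' : (u : A) ∈ H := hu
      exact Subgroup.mem_map_of_mem φ hu'
  rw [Subgroup.relIndex, e]
  exact Subgroup.index_map_dvd _ hs

/-- Decomposition of the elements of a join. -/
theorem exists_mul_of_mem_sup_of_le_normalizer {A B : Subgroup G} (h : A ≤ normalizer (B : Set G)) {x : G} (hx : x ∈ A ⊔ B) :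
    ∃ a ∈ A, ∃ b ∈ B, x = a * b := by
  classical
  let L : Subgroup G :=
    { carrier := {w | ∃ a ∈ A, ∃ b ∈ B, w = a * b}
      mul_mem' := by
        rintro _ _ ⟨a, ha, b, hb, rfl⟩ ⟨a', ha', b', hb', rfl⟩
        refine ⟨a * a', A.mul_mem ha ha', a'⁻¹ * b * a' * b', ?_, by group⟩
        refine B.mul_mem ?_ hb'
        have := (Subgroup.mem_normalizer_iff.1 (h (A.inv_mem ha')) b).1 hb
        simpa using this
      one_mem' := ⟨1, A.one_mem, 1, B.one_mem, by simp⟩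
      inv_mem' := by
        rintro _ ⟨a, ha, b, hb, rfl⟩
        refine ⟨a⁻¹, A.inv_mem ha, a * b⁻¹ * a⁻¹, ?_, by group⟩
        exact (Subgroup.mem_normalizer_iff.1 (h ha) b⁻¹).1 (B.inv_mem hb) }
  have hle : A ⊔ B ≤ L := sup_le (fun a ha => ⟨a, ha, 1, B.one_mem, by simp⟩) (fun b hb => ⟨1, A.one_mem, b, hb, by simp⟩)
  exact hle hx

/-- A nilpotent group is the join of its `π`-core and its `π'`-core. -/
theorem le_piCoreOf_sup_of_nilpotent {F : Subgroup G} (hF : Group.IsNilpotent ↥F) (π : Set ℕ) :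
    F ≤ piCoreOf π F ⊔ piCoreOf {p | p.Prime ∧ p ∉ π} F := by
  classical
  refine le_of_forall_sylow_le (sup_le (piCoreOf_le _ _) (piCoreOf_le _ _)) ?_
  intro p _ P
  have hpp : p.Prime := Fact.out
  have hP : IsMaxP p ((P : Subgroup F).map F.subtype) F := isMaxP_map P
  have hn := le_normalizer_of_nilpotent hF hP
  have hprime : ∀ t : ℕ, t.Prime → t ∣ Nat.card ((P : Subgroup F).map F.subtype) → t = p := by
    intro t ht hd
    obtain ⟨j, hj⟩ := IsPGroup.iff_card.1 hP.isP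
    rw [hj] at hd
    exact (Nat.prime_dvd_prime_iff_eq ht hpp).1 (ht.dvd_of_dvd_pow hd)
  by_cases hpπ : p ∈ π
  · refine le_trans ?_ le_sup_left
    refine le_piCoreOf hP.le hn ?_
    intro t ht hd
    rw [hprime t ht hd]
    exact hpπ
  · refine le_trans ?_ le_sup_right
    refine le_piCoreOf hP.le hn ?_
    intro t ht hd
    rw [hprime t ht hd]
    exact ⟨hpp, hpπ⟩

/-- Control of fusion in a Hall subgroup, given a nilpotent normal subgroup over which the conjugates of the Hall subgroup lie. -/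
theorem tame_core {F Y H : Subgroup G} (hFY : F ≤ Y) (hYF : Y ≤ normalizer (F : Set G)) (hFnil : Group.IsNilpotent ↥F) (hHY : H ≤ Y)
    (hcop : (Nat.card H).Coprime (H.relIndex Y)) (hs : Group.IsSolvable ↥(H ⊔ F))
    (hconj : ∀ h ∈ Y, H.map (MulAut.conj h).toMonoidHom ≤ H ⊔ F) {x h : G} (hx : x ∈ H) (hh : h ∈ Y) (hxh : h * x * h⁻¹ ∈ H) :
    ∃ n ∈ Y, n ∈ normalizer (H : Set G) ∧ n * x * n⁻¹ = h * x * h⁻¹ := by
  classical
  set π : Set ℕ := {p | p.Prime ∧ p ∣ Nat.card H} with hπ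
  set W := piCoreOf π F with hW
  set V := piCoreOf {p | p.Prime ∧ p ∉ π} F with hV
  have hWY : Y ≤ normalizer (W : Set G) := fun y hy => le_normalizer_piCoreOf_of_normalizer π (hYF hy)
  have hVY : Y ≤ normalizer (V : Set G) := fun y hy => le_normalizer_piCoreOf_of_normalizer _ (hYF hy)
  have hWF : W ≤ F := piCoreOf_le _ _
  have hVF : V ≤ F := piCoreOf_le _ _
  have hHπY : IsPiHallOf π H Y := ⟨hHY, fun p hp hd => ⟨hp, hd⟩, fun p hp hpπ hd => by
    have := Nat.dvd_gcd hpπ.2 hd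
    rw [hcop] at this
    exact hp.one_lt.ne' (Nat.dvd_one.mp this)⟩
  have hJY : H ⊔ F ≤ Y := sup_le hHY hFY
  have hHπJ : IsPiHallOf π H (H ⊔ F) := ⟨le_sup_left, fun p hp hd => ⟨hp, hd⟩, fun p hp hpπ hd => by
    apply hHπY.2.2 p hp hpπ
    rw [← Subgroup.relIndex_mul_relIndex H (H ⊔ F) Y le_sup_left hJY]
    exact hd.trans (dvd_mul_right _ _)⟩
  -- `W ≤ H`
  have hWH : W ≤ H := by
    have h1 : W ⊔ H ≤ H := by
      refine le_of_isPiHallOf_of_primes hHπY le_sup_right (sup_le (hWF.trans hFY) hHY) ?_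
      intro t ht hd
      rcases prime_dvd_sup (hHY.trans hWY) ht hd with h2 | h2
      · exact piCoreOf_isPi π F t ht h2
      · exact ⟨ht, h2⟩
    exact le_sup_left.trans h1
  -- `V ∩ H = 1`
  have hVH : ∀ c ∈ V, c ∈ H → c = 1 := by
    intro c hcV hcH
    by_contra hc1
    have hord : orderOf c ≠ 1 := fun h => hc1 (orderOf_eq_one_iff.1 h)
    obtain ⟨q, hq, hqd⟩ := Nat.exists_prime_and_dvd hord
    have h1 : q ∣ Nat.card H := hqd.trans (Subgroup.orderOf_dvd_natCard H hcH)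
    have h2 : q ∣ Nat.card V := hqd.trans (Subgroup.orderOf_dvd_natCard V hcV)
    exact (piCoreOf_isPi _ F q hq h2).2 ⟨hq, h1⟩
  -- Hall conjugacy
  obtain ⟨g, hg, hle⟩ := IsPiHallOf.exists_conj_ge hs hHπJ (hconj h hh) (fun r hr hd => by
    rw [Cfsg.Agent.Lib.Coprime.card_conj_map] at hd
    exact ⟨hr, hd⟩)
  have hn₀ : g⁻¹ * h ∈ normalizer (H : Set G) := by
    apply Cfsg.Agent.Lib.Coprime.mem_normalizer_of_conj_le
    intro u hu
    obtain ⟨u', hu', e⟩ := Subgroup.mem_map.1 (hle (Subgroup.mem_map_of_mem _ hu))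
    have e' : g * u' * g⁻¹ = h * u * h⁻¹ := e
    have e2 : g⁻¹ * h * u * (g⁻¹ * h)⁻¹ = u' := by
      calc g⁻¹ * h * u * (g⁻¹ * h)⁻¹ = g⁻¹ * (h * u * h⁻¹) * g := by group
        _ = g⁻¹ * (g * u' * g⁻¹) * g := by rw [e']
        _ = u' := by group
    rw [e2]
    exact hu'
  -- `g = f b`
  have hJF : H ≤ normalizer (F : Set G) := hHY.trans hYF
  obtain ⟨b', hb', f', hf', hgdec⟩ := exists_mul_of_mem_sup_of_le_normalizer hJF hg
  set f := b' * f' * b'⁻¹ with hf
  have hfF : f ∈ F := (Subgroup.mem_normalizer_iff.1 (hJF hb') f').1 hf'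
  have hgf : g = f * b' := by rw [hgdec, hf]; group
  set n₁ := b' * (g⁻¹ * h) with hn₁
  have hn₁N : n₁ ∈ normalizer (H : Set G) := mul_mem (Subgroup.le_normalizer hb') hn₀
  have hhf : h = f * n₁ := by rw [hn₁, hgf]; group
  set x₁ := n₁ * x * n₁⁻¹ with hx₁
  have hx₁H : x₁ ∈ H := (Subgroup.mem_normalizer_iff.1 hn₁N x).1 hx
  -- `f = w v`
  have hfWV := le_piCoreOf_sup_of_nilpotent hFnil π hfF
  have hWV : W ≤ normalizer (V : Set G) := (hWF.trans hFY).trans hVY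
  obtain ⟨w, hw, v, hv, hfe⟩ := exists_mul_of_mem_sup_of_le_normalizer hWV hfWV
  have hfin : h * x * h⁻¹ = w * (v * x₁ * v⁻¹) * w⁻¹ := by
    rw [hhf, hfe, hx₁]
    group
  have hx₂ : v * x₁ * v⁻¹ ∈ H := by
    have e : v * x₁ * v⁻¹ = w⁻¹ * (h * x * h⁻¹) * w := by rw [hfin]; group
    rw [e]
    exact mul_mem (mul_mem (H.inv_mem (hWH hw)) hxh) (hWH hw)
  have hc : v * x₁ * v⁻¹ * x₁⁻¹ = 1 := by
    apply hVH
    · have e : v * x₁ * v⁻¹ * x₁⁻¹ = v * (x₁ * v⁻¹ * x₁⁻¹) := by group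
      rw [e]
      exact V.mul_mem hv ((Subgroup.mem_normalizer_iff.1 (hVY (hHY hx₁H)) v⁻¹).1 (V.inv_mem hv))
    · exact H.mul_mem hx₂ (H.inv_mem hx₁H)
  have hc' : v * x₁ * v⁻¹ = x₁ := mul_inv_eq_one.1 hc
  refine ⟨w * n₁, ?_, mul_mem (Subgroup.le_normalizer (hWH hw)) hn₁N, ?_⟩
  · refine mul_mem (hFY (hWF hw)) (mul_mem (hHY hb') ?_)
    exact mul_mem (Y.inv_mem (hJY hg)) hh
  · rw [hfin, hc', hx₁]
    group

/-- The conjugates of a Hall subgroup of `M_σ` lie over it modulo `M_F`. -/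
theorem conj_le_sup_fittingHallOf (hG : IsMinSimpleOddOrder G) {M H : Subgroup G} (hM : IsCoatom M) (hH : H ≤ sigmaCore M)
    (hcop : (Nat.card H).Coprime (H.relIndex (sigmaCore M)))
    (hnil : Group.IsNilpotent ↥((commutator ↥M).map (QuotientGroup.mk' (fittingHall ↥M)))) {h : G} (hh : h ∈ sigmaCore M) :
    H.map (MulAut.conj h).toMonoidHom ≤ H ⊔ fittingHallOf M := by
  classical
  have hσM : sigmaCore M ≤ M := piCoreOf_le _ M
  have hHM : H ≤ M := hH.trans hσM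
  set φ := QuotientGroup.mk' (fittingHall ↥M) with hφ
  set H₀ : Subgroup ↥M := H.subgroupOf M with hH₀
  set Y₀ : Subgroup ↥M := (sigmaCore M).subgroupOf M with hY₀
  have hH₀Y₀ : H₀ ≤ Y₀ := fun y hy => hH hy
  have hY₀c : Y₀ ≤ commutator ↥M := by
    intro y hy
    have h1 : (y : G) ∈ ⁅M, M⁆ := sigmaCore_le_commutator hG (huniq13 hG) hM hy
    have h2 : (commutator ↥M).map M.subtype = ⁅M, M⁆ := by
      rw [commutator_def, Subgroup.map_commutator, ← MonoidHom.range_eq_map, Subgroup.range_subtype]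
    rw [← h2] at h1
    obtain ⟨z, hz, e⟩ := Subgroup.mem_map.1 h1
    have : z = y := Subtype.ext e
    rwa [← this]
  have hQnil : Group.IsNilpotent ↥(Y₀.map φ) := isNilpotent_of_le (Subgroup.map_mono hY₀c) hnil
  have hcop' : (Nat.card ↥(H₀.map φ)).Coprime ((H₀.map φ).relIndex (Y₀.map φ)) := by
    have h1 : Nat.card ↥(H₀.map φ) ∣ Nat.card H := by
      have h2 : Nat.card H₀ = Nat.card H := Nat.card_congr (Subgroup.subgroupOfEquivOfLe hHM).toEquiv
      rw [← h2]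
      exact Subgroup.card_map_dvd _ _
    have h3 : (H₀.map φ).relIndex (Y₀.map φ) ∣ H₀.relIndex Y₀ := relIndex_map_dvd φ hH₀Y₀
    have h4 : H₀.relIndex Y₀ = H.relIndex (sigmaCore M) := by
      rw [hH₀, hY₀]
      have := Subgroup.relIndex_comap (H := H) M.subtype ((sigmaCore M).subgroupOf M)
      have e : (Subgroup.comap M.subtype H) = H.subgroupOf M := rfl
      rw [e] at this
      rw [this]
      congr 1
      rw [Subgroup.map_subgroupOf_eq_of_le hσM]
    rw [h4] at h3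
    exact Nat.Coprime.coprime_dvd_left h1 (Nat.Coprime.coprime_dvd_right h3 hcop)
  have hnorm := le_normalizer_of_coprime_of_nilpotent hQnil (Subgroup.map_mono hH₀Y₀) hcop'
  rintro _ ⟨u, hu, rfl⟩
  have hu' : (⟨u, hHM hu⟩ : ↥M) ∈ H₀ := by rw [hH₀, Subgroup.mem_subgroupOf]; exact hu
  have hh' : (⟨h, hσM hh⟩ : ↥M) ∈ Y₀ := by rw [hY₀, Subgroup.mem_subgroupOf]; exact hh
  have h1 : φ ⟨h, hσM hh⟩ ∈ normalizer ((H₀.map φ : Subgroup _) : Set _) := hnorm (Subgroup.mem_map_of_mem φ hh')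
  have h2 := (Subgroup.mem_normalizer_iff.1 h1 (φ ⟨u, hHM hu⟩)).1 (Subgroup.mem_map_of_mem φ hu')
  obtain ⟨u', hu'', e⟩ := Subgroup.mem_map.1 h2
  have e' : φ u' = φ ((⟨h, hσM hh⟩ : ↥M) * ⟨u, hHM hu⟩ * (⟨h, hσM hh⟩ : ↥M)⁻¹) := by
    rw [e]
    simp only [map_mul, map_inv]
  have h3 : u'⁻¹ * ((⟨h, hσM hh⟩ : ↥M) * ⟨u, hHM hu⟩ * (⟨h, hσM hh⟩ : ↥M)⁻¹) ∈ fittingHall ↥M :=
    QuotientGroup.eq.1 e'
  have h4 : ((u'⁻¹ * ((⟨h, hσM hh⟩ : ↥M) * ⟨u, hHM hu⟩ * (⟨h, hσM hh⟩ : ↥M)⁻¹) : ↥M) : G) ∈ fittingHallOf M :=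
    Subgroup.mem_map_of_mem M.subtype h3
  have h5 : (u' : G) ∈ H := by
    rw [hH₀, Subgroup.mem_subgroupOf] at hu''
    exact hu''
  have e3 : (MulAut.conj h).toMonoidHom u = (u' : G) * (((u'⁻¹ * ((⟨h, hσM hh⟩ : ↥M) * ⟨u, hHM hu⟩ * (⟨h, hσM hh⟩ : ↥M)⁻¹) : ↥M) : G)) := by
    simp only [MulEquiv.coe_toMonoidHom, MulAut.conj_apply, Subgroup.coe_mul, Subgroup.coe_inv]
    group
  rw [e3]
  exact mul_mem ((le_sup_left : H ≤ H ⊔ fittingHallOf M) h5) ((le_sup_right : fittingHallOf M ≤ H ⊔ fittingHallOf M) h4)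

/-- **S1438 (ii)**, given `M'/M_F` nilpotent. -/
theorem s1438_ii (hB : ThmB G) (hG : IsMinSimpleOddOrder G) {M H : Subgroup G} (hM : IsCoatom M) (hH : H ≤ sigmaCore M)
    (hcop : (Nat.card H).Coprime (H.relIndex (sigmaCore M)))
    (hnil : Group.IsNilpotent ↥((commutator ↥M).map (QuotientGroup.mk' (fittingHall ↥M)))) {x g : G} (hx : x ∈ H) (hg : g * x * g⁻¹ ∈ H) :
    ∃ n ∈ M ⊓ normalizer (H : Set G), n * x * n⁻¹ = g * x * g⁻¹ := by
  classical
  have hσM : sigmaCore M ≤ M := piCoreOf_le _ M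
  have hHM : H ≤ M := hH.trans hσM
  by_cases hx1 : x = 1
  · refine ⟨1, one_mem _, ?_⟩
    rw [hx1]
    simp
  have hσs : Group.IsSolvable ↥(sigmaCore M) := by
    have := coatom_isSolvable hG hM
    exact solvable_of_solvable_injective (Subgroup.inclusion_injective hσM)
  obtain ⟨c, hc, m, hm, hgdec⟩ := fusion_core hB hG hM (hH hx) hx1 (g := g⁻¹) (by
    simpa using hHM hg)
  have hcx : c * x = x * c := by
    have := Subgroup.mem_centralizer_iff.1 hc x (by simp)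
    exact this.symm
  set m₁ := m⁻¹ with hm₁
  have hm₁M : m₁ ∈ M := M.inv_mem hm
  have hgm : g * x * g⁻¹ = m₁ * x * m₁⁻¹ := by
    have e : g = m⁻¹ * c⁻¹ := by
      have : g = (g⁻¹)⁻¹ := by simp
      rw [this, hgdec]
      group
    have e2 : c⁻¹ * x * c = x := by
      calc c⁻¹ * x * c = c⁻¹ * (x * c) := by group
        _ = c⁻¹ * (c * x) := by rw [hcx]
        _ = x := by group
    rw [e, hm₁]
    calc m⁻¹ * c⁻¹ * x * (m⁻¹ * c⁻¹)⁻¹ = m⁻¹ * (c⁻¹ * x * c) * m⁻¹⁻¹ := by group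
      _ = m⁻¹ * x * m⁻¹⁻¹ := by rw [e2]
  set π : Set ℕ := {p | p.Prime ∧ p ∣ Nat.card H} with hπ
  have hHπ : IsPiHallOf π H (sigmaCore M) := ⟨hH, fun p hp hd => ⟨hp, hd⟩, fun p hp hpπ hd => by
    have := Nat.dvd_gcd hpπ.2 hd
    rw [hcop] at this
    exact hp.one_lt.ne' (Nat.dvd_one.mp this)⟩
  have hTle : H.map (MulAut.conj m₁).toMonoidHom ≤ sigmaCore M := by
    rintro _ ⟨u, hu, rfl⟩
    exact (Subgroup.mem_normalizer_iff.1 (le_normalizer_piCoreOf (sigma M) M hm₁M) u).1 (hH hu)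
  obtain ⟨y, hy, hle⟩ := IsPiHallOf.exists_conj_ge hσs hHπ hTle (fun r hr hd => by
    rw [Cfsg.Agent.Lib.Coprime.card_conj_map] at hd
    exact ⟨hr, hd⟩)
  have hn₀ : y⁻¹ * m₁ ∈ normalizer (H : Set G) := by
    apply Cfsg.Agent.Lib.Coprime.mem_normalizer_of_conj_le
    intro u hu
    obtain ⟨u', hu', e⟩ := Subgroup.mem_map.1 (hle (Subgroup.mem_map_of_mem _ hu))
    have e' : y * u' * y⁻¹ = m₁ * u * m₁⁻¹ := e
    have e2 : y⁻¹ * m₁ * u * (y⁻¹ * m₁)⁻¹ = u' := by
      calc y⁻¹ * m₁ * u * (y⁻¹ * m₁)⁻¹ = y⁻¹ * (m₁ * u * m₁⁻¹) * y := by group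
        _ = y⁻¹ * (y * u' * y⁻¹) * y := by rw [e']
        _ = u' := by group
    rw [e2]
    exact hu'
  set n₀ := y⁻¹ * m₁ with hn₀def
  have hn₀M : n₀ ∈ M := mul_mem (M.inv_mem (hσM hy)) hm₁M
  set x₁ := n₀ * x * n₀⁻¹ with hx₁
  have hx₁H : x₁ ∈ H := (Subgroup.mem_normalizer_iff.1 hn₀ x).1 hx
  have he : y * x₁ * y⁻¹ = g * x * g⁻¹ := by
    rw [hgm, hx₁, hn₀def]
    group
  have hFσ := fittingHallOf_le_sigmaCore hG hM
  have hs : Group.IsSolvable ↥(H ⊔ fittingHallOf M) := by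
    have := coatom_isSolvable hG hM
    exact solvable_of_solvable_injective (Subgroup.inclusion_injective (sup_le hHM (hFσ.trans hσM)))
  obtain ⟨n₂, hn₂, hn₂N, hn₂e⟩ := tame_core (F := fittingHallOf M) (Y := sigmaCore M) hFσ
    ((piCoreOf_le _ M).trans (fittingHallOf_normalized M)) (fittingHallOf_isNilpotent M) hH hcop hs
    (fun h hh => conj_le_sup_fittingHallOf hG hM hH hcop hnil hh) hx₁H hy (by rw [he]; exact hg)
  refine ⟨n₂ * n₀, ⟨mul_mem (hσM hn₂) hn₀M, mul_mem hn₂N hn₀⟩, ?_⟩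
  rw [← he, ← hn₂e, hx₁]
  group

/-- An element of order a prime of `κ(M)` cannot centralize a nontrivial Hall subgroup of `M_σ`. -/
theorem kappa_not_cent_hall (hB : ThmB G) (hG : IsMinSimpleOddOrder G) {M H : Subgroup G} (hM : IsCoatom M) (hH : H ≤ sigmaCore M) (hH1 : H ≠ ⊥)
    (hcop : (Nat.card H).Coprime (H.relIndex (sigmaCore M))) {z : G} (hzM : z ∈ M) (hzC : z ∈ centralizer (H : Set G)) {p : ℕ} (hp : p ∈ kappa M)
    (hzo : orderOf z = p) : False := by
  classical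
  haveI : Fact p.Prime := ⟨hp.1⟩
  have hX : Nat.card (zpowers z) = p := by rw [Nat.card_zpowers, hzo]
  have hC : Config M (zpowers z) p := config_of_kappa hG hM hp hX (zpowers_le.mpr hzM)
  obtain ⟨H₁, PX⟩ := exists_partner hB hG hC
  obtain ⟨q, hq, Q, hQH, hQ⟩ := exists_prime_subgroup hH1
  haveI : Fact q.Prime := ⟨hq⟩
  obtain ⟨S, hS, -⟩ := exists_isMaxP_ge (T := ⊥) (N := H) (p := q) bot_le IsPGroup.of_bot
  have hHD : H ≤ sigmaCore M ⊓ centralizer ((zpowers z : Subgroup G) : Set G) := by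
    refine le_inf hH ?_
    intro u hu
    rw [Subgroup.mem_centralizer_iff]
    intro w hw
    obtain ⟨k, rfl⟩ := Subgroup.mem_zpowers_iff.1 hw
    have h1 : z * u = u * z := (Subgroup.mem_centralizer_iff.1 hzC u hu).symm
    exact ((Commute.zpow_left (show Commute z u from h1) k)).eq
  have hqH : q ∣ Nat.card H := by
    rw [← hQ]
    exact Subgroup.card_dvd_of_le hQH
  have hSσ : IsMaxP q S (sigmaCore M) := by
    refine ⟨hS.le.trans hH, hS.isP, fun D' h1 h2 h3 => ?_⟩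
    have h4 : ¬ q ∣ S.relIndex H := not_dvd_relIndex_of_isMaxP hS le_rfl
    have h5 : ¬ q ∣ H.relIndex (sigmaCore M) := fun hd => by
      have := Nat.dvd_gcd hqH hd
      rw [hcop] at this
      exact hq.one_lt.ne' (Nat.dvd_one.mp this)
    have h6 : ¬ q ∣ S.relIndex (sigmaCore M) := by
      rw [← Subgroup.relIndex_mul_relIndex S H (sigmaCore M) hS.le hH]
      intro hd
      rcases (Nat.Prime.dvd_mul hq).1 hd with h7 | h7
      · exact h4 h7
      · exact h5 h7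
    have h7 : S.relIndex D' ∣ S.relIndex (sigmaCore M) := by
      rw [← Subgroup.relIndex_mul_relIndex S D' (sigmaCore M) h3 h1]
      exact dvd_mul_right _ _
    have h8 : ¬ q ∣ S.relIndex D' := fun hd => h6 (hd.trans h7)
    have h9 : S.relIndex D' = 1 := by
      have h10 : S.relIndex D' ∣ Nat.card D' := Subgroup.relIndex_dvd_card _ _
      obtain ⟨j, hj⟩ := IsPGroup.iff_card.1 h2
      rw [hj] at h10
      obtain ⟨i, -, hi⟩ := (Nat.dvd_prime_pow hq).1 h10
      rcases i with _ | i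
      · simpa using hi
      · exact absurd (hi ▸ dvd_pow_self q (Nat.succ_ne_zero i)) h8
    exact le_antisymm (Subgroup.relIndex_eq_one.mp h9) h3
  exact (PX.sylow_unique hB hG hQ (hQH.trans hHD) hSσ).2 (hS.le.trans hHD)

/-- **S1438 (i)**, with the factorization being a complement. -/
theorem s1438_i' (hB : ThmB G) (hG : IsMinSimpleOddOrder G) {M H : Subgroup G} (hM : IsCoatom M) (hH : H ≤ sigmaCore M) (hH1 : H ≠ ⊥)
    (hcop : (Nat.card H).Coprime (H.relIndex (sigmaCore M))) :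
    ∃ X : Subgroup G, IsCyclic X ∧ (∀ p : ℕ, p.Prime → p ∣ Nat.card X → p ∈ tau2 M) ∧
      M ⊓ centralizer (H : Set G) = (sigmaCore M ⊓ centralizer (H : Set G)) ⊔ X ∧
      IsComplIn X (sigmaCore M ⊓ centralizer (H : Set G)) (M ⊓ centralizer (H : Set G)) := by
  classical
  have huniq := huniq13 hG
  have hpl := hpl13 hG
  have h1412 := h1412_of hG
  have hσM : sigmaCore M ≤ M := piCoreOf_le _ M
  set C := M ⊓ centralizer (H : Set G) with hC
  have hCM : C ≤ M := inf_le_left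
  have hHall := isPiHallOf_inf_sigmaCore hG hM hCM
  set N₀ := C ⊓ sigmaCore M with hN₀
  have hN₀e : sigmaCore M ⊓ centralizer (H : Set G) = N₀ := by
    ext u
    simp only [hN₀, hC, Subgroup.mem_inf]
    constructor
    · rintro ⟨h1, h2⟩
      exact ⟨⟨hσM h1, h2⟩, h1⟩
    · rintro ⟨⟨-, h2⟩, h1⟩
      exact ⟨h1, h2⟩
  rw [hN₀e]
  have hnorm : C ≤ normalizer (N₀ : Set G) := by
    intro c hc
    apply Cfsg.Agent.Lib.Coprime.mem_normalizer_of_conj_le
    intro u hu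
    refine ⟨?_, (Subgroup.mem_normalizer_iff.1 (le_normalizer_piCoreOf (sigma M) M hc.1) u).1 hu.2⟩
    exact C.mul_mem (C.mul_mem hc hu.1) (C.inv_mem hc)
  have hcopN : (Nat.card N₀).Coprime (N₀.relIndex C) :=
    Nat.coprime_of_dvd fun k hk h1 h2 => hHall.2.2 k hk (hHall.2.1 k hk h1) h2
  obtain ⟨X, hX, hXc⟩ := exists_compl_cop inf_le_left hnorm hcopN
  have hXC : X ≤ C := hX.1
  have hXM : X ≤ M := hXC.trans hCM
  have hXprime : ∀ r : ℕ, r.Prime → r ∣ Nat.card X → r ∉ sigma M := by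
    intro r hr hd hrσ
    rw [hXc] at hd
    exact hHall.2.2 r hr hrσ hd
  obtain ⟨E, hE, hXE⟩ := exists_compl_sigma_ge hG hM hXM hXprime
  obtain ⟨x₁, hx₁H, hx₁1⟩ := (Subgroup.bot_or_exists_ne_one H).resolve_left hH1
  have hx₁ : x₁ ∈ sigmaCore M := hH hx₁H
  -- primes of elements of `X`
  have hfix : ∀ e ∈ X, sigmaCore M ⊓ centralizer ({e} : Set G) ≠ ⊥ := by
    intro e he h
    apply hx₁1
    have h1 : x₁ ∈ sigmaCore M ⊓ centralizer ({e} : Set G) := by
      refine ⟨hx₁, Subgroup.mem_centralizer_singleton_iff.2 ?_⟩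
      have := Subgroup.mem_centralizer_iff.1 (hXC he).2 x₁ hx₁H
      exact this
    rw [h] at h1
    exact h1
  have hτ : ∀ e ∈ X, ∀ r : ℕ, r.Prime → r ∣ orderOf e → r ∈ tau2 M := by
    intro e he r hr hrd
    have he1 : e ≠ 1 := by
      rintro rfl
      simp at hrd
      exact hr.one_lt.ne' hrd
    have heσ : ∀ p : ℕ, p.Prime → p ∣ orderOf e → p ∉ sigma M := fun p hp hd =>
      hXprime p hp (hd.trans (Subgroup.orderOf_dvd_natCard X he))
    have hcomm : e ∈ M ⊓ centralizer ({x₁} : Set G) := by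
      refine ⟨hXM he, Subgroup.mem_centralizer_singleton_iff.2 ?_⟩
      exact (Subgroup.mem_centralizer_iff.1 (hXC he).2 x₁ hx₁H).symm
    rcases s1432_core hB hG hM hx₁ hx₁1 hcomm he1 heσ with ⟨h1, -⟩ | ⟨h1, -⟩
    · exfalso
      have h2 := h1 r hr hrd
      have hzo : orderOf (e ^ (orderOf e / r)) = r := orderOf_pow_orderOf_div (orderOf_pos e).ne' hrd
      exact kappa_not_cent_hall hB hG hM hH hH1 hcop (hXM (X.pow_mem he _))
        (Subgroup.pow_mem _ (hXC he).2 _) h2 hzo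
    · exact h1 r hr hrd
  have hh : ∀ e ∈ X, e ≠ 1 → (∀ q : ℕ, q.Prime → q ∣ orderOf e → q ∈ tau1 M ∪ tau3 M) →
      sigmaCore M ⊓ centralizer ({e} : Set G) = ⊥ := by
    intro e he he1 hq
    exfalso
    have hord : orderOf e ≠ 1 := fun h => he1 (orderOf_eq_one_iff.1 h)
    obtain ⟨q, hq', hqd⟩ := Nat.exists_prime_and_dvd hord
    have h2 := hτ e he q hq' hqd
    rcases hq q hq' hqd with h3 | h3
    · exact h2.2.2.2 h3.2.2.2.2
    · exact h2.2.2.2 h3.2.2.2
  have hcommX : ∀ e ∈ X, ∀ f ∈ X, e * f = f * e := fun e he f hf =>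
    comm_of_good hG huniq hpl h1412 hM hE hXE hh he hf (hfix e he) (hfix f hf)
  have hnilX : Group.IsNilpotent X := by
    letI : CommGroup X := { (inferInstance : Group X) with mul_comm := fun a b => Subtype.ext (hcommX a a.2 b b.2) }
    infer_instance
  have hcyc : IsCyclic X := by
    haveI : IsZGroup X := by
      refine ⟨fun p hp P => ?_⟩
      haveI := Fact.mk hp
      by_contra hnc
      have hP' : IsPGroup p ((P : Subgroup X).map X.subtype) := P.isPGroup'.map _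
      have hnc' : ¬ IsCyclic ((P : Subgroup X).map X.subtype) := by
        intro h
        exact hnc (isCyclic_of_surjective (Subgroup.equivMapOfInjective _ _ X.subtype_injective).symm.toMonoidHom
          (Subgroup.equivMapOfInjective _ _ X.subtype_injective).symm.surjective)
      obtain ⟨A, hAP, hAe, hAc⟩ := exists_e2_of_not_cyclic hG hP' hnc'
      have hAX : A ≤ X := hAP.trans (Subgroup.map_subtype_le _)
      have hd : p ∣ Nat.card X := by
        have h1 : Nat.card A ∣ Nat.card X := Subgroup.card_dvd_of_le hAX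
        rw [hAc] at h1
        exact (dvd_pow_self p two_ne_zero).trans h1
      have T : Tau2Setup p A M := Tau2Setup.mk' hG huniq hpl hM (hAX.trans hXM) hAe hAc (hXprime p hp hd)
      apply hx₁1
      have h2 : x₁ ∈ sigmaCore M ⊓ centralizer (A : Set G) := by
        refine ⟨hx₁, Subgroup.mem_centralizer_iff.2 ?_⟩
        intro a ha
        exact (Subgroup.mem_centralizer_iff.1 (hXC (hAX ha)).2 x₁ hx₁H).symm
      rw [T.d] at h2
      exact h2
    infer_instance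
  refine ⟨X, hcyc, ?_, ?_, hX⟩
  · intro p hp hd
    haveI := Fact.mk hp
    obtain ⟨y, hy⟩ := exists_prime_orderOf_dvd_card' (G := ↥X) p hd
    have hy' : orderOf (y : G) = p := by rw [Subgroup.orderOf_coe, hy]
    exact hτ y y.2 p hp (by rw [hy'])
  · apply le_antisymm
    · intro c hc
      obtain ⟨a, ha, b, hb, rfl⟩ := hX.2.2.2 c hc
      exact mul_mem ((le_sup_right : X ≤ N₀ ⊔ X) ha) ((le_sup_left : N₀ ≤ N₀ ⊔ X) hb)
    · exact sup_le inf_le_left hXC

/-- **S1438 (i)**. -/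
theorem s1438_i (hB : ThmB G) (hG : IsMinSimpleOddOrder G) {M H : Subgroup G} (hM : IsCoatom M) (hH : H ≤ sigmaCore M) (hH1 : H ≠ ⊥)
    (hcop : (Nat.card H).Coprime (H.relIndex (sigmaCore M))) :
    ∃ X : Subgroup G, IsCyclic X ∧ (∀ p : ℕ, p.Prime → p ∣ Nat.card X → p ∈ tau2 M) ∧
      M ⊓ centralizer (H : Set G) = (sigmaCore M ⊓ centralizer (H : Set G)) ⊔ X := by
  obtain ⟨X, h1, h2, h3, -⟩ := s1438_i' hB hG hM hH hH1 hcop
  exact ⟨X, h1, h2, h3⟩

/-- **S1438**, given `M'/M_F` nilpotent. -/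
theorem s1438_core (hB : ThmB G) (hG : IsMinSimpleOddOrder G) {M H : Subgroup G} (hM : IsCoatom M) (hH : H ≤ sigmaCore M) (hH1 : H ≠ ⊥)
    (hcop : (Nat.card H).Coprime (H.relIndex (sigmaCore M)))
    (hnil : Group.IsNilpotent ↥((commutator ↥M).map (QuotientGroup.mk' (fittingHall ↥M)))) :
    (∃ X : Subgroup G, IsCyclic X ∧ (∀ p : ℕ, p.Prime → p ∣ Nat.card X → p ∈ tau2 M) ∧
      M ⊓ centralizer (H : Set G) = (sigmaCore M ⊓ centralizer (H : Set G)) ⊔ X) ∧
      ∀ x ∈ H, ∀ g : G, g * x * g⁻¹ ∈ H → ∃ n ∈ M ⊓ normalizer (H : Set G), n * x * n⁻¹ = g * x * g⁻¹ :=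
  ⟨s1438_i hB hG hM hH hH1 hcop, fun _ hx _ hg => s1438_ii hB hG hM hH hcop hnil hx hg⟩

/-- Index arithmetic. -/
theorem not_dvd_relIndex_of_le {q : ℕ} (hq : q.Prime) {P H M : Subgroup G} (hPH : P ≤ H) (hPM : P ≤ M) (h1 : ¬ q ∣ P.relIndex H)
    (h2 : ¬ q ∣ H.index) : ¬ q ∣ P.relIndex M := by
  intro hd
  have h3 : P.relIndex M ∣ P.index := by
    rw [← Subgroup.relIndex_mul_index hPM]
    exact dvd_mul_right _ _
  have h4 : q ∣ P.relIndex H * H.index := by
    rw [Subgroup.relIndex_mul_index hPH]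
    exact hd.trans h3
  rcases (Nat.Prime.dvd_mul hq).1 h4 with h5 | h5
  · exact h1 h5
  · exact h2 h5

/-- **S1384**, given that `M'/M_F` is nilpotent for all maximal `M`. -/
theorem s1384_core (hB : ThmB G) (hG : IsMinSimpleOddOrder G)
    (hnil : ∀ M : Subgroup G, IsCoatom M → Group.IsNilpotent ↥((commutator ↥M).map (QuotientGroup.mk' (fittingHall ↥M))))
    {H : Subgroup G} (hHn : Group.IsNilpotent ↥H) (hHall : (Nat.card H).Coprime H.index) {x g : G} (hx : x ∈ H) (hg : g * x * g⁻¹ ∈ H) :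
    ∃ n ∈ normalizer (H : Set G), n * x * n⁻¹ = g * x * g⁻¹ := by
  classical
  have huniq := huniq13 hG
  by_cases hHt : H = ⊤
  · refine ⟨g, ?_, rfl⟩
    rw [hHt]
    exact Subgroup.mem_normalizer_iff.2 (fun _ => by simp)
  by_cases hH1 : H = ⊥
  · have hx1 : x = 1 := by
      rw [hH1] at hx
      exact hx
    exact ⟨1, one_mem _, by simp [hx1]⟩
  have hnotdvd : ∀ t : ℕ, t.Prime → t ∣ Nat.card H → ¬ t ∣ H.index := fun t ht h1 h2 => by
    have := Nat.dvd_gcd h1 h2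
    rw [hHall] at this
    exact ht.one_lt.ne' (Nat.dvd_one.mp this)
  obtain ⟨p, hp, Q, hQH, hQ⟩ := exists_prime_subgroup hH1
  haveI := Fact.mk hp
  obtain ⟨P, hP, -⟩ := exists_isMaxP_ge (T := ⊥) (N := H) (p := p) bot_le IsPGroup.of_bot
  have hpH : p ∣ Nat.card H := by
    rw [← hQ]
    exact Subgroup.card_dvd_of_le hQH
  have hPrel : ¬ p ∣ P.relIndex H := not_dvd_relIndex_of_isMaxP hP le_rfl
  have hPd : p ∣ Nat.card P := by
    have e : Nat.card P * P.relIndex H = Nat.card H := card_mul_relIndex hP.le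
    rw [← e] at hpH
    exact ((Nat.Prime.dvd_mul hp).1 hpH).resolve_right hPrel
  have hP1 : P ≠ ⊥ := by
    rintro rfl
    have : Nat.card (⊥ : Subgroup G) = 1 := Subgroup.card_bot
    rw [this] at hPd
    exact hp.one_lt.ne' (Nat.dvd_one.mp hPd)
  have hPt : P ≠ ⊤ := fun h => hHt (top_le_iff.1 (h ▸ hP.le))
  obtain ⟨M, hM, hNM⟩ : ∃ M : Subgroup G, IsCoatom M ∧ normalizer (P : Set G) ≤ M :=
    (eq_top_or_exists_le_coatom _).resolve_left (IsMinSimpleOddOrder.normalizer_ne_top hG hP1 hPt)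
  have hPM₀ : P ≤ M := Subgroup.le_normalizer.trans hNM
  have hPM : IsMaxP p P M := isMaxP_of_not_dvd_relIndex hPM₀ hP.isP
    (not_dvd_relIndex_of_le hp hP.le hPM₀ hPrel (hnotdvd p hp hpH))
  have hpσ : p ∈ sigma M := mem_sigma_of_normalizer_le hPM (hPd.trans (Subgroup.card_dvd_of_le hPM₀)) hNM
  have hHM : H ≤ M := (le_normalizer_of_nilpotent hHn hP).trans hNM
  have hσM : sigmaCore M ≤ M := piCoreOf_le _ M
  have hH₁ := isPiHallOf_inf_sigmaCore hG hM hHM
  set H₁ := H ⊓ sigmaCore M with hH₁def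
  have hPH₁ : P ≤ H₁ := le_inf hP.le (le_sigmaCore_of_isPGroup hG huniq hM hpσ hP.isP hPM₀)
  have hH₁1 : H₁ ≠ ⊥ := fun h => hP1 (le_bot_iff.1 (h ▸ hPH₁))
  have hH₁σ : H₁ ≤ sigmaCore M := inf_le_right
  have hH₁H : H₁ ≤ H := inf_le_left
  have hcopH₁ : (Nat.card H₁).Coprime (H₁.relIndex (sigmaCore M)) := by
    refine Nat.coprime_of_dvd fun t ht h1 h2 => ?_
    exact not_dvd_relIndex_of_le ht hH₁H hH₁σ (hH₁.2.2 t ht (hH₁.2.1 t ht h1))
      (hnotdvd t ht (h1.trans (Subgroup.card_dvd_of_le hH₁H))) h2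
  have hcopH₁H : (Nat.card H₁).Coprime (H₁.relIndex H) :=
    Nat.coprime_of_dvd fun t ht h1 h2 => hH₁.2.2 t ht (hH₁.2.1 t ht h1) h2
  have hnormH₁ : H ≤ normalizer (H₁ : Set G) := le_normalizer_of_coprime_of_nilpotent hHn hH₁H hcopH₁H
  obtain ⟨H₂, hH₂, hH₂c⟩ := exists_compl_cop hH₁H hnormH₁ hcopH₁H
  have hH₂H : H₂ ≤ H := hH₂.1
  have heH₂ : H₂.relIndex H = Nat.card H₁ := by
    have e1 := IsComplIn_card_eq hH₂
    have e2 : Nat.card H₂ * H₂.relIndex H = Nat.card H := card_mul_relIndex hH₂H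
    have hpos : 0 < Nat.card H₂ := Nat.card_pos
    rw [e1] at e2
    exact Nat.eq_of_mul_eq_mul_left hpos e2
  have hcopH₂H : (Nat.card H₂).Coprime (H₂.relIndex H) := by
    rw [heH₂, hH₂c]
    exact hcopH₁H.symm
  have hnormH₂ : H ≤ normalizer (H₂ : Set G) := le_normalizer_of_coprime_of_nilpotent hHn hH₂H hcopH₂H
  have hcomm : ∀ a ∈ H₁, ∀ b ∈ H₂, a * b = b * a := by
    intro a ha b hb
    have h1 : a * b * a⁻¹ * b⁻¹ ∈ H₁ ⊓ H₂ := by
      constructor
      · have h2 : b * a⁻¹ * b⁻¹ ∈ H₁ := (Subgroup.mem_normalizer_iff.1 (hnormH₁ (hH₂H hb)) a⁻¹).1 (H₁.inv_mem ha)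
        have e : a * b * a⁻¹ * b⁻¹ = a * (b * a⁻¹ * b⁻¹) := by group
        rw [e]
        exact H₁.mul_mem ha h2
      · have h2 : a * b * a⁻¹ ∈ H₂ := (Subgroup.mem_normalizer_iff.1 (hnormH₂ (hH₁H ha)) b).1 hb
        exact H₂.mul_mem h2 (H₂.inv_mem hb)
    rw [inf_comm, hH₂.2.2.1] at h1
    have h2 : a * b * a⁻¹ * b⁻¹ = 1 := h1
    have h3 : a * b * a⁻¹ = b := mul_inv_eq_one.1 h2
    exact mul_inv_eq_iff_eq_mul.1 h3
  have hH₂C : H₂ ≤ M ⊓ centralizer (H₁ : Set G) := le_inf (hH₂H.trans hHM) (fun b hb =>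
    Subgroup.mem_centralizer_iff.2 fun a ha => hcomm a ha b hb)
  have hH₂bot : H₂ = ⊥ := by
    by_contra hH₂1
    obtain ⟨r, hr, R, hRH₂, hR⟩ := exists_prime_subgroup hH₂1
    haveI := Fact.mk hr
    obtain ⟨S, hS, -⟩ := exists_isMaxP_ge (T := ⊥) (N := H₂) (p := r) bot_le IsPGroup.of_bot
    have hrH₂ : r ∣ Nat.card H₂ := by
      rw [← hR]
      exact Subgroup.card_dvd_of_le hRH₂
    have hrH : r ∣ Nat.card H := hrH₂.trans (Subgroup.card_dvd_of_le hH₂H)
    have hrσ : r ∉ sigma M := fun h => hH₁.2.2 r hr h (by rw [← hH₂c]; exact hrH₂)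
    have hSrel : ¬ r ∣ S.relIndex H₂ := not_dvd_relIndex_of_isMaxP hS le_rfl
    have hSd : r ∣ Nat.card S := by
      have e : Nat.card S * S.relIndex H₂ = Nat.card H₂ := card_mul_relIndex hS.le
      rw [← e] at hrH₂
      exact ((Nat.Prime.dvd_mul hr).1 hrH₂).resolve_right hSrel
    have hSH : ¬ r ∣ S.relIndex H := by
      rw [← Subgroup.relIndex_mul_relIndex S H₂ H hS.le hH₂H]
      intro hd
      rcases (Nat.Prime.dvd_mul hr).1 hd with h | h
      · exact hSrel h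
      · have := Nat.dvd_gcd hrH₂ h
        rw [hcopH₂H] at this
        exact hr.one_lt.ne' (Nat.dvd_one.mp this)
    have hSMle : S ≤ M := hS.le.trans (hH₂H.trans hHM)
    have hSM : IsMaxP r S M := isMaxP_of_not_dvd_relIndex hSMle hS.isP
      (not_dvd_relIndex_of_le hr (hS.le.trans hH₂H) hSMle hSH (hnotdvd r hr hrH))
    obtain ⟨X, hXc, hXτ, -, hXcompl⟩ := s1438_i' hB hG hM hH₁σ hH₁1 hcopH₁
    have hCs : Group.IsSolvable ↥(M ⊓ centralizer (H₁ : Set G)) := by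
      have := coatom_isSolvable hG hM
      exact solvable_of_solvable_injective (Subgroup.inclusion_injective (inf_le_left : M ⊓ centralizer (H₁ : Set G) ≤ M))
    have hXHall : IsPiHallOf {u | u ∉ sigma M} X (M ⊓ centralizer (H₁ : Set G)) := by
      refine ⟨hXcompl.1, fun t ht hd => (hXτ t ht hd).2.1, fun t ht htσ hd => ?_⟩
      have e1 := IsComplIn_card_eq hXcompl
      have e2 : Nat.card X * X.relIndex (M ⊓ centralizer (H₁ : Set G)) = Nat.card ↥(M ⊓ centralizer (H₁ : Set G)) :=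
        card_mul_relIndex hXcompl.1
      have hpos : 0 < Nat.card X := Nat.card_pos
      rw [e1] at e2
      have e3 := Nat.eq_of_mul_eq_mul_left hpos e2
      rw [e3] at hd
      exact htσ (piCoreOf_isPi (sigma M) M t ht (hd.trans (Subgroup.card_dvd_of_le inf_le_left)))
    obtain ⟨c, -, hle⟩ := IsPiHallOf.exists_conj_ge hCs hXHall (hS.le.trans hH₂C) (fun t ht hd => by
      obtain ⟨j, hj⟩ := IsPGroup.iff_card.1 hS.isP
      rw [hj] at hd
      have := (Nat.prime_dvd_prime_iff_eq ht hr).1 (ht.dvd_of_dvd_pow hd)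
      rw [this]
      exact hrσ)
    have hcX : IsCyclic ↥(X.map (MulAut.conj c).toMonoidHom) := by
      exact isCyclic_of_surjective (Subgroup.equivMapOfInjective X _ (MulAut.conj c).injective).toMonoidHom
        (Subgroup.equivMapOfInjective X _ (MulAut.conj c).injective).surjective
    have hcS : IsCyclic ↥S := by
      haveI := hcX
      exact Subgroup.isCyclic_of_le hle
    have hrX : r ∣ Nat.card X := by
      have h1 : Nat.card S ∣ Nat.card ↥(X.map (MulAut.conj c).toMonoidHom) := Subgroup.card_dvd_of_le hle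
      rw [Cfsg.Agent.Lib.Coprime.card_conj_map] at h1
      exact hSd.trans h1
    exact (hXτ r hr hrX).2.2.2 (hSM.prank_of (prank_one_of_cyclic hcS))
  have hHσ : H ≤ sigmaCore M := by
    intro u hu
    obtain ⟨a, ha, b, hb, rfl⟩ := hH₂.2.2.2 u hu
    rw [hH₂bot] at ha
    have : a = 1 := ha
    rw [this, one_mul]
    exact hH₁σ hb
  have hcopH : (Nat.card H).Coprime (H.relIndex (sigmaCore M)) := by
    refine Nat.coprime_of_dvd fun t ht h1 h2 => ?_
    have h3 : H.relIndex (sigmaCore M) ∣ H.index := by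
      rw [← Subgroup.relIndex_mul_index hHσ]
      exact dvd_mul_right _ _
    exact hnotdvd t ht h1 (h2.trans h3)
  obtain ⟨n, hn, hne⟩ := s1438_ii hB hG hM hHσ hcopH (hnil M hM) hx hg
  exact ⟨n, hn.2, hne⟩

end Cfsg.Agent.Lib.FT
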