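import Cfsg.Agent.Lib.FT.BG20f
import Cfsg.Agent.Lib.PGroups.Parts

/-!
BG20g: the partition of `G - 1` by the sets `M̃` (S1379): disjointness and covering.
-/

set_option autoImplicit false
set_option linter.unusedSectionVars false
set_option linter.style.haveILetI false

namespace Cfsg.Agent.Lib.FT

open Subgroup Cfsg Cfsg.Agent.Lib.OddLocal Cfsg.Agent.Lib.Basic

open Cfsg.Agent.Lib.Coprime (mem_conj_map conj_mem_conj_map conj_map_conj_map conj_map_one
  conj_map_mono conj_map_eq_iff_mem_normalizer isPGroup_conj_map)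

variable {G : Type*} [Group G] [Finite G]

theorem conj_mem_centralizer_singleton_iff {m a t : G} :
    t ∈ centralizer ({a} : Set G) ↔ m * t * m⁻¹ ∈ centralizer ({m * a * m⁻¹} : Set G) := by
  rw [mem_centralizer_singleton_iff, mem_centralizer_singleton_iff]
  constructor
  · intro h
    calc m * t * m⁻¹ * (m * a * m⁻¹) = m * (t * a) * m⁻¹ := by group
      _ = m * (a * t) * m⁻¹ := by rw [h]
      _ = _ := by group
  · intro h
    have h2 : m * (t * a) * m⁻¹ = m * (a * t) * m⁻¹ := by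
      calc m * (t * a) * m⁻¹ = m * t * m⁻¹ * (m * a * m⁻¹) := by group
        _ = m * a * m⁻¹ * (m * t * m⁻¹) := h
        _ = _ := by group
    exact mul_left_cancel (mul_right_cancel h2)

theorem centralizer_conj_le {r w : G} {M : Subgroup G} (h : centralizer ({r} : Set G) ≤ M) :
    centralizer ({w * r * w⁻¹} : Set G) ≤ M.map (MulAut.conj w).toMonoidHom := by
  intro t ht
  have h2 : w⁻¹ * t * w⁻¹⁻¹ ∈ centralizer ({r} : Set G) := by
    rw [conj_mem_centralizer_singleton_iff (m := w)]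
    have e : w * (w⁻¹ * t * w⁻¹⁻¹) * w⁻¹ = t := by group
    rw [e]
    exact ht
  refine ⟨w⁻¹ * t * w⁻¹⁻¹, h h2, ?_⟩
  simp [MulAut.conj_apply]
  group

theorem conj_ne_one {c a : G} (h : a ≠ 1) : c * a * c⁻¹ ≠ 1 := by
  intro h'
  apply h
  have e : a = c⁻¹ * (c * a * c⁻¹) * c := by group
  rw [e, h']
  group

theorem coatom_eq_conj_of_conj_eq {L M : Subgroup G} {w : G} (h : L.map (MulAut.conj w⁻¹).toMonoidHom = M) :
    L = M.map (MulAut.conj w).toMonoidHom := by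
  rw [← h, conj_map_conj_map, mul_inv_cancel, conj_map_one]

theorem mem_sigmaCore_of_primes (hG : IsMinSimpleOddOrder G) {M : Subgroup G} (hM : IsCoatom M) {x : G} (hx : x ∈ M)
    (h : ∀ p : ℕ, p.Prime → p ∣ orderOf x → p ∈ sigma M) : x ∈ sigmaCore M := by
  have hH := isPiHallOf_inf_sigmaCore hG hM (le_refl M)
  have e : M ⊓ sigmaCore M = sigmaCore M := inf_eq_right.2 (piCoreOf_le _ M)
  rw [e] at hH
  refine mem_of_coprime_relIndex (fun m hm => le_normalizer_piCoreOf (sigma M) M hm) hx ?_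
  exact Nat.coprime_of_dvd fun t ht h1 h2 => hH.2.2 t ht (h t ht h2) h1

/-- Equivariance of `R` under all of `G`. -/
theorem supportR_conj_general (hB : ThmB G) (hG : IsMinSimpleOddOrder G) {M : Subgroup G} (hM : IsCoatom M) {a r c : G}
    (ha : a ∈ sigmaCore M) (ha1 : a ≠ 1) (hr : r ∈ supportR M a) :
    c * r * c⁻¹ ∈ supportR (M.map (MulAut.conj c).toMonoidHom) (c * a * c⁻¹) := by
  classical
  by_cases hr1 : r = 1
  · subst hr1
    simp [one_mem]
  obtain ⟨h1r, -, -, -, -, h6r⟩ := supportR_spec hB hG hM ha ha1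
  obtain ⟨hC, N, hN, hCN, -, hrN⟩ := h6r r hr hr1
  have hb : c * a * c⁻¹ ∈ sigmaCore (M.map (MulAut.conj c).toMonoidHom) := by
    rw [sigmaCore_conj]
    exact conj_mem_conj_map _ c a ha
  have hb1 : c * a * c⁻¹ ≠ 1 := conj_ne_one ha1
  have hCb : ¬ centralizer ({c * a * c⁻¹} : Set G) ≤ M.map (MulAut.conj c).toMonoidHom := by
    intro hle
    apply hC
    have h2 := centralizer_conj_le (w := c⁻¹) hle
    have e : c⁻¹ * (c * a * c⁻¹) * c⁻¹⁻¹ = a := by group
    rw [e, conj_map_conj_map, inv_mul_cancel, conj_map_one] at h2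
    exact h2
  obtain ⟨N', hN', hCN', huq', -, hnil', -, -, -, -, -⟩ := thmE_core hB hG (coatom_conj hM c) hb hb1 hCb
  have e := huq' _ (coatom_conj hN c) (centralizer_conj_le hCN)
  rw [supportR_of_unique hG hCb hN' hCN' huq' hnil', ← e, sigmaCore_conj]
  exact ⟨conj_mem_conj_map _ c r hrN, conj_mem_centralizer_singleton_iff.mp (h1r hr)⟩

theorem tilde_conj_mem {M : Subgroup G} {A : Set G} {g : G} (h : g ∈ tildeOf M A) (c : G) : c * g * c⁻¹ ∈ tildeOf M A := by
  obtain ⟨a, ha, r, hr, y, rfl⟩ := h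
  exact ⟨a, ha, r, hr, c * y, by group⟩

/-- **S1379, first clause**. -/
theorem s1379_disjoint (hB : ThmB G) (hG : IsMinSimpleOddOrder G) {M N : Subgroup G} (hM : IsCoatom M) (hN : IsCoatom N)
    (hnc : ∀ g : G, N ≠ M.map (MulAut.conj g).toMonoidHom) :
    tildeOf M ((sigmaCore M : Set G) \ {1}) ∩ tildeOf N ((sigmaCore N : Set G) \ {1}) = ∅ := by
  classical
  ext g
  simp only [Set.mem_inter_iff, Set.mem_empty_iff_false, iff_false, not_and]
  rintro ⟨a, ⟨ha, ha1⟩, r, hr, y, rfl⟩ ⟨b, ⟨hb, hb1⟩, s, hs, y', e⟩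
  set c := y⁻¹ * y' with hc
  have e' : a * r = (c * b * c⁻¹) * (c * s * c⁻¹) := by
    have e1 : a * r = y⁻¹ * (y * (a * r) * y⁻¹) * y := by group
    rw [e1, e, hc]
    group
  have ha1' : a ≠ 1 := ha1
  have hb1' : b ≠ 1 := hb1
  have hb' : c * b * c⁻¹ ∈ sigmaCore (N.map (MulAut.conj c).toMonoidHom) := by
    rw [sigmaCore_conj]
    exact conj_mem_conj_map _ c b hb
  have hs' := supportR_conj_general (c := c) hB hG hN hb hb1' hs
  have hab : a = c * b * c⁻¹ := by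
    by_contra h
    exact s1433_core hB hG hM (coatom_conj hN c) ha hb' ha1' (conj_ne_one hb1') h r hr _ hs' e'
  have hord : orderOf a ≠ 1 := fun h => ha1' (orderOf_eq_one_iff.1 h)
  obtain ⟨p, hp, hpd⟩ := Nat.exists_prime_and_dvd hord
  haveI := Fact.mk hp
  have hpM := sigma_of_mem_sigmaCore ha hp hpd
  have hpN : p ∈ sigma (N.map (MulAut.conj c).toMonoidHom) := by
    rw [hab] at hpd
    exact sigma_of_mem_sigmaCore hb' hp hpd
  obtain ⟨d, hd⟩ := conj_of_sigma_sigma hB hM (coatom_conj hN c) hpM hpN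
  apply hnc (d * c)⁻¹
  rw [← hd, conj_map_conj_map, conj_map_conj_map]
  have e1 : (d * c)⁻¹ * d * c = 1 := by group
  rw [e1, conj_map_one]

/-- The `τ₂`-branch of the covering. -/
theorem mem_tilde_of_tau2 (hB : ThmB G) (hG : IsMinSimpleOddOrder G) {M₁ L : Subgroup G} (hM₁ : IsCoatom M₁) (hL : IsCoatom L)
    {u r : G} (hu : u ∈ sigmaCore M₁) (hr1 : r ≠ 1) (hur : r * u = u * r)
    (hrL : ∀ p : ℕ, p.Prime → p ∣ orderOf r → p ∈ sigma L) (hrσ : ∀ p : ℕ, p.Prime → p ∣ orderOf r → p ∉ sigma M₁)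
    (hC : centralizer ({r} : Set G) ≤ M₁) (huq : ∀ L' : Subgroup G, IsCoatom L' → centralizer ({r} : Set G) ≤ L' → L' = M₁) :
    u * r ∈ tildeOf L ((sigmaCore L : Set G) \ {1}) := by
  classical
  have hrM : r ∈ M₁ := hC (mem_centralizer_singleton_self r)
  have hY : zpowers r ≠ ⊤ := fun h => hM₁.1 (top_le_iff.1 (h ▸ zpowers_le.2 hrM))
  obtain ⟨g, hg⟩ := sigma_subgroup_le_conj hB hG hL (Y := zpowers r)
    (fun t ht hd => hrL t ht (by rwa [Nat.card_zpowers] at hd)) hY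
  set w := g⁻¹ with hw
  set a := w * r * w⁻¹ with ha_def
  have haL : a ∈ L := by
    obtain ⟨l, hl, e⟩ := hg (mem_zpowers r)
    have e' : g * l * g⁻¹ = r := e
    have e2 : a = l := by
      rw [ha_def, hw, ← e']
      group
    rw [e2]
    exact hl
  have hao : orderOf a = orderOf r := orderOf_conj_bg20 w r
  have ha : a ∈ sigmaCore L := mem_sigmaCore_of_primes hG hL haL (fun p hp hd => hrL p hp (hao ▸ hd))
  have ha1 : a ≠ 1 := conj_ne_one hr1
  set N := M₁.map (MulAut.conj w).toMonoidHom with hNdef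
  have hN : IsCoatom N := coatom_conj hM₁ w
  have hCN : centralizer ({a} : Set G) ≤ N := centralizer_conj_le hC
  have huqN : ∀ L' : Subgroup G, IsCoatom L' → centralizer ({a} : Set G) ≤ L' → L' = N := by
    intro L' hL' h
    have h1 := centralizer_conj_le (w := w⁻¹) h
    have e : w⁻¹ * a * w⁻¹⁻¹ = r := by
      rw [ha_def]
      group
    rw [e] at h1
    exact coatom_eq_conj_of_conj_eq (huq _ (coatom_conj hL' w⁻¹) h1)
  have hCL : ¬ centralizer ({a} : Set G) ≤ L := by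
    intro h
    have e : L = N := huqN L hL h
    have hord : orderOf r ≠ 1 := fun h => hr1 (orderOf_eq_one_iff.1 h)
    obtain ⟨p, hp, hpd⟩ := Nat.exists_prime_and_dvd hord
    haveI := Fact.mk hp
    have h1 := hrL p hp hpd
    rw [e] at h1
    have h2 := sigma_conj_of_mem h1 w⁻¹
    rw [hNdef, conj_map_conj_map, inv_mul_cancel, conj_map_one] at h2
    exact hrσ p hp hpd h2
  obtain ⟨N', hN', hCN', huq', -, hnil', -⟩ := thmE_core hB hG hL ha ha1 hCL
  have eN : N' = N := huqN N' hN' hCN'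
  have hsup := supportR_of_unique hG hCL hN' hCN' huq' hnil'
  refine ⟨a, ⟨ha, ha1⟩, w * u * w⁻¹, ?_, w⁻¹, ?_⟩
  · rw [hsup, eN, hNdef, sigmaCore_conj]
    refine ⟨conj_mem_conj_map _ w u hu, ?_⟩
    rw [ha_def]
    exact conj_mem_centralizer_singleton_iff.mp (mem_centralizer_singleton_iff.2 hur.symm)
  · have e : a * (w * u * w⁻¹) = w * (r * u) * w⁻¹ := by
      rw [ha_def]
      group
    rw [e, hur]
    group

/-- The alternatives of the covering. -/
def CoverConcl (g : G) : Prop :=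
  (∃ N : Subgroup G, IsCoatom N ∧ g ∈ tildeOf N ((sigmaCore N : Set G) \ {1})) ∨
    ∃ M₁ : Subgroup G, IsCoatom M₁ ∧ ∃ y u r : G, g = y * (u * r) * y⁻¹ ∧ u ∈ sigmaCore M₁ ∧ u ≠ 1 ∧ r * u = u * r ∧ r ∈ M₁ ∧ r ≠ 1 ∧
      (∀ p : ℕ, p.Prime → p ∣ orderOf r → p ∈ kappa M₁) ∧ centralizer ({u} : Set G) ≤ M₁

theorem CoverConcl.of_conj {g : G} (c : G) (h : CoverConcl (c⁻¹ * g * c)) : CoverConcl g := by
  have e : g = c * (c⁻¹ * g * c) * c⁻¹ := by group
  rcases h with ⟨N, hN, h⟩ | ⟨M₁, hM₁, y, u, r, h1, h2⟩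
  · refine Or.inl ⟨N, hN, ?_⟩
    rw [e]
    exact tilde_conj_mem h c
  · refine Or.inr ⟨M₁, hM₁, c * y, u, r, ?_, h2⟩
    rw [e, h1]
    group

theorem cover_of_decomp (hB : ThmB G) (hG : IsMinSimpleOddOrder G) {M₁ : Subgroup G} (hM₁ : IsCoatom M₁) {u r : G}
    (hu : u ∈ sigmaCore M₁) (hu1 : u ≠ 1) (hr : r ∈ M₁) (hur : r * u = u * r)
    (hrσ : ∀ p : ℕ, p.Prime → p ∣ orderOf r → p ∉ sigma M₁) : CoverConcl (u * r) := by
  classical
  by_cases hr1 : r = 1
  · refine Or.inl ⟨M₁, hM₁, u, ⟨hu, hu1⟩, r, ?_, 1, by simp⟩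
    rw [hr1]
    exact one_mem _
  rcases s1432_core hB hG hM₁ hu hu1 ⟨hr, mem_centralizer_singleton_iff.2 hur⟩ hr1 hrσ with ⟨hκ, hC⟩ | ⟨-, ⟨L, hL, hrL⟩, hC, huq⟩
  · exact Or.inr ⟨M₁, hM₁, 1, u, r, by simp, hu, hu1, hur, hr, hr1, hκ, hC⟩
  · exact Or.inl ⟨L, hL, mem_tilde_of_tau2 hB hG hM₁ hL hu hr1 hur hrL hrσ hC huq⟩

theorem mem_zpowers_of_mem_zpowers_mul {x u b : G} (hc : Commute u b) (hx : x ∈ zpowers (u * b))
    (hcop : (orderOf b).Coprime (orderOf x)) : x ∈ zpowers u := by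
  obtain ⟨k, hk⟩ := mem_zpowers_iff.1 hx
  obtain ⟨m, hm⟩ := exists_pow_eq_self_of_coprime hcop
  rw [← hm]
  refine Subgroup.pow_mem _ ?_ _
  have e : x ^ orderOf b = (u ^ k) ^ orderOf b := by
    rw [← hk, hc.mul_zpow, ((hc.zpow_zpow k k).mul_pow (orderOf b))]
    have h : (b ^ k) ^ orderOf b = 1 := by
      rw [← zpow_natCast, ← zpow_mul, mul_comm, zpow_mul, zpow_natCast, pow_orderOf_eq_one, one_zpow]
    rw [h, mul_one]
  rw [e]
  exact Subgroup.pow_mem _ (Subgroup.zpow_mem _ (mem_zpowers u) k) _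

/-- A complement with the right primes is a Hall subgroup. -/
theorem isPiHallOf_of_compl {π : Set ℕ} {X N₀ C : Subgroup G} (hc : IsComplIn X N₀ C)
    (h₁ : ∀ t : ℕ, t.Prime → t ∣ Nat.card X → t ∈ π) (h₂ : ∀ t : ℕ, t.Prime → t ∣ Nat.card N₀ → t ∉ π) : IsPiHallOf π X C := by
  refine ⟨hc.1, h₁, fun t ht htπ hd => ?_⟩
  have e1 := IsComplIn_card_eq hc
  have e2 : Nat.card X * X.relIndex C = Nat.card C := card_mul_relIndex hc.1
  have hpos : 0 < Nat.card X := Nat.card_pos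
  rw [e1] at e2
  have e3 := Nat.eq_of_mul_eq_mul_left hpos e2
  rw [e3] at hd
  exact h₂ t ht hd htπ

/-- **The covering**: each `g ≠ 1` lies in some `Ñ`, or has the `κ`-form. -/
theorem cover_core (hB : ThmB G) (hG : IsMinSimpleOddOrder G) {g : G} (hg1 : g ≠ 1) : CoverConcl g := by
  classical
  have huniq := huniq13 hG
  have hord : orderOf g ≠ 1 := fun h => hg1 (orderOf_eq_one_iff.1 h)
  obtain ⟨p, hp, hpd⟩ := Nat.exists_prime_and_dvd hord
  haveI := Fact.mk hp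
  obtain ⟨x₀, hx₀g, hx₀o⟩ := exists_mem_zpowers_orderOf hpd
  have hx₀1 : x₀ ≠ 1 := by
    rintro rfl
    rw [orderOf_one] at hx₀o
    exact hp.one_lt.ne hx₀o
  have hzp : IsPGroup p (zpowers x₀) := IsPGroup.of_card (n := 1) (by rw [Nat.card_zpowers, hx₀o, pow_one])
  obtain ⟨P, hP, hxP⟩ := exists_isMaxP_ge (N := ⊤) le_top hzp
  have hx₀P : x₀ ∈ P := hxP (mem_zpowers x₀)
  have hP1 : P ≠ ⊥ := fun h => hx₀1 (by rw [h] at hx₀P; exact hx₀P)
  have hPt : P ≠ ⊤ := IsMinSimpleOddOrder.ne_top_of_isPGroup hG hp hP.isP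
  obtain ⟨M₁, hM₁, hNM⟩ : ∃ M : Subgroup G, IsCoatom M ∧ normalizer (P : Set G) ≤ M :=
    (eq_top_or_exists_le_coatom _).resolve_left (IsMinSimpleOddOrder.normalizer_ne_top hG hP1 hPt)
  have hPM : P ≤ M₁ := Subgroup.le_normalizer.trans hNM
  have hPmax : IsMaxP p P M₁ := ⟨hPM, hP.isP, fun D h1 h2 h3 => hP.3 D le_top h2 h3⟩
  have hpM₁ : p ∣ Nat.card M₁ := by
    have h1 : orderOf x₀ ∣ Nat.card M₁ := Subgroup.orderOf_dvd_natCard M₁ (hPM hx₀P)
    rwa [hx₀o] at h1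
  have hpσ : p ∈ sigma M₁ := mem_sigma_of_normalizer_le hPmax hpM₁ hNM
  have hx₀σ : x₀ ∈ sigmaCore M₁ := le_sigmaCore_of_isPGroup hG huniq hM₁ hpσ hP.isP hPM hx₀P
  have hgC : g ∈ centralizer ({x₀} : Set G) := centralizer_singleton_le_of_mem_zpowers hx₀g (mem_centralizer_singleton_self g)
  by_cases hC : centralizer ({x₀} : Set G) ≤ M₁
  · have hgM := hC hgC
    obtain ⟨u, r, e, hcomm, hu, hr, huz, hrz⟩ := Cfsg.Agent.Lib.PGroups.exists_piPart (sigma M₁) g
    have huM : u ∈ M₁ := zpowers_le.2 hgM huz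
    have hrM : r ∈ M₁ := zpowers_le.2 hgM hrz
    have huσ := mem_sigmaCore_of_primes hG hM₁ huM hu
    have hu1 : u ≠ 1 := by
      rintro rfl
      rw [one_mul] at e
      rw [e] at hpd
      exact hr p hp hpd hpσ
    rw [e]
    exact cover_of_decomp hB hG hM₁ huσ hu1 hrM hcomm.symm.eq hr
  · obtain ⟨N, hN, hCN, huqN, hNM₁, hnil, hNσM, hcompl, hxMN, hτ, -⟩ := thmE_core hB hG hM₁ hx₀σ hx₀1 hC
    obtain ⟨N', ⟨hN', hCN'⟩, huq', -, hnormR, hcompl', -, -⟩ := s1375_core hB hG hM₁ hx₀σ hx₀1 hC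
    have eN : N' = N := huqN N' hN' hCN'
    subst eN
    set C := centralizer ({x₀} : Set G) with hCdef
    have hpN : p ∉ sigma N' := (hτ p hp (by rw [hx₀o])).2.1
    obtain ⟨v, w, e, hcomm, hv, hw, hvz, hwz⟩ := Cfsg.Agent.Lib.PGroups.exists_piPart (sigma N') g
    have hvC : v ∈ C := zpowers_le.2 hgC hvz
    have hwC : w ∈ C := zpowers_le.2 hgC hwz
    have hvσ : v ∈ sigmaCore N' := mem_sigmaCore_of_primes hG hN' (hCN' hvC) hv
    have hHall : IsPiHallOf {t | t ∉ sigma N'} (M₁ ⊓ C) C := by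
      refine isPiHallOf_of_compl hcompl' (fun t ht hd => ?_) (fun t ht hd h => ?_)
      · refine compl_prime_not_sigma hG hN' hcompl ht (hd.trans (Subgroup.card_dvd_of_le ?_))
        exact le_inf inf_le_left (inf_le_right.trans hCN')
      · exact h (piCoreOf_isPi (sigma N') N' t ht (hd.trans (Subgroup.card_dvd_of_le inf_le_left)))
    have hCs : Group.IsSolvable ↥C := by
      have := coatom_isSolvable hG hN'
      exact solvable_of_solvable_injective (Subgroup.inclusion_injective hCN')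
    obtain ⟨c, hcC, hle⟩ := IsPiHallOf.exists_conj_ge hCs hHall (T := zpowers w) (zpowers_le.2 hwC)
      (fun t ht hd => hw t ht (by rwa [Nat.card_zpowers] at hd))
    apply CoverConcl.of_conj c
    have hcx₀ : c⁻¹ * x₀ * c = x₀ := by
      have h1 : c * x₀ = x₀ * c := mem_centralizer_singleton_iff.1 hcC
      rw [mul_assoc, ← h1]
      group
    set w' := c⁻¹ * w * c with hw'def
    set v' := c⁻¹ * v * c with hv'def
    have hw' : w' ∈ M₁ ⊓ C := by
      obtain ⟨l, hl, el⟩ := hle (mem_zpowers w)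
      have el' : c * l * c⁻¹ = w := el
      have e2 : w' = l := by
        rw [hw'def, ← el']
        group
      rw [e2]
      exact hl
    have hv'σ : v' ∈ sigmaCore N' ⊓ C := by
      have h1 : v ∈ sigmaCore N' ⊓ C := ⟨hvσ, hvC⟩
      have h2 := (Subgroup.mem_normalizer_iff.1 (hnormR (C.inv_mem hcC)) v).1 h1
      have e2 : c⁻¹ * v * c⁻¹⁻¹ = v' := by
        rw [hv'def]
        group
      rw [e2] at h2
      exact h2
    have hge : c⁻¹ * g * c = v' * w' := by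
      rw [e, hv'def, hw'def]
      group
    have hcomm' : Commute v' w' := by
      rw [hv'def, hw'def]
      change c⁻¹ * v * c * (c⁻¹ * w * c) = c⁻¹ * w * c * (c⁻¹ * v * c)
      have h1 : v * w = w * v := hcomm
      calc c⁻¹ * v * c * (c⁻¹ * w * c) = c⁻¹ * (v * w) * c := by group
        _ = c⁻¹ * (w * v) * c := by rw [h1]
        _ = _ := by group
    obtain ⟨u', r', e2, hcomm2, hu', hr', hu'z, hr'z⟩ := Cfsg.Agent.Lib.PGroups.exists_piPart (sigma M₁) w'
    have hu'M : u' ∈ M₁ := zpowers_le.2 hw'.1 hu'z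
    have hr'M : r' ∈ M₁ := zpowers_le.2 hw'.1 hr'z
    have hu'σ := mem_sigmaCore_of_primes hG hM₁ hu'M hu'
    have hcv'u' : Commute v' u' := by
      obtain ⟨k, hk⟩ := mem_zpowers_iff.1 hu'z
      rw [← hk]
      exact hcomm'.zpow_right k
    have hcv'r' : Commute v' r' := by
      obtain ⟨k, hk⟩ := mem_zpowers_iff.1 hr'z
      rw [← hk]
      exact hcomm'.zpow_right k
    have hx₀g' : x₀ ∈ zpowers (c⁻¹ * g * c) := by
      obtain ⟨k, hk⟩ := mem_zpowers_iff.1 hx₀g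
      refine mem_zpowers_iff.2 ⟨k, ?_⟩
      have h1 : (c⁻¹ * g * c) ^ k = (MulAut.conj c⁻¹) (g ^ k) := by
        rw [map_zpow]
        simp [MulAut.conj_apply]
      rw [h1, hk]
      simp only [MulAut.conj_apply, inv_inv]
      exact hcx₀
    have hdecomp : c⁻¹ * g * c = u' * (r' * v') := by
      rw [hge, e2]
      have h1 : v' * (u' * r') = u' * (r' * v') := by
        rw [← mul_assoc, hcv'u'.eq, mul_assoc, hcv'r'.eq]
      exact h1
    have hcop : (orderOf (r' * v')).Coprime (orderOf x₀) := by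
      rw [hx₀o, Nat.coprime_comm, Nat.Prime.coprime_iff_not_dvd hp]
      intro hd
      have h1 : orderOf (r' * v') ∣ orderOf r' * orderOf v' := hcv'r'.symm.orderOf_mul_dvd_mul_orderOf
      rcases (Nat.Prime.dvd_mul hp).1 (hd.trans h1) with h2 | h2
      · exact hr' p hp h2 hpσ
      · exact hpN (sigma_of_mem_sigmaCore hv'σ.1 hp h2)
    have hcu'b : Commute u' (r' * v') := by
      refine Commute.mul_right hcomm2 hcv'u'.symm
    have hx₀u' : x₀ ∈ zpowers u' := by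
      refine mem_zpowers_of_mem_zpowers_mul hcu'b ?_ hcop
      rw [← hdecomp]
      exact hx₀g'
    have hu'1 : u' ≠ 1 := by
      rintro rfl
      have h1 : x₀ ∈ (⊥ : Subgroup G) := by
        rw [← zpowers_one_eq_bot]
        exact hx₀u'
      exact hx₀1 h1
    have hCu' : centralizer ({u'} : Set G) ≤ C := centralizer_singleton_le_of_mem_zpowers hx₀u'
    have hv'M : v' ∈ M₁ → v' = 1 := by
      intro h
      have h1 : v' ∈ sigmaCore N' ⊓ M₁ := ⟨hv'σ.1, h⟩
      rw [hNσM] at h1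
      exact h1
    by_cases hr'1 : r' = 1
    · have hge' : c⁻¹ * g * c = u' * v' := by
        rw [hdecomp, hr'1, one_mul]
      rw [hge']
      by_cases hv'1 : v' = 1
      · refine Or.inl ⟨M₁, hM₁, u', ⟨hu'σ, hu'1⟩, v', ?_, 1, by simp⟩
        rw [hv'1]
        exact one_mem _
      · have hv'C : v' ∈ centralizer ({u'} : Set G) := mem_centralizer_singleton_iff.2 hcv'u'.eq
        have hCu'M : ¬ centralizer ({u'} : Set G) ≤ M₁ := fun h => hv'1 (hv'M (h hv'C))
        obtain ⟨N'', hN'', hCN'', huq'', -, hnil'', -⟩ := thmE_core hB hG hM₁ hu'σ hu'1 hCu'M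
        have eN : N' = N'' := huq'' N' hN' (hCu'.trans hCN')
        have hsup := supportR_of_unique hG hCu'M hN'' hCN'' huq'' hnil''
        refine Or.inl ⟨M₁, hM₁, u', ⟨hu'σ, hu'1⟩, v', ?_, 1, by simp⟩
        rw [hsup, ← eN]
        exact ⟨hv'σ.1, hv'C⟩
    · have hv'1 : v' = 1 := by
        apply hv'M
        rcases s1432_core hB hG hM₁ hu'σ hu'1 ⟨hr'M, mem_centralizer_singleton_iff.2 hcomm2.symm.eq⟩ hr'1 hr' with ⟨-, h⟩ | ⟨-, -, h, -⟩
        · exact h (mem_centralizer_singleton_iff.2 hcv'u'.eq)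
        · exact h (mem_centralizer_singleton_iff.2 hcv'r'.eq)
      rw [hdecomp, hv'1, mul_one]
      exact cover_of_decomp hB hG hM₁ hu'σ hu'1 hr'M hcomm2.symm.eq hr'

/-- **S1379, second clause**. -/
theorem s1379_cover (hB : ThmB G) (hG : IsMinSimpleOddOrder G) (hκ : ∀ M : Subgroup G, IsCoatom M → kappa M = ∅) {g : G} (hg1 : g ≠ 1) :
    ∃ M : Subgroup G, IsCoatom M ∧ g ∈ tildeOf M ((sigmaCore M : Set G) \ {1}) := by
  rcases cover_core hB hG hg1 with h | ⟨M₁, hM₁, y, u, r, -, -, -, -, -, hr1, hr, -⟩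
  · exact h
  · exfalso
    have hord : orderOf r ≠ 1 := fun h => hr1 (orderOf_eq_one_iff.1 h)
    obtain ⟨p, hp, hpd⟩ := Nat.exists_prime_and_dvd hord
    have := hr p hp hpd
    rw [hκ M₁ hM₁] at this
    exact this

end Cfsg.Agent.Lib.FT
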