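import Cfsg.Agent.Lib.FT.BG20g
import Cfsg.Agent.Lib.FT.BG21h

/-!
BG20h: the third clause of S1379.
-/

set_option autoImplicit false
set_option linter.unusedSectionVars false
set_option linter.style.haveILetI false

namespace Cfsg.Agent.Lib.FT

open Subgroup Cfsg Cfsg.Agent.Lib.OddLocal Cfsg.Agent.Lib.Basic

open Cfsg.Agent.Lib.Coprime (mem_conj_map conj_mem_conj_map conj_map_conj_map conj_map_one
  conj_map_mono conj_map_eq_iff_mem_normalizer isPGroup_conj_map)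

variable {G : Type*} [Group G] [Finite G]

/-- Conjugates of a `Config`. -/
theorem Config.conj {M X : Subgroup G} {p : ℕ} [Fact p.Prime] (hC : Config M X p) (c : G) :
    Config (M.map (MulAut.conj c).toMonoidHom) (X.map (MulAut.conj c).toMonoidHom) p := by
  classical
  refine ⟨coatom_conj hC.hM c, ?_, prank_conj c hC.hr, ?_, conj_map_mono hC.hXM c, ?_⟩
  · intro h
    apply hC.hpσ
    have h1 := sigma_conj_of_mem h c⁻¹
    rwa [conj_map_conj_map, inv_mul_cancel, conj_map_one] at h1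
  · rw [Cfsg.Agent.Lib.Coprime.card_conj_map]
    exact hC.hX
  · obtain ⟨d, hd⟩ := (Subgroup.ne_bot_iff_exists_ne_one).mp hC.hD
    have hd1 : (d : G) ≠ 1 := fun h => hd (Subtype.ext h)
    intro h
    have h1 : c * (d : G) * c⁻¹ ∈ sigmaCore (M.map (MulAut.conj c).toMonoidHom) ⊓ centralizer ((X.map (MulAut.conj c).toMonoidHom : Subgroup G) : Set G) := by
      refine ⟨?_, ?_⟩
      · rw [sigmaCore_conj]
        exact conj_mem_conj_map _ c _ d.2.1
      · refine Subgroup.mem_centralizer_iff.2 ?_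
        rintro _ ⟨x, hx, rfl⟩
        have h2 : (x : G) * (d : G) = (d : G) * x := (Subgroup.mem_centralizer_iff.1 d.2.2 x hx)
        simp only [MulEquiv.coe_toMonoidHom, MulAut.conj_apply]
        calc c * x * c⁻¹ * (c * (d : G) * c⁻¹) = c * (x * d) * c⁻¹ := by group
          _ = c * (d * x) * c⁻¹ := by rw [h2]
          _ = _ := by group
    rw [h] at h1
    exact conj_ne_one hd1 h1

/-- `κ` is invariant under conjugation. -/
theorem kappa_conj (hG : IsMinSimpleOddOrder G) {M : Subgroup G} (hM : IsCoatom M) {p : ℕ} (hp : p ∈ kappa M) (c : G) :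
    p ∈ kappa (M.map (MulAut.conj c).toMonoidHom) := by
  classical
  haveI : Fact p.Prime := ⟨hp.1⟩
  obtain ⟨X, hXM, hX⟩ := exists_prime_subgroup_of_dvd hp.1 hp.2.1
  exact (config_of_kappa hG hM hp hX hXM).conj c |>.kappa hG

/-- An element of the shape `u r` with `r` a `κ(M)`-element and `u ∈ M_σ` is `M`-conjugate into `K K*`. -/
theorem kappa_form_mem (hB : ThmB G) (hG : IsMinSimpleOddOrder G) {M K : Subgroup G} (hM : IsCoatom M) (hK : IsPiHallOf (kappa M) K M)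
    {u r : G} (hu : u ∈ sigmaCore M) (hu1 : u ≠ 1) (hr : r ∈ M) (hr1 : r ≠ 1) (hcomm : r * u = u * r)
    (hκ : ∀ p : ℕ, p.Prime → p ∣ orderOf r → p ∈ kappa M) :
    ∃ m ∈ M, ∃ k ∈ K, ∃ k' ∈ sigmaCore M ⊓ centralizer (K : Set G), k ≠ 1 ∧ k' ≠ 1 ∧ u = m * k' * m⁻¹ ∧ r = m * k * m⁻¹ := by
  classical
  have hs := coatom_isSolvable hG hM
  obtain ⟨m, hm, hle⟩ := IsPiHallOf.exists_conj_ge hs hK (T := zpowers r) (zpowers_le.2 hr)
    (fun t ht hd => hκ t ht (by rwa [Nat.card_zpowers] at hd))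
  obtain ⟨k, hk, ek⟩ := hle (mem_zpowers r)
  have ek' : m * k * m⁻¹ = r := ek
  set k' := m⁻¹ * u * m with hk'def
  have hk'σ : k' ∈ sigmaCore M := by
    have h1 := (Subgroup.mem_normalizer_iff.1 (le_normalizer_piCoreOf (sigma M) M (M.inv_mem hm)) u).1 hu
    have e : m⁻¹ * u * m⁻¹⁻¹ = k' := by
      rw [hk'def]
      group
    rwa [e] at h1
  have hk1 : k ≠ 1 := by
    rintro rfl
    apply hr1
    rw [← ek']
    group
  have hk'1 : k' ≠ 1 := by
    have := conj_ne_one (c := m⁻¹) hu1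
    have e : m⁻¹ * u * m⁻¹⁻¹ = k' := by
      rw [hk'def]
      group
    rwa [e] at this
  have hcomm' : k' * k = k * k' := by
    have h1 : u * (m * k * m⁻¹) = (m * k * m⁻¹) * u := by
      rw [ek']
      exact hcomm.symm
    rw [hk'def]
    calc m⁻¹ * u * m * k = m⁻¹ * (u * (m * k * m⁻¹)) * m := by group
      _ = m⁻¹ * ((m * k * m⁻¹) * u) * m := by rw [h1]
      _ = _ := by group
  have hK1 : K ≠ ⊥ := by
    rintro rfl
    exact hk1 hk
  have hKc : IsCyclic K := kappa_cyclic hB hG hM hK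
  have hmem : k' ∈ M ⊓ centralizer ({k} : Set G) :=
    ⟨piCoreOf_le _ M hk'σ, mem_centralizer_singleton_iff.2 hcomm'⟩
  rw [(s1354_core hB hG hM hKc hK).2 hK1 k hk hk1, sup_comm] at hmem
  have hn : sigmaCore M ⊓ centralizer (K : Set G) ≤ normalizer (K : Set G) := inf_le_right.trans (centralizer_le_normalizer' K)
  obtain ⟨a, ha, b, hb, eab⟩ := exists_mul_of_mem_sup_of_le_normalizer hn hmem
  have hb1 : b = 1 := by
    have h1 : b ∈ K ⊓ sigmaCore M := by
      refine Subgroup.mem_inf.2 ⟨hb, ?_⟩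
      have e : b = a⁻¹ * k' := by
        rw [eab]
        group
      rw [e]
      exact mul_mem (inv_mem (Subgroup.mem_inf.1 ha).1) hk'σ
    rw [kappa_inf_sigmaCore hK] at h1
    exact h1
  rw [hb1, mul_one] at eab
  refine ⟨m, hm, k, hk, k', ?_, hk1, hk'1, ?_, ek'.symm⟩
  · rw [eab]
    exact ha
  · rw [hk'def]
    group

/-- `Ẑ` is in the mixed set of the cluster. -/
theorem zhat_mem_mixedSet (hB : ThmB G) (hG : IsMinSimpleOddOrder G) {M K : Subgroup G} (hM : IsCoatom M) (hK : IsPiHallOf (kappa M) K M) (hK1 : K ≠ ⊥)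
    {z : G} (hz : z ∈ ((↑(K ⊔ (sigmaCore M ⊓ centralizer (K : Set G))) : Set G) \ ((K : Set G) ∪ ↑(sigmaCore M ⊓ centralizer (K : Set G))))) :
    z ∈ mixedSet (K ⊔ (sigmaCore M ⊓ centralizer (K : Set G))) := by
  classical
  obtain ⟨hzZ, hzn⟩ := hz
  have hzK : z ∉ K := fun h => hzn (Or.inl h)
  have hzK' : z ∉ sigmaCore M ⊓ centralizer (K : Set G) := fun h => hzn (Or.inr h)
  refine ⟨hzZ, fun L hL hzL => ?_⟩
  have h₀ : InCluster (K ⊔ (sigmaCore M ⊓ centralizer (K : Set G))) M := ⟨hM, K, hK, hK1, rfl⟩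
  have hn : sigmaCore M ⊓ centralizer (K : Set G) ≤ normalizer (K : Set G) := inf_le_right.trans (centralizer_le_normalizer' K)
  have hzZ' : z ∈ (sigmaCore M ⊓ centralizer (K : Set G)) ⊔ K := by
    rw [sup_comm]
    exact hzZ
  obtain ⟨b, hb, a, ha, e⟩ := exists_mul_of_mem_sup_of_le_normalizer hn hzZ'
  have hcomm : Commute b a := (Subgroup.mem_centralizer_iff.1 (Subgroup.mem_inf.1 hb).2 a ha).symm
  have ha1 : a ≠ 1 := by
    rintro rfl
    rw [mul_one] at e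
    exact hzK' (e ▸ hb)
  have hb1 : b ≠ 1 := by
    rintro rfl
    rw [one_mul] at e
    exact hzK (e ▸ ha)
  by_cases hLM : L = M
  · subst hLM
    apply ha1
    have h1 : a ∈ K ⊓ sigmaCore L := by
      refine Subgroup.mem_inf.2 ⟨ha, ?_⟩
      have e1 : a = b⁻¹ * z := by
        rw [e]
        group
      rw [e1]
      exact mul_mem (inv_mem (Subgroup.mem_inf.1 hb).1) hzL
    rw [kappa_inf_sigmaCore hK] at h1
    exact h1
  · have hcop : (orderOf b).Coprime (orderOf a) := by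
      refine Nat.coprime_of_dvd fun t ht h1 h2 => ?_
      have h3 : t ∈ sigma M := sigma_of_mem_sigmaCore (Subgroup.mem_inf.1 hb).1 ht h1
      have h4 : t ∈ kappa M := hK.2.1 t ht (h2.trans (Subgroup.orderOf_dvd_natCard K ha))
      exact h4.2.2.1 h3
    have hbz : b ∈ zpowers z := by
      rw [e]
      exact Cfsg.Agent.Lib.PGroups.mem_zpowers_mul_of_coprime hcomm hcop
    have hord : orderOf b ≠ 1 := fun h => hb1 (orderOf_eq_one_iff.1 h)
    obtain ⟨t, ht, htd⟩ := Nat.exists_prime_and_dvd hord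
    have h3 : t ∈ sigma M := sigma_of_mem_sigmaCore (Subgroup.mem_inf.1 hb).1 ht htd
    have h4 : t ∈ sigma L := sigma_of_mem_sigmaCore (zpowers_le.2 hzL hbz) ht htd
    exact (cluster_disj hB hG h₀ hL hLM).1 t h4 h3

/-- **S1379, clause 3, second part**. -/
theorem s1379_clause3b (hB : ThmB G) (hG : IsMinSimpleOddOrder G) {M K : Subgroup G} (hM : IsCoatom M) (hK : IsPiHallOf (kappa M) K M) (hK1 : K ≠ ⊥)
    {N : Subgroup G} (hN : IsCoatom N) (y : G) {z : G}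
    (hz : z ∈ ((↑(K ⊔ (sigmaCore M ⊓ centralizer (K : Set G))) : Set G) \ ((K : Set G) ∪ ↑(sigmaCore M ⊓ centralizer (K : Set G))))) :
    y * z * y⁻¹ ∉ tildeOf N ((sigmaCore N : Set G) \ {1}) := by
  classical
  rintro ⟨a, ⟨ha, ha1⟩, r, hr, w, e⟩
  have h₀ : InCluster (K ⊔ (sigmaCore M ⊓ centralizer (K : Set G))) M := ⟨hM, K, hK, hK1, rfl⟩
  refine mixed_not_tilde hB hG h₀ (zhat_mem_mixedSet hB hG hM hK hK1 hz) hN ha ha1 hr (y := y⁻¹ * w) ?_
  have e1 : z = y⁻¹ * (y * z * y⁻¹) * y := by group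
  rw [e1, e]
  group

/-- **S1379, clause 3, first part**, given the conjugacy part of S1369. -/
theorem s1379_clause3a (hB : ThmB G) (hG : IsMinSimpleOddOrder G) {M K Mstar : Subgroup G} (hM : IsCoatom M) (hK : IsPiHallOf (kappa M) K M)
    (hMstar : IsCoatom Mstar)
    (hKst : K = sigmaCore Mstar ⊓ centralizer ((sigmaCore M ⊓ centralizer (K : Set G)) : Set G))
    (hKstH : IsPiHallOf (kappa Mstar) (sigmaCore M ⊓ centralizer (K : Set G)) Mstar)
    (h1369 : ∀ H : Subgroup G, IsCoatom H → (kappa H).Nonempty →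
      ∃ g : G, H = M.map (MulAut.conj g).toMonoidHom ∨ H = Mstar.map (MulAut.conj g).toMonoidHom) {g : G} (hg1 : g ≠ 1) :
    (∃ N : Subgroup G, IsCoatom N ∧ g ∈ tildeOf N ((sigmaCore N : Set G) \ {1})) ∨
      ∃ y : G, ∃ z ∈ ((↑(K ⊔ (sigmaCore M ⊓ centralizer (K : Set G))) : Set G) \ ((K : Set G) ∪ ↑(sigmaCore M ⊓ centralizer (K : Set G)))), g = y * z * y⁻¹ := by
  classical
  rcases cover_core hB hG hg1 with h | ⟨M₁, hM₁, y, u, r, e, hu, hu1, hcomm, hrM, hr1, hκ, -⟩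
  · exact Or.inl h
  right
  have hord : orderOf r ≠ 1 := fun h => hr1 (orderOf_eq_one_iff.1 h)
  obtain ⟨p, hp, hpd⟩ := Nat.exists_prime_and_dvd hord
  have hcase : ∀ {M₂ K₂ K₂' : Subgroup G} (c : G), IsCoatom M₂ → IsPiHallOf (kappa M₂) K₂ M₂ → M₁ = M₂.map (MulAut.conj c).toMonoidHom →
      K₂' = sigmaCore M₂ ⊓ centralizer (K₂ : Set G) →
      ∃ y' : G, ∃ a ∈ K₂, ∃ b ∈ K₂', a ≠ 1 ∧ b ≠ 1 ∧ g = y' * (a * b) * y'⁻¹ := by
    intro M₂ K₂ K₂' c hM₂ hK₂ eM eK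
    have hu₂ : c⁻¹ * u * c ∈ sigmaCore M₂ := by
      rw [eM, sigmaCore_conj] at hu
      obtain ⟨w, hw, ew⟩ := hu
      have ew' : c * w * c⁻¹ = u := ew
      rw [← ew']
      have e1 : c⁻¹ * (c * w * c⁻¹) * c = w := by group
      rw [e1]
      exact hw
    have hr₂ : c⁻¹ * r * c ∈ M₂ := by
      rw [eM] at hrM
      obtain ⟨w, hw, ew⟩ := hrM
      have ew' : c * w * c⁻¹ = r := ew
      rw [← ew']
      have e1 : c⁻¹ * (c * w * c⁻¹) * c = w := by group
      rw [e1]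
      exact hw
    have e2 : ∀ x : G, c⁻¹ * x * c = c⁻¹ * x * c⁻¹⁻¹ := fun x => by simp
    have hu₂1 : c⁻¹ * u * c ≠ 1 := by
      rw [e2]
      exact conj_ne_one hu1
    have hr₂1 : c⁻¹ * r * c ≠ 1 := by
      rw [e2]
      exact conj_ne_one hr1
    have hcomm₂ : (c⁻¹ * r * c) * (c⁻¹ * u * c) = (c⁻¹ * u * c) * (c⁻¹ * r * c) := by
      calc (c⁻¹ * r * c) * (c⁻¹ * u * c) = c⁻¹ * (r * u) * c := by group
        _ = c⁻¹ * (u * r) * c := by rw [hcomm]
        _ = _ := by group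
    have hκ₂ : ∀ t : ℕ, t.Prime → t ∣ orderOf (c⁻¹ * r * c) → t ∈ kappa M₂ := by
      intro t ht hd
      rw [e2, orderOf_conj_bg20] at hd
      have h1 := hκ t ht hd
      have h2 := kappa_conj hG hM₁ h1 c⁻¹
      rwa [eM, conj_map_conj_map, inv_mul_cancel, conj_map_one] at h2
    obtain ⟨m, hm, k, hk, k', hk', hk1, hk'1, eu, er⟩ :=
      kappa_form_mem hB hG hM₂ hK₂ hu₂ hu₂1 hr₂ hr₂1 hcomm₂ hκ₂
    refine ⟨y * c * m, k, hk, k', eK ▸ hk', hk1, hk'1, ?_⟩
    have hu' : u = c * (m * k' * m⁻¹) * c⁻¹ := by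
      rw [← eu]
      group
    have hr' : r = c * (m * k * m⁻¹) * c⁻¹ := by
      rw [← er]
      group
    have hkk' : k * k' = k' * k := by
      have h1 : k' ∈ centralizer (K₂ : Set G) := (Subgroup.mem_inf.1 hk').2
      exact (Subgroup.mem_centralizer_iff.1 h1 k hk)
    rw [e, hu', hr']
    calc y * (c * (m * k' * m⁻¹) * c⁻¹ * (c * (m * k * m⁻¹) * c⁻¹)) * y⁻¹ = (y * c * m) * (k' * k) * (y * c * m)⁻¹ := by group
      _ = _ := by rw [hkk']
  have hKsub : (K : Subgroup G) ⊓ (sigmaCore M ⊓ centralizer (K : Set G)) = ⊥ := by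
    rw [eq_bot_iff]
    intro x hx
    have h1 : x ∈ K ⊓ sigmaCore M := ⟨(Subgroup.mem_inf.1 hx).1, (Subgroup.mem_inf.1 (Subgroup.mem_inf.1 hx).2).1⟩
    rw [kappa_inf_sigmaCore hK] at h1
    exact h1
  have hmemZ : ∀ {a b : G}, a ∈ K → b ∈ sigmaCore M ⊓ centralizer (K : Set G) → a ≠ 1 → b ≠ 1 →
      a * b ∈ ((↑(K ⊔ (sigmaCore M ⊓ centralizer (K : Set G))) : Set G) \ ((K : Set G) ∪ ↑(sigmaCore M ⊓ centralizer (K : Set G)))) := by
    intro a b ha hb ha1 hb1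
    refine ⟨mul_mem ((le_sup_left : K ≤ K ⊔ _) ha) ((le_sup_right : _ ≤ K ⊔ _) hb), ?_⟩
    rintro (h | h)
    · apply hb1
      have h1 : b ∈ K ⊓ (sigmaCore M ⊓ centralizer (K : Set G)) := by
        refine Subgroup.mem_inf.2 ⟨?_, hb⟩
        have e1 : b = a⁻¹ * (a * b) := by group
        rw [e1]
        exact mul_mem (inv_mem ha) h
      rw [hKsub] at h1
      exact h1
    · apply ha1
      have h1 : a ∈ K ⊓ (sigmaCore M ⊓ centralizer (K : Set G)) := by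
        refine Subgroup.mem_inf.2 ⟨ha, ?_⟩
        have e1 : a = (a * b) * b⁻¹ := by group
        rw [e1]
        exact mul_mem h (inv_mem hb)
      rw [hKsub] at h1
      exact h1
  obtain ⟨c, hc | hc⟩ := h1369 M₁ hM₁ ⟨p, hκ p hp hpd⟩
  · obtain ⟨y', a, ha, b, hb, ha1, hb1, eg⟩ := hcase c hM hK hc rfl
    exact ⟨y', a * b, hmemZ ha hb ha1 hb1, eg⟩
  · obtain ⟨y', a, ha, b, hb, ha1, hb1, eg⟩ := hcase c hMstar hKstH hc hKst
    refine ⟨y', b * a, hmemZ hb ha hb1 ha1, ?_⟩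
    have hab : a * b = b * a := by
      have h1 : a ∈ centralizer (K : Set G) := (Subgroup.mem_inf.1 ha).2
      exact (Subgroup.mem_centralizer_iff.1 h1 b hb).symm
    rw [eg, hab]

/-- `M'/M_F` is nilpotent. -/
theorem hnil_of_coatom (hB : ThmB G) (hG : IsMinSimpleOddOrder G) {M : Subgroup G} (hM : IsCoatom M) :
    Group.IsNilpotent ↥((commutator ↥M).map (QuotientGroup.mk' (fittingHall ↥M))) :=
  (s1355_core hB hG hM (fun _ hK => kappa_cyclic hB hG hM hK)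
    (fun _ _ hKU hK1 hU => s1373_core hB hG hM hKU hK1 hU)).2.2.2.2

/-- **S1379**. -/
theorem s1379_core (hG : IsMinSimpleOddOrder G) :
    (∀ M N : Subgroup G, IsCoatom M → IsCoatom N → (∀ g : G, N ≠ M.map (MulAut.conj g).toMonoidHom) →
      tildeOf M ((sigmaCore M : Set G) \ {1}) ∩ tildeOf N ((sigmaCore N : Set G) \ {1}) = ∅) ∧
      ((∀ M : Subgroup G, IsCoatom M → kappa M = ∅) →
        ∀ g : G, g ≠ 1 → ∃ M : Subgroup G, IsCoatom M ∧ g ∈ tildeOf M ((sigmaCore M : Set G) \ {1})) ∧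
      ∀ (M K U : Subgroup G), IsCoatom M → IsSigmaDecomposition M K U → K ≠ ⊥ →
        (∀ g : G, g ≠ 1 → (∃ N : Subgroup G, IsCoatom N ∧ g ∈ tildeOf N ((sigmaCore N : Set G) \ {1})) ∨
            ∃ y : G, ∃ z ∈ ((↑(K ⊔ (sigmaCore M ⊓ centralizer (K : Set G))) : Set G) \ ((K : Set G) ∪ ↑(sigmaCore M ⊓ centralizer (K : Set G)))), g = y * z * y⁻¹) ∧
        ∀ N : Subgroup G, IsCoatom N → ∀ y : G, ∀ z ∈ ((↑(K ⊔ (sigmaCore M ⊓ centralizer (K : Set G))) : Set G) \ ((K : Set G) ∪ ↑(sigmaCore M ⊓ centralizer (K : Set G)))), y * z * y⁻¹ ∉ tildeOf N ((sigmaCore N : Set G) \ {1}) := by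
  have hB := thmB hG
  refine ⟨fun M N hM hN hnc => s1379_disjoint hB hG hM hN hnc, fun hκ g hg1 => s1379_cover hB hG hκ hg1, ?_⟩
  intro M K U hM hKU hK1
  obtain ⟨Mstar, hMstar, hKst, hKstH⟩ := exists_mstar hB hG hM hKU.hall hK1
  refine ⟨fun g hg1 => s1379_clause3a hB hG hM hKU.hall hMstar hKst hKstH
    (fun H hH hκ => s1369_second hB hG hM hKU.hall hK1 hMstar hKst hKstH hH hκ) hg1, ?_⟩
  intro N hN y z hz
  exact s1379_clause3b hB hG hM hKU.hall hK1 hN y hz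

end Cfsg.Agent.Lib.FT
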