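import Cfsg.Agent.Lib.FT.BG21h
import Cfsg.Agent.Lib.FT.BG19a

/-!
BG21i: `A₀(M) - A(M)` and the details of the structure of `K K*`.
-/

set_option autoImplicit false
set_option linter.unusedSectionVars false
set_option linter.style.haveILetI false

namespace Cfsg.Agent.Lib.FT

open Subgroup Cfsg Cfsg.Agent.Lib.OddLocal Cfsg.Agent.Lib.Basic Cfsg.Agent.Lib.Coprime

open scoped commutatorElement

variable {G : Type*} [Group G] [Finite G]

theorem commute_of_mem_zpowers {x y z : G} (hy : y ∈ zpowers x) (hz : z ∈ zpowers x) : Commute y z := by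
  obtain ⟨i, rfl⟩ := mem_zpowers_iff.mp hy
  obtain ⟨j, rfl⟩ := mem_zpowers_iff.mp hz
  exact (Commute.refl x).zpow_zpow i j

/-- The `π`-decomposition of an element. -/
theorem exists_pi_decomp (π : Set ℕ) : ∀ (n : ℕ) (x : G), orderOf x = n → ∃ a ∈ zpowers x, ∃ b ∈ zpowers x, x = a * b ∧
    (∀ r : ℕ, r.Prime → r ∣ orderOf a → r ∈ π) ∧ (∀ r : ℕ, r.Prime → r ∣ orderOf b → r ∉ π) := by
  intro n
  induction n using Nat.strong_induction_on with
  | _ n ih =>
  intro x hx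
  by_cases hx1 : x = 1
  · subst hx1
    refine ⟨1, one_mem _, 1, one_mem _, by simp, ?_, ?_⟩
    · intro r hr hd
      rw [orderOf_one] at hd
      exact absurd (Nat.dvd_one.mp hd) hr.ne_one
    · intro r hr hd
      rw [orderOf_one] at hd
      exact absurd (Nat.dvd_one.mp hd) hr.ne_one
  have hord : orderOf x ≠ 1 := fun h => hx1 (orderOf_eq_one_iff.1 h)
  obtain ⟨r, hr, hrd⟩ := Nat.exists_prime_and_dvd hord
  obtain ⟨a₀, ha₀, b₀, hb₀, e, ⟨k, hk⟩, hbc⟩ := exists_primary_decomp x hr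
  have hb₀d : orderOf b₀ ∣ orderOf x := orderOf_dvd_of_mem_zpowers hb₀
  have hlt : orderOf b₀ < n := by
    have h1 : orderOf b₀ ≤ orderOf x := Nat.le_of_dvd (orderOf_pos x) hb₀d
    have h2 : orderOf b₀ ≠ orderOf x := by
      intro h
      rw [← h] at hrd
      exact hr.one_lt.ne' (Nat.eq_one_of_dvd_coprimes hbc hrd (dvd_refl r))
    omega
  obtain ⟨c, hc, d, hd, e₂, hcπ, hdπ⟩ := ih _ hlt b₀ rfl
  have hsub : zpowers b₀ ≤ zpowers x := zpowers_le.mpr hb₀
  have hcx := hsub hc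
  have hdx := hsub hd
  have ha₀r : ∀ q : ℕ, q.Prime → q ∣ orderOf a₀ → q = r := by
    intro q hq hqd
    have h1 : q ∣ r ^ k := hqd.trans (orderOf_dvd_of_pow_eq_one hk)
    exact (Nat.prime_dvd_prime_iff_eq hq hr).mp (hq.dvd_of_dvd_pow h1)
  by_cases hrπ : r ∈ π
  · refine ⟨a₀ * c, mul_mem ha₀ hcx, d, hdx, by rw [e, e₂, mul_assoc], ?_, hdπ⟩
    intro q hq hqd
    have h1 := hqd.trans (commute_of_mem_zpowers ha₀ hcx).orderOf_mul_dvd_mul_orderOf
    rcases (Nat.Prime.dvd_mul hq).mp h1 with h | h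
    · rw [ha₀r q hq h]
      exact hrπ
    · exact hcπ q hq h
  · refine ⟨c, hcx, a₀ * d, mul_mem ha₀ hdx, ?_, hcπ, ?_⟩
    · rw [e, e₂, ← mul_assoc, ← mul_assoc, (commute_of_mem_zpowers ha₀ hcx).eq]
    · intro q hq hqd
      have h1 := hqd.trans (commute_of_mem_zpowers ha₀ hdx).orderOf_mul_dvd_mul_orderOf
      rcases (Nat.Prime.dvd_mul hq).mp h1 with h | h
      · rw [ha₀r q hq h]
        exact hrπ
      · exact hdπ q hq h

section Pair

variable {M K U Mstar : Subgroup G}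

/-- The form of an element of `Ẑ`. -/
theorem zhat_form {z : G} (hz : z ∈ Zhat M K) : ∃ k ∈ K, ∃ d ∈ Kst M K, k ≠ 1 ∧ d ≠ 1 ∧ z = k * d ∧ k * d = d * k := by
  obtain ⟨hz1, hz2⟩ := hz
  have hn : (Kst M K) ≤ normalizer (K : Set G) := inf_le_right.trans (centralizer_le_normalizer' K)
  obtain ⟨k, hk, d, hd, e⟩ := (mem_sup_iff_of_le_normalizer hn z).mp hz1
  refine ⟨k, hk, d, hd, ?_, ?_, e, mem_centralizer_iff.mp hd.2 k hk⟩
  · rintro rfl
    apply hz2
    right
    rw [e, one_mul]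
    exact hd
  · rintro rfl
    apply hz2
    left
    rw [e, mul_one]
    exact hk

theorem zhat_of_mem (hK : IsPiHallOf (kappa M) K M) {k d : G} (hk : k ∈ K) (hd : d ∈ Kst M K) (hk1 : k ≠ 1) (hd1 : d ≠ 1) : k * d ∈ Zhat M K := by
  refine ⟨mul_mem (Subgroup.mem_sup_left hk) (Subgroup.mem_sup_right hd), ?_⟩
  rintro (h | h)
  · apply hd1
    have h2 : d ∈ K := by
      have := K.mul_mem (K.inv_mem hk) h
      simpa using this
    have h3 : d ∈ K ⊓ Kst M K := Subgroup.mem_inf.mpr ⟨h2, hd⟩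
    rwa [K_inf_Kst hK, mem_bot] at h3
  · apply hk1
    have h2 : k ∈ Kst M K := by
      have := (Kst M K).mul_mem h ((Kst M K).inv_mem hd)
      simpa using this
    have h3 : k ∈ K ⊓ Kst M K := Subgroup.mem_inf.mpr ⟨hk, h2⟩
    rwa [K_inf_Kst hK, mem_bot] at h3

/-- Orders of `k`, `d` are coprime. -/
theorem order_coprime_kst (hK : IsPiHallOf (kappa M) K M) {k d : G} (hk : k ∈ K) (hd : d ∈ Kst M K) : (orderOf k).Coprime (orderOf d) :=
  Nat.coprime_of_dvd fun s hs h1 h2 => primes_kappa_not_sigma hK s hs (h1.trans (Subgroup.orderOf_dvd_natCard K hk))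
    (sigma_of_mem_sigmaCore hd.1 hs h2)

theorem mem_zpowers_zhat (hK : IsPiHallOf (kappa M) K M) {k d : G} (hk : k ∈ K) (hd : d ∈ Kst M K) (hc : k * d = d * k) :
    k ∈ zpowers (k * d) ∧ d ∈ zpowers (k * d) := by
  have hcomm : Commute k d := hc
  have hcop := order_coprime_kst hK hk hd
  refine ⟨mem_zpowers_mul_of_coprime hcomm hcop, ?_⟩
  have := mem_zpowers_mul_of_coprime hcomm.symm hcop.symm
  rwa [← hcomm.eq] at this

/-- The subgroup `U M_σ` is a Hall subgroup. -/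
theorem isPiHallOf_U_sup (hG : IsMinSimpleOddOrder G) (hM : IsCoatom M) (hKU : IsSigmaDecomposition M K U) :
    IsPiHallOf {q | q.Prime ∧ q ∉ kappa M} (U ⊔ sigmaCore M) M := by
  classical
  have huniq := huniq13 hG
  have hσM : sigmaCore M ≤ M := piCoreOf_le _ M
  have hσn : M ≤ normalizer (sigmaCore M : Set G) := le_normalizer_piCoreOf (sigma M) M
  have hU := isPiHallOf_U hG hM hKU
  have hUle : U ≤ M := hU.1
  have hprimes : ∀ t : ℕ, t.Prime → t ∣ Nat.card ↥(U ⊔ sigmaCore M) → t ∉ kappa M := by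
    intro t ht hd
    rw [sup_comm] at hd
    rcases prime_dvd_sup (hUle.trans hσn) ht hd with h | h
    · intro h2
      exact h2.2.2.1 (piCoreOf_isPi (sigma M) M t ht h)
    · exact (hU.2.1 t ht h).2.1
  refine ⟨sup_le hUle hσM, fun t ht hd => ⟨ht, hprimes t ht hd⟩, fun t ht htπ hd => ?_⟩
  apply htπ.2
  have hKn : K ≤ normalizer ((U ⊔ sigmaCore M : Subgroup G) : Set G) := hKU.hall.1.trans (sup_norm_of_decomp hKU)
  have hcard := Cfsg.Agent.Lib.OddLocal.card_sup_mul_card_inf hKn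
  have hinf : (U ⊔ sigmaCore M) ⊓ K = ⊥ := by
    refine Subgroup.inf_eq_bot_of_coprime (Nat.coprime_of_dvd fun s hs h1 h2 => hprimes s hs h1 (hKU.hall.2.1 s hs h2))
  have hsup : (U ⊔ sigmaCore M) ⊔ K = M := by
    refine le_antisymm (sup_le (sup_le hUle hσM) hKU.hall.1) ?_
    intro m hm
    obtain ⟨a, ha, b, hb, rfl⟩ := hKU.compl.2.2.2 m hm
    refine mul_mem (Subgroup.mem_sup_left (Subgroup.mem_sup_left ha)) ?_
    have h1 : K ⊔ sigmaCore M ≤ (U ⊔ sigmaCore M) ⊔ K := sup_le le_sup_right (le_sup_right.trans le_sup_left)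
    exact h1 hb
  rw [hinf, Subgroup.card_bot, mul_one, hsup] at hcard
  have h2 := Cfsg.Agent.Lib.Coprime.card_mul_relIndex (sup_le hUle hσM : U ⊔ sigmaCore M ≤ M)
  have h3 : (U ⊔ sigmaCore M).relIndex M = Nat.card K := by
    apply Nat.eq_of_mul_eq_mul_left (Nat.card_pos (α := ↥(U ⊔ sigmaCore M)))
    rw [h2, hcard]
  rw [h3] at hd
  exact hKU.hall.2.1 t ht hd

/-- `C_G(d) ≤ M` for `1 ≠ d ∈ K*`. -/
theorem cent_le_of_kst (hB : ThmB G) (hG : IsMinSimpleOddOrder G) (hM : IsCoatom M) (hK : IsPiHallOf (kappa M) K M) (hK1 : K ≠ ⊥)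
    {d : G} (hd : d ∈ Kst M K) (hd1 : d ≠ 1) : centralizer ({d} : Set G) ≤ M := by
  classical
  have hord : orderOf d ≠ 1 := fun h => hd1 (orderOf_eq_one_iff.1 h)
  obtain ⟨s, hs, hsd⟩ := Nat.exists_prime_and_dvd hord
  obtain ⟨d₁, hd₁, hd₁o⟩ := exists_mem_zpowers_orderOf hsd
  have h1 : zpowers d₁ ≤ Kst M K := zpowers_le.mpr ((zpowers_le.mpr hd) hd₁)
  obtain ⟨h2, -⟩ := kstar_prime_unique hB hG hM hK hK1 hs h1 (by rw [Nat.card_zpowers, hd₁o])
  exact (centralizer_le_normalizer_zpowers_of_mem hd₁).trans h2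

/-- **S1371 core.** -/
theorem s1371_core (hB : ThmB G) (hG : IsMinSimpleOddOrder G) (hM : IsCoatom M) (hKU : IsSigmaDecomposition M K U) (hK1 : K ≠ ⊥) :
    {a : G | ∃ m ∈ M, ∃ z ∈ Zhat M K, a = m * z * m⁻¹} = sigmaA0 M K \ sigmaA M U ∧ IsTISubset (sigmaA0 M K \ sigmaA M U) := by
  classical
  have hK := hKU.hall
  have hσM : sigmaCore M ≤ M := piCoreOf_le _ M
  have hσn : M ≤ normalizer (sigmaCore M : Set G) := le_normalizer_piCoreOf (sigma M) M
  have hF := isPiHallOf_U_sup hG hM hKU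
  have hFn := sup_norm_of_decomp hKU
  have hinf : K ⊓ (U ⊔ sigmaCore M) = ⊥ :=
    Subgroup.inf_eq_bot_of_coprime (Nat.coprime_of_dvd fun s hs h1 h2 => (hF.2.1 s hs h2).2 (hK.2.1 s hs h1))
  have hZM : K ⊔ Kst M K ≤ M := sup_le hK.1 (inf_le_left.trans hσM)
  have hh : InCluster (K ⊔ Kst M K) M := ⟨hM, K, hK, hK1, rfl⟩
  have heq : {a : G | ∃ m ∈ M, ∃ z ∈ Zhat M K, a = m * z * m⁻¹} = sigmaA0 M K \ sigmaA M U := by
    ext a
    constructor
    · rintro ⟨m, hm, z, hz, rfl⟩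
      obtain ⟨k, hk, d, hd, hk1, hd1, rfl, hc⟩ := zhat_form hz
      obtain ⟨hkz, hdz⟩ := mem_zpowers_zhat hK hk hd hc
      have hzM : k * d ∈ M := hZM hz.1
      have hHat : m * (k * d) * m⁻¹ ∈ sigmaHat M := by
        refine ⟨M.mul_mem (M.mul_mem hm hzM) (M.inv_mem hm), m * d * m⁻¹, (mem_normalizer_iff.mp (hσn hm) d).mp hd.1, ?_, ?_⟩
        · intro h
          apply hd1
          have e : d = m⁻¹ * (m * d * m⁻¹) * m := by group
          rw [e, h]
          group
        · calc m * (k * d) * m⁻¹ * (m * d * m⁻¹) = m * (k * d * d) * m⁻¹ := by group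
            _ = m * (d * k * d) * m⁻¹ := by rw [hc]
            _ = _ := by group
      refine ⟨⟨hHat, ?_⟩, ?_⟩
      · rintro ⟨k', hk', hk'1, m', hm', e⟩
        have hord : orderOf d ≠ 1 := fun h => hd1 (orderOf_eq_one_iff.1 h)
        obtain ⟨s, hs, hsd⟩ := Nat.exists_prime_and_dvd hord
        have h1 : orderOf (k * d) = orderOf k' := by
          have h2 := orderOf_conj_bg20 m (k * d)
          rw [e, orderOf_conj_bg20] at h2
          exact h2.symm
        have h3 : s ∣ orderOf (k * d) := hsd.trans (orderOf_dvd_of_mem_zpowers hdz)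
        rw [h1] at h3
        exact primes_kappa_not_sigma hK s hs (h3.trans (Subgroup.orderOf_dvd_natCard K hk')) (sigma_of_mem_sigmaCore hd.1 hs hsd)
      · rintro ⟨-, h2⟩
        have h3 : k * d ∈ U ⊔ sigmaCore M := by
          have h4 := (mem_normalizer_iff.mp (hFn (M.inv_mem hm)) _).mp h2
          have e : m⁻¹ * (m * (k * d) * m⁻¹) * m⁻¹⁻¹ = k * d := by group
          rwa [e] at h4
        have h5 : k ∈ K ⊓ (U ⊔ sigmaCore M) := Subgroup.mem_inf.mpr ⟨hk, (zpowers_le.mpr h3) hkz⟩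
        rw [hinf, mem_bot] at h5
        exact hk1 h5
    · rintro ⟨⟨hHat, hnk⟩, hnA⟩
      obtain ⟨haM, y, hy, hy1, hay⟩ := hHat
      have hnF : a ∉ U ⊔ sigmaCore M := fun h => hnA ⟨⟨haM, y, hy, hy1, hay⟩, h⟩
      obtain ⟨a₁, ha₁, a₂, ha₂, e, h1π, h2π⟩ := exists_pi_decomp (kappa M) _ a rfl
      have ha₁1 : a₁ ≠ 1 := by
        rintro rfl
        rw [one_mul] at e
        apply hnF
        refine mem_of_normal_hall hF hFn haM ?_
        intro r hr hd
        rw [e] at hd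
        exact ⟨hr, h2π r hr hd⟩
      have ha₁M : a₁ ∈ M := (zpowers_le.mpr haM) ha₁
      have ha₂M : a₂ ∈ M := (zpowers_le.mpr haM) ha₂
      obtain ⟨g, hg, hle⟩ := IsPiHallOf.exists_conj_ge (coatom_isSolvable hG hM) hK (zpowers_le.mpr ha₁M)
        (by
          intro r hr hd
          rw [Nat.card_zpowers] at hd
          exact h1π r hr hd)
      obtain ⟨k, hk, ek⟩ := hle (mem_zpowers a₁)
      have ek' : g * k * g⁻¹ = a₁ := by simpa [MulAut.conj_apply] using ek
      have hk1 : k ≠ 1 := by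
        rintro rfl
        apply ha₁1
        rw [← ek']
        group
      -- conjugating back
      set w := g⁻¹ * a₂ * g with hw
      have hwM : w ∈ M := M.mul_mem (M.mul_mem (M.inv_mem hg) ha₂M) hg
      have hcomm12 : Commute a₁ a₂ := commute_of_mem_zpowers ha₁ ha₂
      have hkw : w * k = k * w := by
        have e1 : k = g⁻¹ * a₁ * g := by rw [← ek']; group
        rw [hw, e1]
        calc g⁻¹ * a₂ * g * (g⁻¹ * a₁ * g) = g⁻¹ * (a₂ * a₁) * g := by group
          _ = g⁻¹ * (a₁ * a₂) * g := by rw [hcomm12.eq]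
          _ = _ := by group
      have hwZ : w ∈ K ⊔ Kst M K := by
        rw [← (s1354_core hB hG hM hKU.cyclic hK).2 hK1 k hk hk1]
        refine Subgroup.mem_inf.mpr ⟨hwM, ?_⟩
        rw [mem_centralizer_singleton_iff]
        exact hkw
      have hn : (Kst M K) ≤ normalizer (K : Set G) := inf_le_right.trans (centralizer_le_normalizer' K)
      obtain ⟨k₂, hk₂, d₂, hd₂, e₃⟩ := (mem_sup_iff_of_le_normalizer hn w).mp hwZ
      have hc₂ : k₂ * d₂ = d₂ * k₂ := mem_centralizer_iff.mp hd₂.2 k₂ hk₂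
      have hk₂1 : k₂ = 1 := by
        have h3 := (mem_zpowers_zhat hK hk₂ hd₂ hc₂).1
        rw [← e₃] at h3
        by_contra hne
        have hord : orderOf k₂ ≠ 1 := fun h => hne (orderOf_eq_one_iff.1 h)
        obtain ⟨s, hs, hsd⟩ := Nat.exists_prime_and_dvd hord
        have h4 : s ∣ orderOf w := hsd.trans (orderOf_dvd_of_mem_zpowers h3)
        have h5 : s ∣ orderOf a₂ := by
          rw [hw] at h4
          have e4 : orderOf (g⁻¹ * a₂ * g) = orderOf a₂ := by
            have := orderOf_conj_bg20 g⁻¹ a₂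
            simpa using this
          rwa [e4] at h4
        exact h2π s hs h5 (hK.2.1 s hs (hsd.trans (Subgroup.orderOf_dvd_natCard K hk₂)))
      rw [hk₂1, one_mul] at e₃
      have hwd : w ∈ Kst M K := e₃ ▸ hd₂
      by_cases hw1 : w = 1
      · exfalso
        apply hnk
        have ha₂1 : a₂ = 1 := by
          have e5 : a₂ = g * w * g⁻¹ := by rw [hw]; group
          rw [e5, hw1]
          group
        refine ⟨k, hk, hk1, g, hg, ?_⟩
        rw [ek', e, ha₂1, mul_one]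
      · refine ⟨g, hg, k * w, zhat_of_mem hK hk hwd hk1 hw1, ?_⟩
        have e6 : a₂ = g * w * g⁻¹ := by rw [hw]; group
        rw [e, ← ek', e6]
        group
  refine ⟨heq, ?_⟩
  rw [← heq]
  have hMN : M ≤ normalizer {a : G | ∃ m ∈ M, ∃ z ∈ Zhat M K, a = m * z * m⁻¹} := by
    intro g hg
    rw [Subgroup.mem_set_normalizer_iff]
    intro h
    constructor
    · rintro ⟨m, hm, z, hz, rfl⟩
      exact ⟨g * m, M.mul_mem hg hm, z, hz, by group⟩
    · rintro ⟨m, hm, z, hz, e⟩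
      refine ⟨g⁻¹ * m, M.mul_mem (M.inv_mem hg) hm, z, hz, ?_⟩
      have e2 : h = g⁻¹ * (g * h * g⁻¹) * g := by group
      rw [e2, e]
      group
  intro g hg x hx hgx
  exfalso
  apply hg
  apply hMN
  obtain ⟨m, hm, z, hz, rfl⟩ := hx
  obtain ⟨m', hm', z', hz', e⟩ := hgx
  have hc : (m'⁻¹ * g * m) * z * (m'⁻¹ * g * m)⁻¹ ∈ K ⊔ Kst M K := by
    have e2 : (m'⁻¹ * g * m) * z * (m'⁻¹ * g * m)⁻¹ = z' := by
      have e3 : z' = m'⁻¹ * (m' * z' * m'⁻¹) * m' := by group
      rw [e3, ← e]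
      group
    rw [e2]
    exact hz'.1
  rw [← mixed_eq_zhat hB hG hM hK hK1] at hz
  have h1 := mixed_TI hB hG hh hz hc
  have e4 : g = m' * (m'⁻¹ * g * m) * m⁻¹ := by group
  rw [e4]
  exact M.mul_mem (M.mul_mem hm' (hZM h1)) (M.inv_mem hm)

/-- **S1434 core.** -/
theorem s1434_core (hB : ThmB G) (hG : IsMinSimpleOddOrder G) (hM : IsCoatom M) (hKU : IsSigmaDecomposition M K U) (hK1 : K ≠ ⊥)
    (hMstar : IsCoatom Mstar) (hKst : K = sigmaCore Mstar ⊓ centralizer ((sigmaCore M ⊓ centralizer (K : Set G) : Subgroup G) : Set G))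
    (hKstH : IsPiHallOf (kappa Mstar) (sigmaCore M ⊓ centralizer (K : Set G)) Mstar) :
    kappa M = tau1 M ∧ IsPiHallOf (sigma M) (sigmaCore M ⊓ centralizer (K : Set G)) Mstar ∧
      (∀ x ∈ K, x ≠ 1 → ∀ y ∈ (sigmaCore M ⊓ centralizer (K : Set G)), y ≠ 1 →
        M ⊓ centralizer ({x} : Set G) = K ⊔ (sigmaCore M ⊓ centralizer (K : Set G)) ∧ Mstar ⊓ centralizer ({y} : Set G) = K ⊔ (sigmaCore M ⊓ centralizer (K : Set G)) ∧
        centralizer ({x * y} : Set G) = K ⊔ (sigmaCore M ⊓ centralizer (K : Set G))) ∧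
      (∀ g : G, g ∉ M → ∀ z ∈ Zhat M K, z ∉ M.map (MulAut.conj g).toMonoidHom) ∧
      Nat.card K * Nat.card ↥(sigmaCore M ⊓ centralizer (K : Set G)) * Set.ncard {a : G | ∃ g : G, ∃ z ∈ Zhat M K, a = g * z * g⁻¹} =
        (Nat.card K * Nat.card ↥(sigmaCore M ⊓ centralizer (K : Set G)) - Nat.card K - Nat.card ↥(sigmaCore M ⊓ centralizer (K : Set G)) + 1) * Nat.card G ∧
      Nat.card G < 2 * Set.ncard {a : G | ∃ g : G, ∃ z ∈ Zhat M K, a = g * z * g⁻¹} := by
  classical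
  have hK := hKU.hall
  have hσM : sigmaCore M ≤ M := piCoreOf_le _ M
  have hh : InCluster (K ⊔ Kst M K) M := ⟨hM, K, hK, hK1, rfl⟩
  have hU := isPiHallOf_U hG hM hKU
  have hF := isPiHallOf_U_sup hG hM hKU
  have hKs1 : Kst M K ≠ ⊥ := Kstar_ne_bot hG hB hM hK hK1
  have hcom := (s1365_core hB hG hM hKU hK1).1
  obtain ⟨p₀, hp₀, X₀, hX₀K, hX₀⟩ := exists_prime_subgroup hK1
  haveI := Fact.mk hp₀
  have P₀ := mstar_partner hB hG hM hK hK1 hMstar hKst hKstH hX₀K hX₀
  refine ⟨?_, ?_, ?_, ?_, ?_, zhat_conj_large hB hG hM hK hK1⟩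
  · -- `κ(M) = τ₁(M)`
    ext p
    constructor
    · intro hp
      have hpp : p.Prime := hp.1
      have hpd : p ∣ Nat.card K := by
        by_contra hnd
        apply hK.2.2 p hpp hp
        have h1 := Cfsg.Agent.Lib.Coprime.card_mul_relIndex hK.1
        have hpdM := hp.2.1
        rw [← h1] at hpdM
        exact ((Nat.Prime.dvd_mul hpp).mp hpdM).resolve_left hnd
      obtain ⟨X, hXK, hX⟩ := exists_prime_subgroup_of_dvd hpp hpd
      haveI := Fact.mk hpp
      have hC : Config M X p := config_of_kappa hG hM hp hX (hXK.trans hK.1)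
      refine ⟨hpp, hp.2.2.1, hp.2.1, ?_, hC.hr⟩
      rw [hcom]
      intro hd
      exact (hF.2.1 p hpp hd).2 hp
    · rintro ⟨hpp, hpσ, hpd, hpc, hr⟩
      by_contra hnκ
      apply hpc
      rw [hcom]
      have h1 : p ∣ Nat.card U := by
        by_contra hnd
        apply hU.2.2 p hpp ⟨hpp, hnκ, hpσ⟩
        have h2 := Cfsg.Agent.Lib.Coprime.card_mul_relIndex hU.1
        rw [← h2] at hpd
        exact ((Nat.Prime.dvd_mul hpp).mp hpd).resolve_left hnd
      exact h1.trans (Subgroup.card_dvd_of_le le_sup_left)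
  · -- `K*` is a Hall `σ(M)`-subgroup of `M*`
    refine ⟨hKstH.1, fun t ht hd => piCoreOf_isPi (sigma M) M t ht (hd.trans (Subgroup.card_dvd_of_le inf_le_left)), ?_⟩
    have hs := coatom_isSolvable hG hMstar
    obtain ⟨Y₀, hY₀⟩ := exists_isPiHallOf_solvable (sigma M) hs
    obtain ⟨g, hg, hle⟩ := IsPiHallOf.exists_conj_ge hs hY₀ hKstH.1
      (fun t ht hd => piCoreOf_isPi (sigma M) M t ht (hd.trans (Subgroup.card_dvd_of_le inf_le_left)))
    have hY := IsPiHallOf.conj_in hY₀ hg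
    set Y := Y₀.map (MulAut.conj g).toMonoidHom with hYdef
    have hYt : Y ≠ ⊤ := fun h => hMstar.1 (top_le_iff.1 (h ▸ hY.1))
    obtain ⟨g', hg'⟩ := sigma_subgroup_le_conj hB hG hM hY.2.1 hYt
    have hg'M : g' ∈ M := by
      by_contra hng
      have h1 := (s1431_core hB hG hM hK hK1).1 g' hng
      apply hKs1
      rw [eq_bot_iff, ← h1]
      exact le_inf le_rfl (hle.trans hg')
    rw [(conj_map_eq_iff_mem_normalizer M g').mpr (le_normalizer hg'M)] at hg'
    have hYσ : Y ≤ sigmaCore M := le_sigmaCore_of_pi hG hM hg' hY.2.1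
    have hYK : Y ≤ Kst M K := by
      have h2 : Y ≤ sigmaCore M ⊓ Mstar := le_inf hYσ hY.1
      rw [P₀.inf_eq, kappa_Kstar_eq hB hG hM hK hX₀K hX₀] at h2
      exact h2
    have hYe : Y = Kst M K := le_antisymm hYK hle
    have h3 := hY.2.2
    rw [hYe] at h3
    exact h3
  · -- the centralizers
    intro x hx hx1 y hy hy1
    have hKc := kappa_cyclic hB hG hM hK
    have hKc₂ := kappa_cyclic hB hG hMstar hKstH
    refine ⟨(s1354_core hB hG hM hKc hK).2 hK1 x hx hx1, ?_, ?_⟩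
    · rw [(s1354_core hB hG hMstar hKc₂ hKstH).2 hKs1 y hy hy1, ← hKst, sup_comm]
    · have hxy := zhat_of_mem hK hx hy hx1 hy1
      have hxym : x * y ∈ mixedSet (K ⊔ Kst M K) := by
        rw [mixed_eq_zhat hB hG hM hK hK1]
        exact hxy
      apply le_antisymm
      · intro g hg
        rw [mem_centralizer_singleton_iff] at hg
        refine mixed_TI hB hG hh hxym ?_
        rw [hg, mul_assoc, mul_inv_cancel, mul_one]
        exact hxy.1
      · have hZc := (s1368_core hB hG hM hK hK1 hMstar hKst hKstH).2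
        intro g hg
        rw [mem_centralizer_singleton_iff]
        letI := IsCyclic.commGroup (α := ↥(K ⊔ Kst M K))
        have := mul_comm (⟨g, hg⟩ : ↥(K ⊔ Kst M K)) ⟨x * y, hxy.1⟩
        exact congrArg Subtype.val this
  · -- no `g ∉ M`
    intro g hg z hz hzg
    obtain ⟨k, hk, d, hd, hk1, hd1, rfl, hc⟩ := zhat_form hz
    obtain ⟨-, hdz⟩ := mem_zpowers_zhat hK hk hd hc
    obtain ⟨m, hm, em⟩ := hzg
    have em' : g * m * g⁻¹ = k * d := by simpa [MulAut.conj_apply] using em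
    have h1 : g⁻¹ * (k * d) * g ∈ M := by
      rw [← em']
      have e : g⁻¹ * (g * m * g⁻¹) * g = m := by group
      rwa [e]
    have h2 : g⁻¹ * d * g ∈ M := by
      obtain ⟨n, hn⟩ := mem_zpowers_iff.mp hdz
      have e : g⁻¹ * (k * d) ^ n * g = (g⁻¹ * (k * d) * g) ^ n := by
        have := conj_zpow (a := g⁻¹) (b := k * d) (i := n)
        simpa using this.symm
      have h5 := M.zpow_mem h1 n
      rw [← e, hn] at h5
      exact h5
    obtain ⟨c, hc', m', hm', e⟩ := fusion_core hB hG hM hd.1 hd1 h2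
    apply hg
    rw [e]
    exact M.mul_mem (cent_le_of_kst hB hG hM hK hK1 hd hd1 hc') hm'
  · -- the count
    have h1 := zhat_conj_ncard hB hG hM hK hK1
    have h2 := zhat_ncard hG hK
    obtain ⟨h3, h4, h5⟩ := card_K_Kst_bound hG hB hM hK hK1
    have e : Set.ncard (Zhat M K) = Nat.card K * Nat.card (Kst M K) - Nat.card K - Nat.card (Kst M K) + 1 := by
      omega
    rw [mul_comm (Nat.card K * Nat.card ↥(sigmaCore M ⊓ centralizer (K : Set G))), h1, e, mul_comm]

end Pair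

end Cfsg.Agent.Lib.FT
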