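import Cfsg.Agent.Lib.FT.BG20h
import Cfsg.Agent.Lib.FT.BG21j
import Cfsg.Agent.Lib.FT.BG21i
import Cfsg.Agent.Lib.FT.BG19h

/-!
BG20i: the Type P data of a maximal subgroup with `K ≠ 1`, and Frobenius type of `M` or `M'`.
-/

set_option autoImplicit false
set_option linter.unusedSectionVars false
set_option linter.style.haveILetI false

namespace Cfsg.Agent.Lib.FT

open Subgroup Cfsg Cfsg.Agent.Lib.OddLocal Cfsg.Agent.Lib.Basic

open Cfsg.Agent.Lib.Coprime (mem_conj_map conj_mem_conj_map conj_map_conj_map conj_map_one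
  conj_map_mono conj_map_eq_iff_mem_normalizer isPGroup_conj_map)

variable {G : Type*} [Group G] [Finite G]

/-- Type P data force `K ≠ 1`. -/
theorem kappa_ne_of_typeP (hB : ThmB G) (hG : IsMinSimpleOddOrder G) {M K W₁ U' W₂ : Subgroup G} (hM : IsCoatom M)
    (hK : IsPiHallOf (kappa M) K M) (h : IsTypePWith M W₁ U' W₂) : K ≠ ⊥ := by
  classical
  have huniq := huniq13 hG
  obtain ⟨hW₁1, hW₂1, -, hcomm, -, -⟩ := h.selfNormalizing
  obtain ⟨w, hw, hw1⟩ := (Subgroup.bot_or_exists_ne_one W₂).resolve_left hW₂1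
  obtain ⟨x, hx, hx1⟩ := (Subgroup.bot_or_exists_ne_one W₁).resolve_left hW₁1
  have hwσ : w ∈ sigmaCore M := fittingHallOf_le_sigmaCore hG hM (Subgroup.mem_inf.1 (h.W₂_le hw)).1
  have hWM : W₁ ≤ M := h.W₁_compl.2.1
  have hxM : x ∈ M := hWM hx
  have he : W₁.relIndex M = Nat.card ↥⁅M, M⁆ := by
    have e1 := IsComplIn_card_eq h.W₁_compl
    have e2 : Nat.card W₁ * W₁.relIndex M = Nat.card M := card_mul_relIndex hWM
    have hpos : 0 < Nat.card W₁ := Nat.card_pos
    rw [e1, mul_comm (Nat.card ↥⁅M, M⁆)] at e2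
    exact Nat.eq_of_mul_eq_mul_left hpos e2
  have hnd : ∀ p : ℕ, p.Prime → p ∣ Nat.card W₁ → ¬ p ∣ Nat.card ↥⁅M, M⁆ := by
    intro p hp h1 h2
    rw [← he] at h2
    have := Nat.dvd_gcd h1 h2
    rw [h.W₁_hall] at this
    exact hp.one_lt.ne' (Nat.dvd_one.mp this)
  have hdM : ∀ p : ℕ, p.Prime → p ∣ Nat.card W₁ → p ∉ sigma M := by
    intro p hp h1 hσ
    have hH := isPiHallOf_inf_sigmaCore hG hM (le_refl M)
    have e : M ⊓ sigmaCore M = sigmaCore M := inf_eq_right.2 (piCoreOf_le _ M)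
    rw [e] at hH
    have h2 : p ∣ Nat.card M := h1.trans (Subgroup.card_dvd_of_le hWM)
    have e2 : Nat.card (sigmaCore M) * (sigmaCore M).relIndex M = Nat.card M := card_mul_relIndex hH.1
    rw [← e2] at h2
    have h3 := ((Nat.Prime.dvd_mul hp).1 h2).resolve_right (hH.2.2 p hp hσ)
    exact hnd p hp h1 (h3.trans (Subgroup.card_dvd_of_le (sigmaCore_le_commutator hG huniq hM)))
  have hordx : orderOf x ≠ 1 := fun h => hx1 (orderOf_eq_one_iff.1 h)
  obtain ⟨p, hp, hpd⟩ := Nat.exists_prime_and_dvd hordx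
  have hpW : p ∣ Nat.card W₁ := hpd.trans (Subgroup.orderOf_dvd_natCard W₁ hx)
  intro hKbot
  have hcm : x ∈ M ⊓ centralizer ({w} : Set G) := ⟨hxM, mem_centralizer_singleton_iff.2 (hcomm x hx w hw)⟩
  rcases s1432_core hB hG hM hwσ hw1 hcm hx1 (fun q hq hd => hdM q hq (hd.trans (Subgroup.orderOf_dvd_natCard W₁ hx))) with ⟨h1, -⟩ | ⟨h1, -⟩
  · have h2 := h1 p hp hpd
    apply hK.2.2 p hp h2
    subst hKbot
    have e : (⊥ : Subgroup G).relIndex M = Nat.card M := by
      simp [Subgroup.relIndex]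
    rw [e]
    exact h2.2.1
  · have h2 := h1 p hp hpd
    haveI := Fact.mk hp
    obtain ⟨P, hP, -⟩ := exists_isMaxP_ge (T := ⊥) (N := W₁) (p := p) bot_le IsPGroup.of_bot
    have hPM : IsMaxP p P M := by
      refine isMaxP_of_not_dvd_relIndex (hP.le.trans hWM) hP.isP ?_
      rw [← Subgroup.relIndex_mul_relIndex P W₁ M hP.le hWM, he]
      intro hd
      rcases (Nat.Prime.dvd_mul hp).1 hd with h3 | h3
      · exact not_dvd_relIndex_of_isMaxP hP le_rfl h3
      · exact hnd p hp hpW h3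
    have hcP : IsCyclic ↥P := by
      haveI := h.W₁_cyclic
      exact Subgroup.isCyclic_of_le hP.le
    exact h2.2.2.2 (hPM.prank_of (prank_one_of_cyclic hcP))

section Decomp

variable {M K U : Subgroup G}

theorem commutator_le_coatom (hG : IsMinSimpleOddOrder G) (hM : IsCoatom M) : ⁅M, M⁆ ≤ M :=
  (commutator_lt_of_coatom hG hM).le

theorem kappa_inf_commutator (hB : ThmB G) (hG : IsMinSimpleOddOrder G) (hM : IsCoatom M) (hKU : IsSigmaDecomposition M K U) (hK1 : K ≠ ⊥) :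
    ⁅M, M⁆ ⊓ K = ⊥ := by
  classical
  obtain ⟨H, hH, hKst, hKstH⟩ := exists_mstar hB hG hM hKU.hall hK1
  have e := (s1434_core hB hG hM hKU hK1 hH hKst hKstH).1
  rw [eq_bot_iff]
  intro x hx
  obtain ⟨hx1, hx2⟩ := Subgroup.mem_inf.1 hx
  by_contra hne
  have hne' : x ≠ 1 := hne
  have hord : orderOf x ≠ 1 := fun h => hne' (orderOf_eq_one_iff.1 h)
  obtain ⟨p, hp, hpd⟩ := Nat.exists_prime_and_dvd hord
  have h1 : p ∈ kappa M := hKU.hall.2.1 p hp (hpd.trans (Subgroup.orderOf_dvd_natCard K hx2))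
  rw [e] at h1
  exact h1.2.2.2.1 (hpd.trans (Subgroup.orderOf_dvd_natCard _ hx1))

/-- `W₂` is the centralizer of `k` in `M'`. -/
theorem commutator_inf_centralizer_eq (hB : ThmB G) (hG : IsMinSimpleOddOrder G) (hM : IsCoatom M) (hKU : IsSigmaDecomposition M K U) (hK1 : K ≠ ⊥)
    {x : G} (hx : x ∈ K) (hx1 : x ≠ 1) : ⁅M, M⁆ ⊓ centralizer ({x} : Set G) = sigmaCore M ⊓ centralizer (K : Set G) := by
  classical
  have huniq := huniq13 hG
  have hs := (s1354_core hB hG hM hKU.cyclic hKU.hall).2 hK1 x hx hx1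
  apply le_antisymm
  · intro y hy
    obtain ⟨hy1, hy2⟩ := Subgroup.mem_inf.1 hy
    have h1 : y ∈ M ⊓ centralizer ({x} : Set G) := Subgroup.mem_inf.2 ⟨commutator_le_coatom hG hM hy1, hy2⟩
    rw [hs, sup_comm] at h1
    have hn : sigmaCore M ⊓ centralizer (K : Set G) ≤ normalizer (K : Set G) := inf_le_right.trans (centralizer_le_normalizer' K)
    obtain ⟨a, ha, b, hb, eab⟩ := exists_mul_of_mem_sup_of_le_normalizer hn h1
    have hb1 : b = 1 := by
      have h2 : b ∈ ⁅M, M⁆ ⊓ K := by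
        refine Subgroup.mem_inf.2 ⟨?_, hb⟩
        have e : b = a⁻¹ * y := by
          rw [eab]
          group
        rw [e]
        exact mul_mem (inv_mem (sigmaCore_le_commutator hG huniq hM (Subgroup.mem_inf.1 ha).1)) hy1
      rw [kappa_inf_commutator hB hG hM hKU hK1] at h2
      exact h2
    rw [eab, hb1, mul_one]
    exact ha
  · intro y hy
    obtain ⟨hy1, hy2⟩ := Subgroup.mem_inf.1 hy
    refine Subgroup.mem_inf.2 ⟨sigmaCore_le_commutator hG huniq hM hy1, ?_⟩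
    exact mem_centralizer_singleton_iff.2 (Subgroup.mem_centralizer_iff.1 hy2 x hx).symm

/-- The cyclic self-normalizing subgroup `K K*`. -/
theorem selfNormalizing_of_decomp (hB : ThmB G) (hG : IsMinSimpleOddOrder G) (hM : IsCoatom M) (hK : IsPiHallOf (kappa M) K M) (hK1 : K ≠ ⊥) :
    IsSelfNormalizingCyclic K (sigmaCore M ⊓ centralizer (K : Set G)) := by
  classical
  obtain ⟨H, hH, hKst, hKstH⟩ := exists_mstar hB hG hM hK hK1
  have hcyc := (s1368_core hB hG hM hK hK1 hH hKst hKstH).2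
  have h₀ : InCluster (K ⊔ (sigmaCore M ⊓ centralizer (K : Set G))) M := ⟨hM, K, hK, hK1, rfl⟩
  refine ⟨hK1, Kstar_ne_bot hG hB hM hK hK1, ?_, ?_, hcyc, ?_⟩
  · rw [eq_bot_iff]
    intro x hx
    have h1 : x ∈ K ⊓ sigmaCore M := Subgroup.mem_inf.2 ⟨(Subgroup.mem_inf.1 hx).1, (Subgroup.mem_inf.1 (Subgroup.mem_inf.1 hx).2).1⟩
    rw [kappa_inf_sigmaCore hK] at h1
    exact h1
  · intro a ha b hb
    exact (Subgroup.mem_centralizer_iff.1 (Subgroup.mem_inf.1 hb).2 a ha)
  · intro X hX hXne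
    have hab : ∀ {a b : G}, a ∈ K ⊔ (sigmaCore M ⊓ centralizer (K : Set G)) → b ∈ K ⊔ (sigmaCore M ⊓ centralizer (K : Set G)) → a * b = b * a := fun ha hb =>
      comm_of_isCyclic hcyc ha hb
    apply le_antisymm
    · intro g hg
      obtain ⟨z, hz⟩ := hXne
      have h1 : g * z * g⁻¹ ∈ X := (hg z).1 hz
      exact mixed_TI hB hG h₀ (zhat_mem_mixedSet hB hG hM hK hK1 (hX hz)) (hX h1).1
    · intro g hg
      show ∀ z, z ∈ X ↔ g * z * g⁻¹ ∈ X
      intro z
      constructor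
      · intro hz
        have e : g * z * g⁻¹ = z := by
          rw [hab hg (hX hz).1]
          group
        rw [e]
        exact hz
      · intro hz
        have h1 := (hX hz).1
        have e : g⁻¹ * (g * z * g⁻¹) * g = z := by group
        have e2 : g⁻¹ * (g * z * g⁻¹) * g = g * z * g⁻¹ := by
          have h2 := hab (Subgroup.inv_mem _ hg) h1
          rw [h2]
          group
        rw [← e, e2]
        exact hz

/-- The Type P data from a factorization. -/
theorem typeP_of_decomp (hB : ThmB G) (hG : IsMinSimpleOddOrder G) (hM : IsCoatom M) (hKU : IsSigmaDecomposition M K U) (hK1 : K ≠ ⊥) {U' : Subgroup G}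
    (hU'n : Group.IsNilpotent U') (hU'N : K ≤ normalizer (U' : Set G)) (hU'c : IsComplIn (fittingHallOf M) U' ⁅M, M⁆) :
    IsTypePWith M K U' (sigmaCore M ⊓ centralizer (K : Set G)) := by
  classical
  have hs := s1356_core hB hG hM (fun _ hK => kappa_cyclic hB hG hM hK) (fun _ _ hKU hK1 hU => s1373_core hB hG hM hKU hK1 hU)
  have hKst := Kstar_le_fittingHallOf hB hG hM hKU hK1 (fun hU => s1373_core hB hG hM hKU hK1 hU)
  have hκ : (kappa M).Nonempty := by
    obtain ⟨p, hp, X, hXK, hX⟩ := exists_prime_subgroup hK1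
    have h1 : p ∣ Nat.card K := by
      rw [← hX]
      exact Subgroup.card_dvd_of_le hXK
    exact ⟨p, hKU.hall.2.1 p hp h1⟩
  have hcomm := commutator_eq_of_decomp hB hG hM hKU hK1
  refine ⟨hK1, hKU.cyclic, ?_, ⟨commutator_le_coatom hG hM, hKU.hall.1, kappa_inf_commutator hB hG hM hKU hK1, ?_⟩, hU'n, hU'N, hU'c, ?_, ?_, ?_, hs.2.2 hκ, ?_, ?_, selfNormalizing_of_decomp hB hG hM hKU.hall hK1⟩
  · exact Nat.coprime_of_dvd fun t ht h1 h2 => hKU.hall.2.2 t ht (hKU.hall.2.1 t ht h1) h2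
  · intro m hm
    obtain ⟨l, hl, k, hk, e⟩ := exists_mul_of_decomp hKU hm
    exact ⟨l, hcomm ▸ hl, k, hk, e⟩
  · exact fittingHallOf_not_cyclic hB hG hM hKU hK1 hKst
  · rw [sup_comm, ← hs.2.1]
    exact hs.1
  · rw [sup_comm]
    exact hs.2.1.symm
  · exact le_inf hKst (s1365_core hB hG hM hKU hK1).2
  · intro x hx hx1
    exact commutator_inf_centralizer_eq hB hG hM hKU hK1 hx hx1

end Decomp

section TypeF

variable {M D X E : Subgroup G}

/-- Elements of `X` in `τ₁ ∪ τ₃` are free. -/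
theorem free_of_tau13 (hB : ThmB G) (hG : IsMinSimpleOddOrder G) (hM : IsCoatom M) (hE : IsComplIn E (sigmaCore M) M) (hXE : X ≤ E)
    (hXκ : ∀ r : ℕ, r.Prime → r ∣ Nat.card X → r ∉ kappa M) :
    ∀ e ∈ X, e ≠ 1 → (∀ q : ℕ, q.Prime → q ∣ orderOf e → q ∈ tau1 M ∪ tau3 M) → sigmaCore M ⊓ centralizer ({e} : Set G) = ⊥ := by
  classical
  intro e he he1 hq
  by_contra hne
  obtain ⟨w, hw, hw1⟩ := (Subgroup.bot_or_exists_ne_one _).resolve_left hne
  obtain ⟨hwσ, hwC⟩ := Subgroup.mem_inf.1 hw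
  have hord : orderOf e ≠ 1 := fun h => he1 (orderOf_eq_one_iff.1 h)
  obtain ⟨p, hp, hpd⟩ := Nat.exists_prime_and_dvd hord
  have hdX : ∀ {t : ℕ}, t ∣ orderOf e → t ∣ Nat.card X := fun h => h.trans (Subgroup.orderOf_dvd_natCard X he)
  have hcm : e ∈ M ⊓ centralizer ({w} : Set G) :=
    Subgroup.mem_inf.2 ⟨hE.1 (hXE he), mem_centralizer_singleton_iff.2 (mem_centralizer_singleton_iff.1 hwC).symm⟩
  rcases s1432_core hB hG hM hwσ hw1 hcm he1
    (fun t ht hd => compl_prime_not_sigma hG hM hE ht ((hdX hd).trans (Subgroup.card_dvd_of_le hXE))) with ⟨h1, -⟩ | ⟨h1, -⟩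
  · exact hXκ p hp (hdX hpd) (h1 p hp hpd)
  · have h2 := h1 p hp hpd
    rcases hq p hp hpd with h3 | h3
    · exact h2.2.2.2 h3.2.2.2.2
    · exact h2.2.2.2 h3.2.2.2

theorem relIndex_eq_card_of_compl (hσD : sigmaCore M ≤ D) (hX : IsComplIn X (sigmaCore M) D) : (sigmaCore M).relIndex D = Nat.card X := by
  have e1 := IsComplIn_card_eq hX
  have e2 : Nat.card (sigmaCore M) * (sigmaCore M).relIndex D = Nat.card D := card_mul_relIndex hσD
  rw [e1, mul_comm (Nat.card X)] at e2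
  exact Nat.eq_of_mul_eq_mul_left Nat.card_pos e2

/-- `D_F = M_σ`. -/
theorem fittingHall_eq_subgroupOf (hB : ThmB G) (hG : IsMinSimpleOddOrder G) (hM : IsCoatom M) (hnil : Group.IsNilpotent (sigmaCore M))
    (hσD : sigmaCore M ≤ D) (hDM : D ≤ M) (hX : IsComplIn X (sigmaCore M) D) (hE : IsComplIn E (sigmaCore M) M) (hXE : X ≤ E)
    (hXκ : ∀ r : ℕ, r.Prime → r ∣ Nat.card X → r ∉ kappa M)
    (hXτ : ∀ r ∈ tau2 M, ∃ R : Subgroup G, IsMaxP r R M ∧ R ≤ X) :
    fittingHall ↥D = (sigmaCore M).subgroupOf D := by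
  classical
  have huniq := huniq13 hG
  have hpl : ∀ (r : ℕ) [Fact r.Prime] (H : Subgroup G), H ≠ ⊤ → PLengthLE r 1 ↥H := fun r _ K hK => hpl13 hG r K hK
  have hσM : sigmaCore M ≤ M := piCoreOf_le _ M
  have hXσ : ∀ t : ℕ, t.Prime → t ∣ Nat.card X → t ∉ sigma M := fun t ht hd =>
    compl_prime_not_sigma hG hM hE ht (hd.trans (Subgroup.card_dvd_of_le hXE))
  have hidx := relIndex_eq_card_of_compl hσD hX
  have hDN : D ≤ normalizer ((sigmaCore M : Subgroup G) : Set G) := hDM.trans (fun m hm => le_normalizer_piCoreOf (sigma M) M hm)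
  apply le_antisymm
  · refine sSup_le ?_
    rintro N ⟨hNn, hNnil, hNc⟩
    set N' := N.map D.subtype with hN'
    have hN'D : N' ≤ D := Subgroup.map_subtype_le N
    have hNe : ↥N ≃* ↥N' := Subgroup.equivMapOfInjective N D.subtype D.subtype_injective
    have hN'nil : Group.IsNilpotent ↥N' := by
      haveI := hNnil
      exact Group.nilpotent_of_mulEquiv hNe
    have hcardN : Nat.card N' = Nat.card N := Nat.card_congr hNe.symm.toEquiv
    have hrel : N'.relIndex D = N.index := by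
      have e : N'.subgroupOf D = N := Subgroup.comap_map_eq_self_of_injective D.subtype_injective _
      rw [Subgroup.relIndex, e]
    have hDN' : D ≤ normalizer ((N' : Subgroup G) : Set G) := by
      intro d hd
      apply Cfsg.Agent.Lib.Coprime.mem_normalizer_of_conj_le
      rintro _ ⟨n, hn, rfl⟩
      have h1 : (⟨d, hd⟩ : ↥D) * n * (⟨d, hd⟩ : ↥D)⁻¹ ∈ N := hNn.conj_mem n hn _
      exact Subgroup.mem_map_of_mem D.subtype h1
    have hprimes : ∀ t : ℕ, t.Prime → t ∣ Nat.card N' → t ∈ sigma M := by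
      intro t ht hd
      by_contra htσ
      haveI := Fact.mk ht
      obtain ⟨y₀, hy₀⟩ := exists_prime_orderOf_dvd_card' (G := ↥N') t hd
      set y : G := (y₀ : G) with hy
      have hyo : orderOf y = t := by rw [hy, Subgroup.orderOf_coe, hy₀]
      have hy1 : y ≠ 1 := by
        intro h
        rw [h, orderOf_one] at hyo
        exact ht.one_lt.ne hyo
      have hyN' : y ∈ N' := y₀.2
      set R := Oq t N' with hR
      have hRD : ∀ d ∈ D, d ∈ normalizer ((R : Subgroup G) : Set G) := fun d hd => mem_normalizer_Oq hN'nil (hDN' hd)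
      have hRσ : ∀ r ∈ R, r ∈ sigmaCore M → r = 1 := by
        intro r hrR hrσ
        by_contra hr1
        have hord : orderOf r ≠ 1 := fun h => hr1 (orderOf_eq_one_iff.1 h)
        obtain ⟨q, hq, hqd⟩ := Nat.exists_prime_and_dvd hord
        have hqσ := sigma_of_mem_sigmaCore hrσ hq hqd
        have h1 : q ∣ Nat.card R := hqd.trans (Subgroup.orderOf_dvd_natCard R hrR)
        obtain ⟨j, hj⟩ := IsPGroup.iff_card.1 (Oq_isPGroup t N')
        rw [hj] at h1
        have h2 := (Nat.prime_dvd_prime_iff_eq hq ht).1 (hq.dvd_of_dvd_pow h1)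
        exact htσ (h2 ▸ hqσ)
      have hRcomm : ∀ r ∈ R, ∀ s ∈ sigmaCore M, r * s = s * r := by
        intro r hrR s hs
        have hrD : r ∈ D := hN'D (Oq_le t N' hrR)
        have h1 : r * s * r⁻¹ * s⁻¹ = 1 := by
          apply hRσ
          · have e : r * s * r⁻¹ * s⁻¹ = r * (s * r⁻¹ * s⁻¹) := by group
            rw [e]
            exact R.mul_mem hrR ((Subgroup.mem_normalizer_iff.1 (hRD s (hσD hs)) r⁻¹).1 (R.inv_mem hrR))
          · exact (sigmaCore M).mul_mem ((Subgroup.mem_normalizer_iff.1 (hDN hrD) s).1 hs) ((sigmaCore M).inv_mem hs)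
        have h2 : r * s * r⁻¹ = s := mul_inv_eq_one.1 h1
        exact mul_inv_eq_iff_eq_mul.1 h2
      have hyR : y ∈ R := mem_Oq hN'nil hyN' (k := 1) (by rw [pow_one, ← hyo, pow_orderOf_eq_one])
      obtain ⟨w, hw, hw1⟩ := (Subgroup.bot_or_exists_ne_one _).resolve_left (sigmaCore_ne_bot hG huniq hM)
      have hcm : y ∈ M ⊓ centralizer ({w} : Set G) :=
        Subgroup.mem_inf.2 ⟨hDM (hN'D hyN'), mem_centralizer_singleton_iff.2 (hRcomm y hyR w hw)⟩
      have htd : t ∣ Nat.card X := by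
        have e1 := IsComplIn_card_eq hX
        have h1 : t ∣ Nat.card D := hd.trans (Subgroup.card_dvd_of_le hN'D)
        rw [e1] at h1
        rcases (Nat.Prime.dvd_mul ht).1 h1 with h2 | h2
        · exact h2
        · exact absurd (piCoreOf_isPi (sigma M) M t ht h2) htσ
      have hyprime : ∀ q : ℕ, q.Prime → q ∣ orderOf y → q = t := by
        intro q hq hqd
        rw [hyo] at hqd
        exact (Nat.prime_dvd_prime_iff_eq hq ht).1 hqd
      rcases s1432_core hB hG hM hw hw1 hcm hy1 (fun q hq hqd => by rw [hyprime q hq hqd]; exact htσ) with ⟨h1, -⟩ | ⟨h1, -⟩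
      · exact hXκ t ht htd (h1 t ht (by rw [hyo]))
      · have htτ := h1 t ht (by rw [hyo])
        obtain ⟨R₀, hR₀, hR₀X⟩ := hXτ t htτ
        have hnc : ¬ IsCyclic ↥R₀ := fun hc => htτ.2.2.2 (hR₀.prank_of (prank_one_of_cyclic hc))
        obtain ⟨A, hAR₀, hAe, hAc⟩ := exists_e2_of_not_cyclic hG hR₀.isP hnc
        have T : Tau2Setup t A M := Tau2Setup.mk' hG huniq hpl hM (hAR₀.trans hR₀.le) hAe hAc htσ
        have hR₀R : R₀ ≤ R := by
          intro r hr
          have hrD : r ∈ D := hX.1 (hR₀X hr)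
          obtain ⟨k, hk⟩ := hR₀.isP ⟨r, hr⟩
          have hk' : r ^ t ^ k = 1 := congrArg Subtype.val hk
          refine mem_Oq hN'nil ?_ hk'
          refine mem_of_coprime_relIndex hDN' hrD ?_
          rw [hrel]
          have hto : orderOf r ∣ t ^ k := orderOf_dvd_of_pow_eq_one hk'
          refine Nat.Coprime.coprime_dvd_right hto (Nat.Coprime.pow_right k ?_)
          rw [Nat.coprime_comm, Nat.Prime.coprime_iff_not_dvd ht]
          intro h2
          have h3 : t ∣ Nat.card N := by rw [← hcardN]; exact hd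
          have := Nat.dvd_gcd h3 h2
          rw [hNc] at this
          exact ht.one_lt.ne' (Nat.dvd_one.mp this)
        apply hw1
        have h2 : w ∈ sigmaCore M ⊓ centralizer (A : Set G) := by
          refine Subgroup.mem_inf.2 ⟨hw, Subgroup.mem_centralizer_iff.2 fun a ha => ?_⟩
          exact hRcomm a (hR₀R (hAR₀ ha)) w hw
        rw [T.d] at h2
        exact h2
    have h := le_sigmaCore_of_pi hG hM (hN'D.trans hDM) hprimes
    intro n hn
    exact Subgroup.mem_subgroupOf.2 (h (Subgroup.mem_map_of_mem _ hn))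
  · refine le_sSup ⟨Subgroup.normal_subgroupOf_of_le_normalizer hDN, ?_, ?_⟩
    · haveI := hnil
      exact Group.nilpotent_of_mulEquiv (Subgroup.subgroupOfEquivOfLe hσD).symm
    · have e1 : Nat.card ↥((sigmaCore M).subgroupOf D) = Nat.card (sigmaCore M) := Nat.card_congr (Subgroup.subgroupOfEquivOfLe hσD).toEquiv
      have e2 : ((sigmaCore M).subgroupOf D).index = Nat.card X := hidx
      rw [e1, e2]
      exact Nat.coprime_of_dvd fun t ht h1 h2 => hXσ t ht h2 (piCoreOf_isPi (sigma M) M t ht h1)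

theorem fittingHallOf_eq_of_compl (hB : ThmB G) (hG : IsMinSimpleOddOrder G) (hM : IsCoatom M) (hnil : Group.IsNilpotent (sigmaCore M))
    (hσD : sigmaCore M ≤ D) (hDM : D ≤ M) (hX : IsComplIn X (sigmaCore M) D) (hE : IsComplIn E (sigmaCore M) M) (hXE : X ≤ E)
    (hXκ : ∀ r : ℕ, r.Prime → r ∣ Nat.card X → r ∉ kappa M)
    (hXτ : ∀ r ∈ tau2 M, ∃ R : Subgroup G, IsMaxP r R M ∧ R ≤ X) : fittingHallOf D = sigmaCore M := by
  rw [fittingHallOf, fittingHall_eq_subgroupOf hB hG hM hnil hσD hDM hX hE hXE hXκ hXτ]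
  exact Subgroup.map_subgroupOf_eq_of_le hσD

/-- Frobenius type of `D`. -/
theorem isOfTypeF_of_compl (hB : ThmB G) (hG : IsMinSimpleOddOrder G) (hM : IsCoatom M) (hnil : Group.IsNilpotent (sigmaCore M))
    (hσD : sigmaCore M ≤ D) (hDM : D ≤ M) (hX : IsComplIn X (sigmaCore M) D) (hX1 : X ≠ ⊥) (hE : IsComplIn E (sigmaCore M) M) (hXE : X ≤ E)
    (hXκ : ∀ r : ℕ, r.Prime → r ∣ Nat.card X → r ∉ kappa M)
    (hXτ : ∀ r ∈ tau2 M, ∃ R : Subgroup G, IsMaxP r R M ∧ R ≤ X) : IsOfTypeF ↥D := by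
  classical
  have huniq := huniq13 hG
  have hpl : ∀ (r : ℕ) [Fact r.Prime] (H : Subgroup G), H ≠ ⊤ → PLengthLE r 1 ↥H := fun r _ K hK => hpl13 hG r K hK
  have h1412 := h1412_of hG
  have hσM : sigmaCore M ≤ M := piCoreOf_le _ M
  have heq := fittingHall_eq_subgroupOf hB hG hM hnil hσD hDM hX hE hXE hXκ hXτ
  have hXD : X ≤ D := hX.1
  have hXσ : ∀ t : ℕ, t.Prime → t ∣ Nat.card X → t ∉ sigma M := fun t ht hd =>
    compl_prime_not_sigma hG hM hE ht (hd.trans (Subgroup.card_dvd_of_le hXE))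
  have hh := free_of_tau13 hB hG hM hE hXE hXκ
  have hsol : Group.IsSolvable ↥D := by
    have := coatom_isSolvable hG hM
    exact solvable_of_solvable_injective (Subgroup.inclusion_injective hDM)
  obtain ⟨x₀, hx₀, hx₀1⟩ := (Subgroup.bot_or_exists_ne_one X).resolve_left hX1
  refine ⟨hsol, subgroup_odd hG D, ?_, ?_, X.subgroupOf D, ?_, ?_, ?_, ?_⟩
  · rw [heq]
    intro h
    obtain ⟨w, hw, hw1⟩ := (Subgroup.bot_or_exists_ne_one _).resolve_left (sigmaCore_ne_bot hG huniq hM)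
    have h2 : (⟨w, hσD hw⟩ : ↥D) ∈ (sigmaCore M).subgroupOf D := Subgroup.mem_subgroupOf.2 hw
    rw [h] at h2
    exact hw1 (congrArg Subtype.val ((Subgroup.mem_bot).1 h2))
  · rw [heq]
    intro h
    have h2 : (⟨x₀, hXD hx₀⟩ : ↥D) ∈ (sigmaCore M).subgroupOf D := by
      rw [h]
      trivial
    have h3 : x₀ ∈ sigmaCore M := Subgroup.mem_subgroupOf.1 h2
    have h4 : x₀ ∈ X ⊓ sigmaCore M := Subgroup.mem_inf.2 ⟨hx₀, h3⟩
    rw [hX.2.2.1] at h4
    exact hx₀1 h4
  · intro h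
    have h2 : (⟨x₀, hXD hx₀⟩ : ↥D) ∈ X.subgroupOf D := Subgroup.mem_subgroupOf.2 hx₀
    rw [h] at h2
    exact hx₀1 (congrArg Subtype.val ((Subgroup.mem_bot).1 h2))
  · rw [heq]
    have e1 : Nat.card ↥((sigmaCore M).subgroupOf D) = Nat.card (sigmaCore M) := Nat.card_congr (Subgroup.subgroupOfEquivOfLe hσD).toEquiv
    have e2 : Nat.card ↥(X.subgroupOf D) = Nat.card X := Nat.card_congr (Subgroup.subgroupOfEquivOfLe hXD).toEquiv
    apply Subgroup.isComplement'_of_coprime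
    · rw [e1, e2, mul_comm, ← IsComplIn_card_eq hX]
    · rw [e1, e2]
      exact Nat.coprime_of_dvd fun t ht h1 h2 => hXσ t ht h2 (piCoreOf_isPi (sigma M) M t ht h1)
  · set Cl := closure {e : G | e ∈ X ∧ sigmaCore M ⊓ centralizer ({e} : Set G) ≠ ⊥} with hCl
    have hClX : Cl ≤ X := (closure_le _).2 fun e he => he.1
    have hClc := closure_good_comm hG huniq hpl h1412 hM hE hXE hh
    refine ⟨Cl.subgroupOf D, ?_, ?_, ?_, ?_⟩
    · intro a ha
      exact Subgroup.mem_subgroupOf.2 (hClX (Subgroup.mem_subgroupOf.1 ha))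
    · intro g hg
      have hg' : (g : G) ∈ X := Subgroup.mem_subgroupOf.1 hg
      apply Cfsg.Agent.Lib.Coprime.mem_normalizer_of_conj_le
      intro a ha
      have ha' : (a : G) ∈ Cl := Subgroup.mem_subgroupOf.1 ha
      refine Subgroup.mem_subgroupOf.2 ?_
      have hle : Cl ≤ Cl.comap (MulAut.conj (g : G)).toMonoidHom := by
        refine (closure_le _).2 fun e he => subset_closure ⟨?_, fun hb => he.2 (bad_of_conj (hE.1 (hXE hg')) hb)⟩
        exact X.mul_mem (X.mul_mem hg' he.1) (X.inv_mem hg')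
      have h2 := hle ha'
      simpa [MulAut.conj_apply] using h2
    · refine ⟨⟨fun a b => ?_⟩⟩
      have ha : ((a : ↥D) : G) ∈ Cl := Subgroup.mem_subgroupOf.1 a.2
      have hb : ((b : ↥D) : G) ∈ Cl := Subgroup.mem_subgroupOf.1 b.2
      have h3 := hClc.is_comm.comm ⟨_, ha⟩ ⟨_, hb⟩
      have h4 : ((a : ↥D) : G) * ((b : ↥D) : G) = ((b : ↥D) : G) * ((a : ↥D) : G) := congrArg Subtype.val h3
      exact Subtype.ext (Subtype.ext h4)
    · intro x hx hx1 e he
      rw [heq] at hx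
      obtain ⟨he1, he2⟩ := Subgroup.mem_inf.1 he
      have he1' : ((e : ↥D) : G) ∈ X := Subgroup.mem_subgroupOf.1 he1
      have hxσ : ((x : ↥D) : G) ∈ sigmaCore M := Subgroup.mem_subgroupOf.1 hx
      have he2' : (e : ↥D) * x = x * e := mem_centralizer_singleton_iff.1 he2
      have he3 : ((e : ↥D) : G) * (x : ↥D) = (x : ↥D) * (e : ↥D) := congrArg Subtype.val he2'
      refine Subgroup.mem_subgroupOf.2 (subset_closure ⟨he1', fun hb => hx1 (Subtype.ext ?_)⟩)
      have h1 : ((x : ↥D) : G) ∈ sigmaCore M ⊓ centralizer ({((e : ↥D) : G)} : Set G) :=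
        Subgroup.mem_inf.2 ⟨hxσ, mem_centralizer_singleton_iff.2 he3.symm⟩
      rw [hb] at h1
      exact h1
  · obtain ⟨E₀, hE₀X, hexp, hfree⟩ := exists_free_subgroup hG huniq hpl h1412 hM hE hXE hXτ hh
    refine ⟨E₀.subgroupOf D, ?_, ?_, ?_⟩
    · intro a ha
      exact Subgroup.mem_subgroupOf.2 (hE₀X (Subgroup.mem_subgroupOf.1 ha))
    · rw [Monoid.exponent_eq_of_mulEquiv (Subgroup.subgroupOfEquivOfLe (hE₀X.trans hXD)),
        Monoid.exponent_eq_of_mulEquiv (Subgroup.subgroupOfEquivOfLe hXD)]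
      exact hexp
    · intro u hu hu1 x hx hux
      rw [heq] at hx
      have hu' : ((u : ↥D) : G) ∈ E₀ := Subgroup.mem_subgroupOf.1 hu
      have hxσ : ((x : ↥D) : G) ∈ sigmaCore M := Subgroup.mem_subgroupOf.1 hx
      have hu2 : ((u : ↥D) : G) ≠ 1 := fun h => hu1 (Subtype.ext h)
      have h1 := hfree _ hu' hu2
      have he3 : ((u : ↥D) : G) * (x : ↥D) = (x : ↥D) * (u : ↥D) := congrArg Subtype.val hux
      have h2 : ((x : ↥D) : G) ∈ sigmaCore M ⊓ centralizer ({((u : ↥D) : G)} : Set G) :=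
        Subgroup.mem_inf.2 ⟨hxσ, mem_centralizer_singleton_iff.2 he3.symm⟩
      rw [h1] at h2
      exact Subtype.ext h2

end TypeF

end Cfsg.Agent.Lib.FT
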