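import Cfsg.Agent.Lib.FT.BG20i
import Cfsg.Agent.Lib.Coprime.Soft

/-!
# The unique maximal subgroup over `C(X)` for `X ≤ K*` of prime order (S1367)
-/

namespace Cfsg.Agent.Lib.FT

open Subgroup Cfsg Cfsg.Agent.Lib.OddLocal Cfsg.Agent.Lib.Basic

open Cfsg.Agent.Lib.Coprime (mem_conj_map conj_mem_conj_map conj_map_conj_map conj_map_one
  conj_map_mono conj_map_eq_iff_mem_normalizer isPGroup_conj_map mem_normalizer_of_conj_le)

variable {G : Type*} [Group G] [Finite G]

/-- A `p`-element normalizing a subgroup of order `p` centralizes it. -/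
theorem mem_centralizer_of_pgroup_of_card {p : ℕ} [Fact p.Prime] {X W : Subgroup G} (hX : Nat.card X = p)
    (hW : IsPGroup p W) (hWX : W ≤ normalizer (X : Set G)) : W ≤ centralizer (X : Set G) := by
  classical
  have hXp : IsPGroup p X := IsPGroup.of_card (n := 1) (by simpa using hX)
  have hX1 : X ≠ ⊥ := ne_bot_of_card_prime (Fact.out) hX
  have hsup : IsPGroup p ↥(W ⊔ X) := hW.to_sup_of_normal_right' hXp hWX
  have hnil : Group.IsNilpotent ↥(W ⊔ X) := hsup.isNilpotent
  obtain ⟨u, hu, hu1, huc⟩ := exists_central_of_normal (le_sup_right : X ≤ W ⊔ X) hX1 hnil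
    (sup_le hWX Subgroup.le_normalizer)
  have hgen : zpowers u = X := by
    refine Subgroup.eq_of_le_of_card_ge (zpowers_le.2 hu) ?_
    rw [hX, Nat.card_zpowers]
    have h1 : orderOf u ∣ p := by
      have := Subgroup.orderOf_dvd_natCard X hu
      rwa [hX] at this
    rcases (Nat.dvd_prime (Fact.out)).1 h1 with h | h
    · exact absurd (orderOf_eq_one_iff.1 h) hu1
    · exact h.ge
  intro w hw
  rw [Subgroup.mem_centralizer_iff]
  intro h hh
  rw [← hgen] at hh
  obtain ⟨k, rfl⟩ := Subgroup.mem_zpowers_iff.1 hh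
  have hc : Commute u w := (huc w ((le_sup_left : W ≤ W ⊔ X) hw))
  exact (hc.zpow_left k)

/-- Two independent commuting elements of order `p` generate an `E_{p²}`. -/
theorem ea_sup_of_commute {p : ℕ} [Fact p.Prime] {x y : G} (hxo : orderOf x = p) (hyo : orderOf y = p) (hc : Commute x y)
    (hyx : y ∉ zpowers x) :
    IsElementaryAbelian p (zpowers x ⊔ zpowers y) ∧ Nat.card ↥(zpowers x ⊔ zpowers y) = p ^ 2 := by
  classical
  have hp : p.Prime := Fact.out
  have hyCx : y ∈ centralizer ((zpowers x : Subgroup G) : Set G) := by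
    rw [centralizer_zpowers_eq, mem_centralizer_singleton_iff]
    exact hc.symm
  have hxCy : x ∈ centralizer ((zpowers y : Subgroup G) : Set G) := by
    rw [centralizer_zpowers_eq, mem_centralizer_singleton_iff]
    exact hc
  have hn : zpowers y ≤ normalizer ((zpowers x : Subgroup G) : Set G) :=
    zpowers_le.2 (Subgroup.centralizer_le_normalizer _ hyCx)
  have hinf : zpowers x ⊓ zpowers y = ⊥ := by
    have hd : Nat.card ↥(zpowers x ⊓ zpowers y) ∣ p := by
      have := Subgroup.card_dvd_of_le (inf_le_right : zpowers x ⊓ zpowers y ≤ zpowers y)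
      rwa [Nat.card_zpowers, hyo] at this
    rcases (Nat.dvd_prime hp).1 hd with h | h
    · exact Subgroup.eq_bot_of_card_eq _ h
    · exfalso
      have h1 : zpowers x ⊓ zpowers y = zpowers y := by
        refine Subgroup.eq_of_le_of_card_ge inf_le_right ?_
        rw [h, Nat.card_zpowers, hyo]
      apply hyx
      have h2 : y ∈ zpowers x ⊓ zpowers y := by
        rw [h1]
        exact mem_zpowers y
      exact h2.1
  have hcard := card_sup_mul_card_inf hn
  rw [hinf, Nat.card_zpowers, Nat.card_zpowers, hxo, hyo] at hcard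
  have h1 : Nat.card ↥(⊥ : Subgroup G) = 1 := by simp
  rw [h1, mul_one] at hcard
  refine ⟨⟨?_, ?_⟩, by rw [hcard, sq]⟩
  · refine le_centralizer_iff_isMulCommutative.1 (sup_le (zpowers_le.2 ?_) (zpowers_le.2 ?_))
    · apply mem_centralizer_sup
      · rw [centralizer_zpowers_eq, mem_centralizer_singleton_iff]
      · exact hxCy
    · apply mem_centralizer_sup
      · exact hyCx
      · rw [centralizer_zpowers_eq, mem_centralizer_singleton_iff]
  · intro a ha
    obtain ⟨u, hu, v, hv, rfl⟩ := exists_mul_of_mem_sup_of_le_normalizer hn (by rwa [sup_comm] at ha) 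
    obtain ⟨i, rfl⟩ := Subgroup.mem_zpowers_iff.1 hu
    obtain ⟨j, rfl⟩ := Subgroup.mem_zpowers_iff.1 hv
    have hcc : Commute (y ^ i) (x ^ j) := (hc.symm.zpow_zpow i j)
    rw [hcc.mul_pow]
    have e1 : (y ^ i) ^ p = 1 := by
      rw [← zpow_natCast, ← zpow_mul, mul_comm, zpow_mul, zpow_natCast, ← hyo, pow_orderOf_eq_one, one_zpow]
    have e2 : (x ^ j) ^ p = 1 := by
      rw [← zpow_natCast, ← zpow_mul, mul_comm, zpow_mul, zpow_natCast, ← hxo, pow_orderOf_eq_one, one_zpow]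
    rw [e1, e2, one_mul]

/-- **S1367 core.** -/
theorem s1367_core (hB : ThmB G) (hG : IsMinSimpleOddOrder G) {M K X : Subgroup G} {p : ℕ} [Fact p.Prime] (hM : IsCoatom M)
    (hK : IsPiHallOf (kappa M) K M) (hK1 : K ≠ ⊥) (hXD : X ≤ sigmaCore M ⊓ centralizer (K : Set G)) (hX : Nat.card X = p) :
    centralizer (X : Set G) ≤ M ∧ ∀ L : Subgroup G, IsCoatom L → centralizer (X : Set G) ≤ L → L = M := by
  classical
  have hp : p.Prime := Fact.out
  have huniq := huniq13 hG
  have hpl := hpl13 hG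
  obtain ⟨hNM, -⟩ := kstar_prime_unique hB hG hM hK hK1 hp hXD hX
  have hCM : centralizer (X : Set G) ≤ M := (Subgroup.centralizer_le_normalizer _).trans hNM
  refine ⟨hCM, fun L hL hCL => ?_⟩
  by_contra hLM
  have hXp : IsPGroup p X := IsPGroup.of_card (n := 1) (by simpa using hX)
  have hσM : sigmaCore M ≤ M := piCoreOf_le _ M
  have hXσ : X ≤ sigmaCore M := hXD.trans inf_le_left
  have hpd : p ∣ Nat.card ↥(sigmaCore M) := by
    rw [← hX]
    exact Subgroup.card_dvd_of_le hXσ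
  have hpσ : p ∈ sigma M := piCoreOf_isPi (sigma M) M p hp hpd
  obtain ⟨x, hxgen⟩ : ∃ x, X = zpowers x := by
    haveI : IsCyclic X := isCyclic_of_prime_card hX
    obtain ⟨x, hx⟩ := IsCyclic.exists_generator (α := X)
    refine ⟨x, le_antisymm ?_ (zpowers_le.2 x.2)⟩
    intro w hw
    obtain ⟨k, hk⟩ := Subgroup.mem_zpowers_iff.1 (hx ⟨w, hw⟩)
    exact Subgroup.mem_zpowers_iff.2 ⟨k, by simpa using congrArg Subtype.val hk⟩
  have hxX : x ∈ X := hxgen ▸ mem_zpowers x
  have hxo : orderOf x = p := by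
    rw [← Nat.card_zpowers, ← hxgen, hX]
  have hx1 : x ≠ 1 := fun h => hp.one_lt.ne (by rw [← hxo, h, orderOf_one])
  have hcx : centralizer ({x} : Set G) = centralizer (X : Set G) := by
    rw [hxgen, centralizer_zpowers_eq]
  have hXC : X ≤ centralizer (X : Set G) := by
    rw [hxgen]
    exact le_centralizer_iff_isMulCommutative.2 inferInstance
  have hXL : X ≤ L := hXC.trans hCL
  -- `p ∉ σ(L)`
  have hpL : p ∉ sigma L := by
    intro hpL
    obtain ⟨c, hc⟩ := conj_of_sigma_sigma hB hM hL hpσ hpL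
    have hcx' : c * x * c⁻¹ ∈ M := by
      rw [← hc]
      exact ⟨x, hXL hxX, rfl⟩
    obtain ⟨d, hd, m, hm, hcdm⟩ := fusion_core hB hG hM (hXσ hxX) hx1 (g := c⁻¹) (by simpa using hcx')
    have hdL : d ∈ L := hCL (hcx ▸ hd)
    have hLle : L ≤ M := by
      intro w hw
      have h2 : c * (d * w * d⁻¹) * c⁻¹ ∈ M := by
        rw [← hc]
        exact ⟨_, L.mul_mem (L.mul_mem hdL hw) (L.inv_mem hdL), rfl⟩
      have hc' : c = m⁻¹ * d⁻¹ := by
        rw [← inv_inv c, hcdm]
        group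
      rw [hc'] at h2
      have h3 : w = m * (m⁻¹ * d⁻¹ * (d * w * d⁻¹) * (m⁻¹ * d⁻¹)⁻¹) * m⁻¹ := by group
      rw [h3]
      exact M.mul_mem (M.mul_mem hm h2) (M.inv_mem hm)
    exact hLM ((hL.le_iff_eq hM.1).1 hLle).symm
  -- the Sylow subgroup of `M`
  obtain ⟨P, hP, hXP⟩ := exists_isMaxP_ge (hXσ.trans hσM) hXp
  have hPσ : P ≤ sigmaCore M := le_sigmaCore_of_isPGroup hG huniq hM hpσ hP.isP hP.le
  have hPm : IsMaxP p P (sigmaCore M) := ⟨hPσ, hP.isP, fun D' hD' hDp hPD' => hP.max D' (hD'.trans hσM) hDp hPD'⟩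
  have hPU : InUniqueMaximal P := by
    have hd : p ∣ Nat.card ↥(sigmaCore M ⊓ centralizer (K : Set G)) := by
      rw [← hX]
      exact Subgroup.card_dvd_of_le hXD
    have h1 := ((s1431_core hB hG hM hK hK1).2.2.1 p hp hd hPm.toSylow).1
    have h2 : ((hPm.toSylow : Sylow p ↥(sigmaCore M)) : Subgroup ↥(sigmaCore M)).map (sigmaCore M).subtype = P := by
      change (P.subgroupOf (sigmaCore M)).map (sigmaCore M).subtype = P
      rw [Subgroup.subgroupOf_map_subtype]
      exact inf_eq_left.2 hPσ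
    rwa [h2] at h1
  have hPuq : ∀ N : Subgroup G, IsCoatom N → P ≤ N → N = M := by
    obtain ⟨N₀, -, hN₀⟩ := hPU
    intro N hN hPN
    rw [hN₀ N ⟨hN, hPN⟩, hN₀ M ⟨hM, hP.le⟩]
  set Q := P ⊓ centralizer (X : Set G) with hQdef
  have hQP : Q ≤ P := inf_le_left
  have hQC : Q ≤ centralizer (X : Set G) := inf_le_right
  haveI hPnil : Group.IsNilpotent ↥P := hP.isP.isNilpotent
  have hlt : Q.subgroupOf P < ⊤ := by
    rw [lt_top_iff_ne_top]
    intro h
    apply hLM
    refine hPuq L hL (le_trans ?_ hCL)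
    intro w hw
    have h1 : (⟨w, hw⟩ : ↥P) ∈ Q.subgroupOf P := by
      rw [h]
      exact Subgroup.mem_top _
    exact (Subgroup.mem_inf.1 (Subgroup.mem_subgroupOf.1 h1)).2
  obtain ⟨g', hg'N, hg'Q⟩ := SetLike.exists_of_lt (Group.normalizerCondition_of_isNilpotent _ hlt)
  set g : G := (g' : G) with hgdef
  have hgP : g ∈ P := g'.2
  have hgC : g ∉ centralizer (X : Set G) := fun h => hg'Q (Subgroup.mem_subgroupOf.2 (Subgroup.mem_inf.2 ⟨hgP, h⟩))
  have hgNQ : ∀ w ∈ Q, g * w * g⁻¹ ∈ Q ∧ g⁻¹ * w * g ∈ Q := by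
    intro w hw
    have h0 : (⟨w, hQP hw⟩ : ↥P) ∈ Q.subgroupOf P := Subgroup.mem_subgroupOf.2 hw
    constructor
    · have h1 := (Subgroup.mem_normalizer_iff.1 hg'N _).1 h0
      exact Subgroup.mem_subgroupOf.1 h1
    · have h1 := (Subgroup.mem_normalizer_iff.1 (Subgroup.inv_mem _ hg'N) _).1 h0
      have h2 := Subgroup.mem_subgroupOf.1 h1
      simpa using h2
  have hgp : IsPGroup p (zpowers g) := hP.isP.to_le (zpowers_le.2 hgP)
  have hxQ : x ∈ Q := Subgroup.mem_inf.2 ⟨hXP hxX, hXC hxX⟩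
  set y := g * x * g⁻¹ with hy
  have hyQ : y ∈ Q := (hgNQ x hxQ).1
  have hyo : orderOf y = p := by
    rw [← hxo]
    exact orderOf_conj_bg20 g x
  have hxCQ : ∀ w ∈ Q, Commute x w := by
    intro w hw
    have h1 := hcx ▸ hQC hw
    exact (mem_centralizer_singleton_iff.1 h1).symm
  have hyCQ : ∀ w ∈ Q, Commute y w := by
    intro w hw
    have h1 := hxCQ _ (hgNQ w hw).2
    have h2 : x * (g⁻¹ * w * g) = (g⁻¹ * w * g) * x := h1
    change g * x * g⁻¹ * w = w * (g * x * g⁻¹)
    have h3 : g * (x * (g⁻¹ * w * g)) * g⁻¹ = g * ((g⁻¹ * w * g) * x) * g⁻¹ := by rw [h2]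
    simpa [mul_assoc] using h3
  have hXeq : (zpowers x : Subgroup G) = X := hxgen.symm
  have hyx : y ∉ zpowers x := by
    intro hmem
    apply hgC
    have hn : g ∈ normalizer (X : Set G) := by
      apply mem_normalizer_of_conj_le
      intro w hw
      rw [hxgen] at hw ⊢
      obtain ⟨k, rfl⟩ := Subgroup.mem_zpowers_iff.1 hw
      have e : g * x ^ k * g⁻¹ = (g * x * g⁻¹) ^ k := by
        simp [conj_zpow]
      rw [e]
      exact Subgroup.zpow_mem _ hmem k
    exact mem_centralizer_of_pgroup_of_card hX hgp (zpowers_le.2 hn) (mem_zpowers g)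
  obtain ⟨hAe, hAc⟩ := ea_sup_of_commute hxo hyo (hxCQ y hyQ) hyx
  set A := zpowers x ⊔ zpowers y with hA
  have hAQ : A ≤ Q := sup_le (zpowers_le.2 hxQ) (zpowers_le.2 hyQ)
  have hAL : A ≤ L := hAQ.trans (hQC.trans hCL)
  have T : Tau2Setup p A L := Tau2Setup.mk' hG huniq hpl hL hAL hAe hAc hpL
  have hQCA : Q ≤ centralizer (A : Set G) := by
    intro w hw
    apply mem_centralizer_sup
    · rw [centralizer_zpowers_eq, mem_centralizer_singleton_iff]
      exact (hxCQ w hw).symm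
    · rw [centralizer_zpowers_eq, mem_centralizer_singleton_iff]
      exact (hyCQ w hw).symm
  have hgA : g ∈ normalizer (A : Set G) := by
    apply mem_normalizer_of_conj_le
    intro b hb
    have h1 : g * b * g⁻¹ ∈ Q := (hgNQ b (hAQ hb)).1
    refine (T.hC2 _ (hQCA h1)).1 ?_
    have h2 : b ^ p = 1 := hAe.2 b hb
    simp [conj_pow, h2]
  have hAP : A ≤ P := hAQ.trans hQP
  set R := zpowers g ⊔ A with hR
  have hRP : R ≤ P := sup_le (zpowers_le.2 hgP) hAP
  have hRp : IsPGroup p R := hP.isP.to_le hRP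
  have hAR : A ≤ R := le_sup_right
  have hgR : g ∈ R := (le_sup_left : zpowers g ≤ zpowers g ⊔ A) (mem_zpowers g)
  have hRA : R ≤ normalizer (A : Set G) := sup_le (zpowers_le.2 hgA) Subgroup.le_normalizer
  have hRnil : Group.IsNilpotent ↥R := hRp.isNilpotent
  obtain ⟨z₀, hz₀, hz₀1, hz₀c⟩ := exists_central_of_normal hAR T.S.hA1 hRnil hRA
  have hzC : z₀ ∈ centralizer ((R : Subgroup G) : Set G) := by
    rw [Subgroup.mem_centralizer_iff]
    exact fun w hw => (hz₀c w hw).symm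
  have hgCA : g ∉ centralizer (A : Set G) := by
    intro h
    apply hgC
    rw [← hcx, mem_centralizer_singleton_iff]
    have hxA : x ∈ A := (le_sup_left : zpowers x ≤ zpowers x ⊔ zpowers y) (mem_zpowers x)
    exact (Subgroup.mem_centralizer_iff.1 h x hxA).symm
  have hZ : ∀ u ∈ A, u ∈ centralizer ((R : Subgroup G) : Set G) → u ∈ zpowers z₀ := by
    intro u hu huC
    have hz₀' : z₀ ∈ A ⊓ centralizer ((R : Subgroup G) : Set G) := ⟨hz₀, hzC⟩
    rcases T.S.cases_of_le inf_le_left hz₀' hz₀1 with e | e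
    · exfalso
      apply hgCA
      rw [Subgroup.mem_centralizer_iff]
      intro a ha
      have h1 : a ∈ A ⊓ centralizer ((R : Subgroup G) : Set G) := by
        rw [e]
        exact ha
      exact (Subgroup.mem_centralizer_iff.1 h1.2 g hgR).symm
    · rw [← e]
      exact ⟨hu, huC⟩
  have huL : ∀ u ∈ R, u ∈ L → u ∈ centralizer (A : Set G) := by
    intro u hu huL
    have hle : zpowers u ⊔ A ≤ L := sup_le (zpowers_le.2 huL) hAL
    have hp' : IsPGroup p ↥(zpowers u ⊔ A) := hRp.to_le (sup_le (zpowers_le.2 hu) hAR)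
    obtain ⟨D, hD, hleD⟩ := exists_isMaxP_ge hle hp'
    exact T.b_core hD (le_sup_right.trans hleD) (hleD ((le_sup_left : zpowers u ≤ zpowers u ⊔ A) (mem_zpowers u)))
  have hgz₀ : g ∈ centralizer ({z₀} : Set G) := by
    rw [mem_centralizer_singleton_iff]
    exact (hz₀c g hgR).symm
  have hz₀f : sigmaCore L ⊓ centralizer ({z₀} : Set G) = ⊥ := by
    by_contra h
    exact hgCA (huL g hgR (T.cent_le hz₀ hz₀1 h hgz₀))
  obtain ⟨a, haA, ha1, hgood⟩ := T.exists_good
  have haz₀ : a ∉ zpowers z₀ := by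
    intro h
    rw [T.S.cent_eq_of_mem hz₀ h ha1] at hgood
    exact hgood hz₀f
  have hxA : x ∈ A := (le_sup_left : zpowers x ≤ zpowers x ⊔ zpowers y) (mem_zpowers x)
  have hxz₀ : x ∉ zpowers z₀ := by
    intro h
    apply hgC
    rw [← hcx, T.S.cent_eq_of_mem hz₀ h hx1]
    exact hgz₀
  obtain ⟨u, hu, hua, hu1⟩ := T.S.exists_conj_line hRp hAR hRA hz₀ hz₀1 hzC hZ hxA hxz₀ haA haz₀
  have e := T.S.cent_eq_of_mem haA hua hu1
  have huM : u ∈ M := hP.le (hRP hu)
  have hle : centralizer ({a} : Set G) ≤ M := by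
    rw [← e]
    intro w hw
    have h1 : u⁻¹ * w * u ∈ centralizer ({x} : Set G) := by
      rw [mem_centralizer_singleton_iff] at hw ⊢
      have h2 : w * (u * x * u⁻¹) = (u * x * u⁻¹) * w := hw
      have h3 : u⁻¹ * (w * (u * x * u⁻¹)) * u = u⁻¹ * ((u * x * u⁻¹) * w) * u := by rw [h2]
      simpa [mul_assoc] using h3
    have h2 := hCM (hcx ▸ h1)
    have h3 : w = u * (u⁻¹ * w * u) * u⁻¹ := by group
    rw [h3]
    exact M.mul_mem (M.mul_mem huM h2) (M.inv_mem huM)
  exact hLM (T.uniq haA hgood M hM hle).symm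

end Cfsg.Agent.Lib.FT
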