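import Cfsg.Agent.Lib.FT.BG20j

/-!
BG20k: the characterizations of Types II, III, IV (S1381, S1382).
-/

set_option autoImplicit false
set_option linter.unusedSectionVars false
set_option linter.style.haveILetI false

namespace Cfsg.Agent.Lib.FT

open Subgroup Cfsg Cfsg.Agent.Lib.OddLocal Cfsg.Agent.Lib.Basic

open Cfsg.Agent.Lib.Coprime (mem_conj_map conj_mem_conj_map conj_map_conj_map conj_map_one
  conj_map_mono conj_map_eq_iff_mem_normalizer isPGroup_conj_map mem_normalizer_of_conj_le)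

variable {G : Type*} [Group G] [Finite G] {M K U U' : Subgroup G}

/-- With `U = 1`, `M' = M_σ`. -/
theorem commutator_eq_sigmaCore (hB : ThmB G) (hG : IsMinSimpleOddOrder G) (hM : IsCoatom M) (hKU : IsSigmaDecomposition M K U)
    (hK1 : K ≠ ⊥) (hU : U = ⊥) : ⁅M, M⁆ = sigmaCore M := by
  rw [commutator_eq_of_decomp hB hG hM hKU hK1, hU, bot_sup_eq]

/-- **Lemma A**: a nontrivial nilpotent complement to `M_F` in `M_σ = M'` has its normalizer in `M`. -/
theorem normalizer_compl_le (hG : IsMinSimpleOddOrder G) (hM : IsCoatom M) (hKU : IsSigmaDecomposition M K U)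
    (hU'n : Group.IsNilpotent U') (hU'c : IsComplIn (fittingHallOf M) U' (sigmaCore M)) (hU'1 : U' ≠ ⊥) (hU : U = ⊥) :
    normalizer (U' : Set G) ≤ M := by
  classical
  have huniq := huniq13 hG
  have hσM : sigmaCore M ≤ M := piCoreOf_le _ M
  have hU'σ : U' ≤ sigmaCore M := hU'c.2.1
  have hU'M : U' ≤ M := hU'σ.trans hσM
  have hK := hKU.hall
  have hd₀ : ∀ t : ℕ, t.Prime → t ∣ Nat.card U' → t ∈ sigma M := fun t ht hd =>
    piCoreOf_isPi (sigma M) M t ht (hd.trans (Subgroup.card_dvd_of_le hU'σ))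
  -- `|M : U'| = |M_F| |K|`
  have hcσ : Nat.card (fittingHallOf M) * Nat.card U' = Nat.card (sigmaCore M) := (IsComplIn_card_eq hU'c).symm
  have hMσ : Nat.card (sigmaCore M) * Nat.card K = Nat.card M := by
    have h1 := IsComplIn_card_eq hKU.compl
    have h2 : Nat.card ↥(K ⊔ sigmaCore M) = Nat.card K * Nat.card (sigmaCore M) := by
      have hn : K ≤ normalizer (sigmaCore M : Set G) := hK.1.trans (le_normalizer_piCoreOf _ _)
      have h3 := card_sup_mul_card_inf (A := sigmaCore M) (B := K) hn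
      rw [sup_comm] at h3
      have h4 : sigmaCore M ⊓ K = ⊥ := by rw [inf_comm]; exact kappa_inf_sigmaCore hK
      rw [h4] at h3
      have h5 : Nat.card ↥(⊥ : Subgroup G) = 1 := by simp
      rw [h5, mul_one, mul_comm] at h3
      exact h3
    rw [h1, h2, hU]
    simp [mul_comm]
  have hrel : U'.relIndex M = Nat.card (fittingHallOf M) * Nat.card K := by
    have e := card_mul_relIndex hU'M
    rw [← hMσ, ← hcσ] at e
    have hpos : 0 < Nat.card U' := Nat.card_pos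
    apply Nat.eq_of_mul_eq_mul_left hpos
    rw [e]
    ring
  set π : Set ℕ := {t | t.Prime ∧ t ∣ Nat.card U'} with hπ
  have hπH : IsPiHallOf π U' M := by
    refine ⟨hU'M, fun p hp hd => ⟨hp, hd⟩, ?_⟩
    rintro t ht ⟨-, htU⟩ hdv
    rw [hrel] at hdv
    rcases (Nat.Prime.dvd_mul ht).1 hdv with h | h
    · -- `t ∣ |M_F|`, but `M_F` is Hall in `M`
      have hc := fittingHallOf_coprime_relIndex (M := M)
      have h2 : t ∣ (fittingHallOf M).relIndex M := by
        have e := card_mul_relIndex (fittingHallOf_le (M := M))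
        have e2 : Nat.card (fittingHallOf M) * (Nat.card U' * Nat.card K) = Nat.card M := by
          rw [← hMσ, ← hcσ]
          ring
        have hpos : 0 < Nat.card (fittingHallOf M) := Nat.card_pos
        have e3 : (fittingHallOf M).relIndex M = Nat.card U' * Nat.card K :=
          Nat.eq_of_mul_eq_mul_left hpos (e.trans e2.symm)
        rw [e3]
        exact htU.trans (dvd_mul_right _ _)
      exact ht.one_lt.ne' (Nat.dvd_one.1 (hc ▸ Nat.dvd_gcd h h2))
    · exact primes_kappa_not_sigma hK t ht h (hd₀ t ht htU)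
  obtain ⟨t, ht, htd⟩ : ∃ t : ℕ, t.Prime ∧ t ∣ Nat.card U' := by
    refine Nat.exists_prime_and_dvd ?_
    intro h
    exact hU'1 (Subgroup.eq_bot_of_card_eq _ h)
  haveI := Fact.mk ht
  have hmax := isMaxP_Oq_of_hall hπH hU'n (t := t) ⟨ht, htd⟩
  have hN := normalizer_le_of_isMaxP (hd₀ t ht htd) hmax
  exact fun g hg => hN (mem_normalizer_Oq hU'n hg)

/-- Construction of the complement to `M_F` in `M_σ`. -/
theorem exists_nil_compl_of_ne (hB : ThmB G) (hG : IsMinSimpleOddOrder G) (hM : IsCoatom M) (hKU : IsSigmaDecomposition M K U)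
    (hK1 : K ≠ ⊥) (hU : U = ⊥) (hne : fittingHallOf M ≠ sigmaCore M) :
    ∃ U' : Subgroup G, Group.IsNilpotent U' ∧ K ≤ normalizer (U' : Set G) ∧ IsComplIn (fittingHallOf M) U' (sigmaCore M) ∧ U' ≠ ⊥ := by
  classical
  have hσM : sigmaCore M ≤ M := piCoreOf_le _ M
  have hq := s1373_core hB hG hM hKU hK1 hU
  obtain ⟨S, D, hSn, hSp, hcompl, hSi, hDnil, -, hYS, -, hDK⟩ := exists_K_invariant_compl hB hG hM hKU hK1 hU hq
  set q := Nat.card ↥(sigmaCore M ⊓ centralizer (K : Set G)) with hqdef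
  have hqσ : q ∈ sigma M := by
    refine piCoreOf_isPi (sigma M) M q hq ?_
    have : q ∣ Nat.card ↥(sigmaCore M ⊓ centralizer (K : Set G)) := dvd_rfl
    exact this.trans (Subgroup.card_dvd_of_le inf_le_left)
  have hSF : S ≤ fittingHall ↥M := sylow_le_fittingHall hG hM hq hSn hSp hcompl.1 hSi hqσ
  set D' : Subgroup G := D.map M.subtype with hD'
  have hD'nil : Group.IsNilpotent ↥D' := isNilpotent_map_subtype hDnil
  have hD'σ : D' ≤ sigmaCore M := Subgroup.map_mono hcompl.2.1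
  set π : Set ℕ := {t | t.Prime ∧ t ∣ Nat.card (fittingHallOf M)} with hπ
  set π₂ : Set ℕ := {p | p.Prime ∧ p ∉ π} with hπ₂
  set A₁ := piCoreOf π D' with hA₁
  have hA₁F : A₁ ≤ fittingHallOf M := by
    intro a ha
    have haM : a ∈ M := hσM (hD'σ (piCoreOf_le _ _ ha))
    refine mem_of_coprime_relIndex (fittingHallOf_normalized M) haM ?_
    refine Nat.coprime_of_dvd fun r hr h1 h2 => ?_
    have h3 : r ∣ Nat.card A₁ := h2.trans (Subgroup.orderOf_dvd_natCard A₁ ha)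
    have h4 := piCoreOf_isPi π D' r hr h3
    have hc := fittingHallOf_coprime_relIndex (M := M)
    exact hr.one_lt.ne' (Nat.dvd_one.1 (hc ▸ Nat.dvd_gcd h4.2 h1))
  have hdecomp : ∀ m ∈ sigmaCore M, ∃ a ∈ fittingHallOf M, ∃ b ∈ piCoreOf π₂ D', m = a * b := by
    intro m hm
    obtain ⟨m₀, hm₀, rfl⟩ := Subgroup.mem_map.1 hm
    obtain ⟨s, hs, d, hd, rfl⟩ := hcompl.2.2.2 m₀ hm₀
    have hdD : (d : G) ∈ D' := ⟨d, hd, rfl⟩
    have h1 := le_piCoreOf_sup_of_nilpotent hD'nil π hdD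
    obtain ⟨a₁, ha₁, b, hb, e⟩ := exists_mul_of_mem_sup_of_le_normalizer
      ((piCoreOf_le π D').trans (le_normalizer_piCoreOf π₂ D')) h1
    refine ⟨(s : G) * a₁, (fittingHallOf M).mul_mem ⟨s, hSF hs, rfl⟩ (hA₁F ha₁), b, hb, ?_⟩
    rw [mul_assoc, ← e]
    rfl
  refine ⟨piCoreOf π₂ D', isNilpotent_of_le (piCoreOf_le _ _) hD'nil, ?_, ?_, ?_⟩
  · intro k hk
    refine le_normalizer_piCoreOf_of_normalizer π₂ ?_
    have h1 := hDK ⟨k, hKU.hall.1 hk⟩ hk
    apply mem_normalizer_of_conj_le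
    rintro _ ⟨d, hd, rfl⟩
    exact ⟨_, (Subgroup.mem_normalizer_iff.1 h1 d).1 hd, rfl⟩
  · refine ⟨fittingHallOf_le_sigmaCore hG hM, (piCoreOf_le _ _).trans hD'σ, ?_, hdecomp⟩
    rw [eq_bot_iff]
    intro x hx
    by_contra hx1
    have hord : orderOf x ≠ 1 := fun h => hx1 (orderOf_eq_one_iff.1 h)
    obtain ⟨r, hr, hrd⟩ := Nat.exists_prime_and_dvd hord
    have h1 : r ∣ Nat.card (fittingHallOf M) := hrd.trans (Subgroup.orderOf_dvd_natCard _ hx.1)
    have h2 : r ∣ Nat.card (piCoreOf π₂ D') := hrd.trans (Subgroup.orderOf_dvd_natCard _ hx.2)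
    exact (piCoreOf_isPi π₂ D' r hr h2).2 ⟨hr, h1⟩
  · intro h
    apply hne
    refine le_antisymm (fittingHallOf_le_sigmaCore hG hM) ?_
    intro m hm
    obtain ⟨a, ha, b, hb, rfl⟩ := hdecomp m hm
    rw [h] at hb
    rw [Subgroup.mem_bot.1 hb, mul_one]
    exact ha

/-- **Lemma B**: type `P` data with `N(U') ≤ M` and `U' ≠ 1` force `U = 1`. -/
theorem U_eq_bot_of_typeP (hB : ThmB G) (hG : IsMinSimpleOddOrder G) (hM : IsCoatom M) (hKU : IsSigmaDecomposition M K U) (hK1 : K ≠ ⊥)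
    {W₁ W₂ : Subgroup G} (hP : IsTypePWith M W₁ U' W₂) (hN : normalizer (U' : Set G) ≤ M) : U = ⊥ := by
  classical
  by_contra hU1
  have hUH := isPiHallOf_U hG hM hKU
  have hnil := sigma_nilpotent_of_U_ne hG hM hUH hU1
  have hF := sigmaCore_eq_fittingHallOf hG hM hnil
  have hcomm := commutator_eq_of_decomp hB hG hM hKU hK1
  have hU'c := hP.U_compl
  rw [← hF, hcomm] at hU'c
  have hUM : U ≤ M := hUH.1
  have hσM : sigmaCore M ≤ M := piCoreOf_le _ M
  have hDM : U ⊔ sigmaCore M ≤ M := sup_le hUM hσM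
  have hinf : U ⊓ sigmaCore M = ⊥ := by
    rw [eq_bot_iff]
    intro x hx
    have h1 : x ∈ U ⊓ (K ⊔ sigmaCore M) := ⟨hx.1, (le_sup_right : sigmaCore M ≤ K ⊔ sigmaCore M) hx.2⟩
    rwa [hKU.compl.2.2.1] at h1
  have hUc : IsComplIn U (sigmaCore M) (U ⊔ sigmaCore M) :=
    ⟨le_sup_left, le_sup_right, hinf, fun m hm =>
      exists_mul_of_mem_sup_of_le_normalizer (hUM.trans (le_normalizer_piCoreOf _ _)) hm⟩
  have hcard : Nat.card U' = Nat.card U := by
    have h1 := IsComplIn_card_eq hU'c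
    have h2 := IsComplIn_card_eq hUc
    rw [h1, mul_comm] at h2
    exact Nat.eq_of_mul_eq_mul_right Nat.card_pos h2
  have hHall : IsPiHallOf {q | q.Prime ∧ q ∉ kappa M ∧ q ∉ sigma M} U (U ⊔ sigmaCore M) := by
    refine ⟨le_sup_left, hUH.2.1, fun p hp hπ hd => ?_⟩
    refine hUH.2.2 p hp hπ (hd.trans ?_)
    rw [← Subgroup.relIndex_mul_relIndex U (U ⊔ sigmaCore M) M le_sup_left hDM]
    exact dvd_mul_right _ _
  have hs : Group.IsSolvable ↥(U ⊔ sigmaCore M) := by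
    haveI := coatom_isSolvable hG hM
    exact Group.isSolvable_of_isSolvable_injective (Subgroup.inclusion_injective hDM)
  obtain ⟨g, hgD, hle⟩ := IsPiHallOf.exists_conj_ge hs hHall hU'c.2.1 (fun r hr hd => hUH.2.1 r hr (hcard ▸ hd))
  have heq : U' = U.map (MulAut.conj g).toMonoidHom := by
    refine Subgroup.eq_of_le_of_card_ge hle ?_
    rw [hcard, Subgroup.card_map_of_injective (MulAut.conj g).injective]
  obtain ⟨X, H, p, _, hXK, -, PX⟩ := exists_prime_partner hB hG hM hKU.hall hK1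
  apply normalizer_U_not_le hB hG hM hKU hK1 PX hXK
  intro w hw
  have hgM : g ∈ M := hDM hgD
  have h1 : g * w * g⁻¹ ∈ normalizer (U' : Set G) := by
    apply mem_normalizer_of_conj_le
    rw [heq]
    rintro _ ⟨u, hu, rfl⟩
    refine ⟨w * u * w⁻¹, (Subgroup.mem_normalizer_iff.1 hw u).1 hu, ?_⟩
    simp [MulAut.conj_apply, mul_assoc]
  have h2 := hN h1
  have h3 : w = g⁻¹ * (g * w * g⁻¹) * g := by group
  rw [h3]
  exact M.mul_mem (M.mul_mem (M.inv_mem hgM) h2) hgM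

/-- **S1381 core**. -/
theorem s1381_core (hB : ThmB G) (hG : IsMinSimpleOddOrder G) (hM : IsCoatom M) (hKU : IsSigmaDecomposition M K U) :
    IsOfTypeII M ↔ (K ≠ ⊥ ∧ U ≠ ⊥) := by
  classical
  have huniq := huniq13 hG
  have hK := hKU.hall
  have hσM : sigmaCore M ≤ M := piCoreOf_le _ M
  constructor
  · rintro ⟨W₁, U', W₂, hP, hU'1, -, -, -, hnot, -, -⟩
    have hK1 := kappa_ne_of_typeP hB hG hM hK hP
    refine ⟨hK1, fun hU => hnot ?_⟩
    have hc := hP.U_compl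
    rw [commutator_eq_sigmaCore hB hG hM hKU hK1 hU] at hc
    exact normalizer_compl_le hG hM hKU hP.U_nilpotent hc hU'1 hU
  · rintro ⟨hK1, hU1⟩
    have hUH := isPiHallOf_U hG hM hKU
    have hUM : U ≤ M := hUH.1
    have hnil := sigma_nilpotent_of_U_ne hG hM hUH hU1
    have hF := sigmaCore_eq_fittingHallOf hG hM hnil
    have hcomm := commutator_eq_of_decomp hB hG hM hKU hK1
    have hinf : U ⊓ sigmaCore M = ⊥ := by
      rw [eq_bot_iff]
      intro x hx
      have h1 : x ∈ U ⊓ (K ⊔ sigmaCore M) := ⟨hx.1, (le_sup_right : sigmaCore M ≤ K ⊔ sigmaCore M) hx.2⟩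
      rwa [hKU.compl.2.2.1] at h1
    have hUn : U ≤ normalizer (sigmaCore M : Set G) := hUM.trans (le_normalizer_piCoreOf _ _)
    have hUc : IsComplIn U (sigmaCore M) (U ⊔ sigmaCore M) :=
      ⟨le_sup_left, le_sup_right, hinf, fun m hm => exists_mul_of_mem_sup_of_le_normalizer hUn hm⟩
    have hU'c : IsComplIn (fittingHallOf M) U ⁅M, M⁆ := by
      rw [← hF, hcomm]
      refine ⟨le_sup_right, le_sup_left, by rwa [inf_comm], fun m hm => ?_⟩
      obtain ⟨a, ha, b, hb, e⟩ := hUc.2.2.2 m⁻¹ ((U ⊔ sigmaCore M).inv_mem hm)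
      refine ⟨b⁻¹, (sigmaCore M).inv_mem hb, a⁻¹, U.inv_mem ha, ?_⟩
      rw [← mul_inv_rev, ← e, inv_inv]
    haveI hUcomm : IsMulCommutative U := U_isMulCommutative hB hG hM hKU hK1
    have hUnil : Group.IsNilpotent U := by
      letI : CommGroup U := { (inferInstance : Group U) with mul_comm := hUcomm.is_comm.comm }
      infer_instance
    have hP := typeP_of_decomp hB hG hM hKU hK1 hUnil hKU.normal hU'c
    obtain ⟨hKp, hTI, -⟩ := s1372_core hB hG hM hKU hK1 hU1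
    obtain ⟨X, H, p, _, hXK, -, PX⟩ := exists_prime_partner hB hG hM hK hK1
    have hnot := normalizer_U_not_le hB hG hM hKU hK1 PX hXK
    obtain ⟨E, hE, hUE⟩ := exists_compl_sigma_ge hG hM hUM (fun r hr hd => (hUH.2.1 r hr hd).2.2)
    have hσD : sigmaCore M ≤ ⁅M, M⁆ := by rw [hcomm]; exact le_sup_right
    have hDM : ⁅M, M⁆ ≤ M := by rw [hcomm]; exact sup_le hUM hσM
    have hX : IsComplIn U (sigmaCore M) ⁅M, M⁆ := by rw [hcomm]; exact hUc
    have hXκ : ∀ r : ℕ, r.Prime → r ∣ Nat.card U → r ∉ kappa M := fun r hr hd => (hUH.2.1 r hr hd).2.1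
    have hXτ : ∀ r ∈ tau2 M, ∃ R : Subgroup G, IsMaxP r R M ∧ R ≤ U := by
      intro r hr
      exact tau2_sylow_in_U hG huniq hM hKU hr
    have hF' := isOfTypeF_of_compl hB hG hM hnil hσD hDM hX hU1 hE hUE hXκ hXτ
    have hF2 := fittingHallOf_eq_of_compl hB hG hM hnil hσD hDM hX hE hUE hXκ hXτ
    exact ⟨K, U, _, hP, hU1, hKp, hTI, hUcomm, hnot, hF', hF2.trans hF⟩

/-- **S1382 core**. -/
theorem s1382_core (hB : ThmB G) (hG : IsMinSimpleOddOrder G) (hM : IsCoatom M) (hKU : IsSigmaDecomposition M K U) :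
    (IsOfTypeIII M ∨ IsOfTypeIV M) ↔ (K ≠ ⊥ ∧ U = ⊥ ∧ fittingHallOf M ≠ sigmaCore M) := by
  classical
  have hK := hKU.hall
  have key : ∀ W₁ U' W₂ : Subgroup G, IsTypePWith M W₁ U' W₂ → U' ≠ ⊥ → normalizer (U' : Set G) ≤ M →
      K ≠ ⊥ ∧ U = ⊥ ∧ fittingHallOf M ≠ sigmaCore M := by
    intro W₁ U' W₂ hP hU'1 hN
    have hK1 := kappa_ne_of_typeP hB hG hM hK hP
    have hU := U_eq_bot_of_typeP hB hG hM hKU hK1 hP hN
    refine ⟨hK1, hU, fun he => hU'1 ?_⟩
    have hc := hP.U_compl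
    rw [commutator_eq_sigmaCore hB hG hM hKU hK1 hU, he] at hc
    rw [eq_bot_iff]
    intro x hx
    have h1 : x ∈ sigmaCore M ⊓ U' := ⟨hc.2.1 hx, hx⟩
    rwa [hc.2.2.1] at h1
  constructor
  · rintro (⟨W₁, U', W₂, hP, hU'1, -, -, -, hN⟩ | ⟨W₁, U', W₂, hP, hU'1, -, -, -, hN⟩)
    · exact key W₁ U' W₂ hP hU'1 hN
    · exact key W₁ U' W₂ hP hU'1 hN
  · rintro ⟨hK1, hU, hne⟩
    obtain ⟨U', hU'n, hKN, hc, hU'1⟩ := exists_nil_compl_of_ne hB hG hM hKU hK1 hU hne
    have hN := normalizer_compl_le hG hM hKU hU'n hc hU'1 hU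
    have hc' : IsComplIn (fittingHallOf M) U' ⁅M, M⁆ := by
      rw [commutator_eq_sigmaCore hB hG hM hKU hK1 hU]
      exact hc
    have hP := typeP_of_decomp hB hG hM hKU hK1 hU'n hKN hc'
    obtain ⟨-, hTI, hKp⟩ := s1357_core hB hG hM hKU hne (fun h1 h2 => s1373_core hB hG hM hKU h1 h2)
    by_cases hcomm : IsMulCommutative U'
    · exact Or.inl ⟨K, U', _, hP, hU'1, hKp, hTI, hcomm, hN⟩
    · exact Or.inr ⟨K, U', _, hP, hU'1, hKp, hTI, hcomm, hN⟩

end Cfsg.Agent.Lib.FT
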