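import Cfsg.Agent.Lib.FT.BG16f
import Cfsg.Agent.Lib.FT.BG18d
import Cfsg.Agent.Lib.FT.BG20e
import Cfsg.Agent.Lib.FT.BG20d

/-!
BG21a: a Frobenius lemma with a non-cyclic complement (elementary form, no modules): if `U ⋊ X` is of Frobenius type
and `y` normalises `U` with all of `y X` fixed point free on `U`, then `C_V(X) ≤ C_V(y)` forces `V = C_V(U)`.
-/

set_option autoImplicit false
set_option linter.unusedSectionVars false
set_option linter.style.haveILetI false

namespace Cfsg.Agent.Lib.FT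

open Subgroup Cfsg Cfsg.Agent.Lib.OddLocal Cfsg.Agent.Lib.Basic Cfsg.Agent.Lib.Coprime

open scoped commutatorElement

section Abstract

/-- Abstract form. -/
theorem frob_free_abstract {V F : Type*} [Group V] [Finite V] [Group F] [Finite F]
    (hcomm : ∀ x y : V, x * y = y * x) (φ : F →* MulAut V) (U X : Subgroup F) (y : F)
    (hXU : X ≤ normalizer (U : Set F)) (hyU : y ∈ normalizer (U : Set F))
    (hX : ∀ x ∈ X, x ≠ 1 → ∀ u ∈ U, x * u = u * x → u = 1)
    (hyX : ∀ x ∈ X, ∀ u ∈ U, (y * x) * u = u * (y * x) → u = 1)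
    (hcop : (Nat.card U).Coprime (Nat.card V))
    (hCU : ∀ v : V, (∀ u ∈ U, φ u v = v) → v = 1)
    (hfix : ∀ v : V, (∀ x ∈ X, φ x v = v) → φ y v = v) (v : V) : v = 1 := by
  classical
  letI inst : CommGroup V := { (inferInstance : Group V) with mul_comm := hcomm }
  haveI : Fintype U := Fintype.ofFinite U
  haveI : Fintype X := Fintype.ofFinite X
  -- the norm over `U`
  have hnorm : ∀ w : V, ∏ u : U, φ (u : F) w = 1 := by
    intro w
    apply hCU
    intro u₀ hu₀
    rw [map_prod]
    have h1 : ∀ u : U, φ u₀ (φ (u : F) w) = φ ((⟨u₀, hu₀⟩ * u : U) : F) w := by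
      intro u
      rw [← MulAut.mul_apply, ← map_mul]
      rfl
    simp only [h1]
    exact Equiv.prod_comp (Equiv.mulLeft (⟨u₀, hu₀⟩ : U)) (fun u : U => φ (u : F) w)
  -- the twisted norm
  have hA : ∀ z ∈ normalizer (U : Set F), (∀ u ∈ U, z * u = u * z → u = 1) →
      ∀ w : V, ∏ g : U, φ ((g : F) * z * (g : F)⁻¹) w = 1 := by
    intro z hzU hzfpf w
    let c : U → U := fun g => ⟨(g : F) * (z * (g : F)⁻¹ * z⁻¹), U.mul_mem g.2
      ((Subgroup.mem_normalizer_iff.mp hzU _).mp (U.inv_mem g.2))⟩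
    have hcinj : Function.Injective c := by
      intro g g' h
      have h1 : (g : F) * (z * (g : F)⁻¹ * z⁻¹) = (g' : F) * (z * (g' : F)⁻¹ * z⁻¹) :=
        congrArg Subtype.val h
      have h2 : z * ((g' : F)⁻¹ * (g : F)) = ((g' : F)⁻¹ * (g : F)) * z := by
        have h3 : (g : F) * z * (g : F)⁻¹ = (g' : F) * z * (g' : F)⁻¹ := by
          have := congrArg (fun w => w * z) h1
          simp only [mul_assoc, inv_mul_cancel, mul_one] at this
          simpa [mul_assoc] using this
        have h4 : ((g' : F)⁻¹ * (g : F)) * z = z * ((g' : F)⁻¹ * (g : F)) := by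
          calc ((g' : F)⁻¹ * (g : F)) * z = (g' : F)⁻¹ * ((g : F) * z * (g : F)⁻¹) * (g : F) := by group
            _ = (g' : F)⁻¹ * ((g' : F) * z * (g' : F)⁻¹) * (g : F) := by rw [h3]
            _ = z * ((g' : F)⁻¹ * (g : F)) := by group
        exact h4.symm
      have h3 := hzfpf _ (U.mul_mem (U.inv_mem g'.2) g.2) h2
      have h4 : (g : F) = g' := by
        rw [inv_mul_eq_one] at h3
        exact h3.symm
      exact Subtype.ext h4
    have hcbij : Function.Bijective c := Finite.injective_iff_bijective.mp hcinj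
    have hterm : ∀ g : U, φ ((g : F) * z * (g : F)⁻¹) w = φ ((c g : U) : F) (φ z w) := by
      intro g
      rw [← MulAut.mul_apply, ← map_mul]
      congr 2
      simp only [c]
      group
    simp only [hterm]
    have := hcbij.prod_comp (fun u : U => φ (u : F) (φ z w))
    rw [this]
    exact hnorm _
  -- the traces
  let T : U → V := fun g => ∏ x : X, φ (x : F) (φ ((g : F)⁻¹) v)
  have hTfix : ∀ g : U, φ y (T g) = T g := by
    intro g
    apply hfix
    intro x₀ hx₀
    simp only [T]
    rw [map_prod]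
    have h1 : ∀ x : X, φ x₀ (φ (x : F) (φ ((g : F)⁻¹) v)) = φ ((⟨x₀, hx₀⟩ * x : X) : F) (φ ((g : F)⁻¹) v) := by
      intro x
      rw [← MulAut.mul_apply, ← map_mul]
      rfl
    simp only [h1]
    exact Equiv.prod_comp (Equiv.mulLeft (⟨x₀, hx₀⟩ : X)) (fun x : X => φ (x : F) (φ ((g : F)⁻¹) v))
  have hP : ∏ g : U, φ (g : F) (T g) = ∏ x : X, ∏ g : U, φ ((g : F) * (x : F) * (g : F)⁻¹) v := by
    rw [Finset.prod_comm]
    refine Finset.prod_congr rfl fun g _ => ?_
    simp only [T]
    rw [map_prod]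
    refine Finset.prod_congr rfl fun x _ => ?_
    rw [← MulAut.mul_apply, ← MulAut.mul_apply, ← map_mul, ← map_mul, mul_assoc]
  have hQ : ∏ g : U, φ (g : F) (φ y (T g)) = ∏ x : X, ∏ g : U, φ ((g : F) * (y * (x : F)) * (g : F)⁻¹) v := by
    rw [Finset.prod_comm]
    refine Finset.prod_congr rfl fun g _ => ?_
    simp only [T]
    rw [map_prod, map_prod]
    refine Finset.prod_congr rfl fun x _ => ?_
    rw [← MulAut.mul_apply, ← MulAut.mul_apply, ← MulAut.mul_apply, ← map_mul, ← map_mul, ← map_mul]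
    congr 2
    group
  have hPv : ∏ g : U, φ (g : F) (T g) = v ^ Nat.card U := by
    rw [hP, Finset.prod_eq_single (1 : X)]
    · have : ∀ g : U, φ ((g : F) * ((1 : X) : F) * (g : F)⁻¹) v = v := by
        intro g
        simp
      simp only [this]
      rw [Finset.prod_const, Finset.card_univ, Nat.card_eq_fintype_card]
    · intro x _ hx
      exact hA x (hXU x.2) (hX x x.2 (fun e => hx (Subtype.ext e))) v
    · intro h
      exact absurd (Finset.mem_univ _) h
  have hQv : ∏ g : U, φ (g : F) (φ y (T g)) = 1 := by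
    rw [hQ]
    refine Finset.prod_eq_one fun x _ => ?_
    exact hA _ (mul_mem hyU (hXU x.2)) (hyX x x.2) v
  have h1 : v ^ Nat.card U = 1 := by
    rw [← hPv, ← hQv]
    exact Finset.prod_congr rfl fun g _ => by rw [hTfix]
  have h2 : v ^ Nat.card V = 1 := pow_card_eq_one'
  have h3 := (pow_gcd_eq_one).mpr ⟨h1, h2⟩
  rw [hcop.gcd_eq_one, pow_one] at h3
  exact h3

end Abstract

variable {G : Type*} [Group G] [Finite G]

/-- The section form of the Frobenius lemma with a non-cyclic complement. -/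
theorem frob_free_section {q : ℕ} [Fact q.Prime] {T U X : Subgroup G} {y : G}
    (hT : IsPGroup q T) (hUT : U ≤ normalizer (T : Set G)) (hXT : X ≤ normalizer (T : Set G))
    (hyT : y ∈ normalizer (T : Set G)) (hXU : X ≤ normalizer (U : Set G)) (hyU : y ∈ normalizer (U : Set G))
    (hX : ∀ x ∈ X, x ≠ 1 → ∀ u ∈ U, x * u = u * x → u = 1)
    (hyX : ∀ x ∈ X, ∀ u ∈ U, (y * x) * u = u * (y * x) → u = 1)
    (hUc : (Nat.card U).Coprime q) (hXc : (Nat.card X).Coprime q)
    (hCU : T ⊓ centralizer (U : Set G) = ⊥)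
    (hfix : ∀ c ∈ T, c ∈ centralizer (X : Set G) → y * c = c * y) : T = ⊥ := by
  classical
  by_contra hTne
  have hcaU := coprimeAction_of_isPGroup hT hUc hUT
  have hcaX := coprimeAction_of_isPGroup hT hXc hXT
  have hTU : T ≤ ⁅T, U⁆ := by
    have h := hcaU.commutator_sup_centralizer
    rw [hCU, sup_bot_eq] at h
    exact h.ge
  have hFT : (frattini ↥T).map T.subtype ≤ T := frattini_map_le T
  have hFn : normalizer (T : Set G) ≤ normalizer (((frattini ↥T).map T.subtype : Subgroup G) : Set G) :=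
    fun a ha => mem_normalizer_map_of_characteristic T (frattini ↥T) ha
  have hall : ∀ v : ↥T ⧸ frattini ↥T, v = 1 := by
    intro v
    refine frob_free_abstract (frat_comm hT) (fratNAct T) (U.subgroupOf (normalizer (T : Set G)))
      (X.subgroupOf (normalizer (T : Set G))) ⟨y, hyT⟩ ?_ ?_ ?_ ?_ ?_ ?_ ?_ v
    · intro x hx
      rw [Subgroup.mem_normalizer_iff]
      intro h
      rw [Subgroup.mem_subgroupOf, Subgroup.mem_subgroupOf]
      exact (Subgroup.mem_normalizer_iff.mp (hXU (Subgroup.mem_subgroupOf.mp hx)) _)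
    · rw [Subgroup.mem_normalizer_iff]
      intro h
      rw [Subgroup.mem_subgroupOf, Subgroup.mem_subgroupOf]
      exact (Subgroup.mem_normalizer_iff.mp hyU _)
    · intro x hx hx1 u hu hc
      have h1 := hX x (Subgroup.mem_subgroupOf.mp hx) (fun e => hx1 (Subtype.ext e)) u
        (Subgroup.mem_subgroupOf.mp hu) (congrArg Subtype.val hc)
      exact Subtype.ext h1
    · intro x hx u hu hc
      have h1 := hyX x (Subgroup.mem_subgroupOf.mp hx) u (Subgroup.mem_subgroupOf.mp hu) (congrArg Subtype.val hc)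
      exact Subtype.ext h1
    · have hcard : Nat.card (U.subgroupOf (normalizer (T : Set G))) = Nat.card U :=
        Nat.card_congr (Subgroup.subgroupOfEquivOfLe hUT).toEquiv
      rw [hcard]
      obtain ⟨k, hk⟩ := IsPGroup.iff_card.mp hT
      have h1 : Nat.card (↥T ⧸ frattini ↥T) ∣ q ^ k := by
        rw [← hk, ← Subgroup.index_eq_card]
        exact Subgroup.index_dvd_card _
      exact Nat.Coprime.coprime_dvd_right h1 (Nat.Coprime.pow_right k hUc)
    · intro w hw
      obtain ⟨t, rfl⟩ := QuotientGroup.mk_surjective w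
      rw [QuotientGroup.eq_one_iff]
      exact mem_frattini_of_fixed hT hUT hUc hTU t (fun u hu => hw ⟨u, hUT hu⟩ (Subgroup.mem_subgroupOf.mpr hu))
    · intro w hw
      obtain ⟨t, rfl⟩ := QuotientGroup.mk_surjective w
      obtain ⟨n, hn, c, hc, e⟩ := hcaX.exists_mul_centralizer hFT (hXT.trans hFn) t.2
        (fun a ha => comm_mem_frattini_of_fixed ⟨a, hXT ha⟩ t (hw ⟨a, hXT ha⟩ (Subgroup.mem_subgroupOf.mpr ha)))
      have hyc := hfix c hc.1 hc.2
      -- `y` fixes the class of `t`
      have hcT : c ∈ T := hc.1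
      have hnT : n ∈ T := hFT hn
      have e1 : (t : ↥T ⧸ frattini ↥T) = ((⟨c, hcT⟩ : T) : ↥T ⧸ frattini ↥T) := by
        obtain ⟨n', hn', e'⟩ := hn
        have h2 : t = n' * ⟨c, hcT⟩ := by
          apply Subtype.ext
          have : (t : G) = n * c := e
          simp only [coe_mul, this, ← e', subtype_apply]
        have h3 : ((n' : T) : ↥T ⧸ frattini ↥T) = 1 := (QuotientGroup.eq_one_iff n').mpr hn'
        rw [h2, QuotientGroup.mk_mul, h3, one_mul]
      rw [e1, fratNAct_mk]
      congr 1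
      apply Subtype.ext
      change y * c * y⁻¹ = c
      rw [hyc]
      group
  apply frattini_map_ne hTne
  refine le_antisymm hFT fun t ht => ?_
  have h1 := hall ((⟨t, ht⟩ : T) : ↥T ⧸ frattini ↥T)
  rw [QuotientGroup.eq_one_iff] at h1
  exact ⟨⟨t, ht⟩, h1, rfl⟩

end Cfsg.Agent.Lib.FT
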