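import Cfsg.Agent.Lib.FT.BG21a

/-!
BG21b: `U ≠ 1` forces `K` to be of prime order.
-/

set_option autoImplicit false
set_option linter.unusedSectionVars false
set_option linter.style.haveILetI false

namespace Cfsg.Agent.Lib.FT

open Subgroup Cfsg Cfsg.Agent.Lib.OddLocal Cfsg.Agent.Lib.Basic Cfsg.Agent.Lib.Coprime

open scoped commutatorElement

variable {G : Type*} [Group G] [Finite G]

theorem isMaxP_trans_hall {π : Set ℕ} {r : ℕ} [Fact r.Prime] {P U M : Subgroup G} (hr : r ∈ π) (hU : IsPiHallOf π U M)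
    (hP : IsMaxP r P U) : IsMaxP r P M := by
  refine isMaxP_of_not_dvd_relIndex (hP.le.trans hU.1) hP.isP ?_
  rw [← Subgroup.relIndex_mul_relIndex P U M hP.le hU.1]
  intro hd
  rcases (Nat.Prime.dvd_mul Fact.out).mp hd with h | h
  · exact not_dvd_relIndex_of_isMaxP hP le_rfl h
  · exact hU.2.2 r Fact.out hr h

/-- `U ≠ 1` acts faithfully on `M_σ`. -/
theorem sigma_inf_centralizer_U_eq_bot {M U : Subgroup G} (hG : IsMinSimpleOddOrder G) (hM : IsCoatom M)
    (hU : IsPiHallOf {q | q.Prime ∧ q ∉ kappa M ∧ q ∉ sigma M} U M) (hU1 : U ≠ ⊥) :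
    sigmaCore M ⊓ centralizer (U : Set G) = ⊥ := by
  classical
  have huniq := huniq13 hG
  have hpl : ∀ (r : ℕ) [Fact r.Prime] (H : Subgroup G), H ≠ ⊤ → PLengthLE r 1 ↥H := fun r _ K hK => hpl13 hG r K hK
  obtain ⟨r, hr, R, hRU, hR⟩ := exists_prime_subgroup hU1
  haveI := Fact.mk hr
  have hrπ : r ∈ {q | q.Prime ∧ q ∉ kappa M ∧ q ∉ sigma M} := hU.2.1 r hr (by
    rw [← hR]
    exact Subgroup.card_dvd_of_le hRU)
  by_cases h1 : PRankLE r 1 ↥M
  · by_contra hne
    obtain ⟨y, hy, hy1⟩ := exists_ne_one_of_card_prime hr hR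
    have hyo : orderOf y = r := orderOf_eq_of_card_prime hr hR hy hy1
    have hyp : y ^ r = 1 := by
      rw [← hyo]
      exact pow_orderOf_eq_one y
    apply hrπ.2.1
    refine kappa_of_good hG (hU.1 (hRU hy)) hy1 hr hyp hrπ.2.2 h1 ?_
    intro hbot
    apply hne
    rw [eq_bot_iff, ← hbot]
    refine inf_le_inf_left _ (Subgroup.centralizer_le ?_)
    simpa using hRU hy
  · obtain ⟨P, hP, hRP⟩ := exists_isMaxP_ge hRU (isPGroup_of_card_prime hR)
    have hPM : IsMaxP r P M := isMaxP_trans_hall hrπ hU hP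
    have hnc : ¬ IsCyclic P := fun hc => h1 (hPM.prank_of (prank_one_of_cyclic hc))
    obtain ⟨A, hAP, hAe, hAc⟩ := exists_e2_of_not_cyclic hG hP.isP hnc
    have T := Tau2Setup.mk' hG huniq hpl hM (hAP.trans hPM.le) hAe hAc hrπ.2.2
    rw [eq_bot_iff, ← T.d]
    exact inf_le_inf_left _ (Subgroup.centralizer_le (hAP.trans hP.le))

/-- **Lemma 5**: if `U ≠ 1` then `K` has prime order. -/
theorem kappa_prime_of_U_ne (hB : ThmB G) (hG : IsMinSimpleOddOrder G) {M K U : Subgroup G} (hM : IsCoatom M)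
    (hK : IsPiHallOf (kappa M) K M) (hK1 : K ≠ ⊥) (hU : IsPiHallOf {q | q.Prime ∧ q ∉ kappa M ∧ q ∉ sigma M} U M)
    (hKU : K ≤ normalizer (U : Set G)) (hfree : ∀ k ∈ K, k ≠ 1 → U ⊓ centralizer ({k} : Set G) = ⊥) (hU1 : U ≠ ⊥) :
    (Nat.card K).Prime := by
  classical
  have huniq := huniq13 hG
  have hσM : sigmaCore M ≤ M := piCoreOf_le _ M
  obtain ⟨p, hp, X, hXK, hX⟩ := exists_prime_subgroup hK1
  haveI := Fact.mk hp
  by_cases hXe : X = K
  · rw [← hXe, hX]
    exact hp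
  exfalso
  obtain ⟨y, hyK, hyX⟩ : ∃ y ∈ K, y ∉ X := by
    by_contra hcon
    push Not at hcon
    exact hXe (le_antisymm hXK hcon)
  have hCU := sigma_inf_centralizer_U_eq_bot hG hM hU hU1
  -- a prime of `M_σ`
  have hσ1 : sigmaCore M ≠ ⊥ := by
    have hC := config_of_kappa hG hM (prime_mem_kappa hK hp hXK hX) hX (hXK.trans hK.1)
    intro h
    apply hC.hD
    rw [eq_bot_iff, ← h]
    exact inf_le_left
  obtain ⟨t, ht, T₀, hT₀, hT₀c⟩ := exists_prime_subgroup hσ1
  haveI := Fact.mk ht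
  have htσ : t ∈ sigma M := piCoreOf_isPi (sigma M) M t ht (by
    rw [← hT₀c]
    exact Subgroup.card_dvd_of_le hT₀)
  -- the invariant Sylow subgroup
  have hA : K ⊔ U ≤ M := sup_le hK.1 hU.1
  have hAn : K ⊔ U ≤ normalizer (sigmaCore M : Set G) := hA.trans (le_normalizer_piCoreOf (sigma M) M)
  have hAnotσ : ∀ s : ℕ, s.Prime → s ∣ Nat.card ↥(K ⊔ U) → s ∉ sigma M := by
    intro s hs hd
    rw [sup_comm] at hd
    rcases prime_dvd_sup hKU hs hd with h | h
    · exact (hU.2.1 s hs h).2.2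
    · exact primes_kappa_not_sigma hK s hs h
  have hAc : (Nat.card ↥(K ⊔ U)).Coprime (Nat.card (sigmaCore M)) :=
    Nat.coprime_of_dvd fun s hs h1 h2 => hAnotσ s hs h1 (piCoreOf_isPi (sigma M) M s hs h2)
  have hσs : Group.IsSolvable ↥(sigmaCore M) := by
    have hs := coatom_isSolvable hG hM
    exact solvable_of_solvable_injective (f := Subgroup.inclusion hσM) (Subgroup.inclusion_injective hσM)
  have hca : CoprimeAction (K ⊔ U) (sigmaCore M) := ⟨hAn, hAc, Or.inr hσs⟩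
  obtain ⟨T, hT, hAT, -⟩ := exists_invariant_hall {t} _ hca hσs rfl (bot_le (a := sigmaCore M))
    (by
      intro s _
      rw [mem_normalizer_iff]
      intro x
      simp) (by
      intro q hq hd
      simp at hd
      exact absurd hd hq.one_lt.ne')
  obtain ⟨hTM, hTp⟩ := isMaxP_of_isPiHallOf hT
  have hT1 : T ≠ ⊥ := by
    intro h
    obtain ⟨T', hT'M, hT'⟩ := exists_isMaxP_ge hT₀ (isPGroup_of_card_prime hT₀c)
    have h1 := hTM.exists_conj_eq hT'M
    obtain ⟨c, -, e⟩ := h1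
    rw [h] at e
    have h2 : T' = ⊥ := by
      rw [← e]
      simp
    rw [h2, le_bot_iff] at hT'
    exact ne_bot_of_card_prime ht hT₀c hT'
  have hcop : ∀ (Y : Subgroup G), (∀ s : ℕ, s.Prime → s ∣ Nat.card Y → s ∉ sigma M) → (Nat.card Y).Coprime t := by
    intro Y hY
    refine Nat.Coprime.symm ((Nat.Prime.coprime_iff_not_dvd ht).mpr ?_)
    intro hd
    exact hY t ht hd htσ
  apply hT1
  refine frob_free_section (X := X) (U := U) (y := y) hTp (le_sup_right.trans hAT) ((hXK.trans le_sup_left).trans hAT)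
    (hAT (Subgroup.mem_sup_left hyK)) (hXK.trans hKU) (hKU hyK) ?_ ?_ ?_ ?_ ?_ ?_
  · intro x hx hx1 u hu hc
    have h1 : u ∈ U ⊓ centralizer ({x} : Set G) := by
      refine Subgroup.mem_inf.mpr ⟨hu, ?_⟩
      rw [mem_centralizer_singleton_iff]
      exact hc.symm
    rw [hfree x (hXK hx) hx1, mem_bot] at h1
    exact h1
  · intro x hx u hu hc
    have hyx : y * x ≠ 1 := by
      intro e
      apply hyX
      have : y = x⁻¹ := eq_inv_of_mul_eq_one_left e
      rw [this]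
      exact X.inv_mem hx
    have h1 : u ∈ U ⊓ centralizer ({y * x} : Set G) := by
      refine Subgroup.mem_inf.mpr ⟨hu, ?_⟩
      rw [mem_centralizer_singleton_iff]
      exact hc.symm
    rw [hfree (y * x) (K.mul_mem hyK (hXK hx)) hyx, mem_bot] at h1
    exact h1
  · exact hcop U fun s hs hd => (hU.2.1 s hs hd).2.2
  · exact hcop X fun s hs hd => primes_kappa_not_sigma hK s hs (hd.trans (Subgroup.card_dvd_of_le hXK))
  · rw [eq_bot_iff, ← hCU]
    exact inf_le_inf_right _ hT.1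
  · intro c hc hcX
    have h1 : c ∈ sigmaCore M ⊓ centralizer (X : Set G) := Subgroup.mem_inf.mpr ⟨hT.1 hc, hcX⟩
    rw [kappa_Kstar_eq hB hG hM hK hXK hX] at h1
    exact mem_centralizer_iff.mp h1.2 y hyK

end Cfsg.Agent.Lib.FT
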