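import Cfsg.Agent.Lib.FT.BG21b

/-!
BG21c: the partner structure `M ∩ H = K K*`, and the cluster of a subgroup `Z = K K*`.
-/

set_option autoImplicit false
set_option linter.unusedSectionVars false
set_option linter.style.haveILetI false

namespace Cfsg.Agent.Lib.FT

open Subgroup Cfsg Cfsg.Agent.Lib.OddLocal Cfsg.Agent.Lib.Basic Cfsg.Agent.Lib.Coprime

open scoped commutatorElement

variable {G : Type*} [Group G] [Finite G]

theorem exists_prime_subgroup_of_dvd {D : Subgroup G} {t : ℕ} (ht : t.Prime) (hd : t ∣ Nat.card D) :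
    ∃ Y : Subgroup G, Y ≤ D ∧ Nat.card Y = t := by
  haveI := Fact.mk ht
  obtain ⟨y, hy⟩ := exists_prime_orderOf_dvd_card' (G := ↥D) t hd
  refine ⟨zpowers (y : G), zpowers_le.mpr y.2, ?_⟩
  rw [Nat.card_zpowers]
  rw [Subgroup.orderOf_coe]
  exact hy

/-- A `Config` gives a `κ`-prime. -/
theorem Config.kappa {M X : Subgroup G} {p : ℕ} [Fact p.Prime] (hG : IsMinSimpleOddOrder G) (hC : Config M X p) : p ∈ kappa M := by
  classical
  have hpp : p.Prime := Fact.out
  obtain ⟨y, hy, hy1⟩ := exists_ne_one_of_card_prime hpp hC.hX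
  have hyo : orderOf y = p := orderOf_eq_of_card_prime hpp hC.hX hy hy1
  have hyp : y ^ p = 1 := by
    rw [← hyo]
    exact pow_orderOf_eq_one y
  refine kappa_of_good hG (hC.hXM hy) hy1 hpp hyp hC.hpσ hC.hr ?_
  have e := eq_zpowers_of_card_prime hC.hX hy hy1
  rw [← centralizer_zpowers_eq, ← e]
  exact hC.hD

/-- `K` and `K*` have trivial meet with `M_σ` resp. are in `M_σ`. -/
theorem kappa_inf_sigmaCore {M K : Subgroup G} (hK : IsPiHallOf (kappa M) K M) : K ⊓ sigmaCore M = ⊥ := by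
  refine Subgroup.inf_eq_bot_of_coprime ?_
  exact Nat.coprime_of_dvd fun s hs h1 h2 => primes_kappa_not_sigma hK s hs h1 (piCoreOf_isPi (sigma M) M s hs h2)

section Partner

variable {M H K X : Subgroup G} {p : ℕ} [Fact p.Prime]

/-- **L1**: `H_σ ∩ M ≤ K`. -/
theorem partner_inf_le_K (hB : ThmB G) (hG : IsMinSimpleOddOrder G) (hM : IsCoatom M) (hK : IsPiHallOf (kappa M) K M)
    (hXK : X ≤ K) (hX : Nat.card X = p) (P : Partner M H X p) : sigmaCore H ⊓ M ≤ K := by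
  classical
  have hC := P.hC
  have hH := P.hH
  obtain ⟨d, hd⟩ := (Subgroup.ne_bot_iff_exists_ne_one).mp hC.hD
  have hd1 : (d : G) ≠ 1 := fun h => hd (Subtype.ext h)
  have hdσ : (d : G) ∈ sigmaCore M := d.2.1
  have hdH : (d : G) ∈ H := P.centralizer_le d.2.2
  have key : ∀ y ∈ sigmaCore H ⊓ M, y ≠ 1 → ∀ t : ℕ, t.Prime → t ∣ orderOf y → t ∈ kappa M := by
    intro y hy hy1
    have hyc : y ∈ M ⊓ centralizer ({(d : G)} : Set G) := by
      refine Subgroup.mem_inf.mpr ⟨hy.2, ?_⟩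
      rw [mem_centralizer_singleton_iff]
      exact P.comm hy (Subgroup.mem_inf.mpr ⟨hdσ, hdH⟩)
    have hσ : ∀ q : ℕ, q.Prime → q ∣ orderOf y → q ∉ sigma M := fun q hq hqd =>
      P.disj q (sigma_of_mem_sigmaCore hy.1 hq hqd)
    rcases s1432_core hB hG hM hdσ hd1 hyc hy1 hσ with h | h
    · exact h.1
    · exfalso
      obtain ⟨-, -, hCM, huq⟩ := h
      have hCH : ¬ centralizer ({y} : Set G) ≤ H := fun hle => P.ne (huq H hH hle)
      obtain ⟨N, hN, hCN, -, -, -, hNH, -⟩ := thmE_core hB hG hH hy.1 hy1 hCH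
      have e : N = M := huq N hN hCN
      rw [e] at hNH
      have h3 : (d : G) ∈ sigmaCore M ⊓ H := Subgroup.mem_inf.mpr ⟨hdσ, hdH⟩
      rw [hNH, mem_bot] at h3
      exact hd1 h3
  have hKn : K ≤ normalizer ((sigmaCore H ⊓ M : Subgroup G) : Set G) := by
    intro k hk
    have hkH : k ∈ H := P.hN (kappa_normal_prime hB hG hM hK hXK hX hk)
    exact mem_normalizer_inf_bg16 (le_normalizer_piCoreOf (sigma H) H hkH) (le_normalizer (hK.1 hk))
  have hle := le_of_isPiHallOf_of_primes hK (le_sup_right : K ≤ (sigmaCore H ⊓ M) ⊔ K)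
    (sup_le inf_le_right hK.1) (by
      intro t ht hd
      haveI := Fact.mk ht
      rcases prime_dvd_sup hKn ht hd with h | h
      · obtain ⟨y, hy⟩ := exists_prime_orderOf_dvd_card' (G := ↥(sigmaCore H ⊓ M)) t h
        have hy1 : (y : G) ≠ 1 := by
          intro e
          have : y = 1 := Subtype.ext e
          rw [this, orderOf_one] at hy
          exact ht.one_lt.ne hy
        exact key y y.2 hy1 t ht (by rw [Subgroup.orderOf_coe, hy])
      · exact hK.2.1 t ht h)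
  exact le_sup_left.trans hle

theorem kappa_Kstar_le_partner (hB : ThmB G) (hG : IsMinSimpleOddOrder G) (hM : IsCoatom M) (hK : IsPiHallOf (kappa M) K M)
    (hXK : X ≤ K) (hX : Nat.card X = p) (P : Partner M H X p) : sigmaCore M ⊓ centralizer (K : Set G) ≤ H := by
  rw [← kappa_Kstar_eq hB hG hM hK hXK hX]
  exact inf_le_right.trans P.centralizer_le

/-- **L2**: `M ∩ H = K K*`. -/
theorem partner_inf_eq (hB : ThmB G) (hG : IsMinSimpleOddOrder G) (hM : IsCoatom M) (hK : IsPiHallOf (kappa M) K M)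
    (hXK : X ≤ K) (hX : Nat.card X = p) (P : Partner M H X p) :
    M ⊓ H = K ⊔ (sigmaCore M ⊓ centralizer (K : Set G)) := by
  classical
  have hσM : sigmaCore M ≤ M := piCoreOf_le _ M
  apply le_antisymm
  · rw [← kappa_normalizer_prime hB hG hM hK hXK hX]
    intro m hm
    refine Subgroup.mem_inf.mpr ⟨hm.1, ?_⟩
    rw [← conj_map_eq_iff_mem_normalizer]
    have hW := partner_inf_le_K hB hG hM hK hXK hX P
    have hn : m ∈ normalizer ((sigmaCore H ⊓ M : Subgroup G) : Set G) :=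
      mem_normalizer_inf_bg16 (le_normalizer_piCoreOf (sigma H) H hm.2) (le_normalizer hm.1)
    have h1 : X.map (MulAut.conj m).toMonoidHom ≤ K := by
      refine le_trans (conj_map_mono P.X_le m) ?_
      rw [(conj_map_eq_iff_mem_normalizer _ m).mpr hn]
      exact hW
    exact kappa_unique_prime hB hG hM hK h1 (by rw [Cfsg.Agent.Lib.Coprime.card_conj_map, hX]) hXK hX
  · refine sup_le (le_inf hK.1 ((kappa_normal_prime hB hG hM hK hXK hX).trans P.hN)) ?_
    exact le_inf (inf_le_left.trans hσM) (kappa_Kstar_le_partner hB hG hM hK hXK hX P)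

/-- **Symmetry**: the partner has a `κ`-Hall subgroup with the same `Z`. -/
theorem partner_exists_KH (hB : ThmB G) (hG : IsMinSimpleOddOrder G) (hM : IsCoatom M) (hK : IsPiHallOf (kappa M) K M)
    (hXK : X ≤ K) (hX : Nat.card X = p) (P : Partner M H X p) :
    ∃ K₂ : Subgroup G, IsPiHallOf (kappa H) K₂ H ∧ K₂ ≠ ⊥ ∧ sigmaCore M ⊓ centralizer (K : Set G) ≤ K₂ ∧
      K₂ ⊔ (sigmaCore H ⊓ centralizer (K₂ : Set G)) = K ⊔ (sigmaCore M ⊓ centralizer (K : Set G)) ∧
      sigmaCore H ⊓ centralizer (K₂ : Set G) = sigmaCore H ⊓ M := by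
  classical
  have hH := P.hH
  have hC := P.hC
  have hst := kappa_Kstar_eq hB hG hM hK hXK hX
  have hKs1 : sigmaCore M ⊓ centralizer (K : Set G) ≠ ⊥ := hst ▸ hC.hD
  have hKsH := kappa_Kstar_le_partner hB hG hM hK hXK hX P
  have hs := coatom_isSolvable hG hH
  have hprimes : ∀ t : ℕ, t.Prime → t ∣ Nat.card ↥(sigmaCore M ⊓ centralizer (K : Set G)) → t ∈ kappa H := by
    intro t ht hd
    obtain ⟨Y, hYD, hY⟩ := exists_prime_subgroup_of_dvd ht hd
    haveI := Fact.mk ht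
    exact Config.kappa hG (P.config_of_le hB hG hY (hst ▸ hYD)).1.hC
  obtain ⟨K₀, hK₀⟩ := exists_isPiHallOf_solvable (kappa H) hs
  obtain ⟨g, hg, hle⟩ := IsPiHallOf.exists_conj_ge hs hK₀ hKsH hprimes
  have hK₂ := IsPiHallOf.conj_in hK₀ hg
  set K₂ := K₀.map (MulAut.conj g).toMonoidHom with hK₂def
  have hK₂1 : K₂ ≠ ⊥ := fun h => hKs1 (le_bot_iff.mp (h ▸ hle))
  obtain ⟨q, hq, Q, hQD, hQ⟩ := exists_prime_subgroup hKs1
  haveI := Fact.mk hq
  obtain ⟨P', -⟩ := P.config_of_le hB hG hQ (hst ▸ hQD)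
  have hQK₂ : Q ≤ K₂ := hQD.trans hle
  have hinf := partner_inf_eq hB hG hM hK hXK hX P
  have h1 := kappa_normalizer_prime hB hG hH hK₂ hQK₂ hQ
  have h2 : H ⊓ normalizer (Q : Set G) = K ⊔ (sigmaCore M ⊓ centralizer (K : Set G)) := by
    apply le_antisymm
    · rw [← hinf, inf_comm]
      exact inf_le_inf_right _ P'.hN
    · rw [← hinf]
      refine le_inf inf_le_right ?_
      intro z hz
      rw [hinf] at hz
      have hzQ : K ⊔ (sigmaCore M ⊓ centralizer (K : Set G)) ≤ normalizer (Q : Set G) := by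
        refine sup_le ?_ (hle.trans (kappa_normal_prime hB hG hH hK₂ hQK₂ hQ))
        refine le_trans ?_ (centralizer_le_normalizer' Q)
        rw [le_centralizer_iff]
        exact hQD.trans inf_le_right
      exact hzQ hz
  refine ⟨K₂, hK₂, hK₂1, hle, h1.symm.trans h2, ?_⟩
  rw [← kappa_Kstar_eq hB hG hH hK₂ hQK₂ hQ, P'.inf_eq]

end Partner

/-- `L` is a member of the cluster of `Z`: `Z = K K*` for a `κ`-Hall subgroup `K ≠ 1` of `L`. -/
def InCluster (Z L : Subgroup G) : Prop :=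
  IsCoatom L ∧ ∃ K : Subgroup G, IsPiHallOf (kappa L) K L ∧ K ≠ ⊥ ∧ K ⊔ (sigmaCore L ⊓ centralizer (K : Set G)) = Z

section Data

variable {Z L K : Subgroup G}

/-- `K*` of a non-trivial `K` is non-trivial. -/
theorem Kstar_ne_bot (hG : IsMinSimpleOddOrder G) (hB : ThmB G) (hL : IsCoatom L) (hK : IsPiHallOf (kappa L) K L) (hK1 : K ≠ ⊥) :
    sigmaCore L ⊓ centralizer (K : Set G) ≠ ⊥ := by
  obtain ⟨p, hp, X, hXK, hX⟩ := exists_prime_subgroup hK1
  haveI := Fact.mk hp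
  have hC := config_of_kappa hG hL (prime_mem_kappa hK hp hXK hX) hX (hXK.trans hK.1)
  rw [← kappa_Kstar_eq hB hG hL hK hXK hX]
  exact hC.hD

theorem cluster_le (hL : IsCoatom L) (hK : IsPiHallOf (kappa L) K L) (hZ : K ⊔ (sigmaCore L ⊓ centralizer (K : Set G)) = Z) : Z ≤ L := by
  rw [← hZ]
  exact sup_le hK.1 (inf_le_left.trans (piCoreOf_le _ L))

theorem InCluster.le (h : InCluster Z L) : Z ≤ L := by
  obtain ⟨hL, K, hK, -, hZ⟩ := h
  exact cluster_le hL hK hZ

theorem cluster_le_normalizer (hZ : K ⊔ (sigmaCore L ⊓ centralizer (K : Set G)) = Z) : Z ≤ normalizer (K : Set G) := by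
  rw [← hZ]
  exact sup_le le_normalizer (inf_le_right.trans (centralizer_le_normalizer' K))

theorem K_le_cluster (hZ : K ⊔ (sigmaCore L ⊓ centralizer (K : Set G)) = Z) : K ≤ Z := hZ ▸ le_sup_left

/-- `L_σ ∩ Z = K*`. -/
theorem sigma_inf_cluster (hK : IsPiHallOf (kappa L) K L) (hZ : K ⊔ (sigmaCore L ⊓ centralizer (K : Set G)) = Z) :
    sigmaCore L ⊓ Z = sigmaCore L ⊓ centralizer (K : Set G) := by
  apply le_antisymm
  · intro z hz
    have hz2 : z ∈ Z := hz.2
    rw [← hZ, mem_sup_iff_of_le_normalizer (inf_le_right.trans (centralizer_le_normalizer' K))] at hz2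
    obtain ⟨k, hk, d, hd, e⟩ := hz2
    have hkσ : k ∈ K ⊓ sigmaCore L := by
      refine Subgroup.mem_inf.mpr ⟨hk, ?_⟩
      have : k = z * d⁻¹ := by rw [e]; group
      rw [this]
      exact mul_mem hz.1 (inv_mem hd.1)
    rw [kappa_inf_sigmaCore hK, mem_bot] at hkσ
    rw [e, hkσ, one_mul]
    exact hd
  · exact le_inf inf_le_left (hZ ▸ le_sup_right)

/-- The dichotomy for the primes of `Z`. -/
theorem cluster_prime_cases (hG : IsMinSimpleOddOrder G) (hL : IsCoatom L) (hK : IsPiHallOf (kappa L) K L)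
    (hZ : K ⊔ (sigmaCore L ⊓ centralizer (K : Set G)) = Z) {Y : Subgroup G} {y : ℕ} (hy : y.Prime) (hYZ : Y ≤ Z) (hY : Nat.card Y = y) :
    (Y ≤ K ∧ y ∈ kappa L) ∨ (Y ≤ sigmaCore L ⊓ centralizer (K : Set G) ∧ y ∈ sigma L) := by
  classical
  have hd : y ∣ Nat.card Z := by
    rw [← hY]
    exact Subgroup.card_dvd_of_le hYZ
  have hn : sigmaCore L ⊓ centralizer (K : Set G) ≤ normalizer (K : Set G) := inf_le_right.trans (centralizer_le_normalizer' K)
  rw [← hZ] at hd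
  rcases prime_dvd_sup hn hy hd with h | h
  · left
    have hyκ := hK.2.1 y hy h
    refine ⟨?_, hyκ⟩
    have hYn : Y ≤ normalizer (K : Set G) := hYZ.trans (cluster_le_normalizer hZ)
    have hle := le_of_isPiHallOf_of_primes hK (le_sup_left : K ≤ K ⊔ Y)
      (sup_le hK.1 (hYZ.trans (cluster_le hL hK hZ))) (by
        intro t ht htd
        rcases prime_dvd_sup hYn ht htd with h2 | h2
        · exact hK.2.1 t ht h2
        · rw [hY] at h2
          rw [(Nat.prime_dvd_prime_iff_eq ht hy).mp h2]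
          exact hyκ)
    exact le_sup_right.trans hle
  · right
    have hyσ : y ∈ sigma L := piCoreOf_isPi (sigma L) L y hy (h.trans (Subgroup.card_dvd_of_le inf_le_left))
    refine ⟨?_, hyσ⟩
    rw [← sigma_inf_cluster hK hZ]
    refine le_inf ?_ hYZ
    haveI := Fact.mk hy
    exact le_sigmaCore_of_isPGroup hG (huniq13 hG) hL hyσ (isPGroup_of_card_prime hY) (hYZ.trans (cluster_le hL hK hZ))

/-- The unique coatom over the normalizer of a prime subgroup of `K*`. -/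
theorem kstar_prime_unique (hB : ThmB G) (hG : IsMinSimpleOddOrder G) (hL : IsCoatom L) (hK : IsPiHallOf (kappa L) K L) (hK1 : K ≠ ⊥)
    {Y : Subgroup G} {y : ℕ} (hy : y.Prime) (hYD : Y ≤ sigmaCore L ⊓ centralizer (K : Set G)) (hY : Nat.card Y = y) :
    normalizer (Y : Set G) ≤ L ∧ ∀ M' : Subgroup G, IsCoatom M' → normalizer (Y : Set G) ≤ M' → M' = L := by
  classical
  haveI := Fact.mk hy
  have hY1 : Y ≠ ⊥ := ne_bot_of_card_prime hy hY
  have hYt : Y ≠ ⊤ := fun h => hL.1 (top_le_iff.1 (h ▸ (hYD.trans (inf_le_left.trans (piCoreOf_le _ L)))))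
  obtain ⟨p, hp, X, hXK, hX⟩ := exists_prime_subgroup hK1
  haveI := Fact.mk hp
  have hst := kappa_Kstar_eq hB hG hL hK hXK hX
  have hC : Config L X p := config_of_kappa hG hL (prime_mem_kappa hK hp hXK hX) hX (hXK.trans hK.1)
  obtain ⟨H, P⟩ := exists_partner hB hG hC
  obtain ⟨-, huq⟩ := P.config_of_le hB hG hY (hst ▸ hYD)
  refine ⟨?_, huq⟩
  obtain ⟨M', hM', hNM'⟩ := (eq_top_or_exists_le_coatom (normalizer (Y : Set G))).resolve_left
    (IsMinSimpleOddOrder.normalizer_ne_top hG hY1 hYt)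
  rw [← huq M' hM' hNM']
  exact hNM'

/-- The unique coatom over the normalizer of a prime subgroup of `Z`. -/
theorem cluster_prime (hB : ThmB G) (hG : IsMinSimpleOddOrder G) (h : InCluster Z L) {Y : Subgroup G} {y : ℕ} (hy : y.Prime)
    (hYZ : Y ≤ Z) (hY : Nat.card Y = y) :
    ∃ L' : Subgroup G, InCluster Z L' ∧ normalizer (Y : Set G) ≤ L' ∧ Y ≤ sigmaCore L' ∧ y ∈ sigma L' ∧
      ∀ M' : Subgroup G, IsCoatom M' → normalizer (Y : Set G) ≤ M' → M' = L' := by
  classical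
  haveI := Fact.mk hy
  obtain ⟨hL, K, hK, hK1, hZ⟩ := h
  rcases cluster_prime_cases hG hL hK hZ hy hYZ hY with ⟨hYK, hyκ⟩ | ⟨hYD, hyσ⟩
  · -- a prime subgroup of `K`
    have hC : Config L Y y := config_of_kappa hG hL hyκ hY (hYK.trans hK.1)
    obtain ⟨H, P⟩ := exists_partner hB hG hC
    obtain ⟨K₂, hK₂, hK₂1, -, hZ₂, -⟩ := partner_exists_KH hB hG hL hK hYK hY P
    refine ⟨H, ⟨P.hH, K₂, hK₂, hK₂1, hZ₂.trans hZ⟩, P.hN, P.hXσ, P.hpH, ?_⟩
    -- the uniqueness
    obtain ⟨q, hq, Q, hQD, hQ⟩ := exists_prime_subgroup (Kstar_ne_bot hG hB hL hK hK1)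
    haveI := Fact.mk hq
    have hst := kappa_Kstar_eq hB hG hL hK hYK hY
    obtain ⟨P', -⟩ := P.config_of_le hB hG hQ (hst ▸ hQD)
    have hYQ : Y ≤ sigmaCore H ⊓ centralizer (Q : Set G) := by
      refine le_inf P.hXσ ?_
      rw [le_centralizer_iff]
      refine (hQD.trans inf_le_right).trans ?_
      exact Subgroup.centralizer_le hYK
    exact (P'.config_of_le hB hG hY hYQ).2
  · -- a prime subgroup of `K*`
    obtain ⟨h1, huq⟩ := kstar_prime_unique hB hG hL hK hK1 hy hYD hY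
    exact ⟨L, ⟨hL, K, hK, hK1, hZ⟩, h1, hYD.trans inf_le_left, hyσ, huq⟩

/-- Two distinct members of the cluster of `Z` are partners. -/
theorem cluster_partner (hB : ThmB G) (hG : IsMinSimpleOddOrder G) (hL : IsCoatom L) (hK : IsPiHallOf (kappa L) K L) (hK1 : K ≠ ⊥)
    (hZ : K ⊔ (sigmaCore L ⊓ centralizer (K : Set G)) = Z) {L' : Subgroup G} (h' : InCluster Z L') (hne : L' ≠ L) :
    ∃ (Y : Subgroup G) (y : ℕ), ∃ _ : Fact y.Prime, Y ≤ K ∧ Nat.card Y = y ∧ Partner L L' Y y ∧ L ⊓ L' = Z := by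
  classical
  obtain ⟨hL', K', hK', hK'1, hZ'⟩ := h'
  obtain ⟨y, hy, Y, hYD, hY⟩ := exists_prime_subgroup (Kstar_ne_bot hG hB hL' hK' hK'1)
  haveI := Fact.mk hy
  have hYZ : Y ≤ Z := hYD.trans (hZ' ▸ le_sup_right)
  have hp' := (kstar_prime_unique hB hG hL' hK' hK'1 hy hYD hY).1
  rcases cluster_prime_cases hG hL hK hZ hy hYZ hY with ⟨hYK, hyκ⟩ | ⟨hYD', hyσ⟩
  · have hC : Config L Y y := config_of_kappa hG hL hyκ hY (hYK.trans hK.1)
    have P := partner_of_config hB hG hC hL' hp'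
    exact ⟨Y, y, inferInstance, hYK, hY, P, (partner_inf_eq hB hG hL hK hYK hY P).trans hZ⟩
  · exact absurd ((kstar_prime_unique hB hG hL hK hK1 hy hYD' hY).2 L' hL' hp') hne

/-- Two distinct members of the cluster have disjoint `σ`'s. -/
theorem cluster_disj (hB : ThmB G) (hG : IsMinSimpleOddOrder G) {L' : Subgroup G} (h : InCluster Z L) (h' : InCluster Z L') (hne : L' ≠ L) :
    (∀ r : ℕ, r ∈ sigma L' → r ∉ sigma L) ∧ L ⊓ L' = Z := by
  obtain ⟨hL, K, hK, hK1, hZ⟩ := h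
  obtain ⟨Y, y, _, -, -, P, e⟩ := cluster_partner hB hG hL hK hK1 hZ h' hne
  exact ⟨P.disj, e⟩

/-- There is a second member of the cluster. -/
theorem exists_cluster_ne (hB : ThmB G) (hG : IsMinSimpleOddOrder G) (h : InCluster Z L) : ∃ L' : Subgroup G, InCluster Z L' ∧ L' ≠ L := by
  classical
  obtain ⟨hL, K, hK, hK1, hZ⟩ := h
  obtain ⟨p, hp, X, hXK, hX⟩ := exists_prime_subgroup hK1
  haveI := Fact.mk hp
  have hC : Config L X p := config_of_kappa hG hL (prime_mem_kappa hK hp hXK hX) hX (hXK.trans hK.1)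
  obtain ⟨H, P⟩ := exists_partner hB hG hC
  obtain ⟨K₂, hK₂, hK₂1, -, hZ₂, -⟩ := partner_exists_KH hB hG hL hK hXK hX P
  exact ⟨H, ⟨P.hH, K₂, hK₂, hK₂1, hZ₂.trans hZ⟩, P.ne⟩

/-- `L_σ` is not inside `Z`. -/
theorem cluster_sigma_not_le (hB : ThmB G) (hG : IsMinSimpleOddOrder G) (h : InCluster Z L) : ¬ sigmaCore L ≤ Z := by
  classical
  obtain ⟨hL, K, hK, hK1, hZ⟩ := h
  obtain ⟨p, hp, X, hXK, hX⟩ := exists_prime_subgroup hK1
  haveI := Fact.mk hp
  have hC : Config L X p := config_of_kappa hG hL (prime_mem_kappa hK hp hXK hX) hX (hXK.trans hK.1)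
  obtain ⟨H, P⟩ := exists_partner hB hG hC
  obtain ⟨q, hq, Q, hQD, hQ⟩ := exists_prime_subgroup hC.hD
  haveI := Fact.mk hq
  obtain ⟨S, hS, -⟩ := exists_isMaxP_ge (bot_le (a := sigmaCore L)) (IsPGroup.of_bot (p := q))
  obtain ⟨-, hSn⟩ := P.sylow_unique hB hG hQ hQD hS
  intro hle
  apply hSn
  rw [kappa_Kstar_eq hB hG hL hK hXK hX, ← sigma_inf_cluster hK hZ]
  exact le_inf hS.le (hS.le.trans hle)

end Data

end Cfsg.Agent.Lib.FT
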