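import Cfsg.Agent.Lib.FT.BG21c

/-!
BG21d: the mixed set of a cluster.
-/

set_option autoImplicit false
set_option linter.unusedSectionVars false
set_option linter.style.haveILetI false

namespace Cfsg.Agent.Lib.FT

open Subgroup Cfsg Cfsg.Agent.Lib.OddLocal Cfsg.Agent.Lib.Basic Cfsg.Agent.Lib.Coprime

open scoped commutatorElement

variable {G : Type*} [Group G] [Finite G]

theorem mem_zpowers_mul_of_coprime {a b : G} (h : Commute a b) (hc : (orderOf a).Coprime (orderOf b)) : a ∈ zpowers (a * b) := by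
  have hbez := Nat.gcd_eq_gcd_ab (orderOf a) (orderOf b)
  rw [hc.gcd_eq_one] at hbez
  set A := Nat.gcdA (orderOf a) (orderOf b)
  set B := Nat.gcdB (orderOf a) (orderOf b)
  have h1 : a ^ ((orderOf b : ℤ) * B) = a := by
    have e : ((orderOf b : ℤ) * B) = 1 - (orderOf a : ℤ) * A := by
      push_cast at hbez
      linarith
    rw [e, zpow_sub, zpow_one, zpow_mul, zpow_natCast, pow_orderOf_eq_one, one_zpow, inv_one, mul_one]
  have h2 : b ^ ((orderOf b : ℤ) * B) = 1 := by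
    rw [zpow_mul, zpow_natCast, pow_orderOf_eq_one, one_zpow]
  refine ⟨(orderOf b : ℤ) * B, ?_⟩
  change (a * b) ^ ((orderOf b : ℤ) * B) = a
  rw [h.mul_zpow, h1, h2, mul_one]

theorem prank_conj {p k : ℕ} {M : Subgroup G} (c : G) (h : PRankLE p k ↥M) : PRankLE p k ↥(M.map (MulAut.conj c).toMonoidHom) := by
  have hinj : Function.Injective (MulAut.conj c).toMonoidHom := (MulAut.conj c).injective
  exact prank_of_injective (Subgroup.equivMapOfInjective M _ hinj).symm.toMonoidHom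
    (Subgroup.equivMapOfInjective M _ hinj).symm.injective h

/-- `R` under an arbitrary conjugation. -/
theorem supportR_conj_any (hB : ThmB G) (hG : IsMinSimpleOddOrder G) {N : Subgroup G} (hN : IsCoatom N) {x r : G} (c : G)
    (hx : x ∈ sigmaCore N) (hx1 : x ≠ 1) (hr : r ∈ supportR N x) :
    c * r * c⁻¹ ∈ supportR (N.map (MulAut.conj c).toMonoidHom) (c * x * c⁻¹) := by
  classical
  by_cases hr1 : r = 1
  · subst hr1
    simp [one_mem]
  obtain ⟨h1r, -, -, -, -, h6r⟩ := supportR_spec hB hG hN hx hx1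
  obtain ⟨hC, N', hN', hCN', -, hrN'⟩ := h6r r hr hr1
  have hNc := coatom_conj hN c
  have hb : c * x * c⁻¹ ∈ sigmaCore (N.map (MulAut.conj c).toMonoidHom) := by
    rw [sigmaCore_conj]
    exact conj_mem_conj_map _ c x hx
  have hb1 : c * x * c⁻¹ ≠ 1 := by
    intro h
    apply hx1
    have e : x = c⁻¹ * (c * x * c⁻¹) * c := by group
    rw [e, h]
    group
  have hconj : ∀ t : G, t ∈ centralizer ({x} : Set G) ↔ c * t * c⁻¹ ∈ centralizer ({c * x * c⁻¹} : Set G) := by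
    intro t
    rw [mem_centralizer_singleton_iff, mem_centralizer_singleton_iff]
    constructor
    · intro h
      calc c * t * c⁻¹ * (c * x * c⁻¹) = c * (t * x) * c⁻¹ := by group
        _ = c * (x * t) * c⁻¹ := by rw [h]
        _ = _ := by group
    · intro h
      have h2 : c * (t * x) * c⁻¹ = c * (x * t) * c⁻¹ := by
        calc c * (t * x) * c⁻¹ = c * t * c⁻¹ * (c * x * c⁻¹) := by group
          _ = c * x * c⁻¹ * (c * t * c⁻¹) := h
          _ = _ := by group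
      exact mul_left_cancel (mul_right_cancel h2)
  have hCb : ¬ centralizer ({c * x * c⁻¹} : Set G) ≤ N.map (MulAut.conj c).toMonoidHom := by
    intro hle
    apply hC
    intro t ht
    obtain ⟨n, hn, e⟩ := hle ((hconj t).mp ht)
    have e2 : c * n * c⁻¹ = c * t * c⁻¹ := by simpa [MulAut.conj_apply] using e
    have e3 : n = t := mul_left_cancel (mul_right_cancel e2)
    rwa [← e3]
  obtain ⟨N₂, hN₂, hCN₂, huq₂, -, hnil₂, -, -, -, -, -⟩ := thmE_core hB hG hNc hb hb1 hCb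
  have hN'' : IsCoatom (N'.map (MulAut.conj c).toMonoidHom) := coatom_conj hN' c
  have hCm : centralizer ({c * x * c⁻¹} : Set G) ≤ N'.map (MulAut.conj c).toMonoidHom := by
    intro t ht
    have h2 : c⁻¹ * t * c⁻¹⁻¹ ∈ centralizer ({x} : Set G) := by
      rw [hconj]
      have e : c * (c⁻¹ * t * c⁻¹⁻¹) * c⁻¹ = t := by group
      rw [e]
      exact ht
    refine ⟨c⁻¹ * t * c⁻¹⁻¹, hCN' h2, ?_⟩
    simp [MulAut.conj_apply]
    group
  have e := huq₂ _ hN'' hCm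
  rw [supportR_of_unique hG hCb hN₂ hCN₂ huq₂ hnil₂, ← e, sigmaCore_conj]
  exact ⟨conj_mem_conj_map _ c r hrN', (hconj r).mp (h1r hr)⟩

/-- Non-conjugate coatoms have disjoint tilde sets. -/
theorem tilde_disjoint (hB : ThmB G) (hG : IsMinSimpleOddOrder G) {L L' : Subgroup G} (hL : IsCoatom L) (hL' : IsCoatom L')
    (hdisj : ∀ r : ℕ, r ∈ sigma L' → r ∉ sigma L) :
    Disjoint (tildeOf L ((sigmaCore L : Set G) \ {1})) (tildeOf L' ((sigmaCore L' : Set G) \ {1})) := by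
  classical
  rw [Set.disjoint_left]
  rintro g ⟨x, ⟨hx, hx1⟩, r, hr, y, e⟩ ⟨x', ⟨hx', hx'1⟩, r', hr', y', e'⟩
  have hx1' : x ≠ 1 := hx1
  have hx'1' : x' ≠ 1 := hx'1
  set c := y'⁻¹ * y with hc
  have e2 : (c * x * c⁻¹) * (c * r * c⁻¹) = x' * r' := by
    have e3 : y * (x * r) * y⁻¹ = y' * (x' * r') * y'⁻¹ := e.symm.trans e'
    have e4 : x' * r' = y'⁻¹ * (y' * (x' * r') * y'⁻¹) * y' := by group
    rw [e4, ← e3, hc]
    group
  have hb : c * x * c⁻¹ ∈ sigmaCore (L.map (MulAut.conj c).toMonoidHom) := by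
    rw [sigmaCore_conj]
    exact conj_mem_conj_map _ c x hx
  have hb1 : c * x * c⁻¹ ≠ 1 := by
    intro h
    apply hx1'
    have e : x = c⁻¹ * (c * x * c⁻¹) * c := by group
    rw [e, h]
    group
  have hrc := supportR_conj_any hB hG hL c hx hx1' hr
  by_cases hxx : c * x * c⁻¹ = x'
  · have hord : orderOf x' ≠ 1 := fun h => hx'1' (orderOf_eq_one_iff.1 h)
    obtain ⟨t, ht, htd⟩ := Nat.exists_prime_and_dvd hord
    have h1 : t ∈ sigma L' := sigma_of_mem_sigmaCore hx' ht htd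
    have h2 : t ∣ orderOf x := by
      rw [← hxx, orderOf_conj_bg20] at htd
      exact htd
    exact hdisj t h1 (sigma_of_mem_sigmaCore hx ht h2)
  · exact s1433_core hB hG (coatom_conj hL c) hL' hb hx' hb1 hx'1' hxx _ hrc _ hr' e2

theorem one_not_mem_tilde (hB : ThmB G) (hG : IsMinSimpleOddOrder G) {L : Subgroup G} (hL : IsCoatom L) :
    (1 : G) ∉ tildeOf L ((sigmaCore L : Set G) \ {1}) := by
  rintro ⟨x, ⟨hx, hx1⟩, r, hr, y, e⟩
  have hx1' : x ≠ 1 := hx1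
  have hxr : x * r = 1 := by
    have e2 : x * r = y⁻¹ * (y * (x * r) * y⁻¹) * y := by group
    rw [e2, ← e]
    group
  obtain ⟨-, -, h3, -⟩ := supportR_spec hB hG hL hx hx1'
  have hrM : r ∈ L := by
    have : r = x⁻¹ := eq_inv_of_mul_eq_one_right hxr
    rw [this]
    exact inv_mem (piCoreOf_le _ L hx)
  have hr1 : r ∈ supportR L x ⊓ L := Subgroup.mem_inf.mpr ⟨hr, hrM⟩
  rw [h3, mem_bot] at hr1
  rw [hr1, mul_one] at hxr
  exact hx1' hxr

section Mixed

variable {Z M : Subgroup G}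

/-- The elements of `Z` in no `L_σ`. -/
def mixedSet (Z : Subgroup G) : Set G := {z | z ∈ Z ∧ ∀ L : Subgroup G, InCluster Z L → z ∉ sigmaCore L}

theorem cluster_elem (hB : ThmB G) (hG : IsMinSimpleOddOrder G) (h : InCluster Z M) {a : G} (ha : a ∈ Z) (hao : (orderOf a).Prime) :
    ∃ L' : Subgroup G, InCluster Z L' ∧ normalizer (zpowers a : Set G) ≤ L' ∧ a ∈ sigmaCore L' ∧ orderOf a ∈ sigma L' ∧
      ∀ M' : Subgroup G, IsCoatom M' → normalizer (zpowers a : Set G) ≤ M' → M' = L' := by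
  obtain ⟨L', h1, h2, h3, h4, h5⟩ := cluster_prime hB hG h hao (zpowers_le.mpr ha) (Nat.card_zpowers a)
  exact ⟨L', h1, h2, h3 (mem_zpowers a), h4, h5⟩

theorem cluster_eq_of_sigma (hB : ThmB G) (hG : IsMinSimpleOddOrder G) {L L' : Subgroup G} (h : InCluster Z L) (h' : InCluster Z L') {t : ℕ}
    (ht : t ∈ sigma L) (ht' : t ∈ sigma L') : L' = L := by
  by_contra hne
  exact (cluster_disj hB hG h h' hne).1 t ht' ht

/-- An element of the mixed set has prime divisors in two members of the cluster. -/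
theorem mixed_two_primes (hB : ThmB G) (hG : IsMinSimpleOddOrder G) (h₀ : InCluster Z M) {z : G} (hz : z ∈ mixedSet Z) :
    ∃ (L L' : Subgroup G) (a b : G), InCluster Z L ∧ InCluster Z L' ∧ L' ≠ L ∧ a ∈ zpowers z ∧ b ∈ zpowers z ∧
      a ∈ sigmaCore L ∧ b ∈ sigmaCore L' ∧ (orderOf a).Prime ∧ (orderOf b).Prime ∧
      normalizer (zpowers a : Set G) ≤ L ∧ normalizer (zpowers b : Set G) ≤ L' := by
  classical
  have hz1 : z ≠ 1 := by
    rintro rfl
    exact hz.2 M h₀ (one_mem _)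
  have hord : orderOf z ≠ 1 := fun h => hz1 (orderOf_eq_one_iff.1 h)
  obtain ⟨t, ht, htd⟩ := Nat.exists_prime_and_dvd hord
  obtain ⟨a, ha, hao⟩ := exists_mem_zpowers_orderOf htd
  have haZ : a ∈ Z := (zpowers_le.mpr hz.1) ha
  obtain ⟨L, hL, hNL, haL, htL, -⟩ := cluster_elem hB hG h₀ haZ (hao ▸ ht)
  have hex : ∃ t' : ℕ, t'.Prime ∧ t' ∣ orderOf z ∧ t' ∉ sigma L := by
    by_contra hcon
    push Not at hcon
    have h1 : zpowers z ≤ sigmaCore L := le_sigmaCore_of_pi hG hL.1 (zpowers_le.mpr (hL.le hz.1)) (by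
      intro p hp hd
      rw [Nat.card_zpowers] at hd
      exact hcon p hp hd)
    exact hz.2 L hL (h1 (mem_zpowers z))
  obtain ⟨t', ht', ht'd, ht'σ⟩ := hex
  obtain ⟨b, hb, hbo⟩ := exists_mem_zpowers_orderOf ht'd
  have hbZ : b ∈ Z := (zpowers_le.mpr hz.1) hb
  obtain ⟨L', hL', hNL', hbL', ht'L', -⟩ := cluster_elem hB hG h₀ hbZ (hbo ▸ ht')
  refine ⟨L, L', a, b, hL, hL', ?_, ha, hb, haL, hbL', hao ▸ ht, hbo ▸ ht', hNL, hNL'⟩
  rintro rfl
  exact ht'σ (hbo ▸ ht'L')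

/-- **TI**: a conjugate of an element of the mixed set inside `Z` is by an element of `Z`. -/
theorem mixed_TI (hB : ThmB G) (hG : IsMinSimpleOddOrder G) (h₀ : InCluster Z M) {z g : G} (hz : z ∈ mixedSet Z) (hg : g * z * g⁻¹ ∈ Z) : g ∈ Z := by
  classical
  obtain ⟨L, L', a, b, hL, hL', hne, ha, hb, haL, hbL', hao, hbo, hNL, hNL'⟩ := mixed_two_primes hB hG h₀ hz
  have step : ∀ {L₁ : Subgroup G} {a₁ : G}, InCluster Z L₁ → a₁ ∈ zpowers z → a₁ ∈ sigmaCore L₁ → (orderOf a₁).Prime →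
      normalizer (zpowers a₁ : Set G) ≤ L₁ → g⁻¹ ∈ L₁ := by
    intro L₁ a₁ hL₁ ha₁ ha₁L hao₁ hN₁
    have h1 : g * a₁ * g⁻¹ ∈ zpowers (g * z * g⁻¹) := by
      obtain ⟨k, rfl⟩ := mem_zpowers_iff.mp ha₁
      refine ⟨k, ?_⟩
      change (g * z * g⁻¹) ^ k = g * z ^ k * g⁻¹
      exact conj_zpow
    have h2 : g * a₁ * g⁻¹ ∈ L₁ := hL₁.le ((zpowers_le.mpr hg) h1)
    have ha1 : a₁ ≠ 1 := by
      rintro rfl
      rw [orderOf_one] at hao₁
      exact Nat.not_prime_one hao₁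
    obtain ⟨c, hc, m, hm, e⟩ := fusion_core hB hG hL₁.1 ha₁L ha1 (g := g⁻¹) (by simpa using h2)
    rw [e]
    exact L₁.mul_mem (hN₁ (centralizer_le_normalizer_zpowers_of_mem (mem_zpowers a₁) hc)) hm
  have h1 := step hL ha haL hao hNL
  have h2 := step hL' hb hbL' hbo hNL'
  have h3 : g⁻¹ ∈ L ⊓ L' := Subgroup.mem_inf.mpr ⟨h1, h2⟩
  rw [(cluster_disj hB hG hL hL' hne).2] at h3
  simpa using Z.inv_mem h3

/-- `Z` normalizes the mixed set. -/
theorem mixed_conj (h₀ : InCluster Z M) {z g : G} (hz : z ∈ mixedSet Z) (hg : g ∈ Z) : g * z * g⁻¹ ∈ mixedSet Z := by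
  refine ⟨Z.mul_mem (Z.mul_mem hg hz.1) (Z.inv_mem hg), fun L hL hmem => hz.2 L hL ?_⟩
  have hgL : g⁻¹ ∈ L := L.inv_mem (hL.le hg)
  have h1 := (mem_normalizer_iff.mp (le_normalizer_piCoreOf (sigma L) L hgL) _).mp hmem
  have e : g⁻¹ * (g * z * g⁻¹) * g⁻¹⁻¹ = z := by group
  rwa [e] at h1

/-- The mixed set is not empty. -/
theorem mixed_nonempty (hB : ThmB G) (hG : IsMinSimpleOddOrder G) (h₀ : InCluster Z M) : (mixedSet Z).Nonempty := by
  classical
  obtain ⟨L', hL', hne⟩ := exists_cluster_ne hB hG h₀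
  obtain ⟨hM, K, hK, hK1, hZ⟩ := id h₀
  obtain ⟨hL'c, K', hK', hK'1, hZ'⟩ := id hL'
  obtain ⟨Y, y, _, -, -, P, e⟩ := cluster_partner hB hG hM hK hK1 hZ hL' hne
  obtain ⟨a, ha⟩ := (Subgroup.ne_bot_iff_exists_ne_one).mp (Kstar_ne_bot hG hB hM hK hK1)
  obtain ⟨b, hb⟩ := (Subgroup.ne_bot_iff_exists_ne_one).mp (Kstar_ne_bot hG hB hL'c hK' hK'1)
  have ha1 : (a : G) ≠ 1 := fun h => ha (Subtype.ext h)
  have hb1 : (b : G) ≠ 1 := fun h => hb (Subtype.ext h)
  have haZ : (a : G) ∈ Z := (hZ ▸ le_sup_right : _ ≤ Z) a.2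
  have hbZ : (b : G) ∈ Z := (hZ' ▸ le_sup_right : _ ≤ Z) b.2
  have hc : (b : G) * a = a * b := P.comm (Subgroup.mem_inf.mpr ⟨b.2.1, h₀.le hbZ⟩) (Subgroup.mem_inf.mpr ⟨a.2.1, hL'.le haZ⟩)
  have hcop : (orderOf (a : G)).Coprime (orderOf (b : G)) := Nat.coprime_of_dvd fun s hs h1 h2 =>
    P.disj s (sigma_of_mem_sigmaCore b.2.1 hs h2) (sigma_of_mem_sigmaCore a.2.1 hs h1)
  have hcomm : Commute (a : G) b := hc.symm
  have hza := mem_zpowers_mul_of_coprime hcomm hcop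
  have hzb : (b : G) ∈ zpowers ((a : G) * b) := by
    have := mem_zpowers_mul_of_coprime hcomm.symm hcop.symm
    rwa [← hcomm.eq] at this
  refine ⟨(a : G) * b, Z.mul_mem haZ hbZ, ?_⟩
  intro L hL hmem
  have h1 : (a : G) ∈ sigmaCore L := (zpowers_le.mpr hmem) hza
  have h2 : (b : G) ∈ sigmaCore L := (zpowers_le.mpr hmem) hzb
  have hord1 : orderOf (a : G) ≠ 1 := fun h => ha1 (orderOf_eq_one_iff.1 h)
  have hord2 : orderOf (b : G) ≠ 1 := fun h => hb1 (orderOf_eq_one_iff.1 h)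
  obtain ⟨s, hs, hsd⟩ := Nat.exists_prime_and_dvd hord1
  obtain ⟨t, ht, htd⟩ := Nat.exists_prime_and_dvd hord2
  have e1 := cluster_eq_of_sigma hB hG h₀ hL (sigma_of_mem_sigmaCore a.2.1 hs hsd) (sigma_of_mem_sigmaCore h1 hs hsd)
  have e2 := cluster_eq_of_sigma hB hG hL' hL (sigma_of_mem_sigmaCore b.2.1 ht htd) (sigma_of_mem_sigmaCore h2 ht htd)
  exact hne (e2.symm.trans e1)

/-- The mixed set misses all the tilde sets. -/
theorem mixed_not_tilde (hB : ThmB G) (hG : IsMinSimpleOddOrder G) (h₀ : InCluster Z M) {z : G} (hz : z ∈ mixedSet Z) {N : Subgroup G} (hN : IsCoatom N)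
    {x r y : G} (hx : x ∈ sigmaCore N) (hx1 : x ≠ 1) (hr : r ∈ supportR N x) : z ≠ y * (x * r) * y⁻¹ := by
  classical
  intro e
  obtain ⟨h1r, -, h3r, -, h5r, h6r⟩ := supportR_spec hB hG hN hx hx1
  have hxr : r * x = x * r := mem_centralizer_singleton_iff.mp (h1r hr)
  by_cases hr1 : r = 1
  · subst hr1
    rw [mul_one] at e
    obtain ⟨L, L', a, b, hL, hL', hne, ha, hb, haL, hbL', hao, hbo, -, -⟩ := mixed_two_primes hB hG h₀ hz
    have hprim : ∀ {c : G}, c ∈ zpowers z → ∀ t : ℕ, t.Prime → t ∣ orderOf c → t ∈ sigma N := by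
      intro c hc t ht htd
      have h1 : orderOf c ∣ orderOf z := orderOf_dvd_of_mem_zpowers hc
      have h2 : orderOf z = orderOf x := by rw [e, orderOf_conj_bg20]
      exact sigma_of_mem_sigmaCore hx ht (h2 ▸ (htd.trans h1))
    have h1 : orderOf a ∈ sigma N := hprim ha _ hao dvd_rfl
    have h2 : orderOf b ∈ sigma N := hprim hb _ hbo dvd_rfl
    have h3 : orderOf a ∈ sigma L := sigma_of_mem_sigmaCore haL hao dvd_rfl
    have h4 : orderOf b ∈ sigma L' := sigma_of_mem_sigmaCore hbL' hbo dvd_rfl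
    have h5 : orderOf b ∈ sigma L := sigma_eq_of_meet hB hL.1 hN h3 h1 h2
    exact hne (cluster_eq_of_sigma hB hG hL hL' h5 h4)
  · obtain ⟨hC, N₁, hN₁, hCN₁, huq₁, hrN₁⟩ := h6r r hr hr1
    obtain ⟨N₂, hN₂, hCN₂, huq₂, -, -, -, -, -, hτ, -⟩ := thmE_core hB hG hN hx hx1 hC
    have e₂ : N₁ = N₂ := huq₂ N₁ hN₁ hCN₁
    subst e₂
    set x' := y * x * y⁻¹ with hx'
    set r' := y * r * y⁻¹ with hr'
    have ez : z = x' * r' := by
      rw [e, hx', hr']
      group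
    have hcomm : Commute x' r' := by
      change x' * r' = r' * x'
      rw [hx', hr']
      calc y * x * y⁻¹ * (y * r * y⁻¹) = y * (x * r) * y⁻¹ := by group
        _ = y * (r * x) * y⁻¹ := by rw [hxr]
        _ = _ := by group
    have hcop : (orderOf x').Coprime (orderOf r') := by
      rw [hx', hr', orderOf_conj_bg20, orderOf_conj_bg20]
      exact Nat.coprime_of_dvd fun s hs h1 h2 => h5r r hr s hs h2 (sigma_of_mem_sigmaCore hx hs h1)
    have hxz : x' ∈ zpowers z := ez ▸ mem_zpowers_mul_of_coprime hcomm hcop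
    have hrz : r' ∈ zpowers z := by
      have := mem_zpowers_mul_of_coprime hcomm.symm hcop.symm
      rwa [← hcomm.eq, ← ez] at this
    have hordx : orderOf x ≠ 1 := fun h => hx1 (orderOf_eq_one_iff.1 h)
    have hordr : orderOf r ≠ 1 := fun h => hr1 (orderOf_eq_one_iff.1 h)
    obtain ⟨p, hp, hpd⟩ := Nat.exists_prime_and_dvd hordx
    obtain ⟨q, hq, hqd⟩ := Nat.exists_prime_and_dvd hordr
    have hpd' : p ∣ orderOf x' := by rw [hx', orderOf_conj_bg20]; exact hpd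
    have hqd' : q ∣ orderOf r' := by rw [hr', orderOf_conj_bg20]; exact hqd
    obtain ⟨a, ha, hao⟩ := exists_mem_zpowers_orderOf hpd'
    obtain ⟨b, hb, hbo⟩ := exists_mem_zpowers_orderOf hqd'
    have haZ : a ∈ Z := (zpowers_le.mpr hz.1) ((zpowers_le.mpr hxz) ha)
    have hbZ : b ∈ Z := (zpowers_le.mpr hz.1) ((zpowers_le.mpr hrz) hb)
    obtain ⟨Lb, hLb, -, -, hqLb, -⟩ := cluster_elem hB hG h₀ hbZ (hbo ▸ hq)
    rw [hbo] at hqLb
    have hqN₁ : q ∈ sigma N₁ := sigma_of_mem_sigmaCore hrN₁ hq hqd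
    haveI := Fact.mk hq
    obtain ⟨c, ec⟩ := conj_of_sigma_sigma hB hN₁ hLb.1 hqN₁ hqLb
    have hτp := hτ p hp hpd
    obtain ⟨hLbc, Kb, hKb, hKb1, hZb⟩ := hLb
    rcases cluster_prime_cases hG hLbc hKb hZb hp (zpowers_le.mpr haZ) (by rw [Nat.card_zpowers, hao]) with ⟨hY, hpκ⟩ | ⟨-, hpσ⟩
    · apply hτp.2.2.2
      haveI := Fact.mk hp
      have hC' : Config Lb (zpowers a) p := config_of_kappa hG hLbc hpκ (by rw [Nat.card_zpowers, hao]) ((zpowers_le.mpr haZ).trans (cluster_le hLbc hKb hZb))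
      rw [← ec]
      exact prank_conj c hC'.hr
    · apply hτp.2.1
      haveI := Fact.mk hp
      rw [← ec]
      exact sigma_conj_of_mem hpσ c

end Mixed

end Cfsg.Agent.Lib.FT
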