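import Cfsg.Agent.Lib.FT.BG21d

/-!
BG21e: the counting lemma for a cluster.
-/

set_option autoImplicit false
set_option linter.unusedSectionVars false
set_option linter.style.haveILetI false

namespace Cfsg.Agent.Lib.FT

open Subgroup Cfsg Cfsg.Agent.Lib.OddLocal Cfsg.Agent.Lib.Basic Cfsg.Agent.Lib.Coprime

open scoped commutatorElement

variable {G : Type*} [Group G] [Finite G]

/-- The numerical core of the count. -/
theorem count_num {ι : Type*} (s : Finset ι) (a j w : ι → ℤ) (i z m : ℤ) (hi : 0 ≤ i)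
    (h1 : ∑ L ∈ s, (a L - 1) * j L + i * m + 1 ≤ i * z)
    (h2 : m + ∑ L ∈ s, (w L - 1) + 1 = z)
    (h3 : ∀ L ∈ s, j L * a L = i * w L)
    (h4 : ∀ L ∈ s, 3 * j L ≤ i)
    (h5 : 2 ≤ s.card) : False := by
  have e1 : ∑ L ∈ s, (a L - 1) * j L = i * ∑ L ∈ s, w L - ∑ L ∈ s, j L := by
    rw [Finset.mul_sum, ← Finset.sum_sub_distrib]
    refine Finset.sum_congr rfl fun L hL => ?_
    have := h3 L hL
    linear_combination this
  have e2 : ∑ L ∈ s, (w L - 1) = ∑ L ∈ s, w L - (s.card : ℤ) := by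
    rw [Finset.sum_sub_distrib]
    simp
  have e3 : 3 * ∑ L ∈ s, j L ≤ (s.card : ℤ) * i := by
    rw [Finset.mul_sum]
    have := Finset.sum_le_card_nsmul s (fun L => 3 * j L) i (fun L hL => h4 L hL)
    simpa using this
  rw [e1] at h1
  rw [e2] at h2
  set S := ∑ L ∈ s, w L
  set T := ∑ L ∈ s, j L
  set n : ℤ := (s.card : ℤ) with hn
  have hn2 : (2 : ℤ) ≤ n := by
    rw [hn]
    exact_mod_cast h5
  have hz : z = m + (S - n) + 1 := h2.symm
  rw [hz] at h1
  nlinarith [mul_nonneg hi (sub_nonneg.mpr hn2)]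

/-- The number of conjugates of a TI-type set. -/
theorem card_conj_TI {Z : Subgroup G} {S : Set G} (hN : ∀ g ∈ Z, ∀ z ∈ S, g * z * g⁻¹ ∈ S)
    (hSZ : ∀ z ∈ S, z ∈ Z) (hTI : ∀ z ∈ S, ∀ g : G, g * z * g⁻¹ ∈ Z → g ∈ Z) :
    Set.ncard {a : G | ∃ g : G, ∃ z ∈ S, a = g * z * g⁻¹} * Nat.card Z = Nat.card G * Set.ncard S := by
  classical
  haveI := Fintype.ofFinite G
  set B : Set G := {a : G | ∃ g : G, ∃ z ∈ S, a = g * z * g⁻¹} with hB
  have hSf := Set.toFinite S
  have hBf := Set.toFinite B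
  let P : Finset (G × G) := (Finset.univ : Finset G) ×ˢ hSf.toFinset
  let f : G × G → G := fun p => p.1 * p.2 * p.1⁻¹
  have hmaps : ∀ p ∈ P, f p ∈ hBf.toFinset := by
    intro p hp
    rw [Set.Finite.mem_toFinset]
    have h1 := (Finset.mem_product.mp hp).2
    rw [Set.Finite.mem_toFinset] at h1
    exact ⟨p.1, p.2, h1, rfl⟩
  have hfib := Finset.card_eq_sum_card_fiberwise (f := f) (s := P) (t := hBf.toFinset) hmaps
  let Zf : Finset G := Finset.univ.filter (fun x => x ∈ Z)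
  have hZf : Zf.card = Nat.card Z := by
    rw [Nat.card_eq_fintype_card, Fintype.card_subtype]
  have hfiber : ∀ b ∈ hBf.toFinset, (P.filter (fun p => f p = b)).card = Nat.card Z := by
    intro b hb
    rw [Set.Finite.mem_toFinset] at hb
    obtain ⟨g₀, z₀, hz₀, rfl⟩ := hb
    rw [← hZf]
    refine Finset.card_bij' (fun p _ => g₀⁻¹ * p.1) (fun h _ => (g₀ * h, h⁻¹ * z₀ * h)) ?_ ?_ ?_ ?_
    · intro p hp
      obtain ⟨hp1, hp2⟩ := Finset.mem_filter.mp hp
      have h1 := (Finset.mem_product.mp hp1).2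
      rw [Set.Finite.mem_toFinset] at h1
      simp only [Zf, Finset.mem_filter, Finset.mem_univ, true_and]
      refine hTI p.2 h1 _ ?_
      have e : g₀⁻¹ * p.1 * p.2 * (g₀⁻¹ * p.1)⁻¹ = g₀⁻¹ * (p.1 * p.2 * p.1⁻¹) * g₀ := by group
      rw [e]
      change g₀⁻¹ * f p * g₀ ∈ Z
      rw [hp2]
      have e2 : g₀⁻¹ * (g₀ * z₀ * g₀⁻¹) * g₀ = z₀ := by group
      rw [e2]
      exact hSZ z₀ hz₀
    · intro h hh
      have hhZ : h ∈ Z := by simpa [Zf] using hh
      refine Finset.mem_filter.mpr ⟨Finset.mem_product.mpr ⟨Finset.mem_univ _, ?_⟩, ?_⟩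
      · rw [Set.Finite.mem_toFinset]
        have := hN h⁻¹ (Z.inv_mem hhZ) z₀ hz₀
        simpa using this
      · simp only [f]
        group
    · intro p hp
      obtain ⟨hp1, hp2⟩ := Finset.mem_filter.mp hp
      have e1 : g₀ * (g₀⁻¹ * p.1) = p.1 := by group
      have e2 : (g₀⁻¹ * p.1)⁻¹ * z₀ * (g₀⁻¹ * p.1) = p.2 := by
        have e3 : p.1 * p.2 * p.1⁻¹ = g₀ * z₀ * g₀⁻¹ := hp2
        have e4 : z₀ = g₀⁻¹ * (g₀ * z₀ * g₀⁻¹) * g₀ := by group
        rw [e4, ← e3]
        group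
      exact Prod.ext e1 e2
    · intro h _
      simp
  rw [Finset.sum_congr rfl hfiber, Finset.sum_const, smul_eq_mul, Finset.card_product, Finset.card_univ,
    ← Nat.card_eq_fintype_card] at hfib
  rw [Set.ncard_eq_toFinset_card B hBf, Set.ncard_eq_toFinset_card S hSf]
  exact hfib.symm

section Count

variable {Z M : Subgroup G}

/-- The index relation. -/
theorem three_le_of_cluster (hB : ThmB G) (hG : IsMinSimpleOddOrder G) {L : Subgroup G} (h : InCluster Z L) :
    3 * Nat.card ↥(sigmaCore L ⊓ Z) ≤ Nat.card (sigmaCore L) := by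
  classical
  obtain ⟨d, hd⟩ : Nat.card ↥(sigmaCore L ⊓ Z) ∣ Nat.card (sigmaCore L) := Subgroup.card_dvd_of_le inf_le_left
  have hodd : Odd (Nat.card (sigmaCore L)) := subgroup_odd hG _
  have hdodd : Odd d := by
    rw [hd] at hodd
    exact (Nat.odd_mul.mp hodd).2
  have hd1 : d ≠ 1 := by
    rintro rfl
    rw [mul_one] at hd
    apply cluster_sigma_not_le hB hG h
    have : sigmaCore L ⊓ Z = sigmaCore L := Subgroup.eq_of_le_of_card_ge inf_le_left hd.le
    rw [← this]
    exact inf_le_right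
  have hd3 : 3 ≤ d := by
    obtain ⟨k, rfl⟩ := hdodd
    omega
  rw [hd, mul_comm]
  exact Nat.mul_le_mul_left _ hd3

/-- **The counting lemma**: the cluster of `Z` cannot have all its members with `U = 1`. -/
theorem cluster_count (hB : ThmB G) (hG : IsMinSimpleOddOrder G) (h₀ : InCluster Z M)
    (hU : ∀ L : Subgroup G, InCluster Z L → Nat.card L * Nat.card ↥(sigmaCore L ⊓ Z) = Nat.card (sigmaCore L) * Nat.card Z) : False := by
  classical
  haveI := Fintype.ofFinite G
  have hfin : {L : Subgroup G | InCluster Z L}.Finite := Set.toFinite _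
  set 𝓛 : Finset (Subgroup G) := hfin.toFinset with h𝓛
  have hmem : ∀ L, L ∈ 𝓛 ↔ InCluster Z L := fun L => by simp [h𝓛]
  let A : Subgroup G → Finset G := fun L => (Set.toFinite (tildeOf L ((sigmaCore L : Set G) \ {1}))).toFinset
  have hAmem : ∀ L g, g ∈ A L ↔ g ∈ tildeOf L ((sigmaCore L : Set G) \ {1}) := fun L g => by simp [A]
  set Bs : Set G := {a : G | ∃ g : G, ∃ z ∈ mixedSet Z, a = g * z * g⁻¹} with hBs
  let Bm : Finset G := (Set.toFinite Bs).toFinset
  have hBmem : ∀ g, g ∈ Bm ↔ g ∈ Bs := fun g => by simp only [Bm, Set.Finite.mem_toFinset]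
  -- disjointness
  have hd1 : ∀ L ∈ 𝓛, ∀ L' ∈ 𝓛, L ≠ L' → Disjoint (A L) (A L') := by
    intro L hL L' hL' hne
    rw [hmem] at hL hL'
    rw [Finset.disjoint_left]
    intro g h1 h2
    rw [hAmem] at h1 h2
    exact (Set.disjoint_left.mp (tilde_disjoint hB hG hL.1 hL'.1 (cluster_disj hB hG hL hL' hne.symm).1)) h1 h2
  have hd2 : Disjoint (𝓛.biUnion A) Bm := by
    rw [Finset.disjoint_biUnion_left]
    intro L hL
    rw [hmem] at hL
    rw [Finset.disjoint_left]
    intro g h1 h2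
    rw [hAmem] at h1
    rw [hBmem] at h2
    obtain ⟨x, ⟨hx, hx1⟩, r, hr, y, e⟩ := h1
    obtain ⟨g₁, z, hz, e₁⟩ := h2
    refine mixed_not_tilde hB hG h₀ hz hL.1 hx hx1 hr (y := g₁⁻¹ * y) ?_
    have e2 : z = g₁⁻¹ * (g₁ * z * g₁⁻¹) * g₁ := by group
    rw [e2, ← e₁, e]
    group
  have hone1 : (1 : G) ∉ 𝓛.biUnion A := by
    intro h
    obtain ⟨L, hL, h2⟩ := Finset.mem_biUnion.mp h
    rw [hmem] at hL
    rw [hAmem] at h2
    exact one_not_mem_tilde hB hG hL.1 h2
  have hone2 : (1 : G) ∉ Bm := by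
    intro h
    rw [hBmem] at h
    obtain ⟨g, z, hz, e⟩ := h
    have hz1 : z = 1 := by
      have e2 : z = g⁻¹ * (g * z * g⁻¹) * g := by group
      rw [e2, ← e]
      group
    exact hz.2 M h₀ (hz1 ▸ one_mem _)
  -- the total
  have htot : (insert (1 : G) ((𝓛.biUnion A) ∪ Bm)).card ≤ Nat.card G := by
    rw [Nat.card_eq_fintype_card]
    exact Finset.card_le_univ _
  rw [Finset.card_insert_of_notMem (by
    rw [Finset.mem_union]
    rintro (h | h)
    · exact hone1 h
    · exact hone2 h), Finset.card_union_of_disjoint hd2, Finset.card_biUnion hd1] at htot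
  -- the sizes of the tilde sets
  have hAcard : ∀ L ∈ 𝓛, (A L).card = (Nat.card (sigmaCore L) - 1) * L.index := by
    intro L hL
    rw [hmem] at hL
    rw [← s1377_core hB hG hL.1, Set.ncard_eq_toFinset_card _ (Set.toFinite _)]
  -- the mixed set
  have hBcard := card_conj_TI (Z := Z) (S := mixedSet Z) (fun g hg z hz => mixed_conj h₀ hz hg) (fun z hz => hz.1)
    (fun z hz g hg => mixed_TI hB hG h₀ hz hg)
  rw [← hBs, Set.ncard_eq_toFinset_card Bs (Set.toFinite Bs)] at hBcard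
  set m := Set.ncard (mixedSet Z) with hm
  -- the partition of `Z`
  let Dset : Subgroup G → Finset G := fun L => Finset.univ.filter (fun x => x ∈ sigmaCore L ⊓ Z ∧ x ≠ 1)
  have hDcard : ∀ L, (Dset L).card + 1 = Nat.card ↥(sigmaCore L ⊓ Z) := by
    intro L
    have h1 : Dset L = (Finset.univ.filter (fun x => x ∈ sigmaCore L ⊓ Z)).erase 1 := by
      ext x
      simp [Dset, and_comm]
    have h2 : (Finset.univ.filter (fun x => x ∈ sigmaCore L ⊓ Z)).card = Nat.card ↥(sigmaCore L ⊓ Z) := by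
      rw [Nat.card_eq_fintype_card, Fintype.card_subtype]
    rw [h1, Finset.card_erase_of_mem (by simp [one_mem]), h2]
    have h3 : 0 < Nat.card ↥(sigmaCore L ⊓ Z) := Nat.card_pos
    omega
  have hDdisj : ∀ L ∈ 𝓛, ∀ L' ∈ 𝓛, L ≠ L' → Disjoint (Dset L) (Dset L') := by
    intro L hL L' hL' hne
    rw [hmem] at hL hL'
    rw [Finset.disjoint_left]
    intro x h1 h2
    have h1' := (Finset.mem_filter.mp h1).2
    have h2' := (Finset.mem_filter.mp h2).2
    have hord : orderOf x ≠ 1 := fun h => h1'.2 (orderOf_eq_one_iff.1 h)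
    obtain ⟨t, ht, htd⟩ := Nat.exists_prime_and_dvd hord
    exact hne (cluster_eq_of_sigma hB hG hL' hL (sigma_of_mem_sigmaCore h2'.1.1 ht htd) (sigma_of_mem_sigmaCore h1'.1.1 ht htd))
  let Mf : Finset G := (Set.toFinite (mixedSet Z)).toFinset
  have hMmem : ∀ x, x ∈ Mf ↔ x ∈ mixedSet Z := fun x => by simp [Mf]
  have hMcard : Mf.card = m := by
    rw [hm, Set.ncard_eq_toFinset_card _ (Set.toFinite _)]
  have hZpart : insert (1 : G) (Mf ∪ 𝓛.biUnion Dset) = Finset.univ.filter (fun x => x ∈ Z) := by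
    ext x
    simp only [Finset.mem_insert, Finset.mem_union, Finset.mem_biUnion, Finset.mem_filter, Finset.mem_univ, true_and, hMmem, hmem]
    constructor
    · rintro (rfl | h | ⟨L, -, h⟩)
      · exact one_mem _
      · exact h.1
      · exact (Finset.mem_filter.mp h).2.1.2
    · intro hx
      by_cases hx1 : x = 1
      · exact Or.inl hx1
      right
      by_cases hxm : x ∈ mixedSet Z
      · exact Or.inl hxm
      right
      have : ∃ L, InCluster Z L ∧ x ∈ sigmaCore L := by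
        by_contra hcon
        push Not at hcon
        exact hxm ⟨hx, hcon⟩
      obtain ⟨L, hL, hxL⟩ := this
      exact ⟨L, hL, Finset.mem_filter.mpr ⟨Finset.mem_univ _, Subgroup.mem_inf.mpr ⟨hxL, hx⟩, hx1⟩⟩
  have hZcard : (Finset.univ.filter (fun x => x ∈ Z)).card = Nat.card Z := by
    rw [Nat.card_eq_fintype_card, Fintype.card_subtype]
  have hZsum : m + ∑ L ∈ 𝓛, (Nat.card ↥(sigmaCore L ⊓ Z) - 1) + 1 = Nat.card Z := by
    rw [← hZcard, ← hZpart, Finset.card_insert_of_notMem, Finset.card_union_of_disjoint, Finset.card_biUnion hDdisj, hMcard]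
    · congr 2
      refine Finset.sum_congr rfl fun L _ => ?_
      have := hDcard L
      omega
    · rw [Finset.disjoint_biUnion_right]
      intro L _
      rw [Finset.disjoint_left]
      intro x h1 h2
      rw [hMmem] at h1
      have h2' := (Finset.mem_filter.mp h2).2
      rw [hmem] at *
      exact h1.2 L ‹_› h2'.1.1
    · rw [Finset.mem_union]
      rintro (h | h)
      · rw [hMmem] at h
        exact h.2 M h₀ (one_mem _)
      · obtain ⟨L, -, h2⟩ := Finset.mem_biUnion.mp h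
        exact (Finset.mem_filter.mp h2).2.2 rfl
  -- the numbers
  set i := Z.index with hi
  have hGZ : Nat.card Z * i = Nat.card G := Subgroup.card_mul_index Z
  have hZpos : 0 < Nat.card Z := Nat.card_pos
  have hBm : Bm.card = i * m := by
    have : Bm.card * Nat.card Z = (i * m) * Nat.card Z := by
      rw [hBcard, ← hGZ]
      ring
    exact Nat.eq_of_mul_eq_mul_right hZpos this
  have h3 : ∀ L ∈ 𝓛, L.index * Nat.card (sigmaCore L) = i * Nat.card ↥(sigmaCore L ⊓ Z) := by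
    intro L hL
    rw [hmem] at hL
    have h1 := hU L hL
    have h2 : Nat.card L * L.index = Nat.card G := Subgroup.card_mul_index L
    have : (L.index * Nat.card (sigmaCore L)) * Nat.card Z = (i * Nat.card ↥(sigmaCore L ⊓ Z)) * Nat.card Z := by
      calc (L.index * Nat.card (sigmaCore L)) * Nat.card Z = L.index * (Nat.card (sigmaCore L) * Nat.card Z) := by ring
        _ = L.index * (Nat.card L * Nat.card ↥(sigmaCore L ⊓ Z)) := by rw [h1]
        _ = (Nat.card L * L.index) * Nat.card ↥(sigmaCore L ⊓ Z) := by ring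
        _ = (Nat.card Z * i) * Nat.card ↥(sigmaCore L ⊓ Z) := by rw [h2, hGZ]
        _ = _ := by ring
    exact Nat.eq_of_mul_eq_mul_right hZpos this
  have h4 : ∀ L ∈ 𝓛, 3 * L.index ≤ i := by
    intro L hL
    have h31 := h3 L hL
    rw [hmem] at hL
    have h1 := three_le_of_cluster hB hG hL
    have hzpos : 0 < Nat.card ↥(sigmaCore L ⊓ Z) := Nat.card_pos
    have : (3 * L.index) * Nat.card ↥(sigmaCore L ⊓ Z) ≤ i * Nat.card ↥(sigmaCore L ⊓ Z) := by
      rw [← h31]
      calc (3 * L.index) * Nat.card ↥(sigmaCore L ⊓ Z) = L.index * (3 * Nat.card ↥(sigmaCore L ⊓ Z)) := by ring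
        _ ≤ _ := Nat.mul_le_mul_left _ h1
    exact Nat.le_of_mul_le_mul_right this hzpos
  have h5 : 2 ≤ 𝓛.card := by
    obtain ⟨L', hL', hne⟩ := exists_cluster_ne hB hG h₀
    have : 1 < 𝓛.card := Finset.one_lt_card.mpr ⟨M, (hmem M).mpr h₀, L', (hmem L').mpr hL', hne.symm⟩
    omega
  -- assembling
  have hsum : ∑ L ∈ 𝓛, (A L).card = ∑ L ∈ 𝓛, (Nat.card (sigmaCore L) - 1) * L.index := Finset.sum_congr rfl hAcard
  rw [hsum, hBm, ← hGZ] at htot
  refine count_num 𝓛 (fun L => (Nat.card (sigmaCore L) : ℤ)) (fun L => (L.index : ℤ)) (fun L => (Nat.card ↥(sigmaCore L ⊓ Z) : ℤ))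
    (i : ℤ) (Nat.card Z : ℤ) (m : ℤ) (by positivity) ?_ ?_ ?_ ?_ h5
  · have hc : (∑ L ∈ 𝓛, ((Nat.card (sigmaCore L) : ℤ) - 1) * (L.index : ℤ)) = ((∑ L ∈ 𝓛, (Nat.card (sigmaCore L) - 1) * L.index : ℕ) : ℤ) := by
      push_cast
      refine Finset.sum_congr rfl fun L _ => ?_
      rw [Nat.cast_sub (Nat.card_pos)]
      simp
    rw [hc]
    have htot' : ∑ L ∈ 𝓛, (Nat.card (sigmaCore L) - 1) * L.index + i * m + 1 ≤ i * Nat.card Z := by
      rw [mul_comm i (Nat.card Z)]
      exact htot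
    exact_mod_cast htot'
  · have hc : (∑ L ∈ 𝓛, ((Nat.card ↥(sigmaCore L ⊓ Z) : ℤ) - 1)) = ((∑ L ∈ 𝓛, (Nat.card ↥(sigmaCore L ⊓ Z) - 1) : ℕ) : ℤ) := by
      push_cast
      refine Finset.sum_congr rfl fun L _ => ?_
      rw [Nat.cast_sub (Nat.card_pos)]
      simp
    rw [hc]
    exact_mod_cast hZsum
  · intro L hL
    exact_mod_cast h3 L hL
  · intro L hL
    exact_mod_cast h4 L hL

end Count

end Cfsg.Agent.Lib.FT
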