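import Cfsg.Agent.Lib.FT.BG21f
import Cfsg.Agent.Lib.FT.BG19e

/-!
BG21g: the partner `M*` of `M`, the set `Ẑ`.
-/

set_option autoImplicit false
set_option linter.unusedSectionVars false
set_option linter.style.haveILetI false

namespace Cfsg.Agent.Lib.FT

open Subgroup Cfsg Cfsg.Agent.Lib.OddLocal Cfsg.Agent.Lib.Basic Cfsg.Agent.Lib.Coprime

open scoped commutatorElement

variable {G : Type*} [Group G] [Finite G]

/-- Commuting cyclic subgroups of coprime order. -/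
theorem cyclic_sup_of_coprime {A B : Subgroup G} (hA : IsCyclic A) (hB : IsCyclic B) (hc : A ≤ centralizer (B : Set G))
    (hcop : (Nat.card A).Coprime (Nat.card B)) : IsCyclic ↥(A ⊔ B) := by
  classical
  obtain ⟨a, ha⟩ := hA.exists_ofOrder_eq_natCard
  obtain ⟨b, hb⟩ := hB.exists_ofOrder_eq_natCard
  have hoa : orderOf (a : G) = Nat.card A := by rw [Subgroup.orderOf_coe, ha]
  have hob : orderOf (b : G) = Nat.card B := by rw [Subgroup.orderOf_coe, hb]
  have hcomm : Commute (a : G) b := (mem_centralizer_iff.mp (hc a.2) b b.2).symm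
  have ho := hcomm.orderOf_mul_eq_mul_orderOf_of_coprime (by rw [hoa, hob]; exact hcop)
  have hn : B ≤ normalizer (A : Set G) := by
    refine le_trans ?_ (centralizer_le_normalizer' A)
    rw [le_centralizer_iff]
    exact hc
  have hcard := Cfsg.Agent.Lib.OddLocal.card_sup_mul_card_inf hn
  rw [Subgroup.inf_eq_bot_of_coprime hcop, Subgroup.card_bot, mul_one] at hcard
  refine isCyclic_of_orderOf_eq_card (⟨(a : G) * b, mul_mem (Subgroup.mem_sup_left a.2) (Subgroup.mem_sup_right b.2)⟩ : ↥(A ⊔ B)) ?_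
  rw [hcard, ← hoa, ← hob, ← ho, ← Subgroup.orderOf_coe]

section Pair

variable {M K Mstar : Subgroup G}

theorem exists_prime_partner (hB : ThmB G) (hG : IsMinSimpleOddOrder G) (hM : IsCoatom M) (hK : IsPiHallOf (kappa M) K M) (hK1 : K ≠ ⊥) :
    ∃ (X H : Subgroup G) (p : ℕ), ∃ _ : Fact p.Prime, X ≤ K ∧ Nat.card X = p ∧ Partner M H X p := by
  obtain ⟨p, hp, X, hXK, hX⟩ := exists_prime_subgroup hK1
  haveI := Fact.mk hp
  have hC : Config M X p := config_of_kappa hG hM (prime_mem_kappa hK hp hXK hX) hX (hXK.trans hK.1)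
  obtain ⟨H, P⟩ := exists_partner hB hG hC
  exact ⟨X, H, p, inferInstance, hXK, hX, P⟩

/-- **S1366 core, existence**. -/
theorem exists_mstar (hB : ThmB G) (hG : IsMinSimpleOddOrder G) (hM : IsCoatom M) (hK : IsPiHallOf (kappa M) K M) (hK1 : K ≠ ⊥) :
    ∃ H : Subgroup G, IsCoatom H ∧ K = sigmaCore H ⊓ centralizer ((sigmaCore M ⊓ centralizer (K : Set G) : Subgroup G) : Set G) ∧
      IsPiHallOf (kappa H) (sigmaCore M ⊓ centralizer (K : Set G)) H := by
  obtain ⟨X, H, p, _, hXK, hX, P⟩ := exists_prime_partner hB hG hM hK hK1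
  obtain ⟨-, K₂, hK₂, e, h⟩ := K_eq_sigma_inf_of_partner hB hG hM hK hK1 hXK hX P
  subst e
  exact ⟨H, P.hH, h, hK₂⟩

theorem mstar_inCluster (hB : ThmB G) (hG : IsMinSimpleOddOrder G) (hM : IsCoatom M) (hK : IsPiHallOf (kappa M) K M) (hK1 : K ≠ ⊥)
    (hMstar : IsCoatom Mstar) (hKst : K = sigmaCore Mstar ⊓ centralizer ((sigmaCore M ⊓ centralizer (K : Set G) : Subgroup G) : Set G))
    (hKstH : IsPiHallOf (kappa Mstar) (sigmaCore M ⊓ centralizer (K : Set G)) Mstar) :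
    InCluster (K ⊔ (sigmaCore M ⊓ centralizer (K : Set G))) Mstar := by
  refine ⟨hMstar, _, hKstH, Kstar_ne_bot hG hB hM hK hK1, ?_⟩
  rw [← hKst, sup_comm]

theorem mstar_ne (hK : IsPiHallOf (kappa M) K M) (hK1 : K ≠ ⊥)
    (hKst : K = sigmaCore Mstar ⊓ centralizer ((sigmaCore M ⊓ centralizer (K : Set G) : Subgroup G) : Set G)) : Mstar ≠ M := by
  rintro rfl
  apply hK1
  have h1 : K ≤ K ⊓ sigmaCore Mstar := le_inf le_rfl (hKst.le.trans inf_le_left)
  rw [kappa_inf_sigmaCore hK] at h1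
  exact le_bot_iff.mp h1

/-- `M*` is the partner. -/
theorem mstar_partner (hB : ThmB G) (hG : IsMinSimpleOddOrder G) (hM : IsCoatom M) (hK : IsPiHallOf (kappa M) K M) (hK1 : K ≠ ⊥)
    (hMstar : IsCoatom Mstar) (hKst : K = sigmaCore Mstar ⊓ centralizer ((sigmaCore M ⊓ centralizer (K : Set G) : Subgroup G) : Set G))
    (hKstH : IsPiHallOf (kappa Mstar) (sigmaCore M ⊓ centralizer (K : Set G)) Mstar) {X : Subgroup G} {p : ℕ} [Fact p.Prime]
    (hXK : X ≤ K) (hX : Nat.card X = p) : Partner M Mstar X p := by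
  have hC : Config M X p := config_of_kappa hG hM (prime_mem_kappa hK Fact.out hXK hX) hX (hXK.trans hK.1)
  obtain ⟨H, P⟩ := exists_partner hB hG hC
  obtain ⟨K₂, hK₂, hK₂1, -, hZ₂, -⟩ := partner_exists_KH hB hG hM hK hXK hX P
  have hh : InCluster (K ⊔ (sigmaCore M ⊓ centralizer (K : Set G))) M := ⟨hM, K, hK, hK1, rfl⟩
  have hh₂ : InCluster (K ⊔ (sigmaCore M ⊓ centralizer (K : Set G))) H := ⟨P.hH, K₂, hK₂, hK₂1, hZ₂⟩
  rcases cluster_eq_or_eq hB hG (mstar_inCluster hB hG hM hK hK1 hMstar hKst hKstH) hh hh₂ P.ne with h | h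
  · exact absurd h (mstar_ne hK hK1 hKst)
  · rw [h]
    exact P

/-- **S1366 core.** -/
theorem s1366_core (hB : ThmB G) (hG : IsMinSimpleOddOrder G) (hM : IsCoatom M) (hK : IsPiHallOf (kappa M) K M) (hK1 : K ≠ ⊥) :
    ∃! H : Subgroup G, IsCoatom H ∧ K = sigmaCore H ⊓ centralizer ((sigmaCore M ⊓ centralizer (K : Set G) : Subgroup G) : Set G) ∧
      IsPiHallOf (kappa H) (sigmaCore M ⊓ centralizer (K : Set G)) H := by
  obtain ⟨H, hH, h1, h2⟩ := exists_mstar hB hG hM hK hK1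
  refine ⟨H, ⟨hH, h1, h2⟩, ?_⟩
  rintro H' ⟨hH', h1', h2'⟩
  have hh := mstar_inCluster hB hG hM hK hK1 hH h1 h2
  have hh' := mstar_inCluster hB hG hM hK hK1 hH' h1' h2'
  have hh₀ : InCluster (K ⊔ (sigmaCore M ⊓ centralizer (K : Set G))) M := ⟨hM, K, hK, hK1, rfl⟩
  rcases cluster_eq_or_eq hB hG hh' hh₀ hh (mstar_ne hK hK1 h1) with h | h
  · exact absurd h (mstar_ne hK hK1 h1')
  · exact h

/-- **S1368 core.** -/
theorem s1368_core (hB : ThmB G) (hG : IsMinSimpleOddOrder G) (hM : IsCoatom M) (hK : IsPiHallOf (kappa M) K M) (hK1 : K ≠ ⊥)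
    (hMstar : IsCoatom Mstar) (hKst : K = sigmaCore Mstar ⊓ centralizer ((sigmaCore M ⊓ centralizer (K : Set G) : Subgroup G) : Set G))
    (hKstH : IsPiHallOf (kappa Mstar) (sigmaCore M ⊓ centralizer (K : Set G)) Mstar) :
    M ⊓ Mstar = K ⊔ (sigmaCore M ⊓ centralizer (K : Set G)) ∧ IsCyclic ↥(K ⊔ (sigmaCore M ⊓ centralizer (K : Set G))) := by
  obtain ⟨p, hp, X, hXK, hX⟩ := exists_prime_subgroup hK1
  haveI := Fact.mk hp
  have P := mstar_partner hB hG hM hK hK1 hMstar hKst hKstH hXK hX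
  refine ⟨partner_inf_eq hB hG hM hK hXK hX P, ?_⟩
  refine cyclic_sup_of_coprime (kappa_cyclic hB hG hM hK) (kappa_cyclic hB hG hMstar hKstH) ?_ ?_
  · rw [le_centralizer_iff]
    exact inf_le_right
  · exact Nat.coprime_of_dvd fun s hs h1 h2 => primes_kappa_not_sigma hK s hs h1 (piCoreOf_isPi (sigma M) M s hs (h2.trans (Subgroup.card_dvd_of_le inf_le_left)))

/-- `K*` as a subgroup. -/
abbrev Kst (M K : Subgroup G) : Subgroup G := sigmaCore M ⊓ centralizer (K : Set G)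

/-- The set `Ẑ`. -/
abbrev Zhat (M K : Subgroup G) : Set G := ((K ⊔ Kst M K : Subgroup G) : Set G) \ ((K : Set G) ∪ (Kst M K : Subgroup G))

theorem K_inf_Kst (hK : IsPiHallOf (kappa M) K M) : K ⊓ Kst M K = ⊥ := by
  rw [eq_bot_iff, ← kappa_inf_sigmaCore hK]
  exact inf_le_inf_left _ inf_le_left

/-- `Ẑ` is the mixed set. -/
theorem mixed_eq_zhat (hB : ThmB G) (hG : IsMinSimpleOddOrder G) (hM : IsCoatom M) (hK : IsPiHallOf (kappa M) K M) (hK1 : K ≠ ⊥) :
    mixedSet (K ⊔ Kst M K) = Zhat M K := by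
  classical
  obtain ⟨X, H, p, _, hXK, hX, P⟩ := exists_prime_partner hB hG hM hK hK1
  obtain ⟨K₂, hK₂, hK₂1, -, hZ₂, -⟩ := partner_exists_KH hB hG hM hK hXK hX P
  obtain ⟨hKe, -⟩ := K_eq_sigma_inf_of_partner hB hG hM hK hK1 hXK hX P
  have hh : InCluster (K ⊔ Kst M K) M := ⟨hM, K, hK, hK1, rfl⟩
  have hh₂ : InCluster (K ⊔ Kst M K) H := ⟨P.hH, K₂, hK₂, hK₂1, hZ₂⟩
  ext z
  constructor
  · rintro ⟨hz, hn⟩
    refine ⟨hz, ?_⟩
    rintro (h | h)
    · exact hn H hh₂ ((hKe.le.trans inf_le_left) h)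
    · exact hn M hh h.1
  · rintro ⟨hz, hn⟩
    refine ⟨hz, fun L hL hzL => ?_⟩
    have hz' : z ∈ K ⊔ Kst M K := hz
    rcases cluster_eq_or_eq hB hG hL hh hh₂ P.ne with rfl | rfl
    · apply hn
      right
      have h1 : z ∈ sigmaCore L ⊓ (K ⊔ Kst L K) := Subgroup.mem_inf.mpr ⟨hzL, hz'⟩
      rw [sigma_inf_cluster hK rfl] at h1
      exact h1
    · apply hn
      left
      rw [SetLike.mem_coe, hKe]
      exact Subgroup.mem_inf.mpr ⟨hzL, hh.le hz'⟩

/-- **S1370 core.** -/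
theorem s1370_core (hB : ThmB G) (hG : IsMinSimpleOddOrder G) (hM : IsCoatom M) (hK : IsPiHallOf (kappa M) K M) (hK1 : K ≠ ⊥) :
    IsTISubset (Zhat M K) ∧ normalizer (Zhat M K) = K ⊔ Kst M K := by
  classical
  have hh : InCluster (K ⊔ Kst M K) M := ⟨hM, K, hK, hK1, rfl⟩
  rw [← mixed_eq_zhat hB hG hM hK hK1]
  have hN : normalizer (mixedSet (K ⊔ Kst M K)) = K ⊔ Kst M K := by
    apply le_antisymm
    · intro g hg
      obtain ⟨z, hz⟩ := mixed_nonempty hB hG hh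
      exact mixed_TI hB hG hh hz ((Subgroup.mem_set_normalizer_iff.mp hg z).mp hz).1
    · intro g hg
      rw [Subgroup.mem_set_normalizer_iff]
      intro h
      refine ⟨fun hh' => mixed_conj hh hh' hg, fun hh' => ?_⟩
      have := mixed_conj hh hh' ((K ⊔ Kst M K).inv_mem hg)
      have e : g⁻¹ * (g * h * g⁻¹) * g⁻¹⁻¹ = h := by group
      rwa [e] at this
  refine ⟨?_, hN⟩
  intro g hg x hx hgx
  exfalso
  apply hg
  rw [hN]
  exact mixed_TI hB hG hh hx hgx.1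

end Pair

end Cfsg.Agent.Lib.FT
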