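import Cfsg.Agent.Lib.FT.BG19l
import Cfsg.Agent.Lib.FT.BG20l

/-!
BG23a: first steps of the structure of a maximal subgroup whose Fitting subgroup is not TI.
-/

set_option autoImplicit false
set_option linter.unusedSectionVars false
set_option linter.style.haveILetI false

namespace Cfsg.Agent.Lib.FT

open Subgroup Cfsg Cfsg.Agent.Lib.OddLocal Cfsg.Agent.Lib.Basic

open Cfsg.Agent.Lib.Coprime (mem_conj_map conj_mem_conj_map conj_map_conj_map conj_map_one
  conj_map_mono conj_map_eq_iff_mem_normalizer isPGroup_conj_map mem_normalizer_of_conj_le)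

variable {G : Type*} [Group G] [Finite G] {M K U : Subgroup G}

/-- S1: if `F(M)` is not TI, then `M_F = M_σ`. -/
theorem nonTI_eq (hB : ThmB G) (hG : IsMinSimpleOddOrder G) (hM : IsCoatom M) (hKU : IsSigmaDecomposition M K U)
    {g : G} (hg : g ∉ M) (hX : fittingOf M ⊓ (fittingOf M).map (MulAut.conj g).toMonoidHom ≠ ⊥) :
    fittingHallOf M = sigmaCore M := by
  classical
  by_contra hne
  obtain ⟨-, hTI, -⟩ := s1357_core hB hG hM hKU hne (fun h1 h2 => s1373_core hB hG hM hKU h1 h2)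
  obtain ⟨x, hx, hx1⟩ := (Subgroup.bot_or_exists_ne_one _).resolve_left hX
  obtain ⟨hxF, y, hy, hyx⟩ := Subgroup.mem_inf.1 hx
  have hyx' : g * y * g⁻¹ = x := hyx
  have hF1 : fittingOf M ≠ ⊥ := by
    intro h
    rw [h, bot_inf_eq] at hX
    exact hX rfl
  have hN : normalizer (fittingOf M : Set G) = M :=
    normalizer_eq_of_coatom_le hG hM hF1 (fittingOf_le M) (fittingOf_normalized M)
  have hgN : g ∉ normalizer (fittingOf M : Set G) := by
    rw [hN]
    exact hg
  have := hTI g hgN y hy (by rw [hyx']; exact hxF)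
  apply hx1
  rw [← hyx', this]
  group

/-- S2: prime order elements of `X` lie in `M_σ`. -/
theorem nonTI_mem (hB : ThmB G) (hG : IsMinSimpleOddOrder G) (hM : IsCoatom M) (hKU : IsSigmaDecomposition M K U)
    {g : G} (hg : g ∉ M) (hX : fittingOf M ⊓ (fittingOf M).map (MulAut.conj g).toMonoidHom ≠ ⊥) {x : G}
    (hx : x ∈ fittingOf M ⊓ (fittingOf M).map (MulAut.conj g).toMonoidHom) (hxp : (orderOf x).Prime) :
    orderOf x ∈ sigma M := by
  classical
  by_contra hσ
  have huniq := huniq13 hG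
  have hF := nonTI_eq hB hG hM hKU hg hX
  obtain ⟨hH1, hH2, hH3⟩ := (s1350_core hG huniq hM).1
  have hσM : sigmaCore M ≤ M := piCoreOf_le _ M
  have hnil : Group.IsNilpotent (sigmaCore M) := hF ▸ fittingHallOf_isNilpotent M
  have hσn : M ≤ normalizer (sigmaCore M : Set G) := le_normalizer_piCoreOf (sigma M) M
  have hσF : sigmaCore M ≤ fittingOf M := le_fittingOf hσM hσn hnil
  have hFn := fittingOf_isNilpotent (M := M)
  obtain ⟨hxF, y, hy, hyx⟩ := Subgroup.mem_inf.1 hx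
  have hyx' : g * y * g⁻¹ = x := hyx
  have hordy : orderOf y = orderOf x := by
    rw [← hyx']
    simp [orderOf_conj_bg20]
  -- a prime order element outside `σ` centralizes `M_σ`
  have hcomm : ∀ w ∈ fittingOf M, orderOf w = orderOf x → ∀ v ∈ sigmaCore M, w * v = v * w := by
    intro w hw hwo v hv
    apply Cfsg.Agent.Lib.OddLocal.comm_of_coprime_of_nilpotent_subgroup hFn hw (hσF hv)
    rw [hwo]
    haveI := Fact.mk hxp
    have h1 : (orderOf x).Prime := hxp
    refine ((Nat.Prime.coprime_iff_not_dvd h1).2 fun hd => hσ ?_)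
    have h2 : orderOf x ∣ Nat.card (sigmaCore M) := hd.trans (Subgroup.orderOf_dvd_natCard _ hv)
    exact hH2 _ h1 h2
  obtain ⟨v, hv, hv1⟩ := (Subgroup.bot_or_exists_ne_one _).resolve_left (sigmaCore_ne_bot hG huniq hM)
  have hxM : x ∈ M := fittingOf_le M hxF
  have hx1 : x ≠ 1 := by
    intro h
    rw [h, orderOf_one] at hxp
    exact Nat.not_prime_one hxp
  have hxc : x ∈ M ⊓ centralizer ({v} : Set G) := by
    refine Subgroup.mem_inf.2 ⟨hxM, ?_⟩
    rw [mem_centralizer_singleton_iff]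
    exact hcomm x hxF rfl v hv
  have hσ' : ∀ p : ℕ, p.Prime → p ∣ orderOf x → p ∉ sigma M := by
    intro p hp hd
    rw [(Nat.prime_dvd_prime_iff_eq hp hxp).1 hd]
    exact hσ
  rcases s1432_core hB hG hM hv hv1 hxc hx1 hσ' with ⟨h1, -⟩ | ⟨-, -, hC, -⟩
  · -- the `κ` case
    have hκ : orderOf x ∈ kappa M := h1 _ hxp dvd_rfl
    have hTκ : ∀ r : ℕ, r.Prime → r ∣ Nat.card (zpowers x) → r ∈ kappa M := by
      intro r hr hd
      rw [Nat.card_zpowers] at hd
      rw [(Nat.prime_dvd_prime_iff_eq hr hxp).1 hd]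
      exact hκ
    obtain ⟨m, hm, hle⟩ := IsPiHallOf.exists_conj_ge (coatom_isSolvable hG hM) hKU.hall
      (Subgroup.zpowers_le.2 hxM) hTκ
    obtain ⟨k, hk, hkx⟩ := hle (Subgroup.mem_zpowers x)
    have hkx' : m * k * m⁻¹ = x := hkx
    have hk1 : k ≠ 1 := by
      rintro rfl
      apply hx1
      rw [← hkx']
      group
    have hK1 : K ≠ ⊥ := by
      intro h
      subst h
      exact hk1 (Subgroup.mem_bot.1 hk)
    refine not_kappa_centralizes_fittingHallOf hB hG hM hKU.hall hK1 (by rw [hF]; exact inf_le_left) hk hk1 ?_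
    rw [hF]
    intro v' hv'
    rw [mem_centralizer_singleton_iff]
    have hmi : m⁻¹ ∈ M := M.inv_mem hm
    have hv'' : m * v' * m⁻¹ ∈ sigmaCore M := (Subgroup.mem_normalizer_iff.1 (hσn hm) v').1 hv'
    have h5 := hcomm x hxF rfl _ hv''
    rw [← hkx'] at h5
    have h6 : m * (k * v') * m⁻¹ = m * (v' * k) * m⁻¹ := by
      calc m * (k * v') * m⁻¹ = m * k * m⁻¹ * (m * v' * m⁻¹) := by group
        _ = m * v' * m⁻¹ * (m * k * m⁻¹) := h5
        _ = m * (v' * k) * m⁻¹ := by group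
    have h7 : k * v' = v' * k := by
      have h8 := mul_left_cancel (mul_right_cancel h6)
      exact h8
    exact h7.symm
  · -- `C(x) ≤ M`, so `(M_σ)^g ≤ M`
    have hle : (sigmaCore M).map (MulAut.conj g).toMonoidHom ≤ M := by
      rintro _ ⟨v', hv', rfl⟩
      apply hC
      rw [mem_centralizer_singleton_iff]
      show (g * v' * g⁻¹) * x = x * (g * v' * g⁻¹)
      rw [← hyx']
      have := hcomm y hy hordy v' hv'
      calc g * v' * g⁻¹ * (g * y * g⁻¹) = g * (v' * y) * g⁻¹ := by group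
        _ = g * (y * v') * g⁻¹ := by rw [this]
        _ = g * y * g⁻¹ * (g * v' * g⁻¹) := by group
    have h1 : (sigmaCore M).map (MulAut.conj g).toMonoidHom ≤ sigmaCore M := by
      apply le_sigmaCore_of_pi hG hM hle
      intro p hp hd
      rw [Nat.card_congr (Subgroup.equivMapOfInjective _ _ (MulAut.conj g).injective).symm.toEquiv] at hd
      exact hH2 p hp hd
    have h2 : normalizer (sigmaCore M : Set G) = M :=
      normalizer_eq_of_coatom_le hG hM (sigmaCore_ne_bot hG huniq hM) hσM hσn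
    apply hg
    rw [← h2]
    exact Cfsg.Agent.Lib.Coprime.mem_normalizer_of_conj_le _ _ (fun u hu => h1 ⟨u, hu, rfl⟩)

/-- An element of prime order of `X`. -/
theorem nonTI_exists_z (hB : ThmB G) (hG : IsMinSimpleOddOrder G) (hM : IsCoatom M) (hKU : IsSigmaDecomposition M K U)
    {g : G} (hg : g ∉ M) (hX : fittingOf M ⊓ (fittingOf M).map (MulAut.conj g).toMonoidHom ≠ ⊥) :
    ∃ z ∈ fittingOf M ⊓ (fittingOf M).map (MulAut.conj g).toMonoidHom, (orderOf z).Prime ∧ orderOf z ∈ sigma M ∧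
      z ∈ sigmaCore M ∧ ¬ centralizer ({z} : Set G) ≤ M := by
  classical
  have huniq := huniq13 hG
  set X := fittingOf M ⊓ (fittingOf M).map (MulAut.conj g).toMonoidHom with hXdef
  have hc : Nat.card X ≠ 1 := by
    intro h
    exact hX ((Subgroup.card_eq_one).1 h)
  obtain ⟨q, hq, hqd⟩ := Nat.exists_prime_and_dvd hc
  haveI := Fact.mk hq
  obtain ⟨z, hz⟩ := exists_prime_orderOf_dvd_card' q hqd
  have hz' : orderOf (z : G) = q := by
    rw [← hz]
    exact Subgroup.orderOf_coe z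
  have hzX : (z : G) ∈ X := z.2
  have hp : (orderOf (z : G)).Prime := by rw [hz']; exact hq
  have hσ := nonTI_mem hB hG hM hKU hg hX hzX hp
  have hzM : (z : G) ∈ M := fittingOf_le M (Subgroup.mem_inf.1 hzX).1
  have hzσ : (z : G) ∈ sigmaCore M := by
    apply le_sigmaCore_of_pi hG hM (Subgroup.zpowers_le.2 hzM) (Y := zpowers (z : G)) ?_ (Subgroup.mem_zpowers _)
    intro r hr hd
    rw [Nat.card_zpowers] at hd
    rw [(Nat.prime_dvd_prime_iff_eq hr hp).1 hd]
    exact hσ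
  refine ⟨z, hzX, hp, hσ, hzσ, ?_⟩
  intro hC
  have hz1 : (z : G) ≠ 1 := by
    intro h
    rw [h, orderOf_one] at hz'
    exact hq.one_lt.ne hz'
  obtain ⟨y, hy, hyz⟩ := (Subgroup.mem_inf.1 hzX).2
  have hyz' : g * y * g⁻¹ = z := hyz
  have h1 : g⁻¹ * (z : G) * g ∈ M := by
    rw [← hyz']
    have : g⁻¹ * (g * y * g⁻¹) * g = y := by group
    rw [this]
    exact fittingOf_le M hy
  obtain ⟨c, hc', m, hm, e⟩ := fusion_core hB hG hM hzσ hz1 h1
  apply hg
  rw [e]
  exact M.mul_mem (hC hc') hm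

/-- Going from `Oq` to `pCore`. -/
theorem not_comm_pCore_of_Oq {H : Subgroup G} {p : ℕ} (h : ¬ IsMulCommutative (Oq p H)) :
    ¬ IsMulCommutative (pCore p ↥H) := by
  intro h1
  apply h
  refine ⟨⟨?_⟩⟩
  rintro ⟨_, a, ha, rfl⟩ ⟨_, b, hb, rfl⟩
  have := h1.is_comm.comm ⟨a, ha⟩ ⟨b, hb⟩
  apply Subtype.ext
  have h2 : (a : ↥H) * b = b * a := congrArg Subtype.val this
  have h3 : ((a : ↥H) : G) * ((b : ↥H) : G) = ((b : ↥H) : G) * ((a : ↥H) : G) := congrArg Subtype.val h2
  exact h3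

/-- The data attached to an element `z` of `M_σ` with `C(z) ≰ M`. -/
theorem nonTI_partner (hB : ThmB G) (hG : IsMinSimpleOddOrder G) (hM : IsCoatom M) {z : G} (hzσ : z ∈ sigmaCore M)
    (hz1 : z ≠ 1) (hC : ¬ centralizer ({z} : Set G) ≤ M) :
    ∃ N : Subgroup G, IsCoatom N ∧ centralizer ({z} : Set G) ≤ N ∧ N ≠ M ∧ IsComplIn (M ⊓ N) (sigmaCore N) N ∧
      (∀ r : ℕ, r.Prime → r ∣ Nat.card ↥(M ⊓ N) → r ∉ sigma N) ∧
      (∀ Y : Subgroup G, Y ≤ M ⊓ N → Group.IsNilpotent Y → IsMulCommutative Y) := by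
  classical
  obtain ⟨N, ⟨hN, hCN⟩, -, -, -, -, hc, -⟩ := s1375_core hB hG hM hzσ hz1 hC
  have hprimes : ∀ r : ℕ, r.Prime → r ∣ Nat.card ↥(M ⊓ N) → r ∉ sigma N :=
    fun r hr hd => compl_prime_not_sigma hG hN hc hr hd
  refine ⟨N, hN, hCN, ?_, hc, hprimes, ?_⟩
  · rintro rfl
    exact hC hCN
  · intro Y hY hn
    apply s1420_a hG (huniq13 hG) (hpl13 hG) (h1412_of hG) hN Y (hY.trans inf_le_right) hn
    intro r hr hd
    exact hprimes r hr (hd.trans (Subgroup.card_dvd_of_le hY))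

/-- The `p'`-part of `H` is cyclic when `O_p(H)` is not abelian. -/
theorem nonTI_cyclic (hG : IsMinSimpleOddOrder G) {H N : Subgroup G} (hHn : Group.IsNilpotent H) {p : ℕ} [Fact p.Prime]
    (hN : IsCoatom N)
    (hOq : Oq' p H ≤ N) (hD : ∀ r : ℕ, r.Prime → r ∣ Nat.card (Oq' p H) → r ∉ sigma N)
    (hP : ¬ Oq p H ≤ N) : IsCyclic ↥(pPrimeCore p ↥H) := by
  classical
  haveI : Group.IsNilpotent ↥H := hHn
  haveI : IsZGroup ↥(pPrimeCore p ↥H) := by
    refine ⟨fun q hq S => ?_⟩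
    haveI := Fact.mk hq
    by_contra hnc
    set Q : Subgroup G := (((S : Subgroup ↥(pPrimeCore p ↥H)).map (pPrimeCore p ↥H).subtype).map H.subtype) with hQ
    have hQD : Q ≤ Oq' p H := by
      rintro _ ⟨_, ⟨y, hy, rfl⟩, rfl⟩
      exact ⟨_, y.2, rfl⟩
    have hqp : IsPGroup q Q := by
      have h1 := S.isPGroup'
      exact (h1.map (pPrimeCore p ↥H).subtype).map H.subtype
    have hncQ : ¬ IsCyclic Q := by
      intro hc
      apply hnc
      have e1 := Subgroup.equivMapOfInjective (S : Subgroup ↥(pPrimeCore p ↥H)) (pPrimeCore p ↥H).subtype (Subgroup.subtype_injective _)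
      have e2 := Subgroup.equivMapOfInjective ((S : Subgroup ↥(pPrimeCore p ↥H)).map (pPrimeCore p ↥H).subtype) H.subtype (Subgroup.subtype_injective _)
      have e3 := e1.trans e2
      exact isCyclic_of_surjective e3.symm.toMonoidHom e3.symm.surjective
    obtain ⟨A, hAQ, hAe, hAc⟩ := exists_e2_of_not_cyclic hG hqp hncQ
    have hAN : A ≤ N := hAQ.trans (hQD.trans hOq)
    have hqσ : q ∉ sigma N := by
      apply hD q hq
      have h1 : Nat.card A ∣ Nat.card (Oq' p H) := Subgroup.card_dvd_of_le (hAQ.trans hQD)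
      rw [hAc] at h1
      exact (dvd_pow_self q two_ne_zero).trans h1
    have T := Tau2Setup.mk' hG (huniq13 hG) (hpl13 hG) hN hAN hAe hAc hqσ
    apply hP
    refine le_trans ?_ T.hCM
    intro a ha
    rw [Subgroup.mem_centralizer_iff]
    intro b hb
    exact (Oq_comm_Oq' hHn ha (hQD (hAQ hb))).symm
  infer_instance

/-- The two cases for a maximal subgroup whose Fitting subgroup is not TI. -/
theorem nonTI_cases (hB : ThmB G) (hG : IsMinSimpleOddOrder G) (hM : IsCoatom M) (hKU : IsSigmaDecomposition M K U)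
    {g : G} (hg : g ∉ M) (hX : fittingOf M ⊓ (fittingOf M).map (MulAut.conj g).toMonoidHom ≠ ⊥) :
    ∃ p : ℕ, p.Prime ∧ p ∈ sigma M ∧ p ∉ beta M ∧
      ((K = ⊥ ∧ IsMulCommutative (fittingHallOf M)) ∨
        (¬ IsMulCommutative (pCore p ↥(fittingHallOf M)) ∧ IsCyclic (pPrimeCore p ↥(fittingHallOf M)))) := by
  classical
  have hF := nonTI_eq hB hG hM hKU hg hX
  obtain ⟨z, hzX, hzp, hzs, hzσ, hC⟩ := nonTI_exists_z hB hG hM hKU hg hX
  have hz1 : z ≠ 1 := by
    intro h
    rw [h, orderOf_one] at hzp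
    exact Nat.not_prime_one hzp
  obtain ⟨N, hN, hCN, hNM, hc, hprimes, hcomm⟩ := nonTI_partner hB hG hM hzσ hz1 hC
  set p := orderOf z with hp
  haveI := Fact.mk hzp
  have hnil : Group.IsNilpotent (fittingHallOf M) := fittingHallOf_isNilpotent M
  have hzH : z ∈ fittingHallOf M := hF ▸ hzσ
  have hzP : z ∈ Oq p (fittingHallOf M) := mem_Oq hnil hzH (k := 1) (by rw [pow_one, hp]; exact pow_orderOf_eq_one z)
  have hHM : fittingHallOf M ≤ M := (fittingHallOf_le_sigmaCore hG hM).trans (piCoreOf_le _ M)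
  have hDC : Oq' p (fittingHallOf M) ≤ N := by
    intro b hb
    apply hCN
    rw [mem_centralizer_singleton_iff]
    exact (Oq_comm_Oq' hnil hzP hb).symm
  have hDM : Oq' p (fittingHallOf M) ≤ M ⊓ N := le_inf ((Oq'_le p _).trans hHM) hDC
  have hβ : p ∉ beta M := by
    refine (s1426_inter (h1412_of hG) hG hM hg).2.1 p hzp ?_
    have h1 : z ∈ sigmaCore M ⊓ M.map (MulAut.conj g).toMonoidHom := by
      refine Subgroup.mem_inf.2 ⟨hzσ, ?_⟩
      exact conj_map_mono (fittingOf_le M) g (Subgroup.mem_inf.1 hzX).2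
    exact Subgroup.orderOf_dvd_natCard _ h1
  refine ⟨p, hzp, hzs, hβ, ?_⟩
  by_cases hab : IsMulCommutative (Oq p (fittingHallOf M))
  · left
    have hHN : fittingHallOf M ≤ centralizer ({z} : Set G) := by
      intro x hx
      obtain ⟨a, ha, b, hb, rfl⟩ := exists_parts p hnil hx
      rw [mem_centralizer_singleton_iff]
      have h1 : a * z = z * a := by
        have := hab.is_comm.comm ⟨a, ha⟩ ⟨z, hzP⟩
        exact congrArg Subtype.val this
      have h2 := Oq_comm_Oq' hnil hzP hb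
      calc a * b * z = a * (z * b) := by rw [mul_assoc, h2]
        _ = (a * z) * b := by group
        _ = z * a * b := by rw [h1]
        _ = z * (a * b) := by group
    refine ⟨?_, hcomm _ (le_inf hHM (hHN.trans hCN)) hnil⟩
    by_contra hK1
    have h1 := Kstar_ne_bot hG hB hM hKU.hall hK1
    have hc1 : Nat.card ↥(sigmaCore M ⊓ centralizer (K : Set G)) ≠ 1 := fun h => h1 (Subgroup.card_eq_one.1 h)
    obtain ⟨r, hr, hrd⟩ := Nat.exists_prime_and_dvd hc1
    haveI := Fact.mk hr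
    obtain ⟨S⟩ : Nonempty (Sylow r ↥(sigmaCore M)) := inferInstance
    obtain ⟨hU, hSM, -⟩ := (s1431_core hB hG hM hKU.hall hK1).2.2.1 r hr hrd S
    have hSσ : (S : Subgroup ↥(sigmaCore M)).map (sigmaCore M).subtype ≤ sigmaCore M := Subgroup.map_subtype_le _
    have hSN : (S : Subgroup ↥(sigmaCore M)).map (sigmaCore M).subtype ≤ N :=
      hSσ.trans (hF ▸ hHN.trans hCN)
    exact hNM (hU.unique ⟨hN, hSN⟩ ⟨hM, hSM⟩)
  · right
    refine ⟨not_comm_pCore_of_Oq hab, nonTI_cyclic hG hnil hN hDC ?_ ?_⟩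
    · intro r hr hd
      exact hprimes r hr (hd.trans (Subgroup.card_dvd_of_le hDM))
    · intro hP
      exact hab (hcomm _ (le_inf ((Oq_le p _).trans hHM) hP) (isNilpotent_of_le (Oq_le p _) hnil))

/-- The input of `s1383_core`. -/
theorem nonTI_of_kappa (hB : ThmB G) (hG : IsMinSimpleOddOrder G) (hM : IsCoatom M) (hKU : IsSigmaDecomposition M K U)
    {g : G} (hg : g ∉ M) (hX : fittingOf M ⊓ (fittingOf M).map (MulAut.conj g).toMonoidHom ≠ ⊥) (hK1 : K ≠ ⊥) :
    ∃ p : ℕ, p.Prime ∧ p ∈ sigma M ∧ p ∉ beta M ∧ ¬ IsMulCommutative (pCore p ↥(fittingHallOf M)) ∧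
      IsCyclic (pPrimeCore p ↥(fittingHallOf M)) := by
  obtain ⟨p, hp, h1, h2, h3⟩ := nonTI_cases hB hG hM hKU hg hX
  rcases h3 with h3 | h3
  · exact absurd h3.1 hK1
  · exact ⟨p, hp, h1, h2, h3.1, h3.2⟩

end Cfsg.Agent.Lib.FT
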