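import Cfsg.Agent.Lib.FT.BG3b
import Cfsg.Prelude.Def_OddOrderLocal
import Cfsg.Prelude.Def_Local

/-!
The Main Lemma of BG section 3, as a statement (`BG3Main`), to split the work on S1444.
-/

set_option autoImplicit false

namespace Cfsg.Agent.Lib.FT

open Module Subgroup Cfsg
open scoped commutatorElement

universe u

/-- **Main Lemma (BG 3)**: `T ⊴ Γ` (solvable, odd), `R` coprime to `T`, `x ∈ R` of prime order, `T = [T, R]`, acting on an
`F_p[Γ]`-module `M`, `T` faithful, `O_p(T) = 1`, `dim C_M(x) ≤ 1`, `C_T(x)` a Z-group. Then `T` is a `p'`-group. -/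
def BG3Main : Prop :=
  ∀ (Γ : Type u) [Group Γ] [Finite Γ] [Group.IsSolvable Γ] (_ : Odd (Nat.card Γ)) (p : ℕ) [Fact p.Prime]
    (M : Type u) [AddCommGroup M] [Module (ZMod p) M] [FiniteDimensional (ZMod p) M]
    (ρ : Γ →* End (ZMod p) M) (T R : Subgroup Γ) [T.Normal] (_ : (Nat.card T).Coprime (Nat.card R))
    (x : Γ) (_ : x ∈ R) (r : ℕ) (_ : r.Prime) (_ : x ^ r = 1) (_ : x ≠ 1)
    (_ : ∀ a ∈ T, ρ a = 1 → a = 1) (_ : pCore p ↥T = ⊥)
    (_ : finrank (ZMod p) (fx ρ (zpowers x)) ≤ 1)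
    (_ : IsZGroup ↥(T ⊓ centralizer ({x} : Set Γ))) (_ : ⁅T, R⁆ = T), ¬ p ∣ Nat.card T

end Cfsg.Agent.Lib.FT
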