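import Cfsg.Agent.Lib.FT.BG3a
import Cfsg.Agent.Lib.FT.FrobFix
import Cfsg.Agent.Lib.Coprime.Abelian
import Cfsg.Agent.Lib.Coprime.Conj

/-!
BG section 3: a minimal invariant subgroup not centralized by a normal subgroup (`MinNC`),
and the theorem `T*`: if `x` of prime order normalizes a `q`-subgroup `S` (`q` odd, coprime to everything),
and `x` has no nonzero fixed vector, then `[S, x]` acts trivially.
-/

set_option autoImplicit false
set_option linter.unusedSectionVars false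
set_option linter.style.haveILetI false

namespace Cfsg.Agent.Lib.FT

open Module Subgroup
open scoped commutatorElement

section MinNC

variable {X : Type*} [Group X] [Finite X]

/-- `y` normalizes a commutator if it normalizes both terms. -/
theorem normalizer_commutator {A B : Subgroup X} {y : X} (hA : y ∈ normalizer (A : Set X))
    (hB : y ∈ normalizer (B : Set X)) : y ∈ normalizer ((⁅A, B⁆ : Subgroup X) : Set X) := by
  rw [← Cfsg.Agent.Lib.Coprime.conj_map_eq_iff_mem_normalizer] at hA hB ⊢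
  rw [Subgroup.map_commutator, hA, hB]

/-- `y` normalizes the centralizer of what it normalizes. -/
theorem normalizer_centralizer {A : Subgroup X} {y : X} (hA : y ∈ normalizer (A : Set X)) :
    y ∈ normalizer ((centralizer (A : Set X) : Subgroup X) : Set X) := by
  apply Cfsg.Agent.Lib.Coprime.mem_normalizer_of_conj_le
  intro c hc
  rw [Subgroup.mem_centralizer_iff] at hc ⊢
  intro a ha
  have h1 : y⁻¹ * a * y ∈ A := by
    have := (Subgroup.mem_normalizer_iff.mp (inv_mem hA) a).mp ha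
    simpa using this
  have h2 := hc _ h1
  calc a * (y * c * y⁻¹) = y * ((y⁻¹ * a * y) * c) * y⁻¹ := by group
    _ = y * (c * (y⁻¹ * a * y)) * y⁻¹ := by rw [h2]
    _ = y * c * y⁻¹ * a := by group

theorem normalizer_inf {A B : Subgroup X} {y : X} (hA : y ∈ normalizer (A : Set X))
    (hB : y ∈ normalizer (B : Set X)) : y ∈ normalizer ((A ⊓ B : Subgroup X) : Set X) := by
  rw [Subgroup.mem_normalizer_iff] at hA hB ⊢
  intro a
  exact and_congr (hA a) (hB a)

/-- `Q` is a minimal `Y`-invariant `q`-subgroup on which `S ⊴ Y` acts nontrivially, `Y` acting coprimely. -/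
structure MinNC (q : ℕ) (Y S Q : Subgroup X) : Prop where
  hq : IsPGroup q Q
  hSY : S ≤ Y
  hSn : Y ≤ normalizer (S : Set X)
  hQn : Y ≤ normalizer (Q : Set X)
  hcop : Nat.Coprime (Nat.card Y) (Nat.card Q)
  hne : ¬ S ≤ centralizer (Q : Set X)
  hmin : ∀ B : Subgroup X, B ≤ Q → Y ≤ normalizer (B : Set X) → B ≠ Q → S ≤ centralizer (B : Set X)

/-- Existence of minimal subgroups. -/
theorem exists_minNC {q : ℕ} {Y S R : Subgroup X} (hq : IsPGroup q R) (hSY : S ≤ Y)
    (hSn : Y ≤ normalizer (S : Set X)) (hRn : Y ≤ normalizer (R : Set X))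
    (hcop : Nat.Coprime (Nat.card Y) (Nat.card R)) (hne : ¬ S ≤ centralizer (R : Set X)) :
    ∃ Q : Subgroup X, Q ≤ R ∧ MinNC q Y S Q := by
  classical
  let 𝒜 : Set (Subgroup X) := {B | B ≤ R ∧ Y ≤ normalizer (B : Set X) ∧ ¬ S ≤ centralizer (B : Set X)}
  have h𝒜 : 𝒜.Nonempty := ⟨R, le_rfl, hRn, hne⟩
  obtain ⟨Q, hQ⟩ := (Set.toFinite 𝒜).exists_minimal h𝒜
  obtain ⟨⟨hQR, hQn, hQne⟩, hQmin⟩ := hQ
  refine ⟨Q, hQR, ?_⟩
  haveI : Fact True := ⟨trivial⟩
  refine ⟨?_, hSY, hSn, hQn, hcop.coprime_dvd_right (Subgroup.card_dvd_of_le hQR), hQne, ?_⟩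
  · exact hq.to_le hQR
  · intro B hBQ hBn hB
    by_contra hc
    exact hB (le_antisymm hBQ (hQmin ⟨hBQ.trans hQR, hBn, hc⟩ hBQ))

namespace MinNC

variable {q : ℕ} [hqf : Fact q.Prime] {Y S Q : Subgroup X} (h : MinNC q Y S Q)

include h

theorem solv : Group.IsSolvable ↥Q := by
  haveI := h.hq.isNilpotent
  infer_instance

/-- The coprime action of `Y`. -/
theorem actY : Cfsg.Agent.Lib.Coprime.CoprimeAction Y Q := ⟨h.hQn, h.hcop, Or.inr h.solv⟩

/-- The coprime action of `S`. -/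
theorem act : Cfsg.Agent.Lib.Coprime.CoprimeAction S Q := h.actY.mono_left h.hSY

theorem commutator_eq : ⁅Q, S⁆ = Q := by
  by_contra hne
  have hle : ⁅Q, S⁆ ≤ Q := h.act.commutator_le_self
  have hn : Y ≤ normalizer ((⁅Q, S⁆ : Subgroup X) : Set X) := fun y hy =>
    normalizer_commutator (h.hQn hy) (h.hSn hy)
  have h1 := h.hmin _ hle hn hne
  have h2 : ⁅⁅Q, S⁆, S⁆ = ⊥ := by
    rw [Subgroup.commutator_eq_bot_iff_le_centralizer]
    exact (Subgroup.le_centralizer_iff.mp h1)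
  have h3 := h.act.commutator_eq_bot_of_commutator_commutator h2
  rw [Subgroup.commutator_eq_bot_iff_le_centralizer] at h3
  exact h.hne (Subgroup.le_centralizer_iff.mp h3)

/-- The centralizer of `S` in `Q`. -/
abbrev D (Q S : Subgroup X) : Subgroup X := Q ⊓ centralizer (S : Set X)

theorem D_le : D Q S ≤ Q := inf_le_left

theorem D_norm : Y ≤ normalizer ((D Q S : Subgroup X) : Set X) := fun _ hy =>
  normalizer_inf (h.hQn hy) (normalizer_centralizer (h.hSn hy))

theorem le_D {B : Subgroup X} (hB : B ≤ Q) (hn : Y ≤ normalizer (B : Set X)) (hne : B ≠ Q) : B ≤ D Q S :=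
  le_inf hB (Subgroup.le_centralizer_iff.mp (h.hmin B hB hn hne))

theorem D_ne : D Q S ≠ Q := by
  intro hD
  apply h.hne
  apply Subgroup.le_centralizer_iff.mp
  rw [← hD]
  exact inf_le_right

theorem exists_not_mem_D : ∃ a ∈ Q, a ∉ D Q S := by
  by_contra hcon
  push Not at hcon
  exact h.D_ne (le_antisymm inf_le_left hcon)

theorem nontrivial : Q ≠ ⊥ := by
  intro hQ
  apply h.hne
  rw [hQ]
  intro s _
  rw [Subgroup.mem_centralizer_iff]
  intro b hb
  have hb' : b = 1 := by simpa using hb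
  simp [hb']

theorem commutator_ne : ⁅Q, Q⁆ ≠ Q := by
  intro hc
  have hs := h.solv
  haveI : Nontrivial ↥Q := (Subgroup.nontrivial_iff_ne_bot Q).mpr h.nontrivial
  have h1 := Group.IsSolvable.commutator_lt_top_of_nontrivial ↥Q
  apply h1.ne
  apply Subgroup.map_injective Q.subtype_injective
  rw [Subgroup.map_subtype_commutator, ← MonoidHom.range_eq_map, Subgroup.range_subtype]
  exact hc

theorem comm_le_D : ⁅Q, Q⁆ ≤ D Q S :=
  h.le_D (Subgroup.commutator_le_self Q) (fun _ hy => normalizer_commutator (h.hQn hy) (h.hQn hy)) h.commutator_ne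

/-- `D = Q'`. -/
theorem D_eq : D Q S = ⁅Q, Q⁆ := by
  refine le_antisymm ?_ h.comm_le_D
  exact h.act.centralizer_le_of_commutator_eq (Subgroup.commutator_le_self Q)
    (fun s hs => normalizer_commutator (h.hQn (h.hSY hs)) (h.hQn (h.hSY hs)))
    (fun s hs => normalizer_commutator (Subgroup.le_normalizer hs) (Subgroup.le_normalizer hs)) le_rfl
    h.commutator_eq

theorem D_central : ⁅Q, D Q S⁆ = ⊥ := by
  have h1 : ⁅⁅Q, S⁆, D Q S⁆ = ⊥ := by
    refine Subgroup.commutator_commutator_eq_bot_of_rotate ?_ ?_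
    · have : ⁅S, D Q S⁆ = ⊥ := by
        rw [Subgroup.commutator_eq_bot_iff_le_centralizer]
        exact Subgroup.le_centralizer_iff.mp inf_le_right
      rw [this, Subgroup.commutator_bot_left]
    · have : ⁅D Q S, Q⁆ ≤ D Q S := by
        rw [← Subgroup.commutator_comm]
        exact (Subgroup.commutator_mono le_rfl inf_le_left).trans h.comm_le_D
      rw [Subgroup.commutator_eq_bot_iff_le_centralizer]
      intro a ha
      exact (this ha).2
  rwa [h.commutator_eq] at h1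

/-- `D` is central in `Q`. -/
theorem D_comm {d a : X} (hd : d ∈ D Q S) (ha : a ∈ Q) : d * a = a * d := by
  have h1 := Subgroup.commutator_mem_commutator ha hd
  rw [h.D_central, Subgroup.mem_bot, commutatorElement_eq_one_iff_mul_comm] at h1
  exact h1.symm

theorem comm_mem {a b : X} (ha : a ∈ Q) (hb : b ∈ Q) : ⁅a, b⁆ ∈ D Q S :=
  h.comm_le_D (Subgroup.commutator_mem_commutator ha hb)

/-- Powers in a group of class 2. -/
theorem mul_pow_aux {a b : X} (ha : a ∈ Q) (hb : b ∈ Q) (n : ℕ) : ∃ d ∈ D Q S, (a * b) ^ n = a ^ n * b ^ n * d := by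
  induction n with
  | zero => exact ⟨1, one_mem _, by simp⟩
  | succ n ih =>
    obtain ⟨d, hd, hn⟩ := ih
    have hbn : b ^ n ∈ Q := pow_mem hb n
    have he := h.comm_mem hbn ha
    refine ⟨⁅b ^ n, a⁆ * d, mul_mem he hd, ?_⟩
    have h1 : d * (a * b) = (a * b) * d := h.D_comm hd (mul_mem ha hb)
    have h2 : ⁅b ^ n, a⁆ * a ^ (n + 1) = a ^ (n + 1) * ⁅b ^ n, a⁆ := h.D_comm he (pow_mem ha _)
    have h3 : ⁅b ^ n, a⁆ * (b ^ n * a) = (b ^ n * a) * ⁅b ^ n, a⁆ := h.D_comm he (mul_mem hbn ha)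
    have h4 : b ^ n * a = ⁅b ^ n, a⁆ * (a * b ^ n) := by
      rw [commutatorElement_def]
      group
    have h5 : ⁅b ^ n, a⁆ * b = b * ⁅b ^ n, a⁆ := h.D_comm he hb
    rw [pow_succ, hn, mul_assoc (a ^ n * b ^ n), h1, pow_succ a, pow_succ b]
    calc a ^ n * b ^ n * (a * b * d) = a ^ n * (b ^ n * a) * b * d := by group
      _ = a ^ n * (⁅b ^ n, a⁆ * (a * b ^ n)) * b * d := by rw [← h4]
      _ = a ^ n * (⁅b ^ n, a⁆ * a * b ^ n) * b * d := by group
      _ = a ^ n * (a * ⁅b ^ n, a⁆ * b ^ n) * b * d := by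
        rw [h.D_comm he ha]
      _ = a ^ n * a * (⁅b ^ n, a⁆ * b ^ n) * b * d := by group
      _ = a ^ n * a * (b ^ n * ⁅b ^ n, a⁆) * b * d := by rw [h.D_comm he hbn]
      _ = a ^ n * a * b ^ n * (⁅b ^ n, a⁆ * b) * d := by group
      _ = a ^ n * a * b ^ n * (b * ⁅b ^ n, a⁆) * d := by rw [h5]
      _ = a ^ n * a * (b ^ n * b) * (⁅b ^ n, a⁆ * d) := by group

/-- `Q / D` has exponent `q`. -/
theorem pow_mem_D {a : X} (ha : a ∈ Q) : a ^ q ∈ D Q S := by
  classical
  let K : Subgroup X :=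
    { carrier := {a | a ∈ Q ∧ a ^ q ∈ D Q S}
      one_mem' := ⟨one_mem _, by simp⟩
      mul_mem' := by
        rintro a b ⟨ha, ha2⟩ ⟨hb, hb2⟩
        refine ⟨mul_mem ha hb, ?_⟩
        obtain ⟨d, hd, hn⟩ := h.mul_pow_aux ha hb q
        rw [hn]
        exact mul_mem (mul_mem ha2 hb2) hd
      inv_mem' := by
        rintro a ⟨ha, ha2⟩
        refine ⟨inv_mem ha, ?_⟩
        rw [inv_pow]
        exact inv_mem ha2 }
  have hKQ : K ≤ Q := fun a ha => ha.1
  have hKn : Y ≤ normalizer (K : Set X) := by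
    intro y hy
    apply Cfsg.Agent.Lib.Coprime.mem_normalizer_of_conj_le
    rintro a ⟨ha, ha2⟩
    refine ⟨(Subgroup.mem_normalizer_iff.mp (h.hQn hy) a).mp ha, ?_⟩
    rw [conj_pow]
    exact (Subgroup.mem_normalizer_iff.mp (h.D_norm hy) _).mp ha2
  by_cases hK : K = Q
  · have : a ∈ K := hK ▸ ha
    exact this.2
  · exfalso
    have hle := h.le_D hKQ hKn hK
    obtain ⟨a₀, ha₀, ha₀D⟩ := h.exists_not_mem_D
    obtain ⟨m, hm⟩ := (IsPGroup.iff_orderOf.mp h.hq) ⟨a₀, ha₀⟩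
    have hex : ∃ j, a₀ ^ (q ^ j) ∈ D Q S := by
      refine ⟨m, ?_⟩
      have : (⟨a₀, ha₀⟩ : ↥Q) ^ (q ^ m) = 1 := by rw [← hm, pow_orderOf_eq_one]
      have h2 : a₀ ^ (q ^ m) = 1 := congrArg Subtype.val this
      rw [h2]
      exact one_mem _
    have hj := Nat.find_spec hex
    have hj0 : Nat.find hex ≠ 0 := by
      intro h0
      rw [h0, pow_zero, pow_one] at hj
      exact ha₀D hj
    obtain ⟨j, hj1⟩ := Nat.exists_eq_succ_of_ne_zero hj0
    have hjm := Nat.find_min hex (show j < Nat.find hex by omega)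
    apply hjm
    apply hle
    refine ⟨pow_mem ha₀ _, ?_⟩
    rw [← pow_mul, ← pow_succ]
    rw [hj1] at hj
    exact hj

/-- `S` has no fixed points on `Q / D`. -/
theorem fpf {a : X} (ha : a ∈ Q) (hfix : ∀ s ∈ S, a * s * a⁻¹ * s⁻¹ ∈ D Q S) : a ∈ D Q S := by
  refine h.act.mem_of_abelian_mod h.D_le (fun s hs => h.D_norm (h.hSY hs)) ?_ h.comm_le_D ?_ hfix
  · intro b hb
    apply Cfsg.Agent.Lib.Coprime.mem_normalizer_of_conj_le
    intro d hd
    have h1 := h.D_comm hd (inv_mem hb)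
    have h2 : b * d * b⁻¹ = d := by
      calc b * d * b⁻¹ = b * (d * b⁻¹) := by group
        _ = b * (b⁻¹ * d) := by rw [h1]
        _ = d := by group
    rw [h2]
    exact hd
  · rw [h.commutator_eq]
    exact Subgroup.mem_sup_left ha

end MinNC

end MinNC

section Count

variable {G : Type*} [Group G] [Finite G]

/-- A fixed-point-free automorphism of prime order `r` on a quotient: the index is `1 mod r`. -/
theorem relIndex_modEq_one {Q Z : Subgroup G} {x : G} {r : ℕ} [hr : Fact r.Prime] (hxr : x ^ r = 1)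
    (hZQ : Z ≤ Q) (hZc : ∀ z ∈ Z, ∀ a ∈ Q, z * a = a * z) (hxQ : ∀ a ∈ Q, x * a * x⁻¹ ∈ Q)
    (hxZ : ∀ z ∈ Z, x * z * x⁻¹ ∈ Z) (hfpf : ∀ a ∈ Q, x * a * x⁻¹ * a⁻¹ ∈ Z → a ∈ Z) :
    Z.relIndex Q ≡ 1 [MOD r] := by
  classical
  let Z' : Subgroup ↥Q := Z.subgroupOf Q
  haveI hn : Z'.Normal := by
    constructor
    intro n hn g
    rw [Subgroup.mem_subgroupOf] at hn ⊢
    have h1 : (g : G) * n * (g : G)⁻¹ = n := by
      rw [← hZc n hn g g.2]
      group
    change (g : G) * n * (g : G)⁻¹ ∈ Z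
    rw [h1]
    exact hn
  let τ : ↥Q →* ↥Q :=
    { toFun := fun a => ⟨x * a * x⁻¹, hxQ a a.2⟩
      map_one' := Subtype.ext (by simp)
      map_mul' := fun a b => Subtype.ext (by
        change x * ((a : G) * b) * x⁻¹ = (x * a * x⁻¹) * (x * b * x⁻¹)
        group) }
  have hτ : Z' ≤ Z'.comap τ := by
    intro z hz
    rw [Subgroup.mem_comap, Subgroup.mem_subgroupOf]
    exact hxZ z (Subgroup.mem_subgroupOf.mp hz)
  let f : ↥Q ⧸ Z' →* ↥Q ⧸ Z' := QuotientGroup.map Z' Z' τ hτ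
  let g : Function.End (↥Q ⧸ Z') := fun y => f y
  have hg : ∀ (n : ℕ) (a : ↥Q), ∃ b : ↥Q, (g ^ n) (a : ↥Q ⧸ Z') = (b : ↥Q ⧸ Z') ∧ (b : G) = x ^ n * a * (x ^ n)⁻¹ := by
    intro n a
    induction n with
    | zero =>
      exact ⟨a, rfl, by simp⟩
    | succ n ih =>
      obtain ⟨b, hb, hb2⟩ := ih
      refine ⟨τ b, ?_, ?_⟩
      · rw [pow_succ']
        change g ((g ^ n) (a : ↥Q ⧸ Z')) = _
        rw [hb]
        rfl
      · change x * b * x⁻¹ = _
        rw [hb2]
        group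
  have hgr : g ^ r ^ 1 = 1 := by
    rw [pow_one]
    funext y
    induction y using QuotientGroup.induction_on with
    | H a =>
      obtain ⟨b, hb, hb2⟩ := hg r a
      rw [hb]
      have : b = a := by
        apply Subtype.ext
        rw [hb2, hxr]
        simp
      rw [this]
      rfl
  letI : Fintype (↥Q ⧸ Z') := Fintype.ofFinite _
  have hfix : ∀ (inst : Fintype (Function.fixedPoints g)), @Fintype.card _ inst = 1 := by
    intro inst
    rw [Fintype.card_eq_one_iff]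
    refine ⟨⟨1, (map_one f : g 1 = 1)⟩, ?_⟩
    rintro ⟨y, hy⟩
    apply Subtype.ext
    induction y using QuotientGroup.induction_on with
    | H a =>
      have h0 : Function.IsFixedPt g (a : ↥Q ⧸ Z') := hy
      have h1 : ((τ a : ↥Q) : ↥Q ⧸ Z') = (a : ↥Q ⧸ Z') := h0
      have h2 := QuotientGroup.eq.mp h1.symm
      rw [Subgroup.mem_subgroupOf] at h2
      have h3 : (a : G)⁻¹ * (x * a * x⁻¹) ∈ Z := h2
      have h4 : x * a * x⁻¹ * (a : G)⁻¹ ∈ Z := by
        have h5 : x * a * x⁻¹ * (a : G)⁻¹ = a * ((a : G)⁻¹ * (x * a * x⁻¹)) * (a : G)⁻¹ := by group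
        rw [h5, ← hZc _ h3 a a.2]
        simpa using h3
      have h6 := hfpf a a.2 h4
      exact (QuotientGroup.eq_one_iff a).mpr (Subgroup.mem_subgroupOf.mpr h6)
  have hm := Equiv.Perm.card_fixedPoints_modEq (f := g) (p := r) (n := 1) hgr
  rw [hfix] at hm
  have hc : Z.relIndex Q = Fintype.card (↥Q ⧸ Z') := by
    rw [Subgroup.relIndex, Subgroup.index, Nat.card_eq_fintype_card]
  rw [hc]
  exact hm

/-- The numerics: `D` odd, `D > 1`, `r` prime and `r ∣ D² - 1`. -/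
theorem two_mul_le_of_dvd {D r : ℕ} (hr : r.Prime) (hD : Odd D) (hD1 : 1 < D) (h : D ^ 2 ≡ 1 [MOD r]) :
    2 * r ≤ D + 1 := by
  obtain ⟨k, rfl⟩ := hD
  have h1 : r ∣ (2 * k + 1) ^ 2 - 1 := (Nat.modEq_iff_dvd' (Nat.one_le_pow _ _ (by omega))).mp h.symm
  have h2 : (2 * k + 1) ^ 2 - 1 = (2 * k) * (2 * k + 2) := by
    have : (2 * k + 1) ^ 2 = (2 * k) * (2 * k + 2) + 1 := by ring
    omega
  rw [h2] at h1
  have hk : 1 ≤ k := by omega
  by_cases hr2 : r = 2
  · subst hr2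
    omega
  have hrodd : Odd r := hr.odd_of_ne_two hr2
  rcases (Nat.Prime.dvd_mul hr).mp h1 with h3 | h3
  · have h4 : r ∣ k := by
      rcases (Nat.Prime.dvd_mul hr).mp h3 with h5 | h5
      · exact absurd (Nat.le_of_dvd (by norm_num) h5) (by
          have := hr.two_le
          omega)
      · exact h5
    have := Nat.le_of_dvd (by omega) h4
    omega
  · have h4 : r ∣ k + 1 := by
      have h5 : 2 * k + 2 = 2 * (k + 1) := by ring
      rw [h5] at h3
      rcases (Nat.Prime.dvd_mul hr).mp h3 with h6 | h6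
      · exact absurd (Nat.le_of_dvd (by norm_num) h6) (by
          have := hr.two_le
          omega)
      · exact h6
    have := Nat.le_of_dvd (by omega) h4
    omega

end Count

section TwoEigen

variable {K VK F : Type*} [Field K] [IsAlgClosed K] [AddCommGroup VK] [Module K VK] [FiniteDimensional K VK]
  [Group F] [Finite F]

/-- The count on an eigenspace `W` of a central subgroup `Z` of `Q`. -/
theorem t2_eigen (ρ : F →* End K VK) {q r : ℕ} [hqf : Fact q.Prime] (hq2 : Odd q) (hr : r.Prime)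
    (Q Z : Subgroup F) (x : F) (W : Submodule K VK) (hW0 : W ≠ ⊥)
    (hK : (Nat.card ↥(Q ⊔ zpowers x) : K) ≠ 0)
    (hWinv : ∀ y ∈ Q ⊔ zpowers x, ∀ w ∈ W, ρ y w ∈ W)
    (hZs : ∀ z ∈ Z, ∃ c : K, ∀ w ∈ W, ρ z w = c • w)
    (hqQ : IsPGroup q Q)
    (hxr : x ^ r = 1) (hZQ : Z ≤ Q) (hZc : ∀ z ∈ Z, ∀ a ∈ Q, z * a = a * z)
    (hcomm : ∀ a ∈ Q, ∀ b ∈ Q, ⁅a, b⁆ ∈ Z) (hpow : ∀ a ∈ Q, a ^ q ∈ Z)
    (hnd : ∀ a ∈ Q, (∀ b ∈ Q, ∀ w ∈ W, ρ ⁅a, b⁆ w = w) → a ∈ Z)
    (hxQ : ∀ a ∈ Q, x * a * x⁻¹ ∈ Q) (hxZ : ∀ z ∈ Z, x * z * x⁻¹ = z)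
    (hfpf : ∀ a ∈ Q, x * a * x⁻¹ * a⁻¹ ∈ Z → a ∈ Z) (hne : ∃ a ∈ Q, a ∉ Z) :
    (∃ w ∈ W, w ≠ 0 ∧ ρ x w = w) ∧
      (finrank K ↥(W ⊓ (ρ x).eigenspace 1) ≤ 1 → ∀ μ, finrank K ↥(W ⊓ (ρ x).eigenspace μ) ≤ 2) := by
  classical
  haveI : Fact r.Prime := ⟨hr⟩
  haveI : Nontrivial ↥W := Submodule.nontrivial_iff_ne_bot.mpr hW0
  set Y₀ : Subgroup F := Q ⊔ zpowers x with hY₀
  have hQY : Q ≤ Y₀ := le_sup_left
  have hZY : Z ≤ Y₀ := hZQ.trans hQY
  have hxY : x ∈ Y₀ := (le_sup_right : zpowers x ≤ Y₀) (mem_zpowers x)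
  let ρ₁ : ↥Y₀ →* End K ↥W := resRep (ρ := ρ) Y₀ W hWinv
  let Q₁ : Subgroup ↥Y₀ := Q.subgroupOf Y₀
  let Z₁ : Subgroup ↥Y₀ := Z.subgroupOf Y₀
  let x₁ : ↥Y₀ := ⟨x, hxY⟩
  have hρ₁ : ∀ (y : ↥Y₀) (w : ↥W), ((ρ₁ y w : ↥W) : VK) = ρ y w := fun _ _ => rfl
  have hZs₁ : ∀ z ∈ Z₁, ∃ c : K, ρ₁ z = c • 1 := by
    intro z hz
    obtain ⟨c, hc⟩ := hZs z (Subgroup.mem_subgroupOf.mp hz)
    refine ⟨c, ?_⟩
    ext w
    rw [hρ₁, hc w w.2]
    rfl
  have hZQ₁ : Z₁ ≤ Q₁ := fun z hz => Subgroup.mem_subgroupOf.mpr (hZQ (Subgroup.mem_subgroupOf.mp hz))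
  have hZc₁ : ∀ z ∈ Z₁, ∀ a ∈ Q₁, z * a = a * z := fun z hz a ha =>
    Subtype.ext (hZc z (Subgroup.mem_subgroupOf.mp hz) a (Subgroup.mem_subgroupOf.mp ha))
  have hcomm₁ : ∀ a ∈ Q₁, ∀ b ∈ Q₁, ⁅a, b⁆ ∈ Z₁ := fun a ha b hb =>
    Subgroup.mem_subgroupOf.mpr (hcomm a (Subgroup.mem_subgroupOf.mp ha) b (Subgroup.mem_subgroupOf.mp hb))
  have hnd₁ : ∀ a ∈ Q₁, (∀ b ∈ Q₁, ρ₁ ⁅a, b⁆ = 1) → a ∈ Z₁ := by
    intro a ha hab
    refine Subgroup.mem_subgroupOf.mpr (hnd a (Subgroup.mem_subgroupOf.mp ha) ?_)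
    intro b hb w hw
    have h1 := hab ⟨b, hQY hb⟩ (Subgroup.mem_subgroupOf.mpr hb)
    have h2 := congrArg (fun f : End K ↥W => ((f ⟨w, hw⟩ : ↥W) : VK)) h1
    exact h2
  have hpow₁ : ∀ a ∈ Q₁, a ^ q ∈ Z₁ := fun a ha =>
    Subgroup.mem_subgroupOf.mpr (hpow a (Subgroup.mem_subgroupOf.mp ha))
  have hT : T2Data ρ₁ Q₁ Z₁ x₁ r :=
    { hr := hr
      hxr := Subtype.ext hxr
      hKF := hK
      hZQ := hZQ₁
      hZc := hZc₁
      hZs := hZs₁
      hcomm := hcomm₁
      hnd := hnd₁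
      hxQ := fun a ha => Subgroup.mem_subgroupOf.mpr (hxQ a (Subgroup.mem_subgroupOf.mp ha))
      hxZ := fun z hz => by
        have h1 : x₁ * z * x₁⁻¹ = z := Subtype.ext (hxZ z (Subgroup.mem_subgroupOf.mp hz))
        rw [h1]
      hfpf := fun a ha h => Subgroup.mem_subgroupOf.mpr (hfpf a (Subgroup.mem_subgroupOf.mp ha)
        (Subgroup.mem_subgroupOf.mp h))
      hne := by
        obtain ⟨a, ha, ha2⟩ := hne
        exact ⟨⟨a, hQY ha⟩, Subgroup.mem_subgroupOf.mpr ha, fun h => ha2 (Subgroup.mem_subgroupOf.mp h)⟩ }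
  obtain ⟨m, hm⟩ := card_square hZs₁ (Nat.card Q₁) Q₁ rfl hZQ₁ hZc₁ hcomm₁ hnd₁ hpow₁
  have hidx : Z₁.relIndex Q₁ = Z.relIndex Q := by
    exact Subgroup.relIndex_subgroupOf hQY
  have hD : Z₁.relIndex Q₁ = (q ^ m) ^ 2 := by
    rw [hm]
    ring
  have hmod := relIndex_modEq_one (Q := Q) (Z := Z) (x := x) (r := r) hxr hZQ hZc hxQ
    (fun z hz => by rw [hxZ z hz]; exact hz) hfpf
  rw [← hidx, hD] at hmod
  have hm0 : m ≠ 0 := by
    rintro rfl
    obtain ⟨a, ha, ha2⟩ := hne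
    rw [hD] at hidx
    simp only [pow_zero, one_pow] at hidx
    exact ha2 (Subgroup.relIndex_eq_one.mp hidx.symm ha)
  have hodd : Odd (q ^ m) := hq2.pow
  have hgt : 1 < q ^ m := Nat.one_lt_pow hm0 (hqf.out.one_lt)
  have hDr := two_mul_le_of_dvd hr hodd hgt hmod
  obtain ⟨h1, h2⟩ := t2_main hT hD hDr
  have hx₁ : ∀ μ, finrank K ↥(W ⊓ (ρ x).eigenspace μ) = finrank K ((ρ₁ x₁).eigenspace μ) := by
    intro μ
    rw [← Submodule.finrank_map_subtype_eq W ((ρ₁ x₁).eigenspace μ)]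
    have hEq : W ⊓ (ρ x).eigenspace μ = ((ρ₁ x₁).eigenspace μ).map W.subtype := ?_
    · rw [hEq]
    ext v
    constructor
    · rintro ⟨hv, hv2⟩
      refine ⟨⟨v, hv⟩, ?_, rfl⟩
      rw [SetLike.mem_coe, Module.End.mem_eigenspace_iff]
      apply Subtype.ext
      exact Module.End.mem_eigenspace_iff.mp hv2
    · rintro ⟨w, hw, rfl⟩
      refine ⟨w.2, ?_⟩
      change (w : VK) ∈ (ρ x).eigenspace μ
      rw [Module.End.mem_eigenspace_iff]
      exact congrArg Subtype.val (Module.End.mem_eigenspace_iff.mp hw)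
  constructor
  · obtain ⟨w, hw, hw0⟩ := Submodule.exists_mem_ne_zero_of_ne_bot h1
    refine ⟨w, w.2, fun h => hw0 (Subtype.ext h), ?_⟩
    have := Module.End.mem_eigenspace_iff.mp hw
    rw [one_smul] at this
    exact congrArg Subtype.val this
  · intro hle μ
    rw [hx₁] at hle ⊢
    exact h2 hle μ

end TwoEigen

section TStar

variable {k V F : Type*} [Field k] [AddCommGroup V] [Module k V] [FiniteDimensional k V] [Group F] [Finite F]

open TensorProduct

/-- Scalar extension detects the identity. -/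
theorem eq_one_of_baseChange (K : Type*) [Field K] [Algebra k K] (f : End k V) (hf : f.baseChange K = 1) : f = 1 := by
  ext v
  have h1 := LinearMap.congr_fun hf ((1 : K) ⊗ₜ[k] v)
  rw [LinearMap.baseChange_tmul, Module.End.one_apply] at h1
  exact Module.Flat.tensorProduct_mk_injective k V K h1

/-- A nontrivial power of an element of prime order generates. -/
theorem mem_zpowers_of_ne_one {G : Type*} [Group G] {x e : G} {r : ℕ} (hr : r.Prime) (hx : x ^ r = 1)
    (he : e ∈ zpowers x) (hne : e ≠ 1) : x ∈ zpowers e := by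
  have hr0 : 0 < r := hr.pos
  have hnat : ∃ n : ℕ, e = x ^ n := by
    obtain ⟨i, hi⟩ := he
    change x ^ i = e at hi
    subst hi
    refine ⟨(i % r).toNat, ?_⟩
    have h1 : (0 : ℤ) ≤ i % r := Int.emod_nonneg _ (by exact_mod_cast hr0.ne')
    have h2 : (((i % r).toNat : ℕ) : ℤ) = i % r := Int.toNat_of_nonneg h1
    rw [← zpow_natCast, h2]
    have h3 : x ^ (r : ℤ) = 1 := by rw [zpow_natCast, hx]
    conv_lhs => rw [← Int.mul_ediv_add_emod i r]
    rw [zpow_add, zpow_mul, h3, one_zpow, one_mul]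
  obtain ⟨n, rfl⟩ := hnat
  have hcop : Nat.Coprime n r := by
    rw [Nat.coprime_comm, Nat.Prime.coprime_iff_not_dvd hr]
    rintro ⟨c, rfl⟩
    apply hne
    rw [pow_mul, hx, one_pow]
  obtain ⟨m, hm⟩ := Nat.exists_mul_mod_eq_one_of_coprime hcop hr.one_lt
  refine ⟨(m : ℤ), ?_⟩
  change (x ^ n) ^ (m : ℤ) = x
  rw [zpow_natCast, ← pow_mul, pow_eq_pow_mod _ hx, hm.2, pow_one]

omit [Finite F] in
/-- An element of `zpowers x` fixes a vector fixed by `x`. -/
theorem mem_fx_zpowers {K VK : Type*} [Field K] [AddCommGroup VK] [Module K VK] (ρ : F →* End K VK) {x : F} {v : VK}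
    (hv : ρ x v = v) : v ∈ fx ρ (zpowers x) := by
  have hinv : ρ x⁻¹ v = v := by
    conv_lhs => rw [← hv]
    rw [← Module.End.mul_apply, ← map_mul, inv_mul_cancel, map_one, Module.End.one_apply]
  rintro _ ⟨i, rfl⟩
  change ρ (x ^ i) v = v
  induction i using Int.induction_on with
  | zero => simp
  | succ i ih =>
    rw [zpow_add_one, map_mul, Module.End.mul_apply, hv, ih]
  | pred i ih =>
    rw [zpow_sub_one, map_mul, Module.End.mul_apply, hinv, ih]

/-- `T*` for a faithful representation. -/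
theorem tstar_faithful (ρ : F →* End k V) (hρ : Function.Injective ρ) {q r : ℕ} [hqf : Fact q.Prime] (hq2 : Odd q)
    (hr : r.Prime) (hqr : q ≠ r) (S : Subgroup F) (hS : IsPGroup q S) (x : F) (hxr : x ^ r = 1)
    (hxS : x ∈ normalizer (S : Set F)) (hk : (Nat.card F : k) ≠ 0) (hfix : fx ρ (zpowers x) = ⊥) :
    zpowers x ≤ centralizer (S : Set F) := by
  classical
  by_contra hne
  set Y : Subgroup F := zpowers x with hY
  have hx1 : x ≠ 1 := by
    rintro rfl
    apply hne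
    rw [hY, Subgroup.zpowers_one_eq_bot]
    exact bot_le
  haveI : Fact r.Prime := ⟨hr⟩
  have hcardY : Nat.card Y = r := by
    rw [hY, Nat.card_zpowers]
    exact orderOf_eq_prime hxr hx1
  have hcop : Nat.Coprime (Nat.card Y) (Nat.card S) := by
    obtain ⟨n, hn⟩ := IsPGroup.iff_card.mp hS
    rw [hcardY, hn]
    exact Nat.Coprime.pow_right _ ((Nat.coprime_primes hr hqf.out).mpr hqr.symm)
  have hYn : Y ≤ normalizer (S : Set F) := Subgroup.zpowers_le.mpr hxS
  obtain ⟨Q, hQS, h⟩ := exists_minNC hS le_rfl Subgroup.le_normalizer hYn hcop hne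
  have hxQ : ∀ a ∈ Q, x * a * x⁻¹ ∈ Q := fun a ha =>
    (Subgroup.mem_normalizer_iff.mp (h.hQn (mem_zpowers x)) a).mp ha
  have hK : ∀ A : Subgroup F, (Nat.card A : k) ≠ 0 := fun A h0 => hk (by
    obtain ⟨c, hc⟩ := Subgroup.card_subgroup_dvd_card A
    rw [hc, Nat.cast_mul, h0, zero_mul])
  set Z : Subgroup F := MinNC.D Q Y with hZ
  have hxZ : ∀ z ∈ Z, x * z * x⁻¹ = z := by
    intro z hz
    have h1 := Subgroup.mem_centralizer_iff.mp hz.2 x (mem_zpowers x)
    rw [h1]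
    group
  have hxZn : ∀ (n : ℕ), ∀ z ∈ Z, x ^ n * z * (x ^ n)⁻¹ ∈ Z := by
    intro n z hz
    exact (Subgroup.mem_normalizer_iff.mp (h.D_norm (pow_mem (mem_zpowers x) n)) z).mp hz
  have hfpf : ∀ a ∈ Q, x * a * x⁻¹ * a⁻¹ ∈ Z → a ∈ Z := by
    intro a ha hc
    refine h.fpf ha ?_
    have hnat : ∀ n : ℕ, a * x ^ n * a⁻¹ * (x ^ n)⁻¹ ∈ Z := by
      intro n
      induction n with
      | zero => simp [one_mem]
      | succ n ih =>
        have h1 : a * x * a⁻¹ * x⁻¹ ∈ Z := by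
          have := inv_mem hc
          have h2 : (x * a * x⁻¹ * a⁻¹)⁻¹ = a * x * a⁻¹ * x⁻¹ := by group
          rwa [h2] at this
        have h2 : a * x ^ (n + 1) * a⁻¹ * (x ^ (n + 1))⁻¹ =
            (a * x ^ n * a⁻¹ * (x ^ n)⁻¹) * (x ^ n * (a * x * a⁻¹ * x⁻¹) * (x ^ n)⁻¹) := by
          rw [pow_succ]
          group
        rw [h2]
        exact mul_mem ih (hxZn n _ h1)
    intro s hs
    obtain ⟨i, rfl⟩ := hs
    have hnatz : ∃ n : ℕ, x ^ i = x ^ n := by
      refine ⟨(i % r).toNat, ?_⟩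
      have h1 : (0 : ℤ) ≤ i % r := Int.emod_nonneg _ (by exact_mod_cast hr.pos.ne')
      have h2 : (((i % r).toNat : ℕ) : ℤ) = i % r := Int.toNat_of_nonneg h1
      rw [← zpow_natCast, h2]
      have h3 : x ^ (r : ℤ) = 1 := by rw [zpow_natCast, hxr]
      conv_lhs => rw [← Int.mul_ediv_add_emod i r]
      rw [zpow_add, zpow_mul, h3, one_zpow, one_mul]
    obtain ⟨n, hn⟩ := hnatz
    change a * x ^ i * a⁻¹ * (x ^ i)⁻¹ ∈ Z
    rw [hn]
    exact hnat n
  by_cases hZ1 : Z = ⊥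
  · -- abelian
    have hfpf' : ∀ e ∈ Y, e ≠ 1 → ∀ n ∈ Q, e * n = n * e → n = 1 := by
      intro e he hne n hn hc
      have hxe := mem_zpowers_of_ne_one hr hxr he hne
      have hYe : Y ≤ zpowers e := Subgroup.zpowers_le.mpr hxe
      have hnZ : n ∈ Z := by
        refine ⟨hn, Subgroup.mem_centralizer_iff.mpr fun y hy => ?_⟩
        obtain ⟨i, rfl⟩ := hYe hy
        have hc2 : Commute e n := hc
        exact (hc2.zpow_left i).eq
      rw [hZ1] at hnZ
      simpa using hnZ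
    have hform := fx_formula ρ Q Y h.solv (fun e he n hn =>
      (Subgroup.mem_normalizer_iff.mp (h.hQn he) n).mp hn) hfpf' (hK _)
    rw [fx_sup, hfix, inf_bot_eq, finrank_bot, mul_zero, add_zero, zero_add] at hform
    have htop : fx ρ Q = ⊤ := Submodule.eq_top_of_finrank_eq hform.symm
    apply h.nontrivial
    rw [Subgroup.eq_bot_iff_forall]
    intro a ha
    apply hρ
    rw [map_one]
    ext v
    have hv : v ∈ fx ρ Q := by rw [htop]; trivial
    exact hv a ha
  -- nonabelian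
  let K := AlgebraicClosure k
  let ρK : F →* End K (K ⊗[k] V) := rhoK K ρ
  have hcast : ∀ n : ℕ, (n : k) ≠ 0 → (n : K) ≠ 0 := by
    intro n hn h0
    apply hn
    have h2 : algebraMap k K (n : k) = 0 := by
      rw [map_natCast]
      exact h0
    exact (map_eq_zero _).mp h2
  let σ : ↥Z →* End K (K ⊗[k] V) := ρK.comp Z.subtype
  have hσ : ∀ z : ↥Z, σ z = ρK z := fun _ => rfl
  have hcomm : ∀ n n', σ n * σ n' = σ n' * σ n := by
    intro n n'
    rw [← map_mul, ← map_mul]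
    congr 1
    exact Subtype.ext (h.D_comm n.2 n'.2.1)
  obtain ⟨-, htop⟩ := simEig_indep σ hcomm (hcast _ (hK Z))
  have hex : ∃ χ : ↥Z → K, simEig σ χ ≠ ⊥ ∧ ∃ z, χ z ≠ 1 := by
    by_contra hcon
    push Not at hcon
    have hall : ∀ z : ↥Z, σ z = 1 := by
      intro z
      let T : Submodule K (K ⊗[k] V) := LinearMap.ker (σ z - 1)
      have hT : (⊤ : Submodule K (K ⊗[k] V)) ≤ T := by
        rw [← htop]
        refine iSup_le fun χ => ?_
        by_cases hχ : simEig σ χ = ⊥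
        · rw [hχ]
          exact bot_le
        · intro v hv
          have h1 := mem_simEig.mp hv z
          rw [hcon χ hχ z, one_smul] at h1
          change (σ z - 1) v = 0
          rw [LinearMap.sub_apply, h1, Module.End.one_apply, sub_self]
      apply LinearMap.ext
      intro v
      have h2 : v ∈ T := hT trivial
      have h3 : (σ z - 1) v = 0 := h2
      rw [LinearMap.sub_apply, sub_eq_zero] at h3
      rw [h3]
    apply hZ1
    rw [Subgroup.eq_bot_iff_forall]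
    intro z hz
    apply hρ
    rw [map_one]
    apply eq_one_of_baseChange K
    exact hall ⟨z, hz⟩
  obtain ⟨χ, hχ0, z₀, hz₀⟩ := hex
  set W : Submodule K (K ⊗[k] V) := simEig σ χ with hW
  have hY₀Z : ∀ y ∈ Q ⊔ Y, ∀ z ∈ Z, y * z = z * y := by
    intro y hy z hz
    have hle : Q ⊔ Y ≤ centralizer ((Z : Subgroup F) : Set F) := by
      refine sup_le ?_ ?_
      · intro a ha
        rw [Subgroup.mem_centralizer_iff]
        intro b hb
        exact h.D_comm hb ha
      · intro a ha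
        rw [Subgroup.mem_centralizer_iff]
        intro b hb
        exact (Subgroup.mem_centralizer_iff.mp hb.2 a ha).symm
    exact (Subgroup.mem_centralizer_iff.mp (hle hy) z hz).symm
  have hWinv : ∀ y ∈ Q ⊔ zpowers x, ∀ w ∈ W, ρK y w ∈ W := by
    intro y hy w hw
    rw [hW, mem_simEig]
    intro z
    have h1 := mem_simEig.mp hw z
    rw [hσ, ← Module.End.mul_apply, ← map_mul, ← hY₀Z y hy z z.2, map_mul, Module.End.mul_apply]
    rw [← hσ, h1, map_smul]
  have hZs : ∀ z ∈ Z, ∃ c : K, ∀ w ∈ W, ρK z w = c • w := fun z hz =>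
    ⟨χ ⟨z, hz⟩, fun w hw => mem_simEig.mp hw ⟨z, hz⟩⟩
  have hinv_of : ∀ (c : F) (w : K ⊗[k] V), ρK c w = w → ρK c⁻¹ w = w := by
    intro c w hw
    conv_lhs => rw [← hw]
    rw [← Module.End.mul_apply, ← map_mul, inv_mul_cancel, map_one, Module.End.one_apply]
  -- the radical
  let Rad : Subgroup F :=
    { carrier := {a | a ∈ Q ∧ ∀ b ∈ Q, ∀ w ∈ W, ρK ⁅a, b⁆ w = w}
      one_mem' := ⟨one_mem _, fun b _ w _ => by simp⟩
      mul_mem' := by
        rintro a a' ⟨ha, ha2⟩ ⟨ha', ha2'⟩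
        refine ⟨mul_mem ha ha', fun b hb w hw => ?_⟩
        have h1 : ⁅a * a', b⁆ = ⁅a', b⁆ * ⁅a, b⁆ := by
          have h2 : ⁅a', b⁆ * a⁻¹ = a⁻¹ * ⁅a', b⁆ := h.D_comm (h.comm_mem ha' hb) (inv_mem ha)
          simp only [commutatorElement_def] at h2 ⊢
          calc a * a' * b * (a * a')⁻¹ * b⁻¹ = a * (a' * b * a'⁻¹ * b⁻¹ * a⁻¹) * (a * b * a⁻¹ * b⁻¹) := by group
            _ = a * (a⁻¹ * (a' * b * a'⁻¹ * b⁻¹)) * (a * b * a⁻¹ * b⁻¹) := by rw [h2]
            _ = _ := by group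
        rw [h1, map_mul, Module.End.mul_apply, ha2 b hb w hw, ha2' b hb w hw]
      inv_mem' := by
        rintro a ⟨ha, ha2⟩
        refine ⟨inv_mem ha, fun b hb w hw => ?_⟩
        have h1 : ⁅a⁻¹, b⁆ = ⁅a, b⁆⁻¹ := by
          have h2 : ⁅a, b⁆ * a⁻¹ = a⁻¹ * ⁅a, b⁆ := h.D_comm (h.comm_mem ha hb) (inv_mem ha)
          simp only [commutatorElement_def] at h2 ⊢
          have h3 : a * b * a⁻¹ * b⁻¹ * a⁻¹ * b = a⁻¹ * (a * b * a⁻¹ * b⁻¹) * b := by rw [h2]
          have h4 : a⁻¹ * b * a⁻¹⁻¹ * b⁻¹ = (a * b * a⁻¹ * b⁻¹)⁻¹ := by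
            rw [eq_inv_iff_mul_eq_one]
            have h5 : a⁻¹ * b * a⁻¹⁻¹ * b⁻¹ * (a * b * a⁻¹ * b⁻¹) =
               a⁻¹ * b * a * b⁻¹ * (a * b * a⁻¹ * b⁻¹ * a⁻¹ * b) * b⁻¹ * a := by group
            rw [h5, h3]
            group
          exact h4
        rw [h1]
        exact hinv_of _ _ (ha2 b hb w hw) }
  have hRadQ : Rad ≤ Q := fun a ha => ha.1
  have hRadn : Y ≤ normalizer (Rad : Set F) := by
    rw [hY, Subgroup.zpowers_le]
    apply Cfsg.Agent.Lib.Coprime.mem_normalizer_of_conj_le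
    rintro a ⟨ha, ha2⟩
    refine ⟨hxQ a ha, fun b hb w hw => ?_⟩
    have hb' : x⁻¹ * b * x ∈ Q := by
      have := (Subgroup.mem_normalizer_iff.mp (h.hQn (inv_mem (mem_zpowers x))) b).mp hb
      simpa using this
    have h1 : ⁅x * a * x⁻¹, b⁆ = x * ⁅a, x⁻¹ * b * x⁆ * x⁻¹ := by
      simp only [commutatorElement_def]
      group
    rw [h1, hxZ _ (h.comm_mem ha hb')]
    exact ha2 _ hb' w hw
  have hRadne : Rad ≠ Q := by
    intro hR
    let T : Subgroup F :=
      { carrier := {z | ∀ w ∈ W, ρK z w = w}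
        one_mem' := fun w _ => by simp
        mul_mem' := fun ha hb w hw => by rw [map_mul, Module.End.mul_apply, hb w hw, ha w hw]
        inv_mem' := fun ha w hw => hinv_of _ w (ha w hw) }
    have hle : ⁅Q, Q⁆ ≤ T := by
      rw [Subgroup.commutator_le]
      intro a ha b hb w hw
      have : a ∈ Rad := hR ▸ ha
      exact this.2 b hb w hw
    rw [← h.D_eq] at hle
    obtain ⟨w, hw, hw0⟩ := Submodule.exists_mem_ne_zero_of_ne_bot hχ0
    have h1 := hle z₀.2 w hw
    have h2 := mem_simEig.mp hw z₀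
    rw [hσ, h1] at h2
    apply hz₀
    have h3 : (1 : K) • w = χ z₀ • w := by rw [one_smul]; exact h2
    exact (smul_left_injective K hw0 h3).symm
  have hRadZ := h.le_D hRadQ hRadn hRadne
  have hnd : ∀ a ∈ Q, (∀ b ∈ Q, ∀ w ∈ W, ρK ⁅a, b⁆ w = w) → a ∈ Z := fun a ha hab => hRadZ ⟨ha, hab⟩
  obtain ⟨⟨w, -, hw0, hwx⟩, -⟩ := t2_eigen ρK hq2 hr Q Z x W hχ0 (hcast _ (hK _)) hWinv hZs (h.hq) hxr h.D_le
    (fun z hz a ha => h.D_comm hz ha) (fun a ha b hb => h.comm_mem ha hb) (fun a ha => h.pow_mem_D ha)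
    hnd hxQ hxZ hfpf h.exists_not_mem_D
  have hw : w ∈ fx ρK Y := mem_fx_zpowers ρK hwx
  have h0 : finrank K (fx ρK Y) = 0 := by
    rw [finrank_fx_baseChange K ρ Y (hK _), hfix, finrank_bot]
  rw [Submodule.finrank_eq_zero] at h0
  rw [h0] at hw
  exact hw0 (by simpa using hw)

/-- **`T*`**, linear form. -/
theorem tstar_linear (ρ : F →* End k V) {q r : ℕ} [hqf : Fact q.Prime] (hq2 : Odd q)
    (hr : r.Prime) (hqr : q ≠ r) (S : Subgroup F) (hS : IsPGroup q S) (x : F) (hxr : x ^ r = 1)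
    (hxS : x ∈ normalizer (S : Set F)) (hk : (Nat.card F : k) ≠ 0) (hfix : fx ρ (zpowers x) = ⊥) :
    ∀ s ∈ S, ρ (x * s * x⁻¹ * s⁻¹) = 1 := by
  classical
  let π : F →* F ⧸ ρ.ker := QuotientGroup.mk' ρ.ker
  let ρ' : F ⧸ ρ.ker →* End k V := QuotientGroup.lift ρ.ker ρ (fun _ hg => hg)
  have hρ' : ∀ g : F, ρ' (π g) = ρ g := fun _ => rfl
  have hinj : Function.Injective ρ' := by
    intro a b hab
    induction a using QuotientGroup.induction_on with
    | H a =>
      induction b using QuotientGroup.induction_on with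
      | H b =>
        have h1 : ρ a = ρ b := hab
        apply QuotientGroup.eq.mpr
        change ρ (a⁻¹ * b) = 1
        rw [map_mul, ← h1, ← map_mul, inv_mul_cancel, map_one]
  have hcard : (Nat.card (F ⧸ ρ.ker) : k) ≠ 0 := by
    intro h0
    apply hk
    rw [Subgroup.card_eq_card_quotient_mul_card_subgroup ρ.ker, Nat.cast_mul, h0, zero_mul]
  have hfix' : fx ρ' (zpowers (π x)) = ⊥ := by
    rw [Submodule.eq_bot_iff]
    intro v hv
    have h1 : ρ x v = v := hv _ (mem_zpowers _)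
    have h2 := mem_fx_zpowers ρ h1
    rw [hfix] at h2
    simpa using h2
  have hxS' : π x ∈ normalizer ((S.map π : Subgroup _) : Set (F ⧸ ρ.ker)) := by
    apply Cfsg.Agent.Lib.Coprime.mem_normalizer_of_conj_le
    rintro _ ⟨s, hs, rfl⟩
    refine ⟨x * s * x⁻¹, (Subgroup.mem_normalizer_iff.mp hxS s).mp hs, ?_⟩
    change π (x * s * x⁻¹) = _
    rw [map_mul, map_mul, map_inv]
  have hxr' : π x ^ r = 1 := by rw [← map_pow, hxr, map_one]
  have h1 : zpowers (π x) ≤ centralizer ((S.map π : Subgroup _) : Set (F ⧸ ρ.ker)) :=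
    tstar_faithful ρ' hinj hq2 hr hqr (S.map π) (hS.map π) (π x) hxr' hxS' hcard hfix'
  intro s hs
  have h2 : π s * π x = π x * π s := Subgroup.mem_centralizer_iff.mp (h1 (mem_zpowers _)) (π s) ⟨s, hs, rfl⟩
  have h3 : π (x * s * x⁻¹ * s⁻¹) = 1 := by
    rw [map_mul, map_mul, map_mul, map_inv, map_inv, ← h2]
    group
  rw [← hρ', h3, map_one]

end TStar

section TStarGroup

variable {F : Type*} [Group F] [Finite F]

/-- The elementary abelian case of `T*`, with the module structure given. -/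
theorem tstar_elem_aux {A : Type*} [CommGroup A] [Finite A] {ℓ : ℕ} [Fact ℓ.Prime] [Module (ZMod ℓ) (Additive A)]
    (α : F →* MulAut A) {q r : ℕ} [hqf : Fact q.Prime] (hq2 : Odd q)
    (hr : r.Prime) (hqr : q ≠ r) (S : Subgroup F) (hS : IsPGroup q S) (x : F) (hxr : x ^ r = 1)
    (hxS : x ∈ normalizer (S : Set F)) (hcop : ¬ ℓ ∣ Nat.card F) (hfix : fixOf α (zpowers x) = ⊥) :
    ∀ s ∈ S, ∀ a, α (x * s * x⁻¹ * s⁻¹) a = a := by
  classical
  haveI : Finite (Additive A) := inferInstanceAs (Finite A)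
  haveI : Module.Finite (ZMod ℓ) (Additive A) := Module.Finite.of_finite
  let f : F → End (ZMod ℓ) (Additive A) := fun g =>
    (MulEquiv.toAdditive (α g) : Additive A ≃+ Additive A).toAddMonoidHom.toZModLinearMap ℓ
  have hf : ∀ (g : F) (a : Additive A), f g a = Additive.ofMul (α g (Additive.toMul a)) := fun _ _ => rfl
  let ρ : F →* End (ZMod ℓ) (Additive A) :=
    { toFun := f
      map_one' := LinearMap.ext fun x => by
        rw [hf, Module.End.one_apply]
        simp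
      map_mul' := fun a b => LinearMap.ext fun x => by
        rw [Module.End.mul_apply, hf, hf, hf]
        simp }
  have hρ : ∀ (g : F) (a : A), ρ g (Additive.ofMul a) = Additive.ofMul (α g a) := fun _ _ => rfl
  have hK : (Nat.card F : ZMod ℓ) ≠ 0 := by
    rw [Ne, ZMod.natCast_eq_zero_iff]
    exact hcop
  have hfix' : fx ρ (zpowers x) = ⊥ := by
    rw [Submodule.eq_bot_iff]
    intro v hv
    have h1 : Additive.toMul v ∈ fixOf α (zpowers x) := fun y hy => by
      have := hv y hy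
      exact congrArg Additive.toMul this
    rw [hfix, Subgroup.mem_bot] at h1
    exact h1
  have hc := tstar_linear ρ hq2 hr hqr S hS x hxr hxS hK hfix'
  intro s hs a
  have h2 := hρ (x * s * x⁻¹ * s⁻¹) a
  rw [hc s hs, Module.End.one_apply] at h2
  exact (Additive.ofMul.injective h2).symm

/-- The elementary abelian case of `T*`. -/
theorem tstar_elem {A : Type*} [Group A] [Finite A] {ℓ : ℕ} [Fact ℓ.Prime] (hcomm : ∀ a b : A, a * b = b * a)
    (hℓ : ∀ a : A, a ^ ℓ = 1) (α : F →* MulAut A) {q r : ℕ} [hqf : Fact q.Prime] (hq2 : Odd q)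
    (hr : r.Prime) (hqr : q ≠ r) (S : Subgroup F) (hS : IsPGroup q S) (x : F) (hxr : x ^ r = 1)
    (hxS : x ∈ normalizer (S : Set F)) (hcop : ¬ ℓ ∣ Nat.card F) (hfix : fixOf α (zpowers x) = ⊥) :
    ∀ s ∈ S, ∀ a, α (x * s * x⁻¹ * s⁻¹) a = a := by
  letI : CommGroup A := { (inferInstance : Group A) with mul_comm := hcomm }
  letI : Module (ZMod ℓ) (Additive A) := AddCommGroup.zmodModule (n := ℓ) (fun x => by
    change Additive.ofMul ((Additive.toMul x) ^ ℓ) = 0
    rw [hℓ]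
    rfl)
  exact tstar_elem_aux (ℓ := ℓ) α hq2 hr hqr S hS x hxr hxS hcop hfix

/-- **`T*`, group form**: if `x` has prime order, normalizes an odd `q`-subgroup `S`, and `⟨S, x⟩`-group `F` acts
coprimely on a solvable group `P` with `C_P(x) = 1`, then `[S, x]` acts trivially on `P`. -/
theorem tstar_group {q r : ℕ} [hqf : Fact q.Prime] (hq2 : Odd q)
    (hr : r.Prime) (hqr : q ≠ r) (S : Subgroup F) (hS : IsPGroup q S) (x : F) (hxr : x ^ r = 1)
    (hxS : x ∈ normalizer (S : Set F)) (c : ℕ) : ∀ (P : Type*) [Group P] [Finite P], Nat.card P = c →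
      ∀ (α : F →* MulAut P), Group.IsSolvable P → Nat.Coprime (Nat.card P) (Nat.card F) →
      fixOf α (zpowers x) = ⊥ → ∀ s ∈ S, ∀ a, α (x * s * x⁻¹ * s⁻¹) a = a := by
  induction c using Nat.strong_induction_on with
  | _ c ih =>
    intro P _ _ hc α hP hcop hfix s hs a
    by_cases htriv : Subsingleton P
    · exact Subsingleton.elim _ _
    rw [not_subsingleton_iff_nontrivial] at htriv
    obtain ⟨ℓ, hℓf, N, hN1, hNc, hNcomm, hNp⟩ := exists_elem_char P hP
    haveI : N.Normal := inferInstance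
    have hNα : ∀ g, ∀ n ∈ N, α g n ∈ N := fun g n hn =>
      (Subgroup.characteristic_iff_le_comap.mp hNc) (α g) hn
    have hcardN : Nat.card N ∣ Nat.card P := Subgroup.card_subgroup_dvd_card N
    have hN2 : 1 < Nat.card N := by
      rw [Finite.one_lt_card_iff_nontrivial]
      exact (Subgroup.nontrivial_iff_ne_bot N).mpr hN1
    have hmul : Nat.card N * Nat.card (P ⧸ N) = Nat.card P := by
      rw [mul_comm]
      exact (Subgroup.card_eq_card_quotient_mul_card_subgroup N).symm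
    have hcop1 : Nat.Coprime (Nat.card N) (Nat.card F) := Nat.Coprime.coprime_dvd_left hcardN hcop
    have hcop2 : Nat.Coprime (Nat.card (P ⧸ N)) (Nat.card F) :=
      Nat.Coprime.coprime_dvd_left (Dvd.intro_left _ hmul) hcop
    have hℓdvd : ¬ ℓ ∣ Nat.card F := by
      intro h
      obtain ⟨y, hy⟩ : ∃ y : ↥N, y ≠ 1 := by
        by_contra hcon
        push Not at hcon
        apply hN1
        rw [Subgroup.eq_bot_iff_forall]
        intro a ha
        have := hcon ⟨a, ha⟩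
        exact congrArg Subtype.val this
      have h1 : orderOf y = ℓ := by
        apply orderOf_eq_prime
        · exact Subtype.ext (hNp y y.2)
        · exact hy
      have h2 : ℓ ∣ Nat.card N := h1 ▸ orderOf_dvd_natCard y
      have h3 := Nat.dvd_gcd h2 h
      rw [hcop1] at h3
      exact hℓf.out.one_lt.ne' (Nat.dvd_one.mp h3)
    -- on `N`
    have hfixN : fixOf (subAct α N hNα) (zpowers x) = ⊥ := by
      rw [Subgroup.eq_bot_iff_forall]
      rintro ⟨n, hn⟩ hn2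
      have h1 : n ∈ fixOf α (zpowers x) := fun y hy => congrArg Subtype.val (hn2 y hy)
      rw [hfix, Subgroup.mem_bot] at h1
      exact Subtype.ext h1
    have h1 := tstar_elem (A := ↥N) (ℓ := ℓ) (fun a b => Subtype.ext (hNcomm a a.2 b b.2))
      (fun a => Subtype.ext (hNp a a.2)) (subAct α N hNα) hq2 hr hqr S hS x hxr hxS hℓdvd hfixN
    -- on the quotient
    have hlift : ∀ Y : Subgroup F, ∀ z : P, (∀ y ∈ Y, z⁻¹ * α y z ∈ N) →
        ∃ n ∈ N, ∀ y ∈ Y, α y (z * n) = z * n := fun Y z hz =>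
      exists_fixed_lift α Y N hNcomm hNα (Nat.Coprime.coprime_dvd_right (Subgroup.card_subgroup_dvd_card Y) hcop1) z hz
    have hfixQ : fixOf (quotAct α N hNα) (zpowers x) = ⊥ := by
      rw [Subgroup.eq_bot_iff_forall]
      intro z hz
      induction z using QuotientGroup.induction_on with
      | H z =>
        have hz2 : ∀ y ∈ zpowers x, z⁻¹ * α y z ∈ N := by
          intro y hy
          have h3 := hz y hy
          rw [quotAct_mk] at h3
          exact QuotientGroup.eq.mp h3.symm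
        obtain ⟨n, hn, hn2⟩ := hlift _ z hz2
        have h4 : z * n ∈ fixOf α (zpowers x) := hn2
        rw [hfix, Subgroup.mem_bot] at h4
        have h5 : ((z * n : P) : P ⧸ N) = 1 := by rw [h4]; rfl
        rw [QuotientGroup.mk_mul, (QuotientGroup.eq_one_iff n).mpr hn, mul_one] at h5
        exact h5
    have h2 := ih (Nat.card (P ⧸ N)) (by
      rw [← hc, ← hmul]
      have : 0 < Nat.card (P ⧸ N) := Nat.card_pos
      nlinarith) (P ⧸ N) rfl (quotAct α N hNα) (by haveI := hP; infer_instance) hcop2 hfixQ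
    -- conclusion
    set t := x * s * x⁻¹ * s⁻¹ with ht
    have h3 : ∀ y ∈ zpowers t, a⁻¹ * α y a ∈ N := by
      rintro _ ⟨i, rfl⟩
      have h4 : quotAct α N hNα t (a : P ⧸ N) = (a : P ⧸ N) := h2 s hs a
      have h5 : ∀ i : ℤ, quotAct α N hNα (t ^ i) (a : P ⧸ N) = (a : P ⧸ N) := by
        intro i
        have h6 := mem_fixOf (α := quotAct α N hNα) (Y := zpowers t) (x := (a : P ⧸ N))
        have h7 : (a : P ⧸ N) ∈ fixOf (quotAct α N hNα) (zpowers t) := by
          rintro _ ⟨j, rfl⟩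
          induction j using Int.induction_on with
          | zero => simp
          | succ j ih =>
            change quotAct α N hNα (t ^ ((j : ℤ) + 1)) _ = _
            rw [zpow_add_one, map_mul, MulAut.mul_apply, h4]
            exact ih
          | pred j ih =>
            change quotAct α N hNα (t ^ (-(j : ℤ) - 1)) _ = _
            rw [zpow_sub_one, map_mul, MulAut.mul_apply]
            have h8 : quotAct α N hNα t⁻¹ (a : P ⧸ N) = (a : P ⧸ N) := by
              conv_lhs => rw [← h4]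
              rw [← MulAut.mul_apply, ← map_mul, inv_mul_cancel, map_one, MulAut.one_apply]
            rw [h8]
            exact ih
        exact h7 _ ⟨i, rfl⟩
      have h9 := h5 i
      rw [quotAct_mk] at h9
      exact QuotientGroup.eq.mp h9.symm
    obtain ⟨n, hn, hn2⟩ := hlift _ a h3
    have h5 := hn2 t (mem_zpowers t)
    have h6 : α t n = n := congrArg Subtype.val (h1 s hs ⟨n, hn⟩)
    rw [map_mul, h6] at h5
    exact mul_right_cancel h5

end TStarGroup

section Concrete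

variable {X : Type*} [Group X] [Finite X]

/-- The order of a join with a subgroup normalizing: it divides the product of the orders. -/
theorem card_sup_dvd_of_le_normalizer (A B : Subgroup X) (h : B ≤ normalizer (A : Set X)) :
    Nat.card ↥(A ⊔ B) ∣ Nat.card A * Nat.card B := by
  have h1 := Cfsg.Agent.Lib.Coprime.relIndex_sup_of_le_normalizer A B h
  have h2 : A.relIndex (A ⊔ B) * Nat.card A = Nat.card ↥(A ⊔ B) := by
    have h3 : Nat.card ↥(A.subgroupOf (A ⊔ B)) = Nat.card A :=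
      Nat.card_congr (Subgroup.subgroupOfEquivOfLe le_sup_left).toEquiv
    rw [← h3, mul_comm]
    exact Subgroup.card_mul_index _
  rw [← h2, h1, mul_comm]
  apply Nat.mul_dvd_mul_left
  exact Subgroup.relIndex_dvd_card A B

/-- **`T*`, concrete form**. -/
theorem tstar_concrete {q r : ℕ} [hqf : Fact q.Prime] (hq2 : Odd q) (hr : r.Prime) (hqr : q ≠ r) (S N : Subgroup X)
    (hS : IsPGroup q S) (x : X) (hxr : x ^ r = 1) (hxS : x ∈ normalizer (S : Set X))
    (hSN : S ≤ normalizer (N : Set X)) (hxN : x ∈ normalizer (N : Set X)) (hsolv : Group.IsSolvable N)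
    (hcop : Nat.Coprime (Nat.card N) (Nat.card ↥(S ⊔ zpowers x)))
    (hfix : ∀ n ∈ N, x * n = n * x → n = 1) :
    ⁅S, zpowers x⁆ ≤ centralizer (N : Set X) := by
  classical
  set W : Subgroup X := S ⊔ zpowers x with hW
  have hWN : W ≤ normalizer (N : Set X) := sup_le hSN (Subgroup.zpowers_le.mpr hxN)
  have hHn : ∀ x ∈ W, ∀ h ∈ N, x * h * x⁻¹ ∈ N := fun y hy h hh =>
    (Subgroup.mem_normalizer_iff.mp (hWN hy) h).mp hh
  have hSW : S ≤ W := le_sup_left
  have hxW : x ∈ W := (le_sup_right : zpowers x ≤ W) (mem_zpowers x)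
  let α : ↥W →* MulAut ↥N := conjOn W N hHn
  let S' : Subgroup ↥W := S.subgroupOf W
  have hS' : IsPGroup q S' := hS.comap_of_injective _ W.subtype_injective |> fun h => by
    exact h
  rw [Subgroup.commutator_le]
  intro s hs t ht
  by_cases ht1 : t = 1
  · rw [ht1]
    simp [one_mem]
  have hxt : x ∈ zpowers t := mem_zpowers_of_ne_one hr hxr ht ht1
  have htW : t ∈ W := (le_sup_right : zpowers x ≤ W) ht
  have htr : t ^ r = 1 := by
    obtain ⟨i, hi⟩ := ht
    change x ^ i = t at hi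
    rw [← hi, ← zpow_natCast, ← zpow_mul, mul_comm, zpow_mul, zpow_natCast, hxr, one_zpow]
  let t' : ↥W := ⟨t, htW⟩
  have htS : t' ∈ normalizer (S' : Set ↥W) := by
    rw [Subgroup.mem_normalizer_iff]
    intro a
    have h1 : t ∈ normalizer (S : Set X) :=
      (Subgroup.zpowers_le.mpr hxS) ht
    simp only [SetLike.mem_coe, S', Subgroup.mem_subgroupOf]
    exact Subgroup.mem_normalizer_iff.mp h1 a
  have hfix' : fixOf α (zpowers t') = ⊥ := by
    rw [Subgroup.eq_bot_iff_forall]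
    intro n hn
    have h1 : (t : X) * n * t⁻¹ = n := congrArg Subtype.val (hn t' (mem_zpowers t'))
    have h2 : Commute t (n : X) := by
      change t * n = n * t
      calc t * n = (t * n * t⁻¹) * t := by group
        _ = n * t := by rw [h1]
    obtain ⟨i, hi⟩ := hxt
    change t ^ i = x at hi
    have h3 : x * n = n * x := by
      rw [← hi]
      exact (h2.zpow_left i).eq
    exact Subtype.ext (hfix n n.2 h3)
  have hcop' : Nat.Coprime (Nat.card ↥N) (Nat.card ↥W) := hcop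
  have hmain := tstar_group (F := ↥W) hq2 hr hqr S' hS' t' (Subtype.ext htr) htS (Nat.card ↥N) ↥N rfl α hsolv hcop' hfix'
    ⟨s, hSW hs⟩ (Subgroup.mem_subgroupOf.mpr hs)
  rw [Subgroup.mem_centralizer_iff]
  intro n hn
  have h2 := congrArg Subtype.val (hmain ⟨n, hn⟩)
  have h3 : (t * s * t⁻¹ * s⁻¹) * n * (t * s * t⁻¹ * s⁻¹)⁻¹ = n := h2
  rw [commutatorElement_def]
  have h4 : s * t * s⁻¹ * t⁻¹ = (t * s * t⁻¹ * s⁻¹)⁻¹ := by group
  rw [h4]
  calc n * (t * s * t⁻¹ * s⁻¹)⁻¹ = (t * s * t⁻¹ * s⁻¹)⁻¹ * ((t * s * t⁻¹ * s⁻¹) * n * (t * s * t⁻¹ * s⁻¹)⁻¹) := by group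
    _ = _ := by rw [h3]

end Concrete

end Cfsg.Agent.Lib.FT
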