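import Cfsg.Agent.Lib.FT.BG9c
import Cfsg.Agent.S1442

/-!
BG section 8: the key lemma on commuting normal subgroups of a maximal local subgroup, and the
`M`-invariant `π(F)'`-subgroups of solvable groups (S1481).
-/

set_option autoImplicit false
set_option linter.unusedSectionVars false
set_option linter.style.haveILetI false

namespace Cfsg.Agent.Lib.FT

open Subgroup Cfsg Cfsg.Agent.Lib.OddLocal

open Cfsg.Agent.Lib.Coprime (mem_conj_map conj_mem_conj_map conj_map_conj_map conj_map_one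
  conj_map_mono mem_normalizer_of_conj_le conj_map_eq_iff_mem_normalizer isPGroup_conj_map)

open scoped commutatorElement

universe u

variable {G : Type u} [Group G] [Finite G]

/-- The key lemma. -/
theorem key_lemma {H Yr Ys W : Subgroup G} {r s : ℕ} [hr : Fact r.Prime] [hs : Fact s.Prime] (hrs : r ≠ s)
    (hYr : IsPGroup r Yr) (hYs : IsPGroup s Ys) (hCH : centralizer (Yr : Set G) ≤ H)
    (hHYs : H ≤ normalizer (Ys : Set G)) (hcomm : Ys ≤ centralizer (Yr : Set G))
    (hW : IsPGroup r W) (hWr : Yr ≤ normalizer (W : Set G)) (hWs : Ys ≤ normalizer (W : Set G)) :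
    Ys ≤ centralizer (W : Set G) := by
  have hcop : (Nat.card Ys).Coprime r := by
    obtain ⟨k, hk⟩ := IsPGroup.iff_card.1 hYs
    rw [hk]
    exact Nat.Coprime.pow_left _ ((Nat.coprime_primes hs.out hr.out).2 hrs.symm)
  have hAB : ∀ a ∈ Ys, ∀ b ∈ Yr, a * b = b * a := fun a ha b hb =>
    (Subgroup.mem_centralizer_iff.1 (hcomm ha) b hb).symm
  have hC : ⁅W ⊓ centralizer (Yr : Set G), Ys⁆ = ⊥ := by
    rw [eq_bot_iff, Subgroup.commutator_le]
    rintro t ⟨htW, htC⟩ y hy
    rw [Subgroup.mem_bot]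
    have hd : Disjoint W Ys := IsPGroup.disjoint_of_ne r s hrs W Ys hW hYs
    apply Subgroup.disjoint_def.1 hd
    · rw [commutatorElement_def, mul_assoc, mul_assoc, ← mul_assoc y]
      exact mul_mem htW ((Subgroup.mem_normalizer_iff.1 (hWs hy) _).1 (inv_mem htW))
    · rw [commutatorElement_def]
      have := (Subgroup.mem_normalizer_iff.1 (hHYs (hCH htC)) y).1 hy
      exact mul_mem this (inv_mem hy)
  have h1 := Cfsg.Agent.Lib.Coprime.thompson_A_cross_B Ys Yr hYr hcop hAB _ W rfl hW hWs hWr hC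
  intro y hy
  rw [Subgroup.mem_centralizer_iff]
  intro w hw
  have h2 : ⁅w, y⁆ ∈ (⊥ : Subgroup G) := by
    rw [← h1]
    exact Subgroup.commutator_mem_commutator hw hy
  rw [Subgroup.mem_bot] at h2
  exact commutatorElement_eq_one_iff_mul_comm.1 h2

/-! ### The Fitting subgroup -/

/-- A nilpotent normal subgroup lies in the Fitting subgroup. -/
theorem le_fittingOf {N H : Subgroup G} (hNH : N ≤ H) (hn : H ≤ normalizer (N : Set G))
    (hnil : Group.IsNilpotent N) : N ≤ fittingOf H := by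
  have hnn : (N.subgroupOf H).Normal := by
    constructor
    intro x hx g
    rw [Subgroup.mem_subgroupOf] at hx ⊢
    exact (Subgroup.mem_normalizer_iff.1 (hn g.2) _).1 hx
  have hnl : Group.IsNilpotent (N.subgroupOf H) :=
    (Group.isNilpotent_congr (subgroupOfEquivOfLe hNH)).2 hnil
  have h1 := Cfsg.Agent.Lib.Basic.le_fittingSubgroup_of_nilpotent hnn hnl
  intro x hx
  exact ⟨⟨x, hNH hx⟩, h1 (by simpa [Subgroup.mem_subgroupOf] using hx), rfl⟩

/-- The normalizer of a subgroup normalizes its Fitting subgroup. -/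
theorem normalizer_le_normalizer_fittingOf (H : Subgroup G) :
    normalizer (H : Set G) ≤ normalizer (fittingOf H : Set G) := by
  intro g hg
  apply mem_normalizer_of_conj_map_le
  apply le_fittingOf
  · rintro _ ⟨x, hx, rfl⟩
    exact (Subgroup.mem_normalizer_iff.1 hg x).1 (fittingOf_le H hx)
  · apply le_normalizer_conj (T := H) (fittingOf_normalized H) hg
  · exact (Group.isNilpotent_congr (Subgroup.equivMapOfInjective (fittingOf H) _
      (MulAut.conj g).injective)).1 (fittingOf_isNilpotent H)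

/-- A solvable subgroup: the Fitting subgroup contains its centralizer. -/
theorem inf_centralizer_fittingOf_le {H : Subgroup G} (hs : Group.IsSolvable H) :
    H ⊓ centralizer (fittingOf H : Set G) ≤ fittingOf H := by
  haveI := hs
  rintro x ⟨hxH, hxC⟩
  have h1 : (⟨x, hxH⟩ : H) ∈ centralizer (fittingSubgroup H : Set H) := by
    rw [Subgroup.mem_centralizer_iff]
    intro y hy
    apply Subtype.ext
    exact Subgroup.mem_centralizer_iff.1 hxC _ ⟨y, hy, rfl⟩
  exact ⟨_, centralizer_fitting_le_of_solvable h1, rfl⟩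

/-- The maximality property of a maximal local subgroup or a maximal subgroup. -/
def MaxLoc (H : Subgroup G) : Prop :=
  ∀ (t : ℕ) (Y : Subgroup G), t.Prime → IsPGroup t Y → Y ≠ ⊥ → H ≤ normalizer (Y : Set G) →
    normalizer (Y : Set G) ≤ H

theorem MaxLoc.centralizer_le {H : Subgroup G} (hH : MaxLoc H) {t : ℕ} {Y : Subgroup G} (ht : t.Prime)
    (hY : IsPGroup t Y) (hY1 : Y ≠ ⊥) (hHY : H ≤ normalizer (Y : Set G)) : centralizer (Y : Set G) ≤ H :=
  (centralizer_le_normalizer' Y).trans (hH t Y ht hY hY1 hHY)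

theorem normalizer_le_normalizer_cent (U : Subgroup G) :
    normalizer (U : Set G) ≤ normalizer (centralizer (U : Set G) : Set G) := by
  intro g hg
  apply mem_normalizer_of_conj_le
  intro x hx
  rw [Subgroup.mem_centralizer_iff] at hx ⊢
  intro u hu
  have h1 : g⁻¹ * u * g ∈ U := by
    have := (Subgroup.mem_normalizer_iff.1 (inv_mem hg) u).1 hu
    simpa using this
  have h2 := hx _ h1
  have h3 : u = g * (g⁻¹ * u * g) * g⁻¹ := by group
  rw [h3]
  calc g * (g⁻¹ * u * g) * g⁻¹ * (g * x * g⁻¹) = g * ((g⁻¹ * u * g) * x) * g⁻¹ := by group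
    _ = g * (x * (g⁻¹ * u * g)) * g⁻¹ := by rw [h2]
    _ = _ := by group

/-- The `t`-part of the centre of the Fitting subgroup. -/
noncomputable def Zt (t : ℕ) (H : Subgroup G) : Subgroup G :=
  Oq t (fittingOf H ⊓ centralizer (fittingOf H : Set G))

theorem Zt_isPGroup (t : ℕ) (H : Subgroup G) : IsPGroup t (Zt t H) := Oq_isPGroup t _

theorem Zt_le (t : ℕ) (H : Subgroup G) : Zt t H ≤ fittingOf H ⊓ centralizer (fittingOf H : Set G) :=
  Oq_le t _

theorem nilp_of_le {A B : Subgroup G} (h : A ≤ B) (hB : Group.IsNilpotent B) : Group.IsNilpotent A := by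
  haveI := hB
  exact (Group.isNilpotent_congr (subgroupOfEquivOfLe h)).1 (inferInstance : Group.IsNilpotent (A.subgroupOf B))

theorem center_fitting_isNilpotent (H : Subgroup G) :
    Group.IsNilpotent ↥(fittingOf H ⊓ centralizer (fittingOf H : Set G)) :=
  nilp_of_le inf_le_left (fittingOf_isNilpotent H)

theorem Zt_normalized (t : ℕ) [Fact t.Prime] (H : Subgroup G) : H ≤ normalizer (Zt t H : Set G) := by
  intro h hh
  apply mem_normalizer_Oq (center_fitting_isNilpotent H)
  apply (le_inf (fittingOf_normalized H) ((fittingOf_normalized H).trans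
    (normalizer_le_normalizer_cent _))).trans Subgroup.inf_normalizer_le_normalizer_inf hh

theorem Zt_ne_bot {t : ℕ} [ht : Fact t.Prime] {H : Subgroup G} (hd : t ∣ Nat.card (fittingOf H)) : Zt t H ≠ ⊥ := by
  have hFn := fittingOf_isNilpotent H
  have hne := Oq_ne_bot hFn hd
  have hp := Oq_isPGroup t (fittingOf H)
  haveI : Nontrivial (Oq t (fittingOf H)) := (Subgroup.nontrivial_iff_ne_bot _).2 hne
  haveI : Nontrivial (center (Oq t (fittingOf H))) := hp.center_nontrivial
  obtain ⟨⟨z, hz⟩, hz1⟩ := exists_ne (1 : center (Oq t (fittingOf H)))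
  have hz0 : (z : G) ≠ 1 := by
    intro h
    apply hz1
    apply Subtype.ext
    apply Subtype.ext
    exact h
  have hzc : (z : G) ∈ centralizer (fittingOf H : Set G) := by
    rw [Subgroup.mem_centralizer_iff]
    intro x hx
    refine (comm_of_comm_parts t hFn ?_ ?_ hx).symm
    · intro a ha
      have := (Subgroup.mem_center_iff.1 hz) ⟨a, ha⟩
      exact (congrArg Subtype.val this).symm
    · intro b hb
      exact Oq_comm_Oq' hFn z.2 hb
  have hzF : (z : G) ∈ fittingOf H := Oq_le t _ z.2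
  obtain ⟨k, hk⟩ := hp z
  have hk' : (z : G) ^ t ^ k = 1 := congrArg Subtype.val hk
  have hmem : (z : G) ∈ Zt t H := mem_Oq (center_fitting_isNilpotent H) ⟨hzF, hzc⟩ hk'
  intro hbot
  rw [hbot, Subgroup.mem_bot] at hmem
  exact hz0 hmem

/-- The parts `Z_r`, `Z_s` commute. -/
theorem Zt_comm (r s : ℕ) (H : Subgroup G) : Zt s H ≤ centralizer (Zt r H : Set G) := by
  intro a ha
  rw [Subgroup.mem_centralizer_iff]
  intro b hb
  exact Subgroup.mem_centralizer_iff.1 (Zt_le s H ha).2 b (Zt_le r H hb).1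

theorem solv_of_le {A B : Subgroup G} (h : A ≤ B) (hB : Group.IsSolvable B) : Group.IsSolvable A := by
  haveI := hB
  exact solvable_of_solvable_injective (Subgroup.inclusion_injective h)

/-- `X ∩ R` lies in `F`. -/
theorem fitting_inf_le {H R : Subgroup G} (hR : Group.IsSolvable R)
    (hXR : H ⊓ centralizer (fittingOf H : Set G) ≤ normalizer (R : Set G)) :
    (H ⊓ centralizer (fittingOf H : Set G)) ⊓ R ≤ fittingOf H := by
  set F := fittingOf H with hF
  set X := H ⊓ centralizer (F : Set G) with hX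
  set K := X ⊓ R with hK
  have hKs : Group.IsSolvable K := solv_of_le inf_le_right hR
  have hKX : X ≤ normalizer (K : Set G) :=
    (le_inf Subgroup.le_normalizer hXR).trans Subgroup.inf_normalizer_le_normalizer_inf
  have hHX : H ≤ normalizer (X : Set G) :=
    (le_inf Subgroup.le_normalizer ((fittingOf_normalized H).trans (normalizer_le_normalizer_cent _))).trans
      Subgroup.inf_normalizer_le_normalizer_inf
  have h1 : fittingOf K ≤ fittingOf X :=
    le_fittingOf ((fittingOf_le K).trans inf_le_left) (hKX.trans (normalizer_le_normalizer_fittingOf K))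
      (fittingOf_isNilpotent K)
  have h2 : fittingOf X ≤ F :=
    le_fittingOf ((fittingOf_le X).trans inf_le_left) (hHX.trans (normalizer_le_normalizer_fittingOf X))
      (fittingOf_isNilpotent X)
  have h3 : K ≤ K ⊓ centralizer (fittingOf K : Set G) := by
    refine le_inf le_rfl fun x hx => ?_
    rw [Subgroup.mem_centralizer_iff]
    intro y hy
    exact Subgroup.mem_centralizer_iff.1 hx.1.2 y (h2 (h1 hy))
  exact (h3.trans (inf_centralizer_fittingOf_le hKs)).trans (h1.trans h2)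

section Main

variable {H M R : Subgroup G}

/-- An `M`-invariant `π'`-subgroup of `H ∩ R` is trivial. -/
theorem inv_eq_bot (hM : M ≤ fittingOf H)
    (hCM : fittingOf H ⊓ centralizer (M : Set G) ≤ M) (hR : Group.IsSolvable R)
    (hXR : H ⊓ centralizer (fittingOf H : Set G) ≤ normalizer (R : Set G))
    {D : Subgroup G} (hDH : D ≤ H) (hDR : D ≤ R) (hDM : M ≤ normalizer (D : Set G))
    (hD : (Nat.card D).Coprime (Nat.card (fittingOf H))) : D = ⊥ := by
  set F := fittingOf H with hF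
  have hdisj : Disjoint D F := Subgroup.disjoint_of_coprime_natCard hD
  have hcomm : ∀ d ∈ D, ∀ m ∈ M, d * m = m * d := by
    intro d hd m hm
    have h1 : ⁅d, m⁆ = 1 := by
      apply Subgroup.disjoint_def.1 hdisj
      · rw [commutatorElement_def, mul_assoc, mul_assoc, ← mul_assoc m]
        exact mul_mem hd ((Subgroup.mem_normalizer_iff.1 (hDM hm) _).1 (inv_mem hd))
      · rw [commutatorElement_def]
        exact mul_mem ((Subgroup.mem_normalizer_iff.1 (fittingOf_normalized H (hDH hd)) m).1 (hM hm))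
          (inv_mem (hM hm))
    exact commutatorElement_eq_one_iff_mul_comm.1 h1
  have hDF : D ≤ centralizer (F : Set G) := by
    apply Cfsg.Agent.S1442.result F D (fittingOf_isNilpotent H)
      (hDH.trans (fittingOf_normalized H)) hD
    rintro x ⟨hxF, hxC⟩
    have hMC : M ≤ F ⊓ centralizer (D : Set G) := by
      refine le_inf hM fun m hm => ?_
      rw [Subgroup.mem_centralizer_iff]
      intro d hd
      exact hcomm d hd m hm
    have hxM : x ∈ M := hCM (Subgroup.mem_inf.2 ⟨hxF, by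
      rw [Subgroup.mem_centralizer_iff]
      intro m hm
      exact Subgroup.mem_centralizer_iff.1 hxC m (hMC hm)⟩)
    exact hMC hxM
  have hDF' : D ≤ F := fun d hd => fitting_inf_le hR hXR ⟨⟨hDH hd, hDF hd⟩, hDR hd⟩
  rw [eq_bot_iff]
  intro d hd
  exact Subgroup.disjoint_def.1 hdisj hd (hDF' hd)

/-- `Z_s` acts fixed-point-freely on an `M`-invariant `π'`-subgroup of `R`. -/
theorem inf_centralizer_Zt_eq_bot (hH : MaxLoc H) (hM : M ≤ fittingOf H)
    (hCM : fittingOf H ⊓ centralizer (M : Set G) ≤ M) (hR : Group.IsSolvable R)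
    (hXR : H ⊓ centralizer (fittingOf H : Set G) ≤ normalizer (R : Set G))
    {Q : Subgroup G} (hQR : Q ≤ R) (hQM : M ≤ normalizer (Q : Set G))
    (hQ : (Nat.card Q).Coprime (Nat.card (fittingOf H)))
    {s : ℕ} [hs : Fact s.Prime] (hsF : s ∣ Nat.card (fittingOf H)) :
    Q ⊓ centralizer (Zt s H : Set G) = ⊥ := by
  have hHZ := Zt_normalized s H
  have hMH : M ≤ H := hM.trans (fittingOf_le H)
  apply inv_eq_bot hM hCM hR hXR
  · exact inf_le_right.trans (hH.centralizer_le hs.out (Zt_isPGroup s H) (Zt_ne_bot hsF) hHZ)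
  · exact inf_le_left.trans hQR
  · exact Cfsg.Agent.Lib.Basic.le_normalizer_inf hQM
      ((hMH.trans hHZ).trans (normalizer_le_normalizer_cent _))
  · exact Nat.Coprime.coprime_dvd_left (Subgroup.card_dvd_of_le inf_le_left) hQ

end Main

/-! ### The upper `σ,r`-layer of a solvable group -/

section Up

variable (σ : Set ℕ) (r : ℕ) (R : Subgroup G)

/-- The preimage of `O_r(R / O_σ(R))` as a subgroup of `G`. -/
noncomputable def upN : Subgroup G :=
  ((pCore r (↥R ⧸ piCore σ ↥R)).comap (QuotientGroup.mk' (piCore σ ↥R))).map R.subtype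

variable {σ r R}

theorem upN_le : upN σ r R ≤ R := Subgroup.map_subtype_le _

theorem mem_upN {x : G} : x ∈ upN σ r R ↔ ∃ h : x ∈ R,
    ((⟨x, h⟩ : R) : ↥R ⧸ piCore σ ↥R) ∈ pCore r (↥R ⧸ piCore σ ↥R) := by
  constructor
  · rintro ⟨y, hy, rfl⟩
    exact ⟨y.2, hy⟩
  · rintro ⟨h, hx⟩
    exact ⟨⟨x, h⟩, hx, rfl⟩

theorem mem_piCoreOf_iff {x : G} (hx : x ∈ R) : x ∈ piCoreOf σ R ↔ (⟨x, hx⟩ : R) ∈ piCore σ ↥R := by
  constructor
  · rintro ⟨y, hy, rfl⟩
    exact hy
  · intro h
    exact ⟨⟨x, hx⟩, h, rfl⟩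

theorem piCoreOf_le_upN : piCoreOf σ R ≤ upN σ r R := by
  intro x hx
  have hxR : x ∈ R := piCoreOf_le σ R hx
  refine mem_upN.2 ⟨hxR, ?_⟩
  have : ((⟨x, hxR⟩ : R) : ↥R ⧸ piCore σ ↥R) = 1 :=
    (QuotientGroup.eq_one_iff _).2 ((mem_piCoreOf_iff hxR).1 hx)
  rw [this]
  exact one_mem _

theorem le_normalizer_upN : R ≤ normalizer (upN σ r R : Set G) := by
  intro x hx
  apply mem_normalizer_of_conj_map_le
  rintro _ ⟨y, hy, rfl⟩
  obtain ⟨h, hy'⟩ := mem_upN.1 hy
  have hn : (pCore r (↥R ⧸ piCore σ ↥R)).Normal := Cfsg.Agent.Lib.Basic.pCore_normal r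
  refine mem_upN.2 ⟨mul_mem (mul_mem hx h) (inv_mem hx), ?_⟩
  have := hn.conj_mem _ hy' ((⟨x, hx⟩ : R) : ↥R ⧸ piCore σ ↥R)
  exact this

theorem upN_pow {x : G} (hx : x ∈ upN σ r R) : ∃ k : ℕ, x ^ r ^ k ∈ piCoreOf σ R := by
  obtain ⟨h, hx'⟩ := mem_upN.1 hx
  obtain ⟨k, hk⟩ := (Cfsg.Agent.Lib.Basic.pCore_isPGroup r (G := ↥R ⧸ piCore σ ↥R)) ⟨_, hx'⟩
  have h2 : (⟨x, h⟩ : R) ^ r ^ k ∈ piCore σ ↥R := by
    rw [← QuotientGroup.eq_one_iff, QuotientGroup.mk_pow]
    exact congrArg Subtype.val hk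
  refine ⟨k, ?_⟩
  exact ⟨_, h2, by simp⟩

/-- Normal subgroups of `R` which are `r`-groups modulo the core lie in `upN`. -/
theorem le_upN {T : Subgroup G} (hTR : T ≤ R) (hn : R ≤ normalizer (T : Set G))
    (h : ∀ x ∈ T, ∃ k : ℕ, x ^ r ^ k ∈ piCoreOf σ R) : T ≤ upN σ r R := by
  have hnn : (T.subgroupOf R).Normal := by
    constructor
    intro x hx g
    rw [Subgroup.mem_subgroupOf] at hx ⊢
    exact (Subgroup.mem_normalizer_iff.1 (hn g.2) _).1 hx
  have hmap : ((T.subgroupOf R).map (QuotientGroup.mk' (piCore σ ↥R))).Normal :=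
    hnn.map _ (QuotientGroup.mk'_surjective _)
  have hp : IsPGroup r ((T.subgroupOf R).map (QuotientGroup.mk' (piCore σ ↥R))) := by
    rintro ⟨_, y, hy, rfl⟩
    obtain ⟨k, hk⟩ := h _ (Subgroup.mem_subgroupOf.1 hy)
    refine ⟨k, Subtype.ext ?_⟩
    have h1 : y ^ r ^ k ∈ piCore σ ↥R := (mem_piCoreOf_iff (pow_mem y.2 _)).1 hk
    have h2 : ((y ^ r ^ k : R) : ↥R ⧸ piCore σ ↥R) = 1 := (QuotientGroup.eq_one_iff _).2 h1
    simpa using h2
  have hle := Cfsg.Agent.Lib.Basic.le_pCore hmap hp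
  intro x hx
  refine mem_upN.2 ⟨hTR hx, hle ⟨⟨x, hTR hx⟩, ?_, rfl⟩⟩
  exact Subgroup.mem_subgroupOf.2 hx

theorem normalizer_le_normalizer_piCoreOf (σ : Set ℕ) (R : Subgroup G) :
    normalizer (R : Set G) ≤ normalizer (piCoreOf σ R : Set G) := by
  intro g hg
  apply mem_normalizer_of_conj_map_le
  apply le_piCoreOf
  · rintro _ ⟨x, hx, rfl⟩
    exact (Subgroup.mem_normalizer_iff.1 hg x).1 (piCoreOf_le σ R hx)
  · exact le_normalizer_conj (le_normalizer_piCoreOf σ R) hg
  · exact (piCoreOf_isPi σ R).conj g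

theorem normalizer_le_normalizer_upN [hr : Fact r.Prime] :
    normalizer (R : Set G) ≤ normalizer (upN σ r R : Set G) := by
  intro g hg
  apply mem_normalizer_of_conj_map_le
  apply le_upN
  · rintro _ ⟨x, hx, rfl⟩
    exact (Subgroup.mem_normalizer_iff.1 hg x).1 (upN_le hx)
  · exact le_normalizer_conj le_normalizer_upN hg
  · rintro _ ⟨y, hy, rfl⟩
    obtain ⟨k, hk⟩ := upN_pow hy
    refine ⟨k, ?_⟩
    have := (Subgroup.mem_normalizer_iff.1 (normalizer_le_normalizer_piCoreOf σ R hg) _).1 hk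
    simpa using this

theorem isMaxP_of_sylow {q : ℕ} [Fact q.Prime] {N : Subgroup G} (P : Sylow q N) :
    IsMaxP q ((P : Subgroup N).map N.subtype) N := by
  refine ⟨Subgroup.map_subtype_le _, P.isPGroup'.map _, fun D' h1 h2 h3 => ?_⟩
  have h4 : (P : Subgroup N) ≤ D'.subgroupOf N := by
    intro x hx
    exact Subgroup.mem_subgroupOf.2 (h3 ⟨x, hx, rfl⟩)
  have h5 : IsPGroup q (D'.subgroupOf N) := h2.comap_of_injective N.subtype N.subtype_injective
  have h6 := P.is_maximal' h5 h4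
  rw [← h6, Subgroup.map_subgroupOf_eq_of_le h1]

open scoped Pointwise in
/-- Glauberman's lemma for the maximal `q`-subgroups of `N`, where `N = E O` for each of them. -/
theorem exists_inv_of_sup {q : ℕ} [Fact q.Prime] {N O M : Subgroup G}
    (hNO : N ≤ normalizer (O : Set G)) (hON : O ≤ normalizer (N : Set G))
    (hMO : M ≤ normalizer (O : Set G)) (hMN : M ≤ normalizer (N : Set G))
    (hcop : (Nat.card M).Coprime (Nat.card O)) (hMs : Group.IsSolvable M)
    (hsup : ∀ E : Subgroup G, IsMaxP q E N → E ⊔ O = N) :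
    ∃ E : Subgroup G, IsMaxP q E N ∧ M ≤ normalizer (E : Set G) := by
  have hmax : ∀ X ∈ Cfsg.Agent.Lib.Basic.sylowMaps q N, IsMaxP q X N := by
    rintro _ ⟨P, rfl⟩
    exact isMaxP_of_sylow P
  have hne : (Cfsg.Agent.Lib.Basic.sylowMaps q N).Nonempty := by
    obtain ⟨P⟩ : Nonempty (Sylow q N) := inferInstance
    exact ⟨_, ⟨P, rfl⟩⟩
  obtain ⟨⟨E, hES, hEM⟩, -⟩ := Cfsg.Agent.Lib.Basic.glauberman_subgroups hMO hcop (Or.inl hMs)
    (Cfsg.Agent.Lib.Basic.sylowMaps q N) hne
    (fun k hk X hX => Cfsg.Agent.Lib.Basic.conj_smul_mem_sylowMaps (hON hk) hX)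
    (fun a ha X hX => Cfsg.Agent.Lib.Basic.conj_smul_mem_sylowMaps (hMN ha) hX)
    (by
      intro P hP Q hQ
      obtain ⟨n, hn, hnPQ⟩ := Cfsg.Agent.Lib.Basic.sylowMaps_trans hP hQ
      have hPmax := hmax P hP
      have hn' : n ∈ O ⊔ P := by
        rw [sup_comm, hsup P hPmax]
        exact hn
      obtain ⟨a, ha, b, hb, rfl⟩ := OddLocal.mem_sup_of_le_normalizer (hPmax.le.trans hNO) hn'
      refine ⟨a, ha, ?_⟩
      rw [← hnPQ, map_mul, mul_smul, Subgroup.conj_smul_eq_self_of_mem hb])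
  exact ⟨E, hmax E hES, hEM⟩

/-- Maximal `r`-subgroups of `upN` cover it modulo the core. -/
theorem sup_eq_upN [hr : Fact r.Prime] (hrσ : r ∉ σ) {E : Subgroup G} (hE : IsMaxP r E (upN σ r R)) :
    E ⊔ piCoreOf σ R = upN σ r R := by
  set N := upN σ r R with hN
  set O := piCoreOf σ R with hO
  have hcN : Nat.card N = Nat.card O * Nat.card (pCore r (↥R ⧸ piCore σ ↥R)) := by
    have h1 : Nat.card N = Nat.card ((pCore r (↥R ⧸ piCore σ ↥R)).comap (QuotientGroup.mk' (piCore σ ↥R))) :=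
      OddLocal.card_map_subtype _
    have h2 : Nat.card O = Nat.card (piCore σ ↥R) := OddLocal.card_map_subtype _
    rw [h1, h2]
    exact card_comap_mk _ _
  obtain ⟨m, hm⟩ := (Cfsg.Agent.Lib.Basic.pCore_isPGroup r (G := ↥R ⧸ piCore σ ↥R)).exists_card_eq
  have hOr : (Nat.card O).Coprime r := by
    refine Nat.Coprime.symm ((Nat.Prime.coprime_iff_not_dvd hr.out).2 fun hd => hrσ ?_)
    exact piCoreOf_isPi σ R r hr.out hd
  have hEc : r ^ m ∣ Nat.card E := by
    have h1 : r ^ m ∣ Nat.card N := by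
      rw [hcN, hm]
      exact Dvd.intro_left _ rfl
    have h2 := hE.toSylow.pow_dvd_card_of_pow_dvd_card h1
    have h3 : Nat.card (hE.toSylow : Subgroup N) = Nat.card E :=
      Nat.card_congr (subgroupOfEquivOfLe hE.le).toEquiv
    rwa [h3] at h2
  apply Subgroup.eq_of_le_of_card_ge (sup_le hE.le piCoreOf_le_upN)
  rw [hcN, hm]
  have h1 : r ^ m ∣ Nat.card ↥(E ⊔ O) := hEc.trans (Subgroup.card_dvd_of_le le_sup_left)
  have h2 : Nat.card O ∣ Nat.card ↥(E ⊔ O) := Subgroup.card_dvd_of_le le_sup_right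
  exact Nat.le_of_dvd Nat.card_pos
    (Nat.Coprime.mul_dvd_of_dvd_of_dvd (Nat.Coprime.pow_right m hOr) h2 h1)

/-- An invariant Sylow subgroup of `upN`. -/
theorem exists_inv_upN [hr : Fact r.Prime] (hrσ : r ∉ σ) {M : Subgroup G} (hMR : M ≤ normalizer (R : Set G))
    (hcop : (Nat.card M).Coprime (Nat.card (piCoreOf σ R))) (hMs : Group.IsSolvable M) :
    ∃ E : Subgroup G, IsPGroup r E ∧ M ≤ normalizer (E : Set G) ∧ E ⊔ piCoreOf σ R = upN σ r R := by
  obtain ⟨E, hE, hEM⟩ := exists_inv_of_sup (N := upN σ r R) (O := piCoreOf σ R) (M := M) (q := r)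
    (upN_le.trans (le_normalizer_piCoreOf σ R))
    ((piCoreOf_le σ R).trans le_normalizer_upN) (hMR.trans (normalizer_le_normalizer_piCoreOf σ R))
    (hMR.trans normalizer_le_normalizer_upN) hcop hMs (fun E hE => sup_eq_upN hrσ hE)
  exact ⟨E, hE.isP, hEM, sup_eq_upN hrσ hE⟩

end Up

/-! ### Trivial action on a section -/

/-- The elements acting trivially on `N / O`. -/
def relCen (O N : Subgroup G) : Subgroup G where
  carrier := {w | w ∈ normalizer (O : Set G) ∧ ∀ e ∈ N, w * e * w⁻¹ * e⁻¹ ∈ O}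
  one_mem' := ⟨one_mem _, fun e _ => by simp⟩
  mul_mem' := by
    rintro a b ⟨ha, ha'⟩ ⟨hb, hb'⟩
    refine ⟨mul_mem ha hb, fun e he => ?_⟩
    have h1 := (Subgroup.mem_normalizer_iff.1 ha _).1 (hb' e he)
    have h2 := mul_mem h1 (ha' e he)
    convert h2 using 1
    group
  inv_mem' := by
    rintro a ⟨ha, ha'⟩
    refine ⟨inv_mem ha, fun e he => ?_⟩
    have h1 := ha' e he
    have h2 := (Subgroup.mem_normalizer_iff.1 (inv_mem ha) _).1 (inv_mem h1)
    convert h2 using 1
    group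

theorem mem_relCen_conj {O N : Subgroup G} {w x : G} (hw : w ∈ relCen O N) (hxO : x ∈ normalizer (O : Set G))
    (hxN : x ∈ normalizer (N : Set G)) : x * w * x⁻¹ ∈ relCen O N := by
  refine ⟨mul_mem (mul_mem hxO hw.1) (inv_mem hxO), fun e he => ?_⟩
  have h1 : x⁻¹ * e * x ∈ N := by
    have := (Subgroup.mem_normalizer_iff.1 (inv_mem hxN) e).1 he
    simpa using this
  have h2 := (Subgroup.mem_normalizer_iff.1 hxO _).1 (hw.2 _ h1)
  convert h2 using 1
  group

theorem commutator_le_relCen {O N Q Y : Subgroup G} (hQO : Q ≤ normalizer (O : Set G))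
    (hQN : Q ≤ normalizer (N : Set G)) (hY : Y ≤ relCen O N) : ⁅Q, Y⁆ ≤ relCen O N := by
  rw [Subgroup.commutator_le]
  intro x hx y hy
  rw [commutatorElement_def]
  exact mul_mem (mem_relCen_conj (hY hy) (hQO hx) (hQN hx)) (inv_mem (hY hy))

/-- The section version of the coprime decomposition. -/
theorem le_relCen_of_coprime {O N Q Y : Subgroup G} (hQO : Q ≤ normalizer (O : Set G))
    (hQN : Q ≤ normalizer (N : Set G)) (hY : Y ≤ relCen O N) (hYQ : Y ≤ normalizer (Q : Set G))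
    (hcop : (Nat.card Y).Coprime (Nat.card Q)) (hs : Group.IsSolvable Y)
    (hC : Q ⊓ centralizer (Y : Set G) = ⊥) : Q ≤ relCen O N := by
  have h1 := Cfsg.Agent.Lib.Basic.coprime_commutator_sup_centralizer hYQ hcop (Or.inl hs)
  rw [hC, sup_bot_eq] at h1
  rw [← h1]
  exact commutator_le_relCen hQO hQN hY

/-- An element acting trivially on the sections `N_r / O` (`r ∉ σ`) of a solvable `R`, and of `σ`-order, lies in `O`. -/
theorem mem_core_of_relCen {σ : Set ℕ} {R : Subgroup G} (hR : Group.IsSolvable R) {x : G} (hxR : x ∈ R)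
    (h : ∀ (r : ℕ) [Fact r.Prime], r ∉ σ → x ∈ relCen (piCoreOf σ R) (upN σ r R))
    (ho : ∀ q : ℕ, q.Prime → q ∣ orderOf x → q ∈ σ) : x ∈ piCoreOf σ R := by
  haveI := hR
  set Rb := ↥R ⧸ piCore σ ↥R with hRb
  haveI : Group.IsSolvable Rb := inferInstance
  have hbot : ∀ (q : ℕ) [Fact q.Prime], q ∈ σ → pCore q Rb = ⊥ := by
    intro q hq hqσ
    have hn : ((pCore q Rb).comap (QuotientGroup.mk' (piCore σ ↥R))).Normal :=
      Subgroup.Normal.comap (Cfsg.Agent.Lib.Basic.pCore_normal q) _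
    have hle : (pCore q Rb).comap (QuotientGroup.mk' (piCore σ ↥R)) ≤ piCore σ ↥R := by
      apply le_sSup
      refine ⟨hn, fun t ht hd => ?_⟩
      rw [card_comap_mk] at hd
      rcases (Nat.Prime.dvd_mul ht).1 hd with hd | hd
      · exact piCore_isPi σ R t ht hd
      · obtain ⟨k, hk⟩ := (Cfsg.Agent.Lib.Basic.pCore_isPGroup q (G := Rb)).exists_card_eq
        rw [hk] at hd
        have := (Nat.prime_dvd_prime_iff_eq ht Fact.out).1 (ht.dvd_of_dvd_pow hd)
        rw [this]
        exact hqσ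
    rw [eq_bot_iff]
    intro y hy
    obtain ⟨z, rfl⟩ := QuotientGroup.mk'_surjective (piCore σ ↥R) y
    have : z ∈ piCore σ ↥R := hle hy
    rw [Subgroup.mem_bot, QuotientGroup.mk'_apply, QuotientGroup.eq_one_iff]
    exact this
  set xb : Rb := ((⟨x, hxR⟩ : R) : Rb) with hxb
  have hcent : ∀ (t : ℕ) [Fact t.Prime], pCore t Rb ≤ centralizer ({xb} : Set Rb) := by
    intro t ht
    by_cases htσ : t ∈ σ
    · rw [hbot t htσ]
      exact bot_le
    · intro d hd
      rw [Subgroup.mem_centralizer_iff]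
      rintro _ rfl
      obtain ⟨e, rfl⟩ := QuotientGroup.mk'_surjective (piCore σ ↥R) d
      have he : (e : G) ∈ upN σ t R := mem_upN.2 ⟨e.2, hd⟩
      have h1 := (h t htσ).2 _ he
      have h2 : (⟨x, hxR⟩ : R) * e * (⟨x, hxR⟩ : R)⁻¹ * e⁻¹ ∈ piCore σ ↥R :=
        (mem_piCoreOf_iff (mul_mem (mul_mem (mul_mem hxR e.2) (inv_mem hxR)) (inv_mem e.2))).1 h1
      have h3 := (QuotientGroup.eq_one_iff _).2 h2
      simp only [QuotientGroup.mk_mul, QuotientGroup.mk_inv] at h3
      have h4 : xb * (QuotientGroup.mk' (piCore σ ↥R) e) * xb⁻¹ * (QuotientGroup.mk' (piCore σ ↥R) e)⁻¹ = 1 := h3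
      have h5 := mul_inv_eq_one.1 h4
      exact mul_inv_eq_iff_eq_mul.1 h5
  have hF : fittingSubgroup Rb ≤ centralizer ({xb} : Set Rb) := by
    rw [Cfsg.Agent.Lib.Basic.fittingSubgroup_eq_iSup_pCore]
    apply iSup_le
    rintro ⟨t, ht⟩
    haveI : Fact t.Prime := ⟨ht⟩
    exact hcent t
  have hxC : xb ∈ centralizer (fittingSubgroup Rb : Set Rb) := by
    rw [Subgroup.mem_centralizer_iff]
    intro y hy
    exact (Subgroup.mem_centralizer_iff.1 (hF hy) xb rfl).symm
  have hxF : xb ∈ fittingSubgroup Rb := centralizer_fitting_le_of_solvable hxC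
  have hFn : Group.IsNilpotent (fittingSubgroup Rb) := Cfsg.Agent.Lib.Basic.fittingSubgroup_isNilpotent
  have hxb1 : xb = 1 := by
    by_contra hne
    have hord : orderOf xb ≠ 1 := fun h1 => hne (orderOf_eq_one_iff.1 h1)
    obtain ⟨q, hq, hqd⟩ := Nat.exists_prime_and_dvd hord
    haveI : Fact q.Prime := ⟨hq⟩
    have hdvd : orderOf xb ∣ orderOf x := by
      have h1 : orderOf xb ∣ orderOf (⟨x, hxR⟩ : R) := orderOf_map_dvd (QuotientGroup.mk' (piCore σ ↥R)) _
      rwa [Subgroup.orderOf_mk] at h1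
    have hqσ := ho q hq (hqd.trans hdvd)
    set y := xb ^ (orderOf xb / q) with hy
    have hyord : orderOf y = q := orderOf_pow_orderOf_div (orderOf_pos xb).ne' hqd
    have hyF : y ∈ fittingSubgroup Rb := pow_mem hxF _
    have hyO : y ∈ Oq q (fittingSubgroup Rb) := mem_Oq hFn hyF (k := 1) (by
      rw [pow_one, ← hyord]; exact pow_orderOf_eq_one y)
    have hOqn : (Oq q (fittingSubgroup Rb)).Normal := by
      rw [← Subgroup.normalizer_eq_top_iff, eq_top_iff]
      intro g _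
      apply mem_normalizer_Oq hFn
      rw [Subgroup.normalizer_eq_top_iff.2 (inferInstance : (fittingSubgroup Rb).Normal)]
      trivial
    have hle := Cfsg.Agent.Lib.Basic.le_pCore hOqn (Oq_isPGroup q _)
    have hy1 := hle hyO
    rw [hbot q hqσ, Subgroup.mem_bot] at hy1
    rw [hy1, orderOf_one] at hyord
    exact hq.one_lt.ne hyord
  exact (mem_piCoreOf_iff hxR).2 ((QuotientGroup.eq_one_iff _).1 hxb1)

section MainD

variable {H M R : Subgroup G}

theorem Zt_le_of_inf (hM : M ≤ fittingOf H) (hCM : fittingOf H ⊓ centralizer (M : Set G) ≤ M) (t : ℕ) :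
    Zt t H ≤ M := by
  intro x hx
  have h1 := Zt_le t H hx
  refine hCM (Subgroup.mem_inf.2 ⟨h1.1, ?_⟩)
  rw [Subgroup.mem_centralizer_iff]
  intro m hm
  exact Subgroup.mem_centralizer_iff.1 h1.2 m (hM hm)

/-- **The main property**: `M`-invariant `π(F)'`-subgroups of `R` lie in `O_{π(F)'}(R)`. -/
theorem le_core_of_inv (hH : MaxLoc H) (hF2 : 2 ≤ (Nat.card (fittingOf H)).primeFactors.card)
    (hM : M ≤ fittingOf H) (hCM : fittingOf H ⊓ centralizer (M : Set G) ≤ M) (hR : Group.IsSolvable R)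
    (hMR : M ≤ normalizer (R : Set G))
    (hXR : H ⊓ centralizer (fittingOf H : Set G) ≤ normalizer (R : Set G))
    {Q : Subgroup G} (hQR : Q ≤ R) (hQπ : IsPiSub (primesNotDvd (Nat.card (fittingOf H))) Q)
    (hQM : M ≤ normalizer (Q : Set G)) :
    Q ≤ piCoreOf (primesNotDvd (Nat.card (fittingOf H))) R := by
  set F := fittingOf H with hF
  set σ := primesNotDvd (Nat.card F) with hσ
  set O := piCoreOf σ R with hO
  have hOR : O ≤ R := piCoreOf_le σ R
  have hRO : R ≤ normalizer (O : Set G) := le_normalizer_piCoreOf σ R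
  have hMO : M ≤ normalizer (O : Set G) := hMR.trans (normalizer_le_normalizer_piCoreOf σ R)
  set Q₁ := Q ⊔ O with hQ₁
  have hQ₁R : Q₁ ≤ R := sup_le hQR hOR
  have hQ₁M : M ≤ normalizer (Q₁ : Set G) := Cfsg.Agent.Lib.Basic.le_normalizer_sup hQM hMO
  have hQ₁π : IsPiSub σ Q₁ := by
    intro p hp hd
    have h1 := OddLocal.card_sup_mul_card_inf (A := O) (B := Q) (hQR.trans hRO)
    rw [sup_comm] at h1
    have h2 : p ∣ Nat.card O * Nat.card Q := by
      rw [← h1]
      exact Dvd.dvd.mul_right hd _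
    rcases (Nat.Prime.dvd_mul hp).1 h2 with h3 | h3
    · exact piCoreOf_isPi σ R p hp h3
    · exact hQπ p hp h3
  have hQ₁c : (Nat.card Q₁).Coprime (Nat.card F) := (coprime_of_isPi_primesNotDvd hQ₁π).symm
  have hσr : ∀ r : ℕ, r.Prime → r ∉ σ → r ∣ Nat.card F := fun r hr h => by
    by_contra hd
    exact h ⟨hr, hd⟩
  have hMcop : (Nat.card M).Coprime (Nat.card O) :=
    Nat.Coprime.coprime_dvd_left (Subgroup.card_dvd_of_le hM) (coprime_of_isPi_primesNotDvd (piCoreOf_isPi σ R))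
  have hMn : Group.IsNilpotent M := nilp_of_le hM (fittingOf_isNilpotent H)
  have hMsolv : Group.IsSolvable M := by
    haveI := hMn
    infer_instance
  intro x hx
  refine mem_core_of_relCen hR (hQR hx) ?_ ?_
  · intro r hr hrσ
    have hrF := hσr r hr.out hrσ
    have hF0 : Nat.card F ≠ 0 := Nat.card_pos.ne'
    obtain ⟨s, hs, hsr⟩ := Finset.exists_mem_ne (show 1 < (Nat.card F).primeFactors.card from hF2) r
    have hs' := Nat.prime_of_mem_primeFactors hs
    have hsF := Nat.dvd_of_mem_primeFactors hs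
    haveI : Fact s.Prime := ⟨hs'⟩
    obtain ⟨E, hEp, hEM, hEsup⟩ := exists_inv_upN hrσ hMR hMcop hMsolv
    have hkey : Zt s H ≤ centralizer (E : Set G) := key_lemma (H := H) (Yr := Zt r H) (Ys := Zt s H) (W := E)
      hsr.symm (Zt_isPGroup r H) (Zt_isPGroup s H)
      (hH.centralizer_le hr.out (Zt_isPGroup r H) (Zt_ne_bot hrF) (Zt_normalized r H))
      (Zt_normalized s H) (Zt_comm r s H) hEp ((Zt_le_of_inf hM hCM r).trans hEM)
      ((Zt_le_of_inf hM hCM s).trans hEM)
    have hEO : E ≤ normalizer (O : Set G) := by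
      have h1 : E ≤ upN σ r R := by
        rw [← hEsup]
        exact le_sup_left
      exact (h1.trans upN_le).trans hRO
    have hY : Zt s H ≤ relCen O (upN σ r R) := by
      intro y hy
      refine ⟨hMO (Zt_le_of_inf hM hCM s hy), fun e he => ?_⟩
      rw [← hEsup, sup_comm] at he
      obtain ⟨o, ho, a, ha, rfl⟩ := OddLocal.mem_sup_of_le_normalizer hEO he
      have hya : y * a = a * y := Subgroup.mem_centralizer_iff.1 (hkey hy) a ha |>.symm
      have h1 : y * (o * a) * y⁻¹ * (o * a)⁻¹ = (y * o * y⁻¹) * o⁻¹ := by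
        have h2 : y * a * y⁻¹ = a := by rw [hya]; group
        calc y * (o * a) * y⁻¹ * (o * a)⁻¹ = y * o * y⁻¹ * (y * a * y⁻¹) * a⁻¹ * o⁻¹ := by group
          _ = _ := by rw [h2]; group
      rw [h1]
      exact mul_mem ((Subgroup.mem_normalizer_iff.1 (hMO (Zt_le_of_inf hM hCM s hy)) o).1 ho) (inv_mem ho)
    have hYcop : (Nat.card (Zt s H)).Coprime (Nat.card Q₁) := by
      obtain ⟨k, hk⟩ := IsPGroup.iff_card.1 (Zt_isPGroup s H)
      rw [hk]
      apply Nat.Coprime.pow_left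
      apply Nat.Coprime.coprime_dvd_left hsF hQ₁c.symm
    have hYsolv : Group.IsSolvable (Zt s H) := by
      haveI := (Zt_isPGroup s H).isNilpotent
      infer_instance
    have hfin : Q₁ ≤ relCen O (upN σ r R) := le_relCen_of_coprime (hQ₁R.trans hRO)
      (hQ₁R.trans le_normalizer_upN) hY ((Zt_le_of_inf hM hCM s).trans hQ₁M) hYcop hYsolv
      (inf_centralizer_Zt_eq_bot hH hM hCM hR hXR hQ₁R hQ₁M hQ₁c hsF)
    exact hfin (Subgroup.mem_sup_left hx)
  · intro q hq hd
    exact hQπ q hq (hd.trans (Subgroup.orderOf_dvd_natCard Q hx))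

/-- S1481. -/
theorem s1481_core (hH : MaxLoc H) (hF2 : 2 ≤ (Nat.card (fittingOf H)).primeFactors.card)
    (hM : M ≤ fittingOf H) (hCM : fittingOf H ⊓ centralizer (M : Set G) ≤ M) (hR : Group.IsSolvable R)
    (hMR : M ≤ normalizer (R : Set G))
    (hXR : H ⊓ centralizer (fittingOf H : Set G) ≤ normalizer (R : Set G))
    (q : ℕ) [hq : Fact q.Prime] (hqF : ¬ q ∣ Nat.card (fittingOf H)) :
    ∃! Q : Subgroup G, Q ∈ maxInvSubgroups R M {q} ∧
      (∀ Q' : Subgroup G, Q' ∈ maxInvSubgroups R M {q} →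
        Q' ≤ piCoreOf (primesNotDvd (Nat.card (fittingOf H))) R ∧
        ¬ q ∣ Q'.relIndex (piCoreOf (primesNotDvd (Nat.card (fittingOf H))) R)) := by
  set F := fittingOf H with hF
  set σ := primesNotDvd (Nat.card F) with hσ
  set O := piCoreOf σ R with hO
  have hOR : O ≤ R := piCoreOf_le σ R
  have hRO : R ≤ normalizer (O : Set G) := le_normalizer_piCoreOf σ R
  have hMO : M ≤ normalizer (O : Set G) := hMR.trans (normalizer_le_normalizer_piCoreOf σ R)
  have hMcop : (Nat.card M).Coprime (Nat.card O) :=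
    Nat.Coprime.coprime_dvd_left (Subgroup.card_dvd_of_le hM) (coprime_of_isPi_primesNotDvd (piCoreOf_isPi σ R))
  have hMn : Group.IsNilpotent M := nilp_of_le hM (fittingOf_isNilpotent H)
  have hMsolv : Group.IsSolvable M := by
    haveI := hMn
    infer_instance
  have hle : ∀ Y : Subgroup G, Y ∈ invSubgroups R M {q} → Y ≤ O := by
    rintro Y ⟨hYR, hYq, hYM⟩
    exact le_core_of_inv hH hF2 hM hCM hR hMR hXR hYR
      (isPiSub_primesNotDvd_of_singleton hq.out hqF hYq) hYM
  have hOσ : IsPiSub σ O := piCoreOf_isPi σ R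
  have hOc : (Nat.card O).Coprime (Nat.card F) := (coprime_of_isPi_primesNotDvd hOσ).symm
  -- `C_O(M) = 1`
  have hC : O ⊓ centralizer (M : Set G) = ⊥ := by
    have hF1 : Nat.card F ≠ 1 := by
      intro h
      rw [h] at hF2
      simp at hF2
    obtain ⟨s, hs, hsF⟩ := Nat.exists_prime_and_dvd hF1
    haveI : Fact s.Prime := ⟨hs⟩
    have h1 := inf_centralizer_Zt_eq_bot hH hM hCM hR hXR hOR hMO hOc hsF
    rw [eq_bot_iff, ← h1]
    refine inf_le_inf_left _ ?_
    intro x hx
    rw [Subgroup.mem_centralizer_iff] at hx ⊢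
    intro y hy
    exact hx y (Zt_le_of_inf hM hCM s hy)
  obtain ⟨P, hP⟩ := Cfsg.Agent.Lib.Basic.exists_invariant_sylow hMO hMcop (Or.inl hMsolv) q
  have huniq : ∀ P' : Sylow q O, M ≤ normalizer (((P' : Subgroup O).map O.subtype : Subgroup G) : Set G) → P' = P := by
    intro P' hP'
    obtain ⟨c, hc, hcP⟩ := Cfsg.Agent.Lib.Basic.invariant_sylow_conj hMO hMcop (Or.inl hMsolv) q P' P hP' hP
    have hc1 : (c : G) = 1 := by
      have : (c : G) ∈ O ⊓ centralizer (M : Set G) := Subgroup.mem_inf.2 ⟨c.2, hc⟩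
      rw [hC] at this
      exact this
    have hc2 : c = 1 := Subtype.ext hc1
    rw [hc2] at hcP
    simpa using hcP
  set Q₀ := (P : Subgroup O).map O.subtype with hQ₀
  have hQ₀mem : Q₀ ∈ invSubgroups R M {q} :=
    ⟨(Subgroup.map_subtype_le _).trans hOR, (isPiSub_singleton_iff hq.out).2 (P.isPGroup'.map _), hP⟩
  have hmaxP : IsMaxP q Q₀ O := isMaxP_of_sylow P
  have hQ₀max : Q₀ ∈ maxInvSubgroups R M {q} := by
    refine ⟨hQ₀mem, fun Y hY hQ₀Y => ?_⟩
    exact hmaxP.max Y (hle Y hY) ((isPiSub_singleton_iff hq.out).1 hY.2.1) hQ₀Y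
  have hunique : ∀ Y : Subgroup G, Y ∈ maxInvSubgroups R M {q} → Y = Q₀ := by
    rintro Y ⟨hY, hYm⟩
    obtain ⟨P', hP'1, hP'2⟩ := Cfsg.Agent.Lib.Basic.exists_invariant_sylow_ge hMO hMcop (Or.inl hMsolv) q Y
      (hle Y hY) ((isPiSub_singleton_iff hq.out).1 hY.2.1) hY.2.2
    have h1 := huniq P' hP'2
    rw [h1] at hP'1
    exact (hYm Q₀ hQ₀mem hP'1).symm
  refine ⟨Q₀, ⟨hQ₀max, ?_⟩, fun Y hY => hunique Y hY.1⟩
  intro Q' hQ'
  rw [hunique Q' hQ']
  refine ⟨Subgroup.map_subtype_le _, ?_⟩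
  have h2 : Q₀.subgroupOf O = (P : Subgroup O) := Subgroup.comap_map_eq_self_of_injective O.subtype_injective _
  unfold Subgroup.relIndex
  rw [h2]
  exact P.not_dvd_index

end MainD

end Cfsg.Agent.Lib.FT
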