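import Cfsg.Agent.Lib.FT.BG3b
import Cfsg.Agent.Lib.FT.BG8a
import Cfsg.Agent.Lib.Coprime.PLen
import Cfsg.Agent.Lib.OddLocal.HallHigman

/-!
S1445: in a solvable group of odd order `KR`, with `R` acting coprimely on `K`, `C_K(x) = C_K(R)` for `1 ≠ x ∈ R`,
and `C_{F(K)}(R) = 1`, the commutator `[K, R]` lies in `F(K)`.
-/

set_option autoImplicit false
set_option linter.unusedSectionVars false
set_option linter.style.haveILetI false

namespace Cfsg.Agent.Lib.FT

open Module Subgroup Cfsg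
open scoped commutatorElement

section S1445

/-- The quotient of a nilpotent group by its `q'`-core is a `q`-group. -/
theorem isPGroup_quot_pPrimeCore {F : Type*} [Group F] [Finite F] (hF : Group.IsNilpotent F) (q : ℕ) [Fact q.Prime] :
    IsPGroup q (F ⧸ pPrimeCore q F) := by
  have h1 : pPrimeCore q (F ⧸ pPrimeCore q F) = ⊥ := Cfsg.Agent.Lib.OddLocal.pPrimeCore_quotient_eq_bot q
  have h2 := Cfsg.Agent.Lib.OddLocal.fittingSubgroup_eq_pCore h1
  haveI hnil : Group.IsNilpotent (F ⧸ pPrimeCore q F) := inferInstance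
  have h3 : fittingSubgroup (F ⧸ pPrimeCore q F) = ⊤ := by
    rw [eq_top_iff]
    exact Cfsg.Agent.Lib.Basic.le_fittingSubgroup_of_nilpotent (N := ⊤) inferInstance (by
      exact (Group.isNilpotent_congr Subgroup.topEquiv).2 hnil)
  have h4 : pCore q (F ⧸ pPrimeCore q F) = ⊤ := by rw [← h2, h3]
  have h5 := Cfsg.Agent.Lib.Basic.pCore_isPGroup (G := F ⧸ pPrimeCore q F) q
  intro g
  have hg : g ∈ pCore q (F ⧸ pPrimeCore q F) := by rw [h4]; trivial
  obtain ⟨k, hk⟩ := h5 ⟨g, hg⟩
  exact ⟨k, congrArg Subtype.val hk⟩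

variable {G : Type*} [Group G] [Finite G] [Group.IsSolvable G]

theorem fittingOf_normal_of_normal (K : Subgroup G) [hK : K.Normal] : (fittingOf K).Normal := by
  have h1 := normalizer_le_normalizer_fittingOf K
  rw [Subgroup.normalizer_eq_top_iff.mpr hK] at h1
  exact Subgroup.normalizer_eq_top_iff.mp (top_le_iff.mp h1)

/-- The key step of S1445. -/
theorem s1445_step (hodd : Odd (Nat.card G)) (K R : Subgroup G) [hKn : K.Normal]
    (hcop : (Nat.card K).Coprime (Nat.card R))
    (hprime : ∀ x ∈ R, x ≠ 1 → K ⊓ centralizer ({x} : Set G) = (K ⊓ centralizer (R : Set G)))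
    (hF : fittingOf K ⊓ centralizer (R : Set G) = ⊥) {q : ℕ} [hqf : Fact q.Prime]
    (L Y : Subgroup G) [hLn : L.Normal] (hLK : L ≤ K)
    (hL : ∀ a ∈ L, ∃ m : ℕ, a ^ q ^ m ∈ fittingOf K) (hYL : Y ≤ L) (hYq : IsPGroup q Y)
    (hYR : R ≤ normalizer (Y : Set G)) : ⁅Y, R⁆ ≤ fittingOf K := by
  classical
  set F : Subgroup G := fittingOf K with hFdef
  haveI hFn : F.Normal := fittingOf_normal_of_normal K
  have hFK : F ≤ K := Cfsg.Agent.Lib.OddLocal.fittingOf_le K
  by_cases hR1 : R = ⊥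
  · rw [hR1, Subgroup.commutator_bot_right]
    exact bot_le
  by_cases hY1 : Y = ⊥
  · rw [hY1, Subgroup.commutator_bot_left]
    exact bot_le
  haveI hRnt : Nontrivial ↥R := (Subgroup.nontrivial_iff_ne_bot R).mpr hR1
  obtain ⟨r, hr, hrd⟩ := Nat.exists_prime_and_dvd (Finite.one_lt_card (α := ↥R)).ne'
  haveI : Fact r.Prime := ⟨hr⟩
  obtain ⟨x₀, hx₀⟩ := exists_prime_orderOf_dvd_card' r hrd
  set x : G := (x₀ : G) with hx
  have hxR : x ∈ R := x₀.2
  have hxr : x ^ r = 1 := by
    have := pow_orderOf_eq_one x₀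
    rw [hx₀] at this
    exact congrArg Subtype.val this
  have hx1 : x ≠ 1 := by
    intro h
    have h2 : x₀ = 1 := Subtype.ext h
    rw [h2, orderOf_one] at hx₀
    exact hr.one_lt.ne hx₀
  obtain ⟨n, hn⟩ := IsPGroup.iff_card.mp hYq
  have hn0 : n ≠ 0 := by
    rintro rfl
    rw [pow_zero] at hn
    exact hY1 (Subgroup.eq_bot_of_card_eq _ hn)
  have hqY : q ∣ Nat.card Y := by
    rw [hn]
    exact dvd_pow_self q hn0
  have hqK : q ∣ Nat.card K := hqY.trans (Subgroup.card_dvd_of_le (hYL.trans hLK))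
  have hqr : q ≠ r := by
    rintro rfl
    have := Nat.dvd_gcd hqK hrd
    rw [hcop] at this
    exact hr.one_lt.ne' (Nat.dvd_one.mp this)
  have hq2 : Odd q := by
    have h1 : q ∣ Nat.card G := hqK.trans (Subgroup.card_subgroup_dvd_card K)
    exact Odd.of_dvd_nat hodd h1
  -- the `q'`-core of `F`
  set O : Subgroup ↥F := pPrimeCore q ↥F with hO
  set N : Subgroup G := O.map F.subtype with hN
  haveI hOc : O.Characteristic := Cfsg.Agent.Lib.Basic.pPrimeCore_characteristic q
  haveI hNn : N.Normal := Cfsg.Agent.Lib.Coprime.PLen.normal_map_of_characteristic O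
  have hNF : N ≤ F := Subgroup.map_subtype_le O
  have hcardN : Nat.card N = Nat.card O := Nat.card_congr (Subgroup.equivMapOfInjective O F.subtype F.subtype_injective).symm.toEquiv
  have hNq : (Nat.card N).Coprime q := by
    rw [hcardN]
    exact Cfsg.Agent.Lib.Basic.pPrimeCore_coprime q
  have hNK : N ≤ K := hNF.trans hFK
  have hFnil : Group.IsNilpotent ↥F := Cfsg.Agent.Lib.OddLocal.fittingOf_isNilpotent K
  have hFq : ∀ f ∈ F, ∃ m : ℕ, f ^ q ^ m ∈ N := by
    intro f hf
    obtain ⟨m, hm⟩ := isPGroup_quot_pPrimeCore hFnil q ((⟨f, hf⟩ : ↥F) : ↥F ⧸ pPrimeCore q ↥F)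
    refine ⟨m, ?_⟩
    have h1 : (((⟨f, hf⟩ : ↥F) ^ q ^ m : ↥F) : ↥F ⧸ pPrimeCore q ↥F) = 1 := by
      rw [QuotientGroup.mk_pow]
      exact hm
    have h2 := (QuotientGroup.eq_one_iff _).mp h1
    exact ⟨_, h2, rfl⟩
  -- fixed points
  have hfix : ∀ n ∈ N, x * n = n * x → n = 1 := by
    intro a ha hc
    have h1 : a ∈ K ⊓ centralizer ({x} : Set G) :=
      ⟨hNK ha, Subgroup.mem_centralizer_singleton_iff.mpr hc.symm⟩
    rw [hprime x hxR hx1] at h1
    have h2 : a ∈ F ⊓ centralizer (R : Set G) := ⟨hNF ha, h1.2⟩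
    rw [hF, Subgroup.mem_bot] at h2
    exact h2
  have hcardr : Nat.card (zpowers x) = r := by
    rw [Nat.card_zpowers]
    exact orderOf_eq_prime hxr hx1
  have hNr : (Nat.card N).Coprime r := by
    have h1 : Nat.card N ∣ Nat.card K := Subgroup.card_dvd_of_le hNK
    have h2 : r ∣ Nat.card R := hrd
    exact Nat.Coprime.coprime_dvd_left h1 (Nat.Coprime.coprime_dvd_right h2 hcop)
  have hT : ⁅Y, zpowers x⁆ ≤ centralizer (N : Set G) := by
    refine tstar_concrete hq2 hr hqr Y N hYq x hxr (hYR hxR) ?_ ?_ inferInstance ?_ hfix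
    · intro y _
      rw [Subgroup.normalizer_eq_top_iff.mpr hNn]
      trivial
    · rw [Subgroup.normalizer_eq_top_iff.mpr hNn]
      trivial
    · refine Nat.Coprime.coprime_dvd_right (card_sup_dvd_of_le_normalizer Y (zpowers x)
        (Subgroup.zpowers_le.mpr (hYR hxR))) ?_
      rw [hn, hcardr]
      exact Nat.Coprime.mul_right (Nat.Coprime.pow_right _ hNq) hNr
  -- coprime action of `x` on `Y`
  have hact : Cfsg.Agent.Lib.Coprime.CoprimeAction (zpowers x) Y := by
    refine ⟨Subgroup.zpowers_le.mpr (hYR hxR), ?_, Or.inr ?_⟩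
    · rw [hcardr, hn]
      exact Nat.Coprime.pow_right _ ((Nat.coprime_primes hr hqf.out).mpr hqr.symm)
    · haveI := hYq.isNilpotent
      infer_instance
  have hCn : (centralizer (N : Set G)).Normal := inferInstance
  -- the central piece
  set C₁ : Subgroup G := L ⊓ centralizer (N : Set G) with hC₁
  haveI hC₁n : C₁.Normal := inferInstance
  have hle : ⁅Y, R⁆ ≤ C₁ := by
    rw [Subgroup.commutator_le]
    intro y hy t ht
    refine ⟨?_, ?_⟩
    · rw [commutatorElement_def]
      have h1 : t * y⁻¹ * t⁻¹ ∈ L := hLn.conj_mem _ (L.inv_mem (hYL hy)) t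
      have h2 := L.mul_mem (hYL hy) h1
      simpa [mul_assoc] using h2
    · obtain ⟨a, ha, c, hc, rfl⟩ := hact.exists_commutator_mul_centralizer hy
      have hcK : c ∈ K := hLK (hYL hc.1)
      have hcx : c ∈ K ⊓ centralizer ({x} : Set G) :=
        ⟨hcK, Subgroup.mem_centralizer_singleton_iff.mpr (Subgroup.mem_centralizer_iff.mp hc.2 x (mem_zpowers x)).symm⟩
      rw [hprime x hxR hx1] at hcx
      have hct : t * c = c * t := Subgroup.mem_centralizer_iff.mp hcx.2 t ht
      have haC := hT ha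
      have h1 : ⁅a * c, t⁆ = a * (t * a⁻¹ * t⁻¹) := by
        rw [commutatorElement_def]
        calc a * c * t * (a * c)⁻¹ * t⁻¹ = a * (c * t) * c⁻¹ * a⁻¹ * t⁻¹ := by group
          _ = a * (t * c) * c⁻¹ * a⁻¹ * t⁻¹ := by rw [hct]
          _ = _ := by group
      rw [h1]
      exact mul_mem haC (hCn.conj_mem _ (inv_mem haC) t)
  refine hle.trans ?_
  -- `C₁` is nilpotent and normal
  have hC₁nil : Group.IsNilpotent ↥C₁ := by
    let g : ↥C₁ →* G ⧸ N := (QuotientGroup.mk' N).comp C₁.subtype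
    have hgp : IsPGroup q ↥g.range := by
      rintro ⟨_, c, rfl⟩
      obtain ⟨m, hm⟩ := hL c c.2.1
      obtain ⟨m', hm'⟩ := hFq _ hm
      refine ⟨m + m', ?_⟩
      apply Subtype.ext
      change (g c) ^ q ^ (m + m') = 1
      have h1 : ((c : G) ^ q ^ (m + m') : G) ∈ N := by
        rw [pow_add, pow_mul]
        exact hm'
      change (((c : G) : G ⧸ N)) ^ q ^ (m + m') = 1
      rw [← QuotientGroup.mk_pow]
      exact (QuotientGroup.eq_one_iff _).mpr h1
    haveI : Group.IsNilpotent ↥g.range := hgp.isNilpotent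
    refine _root_.isNilpotent_of_ker_le_center g.rangeRestrict ?_
    intro c hc
    have h1 : g c = 1 := by
      have := (MonoidHom.mem_ker).mp hc
      exact congrArg Subtype.val this
    have h2 : (c : G) ∈ N := (QuotientGroup.eq_one_iff _).mp h1
    rw [Subgroup.mem_center_iff]
    intro d
    apply Subtype.ext
    exact (Subgroup.mem_centralizer_iff.mp d.2.2 c h2).symm
  refine le_fittingOf (inf_le_left.trans hLK) ?_ hC₁nil
  rw [Subgroup.normalizer_eq_top_iff.mpr hC₁n]
  exact le_top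

/-- S1445 for the preimage of a normal `q`-subgroup of `K/F(K)`. -/
theorem s1445_L (hodd : Odd (Nat.card G)) (K R : Subgroup G) [hKn : K.Normal]
    (hcop : (Nat.card K).Coprime (Nat.card R))
    (hprime : ∀ x ∈ R, x ≠ 1 → K ⊓ centralizer ({x} : Set G) = (K ⊓ centralizer (R : Set G)))
    (hF : fittingOf K ⊓ centralizer (R : Set G) = ⊥) {q : ℕ} [hqf : Fact q.Prime]
    (L : Subgroup G) [hLn : L.Normal] (hLK : L ≤ K) (hFL : fittingOf K ≤ L)
    (hL : ∀ a ∈ L, ∃ m : ℕ, a ^ q ^ m ∈ fittingOf K) : ⁅L, R⁆ ≤ fittingOf K := by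
  classical
  set F : Subgroup G := fittingOf K with hFdef
  haveI hFn : F.Normal := fittingOf_normal_of_normal K
  have hRL : R ≤ normalizer (L : Set G) := by
    rw [Subgroup.normalizer_eq_top_iff.mpr hLn]
    exact le_top
  have hcopL : (Nat.card R).Coprime (Nat.card L) :=
    (Nat.Coprime.coprime_dvd_left (Subgroup.card_dvd_of_le hLK) hcop).symm
  obtain ⟨P, hP⟩ := Cfsg.Agent.Lib.Basic.exists_invariant_sylow hRL hcopL (Or.inr inferInstance) q
  set Y : Subgroup G := (P : Subgroup ↥L).map L.subtype with hY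
  have hYL : Y ≤ L := Subgroup.map_subtype_le _
  have hYq : IsPGroup q Y := P.isPGroup'.map _
  have hYR := s1445_step hodd K R hcop hprime hF L Y hLK hL hYL hYq hP
  -- `L = F Y`
  have hLFY : L ≤ F ⊔ Y := by
    rw [← Subgroup.relIndex_eq_one]
    have h1 : (F ⊔ Y).relIndex L ∣ F.relIndex L := Subgroup.relIndex_dvd_of_le_left L le_sup_left
    have h2 : (F ⊔ Y).relIndex L ∣ Y.relIndex L := Subgroup.relIndex_dvd_of_le_left L le_sup_right
    have h3 : Y.relIndex L = (P : Subgroup ↥L).index := by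
      rw [hY, Subgroup.relIndex, Subgroup.subgroupOf, Subgroup.comap_map_eq_self_of_injective L.subtype_injective]
    have h4 : ¬ q ∣ Y.relIndex L := by
      rw [h3]
      exact P.not_dvd_index
    haveI hF'n : (F.subgroupOf L).Normal := inferInstance
    have hp : IsPGroup q (↥L ⧸ F.subgroupOf L) := by
      intro z
      induction z using QuotientGroup.induction_on with
      | H a =>
        obtain ⟨m, hm⟩ := hL a a.2
        refine ⟨m, ?_⟩
        rw [← QuotientGroup.mk_pow]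
        exact (QuotientGroup.eq_one_iff _).mpr (Subgroup.mem_subgroupOf.mpr hm)
    obtain ⟨k, hk⟩ := IsPGroup.iff_card.mp hp
    have h5 : F.relIndex L = q ^ k := by
      rw [Subgroup.relIndex, Subgroup.index, hk]
    rw [h5] at h1
    have h6 : Nat.Coprime ((F ⊔ Y).relIndex L) (q ^ k) := by
      apply Nat.Coprime.pow_right
      rw [Nat.coprime_comm, Nat.Prime.coprime_iff_not_dvd hqf.out]
      exact fun h => h4 (h.trans h2)
    exact Nat.Coprime.eq_one_of_dvd h6 h1
  rw [Subgroup.commutator_le]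
  intro a ha t ht
  obtain ⟨f, hf, y, hy, rfl⟩ := Subgroup.mem_sup_of_normal_left.mp (hLFY ha)
  have h1 : ⁅f * y, t⁆ = f * ⁅y, t⁆ * (t * f⁻¹ * t⁻¹) := by
    simp only [commutatorElement_def]
    group
  rw [h1]
  exact mul_mem (mul_mem hf (hYR (Subgroup.commutator_mem_commutator hy ht))) (hFn.conj_mem _ (inv_mem hf) t)

/-- **S1445**. -/
theorem s1445_core (hodd : Odd (Nat.card G)) (K R : Subgroup G) [hKn : K.Normal] (hKR : K ⊔ R = ⊤)
    (hcop : (Nat.card K).Coprime (Nat.card R))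
    (hprime : ∀ x ∈ R, x ≠ 1 → K ⊓ centralizer ({x} : Set G) = (K ⊓ centralizer (R : Set G)))
    (hF : fittingOf K ⊓ centralizer (R : Set G) = ⊥) : ⁅K, R⁆ ≤ fittingOf K := by
  classical
  set F : Subgroup G := fittingOf K with hFdef
  haveI hFn : F.Normal := fittingOf_normal_of_normal K
  have hFK : F ≤ K := Cfsg.Agent.Lib.OddLocal.fittingOf_le K
  let π : G →* G ⧸ F := QuotientGroup.mk' F
  have hπ : Function.Surjective π := QuotientGroup.mk'_surjective F
  have hker : π.ker = F := QuotientGroup.ker_mk' F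
  set Kb : Subgroup (G ⧸ F) := K.map π with hKb
  set Rb : Subgroup (G ⧸ F) := R.map π with hRb
  haveI hKbn : Kb.Normal := hKn.map π hπ
  have hact₀ : Cfsg.Agent.Lib.Coprime.CoprimeAction R K :=
    ⟨by rw [Subgroup.normalizer_eq_top_iff.mpr hKn]; exact le_top, hcop.symm, Or.inl inferInstance⟩
  have hact : Cfsg.Agent.Lib.Coprime.CoprimeAction Rb Kb := hact₀.map π
  set Ab : Subgroup (G ⧸ F) := fittingOf Kb with hAb
  have hcomm : ∀ q : Nat.Primes, ∀ a ∈ (pCore (q : ℕ) ↥Kb).map Kb.subtype, ∀ t ∈ Rb, a * t = t * a := by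
    intro q a ha t ht
    haveI : Fact (q : ℕ).Prime := ⟨q.2⟩
    set A : Subgroup (G ⧸ F) := (pCore (q : ℕ) ↥Kb).map Kb.subtype with hA
    haveI hAc : (pCore (q : ℕ) ↥Kb).Characteristic := Cfsg.Agent.Lib.Basic.pCore_characteristic q
    haveI hAn : A.Normal := Cfsg.Agent.Lib.Coprime.PLen.normal_map_of_characteristic _
    set L : Subgroup G := A.comap π with hL
    haveI hLn : L.Normal := hAn.comap π
    have hAKb : A ≤ Kb := Subgroup.map_subtype_le _
    have hLK : L ≤ K := by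
      intro b hb
      obtain ⟨k, hk, hkb⟩ := hAKb hb
      have h1 : k⁻¹ * b ∈ F := by
        rw [← hker, MonoidHom.mem_ker, map_mul, map_inv, ← hkb, inv_mul_cancel]
      have h2 : b = k * (k⁻¹ * b) := by group
      rw [h2]
      exact mul_mem hk (hFK h1)
    have hFL : F ≤ L := by
      intro f hf
      have h1 : π f = 1 := by
        rw [← MonoidHom.mem_ker, hker]
        exact hf
      change π f ∈ A
      rw [h1]
      exact one_mem _
    have hLq : ∀ b ∈ L, ∃ m : ℕ, b ^ (q : ℕ) ^ m ∈ F := by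
      intro b hb
      have hpA : IsPGroup (q : ℕ) ↥A := (Cfsg.Agent.Lib.Basic.pCore_isPGroup (G := ↥Kb) (q : ℕ)).map Kb.subtype
      obtain ⟨m, hm⟩ := hpA ⟨π b, hb⟩
      refine ⟨m, ?_⟩
      have h1 : π b ^ (q : ℕ) ^ m = 1 := congrArg Subtype.val hm
      rw [← hker, MonoidHom.mem_ker, map_pow, h1]
    have hmain := s1445_L (q := (q : ℕ)) hodd K R hcop hprime hF L hLK hFL hLq
    obtain ⟨b, hb⟩ := hπ a
    obtain ⟨u, hu, rfl⟩ := ht
    have hbL : b ∈ L := by
      change π b ∈ A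
      rw [hb]
      exact ha
    have h1 : ⁅b, u⁆ ∈ F := hmain (Subgroup.commutator_mem_commutator hbL hu)
    rw [← hker, MonoidHom.mem_ker, map_commutatorElement, commutatorElement_eq_one_iff_mul_comm, hb] at h1
    exact h1
  have hRA : Rb ≤ centralizer (Ab : Set (G ⧸ F)) := by
    have h1 : Ab = ⨆ q : Nat.Primes, (pCore (q : ℕ) ↥Kb).map Kb.subtype := by
      rw [hAb, fittingOf, Cfsg.Agent.Lib.Basic.fittingSubgroup_eq_iSup_pCore, Subgroup.map_iSup]
    have h2 : Ab ≤ centralizer (Rb : Set (G ⧸ F)) := by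
      rw [h1]
      refine iSup_le fun q a ha => ?_
      rw [Subgroup.mem_centralizer_iff]
      intro t ht
      exact (hcomm q a ha t ht).symm
    exact Subgroup.le_centralizer_iff.mp h2
  have hAbKb : Ab ≤ Kb := Cfsg.Agent.Lib.OddLocal.fittingOf_le Kb
  haveI hAbn : Ab.Normal := fittingOf_normal_of_normal Kb
  have h3 : ⁅⁅Kb, Rb⁆, Ab⁆ = ⊥ := by
    refine Subgroup.commutator_commutator_eq_bot_of_rotate ?_ ?_
    · have : ⁅Rb, Ab⁆ = ⊥ := by
        rw [Subgroup.commutator_eq_bot_iff_le_centralizer]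
        exact hRA
      rw [this, Subgroup.commutator_bot_left]
    · have h4 : ⁅Ab, Kb⁆ ≤ Ab := Subgroup.commutator_le_left Ab Kb
      rw [Subgroup.commutator_eq_bot_iff_le_centralizer]
      exact h4.trans (Subgroup.le_centralizer_iff.mp hRA)
  have h4 : ⁅Kb, Rb⁆ ≤ Ab := by
    have h5 : ⁅Kb, Rb⁆ ≤ Kb ⊓ centralizer (Ab : Set (G ⧸ F)) := by
      refine le_inf hact.commutator_le_self ?_
      rw [Subgroup.le_centralizer_iff]
      rw [Subgroup.commutator_eq_bot_iff_le_centralizer] at h3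
      exact Subgroup.le_centralizer_iff.mp h3
    exact h5.trans (inf_centralizer_fittingOf_le inferInstance)
  have h5 : ⁅⁅Kb, Rb⁆, Rb⁆ = ⊥ := by
    rw [Subgroup.commutator_eq_bot_iff_le_centralizer]
    exact h4.trans (Subgroup.le_centralizer_iff.mp hRA)
  have h6 := hact.commutator_eq_bot_of_commutator_commutator h5
  rw [Subgroup.commutator_le]
  intro k hk t ht
  have h7 : ⁅π k, π t⁆ ∈ ⁅Kb, Rb⁆ := Subgroup.commutator_mem_commutator ⟨k, hk, rfl⟩ ⟨t, ht, rfl⟩
  rw [h6, Subgroup.mem_bot, ← map_commutatorElement, ← MonoidHom.mem_ker, hker] at h7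
  exact h7

end S1445

end Cfsg.Agent.Lib.FT
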