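import Cfsg.Agent.Lib.FT.BG3b
import Cfsg.Agent.Lib.OddLocal.CoprimeFix

/-!
BG section 3: the orbit lemma, and characters of an abelian group acting on a module where an element of prime order
has a fixed space of dimension at most one.
-/

set_option autoImplicit false
set_option linter.unusedSectionVars false
set_option linter.style.haveILetI false

namespace Cfsg.Agent.Lib.FT

open Module Subgroup
open scoped commutatorElement

section Orbit

/-- A commutator with `x` modulo a subgroup normalized by `x`. -/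
theorem comm_zpowers_mem {G : Type*} [Group G] {x g : G} {N : Subgroup G} (hxN : x ∈ normalizer (N : Set G))
    (hc : g * x * g⁻¹ * x⁻¹ ∈ N) : ∀ t ∈ zpowers x, g * t * g⁻¹ * t⁻¹ ∈ N := by
  let B : Subgroup G :=
    { carrier := {t | t ∈ normalizer (N : Set G) ∧ g * t * g⁻¹ * t⁻¹ ∈ N}
      one_mem' := ⟨one_mem _, by simp [one_mem]⟩
      mul_mem' := by
        rintro t u ⟨ht, ht2⟩ ⟨hu, hu2⟩
        refine ⟨mul_mem ht hu, ?_⟩
        have h1 : g * (t * u) * g⁻¹ * (t * u)⁻¹ = (g * t * g⁻¹ * t⁻¹) * (t * (g * u * g⁻¹ * u⁻¹) * t⁻¹) := by group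
        rw [h1]
        exact mul_mem ht2 ((Subgroup.mem_normalizer_iff.mp ht _).mp hu2)
      inv_mem' := by
        rintro t ⟨ht, ht2⟩
        refine ⟨inv_mem ht, ?_⟩
        have h1 : g * t⁻¹ * g⁻¹ * t⁻¹⁻¹ = t⁻¹ * (g * t * g⁻¹ * t⁻¹)⁻¹ * t⁻¹⁻¹ := by group
        rw [h1]
        exact (Subgroup.mem_normalizer_iff.mp (inv_mem ht) _).mp (inv_mem ht2) }
  have h : zpowers x ≤ B := Subgroup.zpowers_le.mpr ⟨hxN, hc⟩
  exact fun t ht => (h ht).2

variable {Y P : Type*} [Group Y] [Finite Y] [MulAction Y P] [Finite P]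

theorem ncard_orbit_dvd (C : Subgroup Y) (ω : P) : (MulAction.orbit ↥C ω).ncard ∣ Nat.card C := by
  rw [← MulAction.index_stabilizer]
  exact Subgroup.index_dvd_card _

theorem exists_pow_of_mem_zpowers {x t : Y} (ht : t ∈ zpowers x) : ∃ n : ℕ, t = x ^ n := by
  have := (mem_powers_iff_mem_zpowers (x := x) (y := t)).mpr ht
  obtain ⟨n, hn⟩ := this
  exact ⟨n, hn.symm⟩

/-- **The orbit lemma.** -/
theorem orbit_lemma {p r : ℕ} [hpf : Fact p.Prime] (hp2 : Odd p) (hr : r.Prime) (hr2 : Odd r) (hpr : p ≠ r)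
    (S : Subgroup Y) (hS : IsPGroup p S) (x : Y) (hxr : x ^ r = 1) (hxS : x ∈ normalizer (S : Set Y))
    (hcomm : ⁅S, zpowers x⁆ = S)
    (hsingle : ∀ ω₁ ω₂ : P, x • ω₁ ≠ ω₁ → x • ω₂ ≠ ω₂ → ∃ t ∈ zpowers x, ω₂ = t • ω₁) :
    ∀ s ∈ S, ∀ ω : P, s • ω = ω := by
  classical
  haveI : Fact r.Prime := ⟨hr⟩
  have hzS : zpowers x ≤ normalizer (S : Set Y) := Subgroup.zpowers_le.mpr hxS
  have hcardx : Nat.card (zpowers x) ∣ r := by
    rw [Nat.card_zpowers]
    exact orderOf_dvd_of_pow_eq_one hxr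
  obtain ⟨nS, hnS⟩ := IsPGroup.iff_card.mp hS
  have hSodd : Odd (Nat.card S) := by
    rw [hnS]
    exact hp2.pow
  -- the main case
  have hmain : ∀ ω' : P, x • ω' ≠ ω' → ∀ s ∈ S, s • ω' = ω' := by
    intro ω' hω' s₁ hs₁
    by_cases hO : x • ω' ∈ MulAction.orbit ↥S ω'
    · exfalso
      obtain ⟨s₂, hs₂⟩ := hO
      have hs₂' : (s₂ : Y) • ω' = x • ω' := hs₂
      -- `x` preserves the orbit
      have hpres : ∀ ω'' ∈ MulAction.orbit ↥S ω', x • ω'' ∈ MulAction.orbit ↥S ω' := by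
        rintro _ ⟨s, rfl⟩
        refine ⟨⟨x * s * x⁻¹, (Subgroup.mem_normalizer_iff.mp hxS s).mp s.2⟩ * s₂, ?_⟩
        change ((x * s * x⁻¹) * (s₂ : Y)) • ω' = x • ((s : Y) • ω')
        rw [mul_smul, hs₂', ← mul_smul, ← mul_smul]
        congr 1
        group
      have hpow : ∀ n : ℕ, x ^ n • ω' ∈ MulAction.orbit ↥S ω' := by
        intro n
        induction n with
        | zero =>
          rw [pow_zero, one_smul]
          exact MulAction.mem_orbit_self ω'
        | succ n ih =>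
          rw [pow_succ', mul_smul]
          exact hpres _ ih
      set Nx : Set P := MulAction.orbit ↥(zpowers x) ω' with hNx
      set O : Set P := MulAction.orbit ↥S ω' with hO'
      set B : Set P := {ω'' | ω'' ∈ O ∧ x • ω'' = ω''} with hB
      have hNxO : Nx ⊆ O := by
        rintro _ ⟨t, rfl⟩
        obtain ⟨n, hn⟩ := exists_pow_of_mem_zpowers t.2
        change (t : Y) • ω' ∈ O
        rw [hn]
        exact hpow n
      have hunion : O = Nx ∪ B := by
        ext ω''
        constructor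
        · intro h
          by_cases hfix : x • ω'' = ω''
          · exact Or.inr ⟨h, hfix⟩
          · left
            obtain ⟨t, ht, hte⟩ := hsingle ω' ω'' hω' hfix
            exact ⟨⟨t, ht⟩, hte.symm⟩
        · rintro (h | h)
          · exact hNxO h
          · exact h.1
      have hdisj : Disjoint Nx B := by
        rw [Set.disjoint_left]
        rintro _ ⟨t, rfl⟩ ⟨-, hfix⟩
        apply hω'
        have h1 : (t : Y) • (x • ω') = (t : Y) • ω' := by
          rw [← mul_smul]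
          have h2 : (t : Y) * x = x * t := by
            obtain ⟨n, hn⟩ := exists_pow_of_mem_zpowers t.2
            rw [hn]
            exact (pow_succ x n).symm.trans (pow_succ' x n)
          rw [h2, mul_smul]
          exact hfix
        exact smul_left_cancel _ h1
      have hOdvd := ncard_orbit_dvd S ω'
      have hNxdvd := ncard_orbit_dvd (zpowers x) ω'
      have hNxodd : Odd Nx.ncard := Odd.of_dvd_nat hr2 (hNxdvd.trans hcardx)
      have hOodd : Odd O.ncard := Odd.of_dvd_nat hSodd hOdvd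
      have hcard : O.ncard = Nx.ncard + B.ncard := by
        rw [hunion]
        exact Set.ncard_union_eq hdisj (Set.toFinite _) (Set.toFinite _)
      have hBne : B.Nonempty := by
        by_contra hne
        rw [Set.not_nonempty_iff_eq_empty] at hne
        rw [hne, Set.union_empty] at hunion
        have h1 : O.ncard = Nx.ncard := by rw [hunion]
        have h2 : O.ncard ∣ r := h1 ▸ (hNxdvd.trans hcardx)
        have h3 : O.ncard ∣ p ^ nS := hnS ▸ hOdvd
        have h4 : Nat.Coprime r (p ^ nS) := Nat.Coprime.pow_right _ ((Nat.coprime_primes hr hpf.out).mpr hpr.symm)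
        have h5 : O.ncard = 1 := Nat.eq_one_of_dvd_coprimes h4 h2 h3
        obtain ⟨a, ha⟩ := Set.ncard_eq_one.mp h5
        have h6 : ω' ∈ O := MulAction.mem_orbit_self ω'
        have h7 : x • ω' ∈ O := ⟨s₂, hs₂⟩
        rw [ha] at h6 h7
        rw [Set.mem_singleton_iff] at h6 h7
        exact hω' (h7.trans h6.symm)
      obtain ⟨χ₀, hχ₀⟩ := hBne
      -- `B` is an orbit of the centralizer
      set C : Subgroup Y := S ⊓ centralizer (zpowers x : Set Y) with hC
      have hBorb : B = MulAction.orbit ↥C χ₀ := by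
        ext ω''
        constructor
        · rintro ⟨hω''O, hfix⟩
          -- both in the same `S`-orbit
          have h1 : ω'' ∈ MulAction.orbit ↥S χ₀ := by
            rw [MulAction.orbit_eq_iff.mpr hχ₀.1]
            exact hω''O
          obtain ⟨s, hs⟩ := h1
          have hs' : (s : Y) • χ₀ = ω'' := hs
          let U : Subgroup Y := S ⊓ MulAction.stabilizer Y χ₀
          have hxU : x ∈ normalizer (U : Set Y) := by
            apply Cfsg.Agent.Lib.Coprime.mem_normalizer_of_conj_le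
            intro u hu
            obtain ⟨hu, hu2⟩ := Subgroup.mem_inf.mp hu
            refine Subgroup.mem_inf.mpr ⟨(Subgroup.mem_normalizer_iff.mp hxS u).mp hu, ?_⟩
            rw [MulAction.mem_stabilizer_iff] at hu2 ⊢
            have h2 : x⁻¹ • χ₀ = χ₀ := by
              conv_lhs => rw [← hχ₀.2]
              rw [inv_smul_smul]
            rw [mul_smul, mul_smul, h2, hu2, hχ₀.2]
          have hc : (s : Y)⁻¹ * x * (s : Y)⁻¹⁻¹ * x⁻¹ ∈ U := by
            refine Subgroup.mem_inf.mpr ⟨?_, ?_⟩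
            · have h2 : (s : Y)⁻¹ * x * (s : Y)⁻¹⁻¹ * x⁻¹ = (s : Y)⁻¹ * (x * s * x⁻¹) := by group
              rw [h2]
              exact mul_mem (inv_mem s.2) ((Subgroup.mem_normalizer_iff.mp hxS s).mp s.2)
            · rw [MulAction.mem_stabilizer_iff]
              have h2 : x⁻¹ • χ₀ = χ₀ := by
                conv_lhs => rw [← hχ₀.2]
                rw [inv_smul_smul]
              rw [mul_smul, mul_smul, mul_smul, h2, inv_inv, hs', hfix, hs.symm]
              exact inv_smul_smul s χ₀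
          have hcU : Nat.Coprime (Nat.card U) (Nat.card (zpowers x)) := by
            have h2 : Nat.card U ∣ p ^ nS := hnS ▸ Subgroup.card_dvd_of_le inf_le_left
            have h3 : Nat.Coprime (p ^ nS) r := Nat.Coprime.pow_left _ ((Nat.coprime_primes hpf.out hr).mpr hpr)
            exact Nat.Coprime.coprime_dvd_left h2 (Nat.Coprime.coprime_dvd_right hcardx h3)
          have hUs : Group.IsSolvable ↥U := by
            have hUp : IsPGroup p ↥U := hS.to_le inf_le_left
            haveI := hUp.isNilpotent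
            infer_instance
          obtain ⟨n, hn, hnc⟩ := Cfsg.Agent.Lib.OddLocal.exists_mul_mem_centralizer
            (Subgroup.zpowers_le.mpr hxU) hcU (Or.inl hUs) (s : Y)⁻¹ (comm_zpowers_mem hxU hc)
          refine ⟨⟨(n * (s : Y)⁻¹)⁻¹, inv_mem ?_⟩, ?_⟩
          · exact Subgroup.mem_inf.mpr ⟨mul_mem (Subgroup.mem_inf.mp hn).1 (inv_mem s.2), hnc⟩
          · change (n * (s : Y)⁻¹)⁻¹ • χ₀ = ω''
            have h2 : n⁻¹ • χ₀ = χ₀ := by
              have h3 : n • χ₀ = χ₀ := (Subgroup.mem_inf.mp hn).2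
              conv_lhs => rw [← h3]
              rw [inv_smul_smul]
            rw [mul_inv_rev, inv_inv, mul_smul, h2, hs']
        · rintro ⟨c, rfl⟩
          have hcS : (c : Y) ∈ S := c.2.1
          have hcx : (c : Y) * x = x * c := (Subgroup.mem_centralizer_iff.mp c.2.2 x (mem_zpowers x)).symm
          refine ⟨?_, ?_⟩
          · change (c : Y) • χ₀ ∈ O
            have h9 : MulAction.orbit ↥S χ₀ = O := MulAction.orbit_eq_iff.mpr hχ₀.1
            rw [← h9]
            exact ⟨⟨c, hcS⟩, rfl⟩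
          · change x • ((c : Y) • χ₀) = (c : Y) • χ₀
            rw [← mul_smul, ← hcx, mul_smul, hχ₀.2]
      have hBodd : Odd B.ncard := by
        rw [hBorb]
        refine Odd.of_dvd_nat hSodd ((ncard_orbit_dvd C χ₀).trans (Subgroup.card_dvd_of_le inf_le_left))
      rw [hcard] at hOodd
      exact (Nat.not_odd_iff_even.mpr (hNxodd.add_odd hBodd)) hOodd
    · -- `x` moves the orbit off itself
      by_contra hne
      have h1 : x • (s₁ • ω') ≠ s₁ • ω' := by
        intro h
        apply hO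
        refine ⟨⟨(x * s₁ * x⁻¹)⁻¹ * s₁, mul_mem (inv_mem ((Subgroup.mem_normalizer_iff.mp hxS s₁).mp hs₁)) hs₁⟩, ?_⟩
        change ((x * s₁ * x⁻¹)⁻¹ * s₁) • ω' = x • ω'
        rw [mul_smul, ← h, ← mul_smul, ← mul_smul]
        congr 1
        group
      obtain ⟨t, ht, hte⟩ := hsingle ω' (s₁ • ω') hω' h1
      have ht1 : t ≠ 1 := by
        rintro rfl
        rw [one_smul] at hte
        exact hne hte
      have hxt := mem_zpowers_of_ne_one hr hxr ht ht1
      have hinv : ∀ ω'' ∈ MulAction.orbit ↥S ω', t • ω'' ∈ MulAction.orbit ↥S ω' := by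
        rintro _ ⟨s, rfl⟩
        have hts : t * s * t⁻¹ ∈ S := (Subgroup.mem_normalizer_iff.mp (hzS ht) s).mp s.2
        refine ⟨⟨t * s * t⁻¹, hts⟩ * ⟨s₁, hs₁⟩, ?_⟩
        change ((t * s * t⁻¹) * s₁) • ω' = t • ((s : Y) • ω')
        rw [mul_smul, hte, ← mul_smul, ← mul_smul]
        congr 1
        group
      have hpow : ∀ n : ℕ, t ^ n • ω' ∈ MulAction.orbit ↥S ω' := by
        intro n
        induction n with
        | zero =>
          rw [pow_zero, one_smul]
          exact MulAction.mem_orbit_self ω'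
        | succ n ih =>
          rw [pow_succ', mul_smul]
          exact hinv _ ih
      obtain ⟨n, hn⟩ := exists_pow_of_mem_zpowers hxt
      apply hO
      rw [hn]
      exact hpow n
  intro s hs ω
  by_cases hall : ∀ ω' ∈ MulAction.orbit ↥S ω, x • ω' = ω'
  · -- `x` fixes the orbit pointwise
    let Kx : Subgroup Y :=
      { carrier := {g | ∀ ω' ∈ MulAction.orbit ↥S ω, g • ω' = ω'}
        one_mem' := fun ω' _ => one_smul _ ω'
        mul_mem' := fun {a b} ha hb ω' hω' => by rw [mul_smul, hb ω' hω', ha ω' hω']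
        inv_mem' := fun {a} ha ω' hω' => by
          conv_lhs => rw [← ha ω' hω']
          rw [inv_smul_smul] }
    have hxK : x ∈ Kx := hall
    have hzK : zpowers x ≤ Kx := Subgroup.zpowers_le.mpr hxK
    have hle : ⁅S, zpowers x⁆ ≤ Kx := by
      rw [Subgroup.commutator_le]
      intro a ha t ht ω' hω'
      have h1 : a⁻¹ • ω' ∈ MulAction.orbit ↥S ω := by
        rw [← MulAction.orbit_eq_iff.mpr hω']
        exact ⟨⟨a⁻¹, inv_mem ha⟩, rfl⟩
      have h2 : t⁻¹ • ω' = ω' := (inv_mem (hzK ht)) ω' hω'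
      rw [commutatorElement_def, mul_smul, mul_smul, mul_smul, h2, hzK ht _ h1, smul_inv_smul]
    rw [hcomm] at hle
    exact hle hs ω (MulAction.mem_orbit_self ω)
  · push Not at hall
    obtain ⟨_, ⟨s₀, rfl⟩, hs₀⟩ := hall
    have h1 := hmain _ hs₀
    have h2 : (s * (s₀ : Y)⁻¹) • ((s₀ : Y) • ω) = (s₀ : Y) • ω := h1 _ (mul_mem hs (inv_mem s₀.2))
    have h3 : ((s₀ : Y)⁻¹) • ((s₀ : Y) • ω) = (s₀ : Y) • ω := h1 _ (inv_mem s₀.2)
    rw [inv_smul_smul] at h3
    calc s • ω = (s * (s₀ : Y)⁻¹) • ((s₀ : Y) • ω) := by rw [← mul_smul, inv_mul_cancel_right]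
      _ = (s₀ : Y) • ω := h2
      _ = ω := h3.symm

end Orbit

section Chars

variable {K S N E : Type*} [Field K] [AddCommGroup S] [Module K S] [Group N] [Finite N] [Group E]

/-- The twist of a function by an automorphism. -/
def twist (θ : E →* MulAut N) (e : E) (χ : N → K) : N → K := fun n => χ (θ e⁻¹ n)

theorem twist_apply (θ : E →* MulAut N) (e : E) (χ : N → K) (n : N) : twist θ e χ n = χ (θ e⁻¹ n) := rfl

theorem twist_one (θ : E →* MulAut N) (χ : N → K) : twist θ 1 χ = χ := by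
  funext n
  simp [twist]

theorem twist_mul (θ : E →* MulAut N) (e e' : E) (χ : N → K) : twist θ (e * e') χ = twist θ e (twist θ e' χ) := by
  funext n
  simp [twist, mul_inv_rev, map_mul]

theorem twist_inv_twist (θ : E →* MulAut N) (e : E) (χ : N → K) : twist θ e⁻¹ (twist θ e χ) = χ := by
  rw [← twist_mul, inv_mul_cancel, twist_one]

variable {σ : N →* End K S} {τ : E →* End K S} {θ : E →* MulAut N}

theorem map_simEig_le (hcompat : ∀ e n, τ e * σ n = σ (θ e n) * τ e) (e : E) (χ : N → K) :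
    (simEig σ χ).map (τ e) ≤ simEig σ (twist θ e χ) := by
  rintro _ ⟨v, hv, rfl⟩
  rw [SetLike.mem_coe, mem_simEig] at hv
  rw [mem_simEig]
  intro n
  have h1 := congrArg (fun f : End K S => f v) (hcompat e (θ e⁻¹ n))
  have h2 : θ e (θ e⁻¹ n) = n := by
    rw [← MulAut.mul_apply, ← map_mul, mul_inv_cancel, map_one]
    rfl
  simp only [Module.End.mul_apply, h2] at h1
  rw [← h1, hv, map_smul, twist_apply]

theorem map_simEig (hcompat : ∀ e n, τ e * σ n = σ (θ e n) * τ e) (e : E) (χ : N → K) :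
    (simEig σ χ).map (τ e) = simEig σ (twist θ e χ) := by
  refine le_antisymm (map_simEig_le hcompat e χ) ?_
  have h1 := map_simEig_le hcompat e⁻¹ (twist θ e χ)
  rw [← twist_mul, inv_mul_cancel, twist_one] at h1
  intro v hv
  refine ⟨τ e⁻¹ v, h1 ⟨v, hv, rfl⟩, ?_⟩
  rw [← Module.End.mul_apply, ← map_mul, mul_inv_cancel, map_one]
  rfl

theorem simEig_ne_bot_twist (hcompat : ∀ e n, τ e * σ n = σ (θ e n) * τ e) (e : E) {χ : N → K}
    (h : simEig σ χ ≠ ⊥) : simEig σ (twist θ e χ) ≠ ⊥ := by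
  intro h0
  apply h
  have h1 := map_simEig hcompat e χ
  rw [h0] at h1
  rw [Submodule.eq_bot_iff]
  intro v hv
  have h2 : τ e v = 0 := by
    have : τ e v ∈ (⊥ : Submodule K S) := h1 ▸ ⟨v, hv, rfl⟩
    simpa using this
  have h3 : τ e⁻¹ (τ e v) = v := by
    rw [← Module.End.mul_apply, ← map_mul, inv_mul_cancel, map_one]
    rfl
  rw [← h3, h2, map_zero]

/-- Powers of `x` fixing a function not fixed by `x`. -/
theorem dvd_of_twist_pow {x : E} {r : ℕ} (hr : r.Prime) (hxr : x ^ r = 1) {χ : N → K} (hχ : twist θ x χ ≠ χ)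
    {n : ℕ} (hn : twist θ (x ^ n) χ = χ) : r ∣ n := by
  by_contra hnr
  have hcop : Nat.Coprime n r := by
    rw [Nat.coprime_comm, Nat.Prime.coprime_iff_not_dvd hr]
    exact hnr
  obtain ⟨m, -, hm⟩ := Nat.exists_mul_mod_eq_one_of_coprime hcop hr.one_lt
  have h1 : ∀ k : ℕ, twist θ ((x ^ n) ^ k) χ = χ := by
    intro k
    induction k with
    | zero => rw [pow_zero, twist_one]
    | succ k ih => rw [pow_succ, twist_mul, hn, ih]
  apply hχ
  have h2 := h1 m
  rw [← pow_mul, pow_eq_pow_mod _ hxr, hm, pow_one] at h2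
  exact h2

/-- The key property of the norm map. -/
theorem fix_key (hind : iSupIndep (simEig σ)) (hcompat : ∀ e n, τ e * σ n = σ (θ e n) * τ e) {x : E} {r : ℕ}
    (hr : r.Prime) (hxr : x ^ r = 1) {χ : N → K} (hχ : twist θ x χ ≠ χ) {v u : S} (hv : v ∈ simEig σ χ)
    (hu : u ∈ ⨆ (j : N → K) (_ : j ≠ χ), simEig σ j) (h : (∑ i ∈ Finset.range r, (τ x) ^ i) v = u) : v = 0 := by
  have hr1 : r = (r - 1) + 1 := (Nat.sub_add_cancel hr.one_lt.le).symm
  have hterm : ∀ i ∈ Finset.range (r - 1), ((τ x) ^ (i + 1)) v ∈ ⨆ (j : N → K) (_ : j ≠ χ), simEig σ j := by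
    intro i hi
    have hi' : i + 1 < r := by
      have := Finset.mem_range.mp hi
      omega
    have hne : twist θ (x ^ (i + 1)) χ ≠ χ := by
      intro h0
      have := Nat.le_of_dvd (by omega) (dvd_of_twist_pow hr hxr hχ h0)
      omega
    refine Submodule.mem_iSup_of_mem _ (Submodule.mem_iSup_of_mem hne ?_)
    rw [← map_pow, ← map_simEig hcompat]
    exact ⟨v, hv, rfl⟩
  have h1 : v = u - ∑ i ∈ Finset.range (r - 1), ((τ x) ^ (i + 1)) v := by
    rw [← h, hr1, Finset.sum_range_succ', LinearMap.add_apply, LinearMap.sum_apply]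
    simp only [Nat.add_sub_cancel, pow_zero, Module.End.one_apply]
    abel
  have h2 : v ∈ ⨆ (j : N → K) (_ : j ≠ χ), simEig σ j := by
    rw [h1]
    exact Submodule.sub_mem _ hu (Submodule.sum_mem _ hterm)
  have h3 := (iSupIndep_def.mp hind χ).le_bot ⟨hv, h2⟩
  simpa using h3

/-- The norm map lands in the fixed vectors. -/
theorem norm_fixed {x : E} {r : ℕ} (hxr : x ^ r = 1) (v : S) :
    (∑ i ∈ Finset.range r, (τ x) ^ i) v ∈ (τ x).eigenspace 1 := by
  rw [Module.End.mem_eigenspace_iff, one_smul]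
  have h1 := mul_geom_sum (τ x) r
  rw [← map_pow, hxr, map_one, sub_self] at h1
  have h2 := congrArg (fun f : End K S => f v) h1
  simp only [Module.End.mul_apply, LinearMap.sub_apply, Module.End.one_apply, LinearMap.zero_apply] at h2
  exact sub_eq_zero.mp h2

variable [FiniteDimensional K S]

/-- **Lemma W, first part**: a non-fixed character has a small eigenspace. -/
theorem finrank_simEig_le (hind : iSupIndep (simEig σ)) (hcompat : ∀ e n, τ e * σ n = σ (θ e n) * τ e) {x : E} {r : ℕ}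
    (hr : r.Prime) (hxr : x ^ r = 1) (hfx : finrank K ((τ x).eigenspace 1) ≤ 1) {χ : N → K} (hχ : twist θ x χ ≠ χ) :
    finrank K (simEig σ χ) ≤ 1 := by
  refine le_trans ?_ hfx
  let f : ↥(simEig σ χ) →ₗ[K] ↥((τ x).eigenspace 1) :=
    ((∑ i ∈ Finset.range r, (τ x) ^ i).domRestrict (simEig σ χ)).codRestrict _ (fun v => norm_fixed hxr _)
  apply LinearMap.finrank_le_finrank_of_injective (f := f)
  rw [← LinearMap.ker_eq_bot, LinearMap.ker_eq_bot']
  intro v hv
  have h1 : (∑ i ∈ Finset.range r, (τ x) ^ i) (v : S) = 0 := congrArg Subtype.val hv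
  apply Subtype.ext
  exact fix_key hind hcompat hr hxr hχ v.2 (Submodule.zero_mem _) h1

/-- **Lemma W, second part**: there is at most one nontrivial orbit. -/
theorem single_orbit (hind : iSupIndep (simEig σ)) (hcompat : ∀ e n, τ e * σ n = σ (θ e n) * τ e) {x : E} {r : ℕ}
    (hr : r.Prime) (hxr : x ^ r = 1) (hfx : finrank K ((τ x).eigenspace 1) ≤ 1) {χ₁ χ₂ : N → K}
    (h₁ : simEig σ χ₁ ≠ ⊥) (h₂ : simEig σ χ₂ ≠ ⊥) (hn₁ : twist θ x χ₁ ≠ χ₁) (hn₂ : twist θ x χ₂ ≠ χ₂) :
    ∃ n : ℕ, χ₂ = twist θ (x ^ n) χ₁ := by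
  by_contra hcon
  push Not at hcon
  obtain ⟨v₁, hv₁, hv₁0⟩ := Submodule.exists_mem_ne_zero_of_ne_bot h₁
  obtain ⟨v₂, hv₂, hv₂0⟩ := Submodule.exists_mem_ne_zero_of_ne_bot h₂
  set Nm : End K S := ∑ i ∈ Finset.range r, (τ x) ^ i with hNm
  have h1 : Nm v₁ ≠ 0 := fun h => hv₁0 (fix_key hind hcompat hr hxr hn₁ hv₁ (Submodule.zero_mem _) h)
  have hmem₁ : Nm v₁ ∈ (τ x).eigenspace 1 := norm_fixed hxr v₁
  have hmem₂ : Nm v₂ ∈ (τ x).eigenspace 1 := norm_fixed hxr v₂
  obtain ⟨c, hc⟩ : ∃ c : K, c • Nm v₁ = Nm v₂ := by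
    have h2 := finrank_le_one_iff.mp hfx
    obtain ⟨w, hw⟩ := h2
    obtain ⟨a, ha⟩ := hw ⟨_, hmem₁⟩
    obtain ⟨b, hb⟩ := hw ⟨_, hmem₂⟩
    have ha' : a • (w : S) = Nm v₁ := congrArg Subtype.val ha
    have hb' : b • (w : S) = Nm v₂ := congrArg Subtype.val hb
    have ha0 : a ≠ 0 := by
      rintro rfl
      rw [zero_smul] at ha'
      exact h1 ha'.symm
    refine ⟨b * a⁻¹, ?_⟩
    rw [← ha', smul_smul, mul_assoc, inv_mul_cancel₀ ha0, mul_one, hb']
  have hu : c • Nm v₁ ∈ ⨆ (j : N → K) (_ : j ≠ χ₂), simEig σ j := by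
    refine Submodule.smul_mem _ _ ?_
    rw [hNm, LinearMap.sum_apply]
    refine Submodule.sum_mem _ fun i _ => ?_
    refine Submodule.mem_iSup_of_mem _ (Submodule.mem_iSup_of_mem (hcon i).symm ?_)
    rw [← map_pow, ← map_simEig hcompat]
    exact ⟨v₁, hv₁, rfl⟩
  exact hv₂0 (fix_key hind hcompat hr hxr hn₂ hv₂ hu hc.symm)

variable [IsAlgClosed K]

/-- A multiplicative character from an eigenvector. -/
theorem chi_mul {σ : N →* End K S} {χ : N → K} (h : simEig σ χ ≠ ⊥) (a b : N) : χ (a * b) = χ a * χ b := by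
  obtain ⟨v, hv, hv0⟩ := Submodule.exists_mem_ne_zero_of_ne_bot h
  rw [mem_simEig] at hv
  have h1 := hv (a * b)
  rw [map_mul, Module.End.mul_apply, hv b, map_smul, hv a, smul_smul, mul_comm] at h1
  exact (smul_left_injective K hv0 h1).symm

theorem chi_one {σ : N →* End K S} {χ : N → K} (h : simEig σ χ ≠ ⊥) : χ 1 = 1 := by
  obtain ⟨v, hv, hv0⟩ := Submodule.exists_mem_ne_zero_of_ne_bot h
  rw [mem_simEig] at hv
  have h1 := hv 1
  rw [map_one, Module.End.one_apply] at h1
  have h2 : (1 : K) • v = χ 1 • v := by rw [one_smul]; exact h1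
  exact (smul_left_injective K hv0 h2).symm

/-- Equality of operators on every eigenspace gives equality. -/
theorem eq_of_forall_simEig {σ : N →* End K S} (htop : ⨆ χ, simEig σ χ = ⊤) {f g : End K S}
    (h : ∀ χ, simEig σ χ ≠ ⊥ → ∀ v ∈ simEig σ χ, f v = g v) : f = g := by
  apply LinearMap.ext
  intro v
  have hle : (⊤ : Submodule K S) ≤ LinearMap.eqLocus f g := by
    rw [← htop]
    refine iSup_le fun χ => ?_
    by_cases hχ : simEig σ χ = ⊥
    · rw [hχ]
      exact bot_le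
    · intro w hw
      exact h χ hχ w hw
  exact hle trivial

/-- The action on nonzero eigenspaces. -/
@[reducible] def chiAct (hcompat : ∀ e n, τ e * σ n = σ (θ e n) * τ e) : MulAction E {χ : N → K // simEig σ χ ≠ ⊥} where
  smul e χ := ⟨twist θ e χ.1, simEig_ne_bot_twist hcompat e χ.2⟩
  one_smul χ := Subtype.ext (twist_one θ χ.1)
  mul_smul e e' χ := Subtype.ext (twist_mul θ e e' χ.1)

theorem finite_chi (hind : iSupIndep (simEig σ)) : Finite {χ : N → K // simEig σ χ ≠ ⊥} :=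
  (WellFoundedGT.finite_ne_bot_of_iSupIndep hind).to_subtype

/-- **Every character is fixed by `S = [S, x]`**. -/
theorem chars_fixed [Finite E] (hcomm : ∀ n n', σ n * σ n' = σ n' * σ n) (hK : (Nat.card N : K) ≠ 0)
    (hcompat : ∀ e n, τ e * σ n = σ (θ e n) * τ e) {p r : ℕ} [hpf : Fact p.Prime] (hp2 : Odd p) (hr : r.Prime)
    (hr2 : Odd r) (hpr : p ≠ r) (A : Subgroup E) (hA : IsPGroup p A) (x : E) (hxr : x ^ r = 1)
    (hxA : x ∈ normalizer (A : Set E)) (hcA : ⁅A, zpowers x⁆ = A) (hfx : finrank K ((τ x).eigenspace 1) ≤ 1) :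
    ∀ s ∈ A, ∀ χ : N → K, simEig σ χ ≠ ⊥ → twist θ s χ = χ := by
  obtain ⟨hind, -⟩ := simEig_indep σ hcomm hK
  letI := chiAct (K := K) hcompat
  haveI := finite_chi (σ := σ) hind
  have hsm : ∀ (e : E) (χ : {χ : N → K // simEig σ χ ≠ ⊥}), ((e • χ : {χ : N → K // simEig σ χ ≠ ⊥}) : N → K) = twist θ e χ.1 :=
    fun _ _ => rfl
  have h := orbit_lemma (P := {χ : N → K // simEig σ χ ≠ ⊥}) hp2 hr hr2 hpr A hA x hxr hxA hcA (by
    intro ω₁ ω₂ h₁ h₂
    have h₁' : twist θ x ω₁.1 ≠ ω₁.1 := fun h0 => h₁ (Subtype.ext h0)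
    have h₂' : twist θ x ω₂.1 ≠ ω₂.1 := fun h0 => h₂ (Subtype.ext h0)
    obtain ⟨n, hn⟩ := single_orbit hind hcompat hr hxr hfx ω₁.2 ω₂.2 h₁' h₂'
    exact ⟨x ^ n, pow_mem (mem_zpowers x) n, Subtype.ext hn⟩)
  intro s hs χ hχ
  exact congrArg Subtype.val (h s hs ⟨χ, hχ⟩)

end Chars

section Claims

variable {K V F : Type*} [Field K] [IsAlgClosed K] [AddCommGroup V] [Module K V] [FiniteDimensional K V] [Group F]
  [Finite F]

/-- Conjugation by the normalizer. -/
def nConj (A : Subgroup F) : ↥(normalizer (A : Set F)) →* MulAut ↥A :=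
  conjOn (normalizer (A : Set F)) A (fun _ he n hn => (Subgroup.mem_normalizer_iff.mp he n).mp hn)

@[simp] theorem nConj_apply (A : Subgroup F) (e : ↥(normalizer (A : Set F))) (a : ↥A) :
    ((nConj A e a : ↥A) : F) = e * a * (e : F)⁻¹ := rfl

theorem nConj_compat (ρ : F →* End K V) (A : Subgroup F) (e : ↥(normalizer (A : Set F))) (n : ↥A) :
    (ρ.comp (normalizer (A : Set F)).subtype) e * (ρ.comp A.subtype) n =
      (ρ.comp A.subtype) (nConj A e n) * (ρ.comp (normalizer (A : Set F)).subtype) e := by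
  simp only [MonoidHom.comp_apply, Subgroup.coe_subtype, nConj_apply]
  rw [← map_mul, ← map_mul]
  congr 1
  group

theorem eigenspace_le_fx (ρ : F →* End K V) (x : F) : (ρ x).eigenspace 1 ≤ fx ρ (zpowers x) := by
  intro v hv
  rw [Module.End.mem_eigenspace_iff, one_smul] at hv
  exact mem_fx_zpowers ρ hv

/-- A fixed character gives the identity of operators. -/
theorem rho_conj_eq (ρ : F →* End K V) (A : Subgroup F) (hAc : ∀ a ∈ A, ∀ b ∈ A, a * b = b * a)
    (hK : (Nat.card A : K) ≠ 0) (e : ↥(normalizer (A : Set F)))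
    (he : ∀ χ : ↥A → K, simEig (ρ.comp A.subtype) χ ≠ ⊥ → twist (nConj A) e⁻¹ χ = χ) (a : ↥A) :
    ρ ((e : F) * a * (e : F)⁻¹) = ρ a := by
  have hcomm : ∀ n n', (ρ.comp A.subtype) n * (ρ.comp A.subtype) n' = (ρ.comp A.subtype) n' * (ρ.comp A.subtype) n := by
    intro n n'
    rw [← map_mul, ← map_mul]
    congr 1
    exact Subtype.ext (hAc n n.2 n' n'.2)
  obtain ⟨-, htop⟩ := simEig_indep (ρ.comp A.subtype) hcomm hK
  refine eq_of_forall_simEig htop ?_
  intro χ hχ v hv
  rw [mem_simEig] at hv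
  have h1 := hv (nConj A e a)
  have h2 := hv a
  have h3 : χ (nConj A e a) = χ a := by
    have h4 := congrFun (he χ hχ) a
    rw [twist_apply, inv_inv] at h4
    exact h4
  rw [h3] at h1
  have h5 : (ρ.comp A.subtype) (nConj A e a) = ρ ((e : F) * a * (e : F)⁻¹) := rfl
  have h6 : (ρ.comp A.subtype) a = ρ a := rfl
  rw [h5] at h1
  rw [h6] at h2
  rw [h1, h2]

/-- **Claim A, abelian case**: `S = [S, x]` fixes every character. -/
theorem abelian_claim_A (ρ : F →* End K V) (Q S : Subgroup F) (hQc : ∀ a ∈ Q, ∀ b ∈ Q, a * b = b * a)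
    (hSQ : S ≤ normalizer (Q : Set F)) (x : F) (hxQ : x ∈ normalizer (Q : Set F)) (hK : (Nat.card Q : K) ≠ 0)
    {p r : ℕ} [hpf : Fact p.Prime] (hp2 : Odd p) (hr : r.Prime) (hr2 : Odd r) (hpr : p ≠ r) (hS : IsPGroup p S)
    (hxr : x ^ r = 1) (hxS : x ∈ normalizer (S : Set F)) (hcomm : ⁅S, zpowers x⁆ = S)
    (hfx : finrank K (fx ρ (zpowers x)) ≤ 1) : ∀ s ∈ S, ∀ a ∈ Q, ρ (s * a * s⁻¹) = ρ a := by
  classical
  set E : Subgroup F := normalizer (Q : Set F) with hE
  let A : Subgroup ↥E := S.subgroupOf E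
  let x' : ↥E := ⟨x, hxQ⟩
  have hAmap : A.map E.subtype = S := Subgroup.map_subgroupOf_eq_of_le hSQ
  have hzmap : (zpowers x').map E.subtype = zpowers x := by
    rw [MonoidHom.map_zpowers]
    rfl
  have hcA : ⁅A, zpowers x'⁆ = A := by
    apply Subgroup.map_injective E.subtype_injective
    rw [Subgroup.map_commutator, hAmap, hzmap, hcomm]
  have hA : IsPGroup p A := hS.comap_of_injective _ E.subtype_injective
  have hxA : x' ∈ normalizer (A : Set ↥E) := by
    rw [Subgroup.mem_normalizer_iff]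
    intro a
    simp only [SetLike.mem_coe, A, Subgroup.mem_subgroupOf]
    exact Subgroup.mem_normalizer_iff.mp hxS a
  have hcomm' : ∀ n n', (ρ.comp Q.subtype) n * (ρ.comp Q.subtype) n' = (ρ.comp Q.subtype) n' * (ρ.comp Q.subtype) n := by
    intro n n'
    rw [← map_mul, ← map_mul]
    congr 1
    exact Subtype.ext (hQc n n.2 n' n'.2)
  have hfx' : finrank K (((ρ.comp E.subtype) x').eigenspace 1) ≤ 1 :=
    le_trans (Submodule.finrank_mono (eigenspace_le_fx ρ x)) hfx
  have hmain := chars_fixed (θ := nConj Q) hcomm' hK (nConj_compat ρ Q) hp2 hr hr2 hpr A hA x'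
    (Subtype.ext hxr) hxA hcA hfx'
  intro s hs a ha
  have hs' : (⟨s, hSQ hs⟩ : ↥E) ∈ A := Subgroup.mem_subgroupOf.mpr hs
  exact rho_conj_eq ρ Q hQc hK ⟨s, hSQ hs⟩ (fun χ hχ => hmain _ (inv_mem hs') χ hχ) ⟨a, ha⟩

/-- **Claim B, abelian case**: `x` commuting with `S` with `Q = [Q, S]` acts trivially. -/
theorem abelian_claim_B (ρ : F →* End K V) (Q S : Subgroup F) (hQc : ∀ a ∈ Q, ∀ b ∈ Q, a * b = b * a)
    (hSQ : S ≤ normalizer (Q : Set F)) (x : F) (hxQ : x ∈ normalizer (Q : Set F)) (hK : (Nat.card Q : K) ≠ 0)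
    {p r : ℕ} [hpf : Fact p.Prime] (hr : r.Prime) (hpr : p ≠ r) (hS : IsPGroup p S)
    (hxr : x ^ r = 1) (hxS : ∀ s ∈ S, s * x = x * s) (hcomm : ⁅Q, S⁆ = Q)
    (hfx : finrank K (fx ρ (zpowers x)) ≤ 1) : ∀ a ∈ Q, ρ (x * a * x⁻¹) = ρ a := by
  classical
  set E : Subgroup F := normalizer (Q : Set F) with hE
  let x' : ↥E := ⟨x, hxQ⟩
  have hcomm' : ∀ n n', (ρ.comp Q.subtype) n * (ρ.comp Q.subtype) n' = (ρ.comp Q.subtype) n' * (ρ.comp Q.subtype) n := by
    intro n n'
    rw [← map_mul, ← map_mul]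
    congr 1
    exact Subtype.ext (hQc n n.2 n' n'.2)
  obtain ⟨hind, -⟩ := simEig_indep (ρ.comp Q.subtype) hcomm' hK
  have hfx' : finrank K (((ρ.comp E.subtype) x').eigenspace 1) ≤ 1 :=
    le_trans (Submodule.finrank_mono (eigenspace_le_fx ρ x)) hfx
  have hxr' : x' ^ r = 1 := Subtype.ext hxr
  have hcompat := nConj_compat (K := K) (V := V) ρ Q
  have hfixed : ∀ χ : ↥Q → K, simEig (ρ.comp Q.subtype) χ ≠ ⊥ → twist (nConj Q) x' χ = χ := by
    intro χ hχ
    by_contra hne
    -- `S` fixes `χ`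
    have hSfix : ∀ s : ↥E, (s : F) ∈ S → twist (nConj Q) s χ = χ := by
      intro s hs
      have hsx : s * x' = x' * s := Subtype.ext (hxS s hs)
      have hns : twist (nConj Q) x' (twist (nConj Q) s χ) ≠ twist (nConj Q) s χ := by
        intro h0
        apply hne
        rw [← twist_mul, ← hsx, twist_mul] at h0
        have h1 := congrArg (twist (nConj Q) s⁻¹) h0
        rwa [twist_inv_twist, twist_inv_twist] at h1
      obtain ⟨n, hn⟩ := single_orbit hind hcompat hr hxr' hfx' hχ (simEig_ne_bot_twist hcompat s hχ) hne hns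
      have hpow : ∀ j : ℕ, twist (nConj Q) (s ^ j) χ = twist (nConj Q) (x' ^ (n * j)) χ := by
        intro j
        induction j with
        | zero => simp
        | succ j ih =>
          have hc : Commute (s ^ j) (x' ^ n) := (Commute.pow_pow (show Commute s x' from hsx) j n)
          rw [pow_succ, twist_mul, hn, ← twist_mul, hc.eq, twist_mul, ih, ← twist_mul, ← pow_add]
          congr 2
          ring
      obtain ⟨k, hk⟩ := hS ⟨s, hs⟩
      have hk0 : (s : F) ^ p ^ k = 1 := by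
        have := congrArg Subtype.val hk
        simpa using this
      have hk' : s ^ p ^ k = 1 := Subtype.ext hk0
      have h1 := hpow (p ^ k)
      rw [hk', twist_one] at h1
      have h2 := dvd_of_twist_pow hr hxr' hne h1.symm
      have h3 : r ∣ n := by
        rcases (Nat.Prime.dvd_mul hr).mp h2 with h4 | h4
        · exact h4
        · exact absurd ((Nat.prime_dvd_prime_iff_eq hr hpf.out).mp (hr.dvd_of_dvd_pow h4)) hpr.symm
      obtain ⟨c, rfl⟩ := h3
      have h5 : x' ^ (r * c) = 1 := by rw [pow_mul, hxr', one_pow]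
      rw [h5, twist_one] at hn
      exact hn
    -- so `χ` is trivial on `[Q, S] = Q`
    let χh : ↥Q →* K :=
      { toFun := χ
        map_one' := chi_one hχ
        map_mul' := chi_mul hχ }
    have hle : ⁅Q, S⁆ ≤ χh.ker.map Q.subtype := by
      rw [Subgroup.commutator_le]
      intro a ha s hs
      have hs' := hSQ hs
      have hb : s * a⁻¹ * s⁻¹ ∈ Q := (Subgroup.mem_normalizer_iff.mp hs' _).mp (inv_mem ha)
      refine ⟨⟨a, ha⟩ * ⟨s * a⁻¹ * s⁻¹, hb⟩, ?_, ?_⟩
      · rw [SetLike.mem_coe, MonoidHom.mem_ker, map_mul]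
        have h1 : χ ⟨s * a⁻¹ * s⁻¹, hb⟩ = χ ⟨a⁻¹, inv_mem ha⟩ := by
          have h2 := congrFun (hSfix ⟨s, hs'⟩⁻¹ (by
            change s⁻¹ ∈ S
            exact inv_mem hs)) ⟨a⁻¹, inv_mem ha⟩
          rw [twist_apply, inv_inv] at h2
          exact h2
        change χ ⟨a, ha⟩ * χ ⟨s * a⁻¹ * s⁻¹, hb⟩ = 1
        rw [h1, ← chi_mul hχ]
        have h2 : (⟨a, ha⟩ * ⟨a⁻¹, inv_mem ha⟩ : ↥Q) = 1 := Subtype.ext (mul_inv_cancel a)
        rw [h2]
        exact chi_one hχ
      · simp only [Subgroup.coe_subtype, Subgroup.coe_mul, commutatorElement_def]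
        group
    rw [hcomm] at hle
    have htriv : ∀ a : ↥Q, χ a = 1 := by
      intro a
      obtain ⟨b, hb, hba⟩ := hle a.2
      have h1 : b = a := Subtype.ext hba
      rw [← h1]
      exact hb
    apply hne
    funext a
    rw [twist_apply, htriv, htriv]
  intro a ha
  refine rho_conj_eq ρ Q hQc hK x' (fun χ hχ => ?_) ⟨a, ha⟩
  have h1 := hfixed χ hχ
  have h2 := congrArg (twist (nConj Q) x'⁻¹) h1
  rw [← twist_mul, inv_mul_cancel, twist_one] at h2
  exact h2.symm

/-- **Common step**: if `Z = Q'` is abelian and central, then `x` normalizing `Z` centralizes it in the representation. -/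
theorem x_centralizes_Z (ρ : F →* End K V) (Q Z : Subgroup F) (hZc : ∀ a ∈ Z, ∀ b ∈ Z, a * b = b * a)
    (hQZ : ∀ a ∈ Q, ∀ z ∈ Z, a * z = z * a) (hZQ : Z ≤ ⁅Q, Q⁆) (x : F) (hxZ : x ∈ normalizer (Z : Set F))
    (hK : (Nat.card Z : K) ≠ 0) {r : ℕ} (hr : r.Prime) (hxr : x ^ r = 1)
    (hfx : finrank K (fx ρ (zpowers x)) ≤ 1) : ∀ z ∈ Z, ρ (x * z * x⁻¹) = ρ z := by
  classical
  set E : Subgroup F := normalizer (Z : Set F) with hE
  let x' : ↥E := ⟨x, hxZ⟩
  have hcomm' : ∀ n n', (ρ.comp Z.subtype) n * (ρ.comp Z.subtype) n' = (ρ.comp Z.subtype) n' * (ρ.comp Z.subtype) n := by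
    intro n n'
    rw [← map_mul, ← map_mul]
    congr 1
    exact Subtype.ext (hZc n n.2 n' n'.2)
  obtain ⟨hind, -⟩ := simEig_indep (ρ.comp Z.subtype) hcomm' hK
  have hfx' : finrank K (((ρ.comp E.subtype) x').eigenspace 1) ≤ 1 :=
    le_trans (Submodule.finrank_mono (eigenspace_le_fx ρ x)) hfx
  have hxr' : x' ^ r = 1 := Subtype.ext hxr
  have hcompat := nConj_compat (K := K) (V := V) ρ Z
  have hfixed : ∀ χ : ↥Z → K, simEig (ρ.comp Z.subtype) χ ≠ ⊥ → twist (nConj Z) x' χ = χ := by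
    intro χ hχ
    by_contra hne
    have hdim := finrank_simEig_le hind hcompat hr hxr' hfx' hne
    obtain ⟨v, hv, hv0⟩ := Submodule.exists_mem_ne_zero_of_ne_bot hχ
    -- the operators of `Q` preserve the line
    have hinv : ∀ a ∈ Q, ρ a v ∈ simEig (ρ.comp Z.subtype) χ := by
      intro a ha
      rw [mem_simEig]
      intro z
      have h1 := mem_simEig.mp hv z
      have h2 : (ρ.comp Z.subtype) z (ρ a v) = ρ a ((ρ.comp Z.subtype) z v) := by
        change ρ z (ρ a v) = ρ a (ρ z v)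
        rw [← Module.End.mul_apply, ← Module.End.mul_apply, ← map_mul, ← map_mul, hQZ a ha z z.2]
      rw [h2, h1, map_smul]
    have hscal : ∀ a ∈ Q, ∃ c : K, ρ a v = c • v := by
      intro a ha
      obtain ⟨w, hw⟩ := finrank_le_one_iff.mp hdim
      obtain ⟨c₁, hc₁⟩ := hw ⟨ρ a v, hinv a ha⟩
      obtain ⟨c₂, hc₂⟩ := hw ⟨v, hv⟩
      have hc₁' : c₁ • (w : V) = ρ a v := congrArg Subtype.val hc₁
      have hc₂' : c₂ • (w : V) = v := congrArg Subtype.val hc₂
      have hc₂0 : c₂ ≠ 0 := by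
        rintro rfl
        rw [zero_smul] at hc₂'
        exact hv0 hc₂'.symm
      refine ⟨c₁ * c₂⁻¹, ?_⟩
      rw [← hc₁']
      conv_rhs => rw [← hc₂']
      rw [smul_smul, mul_assoc, inv_mul_cancel₀ hc₂0, mul_one]
    let T : Subgroup F :=
      { carrier := {g | ρ g v = v}
        one_mem' := by simp
        mul_mem' := fun {a b} ha hb => by
          change ρ (a * b) v = v
          rw [map_mul, Module.End.mul_apply]
          rw [show ρ b v = v from hb]
          exact ha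
        inv_mem' := fun {a} ha => by
          change ρ a⁻¹ v = v
          have h1 : ρ a v = v := ha
          conv_lhs => rw [← h1]
          rw [← Module.End.mul_apply, ← map_mul, inv_mul_cancel, map_one, Module.End.one_apply] }
    have hle : ⁅Q, Q⁆ ≤ T := by
      rw [Subgroup.commutator_le]
      intro a ha b hb
      change ρ ⁅a, b⁆ v = v
      obtain ⟨c₁, hc₁⟩ := hscal a ha
      obtain ⟨c₂, hc₂⟩ := hscal b hb
      obtain ⟨c₃, hc₃⟩ := hscal a⁻¹ (inv_mem ha)
      obtain ⟨c₄, hc₄⟩ := hscal b⁻¹ (inv_mem hb)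
      have h1 : ρ (a * a⁻¹) v = v := by simp
      rw [map_mul, Module.End.mul_apply, hc₃, map_smul, hc₁, smul_smul] at h1
      have h2 : ρ (b * b⁻¹) v = v := by simp
      rw [map_mul, Module.End.mul_apply, hc₄, map_smul, hc₂, smul_smul] at h2
      have hs₁ : c₃ * c₁ = 1 := (smul_left_injective K hv0 (h1.trans (one_smul K v).symm))
      have hs₂ : c₄ * c₂ = 1 := (smul_left_injective K hv0 (h2.trans (one_smul K v).symm))
      rw [commutatorElement_def, map_mul, map_mul, map_mul]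
      simp only [Module.End.mul_apply, hc₁, hc₂, hc₃, hc₄, map_smul, smul_smul]
      convert one_smul K v using 2
      linear_combination (c₄ * c₂) * hs₁ + hs₂
    have htriv : ∀ z : ↥Z, χ z = 1 := by
      intro z
      have h1 : ρ z v = v := hle (hZQ z.2)
      have h2 := mem_simEig.mp hv z
      have h3 : ρ z v = χ z • v := h2
      rw [h1] at h3
      have h4 : (1 : K) • v = χ z • v := by rw [one_smul]; exact h3
      exact (smul_left_injective K hv0 h4).symm
    apply hne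
    funext z
    rw [twist_apply, htriv, htriv]
  intro z hz
  refine rho_conj_eq ρ Z hZc hK x' (fun χ hχ => ?_) ⟨z, hz⟩
  have h1 := hfixed χ hχ
  have h2 := congrArg (twist (nConj Z) x'⁻¹) h1
  rw [← twist_mul, inv_mul_cancel, twist_one] at h2
  exact h2.symm

end Claims

end Cfsg.Agent.Lib.FT
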