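import Cfsg.Agent.Lib.FT.BG3d
import Cfsg.Agent.Lib.OddLocal.PStable
import Cfsg.Agent.Lib.Basic.Core

/-!
BG section 3, continued: quadratic action; a `p`-element acting quadratically on an `F_p`-module commutes modulo the kernel
with elements `a` with `[a, y]` a `q`-element (`p`-stability in a semidirect product), and the nonabelian case of the claims.
-/

set_option autoImplicit false
set_option linter.unusedSectionVars false
set_option linter.style.haveILetI false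

namespace Cfsg.Agent.Lib.FT

open Module Subgroup
open scoped commutatorElement

section Quad

variable {E M₀ : Type*} [Group E] [AddCommGroup M₀] {p : ℕ} [hpf : Fact p.Prime] [Module (ZMod p) M₀]

/-- A representation, as an action by automorphisms. -/
def modAct (ρ : E →* End (ZMod p) M₀) : E →* MulAut (Multiplicative M₀) where
  toFun e :=
    { toFun := fun m => Multiplicative.ofAdd (ρ e (Multiplicative.toAdd m))
      invFun := fun m => Multiplicative.ofAdd (ρ e⁻¹ (Multiplicative.toAdd m))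
      left_inv := fun m => by
        change Multiplicative.ofAdd (ρ e⁻¹ (ρ e (Multiplicative.toAdd m))) = m
        rw [← Module.End.mul_apply, ← map_mul, inv_mul_cancel, map_one]
        rfl
      right_inv := fun m => by
        change Multiplicative.ofAdd (ρ e (ρ e⁻¹ (Multiplicative.toAdd m))) = m
        rw [← Module.End.mul_apply, ← map_mul, mul_inv_cancel, map_one]
        rfl
      map_mul' := fun a b => by
        change Multiplicative.ofAdd (ρ e (Multiplicative.toAdd a + Multiplicative.toAdd b)) = _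
        rw [map_add]
        rfl }
  map_one' := by
    ext m
    change Multiplicative.ofAdd (ρ 1 (Multiplicative.toAdd m)) = m
    rw [map_one]
    rfl
  map_mul' a b := by
    ext m
    change Multiplicative.ofAdd (ρ (a * b) (Multiplicative.toAdd m)) = _
    rw [map_mul]
    rfl

theorem modAct_apply (ρ : E →* End (ZMod p) M₀) (e : E) (m : Multiplicative M₀) :
    modAct ρ e m = Multiplicative.ofAdd (ρ e (Multiplicative.toAdd m)) := rfl

/-- **Quadratic action**: if a `p`-element `y` acts quadratically on an `F_p`-module, of an odd order group, then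
every commutator `[a, y]` of `q`-power order acts trivially. -/
theorem quad_comm [Finite E] [Finite M₀] {q : ℕ} (hp : p ≠ 2) (hEodd : Odd (Nat.card E))
    (ρ : E →* End (ZMod p) M₀) (y a : E) (n : ℕ) (hy : y ^ p ^ n = 1)
    (hquad : ∀ v, (ρ y - 1) ((ρ y - 1) v) = 0) (hq : q.Prime) (hqp : q ≠ p) (m : ℕ) (hc : ⁅a, y⁆ ^ q ^ m = 1) :
    ρ ⁅a, y⁆ = 1 := by
  classical
  have hpp : p.Prime := hpf.out
  let φ := modAct ρ
  let G := Multiplicative M₀ ⋊[φ] E
  haveI : Finite G := Finite.of_equiv _ (SemidirectProduct.equivProd (φ := φ)).symm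
  let ι : Multiplicative M₀ →* G := SemidirectProduct.inl
  let κ : E →* G := SemidirectProduct.inr
  have hconj : ∀ (e : E) (m : Multiplicative M₀), κ e * ι m * (κ e)⁻¹ = ι (φ e m) := by
    intro e m
    rw [← map_inv]
    exact (SemidirectProduct.inl_aut (φ := φ) e m).symm
  let P : Subgroup G := ι.range
  haveI hPn : P.Normal := by
    change (SemidirectProduct.inl : Multiplicative M₀ →* G).range.Normal
    rw [SemidirectProduct.range_inl_eq_ker_rightHom]
    infer_instance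
  have hP : IsPGroup p P := by
    rintro ⟨_, m, rfl⟩
    refine ⟨1, ?_⟩
    apply Subtype.ext
    change (ι m) ^ p ^ 1 = 1
    rw [← map_pow, pow_one]
    have : m ^ p = 1 := by
      change Multiplicative.ofAdd (p • Multiplicative.toAdd m) = 1
      have h1 : p • Multiplicative.toAdd m = 0 := by
        rw [← Nat.cast_smul_eq_nsmul (ZMod p)]
        simp
      rw [h1]
      rfl
    rw [this, map_one]
  have hGodd : Odd (Nat.card G) := by
    have h1 : Nat.card G = Nat.card (Multiplicative M₀) * Nat.card E := SemidirectProduct.card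
    rw [h1]
    refine Odd.mul ?_ hEodd
    haveI : Module.Finite (ZMod p) M₀ := Module.Finite.of_finite
    have h2 : Nat.card (Multiplicative M₀) = p ^ finrank (ZMod p) M₀ := by
      have h3 : Nat.card (Multiplicative M₀) = Nat.card M₀ := rfl
      rw [h3, Module.natCard_eq_pow_finrank (K := ZMod p), Nat.card_zmod]
    rw [h2]
    exact (hpp.odd_of_ne_two hp).pow
  let C : Subgroup G := centralizer (P : Set G)
  haveI hCn : C.Normal := inferInstance
  let A : Subgroup G := zpowers (κ y)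
  have hκy : (κ y) ^ p ^ n = 1 := by rw [← map_pow, hy, map_one]
  have hA : IsPGroup p A := by
    apply IsPGroup.of_card (n := (Nat.dvd_prime_pow hpp).mp (orderOf_dvd_of_pow_eq_one hκy) |>.choose)
    rw [Nat.card_zpowers]
    exact ((Nat.dvd_prime_pow hpp).mp (orderOf_dvd_of_pow_eq_one hκy)).choose_spec.2
  have hquad' : ∀ a ∈ A, ∀ w ∈ P, Commute ⁅w, a⁆ a := by
    rintro b hb _ ⟨w, rfl⟩
    obtain ⟨j, rfl⟩ := exists_pow_of_mem_zpowers hb
    rw [← map_pow]
    set t : End (ZMod p) M₀ := ρ y with ht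
    set g : End (ZMod p) M₀ := ∑ i ∈ Finset.range j, t ^ i with hg
    have hgeom : (t - 1) * g = t ^ j - 1 := mul_geom_sum t j
    have hcomm : Commute (t - 1) g := by
      refine Commute.sum_right _ _ _ fun i _ => ?_
      exact ((Commute.refl t).pow_right i).sub_left (Commute.one_left _)
    have hzero : (t - 1) * (t - 1) = 0 := by
      ext1 v
      exact hquad v
    have hf : ∀ v, (t ^ j - 1) ((t ^ j - 1) v) = 0 := by
      intro v
      have h1 : (t ^ j - 1) * (t ^ j - 1) = 0 := by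
        rw [← hgeom]
        calc (t - 1) * g * ((t - 1) * g) = (t - 1) * (g * (t - 1)) * g := by noncomm_ring
          _ = (t - 1) * ((t - 1) * g) * g := by rw [hcomm.eq]
          _ = ((t - 1) * (t - 1)) * (g * g) := by noncomm_ring
          _ = 0 := by rw [hzero, zero_mul]
      exact LinearMap.congr_fun h1 v
    have hρy : ρ (y ^ j) = t ^ j := by rw [map_pow]
    set u : M₀ := Multiplicative.toAdd w with hu
    have h1 : ⁅ι w, κ (y ^ j)⁆ = ι (Multiplicative.ofAdd (u - (t ^ j) u)) := by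
      rw [commutatorElement_def]
      have h2 : ι w * κ (y ^ j) * (ι w)⁻¹ * (κ (y ^ j))⁻¹ = ι w * (κ (y ^ j) * (ι w)⁻¹ * (κ (y ^ j))⁻¹) := by group
      rw [h2, ← map_inv ι, hconj, ← map_mul]
      congr 1
      rw [modAct_apply, hρy]
      change Multiplicative.ofAdd (u + (t ^ j) (- u)) = _
      rw [map_neg, sub_eq_add_neg]
    rw [h1]
    change ι _ * κ (y ^ j) = κ (y ^ j) * ι _
    have h3 := hconj (y ^ j) (Multiplicative.ofAdd (u - (t ^ j) u))
    have h4 : φ (y ^ j) (Multiplicative.ofAdd (u - (t ^ j) u)) = Multiplicative.ofAdd (u - (t ^ j) u) := by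
      rw [modAct_apply, hρy]
      congr 1
      have h6 : (t ^ j) ((t ^ j) u) - (t ^ j) u - ((t ^ j) u - u) = 0 := by
        have h5 := hf u
        simpa only [LinearMap.sub_apply, Module.End.one_apply, map_sub] using h5
      change (t ^ j) (u - (t ^ j) u) = u - (t ^ j) u
      rw [map_sub]
      have h7 : (t ^ j) u - (t ^ j) ((t ^ j) u) - (u - (t ^ j) u) = - ((t ^ j) ((t ^ j) u) - (t ^ j) u - ((t ^ j) u - u)) := by abel
      rw [← sub_eq_zero, h7, h6, neg_zero]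
    rw [h4, mul_inv_eq_iff_eq_mul] at h3
    exact h3.symm
  have hstable := Cfsg.Agent.Lib.OddLocal.pstable_normal hp hGodd P hP C (fun g hg => by
    rw [Subgroup.mem_centralizer_iff]
    intro w hw
    exact (hg w hw).symm) A hquad' hA
  set mk : G →* G ⧸ C := QuotientGroup.mk' C with hmk
  have hyb : mk (κ y) ∈ Cfsg.pCore p (G ⧸ C) := hstable ⟨κ y, mem_zpowers _, rfl⟩
  have hnorm : (Cfsg.pCore p (G ⧸ C)).Normal := Cfsg.Agent.Lib.Basic.pCore_normal p
  have hcb : mk (κ ⁅a, y⁆) ∈ Cfsg.pCore p (G ⧸ C) := by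
    rw [commutatorElement_def, map_mul, map_mul, map_mul, map_mul, map_mul, map_mul, map_inv, map_inv, map_inv, map_inv]
    exact mul_mem (hnorm.conj_mem _ hyb _) (inv_mem hyb)
  obtain ⟨k, hk⟩ := Cfsg.Agent.Lib.Basic.pCore_isPGroup (G := G ⧸ C) p ⟨_, hcb⟩
  have hk' : (mk (κ ⁅a, y⁆)) ^ p ^ k = 1 := by
    have := congrArg Subtype.val hk
    simpa using this
  have hm' : (mk (κ ⁅a, y⁆)) ^ q ^ m = 1 := by
    rw [← map_pow, ← map_pow, hc, map_one, map_one]
  have hone : mk (κ ⁅a, y⁆) = 1 := by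
    have h1 := orderOf_dvd_of_pow_eq_one hk'
    have h2 := orderOf_dvd_of_pow_eq_one hm'
    have h3 : Nat.Coprime (p ^ k) (q ^ m) := Nat.Coprime.pow _ _ ((Nat.coprime_primes hpp hq).mpr hqp.symm)
    have h4 := Nat.eq_one_of_dvd_coprimes h3 h1 h2
    exact orderOf_eq_one_iff.mp h4
  have hmem : κ ⁅a, y⁆ ∈ C := (QuotientGroup.eq_one_iff _).mp hone
  ext1 v
  apply Multiplicative.ofAdd.injective
  have h1 := Subgroup.mem_centralizer_iff.mp hmem (ι (Multiplicative.ofAdd v)) ⟨_, rfl⟩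
  have h2 := hconj ⁅a, y⁆ (Multiplicative.ofAdd v)
  rw [← h1, mul_inv_cancel_right] at h2
  have h3 := SemidirectProduct.inl_injective h2
  have h4 : Multiplicative.ofAdd v = modAct ρ ⁅a, y⁆ (Multiplicative.ofAdd v) := h3
  rw [modAct_apply] at h4
  exact h4.symm

/-- Eigenspaces of dimension at most two force quadratic action of a commuting `p`-element. -/
theorem quad_of_eigen {K W : Type*} [Field K] [IsAlgClosed K] [AddCommGroup W] [Module K W] [FiniteDimensional K W]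
    [CharP K p] (f g : End K W) {r : ℕ} (hr : (r : K) ≠ 0) (hf : f ^ r = 1) (hfg : Commute f g) (n : ℕ)
    (hg : g ^ p ^ n = 1) (hdim : ∀ μ, finrank K (f.eigenspace μ) ≤ 2) : (g - 1) * (g - 1) = 0 := by
  have htop := (eigen_internal f hr hf).2
  have hnil : (g - 1) ^ p ^ n = 0 := by
    by_cases hW : Nontrivial W
    · haveI : Nontrivial (End K W) := inferInstance
      haveI : CharP (End K W) p := charP_of_injective_algebraMap (algebraMap K (End K W)).injective p
      rw [sub_pow_char_pow_of_commute p n (Commute.one_right g), hg, one_pow, sub_self]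
    · rw [not_nontrivial_iff_subsingleton] at hW
      ext u
      exact Subsingleton.elim _ _
  have hle : (⊤ : Submodule K W) ≤ LinearMap.ker ((g - 1) * (g - 1)) := by
    rw [← htop]
    refine iSup_le fun μ => ?_
    intro v hv
    have hU : ∀ u ∈ f.eigenspace μ, (g - 1) u ∈ f.eigenspace μ := by
      intro u hu
      rw [Module.End.mem_eigenspace_iff] at hu ⊢
      rw [LinearMap.sub_apply, map_sub, Module.End.one_apply, hu, ← Module.End.mul_apply, hfg.eq,
        Module.End.mul_apply, hu, map_smul, smul_sub]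
    let h : End K ↥(f.eigenspace μ) := (g - 1).restrict hU
    have hh : ∀ (j : ℕ) (u : ↥(f.eigenspace μ)), ((h ^ j) u : W) = ((g - 1) ^ j) u := by
      intro j u
      induction j generalizing u with
      | zero => simp
      | succ j ih =>
        rw [pow_succ, Module.End.mul_apply, ih, pow_succ, Module.End.mul_apply]
        rfl
    have h0 : h ^ p ^ n = 0 := by
      ext u
      rw [hh, hnil]
      rfl
    have h1 := Module.End.ker_pow_le_ker_pow_finrank h (p ^ n)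
    rw [h0, LinearMap.ker_zero, top_le_iff, LinearMap.ker_eq_top] at h1
    have h2 : h ^ 2 = 0 := pow_eq_zero_of_le (hdim μ) h1
    have h3 := hh 2 ⟨v, hv⟩
    rw [h2] at h3
    have h4 : ((g - 1) ^ 2 : End K W) v = 0 := by
      rw [← h3]
      rfl
    rw [LinearMap.mem_ker, ← pow_two]
    exact h4
  have h5 := top_le_iff.mp hle
  exact LinearMap.ker_eq_top.mp h5

end Quad

section Common

open TensorProduct

variable {Γ : Type*} [Group Γ] [Finite Γ] {p : ℕ} [hpf : Fact p.Prime] {M : Type*} [AddCommGroup M] [Module (ZMod p) M]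
  [FiniteDimensional (ZMod p) M]

/-- `quad_of_eigen` on an invariant subspace. -/
theorem quad_on_submodule {K V : Type*} [Field K] [IsAlgClosed K] [AddCommGroup V] [Module K V] [FiniteDimensional K V]
    [CharP K p] (W : Submodule K V) (f g : End K V) (hfW : ∀ w ∈ W, f w ∈ W) (hgW : ∀ w ∈ W, g w ∈ W) {r : ℕ}
    (hr : (r : K) ≠ 0) (hf : f ^ r = 1) (hfg : f * g = g * f) (n : ℕ) (hg : g ^ p ^ n = 1)
    (hdim : ∀ μ, finrank K ↥(W ⊓ f.eigenspace μ) ≤ 2) :
    ∀ w ∈ W, (g - 1) ((g - 1) w) = 0 := by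
  intro w hw
  let f₂ : End K ↥W := f.restrict hfW
  let g₂ : End K ↥W := g.restrict hgW
  have hf₂ : ∀ (k : ℕ) (v : ↥W), (((f₂ ^ k) v : ↥W) : V) = (f ^ k) v := by
    intro k v
    induction k generalizing v with
    | zero => rfl
    | succ k ih =>
      rw [pow_succ, pow_succ, Module.End.mul_apply, Module.End.mul_apply, ih]
      rfl
  have hg₂ : ∀ (k : ℕ) (v : ↥W), (((g₂ ^ k) v : ↥W) : V) = (g ^ k) v := by
    intro k v
    induction k generalizing v with
    | zero => rfl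
    | succ k ih =>
      rw [pow_succ, pow_succ, Module.End.mul_apply, Module.End.mul_apply, ih]
      rfl
  have hfr : f₂ ^ r = 1 := by
    ext v
    rw [hf₂, hf]
    rfl
  have hcomm₂ : Commute f₂ g₂ := by
    ext v
    change f (g v) = g (f v)
    exact LinearMap.congr_fun hfg (v : V)
  have hgn : g₂ ^ p ^ n = 1 := by
    ext v
    rw [hg₂, hg]
    rfl
  have hdim₂ : ∀ μ, finrank K (f₂.eigenspace μ) ≤ 2 := by
    intro μ
    have hEq : (f₂.eigenspace μ).map W.subtype ≤ W ⊓ f.eigenspace μ := by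
      rintro _ ⟨v, hv, rfl⟩
      refine ⟨v.2, ?_⟩
      rw [SetLike.mem_coe] at hv
      change (v : V) ∈ f.eigenspace μ
      rw [Module.End.mem_eigenspace_iff]
      exact congrArg Subtype.val (Module.End.mem_eigenspace_iff.mp hv)
    have h1 := Submodule.finrank_mono hEq
    rw [Submodule.finrank_map_subtype_eq] at h1
    exact h1.trans (hdim μ)
  have hquad := quad_of_eigen (p := p) f₂ g₂ hr hfr hcomm₂ n hgn hdim₂
  have h2 := congrArg (fun F : End K ↥W => ((F ⟨w, hw⟩ : ↥W) : V)) hquad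
  exact h2

/-- The standing hypotheses of the main lemma. -/
structure BG3Data (ρ : Γ →* End (ZMod p) M) (T : Subgroup Γ) (x : Γ) (r : ℕ) : Prop where
  hr : r.Prime
  hxr : x ^ r = 1
  hx1 : x ≠ 1
  hrp : r ≠ p
  hfaith : ∀ a ∈ T, ρ a = 1 → a = 1
  hfx : finrank (ZMod p) (fx ρ (zpowers x)) ≤ 1
  hZ : IsZGroup ↥(T ⊓ centralizer ({x} : Set Γ))

/-- The algebraic closure of the prime field. -/
abbrev KK (p : ℕ) [Fact p.Prime] : Type := AlgebraicClosure (ZMod p)

/-- The scalar extension. -/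
noncomputable abbrev rhoC (ρ : Γ →* End (ZMod p) M) : Γ →* End (KK p) (KK p ⊗[ZMod p] M) := rhoK (KK p) ρ

theorem cast_ne_KK {n : ℕ} (hn : ¬ p ∣ n) : (n : KK p) ≠ 0 := by
  intro h0
  apply hn
  rw [← ZMod.natCast_eq_zero_iff]
  have h2 : algebraMap (ZMod p) (KK p) (n : ZMod p) = 0 := by
    rw [map_natCast]
    exact h0
  exact (map_eq_zero _).mp h2

theorem rho_eq_of_rhoC (ρ : Γ →* End (ZMod p) M) {g g' : Γ} (h : rhoC ρ g = rhoC ρ g') : ρ g = ρ g' := by
  have h1 : rhoC ρ (g * g'⁻¹) = 1 := by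
    rw [map_mul, h, ← map_mul, mul_inv_cancel, map_one]
  have h2 : ρ (g * g'⁻¹) = 1 := eq_one_of_baseChange (KK p) _ h1
  have h3 : ρ g = ρ (g * g'⁻¹) * ρ g' := by rw [← map_mul, inv_mul_cancel_right]
  rw [h3, h2, one_mul]

variable {ρ : Γ →* End (ZMod p) M} {T : Subgroup Γ} {x : Γ} {r : ℕ}

namespace BG3Data

variable (D : BG3Data ρ T x r)
include D

theorem not_dvd_r : ¬ p ∣ r := fun h => D.hrp ((Nat.prime_dvd_prime_iff_eq hpf.out D.hr).mp h).symm

theorem card_zpowers : Nat.card (zpowers x) = r := by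
  haveI : Fact r.Prime := ⟨D.hr⟩
  rw [Nat.card_zpowers]
  exact orderOf_eq_prime D.hxr D.hx1

theorem hfxK : finrank (KK p) (fx (rhoC ρ) (zpowers x)) ≤ 1 := by
  rw [finrank_fx_baseChange (KK p) ρ (zpowers x)]
  · exact D.hfx
  · rw [D.card_zpowers, Ne, ZMod.natCast_eq_zero_iff]
    exact D.not_dvd_r

/-- `x` centralizes `Z`. -/
theorem x_fix_Z {q : ℕ} [hqf : Fact q.Prime] {Y S Q : Subgroup Γ} (h : MinNC q Y S Q) (hxY : x ∈ Y) (hQT : Q ≤ T)
    (hqp : q ≠ p) : ∀ z ∈ MinNC.D Q S, x * z * x⁻¹ = z := by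
  intro z hz
  have hnd : ¬ p ∣ Nat.card ↥(MinNC.D Q S) := by
    intro hd
    have h1 : IsPGroup q ↥(MinNC.D Q S) := h.hq.to_le h.D_le
    obtain ⟨k, hk⟩ := IsPGroup.iff_card.mp h1
    rw [hk] at hd
    exact hqp ((Nat.prime_dvd_prime_iff_eq hpf.out hqf.out).mp (hpf.out.dvd_of_dvd_pow hd)).symm
  have h1 := x_centralizes_Z (rhoC ρ) Q (MinNC.D Q S) (fun a ha b hb => h.D_comm ha hb.1)
    (fun a ha z hz => (h.D_comm hz ha).symm) h.D_eq.le x (h.D_norm hxY) (cast_ne_KK hnd) D.hr D.hxr D.hfxK z hz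
  have h2 := rho_eq_of_rhoC ρ h1
  have hxQ : x * z * x⁻¹ ∈ Q := (Subgroup.mem_normalizer_iff.mp (h.hQn hxY) z).mp hz.1
  have h3 : ρ (x * z * x⁻¹ * z⁻¹) = 1 := by
    rw [map_mul, h2, ← map_mul, mul_inv_cancel, map_one]
  have h4 := D.hfaith _ (hQT (mul_mem hxQ (inv_mem hz.1))) h3
  exact mul_inv_eq_one.mp h4

end BG3Data

/-- A `q`-subgroup of a Z-group is cyclic. -/
theorem isCyclic_of_le_zgroup {X : Type*} [Group X] {B A : Subgroup X} {q : ℕ} [Fact q.Prime] [IsZGroup ↥A] (hBA : B ≤ A)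
    (hB : IsPGroup q B) : IsCyclic ↥B := by
  have hP : IsPGroup q ↥(B.subgroupOf A) := hB.comap_of_injective _ A.subtype_injective
  haveI : IsCyclic ↥(B.subgroupOf A) := hP.isCyclic_of_isZGroup
  exact isCyclic_of_surjective (Subgroup.subgroupOfEquivOfLe hBA) (Subgroup.subgroupOfEquivOfLe hBA).surjective

namespace MinNC

variable {q : ℕ} [hqf : Fact q.Prime] {X : Type*} [Group X] [Finite X] {Y S Q : Subgroup X} (h : MinNC q Y S Q)

include h

/-- Class two: commutators are multiplicative in the first variable. -/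
theorem comm_pow {a b : X} (ha : a ∈ Q) (hb : b ∈ Q) (n : ℕ) : ⁅a ^ n, b⁆ = ⁅a, b⁆ ^ n := by
  induction n with
  | zero => simp
  | succ n ih =>
    have h1 : ⁅a ^ n, b⁆ * a⁻¹ = a⁻¹ * ⁅a ^ n, b⁆ := h.D_comm (h.comm_mem (pow_mem ha n) hb) (inv_mem ha)
    have h2 : ⁅a ^ (n + 1), b⁆ = ⁅a ^ n, b⁆ * ⁅a, b⁆ := by
      have h3 : ⁅a ^ (n + 1), b⁆ = a * (⁅a ^ n, b⁆ * a⁻¹) * ⁅a, b⁆ := by
        simp only [commutatorElement_def, pow_succ']
        group
      rw [h3, h1]
      group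
    rw [h2, ih, pow_succ]

/-- Class two: commutators are multiplicative in the second variable. -/
theorem comm_mul_right {c b b' : X} (hc : c ∈ Q) (hb : b ∈ Q) (hb' : b' ∈ Q) : ⁅c, b * b'⁆ = ⁅c, b⁆ * ⁅c, b'⁆ := by
  have h1 : b * ⁅c, b'⁆ = ⁅c, b'⁆ * b := (h.D_comm (h.comm_mem hc hb') hb).symm
  have h2 : ⁅c, b * b'⁆ = ⁅c, b⁆ * (b * ⁅c, b'⁆) * b⁻¹ := by
    simp only [commutatorElement_def]
    group
  rw [h2, h1]
  group

theorem comm_inv_right {c b : X} (hc : c ∈ Q) (hb : b ∈ Q) : ⁅c, b⁻¹⁆ = ⁅c, b⁆⁻¹ := by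
  have h1 := h.comm_mul_right hc hb (inv_mem hb)
  rw [mul_inv_cancel, commutatorElement_one_right] at h1
  exact (eq_inv_of_mul_eq_one_right h1.symm)

/-- `Z` has exponent `q`. -/
theorem pow_q_eq_one {z : X} (hz : z ∈ D Q S) : z ^ q = 1 := by
  let E1 : Subgroup X :=
    { carrier := {z | z ∈ D Q S ∧ z ^ q = 1}
      one_mem' := ⟨one_mem _, one_pow _⟩
      mul_mem' := by
        rintro a b ⟨ha, ha2⟩ ⟨hb, hb2⟩
        refine ⟨mul_mem ha hb, ?_⟩
        have hc : Commute a b := h.D_comm ha hb.1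
        rw [hc.mul_pow, ha2, hb2, one_mul]
      inv_mem' := by
        rintro a ⟨ha, ha2⟩
        exact ⟨inv_mem ha, by rw [inv_pow, ha2, inv_one]⟩ }
  have hle : ⁅Q, Q⁆ ≤ E1 := by
    rw [Subgroup.commutator_le]
    intro a ha b hb
    refine ⟨h.comm_mem ha hb, ?_⟩
    rw [← h.comm_pow ha hb]
    have h1 := Subgroup.commutator_mem_commutator hb (h.pow_mem_D ha)
    rw [h.D_central, Subgroup.mem_bot] at h1
    have h2 : Commute (a ^ q) b := ((commutatorElement_eq_one_iff_commute.mp h1)).symm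
    exact commutatorElement_eq_one_iff_commute.mpr h2
  rw [h.D_eq] at hz
  exact (hle hz).2

/-- The order of a nontrivial cyclic `Z`. -/
theorem card_D_of_cyclic (hc : IsCyclic ↥(D Q S)) (hne : D Q S ≠ ⊥) : Nat.card ↥(D Q S) = q := by
  obtain ⟨g, hg⟩ := hc.exists_generator
  have h1 : orderOf g = Nat.card ↥(D Q S) := orderOf_eq_card_of_forall_mem_zpowers hg
  have h2 : orderOf g ∣ q := orderOf_dvd_of_pow_eq_one (Subtype.ext (h.pow_q_eq_one g.2))
  rcases (Nat.dvd_prime hqf.out).mp h2 with h3 | h3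
  · exfalso
    apply hne
    rw [h3] at h1
    exact Subgroup.eq_bot_of_card_eq _ h1.symm
  · rw [← h1, h3]

theorem center_le_D (hne : ⁅Q, Q⁆ ≠ ⊥) : Q ⊓ centralizer (Q : Set X) ≤ D Q S := by
  refine h.le_D (B := Q ⊓ centralizer (Q : Set X)) inf_le_left
    (fun y hy => normalizer_inf (h.hQn hy) (normalizer_centralizer (h.hQn hy))) ?_
  intro hB
  apply hne
  rw [Subgroup.commutator_eq_bot_iff_le_centralizer]
  exact inf_eq_left.mp hB

end MinNC

namespace BG3Data

variable (D : BG3Data ρ T x r)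
include D

variable {q : ℕ} [hqf : Fact q.Prime] {Y S Q : Subgroup Γ} (h : MinNC q Y S Q)

include h

theorem card_D (hQT : Q ≤ T) (hxY : x ∈ Y) (hqp : q ≠ p) (hne : ⁅Q, Q⁆ ≠ ⊥) : Nat.card ↥(MinNC.D Q S) = q := by
  haveI := D.hZ
  have hle : MinNC.D Q S ≤ T ⊓ centralizer ({x} : Set Γ) := by
    refine le_inf (h.D_le.trans hQT) ?_
    intro z hz
    rw [Subgroup.mem_centralizer_singleton_iff]
    have h1 := D.x_fix_Z h hxY hQT hqp z hz
    calc z * x = (x * z * x⁻¹) * x := by rw [h1]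
      _ = x * z := by group
  refine h.card_D_of_cyclic (isCyclic_of_le_zgroup hle (h.hq.to_le h.D_le)) ?_
  rw [h.D_eq]
  exact hne

/-- `C_Q(x) ≤ Z`. -/
theorem centralizer_le_D (hQT : Q ≤ T) (hxY : x ∈ Y) (hqp : q ≠ p) (hqr : q ≠ r) (hne : ⁅Q, Q⁆ ≠ ⊥) {c : Γ} (hc : c ∈ Q)
    (hcx : x * c = c * x) : c ∈ MinNC.D Q S := by
  classical
  haveI := D.hZ
  have hfixZ := D.x_fix_Z h hxY hQT hqp
  have hcardx := D.card_zpowers
  have hact : Cfsg.Agent.Lib.Coprime.CoprimeAction (zpowers x) Q := by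
    refine ⟨Subgroup.zpowers_le.mpr (h.hQn hxY), ?_, Or.inr h.solv⟩
    rw [hcardx]
    obtain ⟨k, hk⟩ := IsPGroup.iff_card.mp h.hq
    rw [hk]
    exact Nat.Coprime.pow_right _ ((Nat.coprime_primes D.hr hqf.out).mpr hqr.symm)
  have hsup := hact.commutator_sup_centralizer
  -- elements of `zpowers x` fix `c` and `Z`
  have ht : ∀ t ∈ zpowers x, t * c = c * t ∧ ∀ z ∈ MinNC.D Q S, t * z * t⁻¹ = z := by
    intro t ht
    obtain ⟨n, rfl⟩ := exists_pow_of_mem_zpowers ht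
    constructor
    · exact ((show Commute x c from hcx).pow_left n).eq
    · intro z hz
      have h1 : x ^ n * z = z * x ^ n := by
        have h2 : Commute x z := by
          change x * z = z * x
          calc x * z = (x * z * x⁻¹) * x := by group
            _ = z * x := by rw [hfixZ z hz]
        exact (h2.pow_left n).eq
      rw [h1]
      group
  have hC : Q ≤ centralizer ({c} : Set Γ) := by
    rw [← hsup]
    refine sup_le ?_ ?_
    · rw [Subgroup.commutator_le]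
      intro b hb t ht'
      rw [Subgroup.mem_centralizer_singleton_iff]
      obtain ⟨htc, htZ⟩ := ht t ht'
      have hb' : t * b⁻¹ * t⁻¹ ∈ Q :=
        (Subgroup.mem_normalizer_iff.mp ((Subgroup.zpowers_le.mpr (h.hQn hxY)) ht') _).mp (inv_mem hb)
      have h1 : ⁅b, t⁆ = b * (t * b⁻¹ * t⁻¹) := by
        rw [commutatorElement_def]
        group
      have h2 : ⁅c, t * b⁻¹ * t⁻¹⁆ = ⁅c, b⁻¹⁆ := by
        have h3 : ⁅c, t * b⁻¹ * t⁻¹⁆ = t * ⁅c, b⁻¹⁆ * t⁻¹ := by
          simp only [commutatorElement_def]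
          have h4 : c = t⁻¹ * c * t := by
            rw [mul_assoc, ← htc]
            group
          calc c * (t * b⁻¹ * t⁻¹) * c⁻¹ * (t * b⁻¹ * t⁻¹)⁻¹ = (c * t) * b⁻¹ * (t⁻¹ * c⁻¹) * t * b⁻¹⁻¹ * t⁻¹ := by group
            _ = (t * c) * b⁻¹ * (t⁻¹ * c⁻¹) * t * b⁻¹⁻¹ * t⁻¹ := by rw [htc]
            _ = (t * c) * b⁻¹ * (c * t)⁻¹ * t * b⁻¹⁻¹ * t⁻¹ := by group
            _ = (t * c) * b⁻¹ * (t * c)⁻¹ * t * b⁻¹⁻¹ * t⁻¹ := by rw [htc]
            _ = _ := by group
        rw [h3, htZ _ (h.comm_mem hc (inv_mem hb))]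
      have h5 : ⁅c, b * (t * b⁻¹ * t⁻¹)⁆ = 1 := by
        rw [h.comm_mul_right hc hb hb', h2, h.comm_inv_right hc hb, mul_inv_cancel]
      rw [h1]
      exact (commutatorElement_eq_one_iff_mul_comm.mp h5).symm
    · intro d hd
      rw [Subgroup.mem_centralizer_singleton_iff]
      -- `C_Q(x)` is cyclic
      let B : Subgroup Γ := Q ⊓ centralizer ({x} : Set Γ)
      have hBT : B ≤ T ⊓ centralizer ({x} : Set Γ) := inf_le_inf_right _ hQT
      have hcyc : IsCyclic ↥B := isCyclic_of_le_zgroup hBT (h.hq.to_le inf_le_left)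
      have hdB : d ∈ B := ⟨hd.1, Subgroup.mem_centralizer_singleton_iff.mpr
        ((Subgroup.mem_centralizer_iff.mp hd.2 x (mem_zpowers x)).symm)⟩
      have hcB : c ∈ B := ⟨hc, Subgroup.mem_centralizer_singleton_iff.mpr hcx.symm⟩
      have : (⟨d, hdB⟩ : ↥B) * ⟨c, hcB⟩ = ⟨c, hcB⟩ * ⟨d, hdB⟩ := by
        letI := IsCyclic.commGroup (α := ↥B)
        exact mul_comm _ _
      exact congrArg Subtype.val this
  refine h.center_le_D hne (Subgroup.mem_inf.mpr ⟨hc, Subgroup.mem_centralizer_iff.mpr ?_⟩)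
  intro b hb
  exact (Subgroup.mem_centralizer_singleton_iff.mp (hC hb))

/-- `x` has no fixed points on `Q / Z`. -/
theorem fpf_x (hQT : Q ≤ T) (hxY : x ∈ Y) (hqp : q ≠ p) (hqr : q ≠ r) (hne : ⁅Q, Q⁆ ≠ ⊥) {a : Γ} (ha : a ∈ Q)
    (hc : x * a * x⁻¹ * a⁻¹ ∈ MinNC.D Q S) : a ∈ MinNC.D Q S := by
  have hcardx := D.card_zpowers
  have hxZ := h.D_norm hxY
  have h1 : a * x * a⁻¹ * x⁻¹ ∈ MinNC.D Q S := by
    have h2 := inv_mem hc
    have h3 : (x * a * x⁻¹ * a⁻¹)⁻¹ = a * x * a⁻¹ * x⁻¹ := by group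
    rwa [h3] at h2
  have hcop : Nat.Coprime (Nat.card ↥(MinNC.D Q S)) (Nat.card (zpowers x)) := by
    rw [hcardx]
    obtain ⟨k, hk⟩ := IsPGroup.iff_card.mp (h.hq.to_le h.D_le)
    rw [hk]
    exact Nat.Coprime.pow_left _ ((Nat.coprime_primes hqf.out D.hr).mpr hqr)
  have hs : Group.IsSolvable ↥(MinNC.D Q S) := by
    haveI := (h.hq.to_le h.D_le : IsPGroup q ↥(MinNC.D Q S)).isNilpotent
    infer_instance
  obtain ⟨n, hn, hnc⟩ := Cfsg.Agent.Lib.OddLocal.exists_mul_mem_centralizer (Subgroup.zpowers_le.mpr hxZ) hcop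
    (Or.inl hs) a (comm_zpowers_mem hxZ h1)
  have h2 : n * a ∈ MinNC.D Q S := by
    refine D.centralizer_le_D h hQT hxY hqp hqr hne (mul_mem hn.1 ha) ?_
    exact (Subgroup.mem_centralizer_iff.mp hnc x (mem_zpowers x))
  have h3 : a = n⁻¹ * (n * a) := by group
  rw [h3]
  exact mul_mem (inv_mem hn) h2

end BG3Data

end Common

section TStarComm

variable {F : Type*} [Group F] [Finite F]

/-- `T*`, group form, with the commutator subgroup. -/
theorem tstar_group_comm {q r : ℕ} [hqf : Fact q.Prime] (hq2 : Odd q)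
    (hr : r.Prime) (hqr : q ≠ r) (S : Subgroup F) (hS : IsPGroup q S) (x : F) (hxr : x ^ r = 1)
    (hxS : x ∈ normalizer (S : Set F)) (P : Type*) [Group P] [Finite P] (α : F →* MulAut P) (hP : Group.IsSolvable P)
    (hcop : Nat.Coprime (Nat.card P) (Nat.card F)) (hfix : fixOf α (zpowers x) = ⊥) : ⁅S, zpowers x⁆ ≤ α.ker := by
  rw [Subgroup.commutator_le]
  intro s hs t ht
  by_cases ht1 : t = 1
  · rw [ht1]
    simp [one_mem]
  have hxt : x ∈ zpowers t := mem_zpowers_of_ne_one hr hxr ht ht1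
  have hle : zpowers x ≤ zpowers t := Subgroup.zpowers_le.mpr hxt
  have htr : t ^ r = 1 := by
    obtain ⟨n, rfl⟩ := exists_pow_of_mem_zpowers ht
    rw [← pow_mul, mul_comm, pow_mul, hxr, one_pow]
  have htS : t ∈ normalizer (S : Set F) := (Subgroup.zpowers_le.mpr hxS) ht
  have hfix' : fixOf α (zpowers t) = ⊥ := by
    rw [Subgroup.eq_bot_iff_forall]
    intro a ha
    have h1 : a ∈ fixOf α (zpowers x) := fun y hy => ha y (hle hy)
    rw [hfix, Subgroup.mem_bot] at h1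
    exact h1
  have hmain := tstar_group hq2 hr hqr S hS t htr htS (Nat.card P) P rfl α hP hcop hfix' s hs
  have h1 : α (t * s * t⁻¹ * s⁻¹) = 1 := by
    ext a
    exact hmain a
  rw [MonoidHom.mem_ker]
  have h2 : ⁅s, t⁆ = (t * s * t⁻¹ * s⁻¹)⁻¹ := by
    rw [commutatorElement_def]
    group
  rw [h2, map_inv, h1, inv_one]

end TStarComm

section ClaimsN

open TensorProduct

variable {Γ : Type*} [Group Γ] [Finite Γ] {p : ℕ} [hpf : Fact p.Prime] {M : Type*} [AddCommGroup M] [Module (ZMod p) M]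
  [FiniteDimensional (ZMod p) M] {ρ : Γ →* End (ZMod p) M} {T : Subgroup Γ} {x : Γ} {r : ℕ}

namespace BG3Data

variable (D : BG3Data ρ T x r) {q : ℕ} [hqf : Fact q.Prime] {Y S Q : Subgroup Γ} (h : MinNC q Y S Q)

include D h

/-- **Claim A, nonabelian case.** -/
theorem claimA_nonabelian (hQT : Q ≤ T) (hxY : x ∈ Y) (hqp : q ≠ p) (hqr : q ≠ r) (hp2 : Odd p) (hpr : p ≠ r)
    (hne : ⁅Q, Q⁆ ≠ ⊥) (hS : IsPGroup p S) (hxS : x ∈ normalizer (S : Set Γ)) (hcomm : ⁅S, zpowers x⁆ = S) : False := by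
  classical
  set Z : Subgroup Γ := MinNC.D Q S with hZ
  set W : Subgroup Γ := S ⊔ zpowers x with hW
  have hWY : W ≤ Y := sup_le h.hSY (Subgroup.zpowers_le.mpr hxY)
  have hHn : ∀ y ∈ W, ∀ a ∈ Q, y * a * y⁻¹ ∈ Q := fun y hy a ha =>
    (Subgroup.mem_normalizer_iff.mp (h.hQn (hWY hy)) a).mp ha
  let α₀ : ↥W →* MulAut ↥Q := conjOn W Q hHn
  let Z' : Subgroup ↥Q := Z.subgroupOf Q
  haveI hZ'n : Z'.Normal := by
    constructor
    intro n hn g
    rw [Subgroup.mem_subgroupOf] at hn ⊢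
    have h1 : (g : Γ) * n * (g : Γ)⁻¹ = n := by
      rw [← h.D_comm hn g.2]
      group
    change (g : Γ) * n * (g : Γ)⁻¹ ∈ Z
    rw [h1]
    exact hn
  have hZinv : ∀ g : ↥W, ∀ n ∈ Z', α₀ g n ∈ Z' := by
    intro g n hn
    rw [Subgroup.mem_subgroupOf] at hn ⊢
    exact (Subgroup.mem_normalizer_iff.mp (h.D_norm (hWY g.2)) n).mp hn
  let α : ↥W →* MulAut (↥Q ⧸ Z') := quotAct α₀ Z' hZinv
  let S' : Subgroup ↥W := S.subgroupOf W
  let x' : ↥W := ⟨x, (le_sup_right : zpowers x ≤ W) (mem_zpowers x)⟩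
  have hSW : S ≤ W := le_sup_left
  have hxW : zpowers x ≤ W := le_sup_right
  have hS'map : S'.map W.subtype = S := Subgroup.map_subgroupOf_eq_of_le hSW
  have hzmap : (zpowers x').map W.subtype = zpowers x := by
    rw [MonoidHom.map_zpowers]
    rfl
  have hcS' : ⁅S', zpowers x'⁆ = S' := by
    apply Subgroup.map_injective W.subtype_injective
    rw [Subgroup.map_commutator, hS'map, hzmap, hcomm]
  have hS'p : IsPGroup p S' := hS.comap_of_injective _ W.subtype_injective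
  have hxS' : x' ∈ normalizer (S' : Set ↥W) := by
    rw [Subgroup.mem_normalizer_iff]
    intro a
    simp only [SetLike.mem_coe, S', Subgroup.mem_subgroupOf]
    exact Subgroup.mem_normalizer_iff.mp hxS a
  have hP : Group.IsSolvable (↥Q ⧸ Z') := by
    haveI := h.solv
    infer_instance
  have hcop : Nat.Coprime (Nat.card (↥Q ⧸ Z')) (Nat.card ↥W) := by
    obtain ⟨k, hk⟩ := IsPGroup.iff_card.mp h.hq
    obtain ⟨l, hl⟩ := IsPGroup.iff_card.mp hS
    have h1 : Nat.card (↥Q ⧸ Z') ∣ q ^ k := by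
      rw [← hk, Subgroup.card_eq_card_quotient_mul_card_subgroup Z']
      exact Dvd.intro _ rfl
    have h2 : Nat.card ↥W ∣ p ^ l * r := by
      have h3 := card_sup_dvd_of_le_normalizer S (zpowers x) (Subgroup.zpowers_le.mpr hxS)
      rwa [hl, D.card_zpowers] at h3
    refine Nat.Coprime.coprime_dvd_left h1 (Nat.Coprime.coprime_dvd_right h2 ?_)
    refine Nat.Coprime.pow_left _ (Nat.Coprime.mul_right ?_ ?_)
    · exact Nat.Coprime.pow_right _ ((Nat.coprime_primes hqf.out hpf.out).mpr hqp)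
    · exact (Nat.coprime_primes hqf.out D.hr).mpr hqr
  have hfix : fixOf α (zpowers x') = ⊥ := by
    rw [Subgroup.eq_bot_iff_forall]
    intro z hz
    induction z using QuotientGroup.induction_on with
    | H a =>
      have h1 : α x' (a : ↥Q ⧸ Z') = (a : ↥Q ⧸ Z') := hz x' (mem_zpowers x')
      rw [show α x' (a : ↥Q ⧸ Z') = ((α₀ x' a : ↥Q) : ↥Q ⧸ Z') from rfl] at h1
      have h2 := QuotientGroup.eq.mp h1.symm
      rw [Subgroup.mem_subgroupOf] at h2
      have h3 : (a : Γ)⁻¹ * (x * a * x⁻¹) ∈ Z := h2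
      have h4 : x * a * x⁻¹ * (a : Γ)⁻¹ ∈ Z := by
        have h5 : x * a * x⁻¹ * (a : Γ)⁻¹ = a * ((a : Γ)⁻¹ * (x * a * x⁻¹)) * (a : Γ)⁻¹ := by group
        rw [h5, ← h.D_comm h3 a.2]
        simpa using h3
      have h6 := D.fpf_x h hQT hxY hqp hqr hne a.2 h4
      exact (QuotientGroup.eq_one_iff a).mpr (Subgroup.mem_subgroupOf.mpr h6)
  have hker := tstar_group_comm hp2 D.hr hpr S' hS'p x' (Subtype.ext D.hxr) hxS' (↥Q ⧸ Z') α hP hcop hfix
  rw [hcS'] at hker
  -- so `[Q, S] ≤ Z`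
  have hle : ⁅Q, S⁆ ≤ Z := by
    rw [Subgroup.commutator_le]
    intro a ha s hs
    have hs' : (⟨s, hSW hs⟩ : ↥W) ∈ S' := Subgroup.mem_subgroupOf.mpr hs
    have h1 : α ⟨s, hSW hs⟩ = 1 := hker hs'
    have h2 : α ⟨s, hSW hs⟩ ((⟨a⁻¹, inv_mem ha⟩ : ↥Q) : ↥Q ⧸ Z') = ((⟨a⁻¹, inv_mem ha⟩ : ↥Q) : ↥Q ⧸ Z') := by
      rw [h1]
      rfl
    rw [show α ⟨s, hSW hs⟩ ((⟨a⁻¹, inv_mem ha⟩ : ↥Q) : ↥Q ⧸ Z') =
      ((α₀ ⟨s, hSW hs⟩ ⟨a⁻¹, inv_mem ha⟩ : ↥Q) : ↥Q ⧸ Z') from rfl] at h2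
    have h3 := QuotientGroup.eq.mp h2.symm
    rw [Subgroup.mem_subgroupOf] at h3
    have h4 : (a⁻¹)⁻¹ * (s * a⁻¹ * s⁻¹) ∈ Z := h3
    rw [inv_inv] at h4
    rw [commutatorElement_def]
    have h5 : a * s * a⁻¹ * s⁻¹ = a * (s * a⁻¹ * s⁻¹) := by group
    rw [h5]
    exact h4
  rw [h.commutator_eq] at hle
  exact h.D_ne (le_antisymm h.D_le hle)

/-- **Claim B, nonabelian case.** -/
theorem claimB_nonabelian (hodd : Odd (Nat.card Γ)) (hQT : Q ≤ T) (hxY : x ∈ Y) (hqp : q ≠ p) (hqr : q ≠ r)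
    (hq2 : Odd q) (hp2 : p ≠ 2)
    (hne : ⁅Q, Q⁆ ≠ ⊥) (hS : IsPGroup p S) (hxS : ∀ s ∈ S, s * x = x * s) : False := by
  classical
  set Z : Subgroup Γ := MinNC.D Q S with hZ
  have hZne : Z ≠ ⊥ := by
    rw [hZ, h.D_eq]
    exact hne
  have hcardZ : Nat.card ↥Z = q := D.card_D h hQT hxY hqp hne
  have hfixZ := D.x_fix_Z h hxY hQT hqp
  obtain ⟨kQ, hkQ⟩ := IsPGroup.iff_card.mp h.hq
  have hp_q : ¬ p ∣ q := fun hd => hqp ((Nat.prime_dvd_prime_iff_eq hpf.out hqf.out).mp hd).symm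
  have hnZ : ¬ p ∣ Nat.card ↥Z := by rw [hcardZ]; exact hp_q
  -- the eigenspaces
  let σ : ↥Z →* End (KK p) (KK p ⊗[ZMod p] M) := (rhoC ρ).comp Z.subtype
  have hσ : ∀ z : ↥Z, σ z = rhoC ρ z := fun _ => rfl
  have hcommσ : ∀ n n', σ n * σ n' = σ n' * σ n := by
    intro n n'
    rw [← map_mul, ← map_mul]
    congr 1
    exact Subtype.ext (h.D_comm n.2 n'.2.1)
  obtain ⟨-, htop⟩ := simEig_indep σ hcommσ (cast_ne_KK hnZ)
  have hCinv : ∀ (χ : ↥Z → KK p), ∀ g ∈ centralizer (Z : Set Γ), ∀ w ∈ simEig σ χ, rhoC ρ g w ∈ simEig σ χ := by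
    intro χ g hg w hw
    rw [mem_simEig]
    intro z
    have h1 := mem_simEig.mp hw z
    rw [hσ, ← Module.End.mul_apply, ← map_mul, (Subgroup.mem_centralizer_iff.mp hg z z.2), map_mul, Module.End.mul_apply,
      ← hσ, h1, map_smul]
  -- step 1: quadratic on the nontrivial eigenspaces
  have hstep1 : ∀ χ : ↥Z → KK p, simEig σ χ ≠ ⊥ → (∃ z, χ z ≠ 1) → ∀ y ∈ S, ∀ w ∈ simEig σ χ,
      (rhoC ρ y - 1) ((rhoC ρ y - 1) w) = 0 := by
    intro χ hχ0 hχ1 y hy w hw
    set W := simEig σ χ with hW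
    obtain ⟨n, hn⟩ := hS ⟨y, hy⟩
    have hyn : y ^ p ^ n = 1 := by
      have := congrArg Subtype.val hn
      simpa using this
    let χh : ↥Z →* KK p :=
      { toFun := χ
        map_one' := chi_one hχ0
        map_mul' := chi_mul hχ0 }
    have hinjχ : ∀ z : ↥Z, χ z = 1 → z = 1 := by
      intro z hz
      by_contra hz1
      obtain ⟨z₀, hz₀⟩ := hχ1
      obtain ⟨i, hi⟩ := mem_zpowers_of_prime_card hcardZ hz1 (g' := z₀)
      have h1 : χh z₀ = 1 := by
        rw [← hi]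
        change χh (z ^ i) = 1
        rw [map_zpow]
        have h2 : χh z = 1 := hz
        rw [h2, one_zpow]
      exact hz₀ h1
    have hnd : ∀ a ∈ Q, (∀ b ∈ Q, ∀ w ∈ W, rhoC ρ ⁅a, b⁆ w = w) → a ∈ Z := by
      intro a ha hab
      refine h.center_le_D hne (Subgroup.mem_inf.mpr ⟨ha, Subgroup.mem_centralizer_iff.mpr fun b hb => ?_⟩)
      obtain ⟨w₀, hw₀, hw₀0⟩ := Submodule.exists_mem_ne_zero_of_ne_bot hχ0
      have hc : ⁅a, b⁆ ∈ Z := h.comm_mem ha hb
      have h1 := hab b hb w₀ hw₀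
      have h2 := mem_simEig.mp hw₀ ⟨⁅a, b⁆, hc⟩
      have h3 : rhoC ρ ⁅a, b⁆ w₀ = χ ⟨⁅a, b⁆, hc⟩ • w₀ := h2
      rw [h1] at h3
      have h4 : (1 : KK p) • w₀ = χ ⟨⁅a, b⁆, hc⟩ • w₀ := by rw [one_smul]; exact h3
      have h5 := (smul_left_injective (KK p) hw₀0 h4).symm
      have h6 := hinjχ ⟨⁅a, b⁆, hc⟩ h5
      have h7 : ⁅a, b⁆ = 1 := congrArg Subtype.val h6
      exact (commutatorElement_eq_one_iff_mul_comm.mp h7).symm
    have hleC : Q ⊔ zpowers x ≤ centralizer (Z : Set Γ) := by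
      refine sup_le ?_ ?_
      · intro a ha
        rw [Subgroup.mem_centralizer_iff]
        intro b hb
        exact h.D_comm hb ha
      · rw [Subgroup.zpowers_le, Subgroup.mem_centralizer_iff]
        intro b hb
        calc b * x = (x * b * x⁻¹) * x := by rw [hfixZ b hb]
          _ = x * b := by group
    have hxQ : ∀ a ∈ Q, x * a * x⁻¹ ∈ Q := fun a ha =>
      (Subgroup.mem_normalizer_iff.mp (h.hQn hxY) a).mp ha
    have hKsup : (Nat.card ↥(Q ⊔ zpowers x) : KK p) ≠ 0 := by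
      apply cast_ne_KK
      intro hd
      have h1 := card_sup_dvd_of_le_normalizer Q (zpowers x) (Subgroup.zpowers_le.mpr (h.hQn hxY))
      rw [hkQ, D.card_zpowers] at h1
      rcases (Nat.Prime.dvd_mul hpf.out).mp (hd.trans h1) with h2 | h2
      · exact hp_q (hpf.out.dvd_of_dvd_pow h2)
      · exact D.not_dvd_r h2
    obtain ⟨-, hdims⟩ := t2_eigen (rhoC ρ) hq2 D.hr Q Z x W hχ0 hKsup
      (fun g hg w hw => hCinv χ g (hleC hg) w hw)
      (fun z hz => ⟨χ ⟨z, hz⟩, fun w hw => mem_simEig.mp hw ⟨z, hz⟩⟩) h.hq D.hxr h.D_le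
      (fun z hz a ha => h.D_comm hz ha) (fun a ha b hb => h.comm_mem ha hb) (fun a ha => h.pow_mem_D ha) hnd hxQ
      hfixZ (fun a ha hc => D.fpf_x h hQT hxY hqp hqr hne ha hc) h.exists_not_mem_D
    have h1dim : finrank (KK p) ↥(W ⊓ (rhoC ρ x).eigenspace 1) ≤ 1 :=
      le_trans (Submodule.finrank_mono (inf_le_right.trans (eigenspace_le_fx (rhoC ρ) x))) D.hfxK
    have hdim2 := hdims h1dim
    obtain ⟨n', hn'⟩ : ∃ n', y ^ p ^ n' = 1 := ⟨n, hyn⟩
    have hcommxy : rhoC ρ x * rhoC ρ y = rhoC ρ y * rhoC ρ x := by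
      rw [← map_mul, ← map_mul, (hxS y hy)]
    have hxC : x ∈ centralizer (Z : Set Γ) := hleC ((le_sup_right : zpowers x ≤ _) (mem_zpowers x))
    have hyC : y ∈ centralizer (Z : Set Γ) := by
      rw [Subgroup.mem_centralizer_iff]
      intro b hb
      exact (Subgroup.mem_centralizer_iff.mp hb.2 y hy).symm
    refine quad_on_submodule (p := p) W (rhoC ρ x) (rhoC ρ y) (hCinv χ x hxC) (hCinv χ y hyC) (cast_ne_KK D.not_dvd_r)
      ?_ hcommxy n' ?_ hdim2 w hw
    · rw [← map_pow, D.hxr, map_one]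
    · rw [← map_pow, hn', map_one]
  -- step 2: quadratic on the kernel of the average
  have hstep2 : ∀ y ∈ S, ∀ v, avg (rhoC ρ) Z v = 0 → (rhoC ρ y - 1) ((rhoC ρ y - 1) v) = 0 := by
    intro y hy v hv
    set B : Submodule (KK p) (KK p ⊗[ZMod p] M) := ⨆ (χ : ↥Z → KK p) (_ : ∃ z, χ z ≠ 1), simEig σ χ with hB
    set E₁ : Submodule (KK p) (KK p ⊗[ZMod p] M) := simEig σ (fun _ => 1) with hE₁
    have htop2 : (⊤ : Submodule (KK p) (KK p ⊗[ZMod p] M)) ≤ E₁ ⊔ B := by
      rw [← htop]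
      refine iSup_le fun χ => ?_
      by_cases hχ : ∃ z, χ z ≠ 1
      · have h0 : simEig σ χ ≤ B := le_iSup_of_le χ (le_iSup_of_le hχ le_rfl)
        exact h0.trans le_sup_right
      · push Not at hχ
        have : χ = fun _ => 1 := funext hχ
        rw [this]
        exact le_sup_left
    obtain ⟨e, he, b, hb, hv'⟩ := Submodule.mem_sup.mp (htop2 (Submodule.mem_top (x := v)))
    have hKZ : (Nat.card ↥Z : KK p) ≠ 0 := cast_ne_KK hnZ
    have havge : avg (rhoC ρ) Z e = e := by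
      refine avg_of_mem Z hKZ ?_
      intro z hz
      have h1 : rhoC ρ z e = (1 : KK p) • e := mem_simEig.mp he ⟨z, hz⟩
      simpa using h1
    have hBker : B ≤ LinearMap.ker (avg (rhoC ρ) Z) := by
      refine iSup₂_le ?_
      rintro χ ⟨z₀, hz₀⟩ w hw
      rw [LinearMap.mem_ker]
      have h1 := avg_mul_of_mem (ρ := rhoC ρ) Z z₀.2 w
      have h2 : rhoC ρ z₀ w = χ z₀ • w := mem_simEig.mp hw z₀
      rw [h2, map_smul] at h1
      by_contra hA0
      exact hz₀ (smul_left_injective (KK p) hA0 (h1.trans (one_smul _ _).symm))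
    have he0 : e = 0 := by
      have h1 : avg (rhoC ρ) Z b = 0 := hBker hb
      rw [← hv', map_add, havge, h1, add_zero] at hv
      exact hv
    have hvb : v = b := by
      rw [← hv', he0, zero_add]
    have hBquad : B ≤ LinearMap.ker ((rhoC ρ y - 1) * (rhoC ρ y - 1)) := by
      refine iSup₂_le ?_
      intro χ hχ w hw
      by_cases hχ0 : simEig σ χ = ⊥
      · rw [hχ0, Submodule.mem_bot] at hw
        rw [hw]
        exact Submodule.zero_mem _
      · exact hstep1 χ hχ0 hχ y hy w hw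
    rw [hvb]
    exact hBquad hb
  -- step 3: descent to `M`
  set M₀ : Submodule (ZMod p) M := LinearMap.ker (avg ρ Z) with hM₀
  have hstep3 : ∀ y ∈ S, ∀ m ∈ M₀, (ρ y - 1) ((ρ y - 1) m) = 0 := by
    intro y hy m hm
    have h1 : avg (rhoC ρ) Z ((1 : KK p) ⊗ₜ[ZMod p] m) = 0 := by
      rw [avg_baseChange, LinearMap.baseChange_tmul]
      have : avg ρ Z m = 0 := hm
      rw [this, TensorProduct.tmul_zero]
    have h2 := hstep2 y hy _ h1
    have h3 : ∀ (g : Γ) (m : M), rhoC ρ g ((1 : KK p) ⊗ₜ[ZMod p] m) = (1 : KK p) ⊗ₜ[ZMod p] (ρ g m) := by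
      intro g m
      rw [rhoK_apply, LinearMap.baseChange_tmul]
    have h4 : ∀ m : M, (rhoC ρ y - 1) ((1 : KK p) ⊗ₜ[ZMod p] m) = (1 : KK p) ⊗ₜ[ZMod p] ((ρ y - 1) m) := by
      intro m
      rw [LinearMap.sub_apply, h3, LinearMap.sub_apply, TensorProduct.tmul_sub]
      rfl
    rw [h4, h4] at h2
    exact Module.Flat.tensorProduct_mk_injective (ZMod p) M (KK p) (h2.trans (TensorProduct.tmul_zero _ _).symm)
  -- invariance of `M₀`
  have hM₀inv : ∀ g ∈ normalizer (Z : Set Γ), ∀ m ∈ M₀, ρ g m ∈ M₀ := by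
    intro g hg m hm
    rw [hM₀, LinearMap.mem_ker]
    have h1 := avg_comm (ρ := ρ) Z (g := g) (fun y hy => (Subgroup.mem_normalizer_iff.mp hg y).mp hy)
      (fun y hy => (Subgroup.mem_normalizer_iff.mp (inv_mem hg) y).mp hy |> fun h2 => by simpa using h2) m
    have hm0 : avg ρ Z m = 0 := hm
    rw [hm0, map_zero] at h1
    exact h1.symm
  have hCN : centralizer (Z : Set Γ) ≤ normalizer (Z : Set Γ) := by
    intro g hg
    apply Cfsg.Agent.Lib.Coprime.mem_normalizer_of_conj_le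
    intro z hz
    have h1 := Subgroup.mem_centralizer_iff.mp hg z hz
    rw [← h1]
    simpa using hz
  have hKZ0 : (Nat.card ↥Z : ZMod p) ≠ 0 := by
    rw [Ne, ZMod.natCast_eq_zero_iff]
    exact hnZ
  -- `Z` acts nontrivially on `M₀`
  have hZM₀ : ∀ z ∈ Z, (∀ m ∈ M₀, ρ z m = m) → z = 1 := by
    intro z hz hm
    apply D.hfaith z (hQT hz.1)
    ext1 v
    have h1 : avg ρ Z v ∈ fx ρ Z := avg_mem_fx Z v
    have h2 : v - avg ρ Z v ∈ M₀ := by
      rw [hM₀, LinearMap.mem_ker, map_sub, avg_of_mem Z hKZ0 h1, sub_self]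
    have h3 := hm _ h2
    have h4 : ρ z (avg ρ Z v) = avg ρ Z v := h1 z hz
    rw [map_sub, h4] at h3
    have h5 : ρ z v = avg ρ Z v + (ρ z v - avg ρ Z v) := by abel
    rw [h5, h3, Module.End.one_apply]
    abel
  -- the kernel on `M₀`
  let K₀ : Subgroup Γ :=
    { carrier := {c | c ∈ Q ∧ ∀ m ∈ M₀, ρ c m = m}
      one_mem' := ⟨one_mem _, fun m _ => by simp⟩
      mul_mem' := by
        rintro a b ⟨ha, ha2⟩ ⟨hb, hb2⟩
        refine ⟨mul_mem ha hb, fun m hm => ?_⟩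
        rw [map_mul, Module.End.mul_apply, hb2 m hm, ha2 m hm]
      inv_mem' := by
        rintro a ⟨ha, ha2⟩
        refine ⟨inv_mem ha, fun m hm => ?_⟩
        conv_lhs => rw [← ha2 m hm]
        rw [← Module.End.mul_apply, ← map_mul, inv_mul_cancel, map_one, Module.End.one_apply] }
  have hK₀Q : K₀ ≤ Q := fun c hc => hc.1
  have hYN : Y ≤ normalizer (Z : Set Γ) := h.D_norm
  have hK₀n : Y ≤ normalizer (K₀ : Set Γ) := by
    intro g hg
    apply Cfsg.Agent.Lib.Coprime.mem_normalizer_of_conj_le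
    rintro c ⟨hc, hc2⟩
    refine ⟨(Subgroup.mem_normalizer_iff.mp (h.hQn hg) c).mp hc, fun m hm => ?_⟩
    have h1 := hM₀inv g⁻¹ (inv_mem (hYN hg)) m hm
    rw [map_mul, map_mul, Module.End.mul_apply, Module.End.mul_apply, hc2 _ h1, ← Module.End.mul_apply, ← map_mul,
      mul_inv_cancel, map_one, Module.End.one_apply]
  have hK₀ne : ¬ Z ≤ K₀ := by
    intro hle
    apply hZne
    rw [Subgroup.eq_bot_iff_forall]
    intro z hz
    exact hZM₀ z hz (hle hz).2
  have hK₀Z : K₀ ≤ Z := by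
    refine h.le_D hK₀Q hK₀n ?_
    intro hE
    apply hK₀ne
    rw [hE]
    exact h.D_le
  have hK₀triv : ∀ c ∈ K₀, c = 1 := by
    intro c hc
    by_contra hc1
    apply hK₀ne
    intro z hz
    have hne' : (⟨c, hK₀Z hc⟩ : ↥Z) ≠ 1 := fun h0 => hc1 (congrArg Subtype.val h0)
    obtain ⟨i, hi⟩ := mem_zpowers_of_prime_card hcardZ hne' (g' := (⟨z, hz⟩ : ↥Z))
    have h1 : z = c ^ i := by
      have := congrArg Subtype.val hi
      simpa using this.symm
    rw [h1]
    exact zpow_mem hc i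
  -- conclusion
  apply h.hne
  intro y hy
  rw [Subgroup.mem_centralizer_iff]
  intro a ha
  have haQ : a ∈ Q := ha
  obtain ⟨n, hn⟩ := hS ⟨y, hy⟩
  have hyn : y ^ p ^ n = 1 := by
    have := congrArg Subtype.val hn
    simpa using this
  have hyC : y ∈ centralizer (Z : Set Γ) := by
    rw [Subgroup.mem_centralizer_iff]
    intro b hb
    exact (Subgroup.mem_centralizer_iff.mp hb.2 y hy).symm
  have haC : a ∈ centralizer (Z : Set Γ) := by
    rw [Subgroup.mem_centralizer_iff]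
    intro b hb
    exact h.D_comm hb haQ
  let E₀ : Subgroup Γ := centralizer (Z : Set Γ)
  have hinv₀ : ∀ g ∈ E₀, ∀ m ∈ M₀, ρ g m ∈ M₀ := fun g hg m hm => hM₀inv g (hCN hg) m hm
  let ρ₀ : ↥E₀ →* End (ZMod p) ↥M₀ := resRep (ρ := ρ) E₀ M₀ hinv₀
  haveI hfinM : Finite M := Module.finite_of_finite (ZMod p)
  have hcQ : ⁅a, y⁆ ∈ Q := by
    have h1 : y * a⁻¹ * y⁻¹ ∈ Q := (Subgroup.mem_normalizer_iff.mp (h.hQn (h.hSY hy)) _).mp (inv_mem haQ)
    have h2 : ⁅a, y⁆ = a * (y * a⁻¹ * y⁻¹) := by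
      rw [commutatorElement_def]
      group
    rw [h2]
    exact mul_mem haQ h1
  obtain ⟨m, hm⟩ := h.hq ⟨⁅a, y⁆, hcQ⟩
  have hcq : ⁅a, y⁆ ^ q ^ m = 1 := by
    have := congrArg Subtype.val hm
    simpa using this
  have hEodd : Odd (Nat.card ↥E₀) := Odd.of_dvd_nat hodd (Subgroup.card_subgroup_dvd_card E₀)
  have hmain := quad_comm (E := ↥E₀) (M₀ := ↥M₀) hp2 hEodd ρ₀ ⟨y, hyC⟩ ⟨a, haC⟩ n (Subtype.ext hyn)
    (by
      intro v
      apply Subtype.ext
      exact hstep3 y hy v v.2) hqf.out hqp m (Subtype.ext hcq)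
  have hK : ⁅a, y⁆ ∈ K₀ := by
    refine ⟨hcQ, fun m hm => ?_⟩
    have h1 := congrArg (fun f : End (ZMod p) ↥M₀ => ((f ⟨m, hm⟩ : ↥M₀) : M)) hmain
    exact h1
  have h1 := hK₀triv _ hK
  exact (commutatorElement_eq_one_iff_mul_comm.mp h1)

end BG3Data

end ClaimsN

end Cfsg.Agent.Lib.FT
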