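import Cfsg.Agent.Lib.FT.BG3e
import Cfsg.Agent.Lib.FT.BG3c
import Cfsg.Agent.Lib.FT.BG3Stmt

/-!
The Main Lemma of BG section 3 (`BG3Main`), assembled.
-/

set_option autoImplicit false
set_option linter.unusedSectionVars false
set_option linter.style.haveILetI false

namespace Cfsg.Agent.Lib.FT

open Module Subgroup Cfsg
open scoped commutatorElement

universe u

section General

variable {G : Type*} [Group G] [Finite G]

/-- Minimal subgroups exist in an invariant subgroup of coprime order. -/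
theorem exists_minNC_of_not_centralizing [Group.IsSolvable G] {Y S L : Subgroup G} (hSY : S ≤ Y)
    (hSn : Y ≤ normalizer (S : Set G)) (hLn : Y ≤ normalizer (L : Set G)) (hcop : Nat.Coprime (Nat.card Y) (Nat.card L))
    (hne : ¬ S ≤ centralizer (L : Set G)) : ∃ q : ℕ, q.Prime ∧ ∃ Q : Subgroup G, Q ≤ L ∧ MinNC q Y S Q := by
  classical
  by_contra hno
  push Not at hno
  apply hne
  set D : Subgroup ↥L := (centralizer (S : Set G)).subgroupOf L with hD
  have hidx : D.index = 1 := by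
    by_contra h1
    obtain ⟨q, hq, hqd⟩ := Nat.exists_prime_and_dvd h1
    haveI : Fact q.Prime := ⟨hq⟩
    obtain ⟨P, hP⟩ := Cfsg.Agent.Lib.Basic.exists_invariant_sylow hLn hcop (Or.inl inferInstance) q
    set P' : Subgroup G := (P : Subgroup ↥L).map L.subtype with hP'
    have hP'q : IsPGroup q P' := P.2.map _
    have hP'L : P' ≤ L := Subgroup.map_subtype_le _
    have hcop' : Nat.Coprime (Nat.card Y) (Nat.card P') :=
      Nat.Coprime.coprime_dvd_right (Subgroup.card_dvd_of_le hP'L) hcop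
    have hS : S ≤ centralizer (P' : Set G) := by
      by_contra hnc
      obtain ⟨Q, hQ, hmin⟩ := exists_minNC hP'q hSY hSn hP hcop' hnc
      exact hno q hq Q (hQ.trans hP'L) hmin
    have hPD : (P : Subgroup ↥L) ≤ D := by
      intro a ha
      rw [hD, Subgroup.mem_subgroupOf]
      have h1 : (a : G) ∈ P' := ⟨a, ha, rfl⟩
      exact Subgroup.le_centralizer_iff.mp hS h1
    exact P.not_dvd_index (hqd.trans (Subgroup.index_dvd_of_le hPD))
  have hD1 : D = ⊤ := Subgroup.index_eq_one.mp hidx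
  intro s hs
  rw [Subgroup.mem_centralizer_iff]
  intro a ha
  have h1 : (⟨a, ha⟩ : ↥L) ∈ D := by rw [hD1]; trivial
  rw [hD, Subgroup.mem_subgroupOf] at h1
  exact (Subgroup.mem_centralizer_iff.mp h1 s hs).symm

theorem pPrimeCore_eq_bot_of_surjective {A B : Type*} [Group A] [Group B] [Finite A] {p : ℕ} [hpf : Fact p.Prime]
    (f : A →* B) (hf : Function.Surjective f) (hker : f.ker = pPrimeCore p A) : pPrimeCore p B = ⊥ := by
  classical
  haveI : Finite B := Finite.of_surjective f hf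
  set N : Subgroup B := pPrimeCore p B with hN
  have hNc : (Nat.card N).Coprime p := Cfsg.Agent.Lib.Basic.pPrimeCore_coprime p
  have hOc : (Nat.card (pPrimeCore p A)).Coprime p := Cfsg.Agent.Lib.Basic.pPrimeCore_coprime p
  have hNn : N.Normal := Cfsg.Agent.Lib.Basic.pPrimeCore_normal p
  have hN'n : (N.comap f).Normal := Subgroup.Normal.comap hNn f
  have hN' : N.comap f ≤ pPrimeCore p A := by
    apply Cfsg.Agent.Lib.Basic.le_pPrimeCore hN'n
    rw [Nat.coprime_comm, Nat.Prime.coprime_iff_not_dvd hpf.out]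
    intro hd
    obtain ⟨y, hy⟩ := exists_prime_orderOf_dvd_card' p hd
    have h1 : f (y : A) = 1 := by
      have h2 : orderOf (⟨f y, y.2⟩ : ↥N) ∣ p := by
        rw [orderOf_dvd_iff_pow_eq_one]
        apply Subtype.ext
        have h3 : y ^ p = 1 := by rw [← hy]; exact pow_orderOf_eq_one y
        have h4 : (y : A) ^ p = 1 := congrArg Subtype.val h3
        change f (y : A) ^ p = 1
        rw [← map_pow, h4, map_one]
      have h3 : orderOf (⟨f y, y.2⟩ : ↥N) ∣ Nat.card N := orderOf_dvd_natCard _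
      have h4 : orderOf (⟨f y, y.2⟩ : ↥N) = 1 := Nat.eq_one_of_dvd_coprimes hNc h3 h2
      rw [orderOf_eq_one_iff] at h4
      exact congrArg Subtype.val h4
    have hy1 : (y : A) ∈ pPrimeCore p A := by
      rw [← hker, MonoidHom.mem_ker]
      exact h1
    have h2 : orderOf (⟨y, hy1⟩ : ↥(pPrimeCore p A)) = p := by
      rw [Subgroup.orderOf_mk, Subgroup.orderOf_coe]
      exact hy
    have h3 : p ∣ Nat.card (pPrimeCore p A) := by
      have h4 := orderOf_dvd_natCard (⟨y, hy1⟩ : ↥(pPrimeCore p A))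
      rwa [h2] at h4
    exact (Nat.Prime.coprime_iff_not_dvd hpf.out).mp hOc.symm h3
  rw [eq_bot_iff]
  intro b hb
  obtain ⟨a, rfl⟩ := hf b
  have h1 : a ∈ pPrimeCore p A := hN' hb
  rw [← hker, MonoidHom.mem_ker] at h1
  rw [h1]
  exact one_mem _

/-- The end of the main lemma. -/
theorem comm_le_core_of_centralizes_sylow [Group.IsSolvable G] {p : ℕ} [hpf : Fact p.Prime] (T R : Subgroup G) [hTn : T.Normal]
    (hcop : (Nat.card T).Coprime (Nat.card R)) (P : Sylow p ↥T)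
    (hc : ∀ s ∈ (P : Subgroup ↥T), ∀ t ∈ R, (s : G) * t = t * s) : ⁅T, R⁆ ≤ (pPrimeCore p ↥T).map T.subtype := by
  classical
  set L : Subgroup G := (pPrimeCore p ↥T).map T.subtype with hL
  haveI hLc : (pPrimeCore p ↥T).Characteristic := Cfsg.Agent.Lib.Basic.pPrimeCore_characteristic p
  haveI hLn : L.Normal := Cfsg.Agent.Lib.Coprime.PLen.normal_map_of_characteristic _
  let π : G →* G ⧸ L := QuotientGroup.mk' L
  have hπ : Function.Surjective π := QuotientGroup.mk'_surjective L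
  have hker : π.ker = L := QuotientGroup.ker_mk' L
  set Kb : Subgroup (G ⧸ L) := T.map π with hKb
  set Rb : Subgroup (G ⧸ L) := R.map π with hRb
  haveI hKbn : Kb.Normal := hTn.map π hπ
  have hact₀ : Cfsg.Agent.Lib.Coprime.CoprimeAction R T :=
    ⟨by rw [Subgroup.normalizer_eq_top_iff.mpr hTn]; exact le_top, hcop.symm, Or.inl inferInstance⟩
  have hact : Cfsg.Agent.Lib.Coprime.CoprimeAction Rb Kb := hact₀.map π
  let f : ↥T →* ↥Kb := π.subgroupMap T
  have hf : Function.Surjective f := π.subgroupMap_surjective T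
  have hfker : f.ker = pPrimeCore p ↥T := by
    ext a
    rw [MonoidHom.mem_ker]
    constructor
    · intro h1
      have h2 : π (a : G) = 1 := congrArg Subtype.val h1
      rw [← MonoidHom.mem_ker, hker] at h2
      obtain ⟨b, hb, hab⟩ := h2
      have : b = a := Subtype.ext hab
      rwa [← this]
    · intro h1
      apply Subtype.ext
      change π (a : G) = 1
      rw [← MonoidHom.mem_ker, hker]
      exact ⟨a, h1, rfl⟩
  have hO : pPrimeCore p ↥Kb = ⊥ := pPrimeCore_eq_bot_of_surjective f hf hfker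
  set Ab : Subgroup (G ⧸ L) := fittingOf Kb with hAb
  have hRA : Rb ≤ centralizer (Ab : Set (G ⧸ L)) := by
    have h2 : Ab ≤ centralizer (Rb : Set (G ⧸ L)) := by
      rintro _ ⟨z, hz, rfl⟩
      have hz' : z ∈ pCore p ↥Kb := by
        rwa [← Cfsg.Agent.Lib.OddLocal.fittingSubgroup_eq_pCore hO]
      have hzP : z ∈ (P.mapSurjective hf : Subgroup ↥Kb) := by
        exact Cfsg.Agent.Lib.Basic.pCore_le_sylow (P.mapSurjective hf) hz'
      obtain ⟨s, hs, hsz⟩ := hzP
      rw [Subgroup.mem_centralizer_iff]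
      rintro _ ⟨t, ht, rfl⟩
      have h3 : ((f s : ↥Kb) : G ⧸ L) = π (s : G) := rfl
      rw [Subgroup.subtype_apply, ← hsz, h3, ← map_mul, ← map_mul, hc s hs t ht]
    exact Subgroup.le_centralizer_iff.mp h2
  have hAbKb : Ab ≤ Kb := Cfsg.Agent.Lib.OddLocal.fittingOf_le Kb
  haveI hAbn : Ab.Normal := fittingOf_normal_of_normal Kb
  have h3 : ⁅⁅Kb, Rb⁆, Ab⁆ = ⊥ := by
    refine Subgroup.commutator_commutator_eq_bot_of_rotate ?_ ?_
    · have : ⁅Rb, Ab⁆ = ⊥ := by
        rw [Subgroup.commutator_eq_bot_iff_le_centralizer]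
        exact hRA
      rw [this, Subgroup.commutator_bot_left]
    · have h4 : ⁅Ab, Kb⁆ ≤ Ab := Subgroup.commutator_le_left Ab Kb
      rw [Subgroup.commutator_eq_bot_iff_le_centralizer]
      exact h4.trans (Subgroup.le_centralizer_iff.mp hRA)
  have h4 : ⁅Kb, Rb⁆ ≤ Ab := by
    have h5 : ⁅Kb, Rb⁆ ≤ Kb ⊓ centralizer (Ab : Set (G ⧸ L)) := by
      refine le_inf hact.commutator_le_self ?_
      rw [Subgroup.le_centralizer_iff]
      rw [Subgroup.commutator_eq_bot_iff_le_centralizer] at h3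
      exact Subgroup.le_centralizer_iff.mp h3
    exact h5.trans (inf_centralizer_fittingOf_le inferInstance)
  have h5 : ⁅⁅Kb, Rb⁆, Rb⁆ = ⊥ := by
    rw [Subgroup.commutator_eq_bot_iff_le_centralizer]
    exact h4.trans (Subgroup.le_centralizer_iff.mp hRA)
  have h6 := hact.commutator_eq_bot_of_commutator_commutator h5
  rw [Subgroup.commutator_le]
  intro k hk t ht
  have h7 : ⁅π k, π t⁆ ∈ ⁅Kb, Rb⁆ := Subgroup.commutator_mem_commutator ⟨k, hk, rfl⟩ ⟨t, ht, rfl⟩
  rw [h6, Subgroup.mem_bot, ← map_commutatorElement, ← MonoidHom.mem_ker, hker] at h7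
  exact h7

/-- A cyclic group has abelian automorphism group: commutators of normalizing elements centralize. -/
theorem commutator_le_centralizer_of_cyclic {Q A B : Subgroup G} (hQ : IsCyclic ↥Q) (hA : A ≤ normalizer (Q : Set G))
    (hB : B ≤ normalizer (Q : Set G)) : ⁅A, B⁆ ≤ centralizer (Q : Set G) := by
  classical
  set E : Subgroup G := normalizer (Q : Set G) with hE
  have hHn : ∀ y ∈ E, ∀ a ∈ Q, y * a * y⁻¹ ∈ Q := fun y hy a ha =>
    (Subgroup.mem_normalizer_iff.mp hy a).mp ha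
  let α : ↥E →* MulAut ↥Q := conjOn E Q hHn
  have hcomm : ∀ u v : MulAut ↥Q, u * v = v * u := by
    intro u v
    apply (IsCyclic.mulAutMulEquiv ↥Q).injective
    rw [map_mul, map_mul, mul_comm]
  rw [Subgroup.commutator_le]
  intro a ha b hb
  rw [Subgroup.mem_centralizer_iff]
  intro c hc
  have hb' : b⁻¹ ∈ E := inv_mem (hB hb)
  have ha' : a⁻¹ ∈ E := inv_mem (hA ha)
  set z : G := a⁻¹ * (b⁻¹ * c * b⁻¹⁻¹) * a⁻¹⁻¹ with hz
  have hc' : z ∈ Q := hHn _ ha' _ (hHn _ hb' c hc)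
  have h1 := DFunLike.congr_fun (hcomm (α ⟨a, hA ha⟩) (α ⟨b, hB hb⟩)) ⟨_, hc'⟩
  have h2 : a * (b * z * b⁻¹) * a⁻¹ = b * (a * z * a⁻¹) * b⁻¹ := congrArg Subtype.val h1
  have h5 : b * (a * z * a⁻¹) * b⁻¹ = c := by
    rw [hz]
    group
  rw [h5] at h2
  have h6 : ⁅a, b⁆ = a * b * a⁻¹ * b⁻¹ := commutatorElement_def a b
  rw [h6]
  calc c * (a * b * a⁻¹ * b⁻¹) = (a * (b * z * b⁻¹) * a⁻¹) * (a * b * a⁻¹ * b⁻¹) := by rw [h2]
    _ = (a * b * a⁻¹ * b⁻¹) * c := by
      rw [hz]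
      group

end General

section Main

variable {Γ : Type*} [Group Γ] [Finite Γ] [Group.IsSolvable Γ] {p : ℕ} [hpf : Fact p.Prime] {M : Type*} [AddCommGroup M]
  [Module (ZMod p) M] [FiniteDimensional (ZMod p) M] {ρ : Γ →* End (ZMod p) M} {T : Subgroup Γ} {x : Γ} {r : ℕ}

theorem inf_centralizer_core_le (T : Subgroup Γ) (hpc : pCore p ↥T = ⊥) :
    T ⊓ centralizer (((pPrimeCore p ↥T).map T.subtype : Subgroup Γ) : Set Γ) ≤ (pPrimeCore p ↥T).map T.subtype := by
  classical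
  rintro a ⟨haT, haC⟩
  refine ⟨⟨a, haT⟩, ?_, rfl⟩
  have hF : fittingSubgroup ↥T ≤ pPrimeCore p ↥T := by
    rw [Cfsg.Agent.Lib.Basic.fittingSubgroup_eq_iSup_pCore]
    refine iSup_le fun q => ?_
    haveI : Fact (q : ℕ).Prime := ⟨q.2⟩
    by_cases hq : (q : ℕ) = p
    · have h1 : pCore (q : ℕ) ↥T = ⊥ := by
        have : ∀ n : ℕ, n = p → pCore n ↥T = ⊥ := by
          rintro n rfl
          exact hpc
        exact this _ hq
      rw [h1]
      exact bot_le
    · exact Cfsg.Agent.Lib.OddLocal.pCore_le_pPrimeCore_of_ne hq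
  apply hF
  apply Cfsg.Agent.Lib.OddLocal.centralizer_fitting_le_of_solvable
  rw [Subgroup.mem_centralizer_iff]
  intro b hb
  apply Subtype.ext
  exact Subgroup.mem_centralizer_iff.mp haC (b : Γ) ⟨b, hF hb, rfl⟩

namespace BG3Data

variable (D : BG3Data ρ T x r)

include D in
/-- The common setup of the two claims. -/
theorem exists_min [hTn : T.Normal] (hodd : Odd (Nat.card Γ)) (hrT : ¬ r ∣ Nat.card T) (hpc : pCore p ↥T = ⊥) {S Y : Subgroup Γ}
    (hSY : S ≤ Y) (hSn : Y ≤ normalizer (S : Set Γ)) (hST : S ≤ T) (hS : IsPGroup p S) (hS1 : S ≠ ⊥)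
    (hcopY : Nat.Coprime (Nat.card Y) (Nat.card ((pPrimeCore p ↥T).map T.subtype : Subgroup Γ))) :
    ∃ q : ℕ, q.Prime ∧ ∃ Q : Subgroup Γ, Q ≤ T ∧ MinNC q Y S Q ∧ q ≠ p ∧ q ≠ r ∧ Odd q ∧ ¬ p ∣ Nat.card Q := by
  classical
  set L : Subgroup Γ := (pPrimeCore p ↥T).map T.subtype with hL
  haveI hLc : (pPrimeCore p ↥T).Characteristic := Cfsg.Agent.Lib.Basic.pPrimeCore_characteristic p
  haveI hLn : L.Normal := Cfsg.Agent.Lib.Coprime.PLen.normal_map_of_characteristic _
  have hLT : L ≤ T := Subgroup.map_subtype_le _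
  have hLp : ¬ p ∣ Nat.card L := by
    rw [hL, Subgroup.card_map_of_injective T.subtype_injective]
    exact (Nat.Prime.coprime_iff_not_dvd hpf.out).mp (Cfsg.Agent.Lib.Basic.pPrimeCore_coprime p).symm
  have hne : ¬ S ≤ centralizer (L : Set Γ) := by
    intro hc
    have h1 : S ≤ L := le_trans (le_inf hST hc) (inf_centralizer_core_le T hpc)
    apply hS1
    rw [Subgroup.eq_bot_iff_forall]
    intro s hs
    obtain ⟨n, hn⟩ := hS ⟨s, hs⟩
    have hsn : s ^ p ^ n = 1 := congrArg Subtype.val hn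
    have h2 : orderOf s ∣ p ^ n := orderOf_dvd_of_pow_eq_one hsn
    have h3 : orderOf s ∣ Nat.card L := by
      have h4 := orderOf_dvd_natCard (⟨s, h1 hs⟩ : ↥L)
      rwa [Subgroup.orderOf_mk] at h4
    have h5 : Nat.Coprime (p ^ n) (Nat.card L) :=
      Nat.Coprime.pow_left _ ((Nat.Prime.coprime_iff_not_dvd hpf.out).mpr hLp)
    exact orderOf_eq_one_iff.mp (Nat.eq_one_of_dvd_coprimes h5 h2 h3)
  obtain ⟨q, hq, Q, hQL, hmin⟩ := exists_minNC_of_not_centralizing hSY hSn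
    (by rw [Subgroup.normalizer_eq_top_iff.mpr hLn]; exact le_top) hcopY hne
  haveI : Fact q.Prime := ⟨hq⟩
  have hQT : Q ≤ T := hQL.trans hLT
  have hqQ : q ∣ Nat.card Q := by
    obtain ⟨k, hk⟩ := IsPGroup.iff_card.mp hmin.hq
    have hk0 : k ≠ 0 := by
      rintro rfl
      rw [pow_zero] at hk
      exact hmin.nontrivial (Subgroup.card_eq_one.mp hk)
    rw [hk]
    exact dvd_pow_self q hk0
  have hqL : q ∣ Nat.card L := hqQ.trans (Subgroup.card_dvd_of_le hQL)
  have hqT : q ∣ Nat.card T := hqQ.trans (Subgroup.card_dvd_of_le hQT)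
  refine ⟨q, hq, Q, hQT, hmin, ?_, ?_, ?_, ?_⟩
  · rintro rfl
    exact hLp hqL
  · rintro rfl
    exact hrT hqT
  · exact Odd.of_dvd_nat hodd (hqT.trans (Subgroup.card_subgroup_dvd_card T))
  · exact fun hd => hLp (hd.trans (Subgroup.card_dvd_of_le hQL))

include D in
theorem eq_of_rhoC {a b : Γ} (hab : a * b⁻¹ ∈ T) (h : rhoC ρ a = rhoC ρ b) : a = b := by
  have h1 : ρ a = ρ b := rho_eq_of_rhoC ρ h
  have h2 : ρ (a * b⁻¹) = 1 := by
    rw [map_mul, h1, ← map_mul, mul_inv_cancel, map_one]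
  have h3 := D.hfaith _ hab h2
  exact mul_inv_eq_one.mp h3

include D in
/-- **Claim A**: `x` centralizes a `p`-subgroup of `T` that it normalizes. -/
theorem claimA [hTn : T.Normal] (hodd : Odd (Nat.card Γ)) (hrT : ¬ r ∣ Nat.card T) (hpc : pCore p ↥T = ⊥) (hp2 : Odd p)
    (hr2 : Odd r) (S₁ : Subgroup Γ) (hS₁T : S₁ ≤ T) (hS₁ : IsPGroup p S₁) (hxS₁ : x ∈ normalizer (S₁ : Set Γ)) :
    ∀ s ∈ S₁, s * x = x * s := by
  classical
  set S : Subgroup Γ := ⁅S₁, zpowers x⁆ with hSdef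
  have hcard : Nat.Coprime (Nat.card (zpowers x)) (Nat.card S₁) := by
    obtain ⟨k, hk⟩ := IsPGroup.iff_card.mp hS₁
    rw [D.card_zpowers, hk]
    exact Nat.Coprime.pow_right _ ((Nat.coprime_primes D.hr hpf.out).mpr D.hrp)
  have hact : Cfsg.Agent.Lib.Coprime.CoprimeAction (zpowers x) S₁ :=
    ⟨Subgroup.zpowers_le.mpr hxS₁, hcard, Or.inl inferInstance⟩
  by_cases hSb : S = ⊥
  · intro s hs
    have h1 : ⁅s, x⁆ ∈ S := Subgroup.commutator_mem_commutator hs (mem_zpowers x)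
    rw [hSb, Subgroup.mem_bot] at h1
    exact commutatorElement_eq_one_iff_mul_comm.mp h1
  exfalso
  have hSS₁ : S ≤ S₁ := hact.commutator_le_self
  have hScomm : ⁅S, zpowers x⁆ = S := hact.commutator_commutator_eq
  have hSp : IsPGroup p S := hS₁.to_le hSS₁
  have hxS : x ∈ normalizer (S : Set Γ) := hact.le_normalizer_commutator (mem_zpowers x)
  set Y : Subgroup Γ := S ⊔ zpowers x with hY
  have hSY : S ≤ Y := le_sup_left
  have hxY : x ∈ Y := (le_sup_right : zpowers x ≤ Y) (mem_zpowers x)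
  have hYn : Y ≤ normalizer (S : Set Γ) := sup_le Subgroup.le_normalizer (Subgroup.zpowers_le.mpr hxS)
  have hcopY : Nat.Coprime (Nat.card Y) (Nat.card ((pPrimeCore p ↥T).map T.subtype : Subgroup Γ)) := by
    rw [Subgroup.card_map_of_injective T.subtype_injective]
    have h1 : Nat.card Y ∣ Nat.card S * r := by
      have h2 := card_sup_dvd_of_le_normalizer S (zpowers x) (Subgroup.zpowers_le.mpr hxS)
      rwa [D.card_zpowers] at h2
    obtain ⟨k, hk⟩ := IsPGroup.iff_card.mp hSp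
    rw [hk] at h1
    refine Nat.Coprime.coprime_dvd_left h1 (Nat.Coprime.mul_left (Nat.Coprime.pow_left _ ?_) ?_)
    · exact (Cfsg.Agent.Lib.Basic.pPrimeCore_coprime p).symm
    · rw [Nat.Prime.coprime_iff_not_dvd D.hr]
      intro hd
      apply hrT
      exact hd.trans (by simpa using Subgroup.card_subgroup_dvd_card (pPrimeCore p ↥T))
  obtain ⟨q, hq, Q, hQT, h, hqp, hqr, hq2, hQp⟩ := D.exists_min hodd hrT hpc hSY hYn (hSS₁.trans hS₁T) hSp hSb hcopY
  haveI : Fact q.Prime := ⟨hq⟩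
  by_cases hab : ⁅Q, Q⁆ = ⊥
  · have hQc : ∀ a ∈ Q, ∀ b ∈ Q, a * b = b * a := by
      intro a ha b hb
      have h1 : ⁅a, b⁆ ∈ ⁅Q, Q⁆ := Subgroup.commutator_mem_commutator ha hb
      rw [hab, Subgroup.mem_bot] at h1
      exact commutatorElement_eq_one_iff_mul_comm.mp h1
    have hmain := abelian_claim_A (rhoC ρ) Q S hQc (hSY.trans h.hQn) x (h.hQn hxY) (cast_ne_KK hQp) hp2 D.hr hr2 D.hrp.symm
      hSp D.hxr hxS hScomm D.hfxK
    apply h.hne
    intro s hs
    rw [Subgroup.mem_centralizer_iff]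
    intro a ha
    have h1 : s * a * s⁻¹ ∈ Q := (Subgroup.mem_normalizer_iff.mp (h.hQn (hSY hs)) a).mp ha
    have h2 := D.eq_of_rhoC (hQT (mul_mem h1 (inv_mem ha))) (hmain s hs a ha)
    calc a * s = (s * a * s⁻¹) * s := by rw [h2]
      _ = s * a := by group
  · exact D.claimA_nonabelian h hQT hxY hqp hqr hp2 D.hrp.symm hab hSp hxS hScomm

include D in
/-- **Claim B**. -/
theorem claimB [hTn : T.Normal] (hodd : Odd (Nat.card Γ)) (hrT : ¬ r ∣ Nat.card T) (hpc : pCore p ↥T = ⊥) (hp2 : p ≠ 2)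
    (S₁ R : Subgroup Γ) (hS₁T : S₁ ≤ T) (hS₁ : IsPGroup p S₁) (hS₁x : ∀ s ∈ S₁, s * x = x * s) (hxR : x ∈ R)
    (hRS₁ : R ≤ normalizer (S₁ : Set Γ)) (hcop : (Nat.card T).Coprime (Nat.card R)) : ⁅S₁, R⁆ = ⊥ := by
  classical
  set S : Subgroup Γ := ⁅S₁, R⁆ with hSdef
  have hcard : Nat.Coprime (Nat.card R) (Nat.card S₁) :=
    Nat.Coprime.coprime_dvd_right (Subgroup.card_dvd_of_le hS₁T) hcop.symm
  have hact : Cfsg.Agent.Lib.Coprime.CoprimeAction R S₁ := ⟨hRS₁, hcard, Or.inl inferInstance⟩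
  by_contra hSb
  have hSS₁ : S ≤ S₁ := hact.commutator_le_self
  have hScomm : ⁅S, R⁆ = S := hact.commutator_commutator_eq
  have hSp : IsPGroup p S := hS₁.to_le hSS₁
  have hRS : R ≤ normalizer (S : Set Γ) := hact.le_normalizer_commutator
  set Y : Subgroup Γ := S ⊔ R with hY
  have hSY : S ≤ Y := le_sup_left
  have hRY : R ≤ Y := le_sup_right
  have hxY : x ∈ Y := hRY hxR
  have hYn : Y ≤ normalizer (S : Set Γ) := sup_le Subgroup.le_normalizer hRS
  have hcopY : Nat.Coprime (Nat.card Y) (Nat.card ((pPrimeCore p ↥T).map T.subtype : Subgroup Γ)) := by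
    rw [Subgroup.card_map_of_injective T.subtype_injective]
    have h1 : Nat.card Y ∣ Nat.card S * Nat.card R := card_sup_dvd_of_le_normalizer S R hRS
    obtain ⟨k, hk⟩ := IsPGroup.iff_card.mp hSp
    rw [hk] at h1
    refine Nat.Coprime.coprime_dvd_left h1 (Nat.Coprime.mul_left (Nat.Coprime.pow_left _ ?_) ?_)
    · exact (Cfsg.Agent.Lib.Basic.pPrimeCore_coprime p).symm
    · have h2 : Nat.card (pPrimeCore p ↥T) ∣ Nat.card T := by
        simpa using Subgroup.card_subgroup_dvd_card (pPrimeCore p ↥T)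
      exact Nat.Coprime.coprime_dvd_right h2 hcop.symm
  obtain ⟨q, hq, Q, hQT, h, hqp, hqr, hq2, hQp⟩ := D.exists_min hodd hrT hpc hSY hYn (hSS₁.trans hS₁T) hSp hSb hcopY
  haveI : Fact q.Prime := ⟨hq⟩
  have hxS : ∀ s ∈ S, s * x = x * s := fun s hs => hS₁x s (hSS₁ hs)
  by_cases hab : ⁅Q, Q⁆ = ⊥
  · have hQc : ∀ a ∈ Q, ∀ b ∈ Q, a * b = b * a := by
      intro a ha b hb
      have h1 : ⁅a, b⁆ ∈ ⁅Q, Q⁆ := Subgroup.commutator_mem_commutator ha hb
      rw [hab, Subgroup.mem_bot] at h1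
      exact commutatorElement_eq_one_iff_mul_comm.mp h1
    have hmain := abelian_claim_B (rhoC ρ) Q S hQc (hSY.trans h.hQn) x (h.hQn hxY) (cast_ne_KK hQp) D.hr D.hrp.symm
      hSp D.hxr hxS h.commutator_eq D.hfxK
    have hQC : Q ≤ T ⊓ centralizer ({x} : Set Γ) := by
      refine le_inf hQT ?_
      intro a ha
      rw [Subgroup.mem_centralizer_singleton_iff]
      have h1 : x * a * x⁻¹ ∈ Q := (Subgroup.mem_normalizer_iff.mp (h.hQn hxY) a).mp ha
      have h2 := D.eq_of_rhoC (hQT (mul_mem h1 (inv_mem ha))) (hmain a ha)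
      calc a * x = (x * a * x⁻¹) * x := by rw [h2]
        _ = x * a := by group
    haveI := D.hZ
    have hcyc : IsCyclic ↥Q := isCyclic_of_le_zgroup hQC h.hq
    have h1 := commutator_le_centralizer_of_cyclic hcyc (hSY.trans h.hQn) (hRY.trans h.hQn)
    rw [hScomm] at h1
    exact h.hne h1
  · exact D.claimB_nonabelian h hodd hQT hxY hqp hqr hq2 hp2 hab hSp hxS

end BG3Data

end Main

/-- **The Main Lemma**. -/
theorem bg3_main : BG3Main.{u} := by
  intro Γ _ _ _ hodd p _ M _ _ _ ρ T R _ hcop x hxR r hr hxr hx1 hfaith hpc hfx hZ hcomm hdiv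
  classical
  have hrx : orderOf x = r := by
    haveI : Fact r.Prime := ⟨hr⟩
    exact orderOf_eq_prime hxr hx1
  have hrR : r ∣ Nat.card R := by
    have h1 := orderOf_dvd_natCard (⟨x, hxR⟩ : ↥R)
    rwa [Subgroup.orderOf_mk, hrx] at h1
  have hrT : ¬ r ∣ Nat.card T := fun hd =>
    hr.one_lt.ne' (Nat.eq_one_of_dvd_coprimes hcop hd hrR)
  have hrp : r ≠ p := by
    rintro rfl
    exact hrT hdiv
  have hT : Nat.card T ∣ Nat.card Γ := Subgroup.card_subgroup_dvd_card T
  have hR : Nat.card R ∣ Nat.card Γ := Subgroup.card_subgroup_dvd_card R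
  have hp2 : Odd p := Odd.of_dvd_nat hodd (hdiv.trans hT)
  have hr2 : Odd r := Odd.of_dvd_nat hodd (hrR.trans hR)
  have hp2' : p ≠ 2 := by
    rintro rfl
    exact absurd hp2 (by decide)
  have D : BG3Data ρ T x r := ⟨hr, hxr, hx1, hrp, hfaith, hfx, hZ⟩
  obtain ⟨P, hP⟩ := Cfsg.Agent.Lib.Basic.exists_invariant_sylow (A := R) (K := T)
    (by rw [Subgroup.normalizer_eq_top_iff.mpr inferInstance]; exact le_top) hcop.symm (Or.inl inferInstance) p
  set S₁ : Subgroup Γ := (P : Subgroup ↥T).map T.subtype with hS₁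
  have hS₁T : S₁ ≤ T := Subgroup.map_subtype_le _
  have hS₁p : IsPGroup p S₁ := P.2.map _
  have hA := D.claimA hodd hrT hpc hp2 hr2 S₁ hS₁T hS₁p (hP hxR)
  have hB := D.claimB hodd hrT hpc hp2' S₁ R hS₁T hS₁p hA hxR hP hcop
  have hc : ∀ s ∈ (P : Subgroup ↥T), ∀ t ∈ R, (s : Γ) * t = t * s := by
    intro s hs t ht
    have h1 : ⁅(s : Γ), t⁆ ∈ ⁅S₁, R⁆ := Subgroup.commutator_mem_commutator ⟨s, hs, rfl⟩ ht
    rw [hB, Subgroup.mem_bot] at h1
    exact commutatorElement_eq_one_iff_mul_comm.mp h1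
  have hle := comm_le_core_of_centralizes_sylow T R hcop P hc
  rw [hcomm] at hle
  have h1 := Subgroup.card_dvd_of_le hle
  rw [Subgroup.card_map_of_injective T.subtype_injective] at h1
  have h2 : (Nat.card (pPrimeCore p ↥T)).Coprime p := Cfsg.Agent.Lib.Basic.pPrimeCore_coprime p
  exact (Nat.Prime.coprime_iff_not_dvd (Fact.out : p.Prime)).mp h2.symm (hdiv.trans h1)

end Cfsg.Agent.Lib.FT
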