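import Cfsg.Agent.Lib.FT.BG3f
import Cfsg.Agent.Lib.Transfer.Frattini
import Cfsg.Agent.Lib.OddLocal.CoprimeFix

/-!
S3764: a fixed point free action of `X` on `V`, `Q` extraspecial.
-/

set_option autoImplicit false
set_option linter.unusedSectionVars false
set_option linter.style.haveILetI false

namespace Cfsg.Agent.Lib.FT

open Module Subgroup Cfsg TensorProduct
open scoped commutatorElement

section

variable {F : Type*} [Group F] [Finite F] {p q r : ℕ} [hpf : Fact p.Prime] [hqf : Fact q.Prime] {M : Type*}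
  [AddCommGroup M] [Module (ZMod p) M] [FiniteDimensional (ZMod p) M]

/-- The numerical conclusion. -/
theorem r_eq_of_le_of_dvd {D r : ℕ} (hr : r.Prime) (hD : 1 < D) (hle : D + 1 ≤ r) (hmod : D ^ 2 ≡ 1 [MOD r]) : r = D + 1 := by
  have h1 : r ∣ D ^ 2 - 1 := (Nat.modEq_iff_dvd' (Nat.one_le_pow _ _ (by omega))).mp hmod.symm
  have h2 : D ^ 2 - 1 = (D - 1) * (D + 1) := by
    obtain ⟨k, rfl⟩ : ∃ k, D = k + 1 := ⟨D - 1, by omega⟩
    have : (k + 1) ^ 2 = (k + 1 - 1) * (k + 1 + 1) + 1 := by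
      simp only [Nat.add_sub_cancel]
      ring
    omega
  rw [h2] at h1
  rcases (Nat.Prime.dvd_mul hr).mp h1 with h3 | h3
  · have := Nat.le_of_dvd (by omega) h3
    omega
  · have := Nat.le_of_dvd (by omega) h3
    omega

section Generic

variable {K VK : Type*} [Field K] [IsAlgClosed K] [AddCommGroup VK] [Module K VK] [FiniteDimensional K VK]

/-- The count on an eigenspace `W` of `Z` with no fixed vector of `x`. -/
theorem t2_eigen_nofix (ρ : F →* End K VK) {q r : ℕ} [hqf : Fact q.Prime] (hr : r.Prime)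
    (Q Z : Subgroup F) (x : F) (W : Submodule K VK) (hW0 : W ≠ ⊥)
    (hK : (Nat.card ↥(Q ⊔ zpowers x) : K) ≠ 0)
    (hWinv : ∀ y ∈ Q ⊔ zpowers x, ∀ w ∈ W, ρ y w ∈ W)
    (hZs : ∀ z ∈ Z, ∃ c : K, ∀ w ∈ W, ρ z w = c • w)
    (hxr : x ^ r = 1) (hZQ : Z ≤ Q) (hZc : ∀ z ∈ Z, ∀ a ∈ Q, z * a = a * z)
    (hcomm : ∀ a ∈ Q, ∀ b ∈ Q, ⁅a, b⁆ ∈ Z) (hpow : ∀ a ∈ Q, a ^ q ∈ Z)
    (hnd : ∀ a ∈ Q, (∀ b ∈ Q, ∀ w ∈ W, ρ ⁅a, b⁆ w = w) → a ∈ Z)
    (hxQ : ∀ a ∈ Q, x * a * x⁻¹ ∈ Q) (hxZ : ∀ z ∈ Z, x * z * x⁻¹ = z)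
    (hfpf : ∀ a ∈ Q, x * a * x⁻¹ * a⁻¹ ∈ Z → a ∈ Z) (hne : ∃ a ∈ Q, a ∉ Z) (hfix : ∀ w ∈ W, ρ x w = w → w = 0) :
    ∃ m : ℕ, m ≠ 0 ∧ r = q ^ m + 1 ∧ Z.relIndex Q = q ^ (2 * m) := by
  classical
  haveI : Fact r.Prime := ⟨hr⟩
  haveI : Nontrivial ↥W := Submodule.nontrivial_iff_ne_bot.mpr hW0
  set Y₀ : Subgroup F := Q ⊔ zpowers x with hY₀
  have hQY : Q ≤ Y₀ := le_sup_left
  have hZY : Z ≤ Y₀ := hZQ.trans hQY
  have hxY : x ∈ Y₀ := (le_sup_right : zpowers x ≤ Y₀) (mem_zpowers x)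
  let ρ₁ : ↥Y₀ →* End K ↥W := resRep (ρ := ρ) Y₀ W hWinv
  let Q₁ : Subgroup ↥Y₀ := Q.subgroupOf Y₀
  let Z₁ : Subgroup ↥Y₀ := Z.subgroupOf Y₀
  let x₁ : ↥Y₀ := ⟨x, hxY⟩
  have hρ₁ : ∀ (y : ↥Y₀) (w : ↥W), ((ρ₁ y w : ↥W) : VK) = ρ y w := fun _ _ => rfl
  have hZs₁ : ∀ z ∈ Z₁, ∃ c : K, ρ₁ z = c • 1 := by
    intro z hz
    obtain ⟨c, hc⟩ := hZs z (Subgroup.mem_subgroupOf.mp hz)
    refine ⟨c, ?_⟩
    ext w
    rw [hρ₁, hc w w.2]
    rfl
  have hZQ₁ : Z₁ ≤ Q₁ := fun z hz => Subgroup.mem_subgroupOf.mpr (hZQ (Subgroup.mem_subgroupOf.mp hz))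
  have hZc₁ : ∀ z ∈ Z₁, ∀ a ∈ Q₁, z * a = a * z := fun z hz a ha =>
    Subtype.ext (hZc z (Subgroup.mem_subgroupOf.mp hz) a (Subgroup.mem_subgroupOf.mp ha))
  have hcomm₁ : ∀ a ∈ Q₁, ∀ b ∈ Q₁, ⁅a, b⁆ ∈ Z₁ := fun a ha b hb =>
    Subgroup.mem_subgroupOf.mpr (hcomm a (Subgroup.mem_subgroupOf.mp ha) b (Subgroup.mem_subgroupOf.mp hb))
  have hnd₁ : ∀ a ∈ Q₁, (∀ b ∈ Q₁, ρ₁ ⁅a, b⁆ = 1) → a ∈ Z₁ := by
    intro a ha hab
    refine Subgroup.mem_subgroupOf.mpr (hnd a (Subgroup.mem_subgroupOf.mp ha) ?_)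
    intro b hb w hw
    have h1 := hab ⟨b, hQY hb⟩ (Subgroup.mem_subgroupOf.mpr hb)
    have h2 := congrArg (fun f : End K ↥W => ((f ⟨w, hw⟩ : ↥W) : VK)) h1
    exact h2
  have hpow₁ : ∀ a ∈ Q₁, a ^ q ∈ Z₁ := fun a ha =>
    Subgroup.mem_subgroupOf.mpr (hpow a (Subgroup.mem_subgroupOf.mp ha))
  have hT : T2Data ρ₁ Q₁ Z₁ x₁ r :=
    { hr := hr
      hxr := Subtype.ext hxr
      hKF := hK
      hZQ := hZQ₁
      hZc := hZc₁
      hZs := hZs₁
      hcomm := hcomm₁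
      hnd := hnd₁
      hxQ := fun a ha => Subgroup.mem_subgroupOf.mpr (hxQ a (Subgroup.mem_subgroupOf.mp ha))
      hxZ := fun z hz => by
        have h1 : x₁ * z * x₁⁻¹ = z := Subtype.ext (hxZ z (Subgroup.mem_subgroupOf.mp hz))
        rw [h1]
      hfpf := fun a ha h => Subgroup.mem_subgroupOf.mpr (hfpf a (Subgroup.mem_subgroupOf.mp ha)
        (Subgroup.mem_subgroupOf.mp h))
      hne := by
        obtain ⟨a, ha, ha2⟩ := hne
        exact ⟨⟨a, hQY ha⟩, Subgroup.mem_subgroupOf.mpr ha, fun h => ha2 (Subgroup.mem_subgroupOf.mp h)⟩ }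
  obtain ⟨m, hm⟩ := card_square hZs₁ (Nat.card Q₁) Q₁ rfl hZQ₁ hZc₁ hcomm₁ hnd₁ hpow₁
  have hidx : Z₁.relIndex Q₁ = Z.relIndex Q := Subgroup.relIndex_subgroupOf hQY
  have hD : Z₁.relIndex Q₁ = (q ^ m) ^ 2 := by
    rw [hm]
    ring
  have hmod := relIndex_modEq_one (Q := Q) (Z := Z) (x := x) (r := r) hxr hZQ hZc hxQ
    (fun z hz => by rw [hxZ z hz]; exact hz) hfpf
  rw [← hidx, hD] at hmod
  have hm0 : m ≠ 0 := by
    rintro rfl
    obtain ⟨a, ha, ha2⟩ := hne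
    rw [hD] at hidx
    simp only [pow_zero, one_pow] at hidx
    exact ha2 (Subgroup.relIndex_eq_one.mp hidx.symm ha)
  have hgt : 1 < q ^ m := Nat.one_lt_pow hm0 (hqf.out.one_lt)
  have hfix₁ : (ρ₁ x₁).eigenspace 1 = ⊥ := by
    rw [eq_bot_iff]
    intro w hw
    have h1 := Module.End.mem_eigenspace_iff.mp hw
    rw [one_smul] at h1
    have h2 : ρ x (w : VK) = w := congrArg Subtype.val h1
    exact (Submodule.mem_bot _).mpr (Subtype.ext (hfix _ w.2 h2))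
  have hle := t2_no_fix hT hD hfix₁
  refine ⟨m, hm0, r_eq_of_le_of_dvd hr hgt hle hmod, ?_⟩
  rw [← hidx, hm]

end Generic

theorem fpf_count (ρ : F →* End (ZMod p) M) (hr : r.Prime) (hqp : q ≠ p) (hrp : r ≠ p)
    (Q Z : Subgroup F) (x : F) (hqQ : IsPGroup q Q) (hZcard : Nat.card Z = q) (hZQ : Z ≤ Q)
    (hZc : ∀ z ∈ Z, ∀ a ∈ Q, z * a = a * z) (hcomm : ∀ a ∈ Q, ∀ b ∈ Q, ⁅a, b⁆ ∈ Z) (hpow : ∀ a ∈ Q, a ^ q ∈ Z)
    (hcen : ∀ a ∈ Q, (∀ b ∈ Q, a * b = b * a) → a ∈ Z) (hxr : x ^ r = 1)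
    (hxQ : ∀ a ∈ Q, x * a * x⁻¹ ∈ Q) (hxZ : ∀ z ∈ Z, x * z * x⁻¹ = z)
    (hfpf : ∀ a ∈ Q, x * a * x⁻¹ * a⁻¹ ∈ Z → a ∈ Z) (hne : ∃ a ∈ Q, a ∉ Z) (hfaith : ∀ z ∈ Z, ρ z = 1 → z = 1)
    (hfix : fx ρ (zpowers x) = ⊥) : ∃ m : ℕ, m ≠ 0 ∧ r = q ^ m + 1 ∧ Z.relIndex Q = q ^ (2 * m) := by
  classical
  haveI : Fact r.Prime := ⟨hr⟩
  have hp_q : ¬ p ∣ q := fun hd => hqp ((Nat.prime_dvd_prime_iff_eq hpf.out hqf.out).mp hd).symm
  have hp_r : ¬ p ∣ r := fun hd => hrp ((Nat.prime_dvd_prime_iff_eq hpf.out hr).mp hd).symm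
  obtain ⟨kQ, hkQ⟩ := IsPGroup.iff_card.mp hqQ
  have hnZ : ¬ p ∣ Nat.card ↥Z := by rw [hZcard]; exact hp_q
  have hzpcard : Nat.card (zpowers x) ∣ r := by
    rw [Nat.card_zpowers]
    exact orderOf_dvd_of_pow_eq_one hxr
  have hfixK : fx (rhoC ρ) (zpowers x) = ⊥ := by
    rw [← Submodule.finrank_eq_zero, finrank_fx_baseChange (KK p) ρ (zpowers x), hfix, finrank_bot]
    rw [Ne, ZMod.natCast_eq_zero_iff]
    exact fun hd => hp_r (hd.trans hzpcard)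
  -- the eigenspaces of `Z`
  let σ : ↥Z →* End (KK p) (KK p ⊗[ZMod p] M) := (rhoC ρ).comp Z.subtype
  have hσ : ∀ z : ↥Z, σ z = rhoC ρ z := fun _ => rfl
  have hZcomm : ∀ a ∈ Z, ∀ b ∈ Z, a * b = b * a := fun a ha b hb => hZc a ha b (hZQ hb)
  have hcommσ : ∀ n n', σ n * σ n' = σ n' * σ n := by
    intro n n'
    rw [← map_mul, ← map_mul]
    congr 1
    exact Subtype.ext (hZcomm n n.2 n' n'.2)
  obtain ⟨-, htop⟩ := simEig_indep σ hcommσ (cast_ne_KK hnZ)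
  obtain ⟨χ, hχ0, z₀, hz₀⟩ : ∃ χ : ↥Z → KK p, simEig σ χ ≠ ⊥ ∧ ∃ z, χ z ≠ 1 := by
    by_contra hcon
    push Not at hcon
    have hall : ∀ z : ↥Z, σ z = 1 := by
      intro z
      have h1 : (⊤ : Submodule (KK p) (KK p ⊗[ZMod p] M)) ≤ LinearMap.ker (σ z - 1) := by
        rw [← htop]
        refine iSup_le fun χ => ?_
        by_cases h0 : simEig σ χ = ⊥
        · rw [h0]
          exact bot_le
        · intro w hw
          have h2 := hcon χ h0 z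
          have h3 : σ z w = χ z • w := mem_simEig.mp hw z
          rw [LinearMap.mem_ker, LinearMap.sub_apply, h3, h2, one_smul, Module.End.one_apply, sub_self]
      apply LinearMap.ext
      intro w
      have h2 := h1 (Submodule.mem_top (x := w))
      rw [LinearMap.mem_ker, LinearMap.sub_apply, Module.End.one_apply, sub_eq_zero] at h2
      exact h2
    have hZ1 : ∀ z ∈ Z, z = 1 := by
      intro z hz
      refine hfaith z hz ?_
      exact eq_one_of_baseChange (KK p) _ (hall ⟨z, hz⟩)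
    have h1 : Z = ⊥ := by
      rw [Subgroup.eq_bot_iff_forall]
      exact hZ1
    rw [h1, Subgroup.card_bot] at hZcard
    exact hqf.out.one_lt.ne hZcard
  set W := simEig σ χ with hW
  let χh : ↥Z →* KK p :=
    { toFun := χ
      map_one' := chi_one hχ0
      map_mul' := chi_mul hχ0 }
  have hinjχ : ∀ z : ↥Z, χ z = 1 → z = 1 := by
    intro z hz
    by_contra hz1
    obtain ⟨i, hi⟩ := mem_zpowers_of_prime_card hZcard hz1 (g' := z₀)
    have h1 : χh z₀ = 1 := by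
      rw [← hi]
      change χh (z ^ i) = 1
      rw [map_zpow]
      have h2 : χh z = 1 := hz
      rw [h2, one_zpow]
    exact hz₀ h1
  have hleC : Q ⊔ zpowers x ≤ centralizer (Z : Set F) := by
    refine sup_le ?_ ?_
    · intro a ha
      rw [Subgroup.mem_centralizer_iff]
      intro b hb
      exact hZc b hb a ha
    · rw [Subgroup.zpowers_le, Subgroup.mem_centralizer_iff]
      intro b hb
      calc b * x = (x * b * x⁻¹) * x := by rw [hxZ b hb]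
        _ = x * b := by group
  have hCinv : ∀ g ∈ centralizer (Z : Set F), ∀ w ∈ W, rhoC ρ g w ∈ W := by
    intro g hg w hw
    rw [hW, mem_simEig]
    intro z
    have h1 := mem_simEig.mp hw z
    rw [hσ, ← Module.End.mul_apply, ← map_mul, (Subgroup.mem_centralizer_iff.mp hg z z.2), map_mul, Module.End.mul_apply,
      ← hσ, h1, map_smul]
  have hK : (Nat.card ↥(Q ⊔ zpowers x) : KK p) ≠ 0 := by
    apply cast_ne_KK
    intro hd
    have h1 := card_sup_dvd_of_le_normalizer Q (zpowers x) (Subgroup.zpowers_le.mpr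
      (Cfsg.Agent.Lib.Coprime.mem_normalizer_of_conj_le _ _ hxQ))
    rw [hkQ] at h1
    rcases (Nat.Prime.dvd_mul hpf.out).mp (hd.trans h1) with h2 | h2
    · exact hp_q (hpf.out.dvd_of_dvd_pow h2)
    · exact hp_r (h2.trans hzpcard)
  -- the count on `W`
  refine t2_eigen_nofix (rhoC ρ) hr Q Z x W hχ0 hK (fun g hg w hw => hCinv g (hleC hg) w hw)
    (fun z hz => ⟨χ ⟨z, hz⟩, fun w hw => mem_simEig.mp hw ⟨z, hz⟩⟩) hxr hZQ hZc hcomm hpow ?_ hxQ hxZ hfpf hne ?_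
  · intro a ha hab
    refine hcen a ha fun b hb => ?_
    obtain ⟨w₀, hw₀, hw₀0⟩ := Submodule.exists_mem_ne_zero_of_ne_bot hχ0
    have hc : ⁅a, b⁆ ∈ Z := hcomm a ha b hb
    have h3 := hab b hb w₀ hw₀
    have h4 : rhoC ρ ⁅a, b⁆ w₀ = χ ⟨⁅a, b⁆, hc⟩ • w₀ := mem_simEig.mp hw₀ ⟨_, hc⟩
    rw [h3] at h4
    have h5 : (1 : KK p) • w₀ = χ ⟨⁅a, b⁆, hc⟩ • w₀ := by rw [one_smul]; exact h4
    have h6 := (smul_left_injective (KK p) hw₀0 h5).symm
    have h7 := hinjχ ⟨⁅a, b⁆, hc⟩ h6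
    have h8 : ⁅a, b⁆ = 1 := congrArg Subtype.val h7
    exact commutatorElement_eq_one_iff_mul_comm.mp h8
  · intro w _ h2
    have h3 : w ∈ fx (rhoC ρ) (zpowers x) := mem_fx_zpowers (rhoC ρ) h2
    rw [hfixK, Submodule.mem_bot] at h3
    exact h3

/-- With a commutative group `A`. -/
theorem fpf_count_aux {A : Type*} [CommGroup A] [Finite A] [Module (ZMod p) (Additive A)] (α : F →* MulAut A) (hr : r.Prime)
    (hqp : q ≠ p) (hrp : r ≠ p)
    (Q Z : Subgroup F) (x : F) (hqQ : IsPGroup q Q) (hZcard : Nat.card Z = q) (hZQ : Z ≤ Q)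
    (hZc : ∀ z ∈ Z, ∀ a ∈ Q, z * a = a * z) (hcomm : ∀ a ∈ Q, ∀ b ∈ Q, ⁅a, b⁆ ∈ Z) (hpow : ∀ a ∈ Q, a ^ q ∈ Z)
    (hcen : ∀ a ∈ Q, (∀ b ∈ Q, a * b = b * a) → a ∈ Z) (hxr : x ^ r = 1)
    (hxQ : ∀ a ∈ Q, x * a * x⁻¹ ∈ Q) (hxZ : ∀ z ∈ Z, x * z * x⁻¹ = z)
    (hfpf : ∀ a ∈ Q, x * a * x⁻¹ * a⁻¹ ∈ Z → a ∈ Z) (hne : ∃ a ∈ Q, a ∉ Z) (hfaith : ∀ z ∈ Z, α z = 1 → z = 1)
    (hfix : ∀ a : A, α x a = a → a = 1) : ∃ m : ℕ, m ≠ 0 ∧ r = q ^ m + 1 ∧ Z.relIndex Q = q ^ (2 * m) := by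
  classical
  haveI hFinA : Finite (Additive A) := inferInstanceAs (Finite A)
  haveI hFD : FiniteDimensional (ZMod p) (Additive A) := Module.Finite.of_finite
  let f : F → End (ZMod p) (Additive A) := fun g =>
    (MulEquiv.toAdditive (α g) : Additive A ≃+ Additive A).toAddMonoidHom.toZModLinearMap p
  have hf : ∀ (g : F) (a : Additive A), f g a = Additive.ofMul (α g (Additive.toMul a)) := fun _ _ => rfl
  let ρ : F →* End (ZMod p) (Additive A) :=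
    { toFun := f
      map_one' := LinearMap.ext fun x => by
        rw [hf, Module.End.one_apply]
        simp
      map_mul' := fun a b => LinearMap.ext fun x => by
        rw [Module.End.mul_apply, hf, hf, hf]
        simp }
  have hρ : ∀ (g : F) (a : A), ρ g (Additive.ofMul a) = Additive.ofMul (α g a) := fun _ _ => rfl
  refine fpf_count ρ hr hqp hrp Q Z x hqQ hZcard hZQ hZc hcomm hpow hcen hxr hxQ hxZ hfpf hne ?_ ?_
  · intro z hz h1
    refine hfaith z hz ?_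
    ext a
    have h3 : ρ z (Additive.ofMul a) = Additive.ofMul a := by
      rw [h1]
      rfl
    rw [hρ] at h3
    exact Additive.ofMul.injective h3
  · rw [eq_bot_iff]
    intro v hv
    have h1 := hv x (mem_zpowers x)
    have h2 : α x (Additive.toMul v) = Additive.toMul v := Additive.ofMul.injective h1
    have h3 := hfix _ h2
    exact (Submodule.mem_bot _).mpr (Additive.toMul.injective h3)

/-- With a commutative group `A` of exponent `p`. -/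
theorem fpf_count_aux' {A : Type*} [Group A] [Finite A] (hAc : ∀ a b : A, a * b = b * a) (hAe : ∀ a : A, a ^ p = 1)
    (α : F →* MulAut A) (hr : r.Prime) (hqp : q ≠ p) (hrp : r ≠ p)
    (Q Z : Subgroup F) (x : F) (hqQ : IsPGroup q Q) (hZcard : Nat.card Z = q) (hZQ : Z ≤ Q)
    (hZc : ∀ z ∈ Z, ∀ a ∈ Q, z * a = a * z) (hcomm : ∀ a ∈ Q, ∀ b ∈ Q, ⁅a, b⁆ ∈ Z) (hpow : ∀ a ∈ Q, a ^ q ∈ Z)
    (hcen : ∀ a ∈ Q, (∀ b ∈ Q, a * b = b * a) → a ∈ Z) (hxr : x ^ r = 1)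
    (hxQ : ∀ a ∈ Q, x * a * x⁻¹ ∈ Q) (hxZ : ∀ z ∈ Z, x * z * x⁻¹ = z)
    (hfpf : ∀ a ∈ Q, x * a * x⁻¹ * a⁻¹ ∈ Z → a ∈ Z) (hne : ∃ a ∈ Q, a ∉ Z) (hfaith : ∀ z ∈ Z, α z = 1 → z = 1)
    (hfix : ∀ a : A, α x a = a → a = 1) : ∃ m : ℕ, m ≠ 0 ∧ r = q ^ m + 1 ∧ Z.relIndex Q = q ^ (2 * m) := by
  letI : CommGroup A := { (inferInstance : Group A) with mul_comm := hAc }
  letI : Module (ZMod p) (Additive A) := AddCommGroup.zmodModule (n := p) (fun x => by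
    change Additive.ofMul ((Additive.toMul x) ^ p) = 0
    rw [hAe]
    rfl)
  exact fpf_count_aux α hr hqp hrp Q Z x hqQ hZcard hZQ hZc hcomm hpow hcen hxr hxQ hxZ hfpf hne hfaith hfix

end

section Final

variable {G : Type*} [Group G] [Finite G]

/-- **S3764**. -/
theorem s3764_core {p q r : ℕ} (hp : p.Prime) (hq : q.Prime) (hr : r.Prime) (hpq : p ≠ q) (hpr : p ≠ r) (hqr : q ≠ r)
    (X Q V : Subgroup G) (hX : Nat.card X = r) (hQ : Cfsg.IsExtraspecial q ↥Q) (hXQ : X ≤ Subgroup.normalizer (Q : Set G))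
    (hCQ : Q ⊓ Subgroup.centralizer (X : Set G) = (Subgroup.center ↥Q).map Q.subtype)
    (hV : Cfsg.IsElementaryAbelian p V) (hXV : X ≤ Subgroup.normalizer (V : Set G)) (hQV : Q ≤ Subgroup.normalizer (V : Set G))
    (hfaith : (X ⊔ Q) ⊓ Subgroup.centralizer (V : Set G) = ⊥) (hCV : V ⊓ Subgroup.centralizer (X : Set G) = ⊥) :
    q = 2 ∧ ∃ n : ℕ, r = 2 ^ n + 1 ∧ Nat.card Q = 2 ^ (2 * n + 1) := by
  classical
  haveI hpf : Fact p.Prime := ⟨hp⟩
  haveI hqf : Fact q.Prime := ⟨hq⟩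
  haveI hrf : Fact r.Prime := ⟨hr⟩
  obtain ⟨⟨hQp, hQΦ, hQc⟩, hQz⟩ := hQ
  -- a generator of `X`
  haveI hXc : IsCyclic ↥X := isCyclic_of_prime_card hX
  obtain ⟨x₀, hx₀⟩ := hXc.exists_generator
  set x : G := (x₀ : G) with hxdef
  have hxX : x ∈ X := x₀.2
  have hxr : x ^ r = 1 := by
    have h1 : x₀ ^ r = 1 := by
      rw [← hX]
      exact pow_card_eq_one'
    exact congrArg Subtype.val h1
  have hXz : X = zpowers x := by
    apply le_antisymm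
    · intro a ha
      obtain ⟨k, hk⟩ := Subgroup.mem_zpowers_iff.mp (hx₀ ⟨a, ha⟩)
      refine Subgroup.mem_zpowers_iff.mpr ⟨k, ?_⟩
      have := congrArg Subtype.val hk
      simpa using this
    · exact Subgroup.zpowers_le.mpr hxX
  set Z : Subgroup G := (Subgroup.center ↥Q).map Q.subtype with hZ
  have hZQ : Z ≤ Q := Subgroup.map_subtype_le _
  have hZcard : Nat.card Z = q := by
    rw [hZ, Subgroup.card_map_of_injective Q.subtype_injective, hQz]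
  have hZc : ∀ z ∈ Z, ∀ a ∈ Q, z * a = a * z := by
    rintro _ ⟨z, hz, rfl⟩ a ha
    have h1 := (Subgroup.mem_center_iff.mp hz) ⟨a, ha⟩
    exact (congrArg Subtype.val h1).symm
  have hcen : ∀ a ∈ Q, (∀ b ∈ Q, a * b = b * a) → a ∈ Z := by
    intro a ha hab
    refine ⟨⟨a, ha⟩, ?_, rfl⟩
    refine Subgroup.mem_center_iff.mpr ?_
    rintro ⟨b, hb⟩
    exact Subtype.ext (hab b hb).symm
  have hcomm : ∀ a ∈ Q, ∀ b ∈ Q, ⁅a, b⁆ ∈ Z := by
    intro a ha b hb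
    have h1 : ⁅(⟨a, ha⟩ : ↥Q), ⟨b, hb⟩⁆ ∈ commutator ↥Q := Subgroup.commutator_mem_commutator (mem_top _) (mem_top _)
    rw [hQc] at h1
    exact ⟨_, h1, rfl⟩
  have hpow : ∀ a ∈ Q, a ^ q ∈ Z := by
    intro a ha
    have h1 := Cfsg.Agent.Lib.Transfer.pow_mem_frattini hQp (⟨a, ha⟩ : ↥Q)
    rw [hQΦ] at h1
    exact ⟨_, h1, rfl⟩
  have hxQn : x ∈ normalizer (Q : Set G) := hXQ hxX
  have hxQ : ∀ a ∈ Q, x * a * x⁻¹ ∈ Q := fun a ha => (Subgroup.mem_normalizer_iff.mp hxQn a).mp ha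
  have hzC : ∀ z ∈ Z, z ∈ Q ⊓ centralizer (X : Set G) := fun z hz => by rw [hCQ]; exact hz
  have hxZ : ∀ z ∈ Z, x * z * x⁻¹ = z := by
    intro z hz
    have h1 := Subgroup.mem_centralizer_iff.mp (hzC z hz).2 x hxX
    rw [h1]
    group
  have hxzC : ∀ t ∈ zpowers x, ∀ z ∈ Z, t * z = z * t := by
    intro t ht z hz
    obtain ⟨k, rfl⟩ := Subgroup.mem_zpowers_iff.mp ht
    have h1 : Commute x z := by
      change x * z = z * x
      calc x * z = (x * z * x⁻¹) * x := by group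
        _ = z * x := by rw [hxZ z hz]
    exact (h1.zpow_left k).eq
  have hfpf : ∀ a ∈ Q, x * a * x⁻¹ * a⁻¹ ∈ Z → a ∈ Z := by
    intro a ha hc
    have hZn : zpowers x ≤ normalizer (Z : Set G) := by
      rw [Subgroup.zpowers_le]
      apply Cfsg.Agent.Lib.Coprime.mem_normalizer_of_conj_le
      intro z hz
      rw [hxZ z hz]
      exact hz
    have hcard : (Nat.card Z).Coprime (Nat.card (zpowers x)) := by
      have h1 : Nat.card (zpowers x) ∣ r := by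
        rw [Nat.card_zpowers]
        exact orderOf_dvd_of_pow_eq_one hxr
      rw [hZcard]
      exact Nat.Coprime.coprime_dvd_right h1 ((Nat.coprime_primes hq hr).mpr hqr)
    have hpowZ : ∀ n : ℕ, x ^ n * a * (x ^ n)⁻¹ * a⁻¹ ∈ Z := by
      intro n
      induction n with
      | zero => simp [one_mem]
      | succ n ih =>
        have h1 : x ^ (n + 1) * a * (x ^ (n + 1))⁻¹ * a⁻¹ =
            x * (x ^ n * a * (x ^ n)⁻¹ * a⁻¹) * x⁻¹ * (x * a * x⁻¹ * a⁻¹) := by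
          rw [pow_succ']
          group
        rw [h1, hxZ _ ih]
        exact mul_mem ih hc
    obtain ⟨n, hn, hna⟩ := Cfsg.Agent.Lib.OddLocal.exists_mul_mem_centralizer (N := Z) (A := zpowers x) hZn hcard
      (Or.inr inferInstance) a (by
        intro t ht
        obtain ⟨k, rfl⟩ := exists_pow_of_mem_zpowers ht
        have h1 := hpowZ k
        have h2 : a * x ^ k * a⁻¹ * (x ^ k)⁻¹ = (x ^ k * a * (x ^ k)⁻¹ * a⁻¹)⁻¹ := by group
        rw [h2]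
        exact inv_mem h1)
    have h1 : n * a ∈ Q ⊓ centralizer (X : Set G) := by
      refine Subgroup.mem_inf.mpr ⟨mul_mem (hZQ hn) ha, ?_⟩
      rw [hXz]
      exact hna
    rw [hCQ] at h1
    have h2 : a = n⁻¹ * (n * a) := by group
    rw [h2]
    exact mul_mem (inv_mem hn) h1
  have hne : ∃ a ∈ Q, a ∉ Z := by
    by_contra hcon
    push Not at hcon
    have hQZ : Q ≤ Z := hcon
    have h1 : ∀ a b : ↥Q, a * b = b * a := by
      intro a b
      exact Subtype.ext (hZc _ (hQZ a.2) _ b.2)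
    have h2 : commutator ↥Q = ⊥ := by
      rw [commutator_def, Subgroup.commutator_eq_bot_iff_le_centralizer]
      intro a _
      rw [Subgroup.mem_centralizer_iff]
      intro b _
      exact h1 b a
    rw [h2] at hQc
    rw [← hQc, Subgroup.card_bot] at hQz
    exact hq.one_lt.ne hQz
  -- the action
  set N : Subgroup G := normalizer (V : Set G) with hN
  have hVn : ∀ y ∈ N, ∀ a ∈ V, y * a * y⁻¹ ∈ V := fun y hy a ha => (Subgroup.mem_normalizer_iff.mp hy a).mp ha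
  let α : ↥N →* MulAut ↥V := conjOn N V hVn
  have hxN : x ∈ N := hXV hxX
  let x' : ↥N := ⟨x, hxN⟩
  have hQN : Q ≤ N := hQV
  have hZN : Z ≤ N := hZQ.trans hQN
  have hAc : ∀ a b : ↥V, a * b = b * a := fun a b => by
    haveI := hV.1
    exact mul_comm' a b
  obtain ⟨m, hm0, hrm, hidx⟩ := fpf_count_aux' (F := ↥N) (p := p) (q := q) (r := r) hAc (fun a => Subtype.ext (hV.2 a a.2)) α hr hpq.symm hpr.symm
    (Q.subgroupOf N) (Z.subgroupOf N) x'
    (hQp.comap_of_injective _ N.subtype_injective)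
    (by
      rw [← hZcard]
      exact Nat.card_congr (Subgroup.subgroupOfEquivOfLe hZN).toEquiv)
    (fun z hz => Subgroup.mem_subgroupOf.mpr (hZQ (Subgroup.mem_subgroupOf.mp hz)))
    (fun z hz a ha => Subtype.ext (hZc z (Subgroup.mem_subgroupOf.mp hz) a (Subgroup.mem_subgroupOf.mp ha)))
    (fun a ha b hb => Subgroup.mem_subgroupOf.mpr (hcomm a (Subgroup.mem_subgroupOf.mp ha) b (Subgroup.mem_subgroupOf.mp hb)))
    (fun a ha => Subgroup.mem_subgroupOf.mpr (hpow a (Subgroup.mem_subgroupOf.mp ha)))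
    (fun a ha hab => Subgroup.mem_subgroupOf.mpr (hcen a (Subgroup.mem_subgroupOf.mp ha) (fun b hb =>
      congrArg Subtype.val (hab ⟨b, hQN hb⟩ (Subgroup.mem_subgroupOf.mpr hb)))))
    (Subtype.ext hxr)
    (fun a ha => Subgroup.mem_subgroupOf.mpr (hxQ a (Subgroup.mem_subgroupOf.mp ha)))
    (fun z hz => Subtype.ext (hxZ z (Subgroup.mem_subgroupOf.mp hz)))
    (fun a ha hc => Subgroup.mem_subgroupOf.mpr (hfpf a (Subgroup.mem_subgroupOf.mp ha) (Subgroup.mem_subgroupOf.mp hc)))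
    (by
      obtain ⟨a, ha, ha2⟩ := hne
      exact ⟨⟨a, hQN ha⟩, Subgroup.mem_subgroupOf.mpr ha, fun h => ha2 (Subgroup.mem_subgroupOf.mp h)⟩)
    (by
      intro z hz h1
      have hzQ : (z : G) ∈ Q := hZQ (Subgroup.mem_subgroupOf.mp hz)
      have hzC : (z : G) ∈ (X ⊔ Q) ⊓ centralizer (V : Set G) := by
        refine Subgroup.mem_inf.mpr ⟨(le_sup_right : Q ≤ X ⊔ Q) hzQ, ?_⟩
        rw [Subgroup.mem_centralizer_iff]
        intro v hv
        have h2 := congrArg (fun β : MulAut ↥V => ((β ⟨v, hv⟩ : ↥V) : G)) h1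
        have h3 : (z : G) * v * (z : G)⁻¹ = v := h2
        calc v * (z : G) = ((z : G) * v * (z : G)⁻¹) * z := by rw [h3]
          _ = z * v := by group
      rw [hfaith, Subgroup.mem_bot] at hzC
      exact Subtype.ext hzC)
    (by
      intro a h1
      have h2 : x * (a : G) * x⁻¹ = a := congrArg Subtype.val h1
      have hac : Commute x (a : G) := by
        change x * (a : G) = a * x
        calc x * (a : G) = (x * a * x⁻¹) * x := by group
          _ = a * x := by rw [h2]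
      have h3 : (a : G) ∈ V ⊓ centralizer (X : Set G) := by
        refine Subgroup.mem_inf.mpr ⟨a.2, ?_⟩
        rw [hXz, Subgroup.mem_centralizer_iff]
        intro t ht
        obtain ⟨k, rfl⟩ := Subgroup.mem_zpowers_iff.mp ht
        exact (hac.zpow_left k).eq
      rw [hCV, Subgroup.mem_bot] at h3
      exact Subtype.ext h3)
  have hidx' : Z.relIndex Q = q ^ (2 * m) := by
    rw [← hidx]
    exact (Subgroup.relIndex_subgroupOf hQN).symm
  have hgt : 2 ≤ q ^ m := by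
    calc 2 ≤ q := hq.two_le
      _ = q ^ 1 := (pow_one q).symm
      _ ≤ q ^ m := Nat.pow_le_pow_right hq.pos (by omega)
  have hr2 : r ≠ 2 := by omega
  have hrodd : Odd r := hr.odd_of_ne_two hr2
  have hqeven : Even (q ^ m) := by
    rw [hrm] at hrodd
    by_contra h
    rw [Nat.not_even_iff_odd] at h
    exact (Nat.not_even_iff_odd.mpr hrodd) (h.add_odd odd_one)
  have hq2 : q = 2 := by
    have h2 : Even q := (Nat.even_pow.mp hqeven).1
    have h1 : 2 ∣ q := even_iff_two_dvd.mp h2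
    exact ((Nat.prime_dvd_prime_iff_eq Nat.prime_two hq).mp h1).symm
  subst hq2
  refine ⟨rfl, m, hrm, ?_⟩
  have h1 : Nat.card Q = Z.relIndex Q * Nat.card Z := by
    have h2 := Subgroup.index_mul_card (Z.subgroupOf Q)
    rw [Nat.card_congr (Subgroup.subgroupOfEquivOfLe hZQ).toEquiv] at h2
    exact h2.symm
  rw [h1, hidx', hZcard]
  ring

end Final

end Cfsg.Agent.Lib.FT
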