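import Cfsg.Agent.Lib.FT.BG8a

/-!
BG section 8: Bender's lemma on two maximal subgroups and S1482.
-/

set_option autoImplicit false
set_option linter.unusedSectionVars false
set_option linter.style.haveILetI false

namespace Cfsg.Agent.Lib.FT

open Subgroup Cfsg Cfsg.Agent.Lib.OddLocal

open Cfsg.Agent.Lib.Coprime (mem_conj_map conj_mem_conj_map conj_map_conj_map conj_map_one
  conj_map_mono mem_normalizer_of_conj_le conj_map_eq_iff_mem_normalizer isPGroup_conj_map)

open scoped commutatorElement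

universe u

variable {G : Type u} [Group G] [Finite G]

/-! ### Primary parts -/

/-- An element of a nilpotent subgroup lies in `K` when the relevant primary parts do. -/
theorem mem_of_parts {W K : Subgroup G} (hW : Group.IsNilpotent W) {x : G} (hx : x ∈ W)
    (h : ∀ (r : ℕ) [Fact r.Prime], r ∣ orderOf x → Oq r W ≤ K) : x ∈ K := by
  apply Cfsg.Agent.Lib.PGroups.mem_of_primary_powers K x
  intro a ha hpp
  obtain ⟨r, l, hr, hl, hal⟩ := hpp
  have hr' : r.Prime := hr.nat_prime
  haveI : Fact r.Prime := ⟨hr'⟩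
  have haW : a ∈ W := (Subgroup.zpowers_le.2 hx) ha
  have hd : orderOf a ∣ orderOf x := orderOf_dvd_of_mem_zpowers ha
  have hrd : r ∣ orderOf x := (dvd_pow_self r hl.ne').trans (hal ▸ hd)
  apply h r hrd
  exact mem_Oq hW haW (k := l) (by rw [hal]; exact pow_orderOf_eq_one a)

theorem Oq_le_Oq {A B : Subgroup G} (r : ℕ) [Fact r.Prime] (hAB : A ≤ B) (hB : Group.IsNilpotent B) :
    Oq r A ≤ Oq r B := by
  intro x hx
  obtain ⟨k, hk⟩ := Oq_isPGroup r A ⟨x, hx⟩
  exact mem_Oq hB (hAB (Oq_le r A hx)) (k := k) (congrArg Subtype.val hk)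

theorem Oq'_le_Oq' {A B : Subgroup G} (r : ℕ) [Fact r.Prime] (hAB : A ≤ B) (hB : Group.IsNilpotent B) :
    Oq' r A ≤ Oq' r B := by
  intro x hx
  exact mem_Oq' hB (hAB (Oq'_le r A hx)) (orderOf_Oq'_coprime hx)

/-- The `t`-part lies in the `r'`-part. -/
theorem Oq_le_Oq' {B : Subgroup G} {r t : ℕ} [Fact r.Prime] [ht : Fact t.Prime] (hrt : t ≠ r)
    (hB : Group.IsNilpotent B) : Oq t B ≤ Oq' r B := by
  intro x hx
  refine mem_Oq' hB (Oq_le t B hx) ?_
  obtain ⟨k, hk⟩ := Cfsg.Agent.Lib.PGroups.exists_orderOf_of_mem_isPGroup (Oq_isPGroup t B) hx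
  rw [hk]
  exact Nat.Coprime.pow_left _ ((Nat.coprime_primes Fact.out Fact.out).2 hrt)

/-- A normal `q`-subgroup lies in `O_q`. -/
theorem le_Oq {Y H : Subgroup G} {q : ℕ} (hYH : Y ≤ H) (hn : H ≤ normalizer (Y : Set G))
    (hY : IsPGroup q Y) : Y ≤ Oq q H := by
  have hnn : (Y.subgroupOf H).Normal := by
    constructor
    intro x hx g
    rw [Subgroup.mem_subgroupOf] at hx ⊢
    exact (Subgroup.mem_normalizer_iff.1 (hn g.2) _).1 hx
  have hp : IsPGroup q (Y.subgroupOf H) := hY.comap_of_injective H.subtype H.subtype_injective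
  have hle := Cfsg.Agent.Lib.Basic.le_pCore hnn hp
  intro y hy
  exact ⟨⟨y, hYH hy⟩, hle (Subgroup.mem_subgroupOf.2 hy), rfl⟩

theorem le_normalizer_Oq (q : ℕ) (H : Subgroup G) : H ≤ normalizer (Oq q H : Set G) := by
  intro h hh
  apply mem_normalizer_of_conj_le
  rintro _ ⟨x, hx, rfl⟩
  haveI : (pCore q H).Normal := Cfsg.Agent.Lib.Basic.pCore_normal q
  exact ⟨⟨h, hh⟩ * x * ⟨h, hh⟩⁻¹, (inferInstance : (pCore q H).Normal).conj_mem x hx _, by simp⟩

theorem normalizer_le_normalizer_Oq (q : ℕ) (H : Subgroup G) :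
    normalizer (H : Set G) ≤ normalizer (Oq q H : Set G) := by
  intro g hg
  apply mem_normalizer_of_conj_map_le
  apply le_Oq
  · rintro _ ⟨x, hx, rfl⟩
    exact (Subgroup.mem_normalizer_iff.1 hg x).1 (Oq_le q H hx)
  · exact le_normalizer_conj (le_normalizer_Oq q H) hg
  · exact (Oq_isPGroup q H).map _

/-- The normalizer of a nilpotent subgroup normalizes its `q'`-part. -/
theorem normalizer_le_normalizer_Oq'' (q : ℕ) [Fact q.Prime] {H : Subgroup G} (hH : Group.IsNilpotent H) :
    normalizer (H : Set G) ≤ normalizer (Oq' q H : Set G) := by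
  intro g hg
  apply mem_normalizer_of_conj_map_le
  rintro _ ⟨x, hx, rfl⟩
  refine mem_Oq' hH ((Subgroup.mem_normalizer_iff.1 hg x).1 (Oq'_le q H hx)) ?_
  have h1 := orderOf_Oq'_coprime hx
  show (orderOf (g * x * g⁻¹)).Coprime q
  rwa [Cfsg.Agent.Lib.PGroups.orderOf_conj_eq]

/-- Coatoms of a minimal simple group of odd order have the maximality property. -/
theorem maxLoc_of_coatom (hG : IsMinSimpleOddOrder G) {H : Subgroup G} (hH : IsCoatom H) : MaxLoc H := by
  intro t Y ht hY hY1 hHY
  have hne : Y ≠ ⊤ := IsMinSimpleOddOrder.ne_top_of_isPGroup hG ht hY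
  exact (coatom_normalizer_eq hG hH hY1 hne hHY).le

/-- A subgroup of a nilpotent group whose element commutes with the `u`-parts, `u ≠ t`, commutes with the
`t'`-part. -/
theorem mem_of_parts' {W K : Subgroup G} (hW : Group.IsNilpotent W) {t : ℕ} [Fact t.Prime] {x : G}
    (hx : x ∈ Oq' t W) (h : ∀ (u : ℕ) [Fact u.Prime], u ≠ t → Oq u W ≤ K) : x ∈ K := by
  have hW' : Group.IsNilpotent (Oq' t W) := nilp_of_le (Oq'_le t W) hW
  refine mem_of_parts hW' hx fun u hu hd => ?_
  have hut : u ≠ t := by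
    rintro rfl
    have h1 := orderOf_Oq'_coprime hx
    exact (Nat.Prime.coprime_iff_not_dvd (Fact.out : u.Prime)).1 h1.symm hd
  exact (Oq_le_Oq u (Oq'_le t W) hW).trans (h u hut)

/-- **Bender's claim.** -/
theorem bender_claim {H L D : Subgroup G} (hHm : MaxLoc H) (hLm : MaxLoc L) (hHs : Group.IsSolvable H)
    (hDH : D ≤ H) (hDL : D ≤ L) (hD : H ⊓ L ≤ D)
    (hFW : fittingOf H ≤ fittingOf D) (hEW : fittingOf L ≤ fittingOf D)
    {r : ℕ} [hr : Fact r.Prime] (hFr : Oq r (fittingOf H) ≠ ⊥) (hEr : Oq r (fittingOf L) ≠ ⊥)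
    {S : Subgroup G} (hSp : IsPGroup r S) (hSU : S ≤ centralizer (Oq' r (fittingOf H) : Set G))
    (hWS : Oq r (fittingOf D) ≤ S) : S ≤ centralizer (Oq' r (fittingOf D) : Set G) := by
  set F := fittingOf H with hF
  set E := fittingOf L with hE
  set W := fittingOf D with hW
  have hWn : Group.IsNilpotent W := fittingOf_isNilpotent D
  have hFn : Group.IsNilpotent F := fittingOf_isNilpotent H
  have hEn : Group.IsNilpotent E := fittingOf_isNilpotent L
  set W' := Oq' r W with hW'
  set S' := S ⊓ centralizer (W' : Set G) with hS'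
  by_contra hnot
  have hlt : S' < S := lt_of_le_of_ne inf_le_left (fun h => hnot (inf_eq_left.1 h))
  obtain ⟨g, hg, hgS'⟩ := SetLike.exists_of_lt (lt_inf_normalizer hSp hlt)
  have hgS : g ∈ S := hg.1
  have hgN : g ∈ normalizer (S' : Set G) := hg.2
  have hWrS' : Oq r W ≤ S' := by
    refine le_inf hWS fun x hx => ?_
    rw [Subgroup.mem_centralizer_iff]
    intro y hy
    exact (Oq_comm_Oq' hWn hx hy).symm
  set Gh := centralizer (S' : Set G) with hGh
  have hGhH : Gh ≤ H := (Subgroup.centralizer_le ((Oq_le_Oq r hFW hWn).trans hWrS')).trans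
    (hHm.centralizer_le hr.out (Oq_isPGroup r F) hFr
      ((fittingOf_normalized H).trans (normalizer_le_normalizer_Oq r F)))
  have hGhL : Gh ≤ L := (Subgroup.centralizer_le ((Oq_le_Oq r hEW hWn).trans hWrS')).trans
    (hLm.centralizer_le hr.out (Oq_isPGroup r E) hEr
      ((fittingOf_normalized L).trans (normalizer_le_normalizer_Oq r E)))
  have hGhD : Gh ≤ D := (le_inf hGhH hGhL).trans hD
  have hW'Gh : W' ≤ Gh := le_centralizer_symm inf_le_right
  have hgGh : g ∈ normalizer (Gh : Set G) := normalizer_le_normalizer_cent S' hgN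
  have hgcomm : ∀ (t : ℕ) [Fact t.Prime], t ≠ r → ∀ x ∈ Oq t W, x * g = g * x := by
    intro t ht htr x hx
    set P := Oq t Gh with hP
    have hPGh : P ≤ Gh := Oq_le t Gh
    have hPp : IsPGroup t P := Oq_isPGroup t Gh
    have hWtW' : Oq t W ≤ W' := Oq_le_Oq' htr hWn
    have hDW : ∀ u : ℕ, D ≤ normalizer (Oq u W : Set G) := fun u =>
      (fittingOf_normalized D).trans (normalizer_le_normalizer_Oq u W)
    have hWtP : Oq t W ≤ P := le_Oq (hWtW'.trans hW'Gh) (hGhD.trans (hDW t)) (Oq_isPGroup t W)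
    have hgP : g ∈ normalizer (P : Set G) := normalizer_le_normalizer_Oq t Gh hgGh
    set B := Oq t F with hB
    have hBP : B ≤ P := (Oq_le_Oq t hFW hWn).trans hWtP
    have hBU : B ≤ Oq' r F := Oq_le_Oq' htr hFn
    have hgB : g ∈ centralizer (Oq' r F : Set G) := hSU hgS
    have hAp : IsPGroup r (zpowers g) := hSp.to_le (Subgroup.zpowers_le.2 hgS)
    have hAcop : (Nat.card (zpowers g)).Coprime t := by
      obtain ⟨k, hk⟩ := IsPGroup.iff_card.1 hAp
      rw [hk]
      exact Nat.Coprime.pow_left _ ((Nat.coprime_primes hr.out Fact.out).2 htr.symm)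
    have hAC : zpowers g ≤ centralizer (B : Set G) := by
      rw [Subgroup.zpowers_le]
      exact (Subgroup.centralizer_le hBU) hgB
    have hAB : ∀ a ∈ zpowers g, ∀ b ∈ B, a * b = b * a := fun a ha b hb =>
      (Subgroup.mem_centralizer_iff.1 (hAC ha) b hb).symm
    have hC : ⁅P ⊓ centralizer (B : Set G), zpowers g⁆ = ⊥ := by
      rw [eq_bot_iff, Subgroup.commutator_le]
      rintro c ⟨hcP, hcB⟩ a ha
      have hcGh : c ∈ Gh := hPGh hcP
      have hcD : c ∈ D := hGhD hcGh
      have hcH : c ∈ H := hDH hcD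
      -- `c` centralizes `O_{t'}(W)`
      have hcW : ∀ y ∈ Oq' t W, c * y = y * c := by
        intro y hy
        have hK : y ∈ centralizer ({c} : Set G) := by
          refine mem_of_parts' hWn hy fun u hu hut => ?_
          intro a' ha'
          rw [Subgroup.mem_centralizer_singleton_iff]
          by_cases hur : u = r
          · subst hur
            exact Subgroup.mem_centralizer_iff.1 hcGh a' (hWrS' ha')
          · have ha'W' : a' ∈ Gh := hW'Gh (Oq_le_Oq' hur hWn ha')
            have hd : Disjoint P (Oq u W) := IsPGroup.disjoint_of_ne t u hut.symm P (Oq u W) hPp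
              (Oq_isPGroup u W)
            have h1 : ⁅c, a'⁆ = 1 := by
              apply Subgroup.disjoint_def.1 hd
              · rw [commutatorElement_def, mul_assoc, mul_assoc, ← mul_assoc a']
                exact mul_mem hcP ((Subgroup.mem_normalizer_iff.1 (le_normalizer_Oq t Gh ha'W') _).1
                  (inv_mem hcP))
              · rw [commutatorElement_def]
                exact mul_mem ((Subgroup.mem_normalizer_iff.1 (hDW u hcD) _).1 ha') (inv_mem ha')
            exact (commutatorElement_eq_one_iff_mul_comm.1 h1).symm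
        exact (Subgroup.mem_centralizer_singleton_iff.1 hK).symm
      have hcF : c ∈ centralizer (F : Set G) := by
        rw [Subgroup.mem_centralizer_iff]
        intro y hy
        refine (comm_of_comm_parts t hFn ?_ ?_ hy).symm
        · intro b hb
          exact (Subgroup.mem_centralizer_iff.1 hcB b hb).symm
        · intro b hb
          exact hcW b (Oq'_le_Oq' t hFW hWn hb)
      have hcF' : c ∈ F := inf_centralizer_fittingOf_le hHs ⟨hcH, hcF⟩
      obtain ⟨k, hk⟩ := hPp ⟨c, hcP⟩
      have hcB' : c ∈ B := mem_Oq hFn hcF' (k := k) (congrArg Subtype.val hk)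
      have h2 : g ∈ centralizer ({c} : Set G) := by
        rw [Subgroup.mem_centralizer_singleton_iff]
        exact (Subgroup.mem_centralizer_iff.1 hgB c (hBU hcB')).symm
      have h3 : a ∈ centralizer ({c} : Set G) := (Subgroup.zpowers_le.2 h2) ha
      have h4 := Subgroup.mem_centralizer_singleton_iff.1 h3
      rw [Subgroup.mem_bot]
      exact commutatorElement_eq_one_iff_mul_comm.2 h4.symm
    have h1 := Cfsg.Agent.Lib.Coprime.thompson_A_cross_B (zpowers g) B (Oq_isPGroup t F) hAcop hAB _ P rfl hPp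
      (Subgroup.zpowers_le.2 hgP) (hBP.trans Subgroup.le_normalizer) hC
    have h2 : ⁅x, g⁆ ∈ (⊥ : Subgroup G) := by
      rw [← h1]
      exact Subgroup.commutator_mem_commutator (hWtP hx) (Subgroup.mem_zpowers g)
    rw [Subgroup.mem_bot] at h2
    exact commutatorElement_eq_one_iff_mul_comm.1 h2
  apply hgS'
  refine Subgroup.mem_inf.2 ⟨hgS, ?_⟩
  rw [Subgroup.mem_centralizer_iff]
  intro x hx
  have hK : x ∈ centralizer ({g} : Set G) := by
    refine mem_of_parts' hWn hx fun u hu hur => ?_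
    intro a' ha'
    rw [Subgroup.mem_centralizer_singleton_iff]
    exact hgcomm u hur a' ha'
  exact Subgroup.mem_centralizer_singleton_iff.1 hK

/-- One side: `Z(J(S))` is normal in the maximal subgroup. -/
theorem bender_side (hG : IsMinSimpleOddOrder G) {H S : Subgroup G} (hHs : Group.IsSolvable H)
    {r : ℕ} [hr : Fact r.Prime] (hUH : centralizer (Oq' r (fittingOf H) : Set G) ≤ H)
    (hS : IsMaxP r S (centralizer (Oq' r (fittingOf H) : Set G))) :
    H ≤ normalizer (centerThompsonOf r S : Set G) := by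
  set F := fittingOf H with hF
  have hFn : Group.IsNilpotent F := fittingOf_isNilpotent H
  set U := centralizer (Oq' r F : Set G) with hU
  have hUs : Group.IsSolvable U := solv_of_le hUH hHs
  set C := centerThompsonOf r S with hC
  have hCS : C ≤ S := centerThompsonOf_le S
  have hHF : H ≤ normalizer (F : Set G) := fittingOf_normalized H
  have hHFr : H ≤ normalizer (Oq r F : Set G) := hHF.trans (normalizer_le_normalizer_Oq r F)
  have hFrU : Oq r F ≤ U := by
    intro x hx
    rw [hU, Subgroup.mem_centralizer_iff]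
    intro y hy
    exact (Oq_comm_Oq' hFn hx hy).symm
  -- `O_{r'}(U)` is central
  have hY : ∀ y ∈ Oq' r U, ∀ u ∈ U, y * u = u * y := by
    intro y hy u hu
    have hyU : y ∈ U := Oq'_le r U hy
    have hyH : y ∈ H := hUH hyU
    have hyF : y ∈ centralizer (F : Set G) := by
      rw [Subgroup.mem_centralizer_iff]
      intro x hx
      refine (comm_of_comm_parts r hFn ?_ ?_ hx).symm
      · intro a ha
        have hd : Disjoint (Oq' r U) (Oq r F) := by
          apply Subgroup.disjoint_of_coprime_natCard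
          obtain ⟨k, hk⟩ := IsPGroup.iff_card.1 (Oq_isPGroup r F)
          rw [hk]
          exact Nat.Coprime.pow_right _ (Oq'_card_coprime r U)
        have h1 : ⁅y, a⁆ = 1 := by
          apply Subgroup.disjoint_def.1 hd
          · rw [commutatorElement_def, mul_assoc, mul_assoc, ← mul_assoc a]
            exact mul_mem hy ((Subgroup.mem_normalizer_iff.1 (le_normalizer_Oq' r U (hFrU ha)) _).1 (inv_mem hy))
          · rw [commutatorElement_def]
            exact mul_mem ((Subgroup.mem_normalizer_iff.1 (hHFr hyH) _).1 ha) (inv_mem ha)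
        exact commutatorElement_eq_one_iff_mul_comm.1 h1
      · intro b hb
        exact (Subgroup.mem_centralizer_iff.1 hyU b hb).symm
    have hyF' : y ∈ F := inf_centralizer_fittingOf_le hHs ⟨hyH, hyF⟩
    have hyO : y ∈ Oq' r F := mem_Oq' hFn hyF' (orderOf_Oq'_coprime hy)
    exact Subgroup.mem_centralizer_iff.1 hu y hyO
  have hUC : U ≤ normalizer (C : Set G) := by
    intro u hu
    obtain ⟨o, ho, hou⟩ := zj_factor hS hUs (odd_card_subgroup hG U) u hu
    have ho' : o ∈ normalizer (C : Set G) := by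
      apply Subgroup.centralizer_le_normalizer
      rw [Subgroup.mem_centralizer_iff]
      intro c hc
      exact (hY o ho c (hS.le (hCS hc))).symm
    have : u = o * (o⁻¹ * u) := by group
    rw [this]
    exact mul_mem ho' hou
  intro h hh
  have hhU : h ∈ normalizer (U : Set G) := normalizer_le_normalizer_cent _ ((hHF.trans (normalizer_le_normalizer_Oq'' r hFn)) hh)
  have hconj := hS.conj h
  have h2 : U.map (MulAut.conj h).toMonoidHom = U := (conj_map_eq_iff_mem_normalizer U h).2 hhU
  rw [h2] at hconj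
  obtain ⟨u, hu, huh⟩ := hS.exists_conj_eq hconj
  have h3 : u⁻¹ * h ∈ normalizer (S : Set G) := by
    rw [← conj_map_eq_iff_mem_normalizer, ← conj_map_conj_map, ← huh, conj_map_conj_map, inv_mul_cancel, conj_map_one]
  have h4 : u⁻¹ * h ∈ normalizer (C : Set G) := normalizer_le_normalizer_cJ S h3
  have : h = u * (u⁻¹ * h) := by group
  rw [this]
  exact mul_mem (hUC hu) h4

/-- A nontrivial `t`-subgroup of `B`: `t` divides the order of `B`. -/
theorem dvd_card_of_ne_bot {A B : Subgroup G} {t : ℕ} [ht : Fact t.Prime] (hA : IsPGroup t A) (h : A ≤ B)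
    (hne : A ≠ ⊥) : t ∣ Nat.card B := by
  obtain ⟨k, hk⟩ := IsPGroup.iff_card.1 hA
  have hk0 : k ≠ 0 := by
    rintro rfl
    apply hne
    apply Subgroup.card_eq_one.1
    simpa using hk
  have h1 : t ∣ Nat.card A := by
    rw [hk]
    exact dvd_pow_self t hk0
  exact h1.trans (Subgroup.card_dvd_of_le h)

theorem dvd_card_fitting {H D : Subgroup G} (hHs : Group.IsSolvable H) (hDH : D ≤ H)
    (hFW : fittingOf H ≤ fittingOf D) {t : ℕ} [ht : Fact t.Prime] (hd : t ∣ Nat.card (fittingOf D)) :
    t ∣ Nat.card (fittingOf H) := by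
  set F := fittingOf H with hF
  set W := fittingOf D with hW
  have hWn : Group.IsNilpotent W := fittingOf_isNilpotent D
  by_contra hnd
  have h1 : Oq t W ≤ centralizer (F : Set G) := by
    intro a ha
    rw [Subgroup.mem_centralizer_iff]
    intro y hy
    have hco : (orderOf y).Coprime t := by
      refine Nat.Coprime.coprime_dvd_left (Subgroup.orderOf_dvd_natCard F hy) ?_
      exact ((Nat.Prime.coprime_iff_not_dvd ht.out).2 hnd).symm
    have hyO : y ∈ Oq' t W := mem_Oq' hWn (hFW hy) hco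
    exact (Oq_comm_Oq' hWn ha hyO).symm
  have h2 : Oq t W ≤ F := (le_inf ((Oq_le t W).trans ((fittingOf_le D).trans hDH)) h1).trans
    (inf_centralizer_fittingOf_le hHs)
  exact hnd (dvd_card_of_ne_bot (Oq_isPGroup t W) h2 (Oq_ne_bot hWn hd))

/-- **Bender's lemma.** -/
theorem bender_lemma (hG : IsMinSimpleOddOrder G) {H L : Subgroup G} (hH : IsCoatom H) (hL : IsCoatom L)
    (hne : H ≠ L) (hFL : fittingOf H ≤ L) (hEH : fittingOf L ≤ H)
    (hF2 : 2 ≤ (Nat.card (fittingOf H)).primeFactors.card) : False := by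
  have hHs := IsMinSimpleOddOrder.isSolvable hG hH.1
  have hLs := IsMinSimpleOddOrder.isSolvable hG hL.1
  have hHm := maxLoc_of_coatom hG hH
  have hLm := maxLoc_of_coatom hG hL
  set D := H ⊓ L with hD
  have hDH : D ≤ H := inf_le_left
  have hDL : D ≤ L := inf_le_right
  have hFW : fittingOf H ≤ fittingOf D := le_fittingOf (le_inf (fittingOf_le H) hFL)
    (hDH.trans (fittingOf_normalized H)) (fittingOf_isNilpotent H)
  have hEW : fittingOf L ≤ fittingOf D := le_fittingOf (le_inf hEH (fittingOf_le L))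
    (hDL.trans (fittingOf_normalized L)) (fittingOf_isNilpotent L)
  set F := fittingOf H with hF
  set E := fittingOf L with hE
  set W := fittingOf D with hW
  have hFn : Group.IsNilpotent F := fittingOf_isNilpotent H
  have hEn : Group.IsNilpotent E := fittingOf_isNilpotent L
  have hWn : Group.IsNilpotent W := fittingOf_isNilpotent D
  have hFE : ∀ (t : ℕ) [Fact t.Prime], t ∣ Nat.card F → t ∣ Nat.card E := fun t _ hd =>
    dvd_card_fitting hLs hDL hEW (hd.trans (Subgroup.card_dvd_of_le hFW))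
  obtain ⟨r, s, hr, hs, hsr⟩ : ∃ r s : ℕ, r ∈ (Nat.card F).primeFactors ∧ s ∈ (Nat.card F).primeFactors ∧ s ≠ r := by
    obtain ⟨r, hr, s, hs, h⟩ := Finset.one_lt_card.1 (show 1 < (Nat.card F).primeFactors.card from hF2)
    exact ⟨r, s, hr, hs, h.symm⟩
  haveI hrf : Fact r.Prime := ⟨Nat.prime_of_mem_primeFactors hr⟩
  haveI hsf : Fact s.Prime := ⟨Nat.prime_of_mem_primeFactors hs⟩
  have hrF := Nat.dvd_of_mem_primeFactors hr
  have hsF := Nat.dvd_of_mem_primeFactors hs
  have hrE := hFE r hrF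
  have hsE := hFE s hsF
  have hFr : Oq r F ≠ ⊥ := Oq_ne_bot hFn hrF
  have hEr : Oq r E ≠ ⊥ := Oq_ne_bot hEn hrE
  set T := centralizer (Oq' r W : Set G) with hT
  have hWrT : Oq r W ≤ T := by
    intro x hx
    rw [hT, Subgroup.mem_centralizer_iff]
    intro y hy
    exact (Oq_comm_Oq' hWn hx hy).symm
  obtain ⟨S, hS, hWrS⟩ := exists_isMaxP_ge hWrT (Oq_isPGroup r W)
  have hTU : T ≤ centralizer (Oq' r F : Set G) := Subgroup.centralizer_le (Oq'_le_Oq' r hFW hWn)
  have hTV : T ≤ centralizer (Oq' r E : Set G) := Subgroup.centralizer_le (Oq'_le_Oq' r hEW hWn)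
  have hSU : IsMaxP r S (centralizer (Oq' r F : Set G)) := ⟨hS.le.trans hTU, hS.isP, fun D' h1 h2 h3 =>
    hS.max D' (bender_claim hHm hLm hHs hDH hDL le_rfl hFW hEW hFr hEr h2 h1 (hWrS.trans h3)) h2 h3⟩
  have hSV : IsMaxP r S (centralizer (Oq' r E : Set G)) := ⟨hS.le.trans hTV, hS.isP, fun D' h1 h2 h3 =>
    hS.max D' (bender_claim hLm hHm hLs hDL hDH (by rw [hD, inf_comm]) hEW hFW hEr hFr h2 h1 (hWrS.trans h3)) h2 h3⟩
  have hUH : centralizer (Oq' r F : Set G) ≤ H := by
    have h1 : Zt s H ≤ Oq' r F := (Oq_le_Oq s inf_le_left hFn).trans (Oq_le_Oq' hsr hFn)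
    exact (Subgroup.centralizer_le h1).trans
      (hHm.centralizer_le hsf.out (Zt_isPGroup s H) (Zt_ne_bot hsF) (Zt_normalized s H))
  have hVL : centralizer (Oq' r E : Set G) ≤ L := by
    have h1 : Zt s L ≤ Oq' r E := (Oq_le_Oq s inf_le_left hEn).trans (Oq_le_Oq' hsr hEn)
    exact (Subgroup.centralizer_le h1).trans
      (hLm.centralizer_le hsf.out (Zt_isPGroup s L) (Zt_ne_bot hsE) (Zt_normalized s L))
  have hC1 := bender_side hG hHs hUH hSU
  have hC2 := bender_side hG hLs hVL hSV
  have hS1 : S ≠ ⊥ := by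
    intro h
    apply hFr
    rw [eq_bot_iff, ← h]
    exact (Oq_le_Oq r hFW hWn).trans hWrS
  have hCne : centerThompsonOf r S ≠ ⊥ := Cfsg.Agent.Lib.PLocal.centerThompsonOf_ne_bot hS.isP hS1
  have hCtop : centerThompsonOf r S ≠ ⊤ := IsMinSimpleOddOrder.ne_top_of_isPGroup hG hrf.out
    (hS.isP.to_le (centerThompsonOf_le S))
  exact hne ((coatom_normalizer_eq hG hH hCne hCtop hC1).symm.trans
    (coatom_normalizer_eq hG hL hCne hCtop hC2))

/-- The Fitting subgroup of `L` lies in `H` when `Z(F(H)) ≤ L`. -/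
theorem fitting_le_of_center_le {H L : Subgroup G} (hHm : MaxLoc H) (hZ : ∀ t : ℕ, Zt t H ≤ L)
    (hP : ∀ (t : ℕ) [Fact t.Prime], t ∣ Nat.card (fittingOf L) → t ∣ Nat.card (fittingOf H))
    (hF2 : 2 ≤ (Nat.card (fittingOf H)).primeFactors.card) : fittingOf L ≤ H := by
  have hEn : Group.IsNilpotent (fittingOf L) := fittingOf_isNilpotent L
  intro x hx
  refine mem_of_parts hEn hx fun r hr hd => ?_
  have hrE : r ∣ Nat.card (fittingOf L) := hd.trans (Subgroup.orderOf_dvd_natCard _ hx)
  have hrF := hP r hrE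
  obtain ⟨s, hs, hsr⟩ := Finset.exists_mem_ne (show 1 < (Nat.card (fittingOf H)).primeFactors.card from hF2) r
  haveI hsf : Fact s.Prime := ⟨Nat.prime_of_mem_primeFactors hs⟩
  have hsF := Nat.dvd_of_mem_primeFactors hs
  have hLE : ∀ t : ℕ, L ≤ normalizer (Oq t (fittingOf L) : Set G) := fun t =>
    (fittingOf_normalized L).trans (normalizer_le_normalizer_Oq t _)
  have hkey : Zt s H ≤ centralizer (Oq r (fittingOf L) : Set G) :=
    key_lemma (H := H) (Yr := Zt r H) (Ys := Zt s H) (W := Oq r (fittingOf L)) hsr.symm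
      (Zt_isPGroup r H) (Zt_isPGroup s H)
      (hHm.centralizer_le Fact.out (Zt_isPGroup r H) (Zt_ne_bot hrF) (Zt_normalized r H))
      (Zt_normalized s H) (Zt_comm r s H) (Oq_isPGroup r _) ((hZ r).trans (hLE r)) ((hZ s).trans (hLE r))
  exact (le_centralizer_symm hkey).trans
    (hHm.centralizer_le hsf.out (Zt_isPGroup s H) (Zt_ne_bot hsF) (Zt_normalized s H))

/-- **S1482**. -/
theorem s1482_core (hG : IsMinSimpleOddOrder G) {H M : Subgroup G} (hH : IsCoatom H)
    (hF2 : 2 ≤ (Nat.card (fittingOf H)).primeFactors.card)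
    (hZM : fittingOf H ⊓ centralizer (fittingOf H : Set G) ≤ M)
    (hinv : ∀ Y ∈ invSubgroups ⊤ M (primesNotDvd (Nat.card (fittingOf H))), Y = ⊥) :
    ∀ L : Subgroup G, IsCoatom L → M ≤ L → L = H := by
  intro L hL hML
  by_contra hne
  have hHm := maxLoc_of_coatom hG hH
  have hLm := maxLoc_of_coatom hG hL
  have hLs := IsMinSimpleOddOrder.isSolvable hG hL.1
  have hEn : Group.IsNilpotent (fittingOf L) := fittingOf_isNilpotent L
  have hZ : ∀ t : ℕ, Zt t H ≤ L := fun t => ((Zt_le t H).trans hZM).trans hML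
  have hLE : ∀ t : ℕ, L ≤ normalizer (Oq t (fittingOf L) : Set G) := fun t =>
    (fittingOf_normalized L).trans (normalizer_le_normalizer_Oq t _)
  have h1 : ∀ (t : ℕ) [Fact t.Prime], t ∣ Nat.card (fittingOf L) → t ∣ Nat.card (fittingOf H) := by
    intro t ht hd
    by_contra hnd
    have := hinv (Oq t (fittingOf L)) ⟨le_top, isPiSub_primesNotDvd_of_singleton ht.out hnd
      ((isPiSub_singleton_iff ht.out).2 (Oq_isPGroup t _)), hML.trans (hLE t)⟩
    exact Oq_ne_bot hEn hd this
  have hEH : fittingOf L ≤ H := fitting_le_of_center_le hHm hZ h1 hF2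
  have h4 : ∀ (s : ℕ) [Fact s.Prime], s ∣ Nat.card (fittingOf H) → s ∣ Nat.card (fittingOf L) := by
    intro s hs hsF
    by_contra hnd
    have hcomm : Zt s H ≤ centralizer (fittingOf L : Set G) := by
      intro y hy
      rw [Subgroup.mem_centralizer_iff]
      intro x hx
      have hK : x ∈ centralizer ({y} : Set G) := by
        refine mem_of_parts hEn hx fun r hr hd => ?_
        have hrE : r ∣ Nat.card (fittingOf L) := hd.trans (Subgroup.orderOf_dvd_natCard _ hx)
        have hrs : s ≠ r := by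
          rintro rfl
          exact hnd hrE
        have hkey : Zt s H ≤ centralizer (Oq r (fittingOf L) : Set G) :=
          key_lemma (H := H) (Yr := Zt r H) (Ys := Zt s H) (W := Oq r (fittingOf L)) hrs.symm
            (Zt_isPGroup r H) (Zt_isPGroup s H)
            (hHm.centralizer_le Fact.out (Zt_isPGroup r H) (Zt_ne_bot (h1 r hrE)) (Zt_normalized r H))
            (Zt_normalized s H) (Zt_comm r s H) (Oq_isPGroup r _) ((hZ r).trans (hLE r)) ((hZ s).trans (hLE r))
        intro a ha
        rw [Subgroup.mem_centralizer_singleton_iff]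
        exact (Subgroup.mem_centralizer_iff.1 (hkey hy) a ha)
      exact Subgroup.mem_centralizer_singleton_iff.1 hK
    have hle : Zt s H ≤ fittingOf L := (le_inf (hZ s) hcomm).trans (inf_centralizer_fittingOf_le hLs)
    exact hnd (dvd_card_of_ne_bot (Zt_isPGroup s H) hle (Zt_ne_bot hsF))
  have hE2 : 2 ≤ (Nat.card (fittingOf L)).primeFactors.card := by
    refine hF2.trans (Finset.card_le_card fun t ht => ?_)
    have htp := Nat.prime_of_mem_primeFactors ht
    haveI : Fact t.Prime := ⟨htp⟩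
    exact Nat.mem_primeFactors.2 ⟨htp, h4 t (Nat.dvd_of_mem_primeFactors ht), Nat.card_pos.ne'⟩
  have hZ' : ∀ t : ℕ, Zt t L ≤ H := fun t => (Zt_le t L).trans (inf_le_left.trans hEH)
  have hFL : fittingOf H ≤ L := fitting_le_of_center_le hLm hZ' h4 hE2
  exact bender_lemma hG hH hL (Ne.symm hne) hFL hEH hF2

end Cfsg.Agent.Lib.FT
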