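import Cfsg.Agent.Lib.OddLocal.Rank2D
import Cfsg.Agent.Lib.OddLocal.NilParts
import Cfsg.Agent.Lib.OddLocal.Fitting
import Cfsg.Agent.Lib.OddLocal.HallHigman
import Cfsg.Agent.Lib.Coprime.Omega1
import Cfsg.Agent.Lib.FT.BG10b
import Cfsg.Agent.Lib.FT.BG8a

/-!
BG section 9: rank two tools for the Uniqueness Theorem.
`r2_centralizes`: an odd order group acting on a `v`-group `U` of rank at most two: `v'`-elements of the derived subgroup
centralize `U`.  `isNilpotent_comm_of_low`: `[Y, A]` is nilpotent when all `O_t(Y)` have rank at most two.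
-/

set_option autoImplicit false
set_option linter.unusedSectionVars false
set_option linter.style.haveILetI false

namespace Cfsg.Agent.Lib.FT

open Subgroup Cfsg Cfsg.Agent.Lib.OddLocal
open Cfsg.Agent.Lib.PGroups (exists_orderOf_of_mem_isPGroup)
open scoped commutatorElement

/-- S1449 for subgroups of `MulAut U`. -/
theorem mulAut_derived_isPGroup {U : Type*} [Group U] [Finite U] {v : ℕ} [hv : Fact v.Prime] (hv2 : v ≠ 2)
    (hU : IsPGroup v U) (hr : PRankLE v 2 U) (B : Subgroup (MulAut U)) (hs : Group.IsSolvable B)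
    (hodd : Odd (Nat.card B)) : IsPGroup v ↥⁅B, B⁆ := by
  classical
  haveI : Finite (U ⋊[MonoidHom.id (MulAut U)] MulAut U) :=
    Finite.of_equiv _ (SemidirectProduct.equivProd (φ := MonoidHom.id (MulAut U))).symm
  let i : U →* (U ⋊[MonoidHom.id (MulAut U)] MulAut U) := SemidirectProduct.inl
  let j : MulAut U →* (U ⋊[MonoidHom.id (MulAut U)] MulAut U) := SemidirectProduct.inr
  have hi : Function.Injective i := SemidirectProduct.inl_injective
  have hj : Function.Injective j := SemidirectProduct.inr_injective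
  have hconj : ∀ (a : MulAut U) (u : U), j a * i u * (j a)⁻¹ = i (a u) := by
    intro a u
    have := SemidirectProduct.inl_aut (φ := MonoidHom.id (MulAut U)) a u
    have h2 : (j a)⁻¹ = j a⁻¹ := (map_inv j a).symm
    rw [h2]
    exact this.symm
  have hR' : IsPGroup v i.range := by
    rw [MonoidHom.range_eq_map]
    exact (IsPGroup.of_equiv hU (Subgroup.topEquiv).symm).map i
  have hrR' : PRankLE v 2 i.range := by
    let e : U ≃* i.range := MonoidHom.ofInjective hi
    exact prank_of_injective e.symm.toMonoidHom e.symm.injective hr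
  have hA'n : B.map j ≤ normalizer (i.range : Set _) := by
    rintro _ ⟨g, -, rfl⟩
    rw [mem_normalizer_iff]
    intro y
    constructor
    · rintro ⟨u, rfl⟩
      exact ⟨_, (hconj g u).symm⟩
    · rintro ⟨u, hu⟩
      refine ⟨g⁻¹ u, ?_⟩
      have h3 := hconj g (g⁻¹ u)
      have h4 : g (g⁻¹ u) = u := by simp
      rw [h4, hu] at h3
      have h5 : j g * i (g⁻¹ u) * (j g)⁻¹ = j g * y * (j g)⁻¹ := h3
      have h6 : i (g⁻¹ u) = y := by
        have h7 : j g * i (g⁻¹ u) = j g * y := mul_right_cancel h5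
        exact mul_left_cancel h7
      exact h6
  have hA's : Group.IsSolvable (B.map j) := by
    haveI := hs
    exact solvable_of_surjective (f := j.subgroupMap B) (j.subgroupMap_surjective B)
  have hA'o : Odd (Nat.card (B.map j)) := by
    rwa [Nat.card_congr (B.equivMapOfInjective j hj).symm.toEquiv]
  have hfaith : B.map j ⊓ centralizer (i.range : Set _) = ⊥ := by
    rw [eq_bot_iff]
    rintro y ⟨⟨g, -, rfl⟩, hy⟩
    have hg : g = 1 := by
      ext u
      have h1 : i u ∈ i.range := ⟨u, rfl⟩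
      have h2 := (mem_centralizer_iff.mp hy) (i u) h1
      have h3 := hconj g u
      have h4 : j g * i u * (j g)⁻¹ = i u := by
        have h5 : i u * j g = j g * i u := h2
        rw [← h5]
        group
      rw [h4] at h3
      exact (hi h3).symm
    rw [hg, map_one]; exact Subgroup.one_mem _
  have hP := s1449_core v hv2 i.range (B.map j) hR' hrR' hA'n hA's hA'o hfaith
  have hcomm : (⁅B, B⁆).map j = ⁅B.map j, B.map j⁆ := Subgroup.map_commutator _ _ _
  intro x
  have hx : j x ∈ ⁅B.map j, B.map j⁆ := by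
    rw [← hcomm]; exact ⟨x, x.2, rfl⟩
  obtain ⟨k, hk⟩ := hP ⟨j x, hx⟩
  refine ⟨k, ?_⟩
  apply Subtype.ext
  apply hj
  have := congrArg Subtype.val hk
  simpa using this

variable {G : Type*} [Group G] [Finite G]

/-- An element of the derived subgroup of an odd order group `Γ` normalizing a `v`-group `U` of rank at most two,
of order prime to `v`, centralizes `U`. -/
theorem r2_centralizes {v : ℕ} [hv : Fact v.Prime] (hv2 : v ≠ 2) (U Γ : Subgroup G) (hU : IsPGroup v U)
    (hr : PRankLE v 2 U) (hΓ : Γ ≤ normalizer (U : Set G)) (hs : Group.IsSolvable Γ) (hodd : Odd (Nat.card Γ))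
    {x : G} (hx : x ∈ ⁅Γ, Γ⁆) (hc : (orderOf x).Coprime v) : x ∈ centralizer (U : Set G) := by
  classical
  let f : ↥Γ →* MulAut ↥U := (U.normalizerMonoidHom).comp (Subgroup.inclusion hΓ)
  have hf : ∀ (g : ↥Γ) (u : ↥U), ((f g u : ↥U) : G) = (g : G) * u * (g : G)⁻¹ := fun g u => rfl
  have hfs : Group.IsSolvable f.range := by
    haveI := hs
    exact solvable_of_surjective (f := f.rangeRestrict) f.rangeRestrict_surjective
  have hfo : Odd (Nat.card f.range) := Odd.of_dvd_nat hodd (Subgroup.card_range_dvd _)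
  have hP := mulAut_derived_isPGroup hv2 hU hr f.range hfs hfo
  have hΓΓ : ⁅Γ, Γ⁆ ≤ Γ := Subgroup.commutator_le.mpr (fun a ha b hb =>
    Γ.mul_mem (Γ.mul_mem (Γ.mul_mem ha hb) (Γ.inv_mem ha)) (Γ.inv_mem hb))
  have hxΓ : x ∈ Γ := hΓΓ hx
  -- the image of `x` lies in the derived subgroup of the image
  have hmem : ∀ y ∈ ⁅Γ, Γ⁆, ∀ hy : y ∈ Γ, f ⟨y, hy⟩ ∈ ⁅f.range, f.range⁆ := by
    have hle : ⁅Γ, Γ⁆ ≤ ((⁅f.range, f.range⁆).comap f).map Γ.subtype := by
      refine Subgroup.commutator_le.mpr (fun a ha b hb => ?_)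
      refine ⟨⁅(⟨a, ha⟩ : ↥Γ), (⟨b, hb⟩ : ↥Γ)⁆, ?_, rfl⟩
      have : f ⁅(⟨a, ha⟩ : ↥Γ), (⟨b, hb⟩ : ↥Γ)⁆ ∈ ⁅f.range, f.range⁆ := by
        rw [map_commutatorElement]
        exact Subgroup.commutator_mem_commutator ⟨_, rfl⟩ ⟨_, rfl⟩
      exact this
    intro y hy hyΓ
    obtain ⟨w, hw, hwy⟩ := hle hy
    have : w = ⟨y, hyΓ⟩ := Subtype.ext hwy
    rw [← this]
    exact hw
  obtain ⟨k, hk⟩ := hP ⟨_, hmem x hx hxΓ⟩
  have hk' : (f ⟨x, hxΓ⟩) ^ (v ^ k) = 1 := by
    have := congrArg Subtype.val hk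
    simpa using this
  have hk2 : (f ⟨x, hxΓ⟩) ^ (orderOf x) = 1 := by
    rw [← map_pow]
    have : (⟨x, hxΓ⟩ : ↥Γ) ^ orderOf x = 1 := by
      apply Subtype.ext; simpa using pow_orderOf_eq_one x
    rw [this, map_one]
  have hone : f ⟨x, hxΓ⟩ = 1 := by
    have h1 := orderOf_dvd_of_pow_eq_one hk'
    have h2 := orderOf_dvd_of_pow_eq_one hk2
    have h3 : (v ^ k).Coprime (orderOf x) := (hc.symm.pow_left k)
    have h4 := Nat.Coprime.eq_one_of_dvd (h3.coprime_dvd_left h1) h2
    exact orderOf_eq_one_iff.mp h4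
  rw [mem_centralizer_iff]
  intro u hu
  have h1 := hf ⟨x, hxΓ⟩ ⟨u, hu⟩
  rw [hone] at h1
  have h2 : u = x * u * x⁻¹ := by simpa using h1
  have h3 : u * x = x * u := by
    conv_lhs => rw [h2]
    group
  exact h3

/-- If `u` is a `q`-element normalizing `O_q(F)` and centralizing `O_{q'}(F)`, `z ∈ F` and `z * u` is a `q`-element,
then `z ∈ O_q(F)`. -/
theorem mem_Oq_of_mul_qelt {F : Subgroup G} (hF : Group.IsNilpotent F) {q : ℕ} [hq : Fact q.Prime] {u z : G}
    (hu : IsPGroup q (zpowers u)) (hun : u ∈ normalizer (Oq q F : Set G))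
    (huc : ∀ b ∈ Oq' q F, u * b = b * u) (hz : z ∈ F) {n : ℕ} (hzu : (z * u) ^ q ^ n = 1) : z ∈ Oq q F := by
  obtain ⟨a, ha, b, hb, rfl⟩ := exists_parts q hF hz
  have hab : a * b = b * a := Oq_comm_Oq' hF ha hb
  have hcomm : Commute (a * u) b := by
    show a * u * b = b * (a * u)
    calc a * u * b = a * (u * b) := mul_assoc _ _ _
      _ = a * (b * u) := by rw [huc b hb]
      _ = a * b * u := (mul_assoc _ _ _).symm
      _ = b * a * u := by rw [hab]
      _ = b * (a * u) := mul_assoc _ _ _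
  have h1 : a * b * u = (a * u) * b := by
    calc a * b * u = a * (b * u) := mul_assoc _ _ _
      _ = a * (u * b) := by rw [huc b hb]
      _ = a * u * b := (mul_assoc _ _ _).symm
  have hsup : IsPGroup q ↥(zpowers u ⊔ Oq q F) :=
    IsPGroup.to_sup_of_normal_right' hu (Oq_isPGroup q F) (by
      rw [zpowers_le]; exact hun)
  have hmem : a * u ∈ zpowers u ⊔ Oq q F :=
    mul_mem ((le_sup_right : Oq q F ≤ zpowers u ⊔ Oq q F) ha)
      ((le_sup_left : zpowers u ≤ zpowers u ⊔ Oq q F) (mem_zpowers u))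
  obtain ⟨m, hm⟩ := hsup ⟨a * u, hmem⟩
  have hm' : (a * u) ^ q ^ m = 1 := by simpa using congrArg Subtype.val hm
  have h2 : (a * u) ^ q ^ (m + n) = 1 := by
    rw [pow_add, pow_mul, hm', one_pow]
  have h3 : (a * b * u) ^ q ^ (m + n) = 1 := by
    rw [add_comm, pow_add, pow_mul, hzu, one_pow]
  rw [h1, hcomm.mul_pow, h2, one_mul] at h3
  have h4 : orderOf b ∣ q ^ (m + n) := orderOf_dvd_of_pow_eq_one h3
  have h5 := orderOf_Oq'_coprime hb
  have h6 : orderOf b = 1 :=
    Nat.eq_one_of_dvd_coprimes (Nat.Coprime.pow_right (m + n) h5) dvd_rfl h4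
  rw [orderOf_eq_one_iff.1 h6, mul_one]
  exact ha

/-- An element centralizing `O_t(F)` for all `t ≠ q` centralizes `O_{q'}(F)`. -/
theorem comm_Oq'_of_forall {F : Subgroup G} (hF : Group.IsNilpotent F) {q : ℕ} [hq : Fact q.Prime] {u : G}
    (h : ∀ (t : ℕ) [Fact t.Prime], t ≠ q → u ∈ centralizer (Oq t F : Set G)) :
    ∀ b ∈ Oq' q F, u * b = b * u := by
  intro b hb
  have hbc : b ∈ centralizer ({u} : Set G) := by
    apply Cfsg.Agent.Lib.PGroups.mem_of_primary_powers
    intro a ha hpp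
    obtain ⟨t, l, ht, hl, hal⟩ := hpp
    have ht' : t.Prime := ht.nat_prime
    haveI : Fact t.Prime := ⟨ht'⟩
    have hab : a ∈ Oq' q F := (zpowers_le.2 hb) ha
    have haF : a ∈ F := Oq'_le q F hab
    have htq : t ≠ q := by
      rintro rfl
      have h5 := orderOf_Oq'_coprime hab
      rw [hal.symm] at h5
      have : t ∣ t ^ l := dvd_pow_self t hl.ne'
      exact ht'.one_lt.ne' (Nat.eq_one_of_dvd_coprimes h5 this (dvd_refl t))
    have hat : a ∈ Oq t F := mem_Oq hF haF (k := l) (by rw [hal]; exact pow_orderOf_eq_one a)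
    rw [Subgroup.mem_centralizer_iff]
    intro v hv
    rw [Set.mem_singleton_iff] at hv
    subst hv
    exact (Subgroup.mem_centralizer_iff.1 (h t htq) a hat).symm
  have := Subgroup.mem_centralizer_iff.1 hbc u rfl
  exact this

/-- An element centralizing all `O_t(F)` centralizes `F`. -/
theorem comm_of_forall_Oq {F : Subgroup G} (hF : Group.IsNilpotent F) {u : G}
    (h : ∀ (t : ℕ) [Fact t.Prime], u ∈ centralizer (Oq t F : Set G)) :
    ∀ b ∈ F, u * b = b * u := by
  intro b hb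
  have hbc : b ∈ centralizer ({u} : Set G) := by
    apply Cfsg.Agent.Lib.PGroups.mem_of_primary_powers
    intro a ha hpp
    obtain ⟨t, l, ht, hl, hal⟩ := hpp
    have ht' : t.Prime := ht.nat_prime
    haveI : Fact t.Prime := ⟨ht'⟩
    have haF : a ∈ F := (zpowers_le.2 hb) ha
    have hat : a ∈ Oq t F := mem_Oq hF haF (k := l) (by rw [hal]; exact pow_orderOf_eq_one a)
    rw [Subgroup.mem_centralizer_iff]
    intro v hv
    rw [Set.mem_singleton_iff] at hv
    subst hv
    exact (Subgroup.mem_centralizer_iff.1 (h t) a hat).symm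
  exact Subgroup.mem_centralizer_iff.1 hbc u rfl

/-- **Low rank**: if all Sylow subgroups of `F(Y)` have rank at most two and `A` normalizes `Y`, with `Y ⊔ A` solvable of
odd order, then `[Y, A]` is nilpotent. -/
theorem isNilpotent_comm_of_low {Y A : Subgroup G} (hA : A ≤ normalizer (Y : Set G))
    (hs : Group.IsSolvable ↥(Y ⊔ A)) (hodd : Odd (Nat.card ↥(Y ⊔ A)))
    (hlow : ∀ (t : ℕ) [Fact t.Prime], PRankLE t 2 ↥(Oq t (fittingOf Y))) :
    Group.IsNilpotent ↥⁅Y, A⁆ := by
  classical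
  set Γ := Y ⊔ A with hΓ
  set F := fittingOf Y with hFdef
  have hFn : Group.IsNilpotent F := fittingOf_isNilpotent Y
  have hΓN : Γ ≤ normalizer (Y : Set G) := sup_le Subgroup.le_normalizer hA
  have hΓF : ∀ (t : ℕ) [Fact t.Prime], Γ ≤ normalizer (Oq t F : Set G) := fun t _ g hg =>
    mem_normalizer_Oq hFn (normalizer_le_normalizer_fittingOf Y (hΓN hg))
  have hYΓ : Y ≤ Γ := le_sup_left
  have hsY : Group.IsSolvable Y := solv_of_le hYΓ hs
  have hIY : ⁅Y, A⁆ ≤ Y := by
    rw [Subgroup.commutator_le]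
    intro y hy a ha
    rw [commutatorElement_def]
    have h1 := (Subgroup.mem_normalizer_iff.1 (hA ha) y⁻¹).1 (inv_mem hy)
    have h2 := mul_mem hy h1
    simpa [mul_assoc] using h2
  have hIΓ : ⁅Y, A⁆ ≤ ⁅Γ, Γ⁆ := Subgroup.commutator_mono le_sup_left le_sup_right
  have hFY : F ≤ Y := fittingOf_le Y
  have hcent : ∀ x ∈ ⁅Y, A⁆, ∀ (t : ℕ) [Fact t.Prime], (orderOf x).Coprime t → x ∈ centralizer (Oq t F : Set G) := by
    intro x hx t _ hc
    by_cases ht : t = 2
    · subst ht
      rw [Subgroup.mem_centralizer_iff]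
      intro u hu
      have hu' : u ∈ Γ := hYΓ (hFY (Oq_le 2 F hu))
      obtain ⟨k, hk⟩ := exists_orderOf_of_mem_isPGroup (Oq_isPGroup 2 F) hu
      have h1 : orderOf u ∣ Nat.card Γ := Subgroup.orderOf_dvd_natCard Γ hu'
      have h2 : Odd (orderOf u) := Odd.of_dvd_nat hodd h1
      have h3 : k = 0 := by
        by_contra hk0
        rw [hk] at h2
        exact (Nat.not_even_iff_odd.2 h2) ((Nat.even_pow.2 ⟨even_two, hk0⟩))
      rw [h3, pow_zero] at hk
      rw [orderOf_eq_one_iff.1 hk]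
      simp
    · exact r2_centralizes ht (Oq t F) Γ (Oq_isPGroup t F) (hlow t) (hΓF t) hs hodd (hIΓ hx) hc
  apply Cfsg.Agent.Lib.Coprime.Omega1.isNilpotent_of_primary_commute
  rintro ⟨x, hx⟩ ⟨y, hy⟩ q r a b hq hr hqr hoa hob
  haveI : Fact q.Prime := ⟨hq⟩
  haveI : Fact r.Prime := ⟨hr⟩
  apply Subtype.ext
  have hoa' : orderOf x = q ^ a := by simpa using hoa
  have hob' : orderOf y = r ^ b := by simpa using hob
  have hxc : ∀ (t : ℕ) [Fact t.Prime], t ≠ q → x ∈ centralizer (Oq t F : Set G) := by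
    intro t _ ht
    apply hcent x hx t
    rw [hoa']
    exact Nat.Coprime.pow_left a ((Nat.coprime_primes hq Fact.out).2 ht.symm)
  have hyc : ∀ (t : ℕ) [Fact t.Prime], t ≠ r → y ∈ centralizer (Oq t F : Set G) := by
    intro t _ ht
    apply hcent y hy t
    rw [hob']
    exact Nat.Coprime.pow_left b ((Nat.coprime_primes hr Fact.out).2 ht.symm)
  have hxΓ : x ∈ Γ := hYΓ (hIY hx)
  have hyΓ : y ∈ Γ := hYΓ (hIY hy)
  have hNC : ∀ (t : ℕ) [Fact t.Prime], Γ ≤ normalizer (centralizer (Oq t F : Set G) : Set G) :=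
    fun t _ g hg => mem_normalizer_centralizer (hΓF t hg)
  set z := y * x * y⁻¹ * x⁻¹ with hz
  have hzC : ∀ (t : ℕ) [Fact t.Prime], z ∈ centralizer (Oq t F : Set G) := by
    intro t _
    by_cases htq : t = q
    · subst htq
      have h1 := hyc t hqr
      have h2 := (Subgroup.mem_normalizer_iff.1 (hNC t hxΓ) y⁻¹).1 (inv_mem h1)
      have h3 := mul_mem h1 h2
      have : z = y * (x * y⁻¹ * x⁻¹) := by rw [hz]; group
      rw [this]
      exact h3
    · have h1 := hxc t htq
      have h2 := (Subgroup.mem_normalizer_iff.1 (hNC t hyΓ) x).1 h1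
      exact mul_mem h2 (inv_mem h1)
  have hzY : z ∈ Y := by
    have hx' := hIY hx
    have hy' := hIY hy
    exact mul_mem (mul_mem (mul_mem hy' hx') (inv_mem hy')) (inv_mem hx')
  have hzF : z ∈ F := by
    apply inf_centralizer_fittingOf_le hsY
    exact ⟨hzY, Subgroup.mem_centralizer_iff.2 (fun w hw => (comm_of_forall_Oq hFn hzC w hw).symm)⟩
  have hxp : IsPGroup q (zpowers x) := by
    apply Cfsg.Agent.Lib.FT.isPGroup_zpowers_of_pow (k := a)
    rw [← hoa']; exact pow_orderOf_eq_one x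
  have hyp : IsPGroup r (zpowers y) := by
    apply Cfsg.Agent.Lib.FT.isPGroup_zpowers_of_pow (k := b)
    rw [← hob']; exact pow_orderOf_eq_one y
  have hzq : z ∈ Oq q F := by
    apply mem_Oq_of_mul_qelt hFn hxp (hΓF q hxΓ) (comm_Oq'_of_forall hFn hxc) hzF (n := a)
    have : z * x = y * x * y⁻¹ := by rw [hz]; group
    rw [this, conj_pow, ← hoa', pow_orderOf_eq_one]
    group
  have hzr : z⁻¹ ∈ Oq r F := by
    apply mem_Oq_of_mul_qelt hFn hyp (hΓF r hyΓ) (comm_Oq'_of_forall hFn hyc) (inv_mem hzF) (n := b)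
    have : z⁻¹ * y = x * y * x⁻¹ := by rw [hz]; group
    rw [this, conj_pow, ← hob', pow_orderOf_eq_one]
    group
  have hz1 : z = 1 := by
    obtain ⟨k, hk⟩ := exists_orderOf_of_mem_isPGroup (Oq_isPGroup q F) hzq
    obtain ⟨l, hl⟩ := exists_orderOf_of_mem_isPGroup (Oq_isPGroup r F) hzr
    rw [orderOf_inv] at hl
    have h1 : (q ^ k).Coprime (r ^ l) := Nat.Coprime.pow k l ((Nat.coprime_primes hq hr).2 hqr)
    have h2 : orderOf z = 1 := by
      apply Nat.eq_one_of_dvd_coprimes h1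
      · rw [hk]
      · rw [hl]
    exact orderOf_eq_one_iff.1 h2
  have h3 : y * x * y⁻¹ = x := by
    have : y * x * y⁻¹ * x⁻¹ = 1 := hz1
    exact mul_inv_eq_one.1 this
  have h4 : y * x = x * y := mul_inv_eq_iff_eq_mul.1 h3
  exact h4.symm

end Cfsg.Agent.Lib.FT
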