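import Cfsg.Agent.Lib.FT.BG9U2
import Cfsg.Agent.Lib.Transfer.Rank
import Cfsg.Agent.Lib.Components.RankTwo

/-!
BG section 9: the heart of the Uniqueness Theorem, the case of a large `O_v(H)`: first part.
-/

set_option autoImplicit false
set_option linter.unusedSectionVars false
set_option linter.style.haveILetI false

namespace Cfsg.Agent.Lib.FT

open Subgroup Cfsg Cfsg.Agent.Lib.OddLocal
open scoped commutatorElement

open Cfsg.Agent.Lib.Coprime (mem_conj_map conj_mem_conj_map conj_map_conj_map conj_map_one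
  conj_map_mono mem_normalizer_of_conj_le conj_map_eq_iff_mem_normalizer isPGroup_conj_map CoprimeAction)
open Cfsg.Agent.Lib.PGroups (exists_orderOf_of_mem_isPGroup mem_of_primary_powers)

universe u

variable {G : Type u} [Group G] [Finite G]

section Cyc

variable {v : ℕ} [hv : Fact v.Prime]

theorem exists_order_v {V : Subgroup G} (hV : IsPGroup v V) (h1 : V ≠ ⊥) : ∃ a ∈ V, orderOf a = v := by
  have hd : v ∣ Nat.card V := by
    obtain ⟨n, hn⟩ := IsPGroup.iff_card.1 hV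
    rw [hn]
    refine dvd_pow_self v ?_
    rintro rfl
    have h2 : Nat.card V = 1 := by simpa using hn
    exact h1 ((Subgroup.card_eq_one).1 h2)
  obtain ⟨y, hy⟩ := exists_prime_orderOf_dvd_card' v hd
  exact ⟨y, y.2, by simpa using hy⟩

theorem cyc_mem_zpowers {C : Subgroup G} (hC : IsCyclic C) {a b : G} (ha : a ∈ C) (hb : b ∈ C)
    (hao : orderOf a = v) (hbv : b ^ v = 1) : b ∈ zpowers a := by
  by_cases hb1 : b = 1
  · rw [hb1]
    exact one_mem _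
  have hbo : orderOf b = v := orderOf_eq_prime hbv hb1
  have h := eq_of_card_eq_of_le_isCyclic hC (zpowers_le.2 ha) (zpowers_le.2 hb)
    (by rw [Nat.card_zpowers, Nat.card_zpowers, hao, hbo])
  rw [h]
  exact mem_zpowers b

theorem cyc_inf_ne_bot {C V₁ V₂ : Subgroup G} (hC : IsCyclic C) (hCp : IsPGroup v C) (h₁ : V₁ ≤ C) (h₂ : V₂ ≤ C)
    (h₁1 : V₁ ≠ ⊥) (h₂1 : V₂ ≠ ⊥) : V₁ ⊓ V₂ ≠ ⊥ := by
  obtain ⟨a, ha, hao⟩ := exists_order_v (hCp.to_le h₁) h₁1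
  obtain ⟨b, hb, hbo⟩ := exists_order_v (hCp.to_le h₂) h₂1
  have hmem := cyc_mem_zpowers hC (h₁ ha) (h₂ hb) hao (by rw [← hbo]; exact pow_orderOf_eq_one b)
  intro h
  have h3 : b ∈ V₁ ⊓ V₂ := ⟨(zpowers_le.2 ha) hmem, hb⟩
  rw [h] at h3
  have h4 : b = 1 := Subgroup.mem_bot.1 h3
  rw [h4, orderOf_one] at hbo
  exact hv.out.one_lt.ne hbo

theorem cyc_fix {W : Subgroup G} (hW : IsCyclic W) (hWp : IsPGroup v W) (hv2 : v ≠ 2) {a z : G}
    (hac : (orderOf a).Coprime v) (han : a ∈ normalizer (W : Set G)) (hz : z ∈ W) (hz1 : z ≠ 1)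
    (haz : a * z = z * a) : ∀ x ∈ W, a * x * a⁻¹ = x := by
  obtain ⟨k, hk⟩ := exists_orderOf_of_mem_isPGroup hWp hz
  have hk0 : k ≠ 0 := by
    rintro rfl
    rw [pow_zero] at hk
    exact hz1 (orderOf_eq_one_iff.1 hk)
  obtain ⟨j, rfl⟩ : ∃ j, k = j + 1 := ⟨k - 1, by omega⟩
  set z₁ := z ^ v ^ j with hz₁
  have hz₁o : orderOf z₁ = v := by
    rw [hz₁, orderOf_pow_of_dvd (by
      exact pow_ne_zero _ hv.out.ne_zero) (by
      rw [hk]
      exact pow_dvd_pow v (Nat.le_succ j)), hk, pow_succ]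
    exact Nat.mul_div_cancel_left v (pow_pos hv.out.pos j)
  have hz₁W : z₁ ∈ W := pow_mem hz _
  have haz₁ : a * z₁ * a⁻¹ = z₁ := by
    have hc : Commute a z₁ := (show Commute a z from haz).pow_right _
    rw [hc.eq]
    group
  apply fix_of_fix_omega v hv2 a hac W hWp
  · intro x hx
    exact (Subgroup.mem_normalizer_iff.1 han x).1 hx
  · intro x hx hxv
    obtain ⟨n, rfl⟩ := Subgroup.mem_zpowers_iff.1 (cyc_mem_zpowers hW hz₁W hx hz₁o hxv)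
    have hc : Commute a z₁ := by
      have : a * z₁ = z₁ * a := by
        calc a * z₁ = (a * z₁ * a⁻¹) * a := by group
          _ = z₁ * a := by rw [haz₁]
      exact this
    rw [(hc.zpow_right n).eq]
    group

theorem isCyclic_of_le {X Y : Subgroup G} (hXY : X ≤ Y) (hY : IsCyclic Y) : IsCyclic X :=
  isCyclic_of_injective (Subgroup.inclusion hXY) (Subgroup.inclusion_injective hXY)

/-- A noncyclic `v`-group contains a noncyclic abelian subgroup. -/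
theorem exists_noncyclic_ab (hv2 : v ≠ 2) {V : Subgroup G} (hV : IsPGroup v V) (hnc : ¬ IsCyclic V) :
    ∃ Λ : Subgroup G, Λ ≤ V ∧ IsMulCommutative Λ ∧ ¬ IsCyclic Λ := by
  obtain ⟨N₀, -, hN₀e, hN₀c⟩ := Cfsg.Agent.Lib.Transfer.exists_normal_elementary_sq hv2 hV hnc
  have hNe : IsElementaryAbelian v (N₀.map V.subtype) := ea_map_subtype hN₀e.1 hN₀e.2
  refine ⟨N₀.map V.subtype, Subgroup.map_subtype_le _, hNe.1, not_cyclic_of_ea hNe ?_⟩
  rw [card_map_subtype, hN₀c]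
  calc v = v ^ 1 := (pow_one v).symm
    _ < v ^ 2 := Nat.pow_lt_pow_right hv.out.one_lt (by norm_num)

end Cyc

/-- The data attached to a prime `v` with a large `O_v(H)`. -/
structure VData (v : ℕ) (H E₀ Θ : Subgroup G) : Prop where
  hG : IsMinSimpleOddOrder G
  hH : IsCoatom H
  hv2 : v ≠ 2
  huq : ∀ E : Subgroup G, IsElementaryAbelian v E → Nat.card E = v ^ 3 → InUniqueMaximal E
  hE₀T : ∀ T : Subgroup G, IsPGroup v T → E₀ ≤ T → T ≤ H
  hE₀H : H ≤ normalizer (E₀ : Set G)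
  hE₀p : IsPGroup v E₀
  hΘp : IsPGroup v Θ
  hΘH : Θ ≤ H
  hΘc : ¬ IsCyclic Θ
  hHΘ : H ≤ normalizer (Θ : Set G)
  hcent : ∀ x ∈ Θ, x ≠ 1 → centralizer ({x} : Set G) ≤ H

section VDataEx

variable {v : ℕ} [hv : Fact v.Prime]

/-- Every `v`-subgroup containing `E₀` lies in `H`. -/
theorem le_of_isPGroup_ge (hG : IsMinSimpleOddOrder G) {H E₀ : Subgroup G} (hH : IsCoatom H) (hv2 : v ≠ 2)
    (huq : ∀ E : Subgroup G, IsElementaryAbelian v E → Nat.card E = v ^ 3 → InUniqueMaximal E)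
    (hE₀p : IsPGroup v E₀) (hE₀H : E₀ ≤ H) (hr : ¬ PRankLE v 2 E₀) {T : Subgroup G} (hT : IsPGroup v T)
    (hE₀T : E₀ ≤ T) : T ≤ H := by
  have hvp : v.Prime := hv.out
  obtain ⟨E₁, hE₁E, hE₁e, hE₁c⟩ := exists_E3 hr
  have hE₁U := huq E₁ hE₁e hE₁c
  have hE₁T : E₁ ≤ T := hE₁E.trans hE₀T
  have hlt2 : v < v ^ 2 := by
    calc v = v ^ 1 := (pow_one v).symm
      _ < v ^ 2 := Nat.pow_lt_pow_right hvp.one_lt (by norm_num)
  have hlt3 : v < v ^ 3 := by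
    calc v = v ^ 1 := (pow_one v).symm
      _ < v ^ 3 := Nat.pow_lt_pow_right hvp.one_lt (by norm_num)
  have hTnc : ¬ IsCyclic T := fun h => not_cyclic_of_ea hE₁e (by omega) (isCyclic_of_le hE₁T h)
  obtain ⟨N₀, hN₀n, hN₀e, hN₀c⟩ := Cfsg.Agent.Lib.Transfer.exists_normal_elementary_sq hv2 hT hTnc
  haveI := hN₀n
  have hNe : IsElementaryAbelian v (N₀.map T.subtype) := ea_map_subtype hN₀e.1 hN₀e.2
  set N := N₀.map T.subtype with hN
  have hNc : v < Nat.card N := by rw [card_map_subtype, hN₀c]; exact hlt2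
  have h1 := Cfsg.Agent.Lib.Components.card_le_mul_card_inf_centralizer hT (E₁.subgroupOf T) N₀ hN₀c
  have h2 : Nat.card (E₁.subgroupOf T) = v ^ 3 := by
    rw [← hE₁c]
    exact Nat.card_congr (subgroupOfEquivOfLe hE₁T).toEquiv
  rw [h2] at h1
  set C₀ : Subgroup T := E₁.subgroupOf T ⊓ centralizer (N₀ : Set T) with hC₀
  have h3 : v * v ^ 2 ≤ v * Nat.card C₀ := by
    rw [show v * v ^ 2 = v ^ 3 by ring]
    exact h1
  have h4 : v ^ 2 ≤ Nat.card C₀ := Nat.le_of_mul_le_mul_left h3 hvp.pos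
  have hle : C₀.map T.subtype ≤ E₁ := by
    rintro _ ⟨x, hx, rfl⟩
    exact Subgroup.mem_subgroupOf.1 hx.1
  have hB₁N : C₀.map T.subtype ≤ centralizer (N : Set G) := by
    rintro _ ⟨x, hx, rfl⟩
    rw [Subgroup.mem_centralizer_iff]
    rintro _ ⟨n, hn, rfl⟩
    exact congrArg Subtype.val (Subgroup.mem_centralizer_iff.1 hx.2 n hn)
  have hB₁r : ¬ RankLE 1 (C₀.map T.subtype) := not_rankLE_one_of_ea (ea_mono hE₁e hle) (by
    rw [card_map_subtype]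
    omega)
  have hB₁U : InUniqueMaximal (C₀.map T.subtype) :=
    uniq_of_centralizer hG hE₁U (hle.trans (le_centralizer_of_comm hE₁e.1)) hB₁r
  have hNU : InUniqueMaximal N :=
    uniq_of_centralizer hG hB₁U (le_centralizer_symm hB₁N) (not_rankLE_one_of_ea hNe hNc)
  have hB₁H : C₀.map T.subtype ≤ H := hle.trans (hE₁E.trans hE₀H)
  have hB₁1 : C₀.map T.subtype ≠ ⊥ := by
    intro h
    apply not_uniq_bot hG
    rw [← h]
    exact hB₁U
  have hNH : N ≤ H := (le_centralizer_symm hB₁N).trans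
    (uniq_le hH hB₁H hB₁U (centralizer_ne_top_of_ne_bot hG hB₁1) (by
      exact hle.trans (le_centralizer_of_comm hE₁e.1) |>.trans (Subgroup.centralizer_le hle)))
  have hNN := uniq_normalizer_le hG hH hNH hNU
  refine le_trans ?_ hNN
  intro t ht
  apply mem_normalizer_of_conj_le
  rintro _ ⟨n, hn, rfl⟩
  refine ⟨⟨t, ht⟩ * n * ⟨t, ht⟩⁻¹, hN₀n.conj_mem n hn _, ?_⟩
  simp

/-- Existence of the subgroup `Θ`. -/
theorem exists_VData (hG : IsMinSimpleOddOrder G) {H E₀ : Subgroup G} (hH : IsCoatom H)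
    (huq : ∀ E : Subgroup G, IsElementaryAbelian v E → Nat.card E = v ^ 3 → InUniqueMaximal E)
    (hE₀p : IsPGroup v E₀) (hE₀H : E₀ ≤ H) (hE₀N : H ≤ normalizer (E₀ : Set G)) (hr : ¬ PRankLE v 2 E₀) :
    ∃ Θ : Subgroup G, VData v H E₀ Θ := by
  have hvp : v.Prime := hv.out
  obtain ⟨E₁, hE₁E, hE₁e, hE₁c⟩ := exists_E3 hr
  have hE₁U := huq E₁ hE₁e hE₁c
  have hE₁H : E₁ ≤ H := hE₁E.trans hE₀H
  have hlt2 : v < v ^ 2 := by
    calc v = v ^ 1 := (pow_one v).symm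
      _ < v ^ 2 := Nat.pow_lt_pow_right hvp.one_lt (by norm_num)
  have hlt3 : v < v ^ 3 := by
    calc v = v ^ 1 := (pow_one v).symm
      _ < v ^ 3 := Nat.pow_lt_pow_right hvp.one_lt (by norm_num)
  have hv2 : v ≠ 2 := by
    rintro rfl
    have h1 : 2 ∣ Nat.card E₁ := by
      rw [hE₁c]
      exact dvd_pow_self 2 (by norm_num)
    exact (Nat.not_even_iff_odd.2 (odd_card_subgroup hG E₁)) (even_iff_two_dvd.2 h1)
  have hE₀T : ∀ T : Subgroup G, IsPGroup v T → E₀ ≤ T → T ≤ H := fun T hT h =>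
    le_of_isPGroup_ge hG hH hv2 huq hE₀p hE₀H hr hT h
  have hE₀nc : ¬ IsCyclic E₀ := fun h => not_cyclic_of_ea hE₁e (by omega) (isCyclic_of_le hE₁E h)
  by_cases hZc : IsCyclic ↥(E₀ ⊓ centralizer (E₀ : Set G))
  · -- the centre is cyclic
    obtain ⟨N₀, hN₀n, hN₀e, hN₀c⟩ := Cfsg.Agent.Lib.Transfer.exists_normal_elementary_sq hv2 hE₀p hE₀nc
    haveI := hN₀n
    have hNe : IsElementaryAbelian v (N₀.map E₀.subtype) := ea_map_subtype hN₀e.1 hN₀e.2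
    set N := N₀.map E₀.subtype with hN
    have hNE : N ≤ E₀ := Subgroup.map_subtype_le _
    have hNc : Nat.card N = v ^ 2 := by rw [card_map_subtype, hN₀c]
    have hN1 : N ≠ ⊥ := by
      intro h
      rw [h, Subgroup.card_bot] at hNc
      have : 1 < v ^ 2 := Nat.one_lt_pow (by norm_num) hvp.one_lt
      omega
    have hE₀nil : Group.IsNilpotent E₀ := hE₀p.isNilpotent
    have hNn : E₀ ≤ normalizer (N : Set G) := by
      intro t ht
      apply mem_normalizer_of_conj_le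
      rintro _ ⟨n, hn, rfl⟩
      refine ⟨⟨t, ht⟩ * n * ⟨t, ht⟩⁻¹, hN₀n.conj_mem n hn _, ?_⟩
      simp
    obtain ⟨ζ, hζN, hζ1, hζc⟩ := exists_central_of_normal hNE hN1 hE₀nil hNn
    have hζv : ζ ^ v = 1 := hNe.2 ζ hζN
    have hζo : orderOf ζ = v := orderOf_eq_prime hζv hζ1
    have hζE : ζ ∈ E₀ := hNE hζN
    have hζZ : ζ ∈ E₀ ⊓ centralizer (E₀ : Set G) :=
      ⟨hζE, Subgroup.mem_centralizer_iff.2 fun w hw => (hζc w hw).symm⟩
    -- `H` fixes `⟨ζ⟩`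
    have hZn : H ≤ normalizer ((E₀ ⊓ centralizer (E₀ : Set G) : Subgroup G) : Set G) := fun h hh =>
      mem_normalizer_inf (hE₀N hh) (mem_normalizer_centralizer (hE₀N hh))
    have hζH : ∀ h ∈ H, h * ζ * h⁻¹ ∈ zpowers ζ := by
      intro h hh
      refine cyc_mem_zpowers hZc hζZ ((Subgroup.mem_normalizer_iff.1 (hZn hh) ζ).1 hζZ) hζo ?_
      rw [conj_pow, hζv]
      group
    have hζc' : ∀ w ∈ E₀, ∀ u ∈ zpowers ζ, w * u = u * w := by
      intro w hw u hu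
      obtain ⟨n, rfl⟩ := Subgroup.mem_zpowers_iff.1 hu
      have : Commute w ζ := (hζc w hw).symm
      exact (this.zpow_right n).eq
    -- the subgroup
    let Y : Subgroup G :=
      { carrier := {x | x ∈ E₀ ∧ ∀ g ∈ E₀, g * x * g⁻¹ * x⁻¹ ∈ zpowers ζ}
        one_mem' := ⟨one_mem _, fun g _ => by simp⟩
        mul_mem' := by
          rintro x y ⟨hx, hx'⟩ ⟨hy, hy'⟩
          refine ⟨mul_mem hx hy, fun g hg => ?_⟩
          have h1 := hx' g hg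
          have h2 := hy' g hg
          have h3 : g * (x * y) * g⁻¹ * (x * y)⁻¹ = (g * x * g⁻¹ * x⁻¹) * (x * (g * y * g⁻¹ * y⁻¹) * x⁻¹) := by
            group
          rw [h3]
          have h4 : x * (g * y * g⁻¹ * y⁻¹) * x⁻¹ = g * y * g⁻¹ * y⁻¹ := by
            rw [hζc' x hx _ h2]
            group
          rw [h4]
          exact mul_mem h1 h2
        inv_mem' := by
          rintro x ⟨hx, hx'⟩
          refine ⟨inv_mem hx, fun g hg => ?_⟩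
          have h1 := inv_mem (hx' g hg)
          have h3 : g * x⁻¹ * g⁻¹ * x⁻¹⁻¹ = x⁻¹ * (g * x * g⁻¹ * x⁻¹)⁻¹ * x := by group
          rw [h3, mul_assoc]
          have h4 : x⁻¹ * ((g * x * g⁻¹ * x⁻¹)⁻¹ * x) = (x⁻¹ * (g * x * g⁻¹ * x⁻¹)⁻¹) * x := (mul_assoc _ _ _).symm
          rw [h4, hζc' x⁻¹ (inv_mem hx) _ h1]
          simpa using h1 }
    have hYmem : ∀ x, x ∈ Y ↔ x ∈ E₀ ∧ ∀ g ∈ E₀, g * x * g⁻¹ * x⁻¹ ∈ zpowers ζ := fun x => Iff.rfl
    have hYE : Y ≤ E₀ := fun x hx => ((hYmem x).1 hx).1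
    have hNY : N ≤ Y := by
      intro x hx
      refine (hYmem x).2 ⟨hNE hx, fun g hg => ?_⟩
      obtain ⟨x₀, hx₀, rfl⟩ := hx
      have hζ₀ : (⟨ζ, hζE⟩ : E₀) ∈ N₀ := by
        obtain ⟨y, hy, e⟩ := hζN
        have : y = ⟨ζ, hζE⟩ := Subtype.ext e
        rw [← this]
        exact hy
      have := comm_mem_zpowers_of_card_sq hE₀p N₀ hN₀c hζ₀ (by
        intro h
        exact hζ1 (congrArg Subtype.val h)) (Subtype.ext hζv) (by
        rintro ⟨w, hw⟩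
        exact Subtype.ext (hζc w hw).symm) x₀ hx₀ ⟨g, hg⟩
      obtain ⟨n, hn⟩ := Subgroup.mem_zpowers_iff.1 this
      refine Subgroup.mem_zpowers_iff.2 ⟨n, ?_⟩
      have h5 := congrArg (Subtype.val) hn
      simpa using h5
    have hYnc : ¬ IsCyclic Y := fun h => not_cyclic_of_ea hNe (by rw [hNc]; exact hlt2) (isCyclic_of_le hNY h)
    have hYN : H ≤ normalizer (Y : Set G) := by
      intro h hh
      apply mem_normalizer_of_conj_le
      intro x hx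
      obtain ⟨hx1, hx2⟩ := (hYmem x).1 hx
      refine (hYmem _).2 ⟨(Subgroup.mem_normalizer_iff.1 (hE₀N hh) x).1 hx1, fun g hg => ?_⟩
      have hg' : h⁻¹ * g * h ∈ E₀ := by
        have := (Subgroup.mem_normalizer_iff.1 (hE₀N (inv_mem hh)) g).1 hg
        simpa using this
      have h3 := hx2 _ hg'
      have h4 : g * (h * x * h⁻¹) * g⁻¹ * (h * x * h⁻¹)⁻¹ =
          h * ((h⁻¹ * g * h) * x * (h⁻¹ * g * h)⁻¹ * x⁻¹) * h⁻¹ := by
        group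
      rw [h4]
      obtain ⟨n, hn⟩ := Subgroup.mem_zpowers_iff.1 h3
      rw [← hn]
      have h5 : h * ζ ^ n * h⁻¹ = (h * ζ * h⁻¹) ^ n := (conj_zpow).symm
      rw [h5]
      exact zpow_mem (hζH h hh) n
    refine ⟨Y, hG, hH, hv2, huq, hE₀T, hE₀N, hE₀p, hE₀p.to_le hYE, hYE.trans hE₀H, hYnc, hYN, ?_⟩
    intro x hx hx1
    obtain ⟨hx2, hx3⟩ := (hYmem x).1 hx
    have hcard : Nat.card E₁ ≤ Nat.card (zpowers ζ) * Nat.card ↥(E₁ ⊓ centralizer ({x} : Set G)) :=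
      card_le_of_comm_mem_zpowers (fun g hg => hζc g (hE₁E hg) |>.symm) (fun g hg => hx3 g (hE₁E hg))
    rw [hE₁c, Nat.card_zpowers, hζo] at hcard
    have h3 : v * v ^ 2 ≤ v * Nat.card ↥(E₁ ⊓ centralizer ({x} : Set G)) := by
      rw [show v * v ^ 2 = v ^ 3 by ring]
      exact hcard
    have h4 : v ^ 2 ≤ Nat.card ↥(E₁ ⊓ centralizer ({x} : Set G)) := Nat.le_of_mul_le_mul_left h3 hvp.pos
    have hB₁r : ¬ RankLE 1 ↥(E₁ ⊓ centralizer ({x} : Set G)) :=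
      not_rankLE_one_of_ea (ea_mono hE₁e inf_le_left) (by omega)
    have hB₁U : InUniqueMaximal (E₁ ⊓ centralizer ({x} : Set G)) :=
      uniq_of_centralizer hG hE₁U (inf_le_left.trans (le_centralizer_of_comm hE₁e.1)) hB₁r
    exact uniq_le hH (inf_le_left.trans hE₁H) hB₁U (centralizer_singleton_ne_top hG hx1) inf_le_right
  · -- the centre is not cyclic
    refine ⟨E₀ ⊓ centralizer (E₀ : Set G), hG, hH, hv2, huq, hE₀T, hE₀N, hE₀p, hE₀p.to_le inf_le_left,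
      inf_le_left.trans hE₀H, hZc, fun h hh => mem_normalizer_inf (hE₀N hh) (mem_normalizer_centralizer (hE₀N hh)), ?_⟩
    rintro x ⟨hx1, hx2⟩ hxne
    refine uniq_le hH hE₁H hE₁U (centralizer_singleton_ne_top hG hxne) ?_
    intro e he
    rw [Subgroup.mem_centralizer_iff]
    rintro _ rfl
    exact (Subgroup.mem_centralizer_iff.1 hx2 e (hE₁E he)).symm

end VDataEx

namespace VData

variable {v : ℕ} [hv : Fact v.Prime] {H E₀ Θ : Subgroup G} (D : VData v H E₀ Θ)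

include D

theorem uniq_of_ab {Λ : Subgroup G} (hΛΘ : Λ ≤ Θ) (hc : IsMulCommutative Λ) (hnc : ¬ IsCyclic Λ) :
    InUniqueMaximal Λ :=
  uniq_of_centralizers D.hG D.hH (hΛΘ.trans D.hΘH) (D.hΘp.to_le hΛΘ) hc hnc
    (fun b hb hb1 => D.hcent b (hΛΘ hb) hb1)

/-- A proper subgroup containing a noncyclic subgroup of `Θ` lies in `H`. -/
theorem noncyc_le {V X : Subgroup G} (hVΘ : V ≤ Θ) (hnc : ¬ IsCyclic V) (hXt : X ≠ ⊤) (hVX : V ≤ X) : X ≤ H := by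
  obtain ⟨Λ, hΛV, hΛc, hΛn⟩ := exists_noncyclic_ab D.hv2 (D.hΘp.to_le hVΘ) hnc
  exact uniq_le D.hH ((hΛV.trans hVΘ).trans D.hΘH) (D.uniq_of_ab (hΛV.trans hVΘ) hΛc hΛn) hXt (hΛV.trans hVX)

/-- A `v'`-subgroup normalized by a noncyclic subgroup of `Θ` lies in `H`. -/
theorem noncyc_inv {V X : Subgroup G} (hVΘ : V ≤ Θ) (hnc : ¬ IsCyclic V) (hX : (Nat.card X).Coprime v)
    (hVX : V ≤ normalizer (X : Set G)) : X ≤ H := by
  obtain ⟨Λ, hΛV, hΛc, hΛn⟩ := exists_noncyclic_ab D.hv2 (D.hΘp.to_le hVΘ) hnc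
  haveI := hΛc
  have hcop : (Nat.card Λ).Coprime (Nat.card X) := by
    obtain ⟨n, hn⟩ := IsPGroup.iff_card.1 (D.hΘp.to_le (hΛV.trans hVΘ))
    rw [hn]
    exact Nat.Coprime.pow_left n hX.symm
  have h := Cfsg.Agent.Lib.Basic.generation_by_centralizers Λ X hΛn (hΛV.trans hVX) hcop
  rw [← h]
  exact iSup₂_le fun a ha => inf_le_right.trans (D.hcent a (hVΘ (hΛV ha.1)) ha.2)

theorem hΘ1 : Θ ≠ ⊥ := by
  rintro rfl
  exact D.hΘc inferInstance

end VData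

/-- The setting of the case of a large `O_v(H)`. -/
structure C1Setup (p v : ℕ) (A A₀ H E₀ Θ : Subgroup G) : Prop where
  S : U3Setup p A A₀
  D : VData v H E₀ Θ
  hAH : A ≤ H
  hvp : v ≠ p

namespace C1Setup

variable {p v : ℕ} [hpf : Fact p.Prime] [hvf : Fact v.Prime] {A A₀ H E₀ Θ : Subgroup G}
  (T : C1Setup p v A A₀ H E₀ Θ)

local notation "𝐊" => piCoreOf (primesNotDvd (Nat.card A)) (centralizer (A : Set G))

include T

theorem hvpp : v.Prime := hvf.out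

theorem hΘcop : (Nat.card Θ).Coprime p := by
  obtain ⟨n, hn⟩ := IsPGroup.iff_card.1 T.D.hΘp
  rw [hn]
  exact Nat.Coprime.pow_left n ((Nat.coprime_primes hvf.out hpf.out).2 T.hvp)

theorem A_le_N : A ≤ normalizer (Θ : Set G) := T.hAH.trans T.D.hHΘ

theorem hΘgen : Θ ≤ ⨆ C ∈ Hyp p A₀, Θ ⊓ centralizer (C : Set G) :=
  le_iSup_hyp T.S.hA₀e T.S.hA₀c T.hΘcop (T.S.hA₀A.trans T.A_le_N)

theorem comm_A₀ {a e : G} (ha : a ∈ A₀) (he : e ∈ A₀) : a * e = e * a :=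
  congrArg Subtype.val (T.S.hA₀e.1.is_comm.comm ⟨a, ha⟩ ⟨e, he⟩)

theorem order_A_coprime {a : G} (ha : a ∈ A) : (orderOf a).Coprime v := by
  obtain ⟨k, hk⟩ := exists_orderOf_of_mem_isPGroup T.S.hAp ha
  rw [hk]
  exact Nat.Coprime.pow_left k ((Nat.coprime_primes hpf.out hvf.out).2 T.hvp.symm)

/-- `C_Θ(A₀) = 1` when enough `C_Θ(e)` are cyclic. -/
theorem fix_bot {𝓔 : Set G} (h𝓔 : ∀ e ∈ 𝓔, e ∈ A₀ ∧ e ≠ 1 ∧ IsCyclic ↥(Θ ⊓ centralizer ({e} : Set G)))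
    (h𝓔C : ∀ C ∈ Hyp p A₀, ∃ e ∈ 𝓔, e ∈ C) : Θ ⊓ centralizer (A₀ : Set G) = ⊥ := by
  by_contra hne
  obtain ⟨z, hz, hz1⟩ := (Θ ⊓ centralizer (A₀ : Set G)).bot_or_exists_ne_one.resolve_left hne
  have key : ∀ e ∈ 𝓔, Θ ⊓ centralizer ({e} : Set G) ≤ centralizer (A₀ : Set G) := by
    intro e he x hx
    obtain ⟨he1, he2, he3⟩ := h𝓔 e he
    rw [Subgroup.mem_centralizer_iff]
    intro a ha
    have ha' : a ∈ A₀ := ha
    have haN : a ∈ normalizer ((Θ ⊓ centralizer ({e} : Set G) : Subgroup G) : Set G) :=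
      mem_normalizer_inf (T.A_le_N (T.S.hA₀A ha')) (Subgroup.le_normalizer
        (Subgroup.mem_centralizer_iff.2 (by
          rintro u hu
          rw [Set.mem_singleton_iff] at hu
          subst hu
          exact T.comm_A₀ he1 ha')))
    have hzW : z ∈ Θ ⊓ centralizer ({e} : Set G) := ⟨hz.1, centralizer_le_of_mem he1 hz.2⟩
    have haz : a * z = z * a := (Subgroup.mem_centralizer_iff.1 hz.2 a ha)
    have := cyc_fix he3 (T.D.hΘp.to_le inf_le_left) T.D.hv2 (T.order_A_coprime (T.S.hA₀A ha')) haN hzW hz1 haz x hx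
    rw [mul_inv_eq_iff_eq_mul] at this
    exact this
  have h2 : Θ ≤ centralizer (A₀ : Set G) := by
    refine T.hΘgen.trans (iSup₂_le fun C hC => ?_)
    obtain ⟨e, he, heC⟩ := h𝓔C C hC
    exact (inf_le_inf_left _ (centralizer_le_of_mem heC)).trans (key e he)
  obtain ⟨C₀, hC₀, -⟩ := exists_hyp_le T.S.hA₀c (le_refl A₀) (by
    rw [Subgroup.relIndex_self]
    exact hpf.out.one_lt.le)
  obtain ⟨e, he, heC⟩ := h𝓔C C₀ hC₀
  obtain ⟨he1, he2, he3⟩ := h𝓔 e he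
  exact T.D.hΘc (isCyclic_of_le (le_inf le_rfl (h2.trans (centralizer_le_of_mem he1))) he3)

/-- Two hyperplanes with nontrivial fixed points. -/
theorem two_hyp {𝓔 : Set G} (h𝓔 : ∀ e ∈ 𝓔, e ∈ A₀ ∧ e ≠ 1 ∧ IsCyclic ↥(Θ ⊓ centralizer ({e} : Set G)))
    (h𝓔C : ∀ C ∈ Hyp p A₀, ∃ e ∈ 𝓔, e ∈ C) :
    ∃ C ∈ Hyp p A₀, ∃ C' ∈ Hyp p A₀, C ≠ C' ∧ Θ ⊓ centralizer (C : Set G) ≠ ⊥ ∧ Θ ⊓ centralizer (C' : Set G) ≠ ⊥ := by
  by_contra h
  push Not at h
  have h1 : ∃ C ∈ Hyp p A₀, Θ ⊓ centralizer (C : Set G) ≠ ⊥ := by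
    by_contra h2
    push Not at h2
    apply T.D.hΘ1
    rw [eq_bot_iff]
    refine T.hΘgen.trans (iSup₂_le fun C hC => ?_)
    rw [h2 C hC]
  obtain ⟨C, hC, hC1⟩ := h1
  have h2 : Θ ≤ Θ ⊓ centralizer (C : Set G) := by
    refine T.hΘgen.trans (iSup₂_le fun C' hC' => ?_)
    by_cases hCC : C = C'
    · rw [hCC]
    · rw [h C hC C' hC' hCC hC1]
      exact bot_le
  obtain ⟨e, he, heC⟩ := h𝓔C C hC
  obtain ⟨he1, he2, he3⟩ := h𝓔 e he
  exact T.D.hΘc (isCyclic_of_le (le_inf le_rfl ((h2.trans inf_le_right).trans (centralizer_le_of_mem heC))) he3)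

theorem inf_le_fix {C C' : Subgroup G} (hC : C ∈ Hyp p A₀) (hC' : C' ∈ Hyp p A₀) (hne : C ≠ C') :
    (Θ ⊓ centralizer (C : Set G)) ⊓ (Θ ⊓ centralizer (C' : Set G)) ≤ Θ ⊓ centralizer (A₀ : Set G) := by
  rintro x ⟨⟨hx1, hx2⟩, ⟨-, hx3⟩⟩
  refine ⟨hx1, ?_⟩
  rw [← hyp_sup_eq T.S.hA₀c hC hC' hne]
  exact mem_centralizer_sup hx2 hx3

theorem no_common (hbot : Θ ⊓ centralizer (A₀ : Set G) = ⊥) {C C' : Subgroup G} (hC : C ∈ Hyp p A₀)
    (hC' : C' ∈ Hyp p A₀) (hne : C ≠ C') (h1 : Θ ⊓ centralizer (C : Set G) ≠ ⊥) (h2 : Θ ⊓ centralizer (C' : Set G) ≠ ⊥)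
    {e : G} (he : e ∈ C) (he' : e ∈ C') : ¬ IsCyclic ↥(Θ ⊓ centralizer ({e} : Set G)) := by
  intro hcyc
  have h3 := cyc_inf_ne_bot hcyc (T.D.hΘp.to_le inf_le_left) (inf_le_inf_left _ (centralizer_le_of_mem he))
    (inf_le_inf_left _ (centralizer_le_of_mem he')) h1 h2
  apply h3
  rw [eq_bot_iff, ← hbot]
  exact T.inf_le_fix hC hC' hne

/-- **Step 1**: some `a ∈ A₀` has noncyclic `C_Θ(a)`. -/
theorem exists_a : ∃ a ∈ A₀, a ≠ 1 ∧ ¬ IsCyclic ↥(Θ ⊓ centralizer ({a} : Set G)) := by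
  by_contra h
  push Not at h
  set 𝓔 : Set G := {a | a ∈ A₀ ∧ a ≠ 1} with h𝓔
  have he : ∀ e ∈ 𝓔, e ∈ A₀ ∧ e ≠ 1 ∧ IsCyclic ↥(Θ ⊓ centralizer ({e} : Set G)) := fun e he =>
    ⟨he.1, he.2, h e he.1 he.2⟩
  have heC : ∀ C ∈ Hyp p A₀, ∃ e ∈ 𝓔, e ∈ C := by
    intro C hC
    have h1 := hyp_inf_ne_bot T.S.hA₀c hC hC
    rw [inf_idem] at h1
    obtain ⟨e, he1, he2⟩ := C.bot_or_exists_ne_one.resolve_left h1
    exact ⟨e, ⟨hC.1 he1, he2⟩, he1⟩
  have hbot := T.fix_bot he heC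
  obtain ⟨C, hC, C', hC', hne, h1, h2⟩ := T.two_hyp he heC
  obtain ⟨e, he1, he2⟩ := (C ⊓ C').bot_or_exists_ne_one.resolve_left (hyp_inf_ne_bot T.S.hA₀c hC hC')
  exact T.no_common hbot hC hC' hne h1 h2 he1.1 he1.2 (h e (hC.1 he1.1) he2)

theorem K_le_H : 𝐊 ≤ H := by
  obtain ⟨a, ha, ha1, hnc⟩ := T.exists_a
  have h1 : centralizer ({a} : Set G) ≤ H :=
    T.D.noncyc_le inf_le_left hnc (centralizer_singleton_ne_top T.D.hG ha1) inf_le_right
  exact (T.S.K_le_cent.trans (Subgroup.centralizer_le (Set.singleton_subset_iff.2 (T.S.hA₀A ha)))).trans h1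

/-- All maximal `A`-invariant `v`-subgroups lie in `H`. -/
theorem maxInv_v_le {Q : Subgroup G} (hQ : Q ∈ maxInvSubgroups ⊤ A {v}) : Q ≤ H := by
  have hE₀inv : E₀ ∈ invSubgroups ⊤ A {v} := T.S.mem_inv hvf.out T.D.hE₀p (T.hAH.trans T.D.hE₀H)
  obtain ⟨S₀, hS₀, hE₀S₀⟩ := exists_maxInv_ge hE₀inv
  have hS₀H : S₀ ≤ H := T.D.hE₀T S₀ (T.S.isPGroup_of_maxInv hvf.out hS₀) hE₀S₀
  obtain ⟨k, hk, rfl⟩ := T.S.trans_K hvf.out T.hvp hS₀ hQ
  rintro _ ⟨x, hx, rfl⟩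
  have hkH := T.K_le_H hk
  exact mul_mem (mul_mem hkH (hS₀H hx)) (inv_mem hkH)

theorem ea_conj {E : Subgroup G} (hE : IsElementaryAbelian v E) (m : G) :
    IsElementaryAbelian v (E.map (MulAut.conj m).toMonoidHom) := by
  refine ⟨⟨⟨?_⟩⟩, ?_⟩
  · rintro ⟨_, a, ha, rfl⟩ ⟨_, b, hb, rfl⟩
    apply Subtype.ext
    have := hE.1.is_comm.comm ⟨a, ha⟩ ⟨b, hb⟩
    have h3 : a * b = b * a := congrArg Subtype.val this
    show (MulAut.conj m) a * (MulAut.conj m) b = (MulAut.conj m) b * (MulAut.conj m) a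
    rw [← map_mul, ← map_mul, h3]
  · rintro _ ⟨a, ha, rfl⟩
    show ((MulAut.conj m) a) ^ v = 1
    rw [← map_pow, hE.2 a ha, map_one]

/-- **(★★)**: a proper `A`-invariant `p'`-subgroup of `v`-rank at least three lies in `H`. -/
theorem rank3_le {X : Subgroup G} (hXt : X ≠ ⊤) (hAX : A ≤ normalizer (X : Set G)) (hXc : (Nat.card X).Coprime p)
    (hr : ¬ PRankLE v 2 X) : X ≤ H := by
  have hact := T.S.action hAX hXc
  obtain ⟨P, hP, hAP⟩ := hact.exists_invariant_sylow v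
  have hPinv : P ∈ invSubgroups ⊤ A {v} := T.S.mem_inv hvf.out hP.isP hAP
  obtain ⟨Q, hQ, hPQ⟩ := exists_maxInv_ge hPinv
  have hPH : P ≤ H := hPQ.trans (T.maxInv_v_le hQ)
  obtain ⟨E, hEX, hEe, hEc⟩ := exists_E3 hr
  have hmax : IsMaxP v P X := ⟨hP.le, hP.isP, fun D' h1 h2 h3 =>
    Cfsg.Agent.Lib.Coprime.eq_of_isPGroup_of_not_dvd_relIndex h3 h1 h2 hP.not_dvd⟩
  obtain ⟨n, hn, hle⟩ := hmax.exists_conj_le hEX (isPGroup_of_ea hEe)
  have hE₃ := T.D.huq _ (T.ea_conj hEe n) (by rw [Cfsg.Agent.Lib.Coprime.card_conj_map, hEc])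
  refine uniq_le T.D.hH (hle.trans hPH) hE₃ hXt ?_
  rintro _ ⟨x, hx, rfl⟩
  exact mul_mem (mul_mem hn (hEX hx)) (inv_mem hn)

end C1Setup

end Cfsg.Agent.Lib.FT
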