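import Cfsg.Agent.Lib.FT.BG9d
import Cfsg.Agent.Lib.OddLocal.Rank2F

/-!
BG section 9, the Uniqueness Theorem (S1402): set-up for `A ∈ SCN₃(P)`.
-/

set_option autoImplicit false
set_option linter.unusedSectionVars false
set_option linter.style.haveILetI false

namespace Cfsg.Agent.Lib.FT

open Subgroup Cfsg Cfsg.Agent.Lib.OddLocal

open Cfsg.Agent.Lib.Coprime (mem_conj_map conj_mem_conj_map conj_map_conj_map conj_map_one
  conj_map_mono mem_normalizer_of_conj_le conj_map_eq_iff_mem_normalizer isPGroup_conj_map)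

open scoped commutatorElement

universe u

variable {G : Type u} [Group G] [Finite G]

/-- The standing data for the Uniqueness Theorem. -/
structure UData (p : ℕ) (A A₀ : Subgroup G) : Prop where
  hG : IsMinSimpleOddOrder G
  hAp : IsPGroup p A
  hAc : IsMulCommutative A
  hTH : TransitivityHypothesis A
  hr : ¬ PRankLE p 2 ↥A
  hA₀ : A₀ ≤ A
  hA₀e : IsElementaryAbelian p A₀
  hA₀c : Nat.card A₀ = p ^ 3
  hp2 : p ≠ 2

namespace UData

variable {p : ℕ} [hpf : Fact p.Prime] {A A₀ : Subgroup G}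

theorem hA1 (hU : UData p A A₀) : A ≠ ⊥ := hU.hTH.1

theorem pA (hU : UData p A A₀) : p ∣ Nat.card A := dvd_card_of_ne_bot hU.hAp le_rfl hU.hA1

theorem primes_eq (hU : UData p A A₀) {q : ℕ} (hq : q.Prime) : q ∣ Nat.card A ↔ q = p := by
  constructor
  · intro hd
    obtain ⟨k, hk⟩ := IsPGroup.iff_card.1 hU.hAp
    rw [hk] at hd
    exact (Nat.prime_dvd_prime_iff_eq hq hpf.out).1 (hq.dvd_of_dvd_pow hd)
  · rintro rfl
    exact hU.pA

theorem isPi_iff (hU : UData p A A₀) {Y : Subgroup G} :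
    IsPiSub (primesNotDvd (Nat.card A)) Y ↔ (Nat.card Y).Coprime p := by
  constructor
  · intro h
    refine Nat.Coprime.symm ((Nat.Prime.coprime_iff_not_dvd hpf.out).2 fun hd => ?_)
    exact (h p hpf.out hd).2 hU.pA
  · intro h q hq hd
    refine ⟨hq, fun hqA => ?_⟩
    have := (hU.primes_eq hq).1 hqA
    subst this
    exact hq.one_lt.ne' (Nat.eq_one_of_dvd_coprimes h hd (dvd_refl q))

/-- The `π(A)'`-core is the `p'`-core. -/
theorem core_eq (hU : UData p A A₀) (X : Subgroup G) : piCoreOf (primesNotDvd (Nat.card A)) X = Oq' p X := by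
  apply le_antisymm
  · have h1 : piCore (primesNotDvd (Nat.card A)) ↥X ≤ pPrimeCore p ↥X := by
      apply Cfsg.Agent.Lib.Basic.le_pPrimeCore (piCore_normal _ _)
      have h2 := hU.isPi_iff.1 (piCoreOf_isPi (primesNotDvd (Nat.card A)) X)
      rwa [show Nat.card (piCoreOf (primesNotDvd (Nat.card A)) X) = Nat.card (piCore (primesNotDvd (Nat.card A)) ↥X) from
        OddLocal.card_map_subtype _] at h2
    exact Subgroup.map_mono h1
  · exact le_piCoreOf (Oq'_le p X) (le_normalizer_Oq' p X) (hU.isPi_iff.2 (Oq'_card_coprime p X))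

/-- (★) -/
theorem le_Oq' (hU : UData p A A₀) {X Y : Subgroup G} (hX : X ≠ ⊤) (hAX : A ≤ X) (hYX : Y ≤ X)
    (hYc : (Nat.card Y).Coprime p) (hAY : A ≤ normalizer (Y : Set G)) : Y ≤ Oq' p X := by
  rw [← hU.core_eq]
  exact mem_piCoreOf_of_inv hU.hTH hX hAX hYX (hU.isPi_iff.2 hYc) hAY

theorem rank_center (hU : UData p A A₀) : ¬ RankLE 2 ↥(A ⊓ centralizer (A : Set G)) := by
  rw [inf_eq_left.2 (le_centralizer_of_comm hU.hAc)]
  exact fun h => hU.hr (h p hpf.out)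

theorem not_dvd_of_ne (hU : UData p A A₀) {q : ℕ} (hq : q.Prime) (hqp : q ≠ p) : ¬ q ∣ Nat.card A :=
  fun h => hqp ((hU.primes_eq hq).1 h)

/-- `K` is transitive on `|A|*(q)`. -/
theorem trans (hU : UData p A A₀) {q : ℕ} (hq : q.Prime) (hqp : q ≠ p) {Q₁ Q₂ : Subgroup G}
    (h₁ : Q₁ ∈ maxInvSubgroups ⊤ A {q}) (h₂ : Q₂ ∈ maxInvSubgroups ⊤ A {q}) :
    ∃ k ∈ Oq' p (centralizer (A : Set G)), Q₂ = Q₁.map (MulAut.conj k).toMonoidHom := by
  rw [← hU.core_eq]
  exact transitivity_rank_three hU.hG hU.hTH hU.rank_center q hq (hU.not_dvd_of_ne hq hqp) Q₁ Q₂ h₁ h₂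

theorem A_le_cent (hU : UData p A A₀) {D : Subgroup G} (hD : D ≤ A) : A ≤ centralizer (D : Set G) :=
  (le_centralizer_of_comm hU.hAc).trans (Subgroup.centralizer_le hD)

theorem cent_ne_top (hU : UData p A A₀) {D : Subgroup G} (hD1 : D ≠ ⊥) : centralizer (D : Set G) ≠ ⊤ := by
  obtain ⟨⟨d, hd⟩, hd1⟩ := Subgroup.ne_bot_iff_exists_ne_one.1 hD1
  intro h
  apply centralizer_singleton_ne_top hU.hG (e := d) (fun h' => hd1 (Subtype.ext h'))
  rw [eq_top_iff, ← h]
  exact Subgroup.centralizer_le (Set.singleton_subset_iff.2 hd)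

theorem A_norm_L (hU : UData p A A₀) {D : Subgroup G} (hD : D ≤ A) :
    A ≤ normalizer (Oq' p (centralizer (D : Set G)) : Set G) :=
  (hU.A_le_cent hD).trans (le_normalizer_Oq' p _)

/-- `L_{D'} ≤ L_D` when `D ≤ D' ≤ A`. -/
theorem L_anti (hU : UData p A A₀) {D D' : Subgroup G} (hDD' : D ≤ D') (hD' : D' ≤ A) (hD1 : D ≠ ⊥) :
    Oq' p (centralizer (D' : Set G)) ≤ Oq' p (centralizer (D : Set G)) :=
  hU.le_Oq' (hU.cent_ne_top hD1) (hU.A_le_cent (hDD'.trans hD'))
    ((Oq'_le p _).trans (Subgroup.centralizer_le hDD')) (Oq'_card_coprime p _) (hU.A_norm_L hD')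

theorem K_le_L (hU : UData p A A₀) {D : Subgroup G} (hD : D ≤ A) (hD1 : D ≠ ⊥) :
    Oq' p (centralizer (A : Set G)) ≤ Oq' p (centralizer (D : Set G)) :=
  hU.L_anti hD le_rfl hD1

theorem coprime_A (hU : UData p A A₀) {T : Subgroup G} (hT : (Nat.card T).Coprime p) :
    (Nat.card A).Coprime (Nat.card T) := by
  obtain ⟨k, hk⟩ := IsPGroup.iff_card.1 hU.hAp
  rw [hk]
  exact (Nat.Coprime.pow_right k hT).symm

theorem solv_A (hU : UData p A A₀) : Group.IsSolvable A := by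
  haveI := hU.hAp.isNilpotent
  infer_instance

/-- `A`-invariant `p'`-subgroups of `C_G(D)` lie in `L_D`. -/
theorem le_L (hU : UData p A A₀) {D T : Subgroup G} (hD : D ≤ A) (hD1 : D ≠ ⊥)
    (hTD : T ≤ centralizer (D : Set G)) (hTc : (Nat.card T).Coprime p) (hAT : A ≤ normalizer (T : Set G)) :
    T ≤ Oq' p (centralizer (D : Set G)) :=
  hU.le_Oq' (hU.cent_ne_top hD1) (hU.A_le_cent hD) hTD hTc hAT

theorem A_ne_top (hU : UData p A A₀) : A ≠ ⊤ := hU.hTH.2.1

/-- The `A`-invariant `p'`-subgroups of `C_G(A)` lie in `K`. -/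
theorem le_K (hU : UData p A A₀) {T : Subgroup G} (hTD : T ≤ centralizer (A : Set G))
    (hTc : (Nat.card T).Coprime p) : T ≤ Oq' p (centralizer (A : Set G)) := by
  refine hU.le_L le_rfl hU.hA1 hTD hTc ?_
  exact normalizes_of_le_centralizer hTD

end UData

/-- The hyperplanes of an elementary abelian group of order `p³`. -/
def hyperplanes (p : ℕ) (A₀ : Subgroup G) : Set (Subgroup G) := {B | B ≤ A₀ ∧ Nat.card B = p ^ 2}

/-- Generation by centralizers of hyperplanes. -/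
theorem gen_hyperplanes {p : ℕ} [hp : Fact p.Prime] {A₀ X : Subgroup G} (hA₀e : IsElementaryAbelian p A₀)
    (hA₀c : Nat.card A₀ = p ^ 3) (hX : A₀ ≤ normalizer (X : Set G)) (hc : (Nat.card X).Coprime p) :
    X ≤ ⨆ B ∈ hyperplanes p A₀, X ⊓ centralizer (B : Set G) := by
  have hcop : (Nat.card A₀).Coprime (Nat.card X) := by
    rw [hA₀c]
    exact (Nat.Coprime.pow_right 3 hc).symm
  refine (Cfsg.Agent.Lib.Coprime.le_iSup_centralizer_of_abelian_action hA₀e.1 _ X rfl hX hcop).trans ?_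
  refine iSup₂_le ?_
  rintro B ⟨hBA, a, ha, hBa⟩
  have hBp : IsPGroup p B := (isPGroup_of_ea hA₀e).to_le hBA
  obtain ⟨k, hk⟩ := IsPGroup.iff_card.1 hBp
  have hao : orderOf a ∣ p := orderOf_dvd_of_pow_eq_one (hA₀e.2 a ha)
  have hcard : Nat.card A₀ ≤ Nat.card B * p := by
    have h1 : zpowers a ≤ normalizer (B : Set G) := by
      rw [Subgroup.zpowers_le]
      apply Subgroup.centralizer_le_normalizer
      rw [Subgroup.mem_centralizer_iff]
      intro b hb
      have := hA₀e.1.is_comm.comm ⟨b, hBA hb⟩ ⟨a, ha⟩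
      exact congrArg Subtype.val this
    have h2 := OddLocal.card_sup_mul_card_inf h1
    rw [hBa] at h2
    have h3 : Nat.card A₀ ≤ Nat.card A₀ * Nat.card ↥(B ⊓ zpowers a) := Nat.le_mul_of_pos_right _ Nat.card_pos
    rw [h2, Nat.card_zpowers] at h3
    exact h3.trans (Nat.mul_le_mul_left _ (Nat.le_of_dvd hp.out.pos hao))
  have hk2 : 2 ≤ k := by
    by_contra hlt
    have : k ≤ 1 := by omega
    rw [hk, hA₀c] at hcard
    have h4 : p ^ k * p ≤ p ^ 1 * p := Nat.mul_le_mul_right _ (Nat.pow_le_pow_right hp.out.pos this)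
    have h5 : p ^ 3 ≤ p ^ 1 * p := hcard.trans h4
    have h6 : p ^ 1 * p = p ^ 2 := by ring
    rw [h6] at h5
    exact absurd h5 (not_le.2 (Nat.pow_lt_pow_right hp.out.one_lt (by norm_num)))
  obtain ⟨C', hC'⟩ := Sylow.exists_subgroup_card_pow_prime (G := B) p (n := 2) (by
    rw [hk]
    exact pow_dvd_pow p hk2)
  have hCB : C'.map B.subtype ≤ B := Subgroup.map_subtype_le _
  have hmem : C'.map B.subtype ∈ hyperplanes p A₀ := ⟨hCB.trans hBA, by
    rw [OddLocal.card_map_subtype, hC']⟩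
  refine le_trans ?_ (le_iSup₂_of_le _ hmem le_rfl)
  exact inf_le_inf_left _ (Subgroup.centralizer_le hCB)

/-- Two hyperplanes meet nontrivially. -/
theorem hyper_inter {p : ℕ} [hp : Fact p.Prime] {A₀ B B' : Subgroup G} (hA₀e : IsElementaryAbelian p A₀)
    (hA₀c : Nat.card A₀ = p ^ 3) (hB : B ∈ hyperplanes p A₀) (hB' : B' ∈ hyperplanes p A₀) : B ⊓ B' ≠ ⊥ := by
  intro hbot
  have h1 : B' ≤ normalizer (B : Set G) := by
    intro b' hb'
    apply Subgroup.centralizer_le_normalizer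
    rw [Subgroup.mem_centralizer_iff]
    intro b hb
    have := hA₀e.1.is_comm.comm ⟨b, hB.1 hb⟩ ⟨b', hB'.1 hb'⟩
    exact congrArg Subtype.val this
  have h2 := OddLocal.card_sup_mul_card_inf h1
  rw [hbot, Subgroup.card_bot, mul_one, hB.2, hB'.2] at h2
  have h3 : Nat.card ↥(B ⊔ B') ≤ Nat.card A₀ :=
    Subgroup.card_le_of_le (sup_le hB.1 hB'.1)
  rw [h2, hA₀c] at h3
  have h4 : p ^ 2 * p ^ 2 = p ^ 4 := by ring
  rw [h4] at h3
  exact absurd h3 (not_le.2 (Nat.pow_lt_pow_right hp.out.one_lt (by norm_num)))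

/-- A normal `p`-subgroup lies in every maximal `p`-subgroup. -/
theorem IsMaxP.normal_le {p : ℕ} [Fact p.Prime] {D N W : Subgroup G} (h : IsMaxP p D N) (hWN : W ≤ N)
    (hn : N ≤ normalizer (W : Set G)) (hW : IsPGroup p W) : W ≤ D := by
  obtain ⟨n, hn', hWn⟩ := h.exists_conj_le hWN hW
  rwa [(conj_map_eq_iff_mem_normalizer W n).2 (hn hn')] at hWn

namespace UData

variable {p : ℕ} [hpf : Fact p.Prime] {A A₀ : Subgroup G}

/-- For `Q ∈ |A|*(q)` and an `A`-invariant subgroup `T` normal in `L_D`, `Q ∩ T` is a Sylow `q`-subgroup of `T`. -/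
theorem inter_sylow (hU : UData p A A₀) {q : ℕ} [hqf : Fact q.Prime] (hqp : q ≠ p) {D T Q : Subgroup G}
    (hD : D ≤ A) (hD1 : D ≠ ⊥) (hTL : T ≤ Oq' p (centralizer (D : Set G)))
    (hLT : Oq' p (centralizer (D : Set G)) ≤ normalizer (T : Set G)) (hAT : A ≤ normalizer (T : Set G))
    (hQ : Q ∈ maxInvSubgroups ⊤ A {q}) : IsMaxP q (Q ⊓ T) T := by
  have hq : q.Prime := hqf.out
  have hTc : (Nat.card T).Coprime p := Nat.Coprime.coprime_dvd_left (Subgroup.card_dvd_of_le hTL) (Oq'_card_coprime p _)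
  obtain ⟨P₀, hP₀⟩ := Cfsg.Agent.Lib.Basic.exists_invariant_sylow hAT (hU.coprime_A hTc) (Or.inl hU.solv_A) q
  have hS₀max : IsMaxP q ((P₀ : Subgroup T).map T.subtype) T := isMaxP_of_sylow P₀
  have hS₀inv : (P₀ : Subgroup T).map T.subtype ∈ invSubgroups ⊤ A {q} :=
    ⟨le_top, (isPiSub_singleton_iff hq).2 hS₀max.isP, hP₀⟩
  obtain ⟨Q', hQ', hS₀Q'⟩ := exists_maxInv_ge hS₀inv
  obtain ⟨k, hk, e⟩ := hU.trans hq hqp hQ' hQ
  have hkT : k ∈ normalizer (T : Set G) := hLT (hU.K_le_L hD hD1 hk)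
  have hconj : IsMaxP q (((P₀ : Subgroup T).map T.subtype).map (MulAut.conj k).toMonoidHom) T := by
    have := hS₀max.conj k
    rwa [(conj_map_eq_iff_mem_normalizer T k).2 hkT] at this
  have hle : ((P₀ : Subgroup T).map T.subtype).map (MulAut.conj k).toMonoidHom ≤ Q ⊓ T :=
    le_inf (e ▸ Subgroup.map_mono hS₀Q') hconj.le
  have hQp : IsPGroup q Q := (isPiSub_singleton_iff hq).1 hQ.1.2.1
  have h1 := hconj.max (Q ⊓ T) inf_le_right (hQp.to_le inf_le_left) hle
  rw [h1]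
  exact hconj

/-- A normal `q`-subgroup of `L_D`, `q ≠ p`, lies in each member of `|A|*(q)`. -/
theorem normal_le_max (hU : UData p A A₀) {q : ℕ} [hqf : Fact q.Prime] (hqp : q ≠ p) {D W Q : Subgroup G}
    (hD : D ≤ A) (hD1 : D ≠ ⊥) (hWL : W ≤ Oq' p (centralizer (D : Set G)))
    (hLW : Oq' p (centralizer (D : Set G)) ≤ normalizer (W : Set G)) (hW : IsPGroup q W)
    (hQ : Q ∈ maxInvSubgroups ⊤ A {q}) : W ≤ Q := by
  have h1 := hU.inter_sylow hqp (T := Oq' p (centralizer (D : Set G))) hD hD1 le_rfl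
    (le_normalizer) (hU.A_norm_L hD) hQ
  exact (h1.normal_le hWL hLW hW).trans inf_le_left

end UData

end Cfsg.Agent.Lib.FT
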