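import Cfsg.Agent.Lib.FT.BG9V0

/-!
BG section 9, the Uniqueness Theorem (S1402): the case of `v`-rank at most two in all `O_v(O_{p'}(H))`.
-/

set_option autoImplicit false
set_option linter.unusedSectionVars false
set_option linter.style.haveILetI false

namespace Cfsg.Agent.Lib.FT

open Subgroup Cfsg Cfsg.Agent.Lib.OddLocal

open Cfsg.Agent.Lib.Coprime (mem_conj_map conj_mem_conj_map conj_map_conj_map conj_map_one
  conj_map_mono mem_normalizer_of_conj_le conj_map_eq_iff_mem_normalizer isPGroup_conj_map)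

open scoped commutatorElement

universe u

variable {G : Type u} [Group G] [Finite G]

/-- The derived subgroup of `Y ⊔ A`, `A` abelian, lies in `Y`. -/
theorem commutator_sup_le {Y A : Subgroup G} (hAY : A ≤ normalizer (Y : Set G)) (hAc : IsMulCommutative A) :
    ⁅Y ⊔ A, Y ⊔ A⁆ ≤ Y := by
  have hΓY : Y ⊔ A ≤ normalizer (Y : Set G) := sup_le Subgroup.le_normalizer hAY
  have hle : Y ⊔ A ≤ relCen Y (Y ⊔ A) := by
    refine sup_le ?_ ?_
    · intro y hy
      refine ⟨Subgroup.le_normalizer hy, fun e he => ?_⟩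
      rw [mul_assoc, mul_assoc, ← mul_assoc e]
      exact mul_mem hy ((Subgroup.mem_normalizer_iff.1 (hΓY he) _).1 (inv_mem hy))
    · intro a ha
      refine ⟨hAY ha, fun e he => ?_⟩
      obtain ⟨y, hy, b, hb, rfl⟩ := OddLocal.mem_sup_of_le_normalizer hAY he
      have hab : a * b = b * a := congrArg Subtype.val (hAc.is_comm.comm ⟨a, ha⟩ ⟨b, hb⟩)
      have h1 : a * (y * b) * a⁻¹ * (y * b)⁻¹ = (a * y * a⁻¹) * y⁻¹ := by
        have h2 : a * b * a⁻¹ = b := by rw [hab]; group
        calc a * (y * b) * a⁻¹ * (y * b)⁻¹ = a * y * a⁻¹ * (a * b * a⁻¹) * b⁻¹ * y⁻¹ := by group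
          _ = _ := by rw [h2]; group
      rw [h1]
      exact mul_mem ((Subgroup.mem_normalizer_iff.1 (hAY ha) y).1 hy) (inv_mem hy)
  rw [Subgroup.commutator_le]
  intro x hx z hz
  exact (hle hx).2 z hz

namespace UData

variable {p : ℕ} [hpf : Fact p.Prime] {A A₀ : Subgroup G}

/-- **`[Y, A] ≤ F(Y)`**, `Y = O_{p'}(H)`, when the primary parts of `F(Y)` have rank at most two. -/
theorem comm_le_fitting (hU : UData p A A₀) {H : Subgroup G} (hH : IsCoatom H) (hAH : A ≤ H)
    (hcase : ∀ (q : ℕ) [Fact q.Prime], q ≠ p → PRankLE q 2 ↥(Oq q (Oq' p H))) :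
    ⁅Oq' p H, A⁆ ≤ fittingOf (Oq' p H) := by
  set Y := Oq' p H with hY
  set Γ := Y ⊔ A with hΓ
  have hYH : Y ≤ H := Oq'_le p H
  have hYc : (Nat.card Y).Coprime p := Oq'_card_coprime p H
  have hHY : H ≤ normalizer (Y : Set G) := le_normalizer_Oq' p H
  have hAY : A ≤ normalizer (Y : Set G) := hAH.trans hHY
  have hΓH : Γ ≤ H := sup_le hYH hAH
  have hΓY : Γ ≤ normalizer (Y : Set G) := hΓH.trans hHY
  have hΓs : Group.IsSolvable Γ := solv_of_le hΓH (IsMinSimpleOddOrder.isSolvable hU.hG hH.1)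
  have hΓodd := odd_card_subgroup hU.hG Γ
  haveI := hΓs
  have hcomY : ⁅Γ, Γ⁆ ≤ Y := commutator_sup_le hAY hU.hAc
  have hYn : (Y.subgroupOf Γ).Normal := by
    constructor
    intro x hx g
    rw [Subgroup.mem_subgroupOf] at hx ⊢
    exact (Subgroup.mem_normalizer_iff.1 (hΓY g.2) _).1 hx
  have hnil : Group.IsNilpotent (commutator ↥Γ) := by
    apply isNilpotent_derived_of_centralize
    intro r hr c hc hcop
    haveI hrf : Fact r.Prime := ⟨hr⟩
    by_cases hrp : r = p
    · subst hrp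
      have hcY : c ∈ Y.subgroupOf Γ := by
        rw [Subgroup.mem_subgroupOf]
        apply hcomY
        rw [← Subgroup.map_subtype_commutator]
        exact ⟨c, hc, rfl⟩
      have hco : (Nat.card (Y.subgroupOf Γ)).Coprime (Nat.card (pCore r ↥Γ)) := by
        obtain ⟨k, hk⟩ := (Cfsg.Agent.Lib.Basic.pCore_isPGroup r (G := ↥Γ)).exists_card_eq
        rw [hk, show Nat.card (Y.subgroupOf Γ) = Nat.card Y from
          Nat.card_congr (subgroupOfEquivOfLe le_sup_left).toEquiv]
        exact Nat.Coprime.pow_right k hYc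
      haveI : (pCore r ↥Γ).Normal := Cfsg.Agent.Lib.Basic.pCore_normal r
      rw [Subgroup.mem_centralizer_iff]
      intro w hw
      exact (comm_of_normal_coprime hco hcY hw).symm
    · refine centralize_of_rank hΓodd r hr ?_ c hc hcop
      -- `O_r(Γ) ≤ O_r(Y)`
      set W := (pCore r ↥Γ).map Γ.subtype with hW
      have hWp : IsPGroup r W := (Cfsg.Agent.Lib.Basic.pCore_isPGroup r).map _
      have hΓW : Γ ≤ normalizer (W : Set G) := by
        intro g hg
        apply mem_normalizer_of_conj_le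
        rintro _ ⟨w, hw, rfl⟩
        haveI : (pCore r ↥Γ).Normal := Cfsg.Agent.Lib.Basic.pCore_normal r
        exact ⟨⟨g, hg⟩ * w * ⟨g, hg⟩⁻¹, (inferInstance : (pCore r ↥Γ).Normal).conj_mem w hw _, by simp⟩
      have hWΓ : W ≤ Γ := Subgroup.map_subtype_le _
      have hWc : (Nat.card W).Coprime p := by
        obtain ⟨k, hk⟩ := IsPGroup.iff_card.1 hWp
        rw [hk]
        exact Nat.Coprime.pow_left _ ((Nat.coprime_primes hr hpf.out).2 hrp)
      have hWYc : (Nat.card ↥(W ⊔ Y)).Coprime p := by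
        have h1 := OddLocal.card_sup_mul_card_inf (A := Y) (B := W) (hWΓ.trans hΓY)
        rw [sup_comm] at h1
        have h2 : Nat.card ↥(W ⊔ Y) ∣ Nat.card Y * Nat.card W := ⟨_, h1.symm⟩
        exact Nat.Coprime.coprime_dvd_left h2 (Nat.Coprime.mul_left hYc hWc)
      have hWY : W ≤ Y := by
        have h1 : W ⊔ Y ≤ Oq' p H := hU.le_Oq' hH.1 hAH (sup_le (hWΓ.trans hΓH) hYH) hWYc
          (Cfsg.Agent.Lib.Basic.le_normalizer_sup ((le_sup_right : A ≤ Γ).trans hΓW) hAY)
        exact le_sup_left.trans h1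
      have hWO : W ≤ Oq r Y := le_Oq hWY ((le_sup_left : Y ≤ Γ).trans hΓW) hWp
      let f : ↥(pCore r ↥Γ) →* ↥(Oq r Y) :=
        { toFun := fun x => ⟨((x : ↥Γ) : G), hWO ⟨x, x.2, rfl⟩⟩
          map_one' := rfl
          map_mul' := fun _ _ => rfl }
      refine prank_of_injective f ?_ (hcase r hrp)
      intro x y hxy
      exact Subtype.ext (Subtype.ext (congrArg (fun z : ↥(Oq r Y) => (z : G)) hxy))
  have hnil' : Group.IsNilpotent ↥⁅Γ, Γ⁆ := by
    rw [← Subgroup.map_subtype_commutator]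
    exact isNilpotent_map_subtype hnil
  have h1 : ⁅Γ, Γ⁆ ≤ fittingOf Y :=
    le_fittingOf hcomY ((le_sup_left : Y ≤ Γ).trans (Subgroup.normalizer_commutator_ge_left Γ Γ)) hnil'
  exact (Subgroup.commutator_mono le_sup_left le_sup_right).trans h1

end UData

/-- The join of finitely many commuting `p'`-subgroups is a `p'`-subgroup. -/
theorem coprime_finset_sup {p : ℕ} {ι : Type*} (s : Finset ι) (H : ι → Subgroup G)
    (hc : ∀ i ∈ s, ∀ j ∈ s, i ≠ j → H i ≤ centralizer (H j : Set G))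
    (hπ : ∀ i ∈ s, (Nat.card (H i)).Coprime p) : (Nat.card ↥(s.sup H)).Coprime p := by
  classical
  induction s using Finset.induction_on with
  | empty =>
    simp
  | insert b s hb ih =>
    rw [Finset.sup_insert]
    have h1 := ih (fun i hi j hj hij => hc i (Finset.mem_insert_of_mem hi) j (Finset.mem_insert_of_mem hj) hij)
      (fun i hi => hπ i (Finset.mem_insert_of_mem hi))
    have h2 : s.sup H ≤ centralizer (H b : Set G) := by
      apply Finset.sup_le
      intro i hi
      refine hc i (Finset.mem_insert_of_mem hi) b (Finset.mem_insert_self b s) ?_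
      rintro rfl
      exact hb hi
    have h3 := OddLocal.card_sup_mul_card_inf (A := H b) (B := s.sup H)
      (h2.trans (Subgroup.centralizer_le_normalizer _))
    have h4 : Nat.card ↥(H b ⊔ s.sup H) ∣ Nat.card (H b) * Nat.card ↥(s.sup H) := ⟨_, h3.symm⟩
    exact Nat.Coprime.coprime_dvd_left h4 (Nat.Coprime.mul_left (hπ b (Finset.mem_insert_self b s)) h1)

namespace UData

variable {p : ℕ} [hpf : Fact p.Prime] {A A₀ : Subgroup G}

theorem hyper_le (hU : UData p A A₀) {B : Subgroup G} (hB : B ∈ hyperplanes p A₀) : B ≤ A := hB.1.trans hU.hA₀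

theorem hyper_ne_bot (hU : UData p A A₀) {B : Subgroup G} (hB : B ∈ hyperplanes p A₀) : B ≠ ⊥ := by
  rintro rfl
  have h := hB.2
  rw [Subgroup.card_bot] at h
  have : 1 < p ^ 2 := Nat.one_lt_pow (by norm_num) hpf.out.one_lt
  omega

theorem exists_max (hU : UData p A A₀) (q : ℕ) : ∃ Q, Q ∈ maxInvSubgroups ⊤ A {q} := by
  obtain ⟨Q, hQ, -⟩ := exists_maxInv_ge (T := ⊥) (A := A) (X := ⊤) (q := q)
    ⟨le_top, isPiSub_bot _, fun a _ => by
      rw [Subgroup.mem_normalizer_iff]
      intro h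
      simp⟩
  exact ⟨Q, hQ⟩

/-- **The Uniqueness Theorem in the case of rank at most two.** -/
theorem case_two (hU : UData p A A₀) (hcase : ∀ H : Subgroup G, IsCoatom H → A ≤ H →
    ∀ (q : ℕ) [Fact q.Prime], q ≠ p → PRankLE q 2 ↥(Oq q (Oq' p H))) : InUniqueMaximal A := by
  classical
  have hG := hU.hG
  set 𝓗 := hyperplanes p A₀ with h𝓗
  set K := Oq' p (centralizer (A : Set G)) with hK
  -- nilpotency
  have hnil : ∀ D : Subgroup G, D ≤ A → D ≠ ⊥ → Group.IsNilpotent ↥⁅Oq' p (centralizer (D : Set G)), A⁆ := by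
    intro D hD hD1
    obtain ⟨H, hH, hCH⟩ := exists_coatom_ge (hU.cent_ne_top hD1)
    have hAH : A ≤ H := (hU.A_le_cent hD).trans hCH
    have h1 : Oq' p (centralizer (D : Set G)) ≤ Oq' p H :=
      hU.le_Oq' hH.1 hAH ((Oq'_le p _).trans hCH) (Oq'_card_coprime p _) (hU.A_norm_L hD)
    exact nilp_of_le ((Subgroup.commutator_mono h1 le_rfl).trans (hU.comm_le_fitting hH hAH (hcase H hH hAH)))
      (fittingOf_isNilpotent _)
  set n : Subgroup G → Subgroup G := fun B => ⁅Oq' p (centralizer (B : Set G)), A⁆ with hn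
  have hLn : ∀ B : Subgroup G, Oq' p (centralizer (B : Set G)) ≤ normalizer (n B : Set G) := fun B =>
    Subgroup.normalizer_commutator_ge_left _ _
  have hAn : ∀ B : Subgroup G, A ≤ normalizer (n B : Set G) := fun B =>
    Subgroup.normalizer_commutator_ge_right _ _
  have hnL : ∀ (B : Subgroup G), B ≤ A → n B ≤ Oq' p (centralizer (B : Set G)) := fun B hB =>
    Cfsg.Agent.Lib.Basic.commutator_le_of_le_normalizer (hU.A_norm_L hB)
  set Tr : ℕ → Subgroup G := fun r => ⨆ B ∈ 𝓗, Oq r (n B) with hTr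
  -- each `Tr r` lies in each member of `|A|*(r)`
  have hTrle : ∀ (r : ℕ) [Fact r.Prime], r ≠ p → ∀ Q ∈ maxInvSubgroups ⊤ A {r}, Tr r ≤ Q := by
    intro r hr hrp Q hQ
    refine iSup₂_le fun B hB => ?_
    refine hU.normal_le_max hrp (hU.hyper_le hB) (hU.hyper_ne_bot hB)
      ((Oq_le r _).trans (hnL B (hU.hyper_le hB))) ?_ (Oq_isPGroup r _) hQ
    exact (hLn B).trans (normalizer_le_normalizer_Oq r _)
  have hTrp : ∀ (r : ℕ) [Fact r.Prime], r ≠ p → IsPGroup r (Tr r) := by
    intro r hr hrp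
    obtain ⟨Q, hQ⟩ := hU.exists_max r
    exact ((isPiSub_singleton_iff hr.out).1 hQ.1.2.1).to_le (hTrle r hrp Q hQ)
  -- the `Tr r` commute
  have hTrc : ∀ (r s : ℕ) [Fact r.Prime] [Fact s.Prime], r ≠ s → Tr r ≤ centralizer (Tr s : Set G) := by
    intro r s hr hs hrs
    refine iSup₂_le fun B hB => ?_
    refine le_centralizer_symm (iSup₂_le fun B' hB' => ?_)
    intro y hy
    rw [Subgroup.mem_centralizer_iff]
    intro x hx
    have hD1 := hyper_inter hU.hA₀e hU.hA₀c hB hB'
    have hD : B ⊓ B' ≤ A := inf_le_left.trans (hU.hyper_le hB)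
    have hN := hnil _ hD hD1
    have hxN : x ∈ ⁅Oq' p (centralizer ((B ⊓ B' : Subgroup G) : Set G)), A⁆ :=
      Subgroup.commutator_mono (hU.L_anti inf_le_left (hU.hyper_le hB) hD1) le_rfl (Oq_le r _ hx)
    have hyN : y ∈ ⁅Oq' p (centralizer ((B ⊓ B' : Subgroup G) : Set G)), A⁆ :=
      Subgroup.commutator_mono (hU.L_anti inf_le_right (hU.hyper_le hB') hD1) le_rfl (Oq_le s _ hy)
    apply comm_of_coprime_of_nilpotent_subgroup hN hxN hyN
    obtain ⟨k, hk⟩ := Cfsg.Agent.Lib.PGroups.exists_orderOf_of_mem_isPGroup (Oq_isPGroup r _) hx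
    obtain ⟨l, hl⟩ := Cfsg.Agent.Lib.PGroups.exists_orderOf_of_mem_isPGroup (Oq_isPGroup s _) hy
    rw [hk, hl]
    exact Nat.Coprime.pow _ _ ((Nat.coprime_primes Fact.out Fact.out).2 hrs)
  set S := (Nat.card G).primeFactors.erase p with hS
  set T := S.sup Tr with hT
  have hTc : (Nat.card T).Coprime p := by
    apply coprime_finset_sup
    · intro i hi j hj hij
      haveI : Fact i.Prime := ⟨Nat.prime_of_mem_primeFactors (Finset.mem_of_mem_erase hi)⟩
      haveI : Fact j.Prime := ⟨Nat.prime_of_mem_primeFactors (Finset.mem_of_mem_erase hj)⟩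
      exact hTrc i j hij
    · intro i hi
      haveI : Fact i.Prime := ⟨Nat.prime_of_mem_primeFactors (Finset.mem_of_mem_erase hi)⟩
      obtain ⟨k, hk⟩ := IsPGroup.iff_card.1 (hTrp i (Finset.ne_of_mem_erase hi))
      rw [hk]
      exact Nat.Coprime.pow_left _ ((Nat.coprime_primes Fact.out hpf.out).2 (Finset.ne_of_mem_erase hi))
  have hnT : ∀ B ∈ 𝓗, n B ≤ T := by
    intro B hB x hx
    refine mem_of_parts (hnil B (hU.hyper_le hB) (hU.hyper_ne_bot hB)) hx fun r hr hd => ?_
    have hrp : r ≠ p := by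
      rintro rfl
      have h1 : r ∣ Nat.card (Oq' r (centralizer (B : Set G))) :=
        (hd.trans (Subgroup.orderOf_dvd_natCard _ hx)).trans
          (Subgroup.card_dvd_of_le (hnL B (hU.hyper_le hB)))
      have h2 := Oq'_card_coprime r (centralizer (B : Set G))
      exact hr.out.one_lt.ne' (Nat.eq_one_of_dvd_coprimes h2 h1 (dvd_refl r))
    have hrS : r ∈ S := by
      refine Finset.mem_erase.2 ⟨hrp, Nat.mem_primeFactors.2 ⟨hr.out, ?_, Nat.card_pos.ne'⟩⟩
      exact (hd.trans (Subgroup.orderOf_dvd_natCard _ hx)).trans (Subgroup.card_subgroup_dvd_card _)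
    have h1 : Oq r (n B) ≤ Tr r := le_iSup₂_of_le B hB le_rfl
    exact h1.trans (Finset.le_sup (f := Tr) hrS)
  -- `K` and `A` normalize `T`
  have hTnorm : ∀ g : G, (∀ B ∈ 𝓗, g ∈ normalizer (n B : Set G)) → g ∈ normalizer (T : Set G) := by
    intro g hg
    rw [hT, Finset.sup_eq_iSup]
    refine Cfsg.Agent.Lib.Basic.mem_normalizer_iSup fun r => Cfsg.Agent.Lib.Basic.mem_normalizer_iSup fun hr => ?_
    refine Cfsg.Agent.Lib.Basic.mem_normalizer_iSup fun B => Cfsg.Agent.Lib.Basic.mem_normalizer_iSup fun hB => ?_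
    exact normalizer_le_normalizer_Oq r _ (hg B hB)
  have hKT : K ≤ normalizer (T : Set G) := fun k hk =>
    hTnorm k fun B hB => hLn B (hU.K_le_L (hU.hyper_le hB) (hU.hyper_ne_bot hB) hk)
  have hAT : A ≤ normalizer (T : Set G) := fun a ha => hTnorm a fun B _ => hAn B ha
  have hAK : A ≤ normalizer (K : Set G) := hU.A_norm_L le_rfl
  set W := T ⊔ K with hW
  have hWc : (Nat.card W).Coprime p := by
    have h3 := OddLocal.card_sup_mul_card_inf hKT
    have h4 : Nat.card W ∣ Nat.card T * Nat.card K := ⟨_, h3.symm⟩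
    exact Nat.Coprime.coprime_dvd_left h4 (Nat.Coprime.mul_left hTc (Oq'_card_coprime p _))
  have hAW : A ≤ normalizer (W : Set G) := Cfsg.Agent.Lib.Basic.le_normalizer_sup hAT hAK
  -- every `A`-invariant `p'`-subgroup lies in `W`
  have hX : ∀ X : Subgroup G, (Nat.card X).Coprime p → A ≤ normalizer (X : Set G) → X ≤ W := by
    intro X hXc hAX
    refine (gen_hyperplanes hU.hA₀e hU.hA₀c (hU.hA₀.trans hAX) hXc).trans (iSup₂_le fun B hB => ?_)
    have hBA := hU.hyper_le hB
    have hB1 := hU.hyper_ne_bot hB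
    have h1 : X ⊓ centralizer (B : Set G) ≤ Oq' p (centralizer (B : Set G)) :=
      hU.le_L hBA hB1 inf_le_right (Nat.Coprime.coprime_dvd_left (Subgroup.card_dvd_of_le inf_le_left) hXc)
        (Cfsg.Agent.Lib.Basic.le_normalizer_inf hAX ((hU.A_le_cent hBA).trans Subgroup.le_normalizer))
    refine h1.trans ?_
    have hLc : (Nat.card A).Coprime (Nat.card (Oq' p (centralizer (B : Set G)))) :=
      hU.coprime_A (Oq'_card_coprime p _)
    rw [← Cfsg.Agent.Lib.Basic.coprime_commutator_sup_centralizer (hU.A_norm_L hBA) hLc (Or.inl hU.solv_A)]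
    refine sup_le ((hnT B hB).trans le_sup_left) (le_trans ?_ le_sup_right)
    exact hU.le_K inf_le_right (Nat.Coprime.coprime_dvd_left (Subgroup.card_dvd_of_le inf_le_left)
      (Oq'_card_coprime p _))
  -- conclusion
  have hAne : A ≠ ⊤ := hU.A_ne_top
  by_cases hW1 : W = ⊥
  · obtain ⟨M, hM, hAM⟩ := exists_coatom_ge hAne
    refine uniq_of_inv hG hM hAM hU.hA1 hU.hAp fun Y hYc hAY => ?_
    have h1 := hX Y hYc hAY
    rw [hW1, le_bot_iff] at h1
    rw [h1]
    exact bot_le
  · have hWne : W ≠ ⊤ := by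
      intro h
      have h1 : p ∣ Nat.card W := by
        rw [h, Subgroup.card_top]
        exact hU.pA.trans (Subgroup.card_subgroup_dvd_card A)
      exact hpf.out.one_lt.ne' (Nat.eq_one_of_dvd_coprimes hWc h1 (dvd_refl p))
    obtain ⟨M, hM, hNM⟩ := exists_coatom_ge (IsMinSimpleOddOrder.normalizer_ne_top hG hW1 hWne)
    have hWM : W ≤ M := Subgroup.le_normalizer.trans hNM
    refine uniq_of_inv hG hM (hAW.trans hNM) hU.hA1 hU.hAp fun Y hYc hAY => ?_
    exact (hX Y hYc hAY).trans hWM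

end UData

end Cfsg.Agent.Lib.FT
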