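import Cfsg.Agent.Lib.FT.BG9a

/-!
BG section 9: the uniqueness criterion S1398 (`J_B ≤ M` implies `M` is the only maximal subgroup
containing `B`), with the transitivity hypothesis on SCN-subgroups (S1396(2)) as explicit assumption.
-/

set_option autoImplicit false
set_option linter.unusedSectionVars false
set_option linter.style.haveILetI false

namespace Cfsg.Agent.Lib.FT

open Subgroup Cfsg Cfsg.Agent.Lib.OddLocal

open Cfsg.Agent.Lib.Coprime (mem_conj_map conj_mem_conj_map conj_map_conj_map conj_map_one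
  conj_map_mono mem_normalizer_of_conj_le conj_map_eq_iff_mem_normalizer isPGroup_conj_map)

universe u

variable {G : Type u} [Group G] [Finite G]

/-- The transitivity hypothesis for rank-two SCN-subgroups of Sylow `p`-subgroups (S1396(2)). -/
def TH2 (p : ℕ) (G : Type u) [Group G] : Prop :=
  ∀ (S : Sylow p G) (A : Subgroup G), IsSCN (S : Subgroup G) A → ¬ PRankLE p 1 A → TransitivityHypothesis A

/-- A subgroup with nontrivial core in a coatom: the normalizer is the coatom. -/
theorem coatom_normalizer_eq (hG : IsMinSimpleOddOrder G) {M X : Subgroup G} (hM : IsCoatom M) (hX : X ≠ ⊥)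
    (hX' : X ≠ ⊤) (hMX : M ≤ normalizer (X : Set G)) : normalizer (X : Set G) = M := by
  by_contra hne
  exact IsMinSimpleOddOrder.normalizer_ne_top hG hX hX' (hM.2 _ (lt_of_le_of_ne hMX (Ne.symm hne)))

theorem odd_card_subgroup (hG : IsMinSimpleOddOrder G) (H : Subgroup G) : Odd (Nat.card H) :=
  Odd.of_dvd_nat hG.1 (Subgroup.card_subgroup_dvd_card H)

theorem coatom_not_le {H M : Subgroup G} (hH : IsCoatom H) (hM : IsCoatom M) (hne : H ≠ M) : ¬ H ≤ M :=
  fun h => hM.1 (hH.2 M (lt_of_le_of_ne h hne))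

theorem le_normalizer_Oq' (p : ℕ) (H : Subgroup G) : H ≤ normalizer (Oq' p H : Set G) := by
  intro h hh
  apply mem_normalizer_of_conj_le
  rintro _ ⟨x, hx, rfl⟩
  haveI : (pPrimeCore p H).Normal := Cfsg.Agent.Lib.Basic.pPrimeCore_normal p
  exact ⟨⟨h, hh⟩ * x * ⟨h, hh⟩⁻¹, (inferInstance : (pPrimeCore p H).Normal).conj_mem x hx _, by simp⟩

section

variable {p : ℕ} [hpf : Fact p.Prime]

theorem normalizer_le_normalizer_cJ (P : Subgroup G) :
    normalizer (P : Set G) ≤ normalizer (centerThompsonOf p P : Set G) := by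
  rw [← Zf_cJ]
  apply le_normalizer_Zf (cJ_isoInv p) _ P Subgroup.le_normalizer
  haveI : (P.subgroupOf (normalizer (P : Set G))).Normal := Subgroup.normal_in_normalizer
  exact Zf_normal (cJ_isoInv p) _

theorem centerThompsonOf_le (P : Subgroup G) : centerThompsonOf p P ≤ P := by
  rw [← Zf_cJ]
  exact Zf_le _ _

/-- An invariance transfer under conjugation by a normalizing element. -/
theorem le_normalizer_conj {T Y : Subgroup G} (hTY : T ≤ normalizer (Y : Set G)) {g : G}
    (hg : g ∈ normalizer (T : Set G)) : T ≤ normalizer ((Y.map (MulAut.conj g).toMonoidHom : Subgroup G) : Set G) := by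
  intro t ht
  rw [normalizer_conj_map, mem_conj_map]
  apply hTY
  have := (Subgroup.mem_normalizer_iff.1 (inv_mem hg) t).1 ht
  simpa using this

/-- An element whose conjugate of `V` lies in `V` normalizes `V`. -/
theorem mem_normalizer_of_conj_map_le {V : Subgroup G} {g : G}
    (h : V.map (MulAut.conj g).toMonoidHom ≤ V) : g ∈ normalizer (V : Set G) :=
  mem_normalizer_of_conj_le _ _ fun x hx => h (conj_mem_conj_map V g x hx)

/-- **The uniqueness criterion.** -/
theorem s1398_core (hG : IsMinSimpleOddOrder G) {M B : Subgroup G} (hM : IsCoatom M) (hBM : B ≤ M) (hB1 : B ≠ ⊥)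
    (hBp : IsPGroup p B) (hJ : ∀ Y : Subgroup G, (Nat.card Y).Coprime p → B ≤ normalizer (Y : Set G) → Y ≤ M)
    (hTH : TH2 p G) : ∀ H : Subgroup G, IsCoatom H → B ≤ H → H = M := by
  classical
  have hp : p.Prime := hpf.out
  have hp2 : p ≠ 2 := by
    rintro rfl
    obtain ⟨b, hb⟩ := (Subgroup.ne_bot_iff_exists_ne_one.1 hB1)
    have h1 : 2 ∣ Nat.card B := by
      obtain ⟨k, hk⟩ := IsPGroup.iff_card.1 hBp
      rw [hk]
      refine dvd_pow_self 2 ?_
      rintro rfl
      have : Nat.card B = 1 := by simpa using hk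
      have h3 : Subsingleton B := (Nat.card_eq_one_iff_unique.1 this).1
      exact hb (Subsingleton.elim _ _)
    have h2 := odd_card_subgroup hG B
    exact (Nat.not_even_iff_odd.2 h2) (even_iff_two_dvd.2 h1)
  by_contra hcon
  push Not at hcon
  obtain ⟨H₀, hH₀, hBH₀, hH₀M⟩ := hcon
  let Pairs : Set (Subgroup G × Subgroup G) :=
    {x | IsCoatom x.1 ∧ x.1 ≠ M ∧ B ≤ x.2 ∧ x.2 ≤ x.1 ∧ x.2 ≤ M ∧ IsPGroup p x.2}
  obtain ⟨⟨H, P⟩, ⟨hH, hHM, hBP, hPH, hPM, hPp⟩, hmaxpair⟩ :=
    Set.exists_max_image Pairs (fun x => Nat.card x.2) (Set.toFinite _)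
      ⟨(H₀, B), hH₀, hH₀M, le_rfl, hBH₀, hBM, hBp⟩
  have hmaxpair' : ∀ H' P' : Subgroup G, IsCoatom H' → H' ≠ M → B ≤ P' → P' ≤ H' → P' ≤ M → IsPGroup p P' →
      Nat.card P' ≤ Nat.card P := fun H' P' a1 a2 a3 a4 a5 a6 =>
    hmaxpair (H', P') ⟨a1, a2, a3, a4, a5, a6⟩
  simp only at hBP hPH hPM hPp hH hHM
  have hP1 : P ≠ ⊥ := fun h => hB1 (le_bot_iff.1 (h ▸ hBP))
  have hPne : P ≠ ⊤ := IsMinSimpleOddOrder.ne_top_of_isPGroup hG hp hPp
  have hJP : ∀ Y : Subgroup G, (Nat.card Y).Coprime p → P ≤ normalizer (Y : Set G) → Y ≤ M :=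
    fun Y hY h => hJ Y hY (hBP.trans h)
  have hHs : Group.IsSolvable H := IsMinSimpleOddOrder.isSolvable hG hH.1
  have hMs : Group.IsSolvable M := IsMinSimpleOddOrder.isSolvable hG hM.1
  have hHodd := odd_card_subgroup hG H
  have hModd := odd_card_subgroup hG M
  have hPmaxHM : IsMaxP p P (H ⊓ M) := by
    refine ⟨le_inf hPH hPM, hPp, fun D' h1 h2 h3 => ?_⟩
    have h4 := hmaxpair' H D' hH hHM (hBP.trans h3) (h1.trans inf_le_left) (h1.trans inf_le_right) h2
    exact (Subgroup.eq_of_le_of_card_ge h3 h4).symm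
  have hHnotM : ¬ H ≤ M := coatom_not_le hH hM hHM
  set C := centerThompsonOf p P with hC
  have hC1 : C ≠ ⊥ := Cfsg.Agent.Lib.PLocal.centerThompsonOf_ne_bot hPp hP1
  have hCP : C ≤ P := centerThompsonOf_le P
  have hCne : C ≠ ⊤ := IsMinSimpleOddOrder.ne_top_of_isPGroup hG hp (hPp.to_le hCP)
  have hNC : normalizer (P : Set G) ≤ normalizer (C : Set G) := normalizer_le_normalizer_cJ P
  have hVH : Oq' p H ≤ M := hJP _ (Oq'_card_coprime p H) (hPH.trans (le_normalizer_Oq' p H))
  obtain ⟨X, hX, hPX⟩ := exists_isMaxP_ge hPM hPp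
  by_cases hPX' : P = X
  swap
  · -- Case 1: `P` is not a Sylow subgroup of `M`
    have hlt : P < X := lt_of_le_of_ne hPX hPX'
    have hPP₁ : P < X ⊓ normalizer (P : Set G) := lt_inf_normalizer hX.isP hlt
    have hP₁M : X ⊓ normalizer (P : Set G) ≤ M := inf_le_left.trans hX.le
    have hP₁p : IsPGroup p ↥(X ⊓ normalizer (P : Set G)) := hX.isP.to_le inf_le_left
    have hle : ∀ K : Subgroup G, K ≠ ⊤ → X ⊓ normalizer (P : Set G) ≤ K → K ≤ M := by
      intro K hK hP₁K
      obtain ⟨L, hL, hKL⟩ := exists_coatom_ge hK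
      by_cases hLM : L = M
      · rw [← hLM]; exact hKL
      · have := hmaxpair' L _ hL hLM (hBP.trans hPP₁.le) (hP₁K.trans hKL) hP₁M hP₁p
        exact absurd (card_lt_of_subgroup_lt hPP₁) (not_lt.2 this)
    have hNP : normalizer (P : Set G) ≤ M :=
      hle _ (IsMinSimpleOddOrder.normalizer_ne_top hG hP1 hPne) inf_le_right
    have hPmaxH : IsMaxP p P H := by
      refine ⟨hPH, hPp, fun D' h1 h2 h3 => ?_⟩
      by_contra hne
      have hlt' : P < D' := lt_of_le_of_ne h3 (Ne.symm hne)
      have h4 := lt_inf_normalizer h2 hlt'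
      have h5 := hPmaxHM.max (D' ⊓ normalizer (P : Set G))
        (le_inf (inf_le_left.trans h1) (inf_le_right.trans hNP)) (h2.to_le inf_le_left) h4.le
      exact h4.ne h5.symm
    have hCM : normalizer (C : Set G) ≤ M :=
      hle _ (IsMinSimpleOddOrder.normalizer_ne_top hG hC1 hCne) (inf_le_right.trans hNC)
    apply hHnotM
    intro h hh
    obtain ⟨o, ho, hoh⟩ := zj_factor hPmaxH hHs hHodd h hh
    have e : h = o * (o⁻¹ * h) := by group
    rw [e]
    exact mul_mem (hVH ho) (hCM hoh)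
  · -- Case 2: `P` is a Sylow subgroup of `M`
    subst hPX'
    set V := Oq' p M with hV
    have hVc : (Nat.card V).Coprime p := Oq'_card_coprime p M
    have hMV : M ≤ normalizer (V : Set G) := le_normalizer_Oq' p M
    have hVle : V ≤ M := Oq'_le p M
    have hVne : V ≠ ⊤ := fun h => hM.1 (top_le_iff.1 (h ▸ hVle))
    have hJV : ∀ Y : Subgroup G, (Nat.card Y).Coprime p → P ≤ normalizer (Y : Set G) → Y ≤ V :=
      fun Y hY h => le_Oq'_of_inv hX hMs (hJP Y hY h) hY h
    have hNPV : normalizer (P : Set G) ≤ normalizer (V : Set G) := by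
      intro g hg
      apply mem_normalizer_of_conj_map_le
      apply hJV
      · rw [card_conj_map]; exact hVc
      · exact le_normalizer_conj (hPM.trans hMV) hg
    have hMC : V = ⊥ → M ≤ normalizer (C : Set G) := by
      intro hV1 h hh
      obtain ⟨o, ho, hoh⟩ := zj_factor hX hMs hModd h hh
      have ho1 : o = 1 := by
        have : o ∈ V := ho
        rw [hV1] at this
        exact Subgroup.mem_bot.1 this
      rw [ho1] at hoh
      simpa using hoh
    have hNPM : normalizer (P : Set G) ≤ M := by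
      by_cases hV1 : V = ⊥
      · have h1 := coatom_normalizer_eq hG hM hC1 hCne (hMC hV1)
        rw [← h1]
        exact hNC
      · have h1 := coatom_normalizer_eq hG hM hV1 hVne hMV
        rw [← h1]
        exact hNPV
    -- `P` is a Sylow subgroup of `G`
    have hPmaxG : ∀ D' : Subgroup G, IsPGroup p D' → P ≤ D' → D' = P := by
      intro D' h2 h3
      by_contra hne
      have hlt' : P < D' := lt_of_le_of_ne h3 (Ne.symm hne)
      have h4 := lt_inf_normalizer h2 hlt'
      have h5 := hX.max (D' ⊓ normalizer (P : Set G)) (inf_le_right.trans hNPM) (h2.to_le inf_le_left) h4.le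
      exact h4.ne h5.symm
    let S : Sylow p G :=
      { toSubgroup := P
        isPGroup' := hPp
        is_maximal' := fun {Q} hQ hle => hPmaxG Q hQ hle }
    have hPmaxH : IsMaxP p P H := ⟨hPH, hPp, fun D' _ h2 h3 => hPmaxG D' h2 h3⟩
    obtain ⟨T, hTP, hPT, hfac, hAT, hrk⟩ := exists_T_factor hPmaxH hHs hHodd
    suffices hNT : normalizer (T : Set G) ≤ M by
      apply hHnotM
      intro h hh
      obtain ⟨o, ho, hoh⟩ := hfac h hh
      have e : h = o * (o⁻¹ * h) := by group
      rw [e]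
      exact mul_mem (hVH ho) (hNT hoh)
    by_cases hrank : PRankLE p 2 P
    · have h1 := hrk hp2 (hPmaxH.prank_of hrank)
      rw [h1]
      exact hNPM
    · -- rank at least three
      have hnc : ¬ IsCyclic P := by
        intro hc
        apply hrank
        intro A _ hAe
        haveI : IsCyclic A := Subgroup.isCyclic A
        obtain ⟨g, hg⟩ := IsCyclic.exists_generator (α := A)
        have h1 : Nat.card A = orderOf g := (orderOf_eq_card_of_forall_mem_zpowers hg).symm
        have h2 : orderOf g ∣ p := orderOf_dvd_of_pow_eq_one (Subtype.ext (hAe g g.2))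
        rw [h1]
        exact (Nat.le_of_dvd hp.pos h2).trans (Nat.le_self_pow (by norm_num) p)
      obtain ⟨E, hEn, hEe, hEc⟩ := Cfsg.Agent.Lib.Transfer.exists_normal_elementary_sq hp2 hPp hnc
      haveI := hEn
      obtain ⟨A, hEA, hAn, hAC, hAr⟩ := Cfsg.Agent.S1452.result p hp2 hPp hrank E hEe hEc
      set A₀ : Subgroup G := A.map P.subtype with hA₀
      have hA₀P : A₀ ≤ P := Subgroup.map_subtype_le _
      have hPA₀ : P ≤ normalizer (A₀ : Set G) := by
        intro s hs
        apply mem_normalizer_of_conj_le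
        rintro _ ⟨a, ha, rfl⟩
        exact ⟨⟨s, hs⟩ * a * ⟨s, hs⟩⁻¹, hAn.conj_mem a ha _, by simp⟩
      have hA₀C : A₀ ≤ centralizer (A₀ : Set G) := by
        rintro _ ⟨a, ha, rfl⟩
        rw [Subgroup.mem_centralizer_iff]
        rintro _ ⟨b, hb, rfl⟩
        have h1 : a ∈ centralizer (A : Set P) := by rw [hAC]; exact ha
        exact congrArg Subtype.val (Subgroup.mem_centralizer_iff.1 h1 b hb)
      have hscn : IsSCN (S : Subgroup G) A₀ := by
        refine ⟨hA₀P, hPA₀, le_antisymm ?_ (le_inf hA₀P hA₀C)⟩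
        rintro x ⟨hxP, hxC⟩
        have h1 : (⟨x, hxP⟩ : P) ∈ centralizer (A : Set P) := by
          rw [Subgroup.mem_centralizer_iff]
          intro b hb
          exact Subtype.ext (Subgroup.mem_centralizer_iff.1 hxC _ ⟨b, hb, rfl⟩)
        rw [hAC] at h1
        exact ⟨_, h1, rfl⟩
      have hA₀r : ¬ PRankLE p 2 ↥A₀ := not_prank_map_subtype A hAr
      have hA₀r1 : ¬ PRankLE p 1 ↥A₀ := fun h => hA₀r (prank_mono hp.pos (by norm_num) h)
      have hTHA := hTH S A₀ hscn hA₀r1
      have hA₀c : IsMulCommutative A₀ := by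
        refine ⟨⟨?_⟩⟩
        rintro ⟨a, ha⟩ ⟨b, hb⟩
        exact Subtype.ext (Subgroup.mem_centralizer_iff.1 (hA₀C hb) a ha)
      have hA₀p : IsPGroup p A₀ := hPp.to_le hA₀P
      have hA₀T : A₀ ≤ T := hAT A₀ hA₀P hA₀c hPA₀
      have hA₀1 : A₀ ≠ ⊥ := hTHA.1
      obtain ⟨n, hn⟩ := IsPGroup.iff_card.1 hA₀p
      have hpA : p ∣ Nat.card A₀ := by
        rw [hn]
        refine dvd_pow_self p ?_
        rintro rfl
        have h1 : Nat.card A₀ = 1 := by simpa using hn
        exact hA₀1 ((Subgroup.card_eq_one).1 h1)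
      set K := piCoreOf (primesNotDvd (Nat.card A₀)) (centralizer (A₀ : Set G)) with hK
      have hKc : (Nat.card K).Coprime p := by
        apply Nat.Coprime.symm
        rw [Nat.Prime.coprime_iff_not_dvd hp]
        intro hd
        exact (piCoreOf_isPi _ _ p hp hd).2 hpA
      have hPK : P ≤ normalizer (K : Set G) := hPA₀.trans (le_normalizer_kCore hG hTHA)
      have hKV : K ≤ V := hJV K hKc hPK
      have hZ : ¬ RankLE 2 ↥(A₀ ⊓ centralizer (A₀ : Set G)) := by
        rw [inf_eq_left.2 hA₀C]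
        exact fun h => hA₀r (h p hp)
      have key : ∀ (q : ℕ) [Fact q.Prime], q ≠ p → ∀ Q : Subgroup G, IsPGroup q Q →
          A₀ ≤ normalizer (Q : Set G) → Q ≤ V := by
        intro q _ hqp Q hQ hA₀Q
        have hq : q.Prime := Fact.out
        have hqA : ¬ q ∣ Nat.card A₀ := by
          intro hd
          rw [hn] at hd
          exact hqp ((Nat.prime_dvd_prime_iff_eq hq hp).1 (hq.dvd_of_dvd_pow hd))
        have hQinv : Q ∈ invSubgroups ⊤ A₀ {q} := ⟨le_top, (isPiSub_singleton_iff hq).2 hQ, hA₀Q⟩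
        obtain ⟨Q', hQ', hQQ'⟩ := exists_maxInv_ge hQinv
        have htr : ∀ Q₁ ∈ maxInvSubgroups ⊤ A₀ {q}, ∀ Q₂ ∈ maxInvSubgroups ⊤ A₀ {q},
            ∃ k ∈ K, Q₂ = Q₁.map (MulAut.conj k).toMonoidHom :=
          fun Q₁ h₁ Q₂ h₂ => transitivity_rank_three hG hTHA hZ q hq hqA Q₁ Q₂ h₁ h₂
        obtain ⟨Q₀, hQ₀, hPQ₀⟩ := exists_fixed_of_transitive hPp hKc ⟨Q', hQ'⟩
          (fun g hg R hR => maxInv_conj_normalizer (hPA₀ hg) hR)
          (fun k hk R hR => maxInv_conj_normalizer
            (centralizer_le_normalizer' A₀ (piCoreOf_le _ _ hk)) hR) htr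
        have hQ₀q : IsPGroup q Q₀ := (isPiSub_singleton_iff hq).1 hQ₀.1.2.1
        have hQ₀c : (Nat.card Q₀).Coprime p := by
          obtain ⟨m, hm⟩ := IsPGroup.iff_card.1 hQ₀q
          rw [hm]
          exact Nat.Coprime.pow_left m ((Nat.coprime_primes hq hp).2 hqp)
        have hQ₀V : Q₀ ≤ V := hJV Q₀ hQ₀c hPQ₀
        obtain ⟨k, hk, e⟩ := htr Q₀ hQ₀ Q' hQ'
        intro x hx
        have h1 := hQQ' hx
        rw [e, mem_conj_map] at h1
        have h2 := hQ₀V h1
        have h3 : x = k * (k⁻¹ * x * k) * k⁻¹ := by group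
        rw [h3]
        exact mul_mem (mul_mem (hKV hk) h2) (inv_mem (hKV hk))
      have hJA : ∀ Y : Subgroup G, (Nat.card Y).Coprime p → A₀ ≤ normalizer (Y : Set G) → Y ≤ V :=
        fun Y hY h => le_of_inv_sylows hA₀p h hY key
      have hNTV : normalizer (T : Set G) ≤ normalizer (V : Set G) := by
        intro g hg
        apply mem_normalizer_of_conj_map_le
        apply hJA
        · rw [Cfsg.Agent.Lib.Coprime.card_conj_map]; exact hVc
        · exact hA₀T.trans (le_normalizer_conj (hTP.trans (hPM.trans hMV)) hg)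
      by_cases hV1 : V = ⊥
      · exfalso
        have hOH : Oq' p H ≤ V := hJA _ (Oq'_card_coprime p H) (hA₀P.trans (hPH.trans (le_normalizer_Oq' p H)))
        have hHC : H ≤ normalizer (C : Set G) := by
          intro h hh
          obtain ⟨o, ho, hoh⟩ := zj_factor hPmaxH hHs hHodd h hh
          have ho1 : o = 1 := by
            have := hOH ho
            rw [hV1] at this
            exact Subgroup.mem_bot.1 this
          rw [ho1] at hoh
          simpa using hoh
        have h1 := coatom_normalizer_eq hG hM hC1 hCne (hMC hV1)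
        rw [h1] at hHC
        exact hHnotM hHC
      · have h1 := coatom_normalizer_eq hG hM hV1 hVne hMV
        rw [← h1]
        exact hNTV

end

end Cfsg.Agent.Lib.FT
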