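import Cfsg.Agent.Lib.OddChar.Dade
import Cfsg.Agent.Lib.OddChar.FrobSys
import Cfsg.Agent.Lib.OddChar.PartD
import Cfsg.Agent.Lib.Char.BrauerInd3
import Cfsg.Agent.Lib.Char.PermChar
import Cfsg.Agent.Lib.Char.Galois
import Cfsg.Agent.Lib.Basic.HallNil
import Cfsg.Agent.Lib.OddLocal.Sup

/-! # The Dade map sends virtual characters to virtual characters.

`L` acts by conjugation on the set of `π`-elements of `G`, `π` being the primes of the signalizers.  The
permutation character `β` has `β a = |H a|` on `A`.  So `Ind (α β^k) = f^(k+1) τ α` on the `π'`-elements where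
`f = β`; as `f` is prime to `|E|` for a `π'`-subgroup `E`, this gives integrality of `τ α` on `E`.  -/

set_option autoImplicit false

namespace Cfsg.Agent.Lib.FT

open Cfsg Cfsg.Agent.Lib.Char Cfsg.Agent.Lib.OddChar
open scoped ComplexConjugate

variable {G : Type*} [Group G] [Fintype G] {A : Set G} {L : Subgroup G} {H : G → Subgroup G}

open Classical in
/-- A number that is a multiple of all orders of the signalizers' elements, with the same primes. -/
noncomputable def piNum (A : Set G) (H : G → Subgroup G) : ℕ :=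
  (∏ a ∈ Finset.univ.filter (· ∈ A), Nat.card (H a)) ^ Nat.card G

theorem card_dvd_piNum {a : G} (ha : a ∈ A) : Nat.card (H a) ∣ piNum A H := by
  classical
  unfold piNum
  have h1 : Nat.card (H a) ∣ ∏ a ∈ Finset.univ.filter (· ∈ A), Nat.card (H a) :=
    Finset.dvd_prod_of_mem _ (by simpa using ha)
  exact h1.trans (dvd_pow_self _ Nat.card_pos.ne')

theorem coprime_piNum {n : ℕ} (hn : ∀ a ∈ A, Nat.Coprime (Nat.card (H a)) n) :
    Nat.Coprime (piNum A H) n := by
  classical
  unfold piNum
  apply Nat.Coprime.pow_left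
  exact Nat.Coprime.prod_left fun a ha => hn a (by simpa using ha)

theorem piNum_pos (A : Set G) (H : G → Subgroup G) : 0 < piNum A H := by
  classical
  unfold piNum
  exact pow_pos (Finset.prod_pos fun a _ => Nat.card_pos) _

/-- A prime of `piNum`: elements of order a power of `p` satisfy `y ^ piNum = 1`. -/
theorem pow_piNum_eq_one_of_isPGroup {p : ℕ} (hp : p.Prime) (hd : p ∣ piNum A H) {y : G} {k : ℕ}
    (hy : orderOf y = p ^ k) : y ^ piNum A H = 1 := by
  classical
  apply orderOf_dvd_iff_pow_eq_one.mp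
  rw [hy]
  have h1 : p ∣ ∏ a ∈ Finset.univ.filter (· ∈ A), Nat.card (H a) := by
    unfold piNum at hd
    exact hp.dvd_of_dvd_pow hd
  have h2 : k ≤ Nat.card G := by
    have h3 : p ^ k ≤ Nat.card G := by
      rw [← hy]
      exact Nat.le_of_dvd Nat.card_pos (orderOf_dvd_natCard y)
    have h4 : k < p ^ k := Nat.lt_pow_self hp.one_lt
    omega
  unfold piNum
  exact (pow_dvd_pow p h2).trans (pow_dvd_pow_of_dvd h1 _)

/-- The `π`-elements of the centraliser of `a ∈ A` are the elements of `H a`. -/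
theorem mem_H_iff (hD : DadeHypothesis A L H) {a : G} (ha : a ∈ A) (u : G) :
    (u ^ piNum A H = 1 ∧ u * a = a * u) ↔ u ∈ H a := by
  classical
  constructor
  · rintro ⟨hu, hc⟩
    have huC : u ∈ Subgroup.centralizer ({a} : Set G) := by
      rw [Subgroup.mem_centralizer_singleton_iff]
      exact hc.symm.symm
    rw [← hD.sup_eq a ha] at huC
    obtain ⟨h, hh, e, he, rfl⟩ := OddLocal.mem_sup_of_le_normalizer (DadeHypothesis.le_normalizer hD ha) huC
    -- `(h e)^k = h_k e^k`
    have hk : ∀ k : ℕ, ∃ h' ∈ H a, (h * e) ^ k = h' * e ^ k := by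
      intro k
      induction k with
      | zero => exact ⟨1, Subgroup.one_mem _, by simp⟩
      | succ k ih =>
        obtain ⟨h', hh', hk⟩ := ih
        refine ⟨h' * (e ^ k * h * (e ^ k)⁻¹), Subgroup.mul_mem _ hh' ?_, ?_⟩
        · exact hD.conj_mem_H a ha (e ^ k) (Subgroup.pow_mem _ he.2 k) h hh
        · rw [pow_succ, hk]
          group
    obtain ⟨h', hh', hk'⟩ := hk (piNum A H)
    rw [hu] at hk'
    have h1 : e ^ piNum A H ∈ H a := by
      have : e ^ piNum A H = h'⁻¹ := eq_inv_of_mul_eq_one_right hk'.symm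
      rw [this]
      exact Subgroup.inv_mem _ hh'
    have h2 : e ^ piNum A H ∈ L ⊓ Subgroup.centralizer ({a} : Set G) := Subgroup.pow_mem _ he _
    have h3 : e ^ piNum A H ∈ H a ⊓ (L ⊓ Subgroup.centralizer ({a} : Set G)) := ⟨h1, h2⟩
    rw [hD.inf_eq_bot a ha, Subgroup.mem_bot] at h3
    have h4 : e ^ Nat.card ↥(L ⊓ Subgroup.centralizer ({a} : Set G)) = 1 := by
      have := pow_card_eq_one' (x := (⟨e, he⟩ : ↥(L ⊓ Subgroup.centralizer ({a} : Set G))))
      simpa using congrArg Subtype.val this
    have hcop := coprime_piNum (A := A) (H := H) (n := Nat.card ↥(L ⊓ Subgroup.centralizer ({a} : Set G)))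
      fun b hb => hD.coprime b hb a ha
    have h5 : e = 1 := by
      have := (pow_gcd_eq_one (a := e)).mpr ⟨h3, h4⟩
      rw [hcop.gcd_eq_one] at this
      simpa using this
    subst h5
    simpa using hh
  · intro hu
    constructor
    · apply orderOf_dvd_iff_pow_eq_one.mp
      exact (Subgroup.orderOf_dvd_natCard _ hu).trans (card_dvd_piNum ha)
    · have := hD.le_centralizer a ha hu
      rw [Subgroup.mem_centralizer_singleton_iff] at this
      exact this

/-- The number of `π`-elements commuting with `g`. -/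
noncomputable def fNum (A : Set G) (H : G → Subgroup G) (g : G) : ℕ :=
  Nat.card {u : G // u ^ piNum A H = 1 ∧ u * g = g * u}

theorem fNum_pos (A : Set G) (H : G → Subgroup G) (g : G) : 0 < fNum A H g := by
  unfold fNum
  haveI : Nonempty {u : G // u ^ piNum A H = 1 ∧ u * g = g * u} := ⟨⟨1, by simp, by simp⟩⟩
  exact Nat.card_pos

theorem fNum_eq (hD : DadeHypothesis A L H) {a : G} (ha : a ∈ A) : fNum A H a = Nat.card (H a) := by
  unfold fNum
  exact Nat.card_congr (Equiv.subtypeEquivRight fun u => mem_H_iff hD ha u)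

theorem fNum_conj (A : Set G) (H : G → Subgroup G) (y g : G) : fNum A H (y * g * y⁻¹) = fNum A H g := by
  unfold fNum
  refine Nat.card_congr ⟨fun u => ⟨y⁻¹ * u.1 * y, ?_, ?_⟩, fun u => ⟨y * u.1 * y⁻¹, ?_, ?_⟩, ?_, ?_⟩
  · have := u.2.1
    have e : y⁻¹ * u.1 * y = y⁻¹ * u.1 * y⁻¹⁻¹ := by simp
    rw [e, conj_pow, this]
    simp
  · have := u.2.2
    calc y⁻¹ * u.1 * y * g = y⁻¹ * (u.1 * (y * g * y⁻¹)) * y := by group
      _ = y⁻¹ * ((y * g * y⁻¹) * u.1) * y := by rw [this]
      _ = g * (y⁻¹ * u.1 * y) := by group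
  · have := u.2.1
    rw [conj_pow, this]
    simp
  · have := u.2.2
    calc y * u.1 * y⁻¹ * (y * g * y⁻¹) = y * (u.1 * g) * y⁻¹ := by group
      _ = y * (g * u.1) * y⁻¹ := by rw [this]
      _ = y * g * y⁻¹ * (y * u.1 * y⁻¹) := by group
  · intro u
    apply Subtype.ext
    simp only
    group
  · intro u
    apply Subtype.ext
    simp only
    group

/-- `L` (or any subgroup) acts on the `π`-elements by conjugation. -/
def piConjAction (A : Set G) (H : G → Subgroup G) (K : Subgroup G) :
    MulAction K {u : G // u ^ piNum A H = 1} where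
  smul k u := ⟨(k : G) * u.1 * (k : G)⁻¹, by rw [conj_pow, u.2]; simp⟩
  one_smul u := by
    apply Subtype.ext
    change ((1 : K) : G) * u.1 * ((1 : K) : G)⁻¹ = u.1
    simp
  mul_smul a b u := by
    apply Subtype.ext
    change ((a * b : K) : G) * u.1 * ((a * b : K) : G)⁻¹ = (a : G) * ((b : G) * u.1 * (b : G)⁻¹) * (a : G)⁻¹
    push_cast
    group

/-- The counting function is a permutation character on every subgroup. -/
theorem isCharacter_fNum (A : Set G) (H : G → Subgroup G) (K : Subgroup G) [Fintype K] :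
    IsCharacter K (fun l : K => (fNum A H l : ℂ)) := by
  classical
  letI := piConjAction A H K
  have h := isCharacter_permChar (G := K) (X := {u : G // u ^ piNum A H = 1})
  convert h using 3 with l
  unfold fNum
  refine Nat.card_congr ⟨fun u => ⟨⟨u.1, u.2.1⟩, ?_⟩, fun u => ⟨u.1.1, u.1.2, ?_⟩, ?_, ?_⟩
  · apply Subtype.ext
    change (l : G) * u.1 * (l : G)⁻¹ = u.1
    rw [← u.2.2]
    group
  · have h1 : (l : G) * u.1.1 * (l : G)⁻¹ = u.1.1 := congrArg Subtype.val u.2
    calc u.1.1 * (l : G) = ((l : G) * u.1.1 * (l : G)⁻¹) * (l : G) := by rw [h1]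
      _ = (l : G) * u.1.1 := by group
  · intro u; rfl
  · intro u; rfl

/-- Integrality from the twisted inner products: the arithmetic heart of the argument. -/
theorem int_of_mul_pow {E : Type*} [Group E] [Fintype E] (θ χ : E → ℂ) (f : E → ℕ)
    (hθ : ∀ x, IsIntegral ℤ (θ x)) (hχ : ∀ x, IsIntegral ℤ (χ x))
    (hf0 : ∀ x, f x ≠ 0) (hf : ∀ x, θ x ≠ 0 → Nat.Coprime (f x) (Nat.card E))
    (hk : ∀ k : ℕ, ∃ n : ℤ, classInner (fun x => (f x : ℂ) ^ (k + 1) * θ x) χ = n) :
    ∃ n : ℤ, classInner θ χ = n := by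
  classical
  have hE : (Nat.card E : ℂ) ≠ 0 := by exact_mod_cast Nat.card_pos.ne'
  have hχ' : ∀ x, IsIntegral ℤ (conj (χ x)) := fun x => by
    have := (hχ x).map ((starRingEnd ℂ : ℂ →+* ℂ).toIntAlgHom)
    simpa using this
  apply int_of_isIntegral_of_rat
  · -- integrality
    set m := Nat.totient (Nat.card E) with hm
    have hm1 : 1 ≤ m := Nat.totient_pos.mpr Nat.card_pos
    have hw : ∀ x : E, ∃ w : ℤ, θ x ≠ 0 → ((f x : ℂ) ^ m - 1) = (Nat.card E : ℂ) * w := by
      intro x
      by_cases hx : θ x ≠ 0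
      · have h1 := Nat.ModEq.pow_totient (hf x hx)
        have h2 : ((Nat.card E : ℕ) : ℤ) ∣ ((f x : ℤ) ^ m - 1) := by
          have := (Nat.modEq_iff_dvd.mp h1.symm)
          push_cast at this
          exact this
        obtain ⟨w, hw⟩ := h2
        refine ⟨w, fun _ => ?_⟩
        have := congrArg (fun z : ℤ => (z : ℂ)) hw
        simpa using this
      · exact ⟨0, fun h => absurd h hx⟩
    choose w hw using hw
    obtain ⟨n, hn⟩ := hk (m - 1)
    have hm2 : m - 1 + 1 = m := Nat.sub_add_cancel hm1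
    rw [hm2] at hn
    have key : classInner θ χ = n - ∑ x : E, (w x : ℂ) * θ x * conj (χ x) := by
      rw [← hn]
      simp only [classInner]
      have : ∑ x : E, (f x : ℂ) ^ m * θ x * conj (χ x) - ∑ x : E, θ x * conj (χ x) =
          (Nat.card E : ℂ) * ∑ x : E, (w x : ℂ) * θ x * conj (χ x) := by
        rw [← Finset.sum_sub_distrib, Finset.mul_sum]
        refine Finset.sum_congr rfl fun x _ => ?_
        by_cases hx : θ x = 0
        · simp [hx]
        · have := hw x hx
          linear_combination (θ x * conj (χ x)) * this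
      field_simp
      linear_combination -this
    rw [key]
    refine IsIntegral.sub isIntegral_algebraMap ?_
    refine IsIntegral.sum _ fun x _ => IsIntegral.mul (IsIntegral.mul isIntegral_algebraMap (hθ x)) (hχ' x)
  · -- rationality
    let S : Finset ℚ := (Finset.univ.filter fun x => θ x ≠ 0).image fun x => (f x : ℚ)
    let p : Polynomial ℚ := ∏ v ∈ S, (Polynomial.X - Polynomial.C v)
    have hS0 : ∀ v ∈ S, v ≠ 0 := by
      intro v hv
      obtain ⟨x, _, rfl⟩ := Finset.mem_image.mp hv
      exact_mod_cast hf0 x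
    have hc : p.coeff 0 ≠ 0 := by
      rw [Polynomial.coeff_zero_eq_eval_zero]
      simp only [p, Polynomial.eval_prod, Polynomial.eval_sub, Polynomial.eval_X, Polynomial.eval_C]
      refine Finset.prod_ne_zero_iff.mpr fun v hv => ?_
      simpa using hS0 v hv
    let h : Polynomial ℚ := Polynomial.C (-(p.coeff 0)⁻¹) * p.divX
    have hh : ∀ v ∈ S, v * h.eval v = 1 := by
      intro v hv
      have h0 : p.eval v = 0 := by
        simp only [p, Polynomial.eval_prod, Polynomial.eval_sub, Polynomial.eval_X, Polynomial.eval_C]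
        exact Finset.prod_eq_zero hv (sub_self v)
      have h1 := Polynomial.divX_mul_X_add p
      have h2 := congrArg (Polynomial.eval v) h1
      simp only [Polynomial.eval_add, Polynomial.eval_mul, Polynomial.eval_X, Polynomial.eval_C, h0] at h2
      simp only [h, Polynomial.eval_mul, Polynomial.eval_C]
      field_simp
      linear_combination -h2
    have hval : ∀ x : E, θ x = ∑ i ∈ Finset.range (h.natDegree + 1), ((h.coeff i : ℚ) : ℂ) * ((f x : ℂ) ^ (i + 1) * θ x) := by
      intro x
      by_cases hx : θ x = 0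
      · simp [hx]
      · have h1 : (f x : ℚ) ∈ S := Finset.mem_image.mpr ⟨x, by simpa using hx, rfl⟩
        have h2 := hh _ h1
        rw [Polynomial.eval_eq_sum_range, Finset.mul_sum] at h2
        have h3 : ∑ i ∈ Finset.range (h.natDegree + 1), ((h.coeff i : ℚ) : ℂ) * (f x : ℂ) ^ (i + 1) = 1 := by
          have := congrArg (fun z : ℚ => (z : ℂ)) h2
          simp only [Rat.cast_sum, Rat.cast_mul, Rat.cast_natCast, Rat.cast_pow, Rat.cast_one] at this
          rw [← this]
          refine Finset.sum_congr rfl fun i _ => ?_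
          ring
        calc θ x = (∑ i ∈ Finset.range (h.natDegree + 1), ((h.coeff i : ℚ) : ℂ) * (f x : ℂ) ^ (i + 1)) * θ x := by
              rw [h3, one_mul]
          _ = _ := by
              rw [Finset.sum_mul]
              refine Finset.sum_congr rfl fun i _ => ?_
              ring
    choose n hn using hk
    refine ⟨∑ i ∈ Finset.range (h.natDegree + 1), h.coeff i * (n i : ℚ), ?_⟩
    push_cast
    have : classInner θ χ = ∑ i ∈ Finset.range (h.natDegree + 1), ((h.coeff i : ℚ) : ℂ) *
        classInner (fun x => (f x : ℂ) ^ (i + 1) * θ x) χ := by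
      simp only [classInner]
      have e1 : ∀ i, ((h.coeff i : ℚ) : ℂ) * ((Nat.card E : ℂ)⁻¹ * ∑ g : E, (f g : ℂ) ^ (i + 1) * θ g * conj (χ g)) =
          (Nat.card E : ℂ)⁻¹ * (((h.coeff i : ℚ) : ℂ) * ∑ g : E, (f g : ℂ) ^ (i + 1) * θ g * conj (χ g)) := fun i => by ring
      simp_rw [e1]
      rw [← Finset.mul_sum]
      congr 1
      simp_rw [Finset.mul_sum]
      rw [Finset.sum_comm]
      refine Finset.sum_congr rfl fun x _ => ?_
      conv_lhs => rw [hval x]
      rw [Finset.sum_mul]
      refine Finset.sum_congr rfl fun i _ => ?_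
      ring
    rw [this]
    refine Finset.sum_congr rfl fun i _ => ?_
    rw [hn i]

/-- A class function with integer inner products is a virtual character. -/
theorem isGeneralizedCharacter_of_int {E : Type*} [Group E] [Fintype E] {θ : E → ℂ}
    (hθ : IsClassFunction E θ) (h : ∀ χ : E → ℂ, IsIrrCharacter E χ → ∃ n : ℤ, classInner θ χ = n) :
    IsGeneralizedCharacter E θ := by
  classical
  letI : Fintype (IrrCharacter E) := Fintype.ofFinite _
  rw [classFunction_eq_sum θ hθ]
  refine IsGeneralizedCharacter.sum'' _ fun χ _ => ?_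
  obtain ⟨n, hn⟩ := h χ χ.2
  rw [hn]
  have : (n : ℂ) • (χ : E → ℂ) = n • (χ : E → ℂ) := by
    funext x
    simp
  rw [this]
  exact IsGeneralizedCharacter.zsmul' (IsIrrCharacter.isGeneralizedCharacter χ.2) n

section Main

variable [Fintype L]

theorem indFun_conj_of_mem (hD : DadeHypothesis A L H) {γ : L → ℂ} (hγ : IsClassFunction L γ)
    (hγA : ∀ x : L, (x : G) ∉ A → γ x = 0) {a : G} (ha : a ∈ A) (y : G) :
    indFun L γ (y * a * y⁻¹) = (Nat.card (H a) : ℂ) * γ ⟨a, hD.subset ha⟩ := by
  classical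
  unfold indFun
  have hL : (Nat.card L : ℂ) ≠ 0 := by exact_mod_cast Nat.card_pos.ne'
  have hT : ∀ z : G, extendByZero L γ (z * a * z⁻¹) = if z * a * z⁻¹ ∈ A then γ ⟨a, hD.subset ha⟩ else 0 := by
    intro z
    by_cases hz : z * a * z⁻¹ ∈ A
    · rw [if_pos hz, extendByZero_of_mem L γ (hD.subset hz)]
      obtain ⟨l, hl, hl2⟩ := hD.fusion a ha z hz
      have e : (⟨z * a * z⁻¹, hD.subset hz⟩ : L) = ⟨l, hl⟩ * ⟨a, hD.subset ha⟩ * (⟨l, hl⟩ : L)⁻¹ :=
        Subtype.ext hl2.symm
      rw [e]
      exact hγ _ _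
    · rw [if_neg hz]
      by_cases hzL : z * a * z⁻¹ ∈ L
      · rw [extendByZero_of_mem L γ hzL]
        exact hγA ⟨_, hzL⟩ hz
      · exact extendByZero_of_notMem L γ hzL
  have h1 : ∑ x : G, extendByZero L γ (x⁻¹ * (y * a * y⁻¹) * x) =
      ∑ z : G, if z * a * z⁻¹ ∈ A then γ ⟨a, hD.subset ha⟩ else 0 := by
    refine Fintype.sum_equiv (⟨fun x => x⁻¹ * y, fun z => y * z⁻¹, ?_, ?_⟩ : G ≃ G) _ _ fun x => ?_
    · intro x; group
    · intro z; group
    · rw [← hT]
      congr 1
      change x⁻¹ * (y * a * y⁻¹) * x = x⁻¹ * y * a * (x⁻¹ * y)⁻¹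
      group
  rw [h1, Finset.sum_ite, Finset.sum_const, Finset.sum_const_zero, add_zero, nsmul_eq_mul]
  have h2 : ((Finset.univ.filter fun z : G => z * a * z⁻¹ ∈ A).card : ℂ) = (Nat.card L : ℂ) * Nat.card (H a) := by
    have := DadeHypothesis.card_conj_mem hD ha
    rw [Nat.card_eq_fintype_card (α := {x : G // x * a * x⁻¹ ∈ A}), Fintype.card_subtype] at this
    exact_mod_cast this
  rw [h2]
  field_simp

theorem indFun_eq_zero_of_notMem {γ : L → ℂ} (hγA : ∀ x : L, (x : G) ∉ A → γ x = 0) {g : G}
    (hg : g ∉ dadeSupport A H) : indFun L γ g = 0 := by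
  classical
  unfold indFun
  rw [Finset.sum_eq_zero, mul_zero]
  intro x _
  by_cases h : x⁻¹ * g * x ∈ L
  · rw [extendByZero_of_mem L γ h]
    apply hγA
    intro hA
    refine hg ⟨_, hA, 1, Subgroup.one_mem _, x⁻¹, ?_⟩
    group
  · exact extendByZero_of_notMem L γ h

theorem conj_of_mem_support (hD : DadeHypothesis A L H) {g : G} (hg : g ∈ dadeSupport A H)
    (hc : Nat.Coprime (orderOf g) (piNum A H)) : ∃ a ∈ A, ∃ y : G, g = y * a * y⁻¹ := by
  obtain ⟨a, ha, u, hu, x, hx⟩ := hg
  set n := orderOf g with hn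
  have h1 : (a * u) ^ n = 1 := by
    rw [← hx, conj_pow, hn, pow_orderOf_eq_one]
    simp
  obtain ⟨k, hk, -⟩ := DadeHypothesis.exists_pow hD ha ha hu hu
  have h2 : a ^ n = 1 := by
    rw [← hk, ← pow_mul, mul_comm, pow_mul, h1, one_pow]
  have hcomm : Commute a u := by
    have := hD.le_centralizer a ha hu
    rw [Subgroup.mem_centralizer_singleton_iff] at this
    exact this.symm
  have h3 : u ^ n = 1 := by
    have := hcomm.mul_pow n
    rw [h1, h2, one_mul] at this
    exact this.symm
  have h4 : u ^ piNum A H = 1 := ((mem_H_iff hD ha u).mpr hu).1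
  have h5 : u = 1 := by
    have := (pow_gcd_eq_one (a := u)).mpr ⟨h3, h4⟩
    rw [hc.gcd_eq_one] at this
    simpa using this
  subst h5
  refine ⟨a, ha, x⁻¹, ?_⟩
  rw [mul_one] at hx
  rw [← hx]
  group

theorem indFun_mul_pow_eq (hD : DadeHypothesis A L H) {α : L → ℂ} (hα : IsClassFunction L α)
    (hαA : ∀ x : L, (x : G) ∉ A → α x = 0) (k : ℕ) {g : G}
    (hc : Nat.Coprime (orderOf g) (piNum A H)) :
    indFun L (fun l : L => α l * (fNum A H l : ℂ) ^ k) g =
      (fNum A H g : ℂ) ^ (k + 1) * dadeIsometry A L H α g := by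
  classical
  have hγ : IsClassFunction L (fun l : L => α l * (fNum A H l : ℂ) ^ k) := by
    intro l m
    simp only
    rw [hα l m]
    congr 2
    have : ((m * l * m⁻¹ : L) : G) = (m : G) * l * (m : G)⁻¹ := by simp
    rw [this, fNum_conj]
  have hγA : ∀ x : L, (x : G) ∉ A → (fun l : L => α l * (fNum A H l : ℂ) ^ k) x = 0 := by
    intro x hx
    simp only
    rw [hαA x hx, zero_mul]
  by_cases hg : g ∈ dadeSupport A H
  · obtain ⟨a, ha, y, rfl⟩ := conj_of_mem_support hD hg hc
    rw [indFun_conj_of_mem hD hγ hγA ha y, fNum_conj, fNum_eq hD ha]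
    rw [dade_apply hD hα ha (Subgroup.one_mem _) (x := y⁻¹) (by group)]
    ring
  · rw [indFun_eq_zero_of_notMem hγA hg, dade_of_notMem hg, mul_zero]

theorem isGeneralizedCharacter_mul_pow {α : L → ℂ} (hα : IsGeneralizedCharacter L α) (k : ℕ) :
    IsGeneralizedCharacter L (fun l : L => α l * (fNum A H l : ℂ) ^ k) := by
  induction k with
  | zero => simpa using hα
  | succ k ih =>
    have := IsGeneralizedCharacter.mul_character ih (isCharacter_fNum A H L)
    convert this using 1
    funext l
    simp only [Pi.mul_apply, pow_succ]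
    ring

theorem isIntegral_dade (hD : DadeHypothesis A L H) {α : L → ℂ} (hα : IsGeneralizedCharacter L α) (g : G) :
    IsIntegral ℤ (dadeIsometry A L H α g) := by
  by_cases hg : g ∈ dadeSupport A H
  · obtain ⟨a, ha, u, hu, x, hx⟩ := hg
    rw [dade_apply hD (IsGeneralizedCharacter.isClassFunction hα) ha hu hx]
    obtain ⟨χ, ψ, h1, h2, rfl⟩ := hα
    exact IsIntegral.sub (IsCharacter.isIntegral h1 _) (IsCharacter.isIntegral h2 _)
  · rw [dade_of_notMem hg]
    exact isIntegral_zero

/-- Virtuality on subgroups of order prime to the signalizers. -/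
theorem virtual_of_coprime (hD : DadeHypothesis A L H) {α : L → ℂ} (hα : IsGeneralizedCharacter L α)
    (hαA : ∀ x : L, (x : G) ∉ A → α x = 0) (E : Subgroup G) (hE : Nat.Coprime (Nat.card E) (piNum A H)) :
    IsGeneralizedCharacter E (fun e : E => dadeIsometry A L H α e) := by
  classical
  letI : Fintype E := Fintype.ofFinite _
  have hαc := IsGeneralizedCharacter.isClassFunction hα
  have hcl : IsClassFunction G (dadeIsometry A L H α) := isClassFunction_dade hD hαc
  have hcE : IsClassFunction E (fun e : E => dadeIsometry A L H α e) := by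
    intro x y
    simp only
    have : ((y * x * y⁻¹ : E) : G) = (y : G) * x * (y : G)⁻¹ := by simp
    rw [this, hcl]
  have hord : ∀ e : E, Nat.Coprime (orderOf (e : G)) (piNum A H) := fun e =>
    Nat.Coprime.coprime_dvd_left (Subgroup.orderOf_dvd_natCard E e.2) hE
  refine isGeneralizedCharacter_of_int hcE fun χ hχ => ?_
  refine int_of_mul_pow _ χ (fun e : E => fNum A H e) (fun e => isIntegral_dade hD hα e)
    (IsCharacter.isIntegral (IsIrrCharacter.isCharacter hχ)) (fun e => (fNum_pos A H e).ne') ?_ ?_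
  · intro e he
    have hs : (e : G) ∈ dadeSupport A H := by
      by_contra h
      exact he (dade_of_notMem h)
    obtain ⟨a, ha, y, hy⟩ := conj_of_mem_support hD hs (hord e)
    show Nat.Coprime (fNum A H e) _
    rw [hy, fNum_conj, fNum_eq hD ha]
    exact Nat.Coprime.coprime_dvd_left (card_dvd_piNum ha) hE.symm
  · intro k
    have h1 := isGeneralizedCharacter_indFun (H := L) (isGeneralizedCharacter_mul_pow (A := A) (H := H) hα k)
    have h2 := IsGeneralizedCharacter.comp' h1 E.subtype
    have h3 : (indFun L fun l : L => α l * (fNum A H l : ℂ) ^ k) ∘ E.subtype =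
        fun x : E => (fNum A H x : ℂ) ^ (k + 1) * dadeIsometry A L H α x := by
      funext e
      exact indFun_mul_pow_eq hD hαc hαA k (hord e)
    rw [h3] at h2
    exact IsGeneralizedCharacter.classInner_int h2 (IsIrrCharacter.isGeneralizedCharacter hχ)

/-- Multiplying by a commuting `π`-element does not change the Dade image. -/
theorem dade_mul_pi (hD : DadeHypothesis A L H) {α : L → ℂ} (hα : IsClassFunction L α) {z y : G}
    (hy : y ^ piNum A H = 1) (hc : z * y = y * z) :
    dadeIsometry A L H α (z * y) = dadeIsometry A L H α z := by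
  have key : ∀ {w : G} {a u x : G}, a ∈ A → u ∈ H a → x * w * x⁻¹ = a * u → w * y = y * w →
      (x * y * x⁻¹) ∈ H a := by
    intro w a u x ha hu hx hcw
    obtain ⟨k, hk, -⟩ := DadeHypothesis.exists_pow hD ha ha hu hu
    rw [← mem_H_iff hD ha]
    refine ⟨by rw [conj_pow, hy]; simp, ?_⟩
    have h1 : Commute (x * y * x⁻¹) (a * u) := by
      rw [← hx]
      show x * y * x⁻¹ * (x * w * x⁻¹) = x * w * x⁻¹ * (x * y * x⁻¹)
      calc x * y * x⁻¹ * (x * w * x⁻¹) = x * (y * w) * x⁻¹ := by group
        _ = x * (w * y) * x⁻¹ := by rw [hcw]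
        _ = x * w * x⁻¹ * (x * y * x⁻¹) := by group
    have h2 := h1.pow_right k
    rw [hk] at h2
    exact h2
  by_cases hz : z ∈ dadeSupport A H
  · obtain ⟨a, ha, u, hu, x, hx⟩ := hz
    have hy' := key ha hu hx hc
    rw [dade_apply hD hα ha hu hx]
    refine dade_apply hD hα ha (Subgroup.mul_mem _ hu hy') (x := x) ?_
    calc x * (z * y) * x⁻¹ = (x * z * x⁻¹) * (x * y * x⁻¹) := by group
      _ = a * (u * (x * y * x⁻¹)) := by rw [hx]; group
  · rw [dade_of_notMem hz, dade_of_notMem]
    rintro ⟨a, ha, u, hu, x, hx⟩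
    have hcw : z * y * y = y * (z * y) := by
      calc z * y * y = y * z * y := by rw [hc]
        _ = y * (z * y) := by group
    have hy' := key ha hu hx hcw
    refine hz ⟨a, ha, u * (x * y * x⁻¹)⁻¹, Subgroup.mul_mem _ hu (Subgroup.inv_mem _ hy'), x, ?_⟩
    calc x * z * x⁻¹ = (x * (z * y) * x⁻¹) * (x * y * x⁻¹)⁻¹ := by group
      _ = a * (u * (x * y * x⁻¹)⁻¹) := by rw [hx]; group

/-- A nilpotent subgroup as the direct product of two commuting coprime parts: the projection. -/
theorem exists_proj {E K₁ K₂ : Subgroup G} (h1 : K₁ ≤ E) (h2 : K₂ ≤ E) (hcard : Nat.card K₁ * Nat.card K₂ = Nat.card E)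
    (hcop : Nat.Coprime (Nat.card K₁) (Nat.card K₂)) (hcomm : ∀ x ∈ K₁, ∀ y ∈ K₂, x * y = y * x) :
    ∃ pr : E →* K₂, ∀ e : E, ∃ y ∈ K₁, (e : G) = (pr e : G) * y := by
  classical
  let f : K₁ × K₂ →* E := MonoidHom.noncommCoprod (Subgroup.inclusion h1) (Subgroup.inclusion h2) (by
    intro x y
    apply Subtype.ext
    exact hcomm x x.2 y y.2)
  have hinj : Function.Injective f := by
    rw [injective_iff_map_eq_one]
    rintro ⟨x, y⟩ hxy
    have h3 : (x : G) * y = 1 := congrArg Subtype.val hxy
    have h4 : (x : G) ∈ K₂ := by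
      have : (x : G) = (y : G)⁻¹ := eq_inv_of_mul_eq_one_left h3
      rw [this]
      exact Subgroup.inv_mem _ y.2
    have h5 : (x : G) = 1 := by
      have h6 : (x : G) ^ Nat.card K₁ = 1 := orderOf_dvd_iff_pow_eq_one.mp (Subgroup.orderOf_dvd_natCard K₁ x.2)
      have h7 : (x : G) ^ Nat.card K₂ = 1 := orderOf_dvd_iff_pow_eq_one.mp (Subgroup.orderOf_dvd_natCard K₂ h4)
      have := (pow_gcd_eq_one (a := (x : G))).mpr ⟨h6, h7⟩
      rw [hcop.gcd_eq_one] at this
      simpa using this
    have h8 : (y : G) = 1 := by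
      rw [h5, one_mul] at h3
      exact h3
    exact Prod.ext (Subtype.ext h5) (Subtype.ext h8)
  have hbij : Function.Bijective f := by
    refine (Nat.bijective_iff_injective_and_card f).mpr ⟨hinj, ?_⟩
    rw [Nat.card_prod, hcard]
  let e := MulEquiv.ofBijective f hbij
  refine ⟨(MonoidHom.snd K₁ K₂).comp e.symm.toMonoidHom, fun x => ?_⟩
  refine ⟨(e.symm x).1, (e.symm x).1.2, ?_⟩
  have h9 : e (e.symm x) = x := e.apply_symm_apply x
  have h10 : (x : G) = ((e.symm x).1 : G) * ((e.symm x).2 : G) := (congrArg Subtype.val h9).symm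
  show (x : G) = ((e.symm x).2 : G) * ((e.symm x).1 : G)
  calc (x : G) = _ := h10
    _ = _ := hcomm _ (e.symm x).1.2 _ (e.symm x).2.2

/-- Virtuality on nilpotent subgroups. -/
theorem virtual_of_nilpotent (hD : DadeHypothesis A L H) {α : L → ℂ} (hα : IsGeneralizedCharacter L α)
    (hαA : ∀ x : L, (x : G) ∉ A → α x = 0) (E : Subgroup G) (hE : Group.IsNilpotent E) :
    IsGeneralizedCharacter E (fun e : E => dadeIsometry A L H α e) := by
  classical
  have hαc := IsGeneralizedCharacter.isClassFunction hα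
  induction hn : Nat.card E using Nat.strong_induction_on generalizing E with
  | _ n ih =>
    by_cases hcop : Nat.Coprime (Nat.card E) (piNum A H)
    · exact virtual_of_coprime hD hα hαA E hcop
    · obtain ⟨p, hp, hpE, hpN⟩ := Nat.Prime.not_coprime_iff_dvd.mp hcop
      haveI : Fact p.Prime := ⟨hp⟩
      obtain ⟨K₁, K₂, h1, h2, -, hK₁, hK₂, hcard, hcomm⟩ := Basic.exists_nilpotent_decomp hE p
      have hK₂pos : 0 < Nat.card K₂ := Nat.card_pos
      have hK₁1 : Nat.card K₁ ≠ 1 := by
        intro h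
        rw [h, one_mul] at hcard
        rw [← hcard] at hpE
        exact (Nat.Prime.coprime_iff_not_dvd hp).mp hK₂.symm hpE
      have hlt : Nat.card K₂ < n := by
        rw [← hn, ← hcard]
        have : 1 < Nat.card K₁ := by
          have : 0 < Nat.card K₁ := Nat.card_pos
          omega
        nlinarith
      have hK₂nil : Group.IsNilpotent K₂ := Basic.isNilpotent_of_le h2 hE
      have hvir := ih _ hlt K₂ hK₂nil rfl
      have hc12 : Nat.Coprime (Nat.card K₁) (Nat.card K₂) := by
        obtain ⟨k, hk⟩ := IsPGroup.iff_card.mp hK₁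
        rw [hk]
        exact Nat.Coprime.pow_left k hK₂.symm
      obtain ⟨pr, hpr⟩ := exists_proj h1 h2 hcard hc12 hcomm
      have h3 := IsGeneralizedCharacter.comp' hvir pr
      convert h3 using 1
      funext e
      obtain ⟨y, hy, hey⟩ := hpr e
      simp only [Function.comp_apply]
      rw [hey]
      have hyord : y ^ piNum A H = 1 := by
        obtain ⟨k, hk⟩ := (IsPGroup.iff_orderOf.mp hK₁) ⟨y, hy⟩
        rw [Subgroup.orderOf_mk] at hk
        exact pow_piNum_eq_one_of_isPGroup hp hpN hk
      exact dade_mul_pi hD hαc hyord (hcomm y hy _ (pr e).2).symm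

/-- **The Dade map preserves virtual characters.** -/
theorem dade_virtual (hD : DadeHypothesis A L H) {α : L → ℂ} (hα : IsGeneralizedCharacter L α)
    (hαA : ∀ x : L, (x : G) ∉ A → α x = 0) : IsGeneralizedCharacter G (dadeIsometry A L H α) := by
  have hαc := IsGeneralizedCharacter.isClassFunction hα
  refine isGeneralizedCharacter_of_elementary (isClassFunction_dade hD hαc) fun E p hp hE => ?_
  exact virtual_of_nilpotent hD hα hαA E (isNilpotent_of_isElementary hp hE)

theorem one_notMem_dadeSupport (hD : DadeHypothesis A L H) : (1 : G) ∉ dadeSupport A H := by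
  rintro ⟨a, ha, u, hu, x, hx⟩
  have h1 : a * u = 1 := by rw [← hx]; group
  have h2 : a ∈ H a := by
    have : a = u⁻¹ := eq_inv_of_mul_eq_one_left h1
    have h' : u⁻¹ ∈ H a := Subgroup.inv_mem _ hu
    rwa [← this] at h'
  have h3 : a ∈ H a ⊓ (L ⊓ Subgroup.centralizer ({a} : Set G)) :=
    ⟨h2, DadeHypothesis.mem_centralizer_self hD ha⟩
  rw [hD.inf_eq_bot a ha, Subgroup.mem_bot] at h3
  exact hD.one_not_mem (h3 ▸ ha)

theorem dade_apply_one (hD : DadeHypothesis A L H) (α : L → ℂ) : dadeIsometry A L H α 1 = 0 :=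
  dade_of_notMem (one_notMem_dadeSupport hD)

/-- `τ` of an anti-self-conjugate class function is anti-self-conjugate. -/
theorem conj_dade_eq_neg (hD : DadeHypothesis A L H) {α : L → ℂ} (hα : IsClassFunction L α)
    (hconj : ∀ x, conj (α x) = - α x) (g : G) :
    conj (dadeIsometry A L H α g) = - dadeIsometry A L H α g := by
  by_cases hg : g ∈ dadeSupport A H
  · obtain ⟨a, ha, u, hu, x, hx⟩ := hg
    rw [dade_apply hD hα ha hu hx, hconj]
  · rw [dade_of_notMem hg]
    simp

/-- The Dade image of `χ - conj χ`. -/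
theorem dade_sub_conj (hD : DadeHypothesis A L H) {χ : L → ℂ} (hχ : IsIrrCharacter L χ)
    (hsupp : ∀ x : L, x ≠ 1 → (x : G) ∉ A → χ x = 0) :
    ∃ μ : G → ℂ, IsIrrCharacter G μ ∧ dadeIsometry A L H (χ - conjFun χ) = μ - conjFun μ := by
  classical
  have hχc := IsIrrCharacter.isCharacter hχ
  set α : L → ℂ := χ - conjFun χ with hαdef
  have hαv : IsGeneralizedCharacter L α := ⟨χ, conjFun χ, hχc, IsCharacter.conj hχc, rfl⟩
  have hαc := IsGeneralizedCharacter.isClassFunction hαv
  have hαA : ∀ x : L, (x : G) ∉ A → α x = 0 := by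
    intro x hx
    simp only [hαdef, Pi.sub_apply, conjFun]
    by_cases h1 : x = 1
    · subst h1
      rw [IsCharacter.conj_apply_one hχc, sub_self]
    · rw [hsupp x h1 hx]
      simp
  have hαconj : ∀ x, conj (α x) = - α x := by
    intro x
    simp only [hαdef, Pi.sub_apply, conjFun, map_sub, Complex.conj_conj]
    ring
  by_cases hself : conjFun χ = χ
  · refine ⟨fun _ => 1, isIrrCharacter_one, ?_⟩
    have h0 : α = 0 := by rw [hαdef, hself, sub_self]
    rw [h0]
    funext g
    have h1 : dadeIsometry A L H (0 : L → ℂ) g = 0 := by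
      by_cases hg : g ∈ dadeSupport A H
      · obtain ⟨a, ha, u, hu, x, hx⟩ := hg
        rw [dade_apply hD (by intro _ _; rfl) ha hu hx]
        rfl
      · exact dade_of_notMem hg
    rw [h1]
    simp [conjFun]
  · have hirr2 : IsIrrCharacter L (conjFun χ) := IsIrrCharacter.conj hχ
    have h12 : classInner χ (conjFun χ) = 0 := classInner_irr_of_ne hχ hirr2 (Ne.symm hself)
    have h21 : classInner (conjFun χ) χ = 0 := classInner_irr_of_ne hirr2 hχ hself
    have hnorm : classInner α α = 2 := by
      rw [hαdef, classInner_sub_left, classInner_sub_right, classInner_sub_right, h12, h21,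
        classInner_irr_self hχ, classInner_irr_self hirr2]
      ring
    have hθv := dade_virtual hD hαv hαA
    have hθn : classInner (dadeIsometry A L H α) (dadeIsometry A L H α) = 2 := by
      rw [classInner_dade_dade hD hαc hαA hαc, hnorm]
    obtain ⟨a, b, hab, hθ⟩ := exists_irr_sub_of_norm_two hθv hθn (dade_apply_one hD α)
    refine ⟨a, a.2, ?_⟩
    have hconj := conj_dade_eq_neg hD hαc hαconj
    rw [hθ] at hconj
    have hsum : conjFun (a : G → ℂ) + (a : G → ℂ) = (b : G → ℂ) + conjFun (b : G → ℂ) := by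
      funext g
      have := hconj g
      simp only [Pi.sub_apply, map_sub] at this
      simp only [Pi.add_apply, conjFun]
      linear_combination this
    have ha2 : IsIrrCharacter G (conjFun (a : G → ℂ)) := IsIrrCharacter.conj a.2
    have hb2 : IsIrrCharacter G (conjFun (b : G → ℂ)) := IsIrrCharacter.conj b.2
    have hi := congrArg (fun f => classInner f (a : G → ℂ)) hsum
    simp only [classInner_add_left] at hi
    rw [classInner_irr_self a.2, classInner_irr_of_ne b.2 a.2 (fun h => hab (Subtype.ext h.symm))] at hi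
    have hb3 : conjFun (b : G → ℂ) = (a : G → ℂ) := by
      by_contra hne
      rw [classInner_irr_of_ne hb2 a.2 hne] at hi
      by_cases h4 : conjFun (a : G → ℂ) = (a : G → ℂ)
      · rw [h4, classInner_irr_self a.2] at hi
        norm_num at hi
      · rw [classInner_irr_of_ne ha2 a.2 h4] at hi
        norm_num at hi
    have hb4 : (b : G → ℂ) = conjFun (a : G → ℂ) := by
      rw [← hb3]
      funext g
      simp [conjFun]
    rw [hθ, hb4]

end Main

end Cfsg.Agent.Lib.FT
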