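import Mathlib

/-! # Freeness of modules for Frobenius complements.

If a finite group `N` acts on `S` over an algebraically closed field through commuting operators, of order
invertible in the field, without nonzero fixed vectors, and `E` acts on `S` compatibly with an action of `E` on `N`
without nontrivial fixed points, then `S` is free as a module for `E`. -/

set_option autoImplicit false

namespace Cfsg.Agent.Lib.FT

open Module

section Lang

variable {N : Type*} [Group N] [Finite N]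

/-- Lang's map for a fixed-point-free automorphism is surjective. -/
theorem lang_surjective (φ : N ≃* N) (hφ : ∀ n, φ n = n → n = 1) (m : N) : ∃ n, m = n⁻¹ * φ n := by
  have hinj : Function.Injective (fun n : N => n⁻¹ * φ n) := by
    intro a b hab
    simp only at hab
    have h1 : φ (a * b⁻¹) = a * b⁻¹ := by
      rw [map_mul, map_inv]
      have h2 : φ a = a * (b⁻¹ * φ b) := by
        rw [← hab]
        group
      rw [h2]
      group
    have := hφ _ h1
    exact mul_inv_eq_one.mp this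
  obtain ⟨n, hn⟩ := (Finite.injective_iff_surjective.mp hinj) m
  exact ⟨n, hn.symm⟩

end Lang

section Block

variable {K S N E : Type*} [Field K] [AddCommGroup S] [Module K S]
  [Group N] [Finite N] [Group E] [Finite E]

/-- An operator of order dividing an invertible integer is semisimple. -/
theorem isSemisimple_of_pow_eq_one (f : End K S) {m : ℕ} (hm : (m : K) ≠ 0) (hf : f ^ m = 1) :
    f.IsSemisimple := by
  have hm0 : m ≠ 0 := fun h => hm (by simp [h])
  have hsep : (Polynomial.X ^ m - 1 : Polynomial K).Separable := by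
    have := Polynomial.separable_X_pow_sub_C (n := m) (1 : K) hm one_ne_zero
    simpa using this
  refine Module.End.isSemisimple_of_squarefree_aeval_eq_zero hsep.squarefree ?_
  simp [hf]

/-- The simultaneous eigenspace for a function `χ`. -/
def simEig (σ : N →* End K S) (χ : N → K) : Submodule K S :=
  ⨅ n, Module.End.eigenspace (σ n) (χ n)

theorem mem_simEig {σ : N →* End K S} {χ : N → K} {v : S} :
    v ∈ simEig σ χ ↔ ∀ n, σ n v = χ n • v := by
  simp [simEig, Submodule.mem_iInf, Module.End.mem_eigenspace_iff]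

end Block

section Free

variable {K S N E : Type*} [Field K] [IsAlgClosed K] [AddCommGroup S] [Module K S] [FiniteDimensional K S]
  [Group N] [Finite N] [Group E] [Finite E]

theorem simEig_indep (σ : N →* End K S) (hcomm : ∀ n n', σ n * σ n' = σ n' * σ n)
    (hK : (Nat.card N : K) ≠ 0) : iSupIndep (simEig σ) ∧ ⨆ χ, simEig σ χ = ⊤ := by
  have hss : ∀ n, (σ n).IsFinitelySemisimple := fun n =>
    (isSemisimple_of_pow_eq_one (σ n) hK (by rw [← map_pow, pow_card_eq_one', map_one])).isFinitelySemisimple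
  have he : simEig σ = fun χ : N → K => ⨅ n, (σ n).maxGenEigenspace (χ n) := by
    funext χ
    simp only [simEig, (hss _).maxGenEigenspace_eq_eigenspace]
  have hmaps : ∀ i j φ, Set.MapsTo (σ i) ((σ j).maxGenEigenspace φ) ((σ j).maxGenEigenspace φ) := by
    intro i j φ
    exact Module.End.mapsTo_maxGenEigenspace_of_comm (hcomm j i) φ
  rw [he]
  exact ⟨Module.End.independent_iInf_maxGenEigenspace_of_forall_mapsTo _ hmaps,
    Module.End.iSup_iInf_maxGenEigenspace_eq_top_of_forall_mapsTo _ hmaps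
      (fun i => Module.End.iSup_maxGenEigenspace_eq_top _)⟩

/-- **Freeness**: `S` is free over `E`. -/
theorem exists_free_block (σ : N →* End K S) (τ : E →* End K S) (θ : E →* MulAut N)
    (hcomm : ∀ n n', σ n * σ n' = σ n' * σ n)
    (hcompat : ∀ e n, τ e * σ n = σ (θ e n) * τ e)
    (hfpf : ∀ e, e ≠ 1 → ∀ n, θ e n = n → n = 1)
    (hK : (Nat.card N : K) ≠ 0)
    (hfix : ∀ v : S, (∀ n, σ n v = v) → v = 0) :
    ∃ T : Submodule K S, iSupIndep (fun e => T.map (τ e)) ∧ ⨆ e, T.map (τ e) = ⊤ ∧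
      ∀ f : End K S, (∀ n, f * σ n = σ n * f) → ∀ e, ∀ v ∈ T.map (τ e), f v ∈ T.map (τ e) := by
  classical
  obtain ⟨hind, htop⟩ := simEig_indep σ hcomm hK
  -- the action on functions
  letI act : MulAction E (N → K) :=
    { smul := fun e χ n => χ (θ e⁻¹ n)
      one_smul := fun χ => by
        funext n
        change χ (θ 1⁻¹ n) = χ n
        simp
      mul_smul := fun e e' χ => by
        funext n
        change χ (θ (e * e')⁻¹ n) = χ (θ e'⁻¹ (θ e⁻¹ n))
        rw [mul_inv_rev, map_mul]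
        rfl }
  have hact : ∀ (e : E) (χ : N → K) (n : N), (e • χ) n = χ (θ e⁻¹ n) := fun _ _ _ => rfl
  -- operators permute the eigenspaces
  have hmap1 : ∀ (e : E) (χ : N → K), (simEig σ χ).map (τ e) ≤ simEig σ (e • χ) := by
    rintro e χ _ ⟨v, hv, rfl⟩
    rw [SetLike.mem_coe, mem_simEig] at hv
    rw [mem_simEig]
    intro n
    have h1 := congrArg (fun f : End K S => f v) (hcompat e (θ e⁻¹ n))
    have h2 : θ e (θ e⁻¹ n) = n := by
      rw [← MulAut.mul_apply, ← map_mul, mul_inv_cancel, map_one]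
      rfl
    simp only [Module.End.mul_apply, h2] at h1
    rw [← h1, hv, map_smul, hact]
  have hmap : ∀ (e : E) (χ : N → K), (simEig σ χ).map (τ e) = simEig σ (e • χ) := by
    intro e χ
    refine le_antisymm (hmap1 e χ) ?_
    have h1 := hmap1 e⁻¹ (e • χ)
    rw [inv_smul_smul] at h1
    intro v hv
    refine ⟨τ e⁻¹ v, h1 ⟨v, hv, rfl⟩, ?_⟩
    rw [← Module.End.mul_apply, ← map_mul, mul_inv_cancel, map_one]
    rfl
  -- freeness of the action
  have hfree : ∀ (e : E) (χ : N → K), simEig σ χ ≠ ⊥ → e • χ = χ → e = 1 := by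
    intro e χ hχ he
    by_contra hne
    obtain ⟨v, hv, hv0⟩ := (Submodule.ne_bot_iff _).mp hχ
    rw [mem_simEig] at hv
    have hmul : ∀ a b, χ (a * b) = χ a * χ b := by
      intro a b
      have h1 := hv (a * b)
      rw [map_mul, Module.End.mul_apply, hv b, map_smul, hv a, smul_smul, mul_comm] at h1
      exact (smul_left_injective K hv0 h1).symm
    have hone : χ 1 = 1 := by
      have h1 := hv 1
      rw [map_one, Module.End.one_apply] at h1
      have h2 : (1 : K) • v = χ 1 • v := by rw [one_smul]; exact h1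
      exact (smul_left_injective K hv0 h2).symm
    have hinv : e⁻¹ ≠ 1 := fun h => hne (inv_eq_one.mp h)
    have hθ : ∀ n, χ (θ e⁻¹ n) = χ n := fun n => by
      have := congrFun he n
      rwa [hact] at this
    refine hv0 (hfix v fun m => ?_)
    obtain ⟨n, hn⟩ := lang_surjective (θ e⁻¹) (hfpf _ hinv) m
    have hm : χ m = 1 := by
      rw [hn, hmul, hθ, ← hmul, inv_mul_cancel, hone]
    rw [hv, hm, one_smul]
  -- representatives of the orbits
  let rep : (N → K) → (N → K) := fun χ =>
    (Quotient.mk'' χ : MulAction.orbitRel.Quotient E (N → K)).out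
  have hrep : ∀ χ, ∃ e : E, χ = e • rep χ := by
    intro χ
    have h1 : rep χ ∈ MulAction.orbit E χ := by
      have := Quotient.mk_out (s := MulAction.orbitRel E (N → K)) χ
      exact MulAction.orbitRel_apply.mp this
    obtain ⟨e, he⟩ := h1
    refine ⟨e⁻¹, ?_⟩
    change e • χ = rep χ at he
    rw [← he, inv_smul_smul]
  have hrep2 : ∀ (e : E) χ, rep (e • χ) = rep χ := by
    intro e χ
    have : (Quotient.mk'' (e • χ) : MulAction.orbitRel.Quotient E (N → K)) = Quotient.mk'' χ := by
      apply Quotient.sound'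
      exact MulAction.orbitRel_apply.mpr ⟨e, rfl⟩
    simp only [rep, this]
  let R : Set (N → K) := {χ | simEig σ χ ≠ ⊥ ∧ rep χ = χ}
  have hsm : ∀ (e : E) χ, simEig σ χ ≠ ⊥ → simEig σ (e • χ) ≠ ⊥ := by
    intro e χ h h2
    apply h
    rw [← inv_smul_smul e χ, ← hmap, h2]
    simp
  let T : Submodule K S := ⨆ χ ∈ R, simEig σ χ
  have hTmap : ∀ e : E, T.map (τ e) = ⨆ χ' ∈ {χ' | ∃ χ ∈ R, χ' = e • χ}, simEig σ χ' := by
    intro e
    simp only [T, Submodule.map_iSup, hmap]
    apply le_antisymm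
    · refine iSup₂_le fun χ hχ => ?_
      exact le_iSup₂_of_le (e • χ) ⟨χ, hχ, rfl⟩ le_rfl
    · refine iSup₂_le ?_
      rintro χ' ⟨χ, hχ, rfl⟩
      exact le_iSup₂_of_le χ hχ le_rfl
  refine ⟨T, ?_, ?_, ?_⟩
  · rw [iSupIndep_def]
    intro e
    rw [hTmap]
    have h1 : (⨆ (e' : E) (_ : e' ≠ e), T.map (τ e')) ≤
        ⨆ χ' ∈ {χ' | ∃ e' : E, e' ≠ e ∧ ∃ χ ∈ R, χ' = e' • χ}, simEig σ χ' := by
      refine iSup₂_le fun e' he' => ?_
      rw [hTmap]
      refine iSup₂_le ?_
      rintro χ' ⟨χ, hχ, rfl⟩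
      exact le_iSup₂_of_le (e' • χ) ⟨e', he', χ, hχ, rfl⟩ le_rfl
    refine Disjoint.mono_right h1 ?_
    refine iSupIndep.disjoint_biSup_biSup hind ?_
    rw [Set.disjoint_left]
    rintro χ' ⟨χ, hχ, rfl⟩ ⟨e', he', χ₂, hχ₂, h⟩
    have h2 : χ = χ₂ := by
      have h3 := congrArg rep h
      rw [hrep2, hrep2, hχ.2, hχ₂.2] at h3
      exact h3
    rw [← h2] at h
    have h4 : e'⁻¹ * e = 1 := by
      apply hfree _ χ hχ.1
      rw [mul_smul, h, inv_smul_smul]
    apply he'
    exact (inv_mul_eq_one.mp h4)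
  · rw [eq_top_iff, ← htop]
    refine iSup_le fun χ => ?_
    by_cases hχ : simEig σ χ = ⊥
    · rw [hχ]
      exact bot_le
    · obtain ⟨e, he⟩ := hrep χ
      have h1 : rep χ ∈ R := by
        refine ⟨?_, ?_⟩
        · intro h0
          apply hχ
          rw [he, ← hmap, h0]
          simp
        · have h5 : rep χ = e⁻¹ • χ := by
            rw [eq_inv_smul_iff]
            exact he.symm
          have h6 := hrep2 e⁻¹ χ
          rwa [← h5] at h6
      refine le_iSup_of_le e ?_
      rw [he, ← hmap]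
      exact Submodule.map_mono (le_iSup₂_of_le (rep χ) h1 le_rfl)
  · intro f hf e v hv
    rw [hTmap] at hv ⊢
    have h1 : (⨆ χ' ∈ {χ' | ∃ χ ∈ R, χ' = e • χ}, simEig σ χ').map f ≤
        ⨆ χ' ∈ {χ' | ∃ χ ∈ R, χ' = e • χ}, simEig σ χ' := by
      simp only [Submodule.map_iSup]
      refine iSup₂_mono fun χ' _ => ?_
      rintro _ ⟨w, hw, rfl⟩
      rw [SetLike.mem_coe, mem_simEig] at hw
      rw [mem_simEig]
      intro n
      rw [← Module.End.mul_apply, ← hf, Module.End.mul_apply, hw, map_smul]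
    exact h1 ⟨v, hv, rfl⟩

end Free

section Dim

variable {K S E : Type*} [Field K] [AddCommGroup S] [Module K S] [FiniteDimensional K S] [Group E] [Finite E]

/-- The fixed vectors of a group of operators. -/
def fixSp (τ : E →* End K S) : Submodule K S where
  carrier := {v | ∀ e, τ e v = v}
  add_mem' := fun ha hb e => by rw [map_add, ha e, hb e]
  zero_mem' := fun e => map_zero _
  smul_mem' := fun c v hv e => by rw [map_smul, hv e]

@[simp] theorem mem_fixSp {τ : E →* End K S} {v : S} : v ∈ fixSp τ ↔ ∀ e, τ e v = v := Iff.rfl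

theorem tau_injective (τ : E →* End K S) (e : E) : Function.Injective (τ e) := by
  intro a b hab
  have h1 := congrArg (τ e⁻¹) hab
  rw [← Module.End.mul_apply, ← Module.End.mul_apply, ← map_mul, inv_mul_cancel, map_one] at h1
  exact h1

theorem finrank_map_tau (τ : E →* End K S) (T : Submodule K S) (e : E) :
    finrank K (T.map (τ e)) = finrank K T :=
  (LinearEquiv.finrank_eq (Submodule.equivMapOfInjective (τ e) (tau_injective τ e) T)).symm

/-- The dimension of a free module. -/
theorem finrank_of_free (τ : E →* End K S) (T : Submodule K S)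
    (hind : iSupIndep (fun e => T.map (τ e))) (htop : ⨆ e, T.map (τ e) = ⊤) :
    finrank K S = Nat.card E * finrank K T := by
  classical
  letI := Fintype.ofFinite E
  have hint := DirectSum.isInternal_submodule_of_iSupIndep_of_iSup_eq_top hind htop
  have e := LinearEquiv.ofBijective (DirectSum.coeLinearMap fun e => T.map (τ e)) hint
  rw [← LinearEquiv.finrank_eq e, Module.finrank_directSum]
  simp only [finrank_map_tau]
  rw [Finset.sum_const, Finset.card_univ, smul_eq_mul, Nat.card_eq_fintype_card]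

/-- The dimension of the fixed space of a free module. -/
theorem finrank_fixSp_of_free (τ : E →* End K S) (T : Submodule K S)
    (hind : iSupIndep (fun e => T.map (τ e))) (htop : ⨆ e, T.map (τ e) = ⊤)
    (hE : (Nat.card E : K) ≠ 0) :
    finrank K (fixSp τ) = finrank K T := by
  classical
  letI := Fintype.ofFinite E
  let Φ : End K S := ∑ e : E, τ e
  have hΦ : ∀ v, Φ v = ∑ e : E, τ e v := fun v => by simp [Φ, LinearMap.sum_apply]
  have hΦτ : ∀ (e : E) (v : S), Φ (τ e v) = Φ v := by
    intro e v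
    rw [hΦ, hΦ]
    refine Fintype.sum_equiv (Equiv.mulRight e) _ _ fun x => ?_
    rw [Equiv.coe_mulRight, map_mul, Module.End.mul_apply]
  have hτΦ : ∀ (e : E) (v : S), τ e (Φ v) = Φ v := by
    intro e v
    rw [hΦ, map_sum]
    refine Fintype.sum_equiv (Equiv.mulLeft e) _ _ fun x => ?_
    rw [Equiv.coe_mulLeft, map_mul, Module.End.mul_apply]
  -- `Φ` is injective on `T`
  have hinj : Function.Injective (Φ.domRestrict T) := by
    rw [← LinearMap.ker_eq_bot, LinearMap.ker_eq_bot']
    intro t ht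
    have h0 : Φ t = 0 := ht
    rw [hΦ, ← Finset.add_sum_erase _ _ (Finset.mem_univ (1 : E)), map_one, Module.End.one_apply] at h0
    have h1 : (t : S) ∈ T.map (τ 1) := by
      rw [map_one]
      exact ⟨t, t.2, rfl⟩
    have h2 : (t : S) ∈ ⨆ (j : E) (_ : j ≠ 1), T.map (τ j) := by
      have h3 : (t : S) = - ∑ e ∈ Finset.univ.erase (1 : E), τ e t := eq_neg_of_add_eq_zero_left h0
      rw [h3]
      refine Submodule.neg_mem _ (Submodule.sum_mem _ fun e he => ?_)
      have hne := Finset.ne_of_mem_erase he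
      exact Submodule.mem_iSup_of_mem e (Submodule.mem_iSup_of_mem hne ⟨t, t.2, rfl⟩)
    have h4 := (iSupIndep_def.mp hind 1).le_bot ⟨h1, h2⟩
    apply Subtype.ext
    simpa using h4
  -- the range
  have hrange : LinearMap.range (Φ.domRestrict T) = fixSp τ := by
    apply le_antisymm
    · rintro _ ⟨t, rfl⟩ e
      exact hτΦ e t
    · intro y hy
      have h1 : Φ y = (Nat.card E : K) • y := by
        rw [hΦ]
        simp only [hy _, Finset.sum_const, Finset.card_univ]
        rw [← Nat.card_eq_fintype_card, Nat.cast_smul_eq_nsmul]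
      have h2 : y = Φ ((Nat.card E : K)⁻¹ • y) := by
        rw [map_smul, h1, smul_smul, inv_mul_cancel₀ hE, one_smul]
      have h3 : ((Nat.card E : K)⁻¹ • y) ∈ ⨆ e, T.map (τ e) := by
        rw [htop]
        trivial
      have h4 : (⨆ e, T.map (τ e)).map Φ ≤ T.map Φ := by
        rw [Submodule.map_iSup]
        refine iSup_le fun e => ?_
        rintro _ ⟨_, ⟨t, ht, rfl⟩, rfl⟩
        exact ⟨t, ht, (hΦτ e t).symm⟩
      obtain ⟨t, ht, hte⟩ := h4 ⟨_, h3, rfl⟩
      refine ⟨⟨t, ht⟩, ?_⟩
      rw [h2]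
      exact hte
  rw [← hrange, LinearMap.finrank_range_of_inj hinj]

end Dim

section Rep

variable {K V F : Type*} [Field K] [AddCommGroup V] [Module K V] [Group F] (ρ : F →* End K V)

/-- The vectors fixed by a subgroup. -/
def fx (Y : Subgroup F) : Submodule K V where
  carrier := {v | ∀ y ∈ Y, ρ y v = v}
  add_mem' := fun ha hb y hy => by rw [map_add, ha y hy, hb y hy]
  zero_mem' := fun y _ => map_zero _
  smul_mem' := fun c v hv y hy => by rw [map_smul, hv y hy]

variable {ρ}

@[simp] theorem mem_fx {Y : Subgroup F} {v : V} : v ∈ fx ρ Y ↔ ∀ y ∈ Y, ρ y v = v := Iff.rfl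

theorem fx_anti {A B : Subgroup F} (h : A ≤ B) : fx ρ B ≤ fx ρ A := fun _ hv y hy => hv y (h hy)

@[simp] theorem fx_bot : fx ρ (⊥ : Subgroup F) = ⊤ := by
  ext v
  simp

theorem fx_sup (A B : Subgroup F) : fx ρ (A ⊔ B) = fx ρ A ⊓ fx ρ B := by
  apply le_antisymm
  · exact le_inf (fx_anti le_sup_left) (fx_anti le_sup_right)
  · rintro v ⟨ha, hb⟩ y hy
    rw [← Subgroup.closure_eq A, ← Subgroup.closure_eq B, ← Subgroup.closure_union] at hy
    induction hy using Subgroup.closure_induction with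
    | mem x hx =>
      rcases hx with hx | hx
      · exact ha x hx
      · exact hb x hx
    | one => simp
    | mul x y _ _ hx hy => rw [map_mul, Module.End.mul_apply, hy, hx]
    | inv x _ hx =>
      conv_lhs => rw [← hx]
      rw [← Module.End.mul_apply, ← map_mul, inv_mul_cancel, map_one, Module.End.one_apply]

variable (ρ)

/-- The average over a subgroup. -/
noncomputable def avg [Finite F] (Y : Subgroup F) : End K V :=
  letI := Fintype.ofFinite ↥Y
  (Nat.card Y : K)⁻¹ • ∑ y : ↥Y, ρ y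

variable {ρ}

variable [Finite F]

theorem avg_apply (Y : Subgroup F) [Fintype ↥Y] (v : V) :
    avg ρ Y v = (Nat.card Y : K)⁻¹ • ∑ y : ↥Y, ρ y v := by
  classical
  have h : ∀ (a b : Fintype ↥Y), (∑ y ∈ @Finset.univ _ a, ρ (y : F) v) = ∑ y ∈ @Finset.univ _ b, ρ (y : F) v := by
    intro a b
    congr
    exact Subsingleton.elim _ _
  simp only [avg, LinearMap.smul_apply, LinearMap.sum_apply]
  rw [h]

theorem avg_mul_of_mem (Y : Subgroup F) {y : F} (hy : y ∈ Y) (v : V) : avg ρ Y (ρ y v) = avg ρ Y v := by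
  letI := Fintype.ofFinite ↥Y
  rw [avg_apply, avg_apply]
  congr 1
  refine Fintype.sum_equiv (Equiv.mulRight (⟨y, hy⟩ : ↥Y)) _ _ fun x => ?_
  simp [map_mul, Module.End.mul_apply]

theorem mul_avg_of_mem (Y : Subgroup F) {y : F} (hy : y ∈ Y) (v : V) : ρ y (avg ρ Y v) = avg ρ Y v := by
  letI := Fintype.ofFinite ↥Y
  rw [avg_apply, map_smul, map_sum]
  congr 1
  refine Fintype.sum_equiv (Equiv.mulLeft (⟨y, hy⟩ : ↥Y)) _ _ fun x => ?_
  simp [map_mul, Module.End.mul_apply]

theorem avg_of_mem (Y : Subgroup F) (hK : (Nat.card Y : K) ≠ 0) {v : V} (hv : v ∈ fx ρ Y) : avg ρ Y v = v := by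
  letI := Fintype.ofFinite ↥Y
  rw [avg_apply]
  simp only [hv _ (Subtype.mem _), Finset.sum_const, Finset.card_univ]
  rw [← Nat.card_eq_fintype_card, ← Nat.cast_smul_eq_nsmul K, smul_smul, inv_mul_cancel₀ hK, one_smul]

theorem avg_mem_fx (Y : Subgroup F) (v : V) : avg ρ Y v ∈ fx ρ Y := fun _ hy => mul_avg_of_mem Y hy v

/-- Conjugation by an element normalizing the subgroup commutes with the average. -/
theorem avg_comm (Y : Subgroup F) {g : F} (hg : ∀ y ∈ Y, g * y * g⁻¹ ∈ Y) (hg' : ∀ y ∈ Y, g⁻¹ * y * g ∈ Y) (v : V) :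
    ρ g (avg ρ Y v) = avg ρ Y (ρ g v) := by
  letI := Fintype.ofFinite ↥Y
  rw [avg_apply, avg_apply, map_smul, map_sum]
  congr 1
  let e : ↥Y ≃ ↥Y :=
    { toFun := fun y => ⟨g * y * g⁻¹, hg y y.2⟩
      invFun := fun y => ⟨g⁻¹ * y * g, hg' y y.2⟩
      left_inv := fun y => by
        apply Subtype.ext
        simp only
        group
      right_inv := fun y => by
        apply Subtype.ext
        simp only
        group }
  refine Fintype.sum_equiv e _ _ fun y => ?_
  have h1 : ((e y : ↥Y) : F) * g = g * y := by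
    simp [e]
  rw [← Module.End.mul_apply, ← Module.End.mul_apply, ← map_mul, ← map_mul, h1]

/-- Invariant subspaces are preserved by the average. -/
theorem avg_mem_of_invariant (Y : Subgroup F) (W : Submodule K V) (hW : ∀ y ∈ Y, ∀ v ∈ W, ρ y v ∈ W) {v : V}
    (hv : v ∈ W) : avg ρ Y v ∈ W := by
  letI := Fintype.ofFinite ↥Y
  rw [avg_apply]
  exact W.smul_mem _ (W.sum_mem fun y _ => hW y y.2 v hv)

omit [Group F] [Finite F] in
/-- Splitting off the image of a projection. -/
theorem finrank_split [FiniteDimensional K V] (p : End K V) (W B : Submodule K V) (hBW : B ≤ W)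
    (hp : ∀ x ∈ W, p x ∈ B) (hpB : ∀ x ∈ B, p x = x) :
    finrank K W = finrank K B + finrank K ↥(W ⊓ LinearMap.ker p) := by
  have h1 : B ⊔ (W ⊓ LinearMap.ker p) = W := by
    apply le_antisymm
    · exact sup_le hBW inf_le_left
    · intro x hx
      have h2 : x - p x ∈ W ⊓ LinearMap.ker p := by
        refine ⟨W.sub_mem hx (hBW (hp x hx)), ?_⟩
        change p (x - p x) = 0
        rw [map_sub, hpB _ (hp x hx), sub_self]
      have h3 : x = p x + (x - p x) := by abel
      rw [h3]
      exact Submodule.add_mem_sup (hp x hx) h2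
  have h2 : B ⊓ (W ⊓ LinearMap.ker p) = ⊥ := by
    rw [Submodule.eq_bot_iff]
    rintro x ⟨hx, -, hx2⟩
    have hx3 : p x = 0 := hx2
    rw [← hpB x hx, hx3]
  have h3 := Submodule.finrank_sup_add_finrank_inf_eq B (W ⊓ LinearMap.ker p)
  rw [h1, h2, finrank_bot, add_zero] at h3
  exact h3

/-- The conjugation action of a subgroup on an invariant subgroup. -/
def conjOn (E N : Subgroup F) (h : ∀ e ∈ E, ∀ n ∈ N, e * n * e⁻¹ ∈ N) : ↥E →* MulAut ↥N where
  toFun e :=
    { toFun := fun n => ⟨e * n * e⁻¹, h e e.2 n n.2⟩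
      invFun := fun n => ⟨(e : F)⁻¹ * n * (e : F)⁻¹⁻¹, h _ (E.inv_mem e.2) n n.2⟩
      left_inv := fun n => Subtype.ext (by
        change (e : F)⁻¹ * ((e : F) * n * (e : F)⁻¹) * (e : F)⁻¹⁻¹ = n
        group)
      right_inv := fun n => Subtype.ext (by
        change (e : F) * ((e : F)⁻¹ * n * (e : F)⁻¹⁻¹) * (e : F)⁻¹ = n
        group)
      map_mul' := fun a b => Subtype.ext (by
        change (e : F) * ((a : F) * b) * (e : F)⁻¹ = ((e : F) * a * (e : F)⁻¹) * ((e : F) * b * (e : F)⁻¹)
        group) }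
  map_one' := by
    ext n
    simp
  map_mul' a b := by
    ext n
    simp [mul_assoc]

@[simp] theorem conjOn_apply (E N : Subgroup F) (h : ∀ e ∈ E, ∀ n ∈ N, e * n * e⁻¹ ∈ N) (e : ↥E) (n : ↥N) :
    ((conjOn E N h e n : ↥N) : F) = e * n * (e : F)⁻¹ := rfl

/-- The restriction of a representation of a subgroup to an invariant subspace. -/
def resRep (Y : Subgroup F) (S : Submodule K V) (hS : ∀ y ∈ Y, ∀ v ∈ S, ρ y v ∈ S) : ↥Y →* End K ↥S where
  toFun y := (ρ y).restrict (hS y y.2)
  map_one' := by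
    ext v
    simp
  map_mul' a b := by
    ext v
    simp

@[simp] theorem resRep_apply (Y : Subgroup F) (S : Submodule K V) (hS : ∀ y ∈ Y, ∀ v ∈ S, ρ y v ∈ S) (y : ↥Y) (v : ↥S) :
    ((resRep (ρ := ρ) Y S hS y v : ↥S) : V) = ρ y v := rfl

theorem card_cast_ne_zero_of_le {A B : Subgroup F} (h : A ≤ B) (hK : (Nat.card B : K) ≠ 0) : (Nat.card A : K) ≠ 0 := by
  intro h0
  apply hK
  obtain ⟨k, hk⟩ := Subgroup.card_dvd_of_le h
  rw [hk, Nat.cast_mul, h0, zero_mul]

/-- **The key step**: the invariant under passing through an abelian section of the kernel. -/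
theorem fx_step [IsAlgClosed K] [FiniteDimensional K V] (E N₀ N₁ : Subgroup F) (h01 : N₀ ≤ N₁)
    (hE0 : ∀ e ∈ E, ∀ n ∈ N₀, e * n * e⁻¹ ∈ N₀) (hE1 : ∀ e ∈ E, ∀ n ∈ N₁, e * n * e⁻¹ ∈ N₁)
    (hn : ∀ n ∈ N₁, ∀ m ∈ N₀, n * m * n⁻¹ ∈ N₀) (hc : ⁅N₁, N₁⁆ ≤ N₀)
    (hfpf : ∀ e ∈ E, e ≠ 1 → ∀ n ∈ N₁, e * n = n * e → n = 1)
    (hK : (Nat.card N₁ : K) ≠ 0) (hKE : (Nat.card E : K) ≠ 0) :
    (finrank K (fx ρ N₀) : ℤ) - Nat.card E * finrank K ↥(fx ρ N₀ ⊓ fx ρ E) =
      finrank K (fx ρ N₁) - Nat.card E * finrank K ↥(fx ρ N₁ ⊓ fx ρ E) := by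
  classical
  set A := fx ρ N₀ with hA
  set p := avg ρ N₁ with hp
  -- invariance of `A`
  have hA1 : ∀ n ∈ N₁, ∀ v ∈ A, ρ n v ∈ A := by
    intro n hn1 v hv m hm
    have h1 : n⁻¹ * m * n ∈ N₀ := by
      have := hn _ (N₁.inv_mem hn1) m hm
      simpa using this
    have h2 : m * n = n * (n⁻¹ * m * n) := by group
    rw [← Module.End.mul_apply, ← map_mul, h2, map_mul, Module.End.mul_apply, hv _ h1]
  have hAE : ∀ e ∈ E, ∀ v ∈ A, ρ e v ∈ A := by
    intro e he v hv m hm
    have h1 : e⁻¹ * m * e ∈ N₀ := by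
      have := hE0 _ (E.inv_mem he) m hm
      simpa using this
    have h2 : m * e = e * (e⁻¹ * m * e) := by group
    rw [← Module.End.mul_apply, ← map_mul, h2, map_mul, Module.End.mul_apply, hv _ h1]
  have hpE : ∀ e ∈ E, ∀ v, ρ e (p v) = p (ρ e v) := by
    intro e he v
    refine avg_comm N₁ (hE1 e he) ?_ v
    intro y hy
    have := hE1 _ (E.inv_mem he) y hy
    simpa using this
  let S : Submodule K V := A ⊓ LinearMap.ker p
  have hS1 : ∀ n ∈ N₁, ∀ v ∈ S, ρ n v ∈ S := by
    rintro n hn1 v ⟨hv, hv2⟩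
    refine ⟨hA1 n hn1 v hv, ?_⟩
    change p (ρ n v) = 0
    rw [hp, avg_mul_of_mem N₁ hn1]
    exact hv2
  have hSE : ∀ e ∈ E, ∀ v ∈ S, ρ e v ∈ S := by
    rintro e he v ⟨hv, hv2⟩
    refine ⟨hAE e he v hv, ?_⟩
    change p (ρ e v) = 0
    rw [← hpE e he]
    have : p v = 0 := hv2
    rw [this, map_zero]
  -- the splittings
  have h1 := finrank_split p A (fx ρ N₁) (fx_anti h01) (fun x _ => avg_mem_fx N₁ x)
    (fun x hx => avg_of_mem N₁ hK hx)
  have h2 := finrank_split p (A ⊓ fx ρ E) (fx ρ N₁ ⊓ fx ρ E) (inf_le_inf_right _ (fx_anti h01))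
    (fun x hx => ⟨avg_mem_fx N₁ x, fun e he => by rw [hpE e he, hx.2 e he]⟩)
    (fun x hx => avg_of_mem N₁ hK hx.1)
  -- freeness
  let σ := resRep (ρ := ρ) N₁ S hS1
  let τ := resRep (ρ := ρ) E S hSE
  have hcomm : ∀ n n', σ n * σ n' = σ n' * σ n := by
    intro n n'
    ext v
    simp only [σ, Module.End.mul_apply, resRep_apply]
    have hc1 : (n' : F)⁻¹ * (n : F)⁻¹ * n' * n ∈ N₀ := by
      apply hc
      have := Subgroup.commutator_mem_commutator (N₁.inv_mem n'.2) (N₁.inv_mem n.2)
      simpa [commutatorElement_def] using this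
    have h3 : (n : F) * n' = n' * n * ((n : F)⁻¹ * (n' : F)⁻¹ * n * n') := by group
    have hc2 : (n : F)⁻¹ * (n' : F)⁻¹ * n * n' ∈ N₀ := by
      apply hc
      have := Subgroup.commutator_mem_commutator (N₁.inv_mem n.2) (N₁.inv_mem n'.2)
      simpa [commutatorElement_def] using this
    rw [← Module.End.mul_apply, ← map_mul, h3, map_mul, Module.End.mul_apply, v.2.1 _ hc2, ← Module.End.mul_apply,
      ← map_mul]
  have hcompat : ∀ e n, τ e * σ n = σ (conjOn E N₁ hE1 e n) * τ e := by
    intro e n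
    ext v
    simp only [σ, τ, Module.End.mul_apply, resRep_apply, conjOn_apply]
    rw [← Module.End.mul_apply, ← Module.End.mul_apply, ← map_mul, ← map_mul]
    congr 2
    group
  have hfpf' : ∀ e, e ≠ 1 → ∀ n, conjOn E N₁ hE1 e n = n → n = 1 := by
    intro e he n hn'
    have h3 : (e : F) * n * (e : F)⁻¹ = n := congrArg Subtype.val hn'
    have h3' : (e : F) * n = n * e := by
      calc (e : F) * n = ((e : F) * n * (e : F)⁻¹) * e := by group
        _ = n * e := by rw [h3]
    have h4 := hfpf e e.2 (fun h => he (Subtype.ext h)) n n.2 h3'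
    exact Subtype.ext h4
  have hfix : ∀ v : ↥S, (∀ n, σ n v = v) → v = 0 := by
    intro v hv
    have h3 : (v : V) ∈ fx ρ N₁ := fun n hn1 => congrArg Subtype.val (hv ⟨n, hn1⟩)
    have h4 := avg_of_mem N₁ hK h3
    have h5 : p (v : V) = 0 := v.2.2
    apply Subtype.ext
    rw [← h4]
    exact h5
  obtain ⟨T, hind, htop, -⟩ := exists_free_block σ τ (conjOn E N₁ hE1) hcomm hcompat hfpf' hK hfix
  have h3 := finrank_of_free τ T hind htop
  have h4 := finrank_fixSp_of_free τ T hind htop hKE
  -- identify the fixed space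
  have h5 : (fixSp τ).map S.subtype = (A ⊓ fx ρ E) ⊓ LinearMap.ker p := by
    ext x
    constructor
    · rintro ⟨v, hv, rfl⟩
      refine ⟨⟨v.2.1, fun e he => congrArg Subtype.val (hv ⟨e, he⟩)⟩, v.2.2⟩
    · rintro ⟨⟨h6, h7⟩, h8⟩
      refine ⟨⟨x, h6, h8⟩, ?_, rfl⟩
      intro e
      exact Subtype.ext (h7 e e.2)
  have h6 : finrank K ↥((A ⊓ fx ρ E) ⊓ LinearMap.ker p) = finrank K T := by
    rw [← h5, Submodule.finrank_map_subtype_eq, h4]
  rw [h6] at h2
  change finrank K ↥S = _ at h3
  have h7 : finrank K ↥(A ⊓ LinearMap.ker p) = finrank K ↥S := rfl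
  rw [h7, h3] at h1
  rw [h1, h2]
  push_cast
  ring

/-- The derived sequence inside an ambient group. -/
def derSeq (U : Subgroup F) : ℕ → Subgroup F
  | 0 => U
  | i + 1 => ⁅derSeq U i, derSeq U i⁆

theorem derSeq_le_self (U : Subgroup F) (i : ℕ) : derSeq U (i + 1) ≤ derSeq U i := by
  rw [derSeq, Subgroup.commutator_le]
  intro a ha b hb
  have h := (derSeq U i).mul_mem (ha) (((derSeq U i).mul_mem hb ((derSeq U i).inv_mem ha)))
  rw [commutatorElement_def]
  have h2 := (derSeq U i).mul_mem h ((derSeq U i).inv_mem hb)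
  simpa [mul_assoc] using h2

theorem derSeq_le (U : Subgroup F) (i : ℕ) : derSeq U i ≤ U := by
  induction i with
  | zero => exact le_rfl
  | succ i ih => exact (derSeq_le_self U i).trans ih

theorem derSeq_conj (U E : Subgroup F) (hE : ∀ e ∈ E, ∀ n ∈ U, e * n * e⁻¹ ∈ U) (i : ℕ) :
    ∀ e ∈ E, ∀ n ∈ derSeq U i, e * n * e⁻¹ ∈ derSeq U i := by
  induction i with
  | zero => exact hE
  | succ i ih =>
    intro e he n hn
    have h1 : (⁅derSeq U i, derSeq U i⁆).map (MulAut.conj e).toMonoidHom ≤ ⁅derSeq U i, derSeq U i⁆ := by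
      rw [Subgroup.map_commutator]
      apply Subgroup.commutator_mono <;>
      · rintro _ ⟨x, hx, rfl⟩
        exact ih e he x hx
    exact h1 ⟨n, hn, rfl⟩

theorem derSeq_eq_bot (U : Subgroup F) (h : Group.IsSolvable ↥U) : ∃ m, derSeq U m = ⊥ := by
  obtain ⟨m, hm⟩ := h.solvable
  refine ⟨m, ?_⟩
  have h1 : ∀ i, (derivedSeries ↥U i).map U.subtype = derSeq U i := by
    intro i
    induction i with
    | zero =>
      change (⊤ : Subgroup ↥U).map U.subtype = U
      rw [← MonoidHom.range_eq_map, Subgroup.range_subtype]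
    | succ i ih =>
      rw [derivedSeries_succ, Subgroup.map_commutator, ih]
      rfl
  rw [← h1, hm]
  simp

/-- The dimension formula over an algebraically closed field. -/
theorem fx_formula_closed [IsAlgClosed K] [FiniteDimensional K V] (U E : Subgroup F) (hU : Group.IsSolvable ↥U)
    (hEU : ∀ e ∈ E, ∀ n ∈ U, e * n * e⁻¹ ∈ U) (hfpf : ∀ e ∈ E, e ≠ 1 → ∀ n ∈ U, e * n = n * e → n = 1)
    (hK : (Nat.card U : K) ≠ 0) (hKE : (Nat.card E : K) ≠ 0) :
    (finrank K V : ℤ) - Nat.card E * finrank K ↥(fx ρ E) =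
      finrank K (fx ρ U) - Nat.card E * finrank K ↥(fx ρ U ⊓ fx ρ E) := by
  have h : ∀ i, (finrank K (fx ρ (derSeq U i)) : ℤ) - Nat.card E * finrank K ↥(fx ρ (derSeq U i) ⊓ fx ρ E) =
      finrank K (fx ρ U) - Nat.card E * finrank K ↥(fx ρ U ⊓ fx ρ E) := by
    intro i
    induction i with
    | zero => rfl
    | succ i ih =>
      rw [← ih]
      refine fx_step E (derSeq U (i + 1)) (derSeq U i) (derSeq_le_self U i) (derSeq_conj U E hEU _)
        (derSeq_conj U E hEU _) ?_ le_rfl (fun e he hne n hn => hfpf e he hne n (derSeq_le U i hn))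
        (card_cast_ne_zero_of_le (derSeq_le U i) hK) hKE
      intro n hn m hm
      have h1 : n * m * n⁻¹ = (n * m * n⁻¹ * m⁻¹) * m := by group
      rw [h1]
      have h2 : n * m * n⁻¹ * m⁻¹ ∈ derSeq U (i + 1) := by
        change n * m * n⁻¹ * m⁻¹ ∈ ⁅derSeq U i, derSeq U i⁆
        have := Subgroup.commutator_mem_commutator hn (derSeq_le_self U i hm)
        simpa [commutatorElement_def] using this
      exact Subgroup.mul_mem _ h2 hm
  obtain ⟨m, hm⟩ := derSeq_eq_bot U hU
  have h2 := h m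
  rw [hm, fx_bot, top_inf_eq] at h2
  rw [← h2, finrank_top]

end Rep

section BaseChange

open TensorProduct

variable {k V F : Type*} [Field k] [AddCommGroup V] [Module k V] [FiniteDimensional k V] [Group F] [Finite F]

/-- Base change of a representation. -/
noncomputable def rhoK (K : Type*) [Field K] [Algebra k K] (ρ : F →* End k V) : F →* End K (K ⊗[k] V) :=
  (Module.End.baseChangeHom k K V : End k V →* End K (K ⊗[k] V)).comp ρ

theorem rhoK_apply (K : Type*) [Field K] [Algebra k K] (ρ : F →* End k V) (g : F) :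
    rhoK K ρ g = (ρ g).baseChange K := rfl

theorem avg_baseChange (K : Type*) [Field K] [Algebra k K] (ρ : F →* End k V) (Y : Subgroup F) :
    avg (rhoK K ρ) Y = (avg ρ Y).baseChange K := by
  letI := Fintype.ofFinite ↥Y
  apply LinearMap.ext
  intro x
  induction x using TensorProduct.induction_on with
  | zero => simp
  | tmul a b =>
    rw [avg_apply, LinearMap.baseChange_tmul, avg_apply]
    simp only [rhoK_apply, LinearMap.baseChange_tmul]
    rw [TensorProduct.tmul_smul, ← TensorProduct.tmul_sum]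
    have h1 : ((Nat.card Y : k)⁻¹ • (a ⊗ₜ[k] (∑ y : ↥Y, (ρ y) b))) = (Nat.card Y : K)⁻¹ • (a ⊗ₜ[k] (∑ y : ↥Y, (ρ y) b)) := by
      rw [← algebraMap_smul K, map_inv₀, map_natCast]
    exact h1.symm
  | add x y hx hy => rw [map_add, map_add, hx, hy]

/-- The range of a base changed map. -/
theorem finrank_range_baseChange (K : Type*) [Field K] [Algebra k K] (p : End k V) :
    finrank K (LinearMap.range (p.baseChange K)) = finrank k (LinearMap.range p) := by
  have h1 : LinearMap.range (p.baseChange K) =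
      LinearMap.range ((LinearMap.range p).subtype.baseChange K) := by
    apply le_antisymm
    · rintro _ ⟨x, rfl⟩
      induction x using TensorProduct.induction_on with
      | zero => simp
      | tmul a b =>
        refine ⟨a ⊗ₜ[k] ⟨p b, ⟨b, rfl⟩⟩, ?_⟩
        simp
      | add x y hx hy =>
        rw [map_add]
        exact Submodule.add_mem _ hx hy
    · rintro _ ⟨x, rfl⟩
      induction x using TensorProduct.induction_on with
      | zero => simp
      | tmul a b =>
        obtain ⟨b, c, hc⟩ := b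
        refine ⟨a ⊗ₜ[k] c, ?_⟩
        simp [hc]
      | add x y hx hy =>
        rw [map_add]
        exact Submodule.add_mem _ hx hy
  have hinj : Function.Injective ((LinearMap.range p).subtype.baseChange K) :=
    Module.Flat.lTensor_preserves_injective_linearMap (M := K) _ (Submodule.injective_subtype _)
  rw [h1, LinearMap.finrank_range_of_inj hinj, Module.finrank_baseChange]

theorem fx_eq_range (ρ : F →* End k V) (Y : Subgroup F) (hK : (Nat.card Y : k) ≠ 0) :
    fx ρ Y = LinearMap.range (avg ρ Y) := by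
  apply le_antisymm
  · intro v hv
    exact ⟨v, avg_of_mem Y hK hv⟩
  · rintro _ ⟨v, rfl⟩
    exact avg_mem_fx Y v

theorem finrank_fx_baseChange (K : Type*) [Field K] [Algebra k K] (ρ : F →* End k V) (Y : Subgroup F)
    (hK : (Nat.card Y : k) ≠ 0) : finrank K (fx (rhoK K ρ) Y) = finrank k (fx ρ Y) := by
  have hK' : (Nat.card Y : K) ≠ 0 := by
    intro h
    apply hK
    have h2 : algebraMap k K (Nat.card Y : k) = 0 := by
      rw [map_natCast]
      exact h
    exact (map_eq_zero _).mp h2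
  rw [fx_eq_range _ _ hK', fx_eq_range _ _ hK, avg_baseChange, finrank_range_baseChange]

/-- **The dimension formula** for a Frobenius group acting on a vector space in coprime characteristic. -/
theorem fx_formula (ρ : F →* End k V) (U E : Subgroup F) (hU : Group.IsSolvable ↥U)
    (hEU : ∀ e ∈ E, ∀ n ∈ U, e * n * e⁻¹ ∈ U) (hfpf : ∀ e ∈ E, e ≠ 1 → ∀ n ∈ U, e * n = n * e → n = 1)
    (hK : (Nat.card ↥(U ⊔ E) : k) ≠ 0) :
    finrank k V + Nat.card E * finrank k (fx ρ (U ⊔ E)) =
      Nat.card E * finrank k (fx ρ E) + finrank k (fx ρ U) := by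
  let K := AlgebraicClosure k
  have hKU : (Nat.card U : k) ≠ 0 := card_cast_ne_zero_of_le le_sup_left hK
  have hKE : (Nat.card E : k) ≠ 0 := card_cast_ne_zero_of_le le_sup_right hK
  have hcast : ∀ n : ℕ, (n : k) ≠ 0 → (n : K) ≠ 0 := by
    intro n hn h
    apply hn
    have h2 : algebraMap k K (n : k) = 0 := by
      rw [map_natCast]
      exact h
    exact (map_eq_zero _).mp h2
  have h := fx_formula_closed (ρ := rhoK K ρ) U E hU hEU hfpf (hcast _ hKU) (hcast _ hKE)
  rw [← fx_sup, finrank_fx_baseChange K ρ _ hKE, finrank_fx_baseChange K ρ _ hKU,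
    finrank_fx_baseChange K ρ _ hK, Module.finrank_baseChange] at h
  omega

end BaseChange

end Cfsg.Agent.Lib.FT
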